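/-
Flavell's fixed point theorem `C_{[H,P]}(P) = ⟨C_{[h,P]}(P) : h ∈ H⟩` (`P` of odd prime order, `H` a solvable
`p'`-group): definitions and the non-central case.
-/
import Cfsg.Agent.Odd.Wielandt
import Cfsg.Agent.Odd.BG6a
import Cfsg.Agent.Odd.BG1e
import Cfsg.Agent.Odd.RelProd

set_option autoImplicit false

open scoped Pointwise
open Cfsg CL.Grp CL.Odd Subgroup

namespace CL.Flv

universe u

variable {X : Type u} [Group X] {G H P N V W : Subgroup X} {a c g y : X} {p : ℕ}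

/-- `[g, P]`. -/
def D (P : Subgroup X) (g : X) : Subgroup X := closure {c | ∃ a ∈ P, c = g⁻¹ * (a * g * a⁻¹)}

/-- the subgroup generated by the `C_{[g,P]}(P)`, `g ∈ G`. -/
def Sg (G P : Subgroup X) : Subgroup X := ⨆ g ∈ G, D P g ⊓ C[P]

theorem gen_mem (ha : a ∈ P) (g : X) : g⁻¹ * (a * g * a⁻¹) ∈ D P g := subset_closure ⟨a, ha, rfl⟩

theorem D_le_iff : D P g ≤ H ↔ ∀ a ∈ P, g⁻¹ * (a * g * a⁻¹) ∈ H := by
  unfold D
  rw [closure_le]
  exact ⟨fun h a ha => h ⟨a, ha, rfl⟩, fun h c ⟨a, ha, e⟩ => e ▸ h a ha⟩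

theorem D_le_comm (hg : g ∈ H) : D P g ≤ ⁅H, P⁆ := D_le_iff.2 fun a ha => by
  have := commutator_mem_commutator (H.inv_mem hg) ha
  rw [commutatorElement_def] at this
  convert this using 1
  group

theorem D_le (hg : g ∈ H) (hn : P ≤ N[H]) : D P g ≤ H := (D_le_comm hg).trans (comm_le_left hn)

theorem conj_D (h : ∀ a ∈ P, c * (g⁻¹ * (a * g * a⁻¹)) * c⁻¹ ∈ H) (hy : y ∈ D P g) : c * y * c⁻¹ ∈ H :=
  (D_le_iff (H := H.comap (MulAut.conj c).toMonoidHom)).2 h hy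

theorem norm_D (P : Subgroup X) (g : X) : P ≤ N[D P g] := le_norm_iff.2 fun b hb _ hy =>
  conj_D (fun a ha => by
    have := mul_mem (inv_mem (gen_mem hb g)) (gen_mem (P.mul_mem hb ha) g)
    convert this using 1
    group) hy

theorem D_cent_mul (hc : c ∈ C[P]) (g : X) : D P (c * g) = D P g := by
  have k : ∀ a ∈ P, (c * g)⁻¹ * (a * (c * g) * a⁻¹) = g⁻¹ * (a * g * a⁻¹) := fun a ha => by
    have e := mem_cent.1 hc a ha
    calc (c * g)⁻¹ * (a * (c * g) * a⁻¹) = g⁻¹ * c⁻¹ * (a * c) * g * a⁻¹ := by group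
      _ = _ := by rw [e]; group
  exact le_antisymm (D_le_iff.2 fun a ha => k a ha ▸ gen_mem ha g) (D_le_iff.2 fun a ha => k a ha ▸ gen_mem ha _)

theorem conj_mem_D (hc : c ∈ C[P]) (hy : y ∈ D P g) : c * y * c⁻¹ ∈ D P (g * c⁻¹) :=
  conj_D (fun a ha => by
    have e := mem_cent.1 hc a ha
    have := gen_mem ha (g * c⁻¹)
    convert this using 1
    calc c * (g⁻¹ * (a * g * a⁻¹)) * c⁻¹ = c * g⁻¹ * a * g * (c * a)⁻¹ := by group
      _ = _ := by rw [← e]; group) hy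

theorem le_Sg (hg : g ∈ G) : D P g ⊓ C[P] ≤ Sg G P := le_iSup₂_of_le (f := fun g (_ : g ∈ G) => D P g ⊓ C[P]) g hg le_rfl

theorem Sg_le_iff : Sg G P ≤ H ↔ ∀ g ∈ G, D P g ⊓ C[P] ≤ H := iSup₂_le_iff

theorem Sg_le (hn : P ≤ N[G]) : Sg G P ≤ G ⊓ C[P] := Sg_le_iff.2 fun _ hg => inf_le_inf_right _ (D_le hg hn)

theorem Sg_mono (h : H ≤ G) : Sg H P ≤ Sg G P := Sg_le_iff.2 fun _ hg => le_Sg (h hg)

theorem norm_Sg : G ⊓ C[P] ≤ N[Sg G P] := le_norm_iff.2 fun c hc _ hy =>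
  (Sg_le_iff (H := (Sg G P).comap (MulAut.conj c).toMonoidHom)).2 (fun g hg z hz =>
    le_Sg (G.mul_mem hg (G.inv_mem hc.1)) ⟨conj_mem_D hc.2 hz.1,
      C[P].mul_mem (C[P].mul_mem hc.2 hz.2) (C[P].inv_mem hc.2)⟩) hy

theorem comm_le_of_D (h : ∀ g ∈ G, D P g ≤ H) : ⁅G, P⁆ ≤ H := commutator_le.2 fun g hg a ha => by
  have := h _ (G.inv_mem hg) (gen_mem ha _)
  rw [commutatorElement_def]
  convert this using 1
  group

variable [Finite X]

theorem decomp (hn : P ≤ N[G]) (hc : (Nat.card P).Coprime (Nat.card G)) (hs : Group.IsSolvable G) (hg : g ∈ G) :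
    ∃ c ∈ G ⊓ C[P], ∃ d ∈ D P g, g = c * d :=
  coprime_mem_sup_cent hn (D_le hg hn) (norm_D P g) (coprime_of_le_right hc (D_le hg hn))
    (Or.inr (sol_of_le hs (D_le hg hn))) hg fun _ ha => gen_mem ha g

theorem D_le_comm_D (hn : P ≤ N[G]) (hc : (Nat.card P).Coprime (Nat.card G)) (hs : Group.IsSolvable G)
    (hg : g ∈ G) : D P g ≤ ⁅D P g, P⁆ := by
  obtain ⟨c, hc', d, hd, e⟩ := decomp hn hc hs hg
  have : D P g = D P d := by rw [e, D_cent_mul hc'.2]
  exact this.le.trans (D_le_comm hd)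

/-- a minimal counterexample. -/
structure Ctx (p : ℕ) (G P : Subgroup X) : Prop where
  pp : p.Prime
  p2 : p ≠ 2
  card : Nat.card P = p
  norm : P ≤ N[G]
  cop : (Nat.card P).Coprime (Nat.card G)
  sol : Group.IsSolvable G
  comm : ⁅G, P⁆ = G
  sub : ∀ H : Subgroup X, H < G → P ≤ N[H] → ⁅H, P⁆ ⊓ C[P] ≤ Sg G P
  quo : ∀ N : Subgroup X, N ≤ G → N ≠ ⊥ → G ⊔ P ≤ N[N] → G ⊓ C[P] ≤ Sg G P ⊔ (N ⊓ C[P])
  bad : ¬ G ⊓ C[P] ≤ Sg G P

namespace Ctx

variable (h : Ctx p G P)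
include h

theorem ne_bot : G ≠ ⊥ := fun e => h.bad (inf_le_left.trans (e.le.trans bot_le))

theorem nn : G ⊔ P ≤ N[G] := sup_le (le_norm_self G) h.norm

theorem copl (hH : H ≤ G) : (Nat.card P).Coprime (Nat.card H) := coprime_of_le_right h.cop hH

theorem eq_bot (hN : N ≤ G) (hn : G ⊔ P ≤ N[N]) (hS : N ⊓ C[P] ≤ Sg G P) : N = ⊥ := by
  by_contra k
  exact h.bad ((h.quo N hN k hn).trans (sup_le le_rfl hS))

theorem eq_bot_D (hg : g ∈ G) (hN : N ≤ D P g) (hn : G ⊔ P ≤ N[N]) : N = ⊥ :=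
  h.eq_bot (hN.trans (D_le hg h.norm)) hn ((inf_le_inf_right _ hN).trans (le_Sg hg))

section NC

variable (hV : MinNormal V (G ⊔ P)) (hVG : V ≤ G)
include hV hVG

theorem abV : IsMulCommutative V := hV.abelian (sol_of_le h.sol hVG)

theorem inf_D (hg : g ∈ G) (e : V ⊔ D P g = G) : V ⊓ D P g = ⊥ := by
  have nP : P ≤ N[V] := le_sup_right.trans hV.norm
  have nG : G ≤ N[V] := le_sup_left.trans hV.norm
  refine h.eq_bot_D hg inf_le_right (sup_le ?_ (le_norm_inf nP (norm_D P g)))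
  rw [← e]
  exact sup_le (le_norm_of_abelian (h.abV hV hVG) le_rfl inf_le_left)
    (le_norm_inf ((D_le hg h.norm).trans nG) (le_norm_self _))

theorem exists_suppl (hc : ¬ V ≤ C[G]) : ∃ g ∈ G, V ⊔ D P g = G := by
  by_contra k
  have nP : P ≤ N[V] := le_sup_right.trans hV.norm
  have nG : G ≤ N[V] := le_sup_left.trans hV.norm
  have ab := h.abV hV hVG
  have e : ⁅V, G⁆ = V := hV.eq_of_le (comm_le_left nG) (le_norm_comm hV.norm h.nn) fun e => hc (comm_eq_bot_iff.1 e)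
  let T : Subgroup X := ⁅V, P⁆ ⊔ (Sg G P ⊓ V)
  have hT : T ≤ V := sup_le (comm_le_left nP) inf_le_right
  have k1 : ∀ g ∈ G, ⁅V, D P g⁆ ≤ T := fun g hg => by
    have hD := D_le hg h.norm
    have lt : V ⊔ D P g < G := lt_of_le_of_ne (sup_le hVG hD) fun e => k ⟨g, hg, e⟩
    have n1 : P ≤ N[V ⊔ D P g] := le_norm_sup nP (norm_D P g)
    have l1 : ⁅V, D P g⁆ ≤ ⁅V ⊔ D P g, P⁆ :=
      (commutator_mono le_rfl ((D_le_comm_D h.norm h.cop h.sol hg).trans (commutator_mono le_sup_right le_rfl))).trans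
        (comm_le_right (le_sup_left.trans (left_le_norm_comm _ _)))
    have l2 : ⁅V, D P g⁆ ≤ V := comm_le_left (hD.trans nG)
    rw [← coprime_cent_prod (le_norm_comm nP (norm_D P g)) (h.copl (l2.trans hVG))
      (Or.inr (sol_of_le h.sol (l2.trans hVG)))]
    exact sup_le_sup (commutator_mono l2 le_rfl)
      (le_inf ((inf_le_inf_right _ l1).trans (h.sub _ lt n1)) (inf_le_left.trans l2))
  let Y : Subgroup X :=
    { carrier := {y | y ∈ G ∧ ∀ v ∈ V, v * (y * v⁻¹ * y⁻¹) ∈ T}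
      one_mem' := ⟨G.one_mem, fun v _ => by simp⟩
      mul_mem' := fun {y z} hy hz => ⟨G.mul_mem hy.1 hz.1, fun v hv => by
        have h1 := hz.2 v hv
        have h2 := hy.2 _ (V.inv_mem (hT h1))
        have h3 := T.mul_mem (hy.2 v hv) (T.mul_mem h1 h2)
        convert h3 using 1
        group⟩
      inv_mem' := fun {y} hy => ⟨G.inv_mem hy.1, fun v hv => by
        have h1 := hy.2 _ (conj_mem_of_norm' (nG hy.1) hv)
        convert T.inv_mem h1 using 1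
        group⟩ }
  have k2 : G ≤ Y := h.comm.ge.trans (comm_le_of_D fun g hg y hy => ⟨D_le hg h.norm hy, fun v hv => by
    have := k1 g hg (commutator_mem_commutator hv hy)
    rw [commutatorElement_def] at this
    convert this using 1
    group⟩)
  have k3 : V ≤ T := e.ge.trans (commutator_le.2 fun v hv y hy => by
    have := (k2 hy).2 v hv
    rw [commutatorElement_def]
    convert this using 1
    group)
  refine hV.ne_bot (h.eq_bot hVG hV.norm fun v hv => ?_)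
  obtain ⟨u, hu, s, hs, rfl⟩ := (mem_sup_norm (le_norm_of_abelian ab inf_le_right (comm_le_left nP))).1 (k3 hv.1)
  have hu1 : u ∈ ⁅V, P⁆ ⊓ C[P] := ⟨hu, by
    have := C[P].mul_mem hv.2 (C[P].inv_mem (Sg_le h.norm hs.1).2)
    rwa [mul_inv_cancel_right] at this⟩
  rw [coprime_abel_cent_TI nP (h.copl hVG) ab, mem_bot] at hu1
  rw [hu1, one_mul]
  exact hs.1

/-- the Frobenius case `G = V W`. -/
theorem frob {q r : ℕ} (hq : q.Prime) (hr : r.Prime) (hqr : q ≠ r) (hVq : IsPGroup q V) (hWr : IsPGroup r W)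
    (hW : IsMulCommutative W) (hg : g ∈ G) (eD : D P g = W) (e : V ⊔ W = G) (hc : V ⊓ C[W] = ⊥) : False := by
  haveI := Fact.mk hq
  haveI := Fact.mk hr
  have nP : P ≤ N[V] := le_sup_right.trans hV.norm
  have nG : G ≤ N[V] := le_sup_left.trans hV.norm
  have hWG : W ≤ G := e ▸ le_sup_right
  have nW : P ≤ N[W] := eD ▸ norm_D P g
  have W0 : W ≠ ⊥ := fun k => hV.ne_bot (by rwa [k, cent_bot, inf_top_eq] at hc)
  have c1 : W ⊓ C[P] = ⊥ := eq_bot_iff.2 ((inf_le_inf_right _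
    (eD ▸ D_le_comm_D h.norm h.cop h.sol hg)).trans (coprime_abel_cent_TI nW (h.copl hWG) hW).le)
  have piV : IsPiSubgroup {q} V := fun s hs hd => eq_of_prime_dvd_card_isPGroup hVq hs hd
  have piW : IsPiSubgroup {q}ᶜ W := fun s hs hd k => hqr ((Set.mem_singleton_iff.1 k).symm.trans
    (eq_of_prime_dvd_card_isPGroup hWr hs hd))
  have cVW : (Nat.card V).Coprime (Nat.card W) := coprime_card_of_pi_compl piV piW
  have sd : Sdp V W G := ⟨e, hWG.trans nG, inf_eq_bot_of_coprime_card cVW⟩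
  have hallV : IsPiHallOf {q} V G := sd.hall_left piV piW
  have sP : Sdp W P (W ⊔ P) := Sdp.of_coprime nW (h.copl hWG).symm
  have fr : Frob (W ⊔ P) W P := Frob.of_prime sP W0 (h.card ▸ h.pp) c1
  have cnt := fr.card_eq_pow (sup_le (hWG.trans nG) nP) (by
    rw [← sP.card]
    exact cVW.mul_right (h.copl hVG).symm) (sol_of_le h.sol hVG) hc
  have cG : G ⊓ C[P] ≤ V := by
    rw [← e, coprime_cent_mulG nW nP (hWG.trans nG) (h.copl hVG) (Or.inr (sol_of_le h.sol hVG)), c1, sup_bot_eq]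
    exact inf_le_left
  have key : IsProd (V ⊓ C[cj g⁻¹ • P]) (V ⊓ C[P]) V := ⟨inf_le_left, inf_le_left, fun v hv => by
    have hgv : g * v ∈ G := G.mul_mem hg (hVG hv)
    have hD := D_le hgv h.norm
    have e2 : V ⊔ D P (g * v) = G := by
      refine le_antisymm (sup_le hVG hD) (e.ge.trans (sup_le le_sup_left (eD.ge.trans (D_le_iff.2 fun a ha => ?_))))
      have := mul_mem (mul_mem (mem_sup_left (T := D P (g * v)) hv) (mem_sup_right (gen_mem ha (g * v))))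
        (mem_sup_left (conj_mem_of_norm (nP ha) (V.inv_mem hv)))
      convert this using 1
      group
    have sd2 : Sdp V (D P (g * v)) G := ⟨e2, hD.trans nG, h.inf_D hV hVG hgv e2⟩
    obtain ⟨c, hc', ec⟩ := coprime_Hall_trans h.norm h.cop h.sol (sd.hall_compl_right hallV)
      (sd2.hall_compl_right hallV) nW (norm_D P _)
    have hcV : c ∈ V := cG hc'
    have hu : v * c ∈ V := V.mul_mem hv hcV
    refine ⟨v * c, ⟨hu, mem_cent.2 fun b hb => ?_⟩, c⁻¹, ⟨V.inv_mem hcV, C[P].inv_mem hc'.2⟩, by group⟩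
    obtain ⟨a, ha, rfl⟩ := mem_cj_iff_exists.1 hb
    have m1 := gen_mem ha (g * v)
    rw [← ec, mem_cj] at m1
    have m2 : g⁻¹ * (a * g * a⁻¹) ∈ W := eD ▸ gen_mem ha g
    have ea := mem_cent.1 hc'.2 a ha
    have m3 : (v * c)⁻¹ * ((g⁻¹ * a * g) * (v * c) * (g⁻¹ * a * g)⁻¹) ∈ V ⊓ W := by
      refine ⟨V.mul_mem (V.inv_mem hu) (conj_mem_of_norm ?_ hu), ?_⟩
      · exact mul_mem (mul_mem (inv_mem (nG hg)) (nP ha)) (nG hg)
      · have := W.mul_mem m1 (W.inv_mem m2)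
        show _ ∈ W
        convert this using 1
        calc (v * c)⁻¹ * ((g⁻¹ * a * g) * (v * c) * (g⁻¹ * a * g)⁻¹)
            = c⁻¹ * v⁻¹ * g⁻¹ * a * g * v * a⁻¹ * (a * c) * g⁻¹ * a⁻¹ * g := by group
          _ = _ := by rw [ea]; group
    rw [sd.inf_eq, mem_bot] at m3
    calc g⁻¹ * a * g⁻¹⁻¹ * (v * c)
        = (v * c) * ((v * c)⁻¹ * ((g⁻¹ * a * g) * (v * c) * (g⁻¹ * a * g)⁻¹)) * (g⁻¹ * a * g) := by group
      _ = _ := by rw [m3, mul_one, inv_inv]⟩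
  have dv := key.card_dvd
  have ec : V ⊓ C[cj g⁻¹ • P] = cj g⁻¹ • (V ⊓ C[P]) := by
    rw [cj_inf, cj_centralizer, cj_eq_self (inv_mem (nG hg))]
  rw [ec, card_cj, cnt, h.card, ← pow_two] at dv
  have n1 : Nat.card ↥(V ⊓ C[P]) = 1 := by
    by_contra k
    have k1 : 1 < Nat.card ↥(V ⊓ C[P]) := lt_of_le_of_ne Nat.card_pos (Ne.symm k)
    have := (Nat.pow_dvd_pow_iff_le_right k1).1 dv
    have := h.pp.two_le
    exact h.p2 (by omega)
  exact hV.ne_bot (h.eq_bot hVG hV.norm ((card_eq_one.1 n1).le.trans bot_le))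

theorem central : V ≤ C[G] := by
  by_contra hc
  obtain ⟨g, hg, e⟩ := h.exists_suppl hV hVG hc
  have nP : P ≤ N[V] := le_sup_right.trans hV.norm
  have nG : G ≤ N[V] := le_sup_left.trans hV.norm
  have ab := h.abV hV hVG
  have hD := D_le hg h.norm
  have iD := h.inf_D hV hVG hg e
  have D0 : D P g ≠ ⊥ := fun k => hc (by rw [← e, k, sup_bot_eq]; exact abelian_iff.1 ab)
  obtain ⟨W, r, hr, hW, hWD, eW⟩ := exists_minNormal_abelem (H := D P g ⊔ P) (sup_le (le_norm_self _) (norm_D P g)) D0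
    (sol_of_le h.sol hD)
  obtain ⟨q, hq, eV⟩ := minnormal_solvable_abelem hV (sol_of_le h.sol hVG)
  have hVq : IsPGroup q V := fun x => ⟨1, Subtype.ext (by simpa using eV.2 x x.2)⟩
  have hWr : IsPGroup r W := fun x => ⟨1, Subtype.ext (by simpa using eW.2 x x.2)⟩
  have hWG : W ≤ G := hWD.trans hD
  have nW : P ≤ N[W] := le_sup_right.trans hW.norm
  have nDW : D P g ≤ N[W] := le_sup_left.trans hW.norm
  have c1 : V ⊓ C[W] = ⊥ := by
    by_contra k
    have k1 : V ⊓ C[W] = V := hV.eq_of_le inf_le_left (sup_le (e.ge.trans (sup_le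
      (le_norm_of_abelian ab le_rfl inf_le_left) (le_norm_inf (hD.trans nG) (le_norm_cent nDW))))
      (le_norm_inf nP (le_norm_cent nW))) k
    exact hW.ne_bot (h.eq_bot_D hg hWD (sup_le (e.ge.trans (sup_le
      (le_norm_of_le_cent (k1.ge.trans inf_le_right)) nDW)) nW))
  have hqr : q ≠ r := by
    rintro rfl
    exact inf_center_ne_bot_of_nil (nil_of_isPGroup hq (isPGroup_sup hVq hWr (hWG.trans nG))) le_sup_left
      (sup_le (le_norm_self V) (hWG.trans nG)) hV.ne_bot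
      (eq_bot_iff.2 ((inf_le_inf_left _ (cent_anti le_sup_right)).trans c1.le))
  haveI := Fact.mk hq
  haveI := Fact.mk hr
  have cWV : (Nat.card W).Coprime (Nat.card V) := IsPGroup.coprime_card_of_ne r q hqr.symm W V hWr hVq
  have l1 : ⁅W, P⁆ ≤ W := comm_le_left nW
  by_cases e1 : V ⊔ ⁅W, P⁆ = G
  · have e2 : D P g ≤ W := by
      have := inf_sup_dedekind' (L := D P g) (H := V) (K := ⁅W, P⁆) (Or.inl ((l1.trans hWG).trans nG)) (l1.trans hWD)
      rw [e1, inf_eq_left.2 hD, inf_comm, iD, bot_sup_eq] at this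
      exact this.le.trans l1
    exact h.frob hV hVG hq hr hqr hVq hWr eW.1 hg (le_antisymm e2 hWD)
      (le_antisymm (sup_le hVG hWG) (e1.ge.trans (sup_le_sup_left l1 _))) c1
  have lt : V ⊔ ⁅W, P⁆ < G := lt_of_le_of_ne (sup_le hVG (l1.trans hWG)) e1
  have s1 := h.sub _ lt (le_norm_sup nP (right_le_norm_comm _ _))
  have s2 : ⁅W, P⁆ ≤ ⁅V ⊔ ⁅W, P⁆, P⁆ :=
    (coprime_commGid nW (h.copl hWG)).ge.trans (commutator_mono le_sup_right le_rfl)
  have s3 : V ⊓ C[W ⊓ C[P]] ≤ ⁅V ⊔ ⁅W, P⁆, P⁆ := by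
    have n1 : ⁅W, P⁆ ≤ N[V ⊓ C[W ⊓ C[P]]] := le_norm_inf ((l1.trans hWG).trans nG)
      (le_norm_cent (le_norm_of_abelian eW.1 l1 inf_le_left))
    have k := coprime_cent_prod n1 (coprime_of_le_left (coprime_of_le_right cWV inf_le_left) l1)
      (Or.inl (sol_of_le h.sol (l1.trans hWG)))
    have k2 : V ⊓ C[W ⊓ C[P]] ⊓ C[⁅W, P⁆] ≤ ⊥ := by
      rw [← c1, inf_assoc, ← cent_sup, sup_comm,
        coprime_cent_prod nW (h.copl hWG) (Or.inr (sol_of_le h.sol hWG))]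
    refine k.ge.trans (sup_le ?_ (k2.trans bot_le))
    exact (commutator_mono le_rfl s2).trans
      (comm_le_right ((inf_le_left.trans le_sup_left).trans (left_le_norm_comm _ _)))
  have s4 : W ⊓ C[P] ≤ Sg G P := (inf_le_inf_right _ hWD).trans (le_Sg hg)
  have n2 : W ⊓ C[P] ≤ N[V ⊓ C[P]] := le_norm_inf ((inf_le_left.trans hWG).trans nG)
    (inf_le_right.trans (le_norm_self _))
  refine hV.ne_bot (h.eq_bot hVG hV.norm ?_)
  rw [← coprime_cent_prod n2 (coprime_of_le_left (coprime_of_le_right cWV inf_le_left) inf_le_left)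
    (Or.inl (sol_of_le h.sol (inf_le_left.trans hWG)))]
  refine sup_le ((commutator_mono le_rfl s4).trans (comm_le_right ((inf_le_inf_right _ hVG).trans norm_Sg))) ?_
  exact (le_inf ((inf_le_inf_right _ inf_le_left).trans s3) (inf_le_left.trans inf_le_right)).trans s1

end NC

end Ctx

end CL.Flv
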