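/-
Flavell's fixed point theorem: the central case and the induction.
-/
import Cfsg.Agent.Fgs.Flv1

set_option autoImplicit false

open scoped Pointwise
open Cfsg CL.Grp CL.Odd Subgroup

namespace CL.Flv

universe u

variable {X : Type u} [Group X] {G H M P N V W : Subgroup X} {a c g y : X} {p q : ℕ}

/-- the class two computation. -/
theorem class_two (hn : P ≤ N[G]) (h1 : ⁅G, G⁆ ≤ C[G]) (h2 : ⁅G, G⁆ ≤ C[P])
    (h3 : ∀ g ∈ G, ∀ t ∈ P, g * (t * g * t⁻¹) = t * g * t⁻¹ * g) {t : X} (ht : t ∈ P) (ha : a ∈ G) :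
    a⁻¹ * (t * t * a * (t * t)⁻¹) ∈ C[G] := mem_cent.2 fun b hb => by
  have m : ∀ u ∈ G, ∀ v ∈ G, u * v * u⁻¹ * v⁻¹ ∈ ⁅G, G⁆ := fun u hu v hv => commutator_mem_commutator hu hv
  have k1 : ∀ a ∈ G, b * (t * a * t⁻¹) * b⁻¹ * (t * a * t⁻¹)⁻¹ = (t * b * t⁻¹) * a * (t * b * t⁻¹)⁻¹ * a⁻¹ := by
    intro a ha
    have ha' := conj_mem_of_norm (hn ht) ha
    have hb' := conj_mem_of_norm (hn ht) hb
    have e1 := h3 a ha t ht
    have e2 := h3 b hb t ht
    have e3 := h3 _ (G.mul_mem ha hb) t ht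
    rw [show t * (a * b) * t⁻¹ = (t * a * t⁻¹) * (t * b * t⁻¹) by group] at e3
    generalize t * a * t⁻¹ = a' at *
    generalize t * b * t⁻¹ = b' at *
    have c1 := mem_cent.1 (h1 (m b hb a' ha')) a ha
    have c2 := mem_cent.1 (h1 (m b' hb' a ha)) a' ha'
    have l : a * b * (a' * b') = (b * a' * b⁻¹ * a'⁻¹) * (a' * a * (b' * b)) :=
      calc a * b * (a' * b') = a * (b * a' * b⁻¹ * a'⁻¹) * a' * (b * b') := by group
        _ = (b * a' * b⁻¹ * a'⁻¹) * (a * a') * (b * b') := by rw [c1]; group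
        _ = _ := by rw [e1, e2, mul_assoc]
    have r : a' * b' * (a * b) = (b' * a * b'⁻¹ * a⁻¹) * (a' * a * (b' * b)) :=
      calc a' * b' * (a * b) = a' * (b' * a * b'⁻¹ * a⁻¹) * a * (b' * b) := by group
        _ = _ := by rw [c2]; group
    rw [l, r] at e3
    exact mul_right_cancel e3
  have k2 := k1 _ (conj_mem_of_norm (hn ht) ha)
  have k3 := mem_cent.1 (h2 (m b hb a ha)) t ht
  have k4 : b * (t * t * a * (t * t)⁻¹) * b⁻¹ * (t * t * a * (t * t)⁻¹)⁻¹ = b * a * b⁻¹ * a⁻¹ :=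
    calc _ = b * (t * (t * a * t⁻¹) * t⁻¹) * b⁻¹ * (t * (t * a * t⁻¹) * t⁻¹)⁻¹ := by group
      _ = t * (b * a * b⁻¹ * a⁻¹) * t⁻¹ := by rw [k2]; group
      _ = _ := by rw [k3, mul_inv_cancel_right]
  generalize t * t * a * (t * t)⁻¹ = d at *
  calc b * (a⁻¹ * d) = a⁻¹ * (b * a * b⁻¹ * a⁻¹)⁻¹ * b * d := by group
    _ = _ := by rw [← k4]; group

variable [Finite X]

namespace Ctx

variable (h : Ctx p G P)
include h

theorem cent_le_der : G ⊓ C[P] ≤ ⁅G, G⁆ := (coprime_der1_sdprod (Sdp.of_coprime h.norm h.cop.symm) h.cop.symm h.sol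
  (h.comm.ge.trans (comm_le_der le_sup_left le_sup_right))).2

omit h [Finite X] in
theorem cent_norm (h1 : N ≤ C[G]) (h2 : N ≤ C[P]) : G ⊔ P ≤ N[N] := le_norm_of_le_cent (cent_symm (le_cent_sup h1 h2))

theorem V_cent (hV : MinNormal V (G ⊔ P)) (hVG : V ≤ G) : V ≤ C[P] := by
  refine inf_eq_left.1 (hV.eq_of_le inf_le_left (sup_le ?_ ?_) fun e => hV.ne_bot (h.eq_bot hVG hV.norm (e.le.trans bot_le)))
  · exact le_norm_of_le_cent (cent_symm (inf_le_left.trans (h.central hV hVG)))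
  · exact le_norm_inf (le_sup_right.trans hV.norm) (le_norm_cent (le_norm_self P))

variable (hV : MinNormal V (G ⊔ P)) (hVG : V ≤ G)
include hV hVG

theorem Sg_inf : Sg G P ⊓ V = ⊥ := h.eq_bot (inf_le_right.trans hVG)
  (cent_norm (inf_le_right.trans (h.central hV hVG)) (inf_le_right.trans (h.V_cent hV hVG)))
  (inf_le_left.trans inf_le_left)

theorem uniq (hN : N ≤ G) (hn : G ⊔ P ≤ N[N]) (hne : N ≠ ⊥) : V ≤ N := by
  refine (hV.le_or_inf_eq_bot hn).resolve_right fun e => ?_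
  obtain ⟨U, hU, hUN⟩ := exists_minNormal_le hn hne
  obtain ⟨v, hv, v1⟩ := ne_bot_iff.1 hV.ne_bot
  have hUG := hUN.trans hN
  obtain ⟨s, hs, n, hn', e1⟩ := (mem_sup_norm ((inf_le_inf_right _ hUG).trans norm_Sg)).1
    (h.quo U hUG hU.ne_bot hU.norm ⟨hVG hv, h.V_cent hV hVG hv⟩)
  have e2 : s = v * n⁻¹ := by rw [e1, mul_inv_cancel_right]
  have k : zpowers s = ⊥ := h.eq_bot (zpowers_le.2 (Sg_le h.norm hs).1) (cent_norm
    (zpowers_le.2 (e2 ▸ mul_mem (h.central hV hVG hv) (inv_mem (h.central hU hUG hn'.1))))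
    (zpowers_le.2 (Sg_le h.norm hs).2)) (inf_le_left.trans (zpowers_le.2 hs))
  rw [zpowers_eq_bot.1 k, one_mul] at e1
  exact v1 (eq_one_of_mem_of_eq_bot e ⟨hv, e1 ▸ hUN hn'.1⟩)

theorem ea (hq : IsElementaryAbelian q V) (h1 : ⁅G, G⁆ ≤ M) (h2 : M < G) (hn : P ≤ N[M]) :
    IsElementaryAbelian q M := by
  have hC : G ⊓ C[P] ≤ M := h.cent_le_der.trans h1
  have hS : Sg G P ≤ M := (Sg_le h.norm).trans hC
  have nS : Sg G P ≤ N[⁅M, P⁆] := hS.trans (left_le_norm_comm _ _)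
  have l1 : ⁅M, P⁆ ≤ M := comm_le_left hn
  have nM : G ⊔ P ≤ N[M] := sup_le (le_norm_of_der_le h1 h2.le) hn
  have cV := h.central hV hVG
  have hL : ⁅M, P⁆ ⊔ Sg G P ≤ G := (sup_le l1 hS).trans h2.le
  have e1 : M ≤ (⁅M, P⁆ ⊔ Sg G P) ⊔ V := by
    rw [sup_assoc]
    refine (coprime_cent_prod hn (h.copl h2.le) (Or.inr (sol_of_le h.sol h2.le))).ge.trans (sup_le_sup_left ?_ _)
    exact ((inf_le_inf_right _ h2.le).trans (h.quo V hVG hV.ne_bot hV.norm)).trans (sup_le_sup_left inf_le_left _)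
  have e2 : ¬ V ≤ ⁅M, P⁆ ⊔ Sg G P := fun k => by
    have k1 := le_inf k (h.V_cent hV hVG)
    rw [coprime_cent_mulG (le_norm_of_le_cent (cent_symm ((Sg_le h.norm).trans inf_le_right)))
      (right_le_norm_comm _ _) nS (h.copl (l1.trans h2.le)) (Or.inr (sol_of_le h.sol (l1.trans h2.le)))] at k1
    exact hV.ne_bot (eq_bot_iff.2 ((le_inf (k1.trans (sup_le (h.sub M h2 hn) inf_le_left)) le_rfl).trans
      (h.Sg_inf hV hVG).le))
  generalize ⁅M, P⁆ ⊔ Sg G P = L at *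
  let Y : Subgroup X :=
    { carrier := {z | z ∈ G ∧ ∀ y ∈ G ⊔ P, y * z * y⁻¹ ∈ L}
      one_mem' := ⟨G.one_mem, fun y _ => by simp⟩
      mul_mem' := fun {z w} hz hw => ⟨G.mul_mem hz.1 hw.1, fun y hy => by
        simpa [mul_assoc] using L.mul_mem (hz.2 y hy) (hw.2 y hy)⟩
      inv_mem' := fun {z} hz => ⟨G.inv_mem hz.1, fun y hy => by simpa [mul_assoc] using L.inv_mem (hz.2 y hy)⟩ }
  have Y0 : Y = ⊥ := by
    by_contra k
    refine e2 fun v hv => ?_
    simpa using (h.uniq hV hVG (N := Y) (fun z hz => hz.1) (le_norm_iff.2 fun w hw z hz =>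
      ⟨conj_mem_of_norm (h.nn hw) hz.1, fun y hy => by
        simpa [mul_assoc] using hz.2 _ (mul_mem hy hw)⟩) k hv).2 1 (one_mem _)
  have cL : V ≤ C[L] := cV.trans (cent_anti hL)
  have d1 : ⁅M, M⁆ ≤ L := (der_mono e1).trans (by
    rw [der_sup_of_cent cL, abelian_iff_der.1 hq.1, sup_bot_eq]
    exact der_le L)
  have d2 : ∀ m ∈ M, m ^ q ∈ L := fun m hm => by
    obtain ⟨l, hl, v, hv, rfl⟩ := (mem_sup_norm (le_norm_of_le_cent cL)).1 (e1 hm)
    rw [Commute.mul_pow (mem_cent.1 (cL hv) l hl), hq.2 v hv, mul_one]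
    exact pow_mem hl q
  refine ⟨abelian_iff_der.2 (eq_bot_iff.2 (Y0 ▸ fun z hz => ⟨h2.le (der_le M hz), fun y hy =>
    d1 (conj_mem_of_norm (norm_le_norm_der M (nM hy)) hz)⟩)), fun m hm => eq_one_of_mem_of_eq_bot Y0
      ⟨pow_mem (h2.le hm) q, fun y hy => ?_⟩⟩
  rw [← conj_pow]
  exact d2 _ (conj_mem_of_norm (nM hy) hm)

theorem pgroup (hq : q.Prime) (hVq : IsElementaryAbelian q V) : IsPGroup q G := by
  haveI := Fact.mk hq
  obtain ⟨R, hR, nR⟩ := coprime_Hall_exists {q}ᶜ h.norm h.cop h.sol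
  have lt := der_lt_of_solvable h.sol h.ne_bot
  have nD : P ≤ N[⁅G, G⁆] := le_norm_comm h.norm h.norm
  have pg : ∀ M : Subgroup X, IsElementaryAbelian q M → IsPiSubgroup {q} M := fun M hM =>
    isPiSubgroup_singleton_iff.2 fun x => ⟨1, Subtype.ext (by simpa using hM.2 x x.2)⟩
  by_cases e : ⁅G, G⁆ ⊔ R = G
  · have k := h.ea hV hVG hVq le_rfl lt nD
    have c := coprime_card_of_pi_compl (pg _ k) (Hall.pi hR)
    have sd : Sdp ⁅G, G⁆ R G := ⟨e, (Hall.le hR).trans (left_le_norm_comm _ _), inf_eq_bot_of_coprime_card c⟩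
    have := (coprime_der1_sdprod sd c (sol_of_abelian k.1) le_rfl).2
    rw [abelian_iff_der.1 k.1] at this
    exact absurd (eq_bot_iff.2 ((le_inf ((le_inf hVG (h.V_cent hV hVG)).trans h.cent_le_der)
      ((h.central hV hVG).trans (cent_anti (Hall.le hR)))).trans this)) hV.ne_bot
  · have k := h.ea hV hVG hVq le_sup_left (lt_of_le_of_ne (sup_le lt.le (Hall.le hR)) e) (le_norm_sup nD nR)
    have r0 : R = ⊥ := eq_bot_of_pi_of_compl (pg R ⟨abelian_of_le k.1 le_sup_right, fun a ha => k.2 a (mem_sup_right ha)⟩)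
      (Hall.pi hR)
    have := (Hall.eq_bot_iff hR).1 r0
    rw [compl_compl] at this
    exact isPiSubgroup_singleton_iff.1 this

omit hV hVG in
theorem false : False := by
  obtain ⟨V, q, hq, hV, hVG, hVq⟩ := exists_minNormal_abelem h.nn h.ne_bot h.sol
  have pg := h.pgroup hV hVG hq hVq
  have nD : P ≤ N[⁅G, G⁆] := le_norm_comm h.norm h.norm
  have k1 : ∀ g ∈ G, IsMulCommutative ↥(D P g ⊔ ⁅G, G⁆) := fun g hg => by
    have hD := D_le hg h.norm
    refine (h.ea hV hVG hVq le_sup_right (lt_of_le_of_ne (sup_le hD (der_le G)) fun e => ?_)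
      (le_norm_sup (norm_D P g) nD)).1
    exact h.ne_bot (h.eq_bot_D hg (Phi_nongen (e.ge.trans (sup_le_sup_left (der_le_Phi hq pg) _)) hD).ge h.nn)
  have k2 : ∀ g ∈ G, g ∈ D P g ⊔ ⁅G, G⁆ := fun g hg => by
    obtain ⟨c, hc, d, hd, e⟩ := decomp h.norm h.cop h.sol hg
    have := mul_mem (mem_sup_right (S := D P g) (h.cent_le_der hc)) (mem_sup_left hd)
    rwa [← e] at this
  have c1 : ⁅G, G⁆ ≤ C[G] := fun z hz => mem_cent.2 fun g hg =>
    abelian_iff_comm.1 (k1 g hg) g (k2 g hg) z (mem_sup_right hz)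
  have ab : IsMulCommutative ↥⁅G, G⁆ := abelian_iff.2 (c1.trans (cent_anti (der_le G)))
  have c2 : ⁅G, G⁆ ≤ C[P] := by
    by_contra k
    have l1 : ⁅⁅G, G⁆, P⁆ ≤ ⁅G, G⁆ := comm_le_left nD
    have := h.uniq hV hVG (l1.trans (der_le G)) (sup_le (le_norm_of_le_cent (cent_symm (l1.trans c1)))
      (right_le_norm_comm _ _)) fun e => k (comm_eq_bot_iff.1 e)
    exact hV.ne_bot (eq_bot_iff.2 ((le_inf this (h.V_cent hV hVG)).trans
      (coprime_abel_cent_TI nD (h.copl (der_le G)) ab).le))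
  have c3 : G ≤ C[G] := h.comm.ge.trans (comm_le_of_D fun g hg => D_le_iff.2 fun a ha => by
    obtain ⟨n, hn⟩ := h.pp.odd_of_ne_two h.p2
    have e : a ^ (n + 1) * a ^ (n + 1) = a := by
      have : a ^ p = 1 := by simpa [h.card] using congrArg Subtype.val (pow_card_eq_one' (x := (⟨a, ha⟩ : P)))
      rw [← pow_add, show n + 1 + (n + 1) = p + 1 by omega, pow_succ, this, one_mul]
    have := class_two h.norm c1 c2 (fun g hg t ht => abelian_iff_comm.1 (k1 g hg) g (k2 g hg) _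
      (conj_mem_of_norm (le_norm_sup (norm_D P g) nD ht) (k2 g hg))) (pow_mem ha (n + 1)) hg
    rwa [e] at this)
  exact hV.ne_bot (eq_bot_iff.2 (((le_inf hVG (h.V_cent hV hVG)).trans h.cent_le_der).trans
    (comm_eq_bot_iff.2 c3).le))

end Ctx

theorem quo_D (hg : g ∈ N[N]) (hP : P ≤ N[N]) (hD : D P g ≤ N[N]) : D (quo N P) (coset N g) ≤ quo N (D P g) :=
  D_le_iff.2 fun b hb => by
    obtain ⟨a, ha, rfl⟩ := (mem_quo_of_le hP).1 hb
    have := coset_mem_quo (N := N) (gen_mem ha g)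
    rwa [coset_mul (inv_mem hg) (mul_mem (mul_mem (hP ha) hg) (inv_mem (hP ha))), coset_inv hg,
      coset_conj (hP ha) hg] at this

theorem main_aux (hp : p.Prime) (h2 : p ≠ 2) (n : ℕ) : ∀ (X : Type u) [Group X] [Finite X] (G P : Subgroup X),
    Nat.card G = n → Nat.card P = p → P ≤ N[G] → (Nat.card P).Coprime (Nat.card G) → Group.IsSolvable G →
    ⁅G, P⁆ ⊓ C[P] ≤ Sg G P := by
  induction n using Nat.strong_induction_on with
  | _ n ih =>
  intro X _ _ G P hn hP nG hc hs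
  have sub : ∀ H : Subgroup X, H < G → P ≤ N[H] → ⁅H, P⁆ ⊓ C[P] ≤ Sg G P := fun H hH nH =>
    (ih _ (hn ▸ lt_of_le_of_ne (card_le_of_le hH.le) fun e => hH.ne (eq_of_le_of_card_ge hH.le e.ge)) X H P rfl hP nH (coprime_of_le_right hc hH.le) (sol_of_le hs hH.le)).trans
      (Sg_mono hH.le)
  by_cases e : ⁅G, P⁆ = G
  swap
  · have := sub _ (lt_of_le_of_ne (comm_le_left nG) e) (right_le_norm_comm _ _)
    rwa [coprime_commGid nG hc] at this
  by_contra k
  refine Ctx.false (p := p) ⟨hp, h2, hP, nG, hc, hs, e, sub, fun N hN N0 nN c hc' => ?_, by rwa [e] at k⟩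
  have n1 : G ≤ N[N] := le_sup_left.trans nN
  have n2 : P ≤ N[N] := le_sup_right.trans nN
  have cN := coprime_of_le_right hc hN
  have eP : Nat.card (quo N P) = p := hP ▸ card_quo_of_inf_eq_bot n2 (inf_eq_bot_of_coprime_card cN.symm)
  have lt : Nat.card (quo N G) < n := by
    rw [← hn, ← card_mul_card_quo ⟨hN, n1⟩]
    exact lt_mul_left Nat.card_pos ((one_lt_card_iff_ne_bot N).2 N0)
  have k1 := ih _ lt (Quo N) (quo N G) (quo N P) rfl eP (quo_le_norm N nG) (coprime_quo hc N) (sol_quo hs N)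
  rw [← quo_comm n1 n2, e] at k1
  have k2 : Sg (quo N G) (quo N P) ≤ quo N (Sg G P) := Sg_le_iff.2 fun b hb => by
    obtain ⟨g, hg, rfl⟩ := (mem_quo_of_le n1).1 hb
    refine (inf_le_inf_right _ (quo_D (n1 hg) n2 ((D_le hg nG).trans n1))).trans ?_
    rw [coprime_norm_quotient_cent (norm_D P g) n2 cN (Or.inr (sol_of_le hs hN))]
    exact quo_mono N (le_Sg hg)
  have nS : Sg G P ≤ N[N] := ((Sg_le nG).trans inf_le_left).trans n1
  have k3 := (coset_mem_quo_iff (n1 hc'.1) nS).1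
    (k2 (k1 ⟨coset_mem_quo hc'.1, coset_mem_cent (n1 hc'.1) hc'.2⟩))
  obtain ⟨a, ha, s, hs', rfl⟩ := (mem_sup_norm nS).1 k3
  refine mul_mem (mem_sup_right ⟨ha, ?_⟩) (mem_sup_left hs')
  have := C[P].mul_mem hc'.2 (C[P].inv_mem (Sg_le nG hs').2)
  rwa [mul_inv_cancel_right] at this

/-- Flavell's theorem, ambient form. -/
theorem main (hp : p.Prime) (h2 : p ≠ 2) (hP : Nat.card P = p) (hn : P ≤ N[G])
    (hc : (Nat.card P).Coprime (Nat.card G)) (hs : Group.IsSolvable G) : ⁅G, P⁆ ⊓ C[P] = Sg G P :=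
  le_antisymm (main_aux hp h2 _ X G P rfl hP hn hc hs) (Sg_le_iff.2 fun _ hg => inf_le_inf_right _ (D_le_comm hg))

end CL.Flv
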