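/-
A finite group that is the product of an abelian `2`-subgroup and a subgroup of odd order is solvable
(the odd order theorem is the hypothesis `hFT`).
-/
import Cfsg.Agent.Fgs.CondFT
import Cfsg.Agent.Grp.Fitting
import Cfsg.Agent.Inv.Small1

set_option autoImplicit false
open Cfsg Subgroup CL.Grp
open scoped Pointwise commutatorElement

namespace CL.Fgs

universe u

/-- two involutions: a common commuting involution, or conjugate by an involution (odd product) -/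
theorem involution_pair_cases {G : Type*} [Group G] [Finite G] {z t : G} (hz : z * z = 1)
    (ht : t * t = 1) :
    (∃ w : G, w ≠ 1 ∧ w * w = 1 ∧ Commute z w ∧ Commute t w) ∨
      (Odd (orderOf (z * t)) ∧ ∃ s : G, s * s = 1 ∧ s * z * s = t) := by
  have hzi : z⁻¹ = z := inv_eq_of_mul_eq_one_right hz
  have hti : t⁻¹ = t := inv_eq_of_mul_eq_one_right ht
  have h1 : ∀ j : ℕ, z * (z * t) ^ j * z = ((z * t) ^ j)⁻¹ := by
    intro j
    have : z * (z * t) * z⁻¹ = (z * t)⁻¹ := by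
      rw [mul_inv_rev, hti, hzi, ← mul_assoc, hz, one_mul]
    rw [← inv_pow, ← this, conj_pow, hzi]
  rcases Nat.even_or_odd' (orderOf (z * t)) with ⟨m, hm | hm⟩
  · left
    have hw : (z * t) ^ m * (z * t) ^ m = 1 := by rw [← pow_add, ← two_mul, ← hm, pow_orderOf_eq_one]
    have hzw : Commute z ((z * t) ^ m) := by
      have h2 := h1 m
      rw [inv_eq_of_mul_eq_one_right hw] at h2
      calc z * (z * t) ^ m = z * (z * t) ^ m * z * z := by rw [mul_assoc _ z z, hz, mul_one]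
        _ = _ := by rw [h2]
    refine ⟨(z * t) ^ m, fun h => ?_, hw, hzw, ?_⟩
    · have hpos := orderOf_pos (z * t)
      have := Nat.le_of_dvd (by omega) (orderOf_dvd_of_pow_eq_one h)
      omega
    · have h3 : Commute (z * (z * t)) ((z * t) ^ m) := hzw.mul_left (Commute.self_pow _ _)
      rwa [← mul_assoc, hz, one_mul] at h3
  · right
    refine ⟨hm ▸ odd_two_mul_add_one m, z * (z * t) ^ (m + 1), ?_, ?_⟩
    · rw [← mul_assoc, h1, inv_mul_cancel]
    · have h2 : (z * t) ^ (m + 1) * (z * t) ^ (m + 1) = z * t := by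
        rw [← pow_add, show m + 1 + (m + 1) = 2 * m + 1 + 1 by ring, pow_succ, ← hm,
          pow_orderOf_eq_one, one_mul]
      calc z * (z * t) ^ (m + 1) * z * (z * (z * t) ^ (m + 1))
          = z * ((z * t) ^ (m + 1) * (z * z) * (z * t) ^ (m + 1)) := by simp only [mul_assoc]
        _ = t := by rw [hz, mul_one, h2, ← mul_assoc, hz, one_mul]

/-- `X = S H` with `S` an abelian `2`-group and `H` of odd order -/
def AbTwoCompl (X : Type*) [Group X] : Prop :=
  ∃ S H : Subgroup X, IsPGroup 2 S ∧ (∀ a ∈ S, ∀ b ∈ S, a * b = b * a) ∧ Odd (Nat.card H) ∧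
    ∀ g : X, ∃ s ∈ S, ∃ h ∈ H, g = s * h

theorem eq_one_of_mem_two_of_mem_odd {X : Type*} [Group X] {S H : Subgroup X} (hS : IsPGroup 2 S)
    (hH : Odd (Nat.card H)) {g : X} (h1 : g ∈ S) (h2 : g ∈ H) : g = 1 := by
  obtain ⟨k, hk⟩ := hS ⟨g, h1⟩
  have h3 : orderOf g ∣ 2 ^ k := orderOf_dvd_of_pow_eq_one (congrArg Subtype.val hk)
  have h4 : orderOf g ∣ Nat.card H := orderOf_dvd_natCard H h2
  rw [← orderOf_eq_one_iff]
  exact Nat.eq_one_of_dvd_coprimes (Nat.Coprime.pow_left k (Nat.coprime_two_left.2 hH)) h3 h4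

theorem AbTwoCompl.map {X Y : Type*} [Group X] [Group Y] [Finite X] (h : AbTwoCompl X) {f : X →* Y}
    (hf : Function.Surjective f) : AbTwoCompl Y := by
  obtain ⟨S, H, h1, h2, h3, h4⟩ := h
  refine ⟨S.map f, H.map f, h1.map f, ?_, h3.of_dvd_nat (card_map_dvd H f), fun g => ?_⟩
  · rintro _ ⟨a, ha, rfl⟩ _ ⟨b, hb, rfl⟩
    rw [← map_mul, h2 a ha b hb, map_mul]
  · obtain ⟨g, rfl⟩ := hf g
    obtain ⟨s, hs, h, hh, rfl⟩ := h4 g
    exact ⟨f s, mem_map_of_mem f hs, f h, mem_map_of_mem f hh, map_mul f s h⟩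

theorem abTwoCompl_subgroup {X : Type*} [Group X] [Finite X] {S H : Subgroup X} (h1 : IsPGroup 2 S)
    (h2 : ∀ a ∈ S, ∀ b ∈ S, a * b = b * a) (h3 : Odd (Nat.card H)) (M : Subgroup X)
    (h4 : ∀ g ∈ M, ∃ s ∈ S, ∃ h ∈ H, s ∈ M ∧ g = s * h) : AbTwoCompl M := by
  refine ⟨S.subgroupOf M, H.subgroupOf M, h1.comap_subtype, fun a ha b hb =>
    Subtype.ext (h2 _ ha _ hb), h3.of_dvd_nat (card_comap_dvd_of_injective H _ M.subtype_injective),
    fun g => ?_⟩
  obtain ⟨s, hs, h, hh, hsM, e⟩ := h4 g g.2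
  have : h ∈ M := by
    have := M.mul_mem (M.inv_mem hsM) g.2
    rwa [e, inv_mul_cancel_left] at this
  exact ⟨⟨s, hsM⟩, hs, ⟨h, this⟩, hh, Subtype.ext e⟩

theorem AbTwoCompl.normal {X : Type*} [Group X] [Finite X] (h : AbTwoCompl X) (N : Subgroup X)
    [N.Normal] : AbTwoCompl N := by
  obtain ⟨S, H, h1, h2, h3, h4⟩ := h
  refine abTwoCompl_subgroup h1 h2 h3 N fun g hg => ?_
  obtain ⟨s, hs, h, hh, rfl⟩ := h4 g
  refine ⟨s, hs, h, hh, ?_, rfl⟩
  rw [← QuotientGroup.eq_one_iff]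
  refine eq_one_of_mem_two_of_mem_odd (h1.map (QuotientGroup.mk' N))
    (h3.of_dvd_nat (card_map_dvd H (QuotientGroup.mk' N))) (mem_map_of_mem _ hs) ⟨h⁻¹, H.inv_mem hh, ?_⟩
  rw [QuotientGroup.mk'_apply, QuotientGroup.eq, inv_inv]
  exact Normal.mem_comm inferInstance hg

theorem isSolvable_of_abTwoCompl
    (hFT : ∀ (X : Type u) [Group X] [Finite X], Odd (Nat.card X) → Group.IsSolvable X)
    (G : Type u) [Group G] [Finite G] : AbTwoCompl G → Group.IsSolvable G := by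
  refine induction_on_card (P := fun X _ _ => AbTwoCompl X → Group.IsSolvable X) ?_ G
  intro X _ _ ih h
  rcases subsingleton_or_nontrivial X with hX | hX
  · infer_instance
  by_cases hs : ¬ ∀ N : Subgroup X, N.Normal → N = ⊥ ∨ N = ⊤
  · push Not at hs
    obtain ⟨N, hn, h1, h2⟩ := hs
    have := ih N (card_subgroup_lt h2) (h.normal N)
    have := ih (X ⧸ N) (card_quotient_lt h1) (h.map (QuotientGroup.mk'_surjective N))
    exact Group.isSolvable_of_ker_le_range N.subtype (QuotientGroup.mk' N) (by simp)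
  have : IsSimpleGroup X := ⟨not_not.1 hs⟩
  by_contra hns
  have hnc : ¬ IsMulCommutative X := fun hc => hns (Group.isSolvable_of_comm hc.is_comm.comm)
  obtain ⟨S, H, hS, hSc, hH, hSH⟩ := h
  have hHt : H ≠ ⊤ := by
    rintro rfl
    exact hns (hFT X (by simpa using hH))
  -- the action on the cosets of `H`
  have htr : ∀ ω : X ⧸ H, ∃ s ∈ S, ω = s • ((1 : X) : X ⧸ H) := by
    intro ω
    obtain ⟨g, rfl⟩ := QuotientGroup.mk_surjective ω
    obtain ⟨s, hs, h, hh, rfl⟩ := hSH g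
    exact ⟨s, hs, by simp [QuotientGroup.mk_mul_of_mem _ hh]⟩
  have hstab : ∀ (g : X) (ω : X ⧸ H), g • ω = ω → (∃ k, g ^ 2 ^ k = 1) → g = 1 := by
    rintro g ω hg ⟨k, hk⟩
    obtain ⟨a, rfl⟩ := QuotientGroup.mk_surjective ω
    rw [MulAction.Quotient.smul_mk, smul_eq_mul, eq_comm, QuotientGroup.eq] at hg
    have h1 : orderOf (a⁻¹ * (g * a)) ∣ Nat.card H := orderOf_dvd_natCard H hg
    have h2 : orderOf (a⁻¹ * (g * a)) ∣ 2 ^ k := by
      apply orderOf_dvd_of_pow_eq_one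
      rw [← mul_assoc, show a⁻¹ * g * a = a⁻¹ * g * a⁻¹⁻¹ by rw [inv_inv], conj_pow, hk]; simp
    have h3 := orderOf_eq_one_iff.1
      (Nat.eq_one_of_dvd_coprimes (Nat.Coprime.pow_left k (Nat.coprime_two_left.2 hH)) h2 h1)
    calc g = a * (a⁻¹ * (g * a)) * a⁻¹ := by group
      _ = 1 := by rw [h3]; simp
  have hfix : ∀ (r : ℕ) [Fact r.Prime] (R : Subgroup X), r ≠ 2 → IsPGroup r R →
      ∃ ω : X ⧸ H, ∀ g ∈ R, g • ω = ω := by
    intro r hr R hr2 hR
    have : MulAction.IsPretransitive S (X ⧸ H) := ⟨fun a b => by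
      obtain ⟨s, hs, rfl⟩ := htr a
      obtain ⟨t, ht, rfl⟩ := htr b
      exact ⟨⟨t * s⁻¹, S.mul_mem ht (S.inv_mem hs)⟩, by
        change (t * s⁻¹) • s • ((1 : X) : X ⧸ H) = _
        rw [smul_smul, inv_mul_cancel_right]⟩⟩
    have h1 : Nat.card (X ⧸ H) ∣ Nat.card S := by
      rw [← MulAction.index_stabilizer_of_transitive S ((1 : X) : X ⧸ H)]
      exact index_dvd_card _
    obtain ⟨k, hk⟩ := hS.exists_card_eq
    obtain ⟨ω, hω⟩ := hR.nonempty_fixed_point_of_prime_not_dvd_card (X ⧸ H) (fun hd =>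
      hr2 ((Nat.prime_dvd_prime_iff_eq hr.out Nat.prime_two).1
        (hr.out.dvd_of_dvd_pow (hk ▸ hd.trans h1))))
    exact ⟨ω, fun g hg => hω ⟨g, hg⟩⟩
  have hSidx : ¬ 2 ∣ S.index := by
    have h1 : S.index = S.relIndex H := by
      have : MulAction.IsPretransitive H (X ⧸ S) := ⟨fun a b => by
        have h2 : ∀ ω : X ⧸ S, ∃ h ∈ H, ω = h • ((1 : X) : X ⧸ S) := by
          intro ω
          obtain ⟨g, rfl⟩ := QuotientGroup.mk_surjective ω
          obtain ⟨s, hs, h, hh, e⟩ := hSH g⁻¹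
          refine ⟨h⁻¹, H.inv_mem hh, ?_⟩
          rw [MulAction.Quotient.smul_mk, smul_eq_mul, mul_one, QuotientGroup.eq, e]
          simpa using hs
        obtain ⟨s, hs, rfl⟩ := h2 a
        obtain ⟨t, ht, rfl⟩ := h2 b
        exact ⟨⟨t * s⁻¹, H.mul_mem ht (H.inv_mem hs)⟩, by
          change (t * s⁻¹) • s • ((1 : X) : X ⧸ S) = _
          rw [smul_smul, inv_mul_cancel_right]⟩⟩
      rw [index, ← MulAction.index_stabilizer_of_transitive H ((1 : X) : X ⧸ S), relIndex]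
      congr 1
      ext g
      rw [MulAction.mem_stabilizer_iff, mem_subgroupOf]
      change (g : X) • ((1 : X) : X ⧸ S) = _ ↔ _
      rw [MulAction.Quotient.smul_mk, QuotientGroup.eq]
      simp
    rw [h1]
    exact fun h => (Nat.not_even_iff_odd.2 hH) (even_iff_two_dvd.2 (h.trans (relIndex_dvd_card _ _)))
  let P : Sylow 2 X := hS.toSylow hSidx
  have hPS : (P : Subgroup X) = S := rfl
  -- 2-subgroups normalising `S` lie in `S`
  have hle : ∀ T : Subgroup X, IsPGroup 2 T → T ≤ normalizer (S : Set X) → T ≤ S := by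
    intro T hT hn
    have := P.is_maximal' (IsPGroup.to_sup_of_normal_left' hS hT hn) le_sup_left
    rw [hPS] at this
    exact this ▸ le_sup_right
  have hmem : ∀ g ∈ normalizer (S : Set X), (∃ k, g ^ 2 ^ k = 1) → g ∈ S := by
    rintro g hg ⟨k, hk⟩
    refine hle (zpowers g) ?_ (by rwa [zpowers_le]) (mem_zpowers g)
    obtain ⟨j, -, hj⟩ := (Nat.dvd_prime_pow Nat.prime_two).1 (orderOf_dvd_of_pow_eq_one hk)
    exact IsPGroup.of_card (by rw [Nat.card_zpowers, hj])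
  have hinv : ∀ g : X, g * g = 1 → ∃ k, g ^ 2 ^ k = 1 := fun g hg => ⟨1, by rw [pow_one, sq, hg]⟩
  -- centralisers of involutions normalise `S`
  have hC : ∀ z ∈ S, z ≠ 1 → cent(z) ≤ normalizer (S : Set X) := by
    intro z hz hz1
    have hSC : S ≤ cent(z) := fun s hs => mem_cent.2 (hSc s hs z hz)
    have hCt : cent(z) ≠ ⊤ := fun h => hz1 (by
      have := cent_eq_top_iff.1 h
      rwa [CL.Inv.center_eq_bot_of_simple hnc, mem_bot] at this)
    have := ih cent(z) (card_subgroup_lt hCt) (abTwoCompl_subgroup hS hSc hH _ fun g _ => by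
      obtain ⟨s, hs, h, hh, e⟩ := hSH g
      exact ⟨s, hs, h, hh, hSC hs, e⟩)
    have hF : fittingSubgroup cent(z) ≤ pCore 2 cent(z) := by
      refine fittingSubgroup_le_of_forall_pCore_le fun r _ => ?_
      by_cases hr : r = 2
      · subst hr; exact le_rfl
      obtain ⟨ω, hω⟩ := hfix r ((pCore r cent(z)).map (cent(z)).subtype) hr
        ((pCore_isPGroup r _).map _)
      intro g hg
      have : (g : X) = 1 := by
        refine CL.Inv.eq_one_of_smul_eq_of_simple (CL.Inv.exists_smul_ne_quotient H hHt) _ fun ω' => ?_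
        obtain ⟨s, hs, rfl⟩ := htr ω
        obtain ⟨t, ht, rfl⟩ := htr ω'
        have hm : s * t⁻¹ ∈ cent(z) := hSC (S.mul_mem hs (S.inv_mem ht))
        have h1 := hω _ (mem_map_of_mem _ (Normal.conj_mem inferInstance g hg ⟨_, hm⟩))
        simp only [coe_subtype, coe_mul, InvMemClass.coe_inv, smul_smul] at h1
        rw [show s * t⁻¹ * (g : X) * (s * t⁻¹)⁻¹ * s = s * (t⁻¹ * (g * t)) by group, mul_smul,
          smul_left_cancel_iff, mul_smul, inv_smul_eq_iff, mul_smul] at h1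
        exact h1
      rw [show g = 1 from Subtype.ext this]
      exact one_mem _
    have hO : pCore 2 cent(z) ≤ S.subgroupOf cent(z) := pCore_le_sylow (P.subtype hSC)
    have hSO : S.subgroupOf cent(z) ≤ pCore 2 cent(z) := by
      refine le_trans ?_ ((centralizer_fittingSubgroup_le _).trans hF)
      intro s hs
      rw [mem_centralizer_iff]
      intro f hf
      exact Subtype.ext (hSc _ (hO (hF hf)) _ hs)
    have hn : (S.subgroupOf cent(z)).Normal := le_antisymm hSO hO ▸ inferInstance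
    exact (normal_subgroupOf_iff_le_normalizer hSC).1 hn
  -- products with involutions outside `S` have odd order
  have hodd : ∀ z ∈ S, z ≠ 1 → z * z = 1 → ∀ t : X, t * t = 1 → t ∉ S →
      Odd (orderOf (z * t)) ∧ ∃ s : X, s * s = 1 ∧ s * z * s = t := by
    intro z hz hz1 hz2 t ht htS
    rcases involution_pair_cases hz2 ht with ⟨w, hw1, hw2, hzw, htw⟩ | h
    · have hwS := hmem w (hC z hz hz1 (mem_cent'.2 hzw)) (hinv w hw2)
      exact absurd (hmem t (hC w hwS hw1 (mem_cent.2 htw)) (hinv t ht)) htS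
    · exact h
  obtain ⟨z0, hz0⟩ := exists_involution_of_not_isSolvable hFT hns
  obtain ⟨g0, hg0⟩ := exists_conj_le_sylow P (U := zpowers z0)
    (IsPGroup.of_card (n := 1) (by rw [Nat.card_zpowers, hz0, pow_one]))
  set z1 := g0 * z0 * g0⁻¹ with hz1def
  have hz1S : z1 ∈ S := hg0 (conj_mem_conj_smul g0 (mem_zpowers z0))
  have hz1o : orderOf z1 = 2 := by rw [← hz0]; exact (MulAut.conj g0).orderOf_eq z0
  have hz11 : z1 ≠ 1 := fun h => by simp [h] at hz1o
  have hz12 : z1 * z1 = 1 := by rw [← sq, ← hz1o, pow_orderOf_eq_one]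
  clear_value z1
  have hcj : ∀ g : X, g * z1 * g⁻¹ * (g * z1 * g⁻¹) = 1 := fun g => by
    calc g * z1 * g⁻¹ * (g * z1 * g⁻¹) = g * (z1 * z1) * g⁻¹ := by group
      _ = 1 := by rw [hz12]; simp
  -- a second involution in `S`
  obtain ⟨z2, hz2S, hz21, hz22, hne⟩ : ∃ z2 ∈ S, z2 ≠ 1 ∧ z2 * z2 = 1 ∧ z2 ≠ z1 := by
    by_contra hcon
    push Not at hcon
    have h1 := CL.Transfer.pow_index_mem_commutator S hz1S
      (by rw [CL.Inv.commutator_eq_top_of_simple hnc]; trivial) (fun k g hg => by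
        rcases Nat.even_or_odd' k with ⟨j, rfl | rfl⟩
        · rw [pow_mul, sq, hz12]; simp
        · rw [pow_succ, pow_mul, sq, hz12, one_pow, one_mul] at hg ⊢
          refine hcon _ hg (fun h => hz11 ?_) (by simpa using hcj g⁻¹)
          calc z1 = g * (g⁻¹ * z1 * g) * g⁻¹ := by group
            _ = 1 := by rw [h]; simp)
    have h2 : ⁅S, S⁆ = ⊥ := commutator_eq_bot_iff_le_centralizer.2 fun a ha =>
      mem_centralizer_iff.2 fun b hb => hSc b hb a ha
    rw [h2, mem_bot, ← orderOf_dvd_iff_pow_eq_one, hz1o] at h1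
    exact hSidx h1
  -- an involution outside `S`
  obtain ⟨t, ht, htS⟩ : ∃ t : X, t * t = 1 ∧ t ∉ S := by
    by_contra hcon
    push Not at hcon
    have h1 : normalClosure ({z1} : Set X) ≤ S := by
      rw [normalClosure, closure_le]
      intro y hy
      obtain ⟨a, ha, hy⟩ := Group.mem_conjugatesOfSet_iff.1 hy
      obtain ⟨c, rfl⟩ := isConj_iff.1 hy
      rw [Set.mem_singleton_iff.1 ha]
      exact hcon _ (hcj c)
    rcases (inferInstance : (normalClosure ({z1} : Set X)).Normal).eq_bot_or_eq_top with h | h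
    · exact hz11 (mem_bot.1 (h ▸ subset_normalClosure rfl))
    · rw [h] at h1
      exact hnc ⟨⟨fun a b => hSc a (h1 trivial) b (h1 trivial)⟩⟩
  obtain ⟨-, s1, hs1, e1⟩ := hodd z1 hz1S hz11 hz12 t ht htS
  obtain ⟨-, s2, hs2, e2⟩ := hodd z2 hz2S hz21 hz22 t ht htS
  have hs1i : s1⁻¹ = s1 := inv_eq_of_mul_eq_one_right hs1
  have hs2i : s2⁻¹ = s2 := inv_eq_of_mul_eq_one_right hs2
  have hd : s1 * s2 * z2 * (s1 * s2)⁻¹ = z1 := by
    rw [mul_inv_rev, hs1i, hs2i]
    calc s1 * s2 * z2 * (s2 * s1) = s1 * (s2 * z2 * s2) * s1 := by simp only [mul_assoc]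
      _ = (s1 * s1) * z1 * (s1 * s1) := by rw [e2, ← e1]; simp only [mul_assoc]
      _ = z1 := by rw [hs1]; simp
  have hdN : s1 * s2 ∈ normalizer (S : Set X) := by
    refine mem_normalizer_fintype fun s hs => ?_
    refine hmem _ (hC z1 hz1S hz11 (mem_cent.2 ?_)) ?_
    · rw [← hd]
      exact (show Commute s z2 from hSc s hs z2 hz2S).map (MulAut.conj (s1 * s2))
    · obtain ⟨k, hk⟩ := hS ⟨s, hs⟩
      exact ⟨k, by rw [conj_pow, show s ^ 2 ^ k = 1 from congrArg Subtype.val hk]; simp⟩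
  have hdS : s1 * s2 ∉ S := fun h => hne (by rw [← hd, hSc _ h _ hz2S, mul_inv_cancel_right])
  have hdi : s1 * (s1 * s2) * s1⁻¹ = (s1 * s2)⁻¹ := by
    rw [mul_inv_rev, hs1i, hs2i, ← mul_assoc, hs1, one_mul]
  -- an element of odd prime order in `N(S)` inverted by `s1`
  obtain ⟨r, d, hr, hr2, hdo, hdN', hdinv⟩ : ∃ (r : ℕ) (d : X), r.Prime ∧ r ≠ 2 ∧ orderOf d = r ∧
      d ∈ normalizer (S : Set X) ∧ s1 * d * s1⁻¹ = d⁻¹ := by
    obtain ⟨r, hr, hrd, hr2⟩ : ∃ r : ℕ, r.Prime ∧ r ∣ orderOf (s1 * s2) ∧ r ≠ 2 := by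
      by_contra hcon
      push Not at hcon
      have := Nat.eq_prime_pow_of_unique_prime_dvd (orderOf_pos (s1 * s2)).ne'
        fun {d} hd hdd => hcon d hd hdd
      exact hdS (hmem _ hdN ⟨_, by rw [← this, pow_orderOf_eq_one]⟩)
    refine ⟨r, (s1 * s2) ^ (orderOf (s1 * s2) / r), hr, hr2,
      orderOf_pow_orderOf_div (orderOf_pos _).ne' hrd, pow_mem hdN _, ?_⟩
    rw [← conj_pow, hdi, inv_pow]
  have hdd : d ^ 2 ≠ 1 := fun h => hr2 ((Nat.prime_dvd_prime_iff_eq hr Nat.prime_two).1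
    (hdo ▸ orderOf_dvd_of_pow_eq_one h))
  have hs1S : s1 ∉ S := fun h => htS (by rw [← e1]; exact S.mul_mem (S.mul_mem h hz1S) h)
  have hCd : ∀ s ∈ S, d * s * d⁻¹ = s → s = 1 := by
    intro s hs e
    by_contra h1
    obtain ⟨k, hk⟩ := IsPGroup.iff_orderOf.1 hS ⟨s, hs⟩
    rw [Subgroup.orderOf_mk] at hk
    have h2 : 2 ∣ orderOf s := by
      rw [hk]; refine dvd_pow_self 2 ?_
      rintro rfl
      exact h1 (orderOf_eq_one_iff.1 hk)
    have h3 := orderOf_pow_orderOf_div (orderOf_pos s).ne' h2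
    set z := s ^ (orderOf s / 2) with hz
    obtain ⟨ho, -⟩ := hodd z (pow_mem hs _) (fun h => by simp [h] at h3)
      (by rw [← sq, ← h3, pow_orderOf_eq_one]) s1 hs1 hs1S
    have hc : Commute z d := (show Commute s d from (mul_inv_eq_iff_eq_mul.1 e).symm).pow_left _
    have h4 : z * s1 * d * (z * s1)⁻¹ = d⁻¹ := by
      calc z * s1 * d * (z * s1)⁻¹ = z * (s1 * d * s1⁻¹) * z⁻¹ := by group
        _ = d⁻¹ := by rw [hdinv, hc.inv_right.eq]; simp
    have h5 := odd_pow_inverts h4 ho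
    rw [pow_orderOf_eq_one] at h5
    exact hdd (by rw [sq]; simpa [← mul_eq_one_iff_eq_inv] using h5)
  have := Fact.mk hr
  obtain ⟨ω, hω⟩ := hfix r (zpowers d) hr2
    (IsPGroup.of_card (n := 1) (by rw [Nat.card_zpowers, hdo, pow_one]))
  have hω1 : d • ω = ω := hω d (mem_zpowers d)
  have hω2 : d⁻¹ • ω = ω := by rw [inv_smul_eq_iff, hω1]
  obtain ⟨s, hs, e⟩ : ∃ s ∈ S, s1 • ω = s • ω := by
    obtain ⟨a, ha, e1⟩ := htr ω
    obtain ⟨b, hb, e2⟩ := htr (s1 • ω)
    exact ⟨b * a⁻¹, S.mul_mem hb (S.inv_mem ha), by rw [e2, e1, smul_smul]; simp⟩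
  have h6 : d • s1 • ω = s1 • ω := by
    have : d * s1 = s1 * d⁻¹ := by
      rw [← hdinv, hs1i, ← mul_assoc, ← mul_assoc, hs1, one_mul]
    rw [smul_smul, this, mul_smul, hω2]
  have h7 : s⁻¹ * (d * s * d⁻¹) = 1 := by
    have hm : s⁻¹ * (d * s * d⁻¹) ∈ S := S.mul_mem (S.inv_mem hs) ((mem_normalizer_iff.1 hdN' s).1 hs)
    refine hstab _ ω ?_ (by
      obtain ⟨k, hk⟩ := hS ⟨_, hm⟩
      exact ⟨k, congrArg Subtype.val hk⟩)
    rw [mul_smul, mul_smul, hω2, mul_smul, ← e, h6, e, inv_smul_smul]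
  have h8 := hCd s hs (inv_mul_eq_one.1 h7).symm
  rw [h8, one_smul] at e
  exact hs1S (hstab s1 ω e (hinv s1 hs1) ▸ S.one_mem)

end CL.Fgs
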