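/-
Row 4118 from the odd order theorem and Zassenhaus' theorem on non-solvable Frobenius complements.
-/
import Cfsg.Agent.Fgs.TISep
import Cfsg.Agent.Perm.FCCrit
import Cfsg.Agent.Cls.SLnBasic
import Cfsg.Statements.S0205
import Cfsg.Statements.S3359
import Cfsg.Statements.S4118

set_option autoImplicit false

open scoped Pointwise
open Cfsg CL.Odd CL.Grp

namespace CL.Fgs

universe u

theorem not_isSolvable_SL2_5 : ¬ Group.IsSolvable (Matrix.SpecialLinearGroup (Fin 2) (ZMod 5)) := by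
  intro h
  have h1 : (2 : ZMod 5) ≠ 0 := by decide
  have h2 : (2 : ZMod 5) ^ 2 ≠ 1 := by decide
  have : Fact (Nat.Prime 5) := ⟨Nat.prime_five⟩
  have hp : Group.IsPerfect (Matrix.SpecialLinearGroup (Fin 2) (ZMod 5)) :=
    CL.SLn.isPerfect_SL (Or.inr ⟨2, h1, h2⟩)
  have hn : Nontrivial (Matrix.SpecialLinearGroup (Fin 2) (ZMod 5)) := by
    refine ⟨⟨1, -1, fun e => ?_⟩⟩
    have := congrArg (fun A : Matrix.SpecialLinearGroup (Fin 2) (ZMod 5) => A.1 0 0) e
    revert this
    simp only [Matrix.SpecialLinearGroup.coe_one, Matrix.SpecialLinearGroup.coe_neg, Matrix.neg_apply,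
      Matrix.one_apply_eq]
    decide
  exact (Group.IsSolvable.commutator_lt_top_of_nontrivial _).ne hp.commutator_eq_top

theorem s4118_of (h205 : type_of% @Cfsg.CfsgFrozen.S0205.{u}) (h3359 : type_of% @Cfsg.CfsgFrozen.S3359.{u}) :
    type_of% @Cfsg.CfsgFrozen.S4118.{u} := by
  intro G _ _ H hTI hnn hHall hsep O hO
  rw [sSup_coprime_eq_piCore] at hO
  subst hO
  have hc : (Nat.card H).Coprime (H.relIndex N[H]) := hHall
  obtain ⟨hs, N, R, h1, h3, h4⟩ := ti_sep hTI hnn hc hsep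
  refine ⟨hs, normal_sup_of_sup_norm hs le_rfl, ⟨fun h => ⟨inferInstance, fun K _ ⟨e⟩ => ?_⟩, fun ⟨h5, h6⟩ => ?_⟩⟩
  · exact not_isSolvable_SL2_5 (Group.isSolvable_of_surjective (f := e.toMonoidHom) e.surjective)
  have hH : Group.IsSolvable H := by
    by_contra hns
    obtain ⟨G₀, -, -, S, M, -, -, -, ⟨e⟩, -⟩ := h3359 hns (by
      have hf := (CL.Perm.isFpf_of_isFrobeniusComplement h4.isFrobeniusComplement).of_equiv
        ((quoEquivOfInf h1 h3).trans (Subgroup.subgroupOfEquivOfLe h4.compl_le).symm).symm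
      have : Nontrivial H := (Subgroup.nontrivial_iff_ne_bot H).2 fun e => hnn (e ▸ inferInstance)
      exact hf.isFC)
    exact h6 (S.map H.subtype) (Subgroup.map_subtype_le S)
      ⟨(Subgroup.equivMapOfInjective S _ H.subtype_injective).symm.trans e⟩
  refine solvable_of_core_sup_norm (Hall.of_coprime (le_norm_self H) hc) hs h5 hH fun Q hQ hQπ => ?_
  by_cases h2 : 2 ∣ Nat.card H
  · exact sol_quo (h205 (Nat.not_even_iff_odd.1 fun h => hQπ 2 Nat.prime_two h.two_dvd h2)) _
  · have hZ := (pqCyclic_of_frob_quo h1 h3 h4).isZGroup_of_odd (Nat.not_even_iff_odd.1 fun h => h2 h.two_dvd)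
    exact sol_of_abelian ((abelian_quo_iff (NormalIn.inf_cent hQ).norm).2 (le_inf (der_le Q)
      (der_le_cent_of_zgroup hZ hQ (coprime_card_of_pi_compl (isPiSubgroup_primes H) hQπ).symm)))

end CL.Fgs
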