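/-
Modules over the field with two elements: elements of odd prime order, dihedral groups, fixed spaces of
hyperplanes of an elementary abelian group.
-/
import Cfsg.Agent.Even.Amb2

set_option autoImplicit false
set_option linter.unusedSectionVars false

open Cfsg Subgroup CL.Even CL.Grp Module

namespace CL.Fgs.M2

section lin
variable {F : Type*} [Field F] {V : Type*} [AddCommGroup V] [Module F V]

theorem indep_of_fix {ι : Type*} (W : ι → Submodule F V) (E : ι → Set (End F V))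
    (h1 : ∀ i, ∀ f ∈ E i, ∀ w ∈ W i, f w = w) (h2 : ∀ i j, ∀ f ∈ E i, ∀ w ∈ W j, f w ∈ W j)
    (h3 : ∀ i j, i ≠ j → ∀ w ∈ W j, (∀ f ∈ E i, f w = w) → w = 0) : iSupIndep W := by
  classical
  rw [iSupIndep_iff_finsetSum_eq_zero_imp_eq_zero]
  intro s
  induction s using Finset.induction_on with
  | empty => simp
  | insert i s hi ih =>
    intro v hv hs
    rw [Finset.sum_insert hi] at hs
    have key : ∀ j ∈ s, v j = 0 := fun j hj => by
      have hj' := hv j (Finset.mem_insert_of_mem hj)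
      refine h3 i j (fun e => hi (e ▸ hj)) _ hj' fun f hf => sub_eq_zero.1 ?_
      refine ih (fun k => f (v k) - v k) (fun k hk => ?_) ?_ j hj
      · exact sub_mem (h2 i k f hf _ (hv k (Finset.mem_insert_of_mem hk))) (hv k (Finset.mem_insert_of_mem hk))
      · rw [Finset.sum_sub_distrib, ← map_sum, eq_neg_of_add_eq_zero_right hs, map_neg,
          h1 i f hf _ (hv i (Finset.mem_insert_self i s)), sub_self]
    intro j hj
    rcases Finset.mem_insert.1 hj with rfl | hj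
    · rwa [Finset.sum_eq_zero key, add_zero] at hs
    · exact key j hj

theorem sum_finrank_le [Module.Finite F V] {ι : Type*} [Fintype ι] {W : ι → Submodule F V} (h : iSupIndep W) :
    ∑ i, finrank F (W i) ≤ finrank F V := by
  classical
  rw [← Module.finrank_directSum]
  exact LinearMap.finrank_le_finrank_of_injective h.dfinsupp_lsum_injective

end lin

section two
variable {V : Type*} [AddCommGroup V] [Module (ZMod 2) V] [Module.Finite (ZMod 2) V]

theorem card_eq (U : Submodule (ZMod 2) V) : Nat.card U = 2 ^ finrank (ZMod 2) U := by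
  rw [Module.natCard_eq_pow_finrank (K := ZMod 2), Nat.card_zmod]

theorem add_self (v : V) : v + v = 0 := by
  rw [← two_smul (ZMod 2) v, show (2 : ZMod 2) = 0 from rfl, zero_smul]

theorem eq_zero_of_odd {n : ℕ} (hn : Odd n) {v : V} (h : n • v = 0) : v = 0 := by
  obtain ⟨k, rfl⟩ := hn
  rwa [add_smul, mul_smul, two_smul, add_self, zero_add, one_smul] at h

theorem pow_modEq {p : ℕ} (hp : p.Prime) {f : End (ZMod 2) V} (hf : f ^ p = 1) {U : Submodule (ZMod 2) V}
    (hU : ∀ v ∈ U, f v ∈ U) :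
    2 ^ finrank (ZMod 2) U ≡ 2 ^ finrank (ZMod 2) ↥(U ⊓ LinearMap.ker (f - 1)) [MOD p] := by
  classical
  have := Fact.mk hp
  have : Finite V := Module.finite_of_finite (ZMod 2)
  have := Fintype.ofFinite U
  let g : Function.End U := fun v => ⟨f v, hU v v.2⟩
  have hg : ∀ (n : ℕ) (v : U), ((g ^ n) v : V) = (f ^ n) v := fun n => by
    induction n with
    | zero => intro v; rfl
    | succ n ih => intro v; rw [pow_succ, pow_succ]; exact ih (g v)
  have h1 := Equiv.Perm.card_fixedPoints_modEq (f := g) (p := p) (n := 1)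
    (funext fun v => Subtype.ext (by rw [hg, pow_one, hf]; rfl))
  rw [← card_eq, ← card_eq, Nat.card_eq_fintype_card]
  refine h1.trans ?_
  rw [← Nat.card_eq_fintype_card, Nat.card_congr (β := ↥(U ⊓ LinearMap.ker (f - 1)))
    ⟨fun v => ⟨v.1, v.1.2, sub_eq_zero.2 (congrArg Subtype.val v.2)⟩,
      fun v => ⟨⟨v.1, v.2.1⟩, Subtype.ext (sub_eq_zero.1 (show f v - v = 0 from LinearMap.mem_ker.1 v.2.2))⟩, fun _ => rfl, fun _ => rfl⟩]

theorem dvd_of_fpf {p : ℕ} (hp : p.Prime) {f : End (ZMod 2) V} (hf : f ^ p = 1) {U : Submodule (ZMod 2) V}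
    (hU : ∀ v ∈ U, f v ∈ U) (h0 : ∀ v ∈ U, f v = v → v = 0) : p ∣ 2 ^ finrank (ZMod 2) U - 1 := by
  have h1 := pow_modEq hp hf hU
  rw [show U ⊓ LinearMap.ker (f - 1) = ⊥ from eq_bot_iff.2 fun v hv => h0 v hv.1 (sub_eq_zero.1 hv.2),
    finrank_bot, pow_zero] at h1
  exact (Nat.modEq_iff_dvd' Nat.one_le_two_pow).1 h1.symm

theorem two_le_of_fpf {p : ℕ} (hp : p.Prime) {f : End (ZMod 2) V} (hf : f ^ p = 1) {U : Submodule (ZMod 2) V}
    (hU : ∀ v ∈ U, f v ∈ U) (h0 : ∀ v ∈ U, f v = v → v = 0) (h1 : U ≠ ⊥) : 2 ≤ finrank (ZMod 2) U := by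
  have h2 := dvd_of_fpf hp hf hU h0
  have h3 : finrank (ZMod 2) U ≠ 0 := fun e => h1 (Submodule.finrank_eq_zero.1 e)
  have h4 : finrank (ZMod 2) U ≠ 1 := fun e => by
    rw [e] at h2
    exact hp.one_lt.ne' (Nat.dvd_one.1 h2)
  omega

theorem fpf_range {p : ℕ} (hp : Odd p) {f : End (ZMod 2) V} (hf : f ^ p = 1) :
    ∀ v ∈ LinearMap.range (f - 1), f v = v → v = 0 := by
  rintro _ ⟨w, rfl⟩ h
  have key : ∀ n : ℕ, (f ^ n) w = w + n • (f - 1) w := fun n => by
    induction n with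
    | zero => simp
    | succ n ih =>
      rw [pow_succ', End.mul_apply, ih, map_add, map_nsmul, h, succ_nsmul]
      simp only [LinearMap.sub_apply, End.one_apply]
      abel
  have h1 := key p
  rw [hf, End.one_apply, left_eq_add] at h1
  exact eq_zero_of_odd hp h1

/-- A dihedral group: `f` of odd order without fixed points on `U` and inverted by the involution `g`. -/
theorem finrank_dihedral {n : ℕ} (hn : Odd n) {f g : End (ZMod 2) V} (hf : f ^ n = 1) (hg : g * g = 1)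
    (hfg : f * g * f = g) {U : Submodule (ZMod 2) V} (hU : ∀ v ∈ U, f v ∈ U) (hU' : ∀ v ∈ U, g v ∈ U)
    (h0 : ∀ v ∈ U, f v = v → v = 0) : finrank (ZMod 2) U = 2 * finrank (ZMod 2) (U.map (g - 1)) := by
  have hinj : Function.Injective f := by
    obtain ⟨k, rfl⟩ := hn
    refine Function.LeftInverse.injective (g := (f ^ (2 * k) : End (ZMod 2) V)) fun v => ?_
    rw [← End.mul_apply, ← pow_succ, hf, End.one_apply]
  set W := U ⊓ LinearMap.ker (g - 1) with hW
  have h1 : finrank (ZMod 2) (U.map (g - 1)) + finrank (ZMod 2) W = finrank (ZMod 2) U := by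
    have := LinearMap.finrank_range_add_finrank_ker ((g - 1).domRestrict U)
    rw [LinearMap.range_domRestrict, LinearMap.ker_domRestrict, ← Submodule.finrank_map_subtype_eq U,
      Submodule.map_comap_subtype] at this
    exact this
  have h2 : U.map (g - 1) ≤ W := by
    rintro _ ⟨v, hv, rfl⟩
    refine ⟨sub_mem (hU' v hv) hv, ?_⟩
    change g (g v - v) - (g v - v) = 0
    rw [map_sub, ← End.mul_apply, hg, End.one_apply, sub_eq_zero, sub_eq_sub_iff_add_eq_add, add_self, add_self]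
  have h3 : W ⊓ W.map f = ⊥ := eq_bot_iff.2 (by
    rintro _ ⟨⟨-, hv⟩, w, ⟨hw, hw'⟩, rfl⟩
    have e1 : g (f w) = f w := sub_eq_zero.1 hv
    have e2 : g w = w := sub_eq_zero.1 hw'
    have e3 : f (f w) = w := by rw [← e1, ← End.mul_apply, ← End.mul_apply, hfg, e2]
    obtain ⟨k, rfl⟩ := hn
    have e4 : ∀ j : ℕ, (f ^ (2 * j)) w = w := fun j => by
      induction j with
      | zero => rfl
      | succ j ih => rw [mul_add, mul_one, pow_add, End.mul_apply, sq, End.mul_apply, e3, ih]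
    have e5 : f w = w := by
      have := congrArg (· w) hf
      simpa only [pow_succ', End.mul_apply, e4, End.one_apply] using this
    rw [h0 w hw e5, map_zero]
    exact Submodule.zero_mem _)
  have h4 := Submodule.finrank_sup_add_finrank_inf_eq W (W.map f)
  rw [h3, finrank_bot, add_zero, ← (Submodule.equivMapOfInjective f hinj W).finrank_eq] at h4
  have h5 : finrank (ZMod 2) ↥(W ⊔ W.map f) ≤ finrank (ZMod 2) U := Submodule.finrank_mono (sup_le inf_le_left (by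
    rintro _ ⟨w, hw, rfl⟩
    exact hU w hw.1))
  have h6 := Submodule.finrank_mono h2
  omega

end two

section rep
variable {G : Type*} [Group G] [Finite G] {V : Type*} [AddCommGroup V] [Module (ZMod 2) V]
  [Module.Finite (ZMod 2) V] (ρ : Representation (ZMod 2) G V)

/-- the vectors of `U` fixed by `B` -/
def fx (B : Subgroup G) (U : Submodule (ZMod 2) V) : Submodule (ZMod 2) V where
  carrier := {v | v ∈ U ∧ ∀ b ∈ B, ρ b v = v}
  add_mem' := fun ha hb => ⟨add_mem ha.1 hb.1, fun b h => by rw [map_add, ha.2 b h, hb.2 b h]⟩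
  zero_mem' := ⟨zero_mem _, fun b _ => map_zero _⟩
  smul_mem' := fun c v hv => ⟨U.smul_mem c hv.1, fun b h => by rw [map_smul, hv.2 b h]⟩

/-- `U` is invariant under `A` -/
def Inv (A : Subgroup G) (U : Submodule (ZMod 2) V) : Prop := ∀ a ∈ A, ∀ v ∈ U, ρ a v ∈ U

variable {ρ}

theorem rho_mul (a b : G) (v : V) : ρ (a * b) v = ρ a (ρ b v) := by rw [map_mul, End.mul_apply]

theorem fx_inv {A B : Subgroup G} {U : Submodule (ZMod 2) V} (hU : Inv ρ A U) (hn : A ≤ 𝒩(B)) :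
    Inv ρ A (fx ρ B U) := fun a ha v hv => ⟨hU a ha v hv.1, fun b hb => by
  rw [← rho_mul, show b * a = a * (a⁻¹ * b * a) by group, rho_mul, hv.2 _ (conj_mem' (hn ha) hb)]⟩

theorem orbit_bound {S A B : Subgroup G} {U : Submodule (ZMod 2) V} (hA : A ≤ 𝒞(A)) (hBA : B ≤ A)
    (hS : S ≤ 𝒩(A)) (hU : Inv ρ A U) (hB : ∀ x ∈ A, x ∉ B → ∀ v ∈ fx ρ B U, ρ x v = v → v = 0) :
    (𝒩(B)).relIndex S * finrank (ZMod 2) (fx ρ B U) ≤ finrank (ZMod 2) V := by
  classical
  have := Fintype.ofFinite (S ⧸ (𝒩(B)).subgroupOf S)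
  have hinv := fx_inv hU ((hA.trans (cent_mono hBA)).trans (cent_le_norm B))
  have h1 := indep_of_fix (ι := S ⧸ (𝒩(B)).subgroupOf S) (fun q => (fx ρ B U).map (ρ (q.out : S)))
    (fun q => ρ '' (cj ((q.out : S) : G) B : Set G)) ?_ ?_ ?_
  · have h2 := sum_finrank_le h1
    rwa [Finset.sum_congr rfl fun q _ => (Submodule.equivMapOfInjective _ (ρ.apply_bijective _).1 _).finrank_eq.symm,
      Finset.sum_const, Finset.card_univ, ← Nat.card_eq_fintype_card, smul_eq_mul] at h2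
  · rintro q _ ⟨b, hb, rfl⟩ _ ⟨v, hv, rfl⟩
    rw [← rho_mul, show b * q.out = q.out * ((q.out : G)⁻¹ * b * q.out) by group, rho_mul, hv.2 _ (mem_cj.1 hb)]
  · rintro q q' _ ⟨b, hb, rfl⟩ _ ⟨v, hv, rfl⟩
    refine ⟨_, hinv _ (conj_mem' (hS q'.out.2) (cj_le_of_le hBA (hS q.out.2) hb)) v hv, ?_⟩
    rw [← rho_mul, ← rho_mul]; congr 2; group
  · rintro q q' hne _ ⟨v, hv, rfl⟩ h
    have h2 : ¬ cj (((q'.out : S) : G)⁻¹ * q.out) B ≤ B := fun hle => hne (by
      rw [← q.out_eq, ← q'.out_eq]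
      exact (QuotientGroup.eq.2 (mem_subgroupOf.2 (mem_norm_of_cj_le hle))).symm)
    obtain ⟨x, hx, hxB⟩ := SetLike.not_le_iff_exists.1 h2
    have h3 := h _ ⟨_, show (q'.out : G) * x * (q'.out : G)⁻¹ ∈ cj ((q.out : S) : G) B from by
      rw [cj_mul, mem_cj, inv_inv] at hx; exact hx, rfl⟩
    rw [← rho_mul, inv_mul_cancel_right, rho_mul] at h3
    rw [hB x (cj_le_of_le hBA (mul_mem (inv_mem (hS q'.out.2)) (hS q.out.2)) hx) hxB v hv
      ((ρ.apply_bijective _).1 h3), map_zero]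

theorem sum_pow_eq_zero {p : ℕ} {x : G} (hx : x ^ p = 1) {W : Submodule (ZMod 2) V} (hW : ∀ v ∈ W, ρ x v ∈ W)
    (h0 : ∀ v ∈ W, ρ x v = v → v = 0) {v : V} (hv : v ∈ W) : ∑ i ∈ Finset.range p, ρ (x ^ i) v = 0 := by
  have h1 : ∀ i, ρ (x ^ i) v ∈ W := fun i => by
    induction i with
    | zero => simpa using hv
    | succ i ih => rw [pow_succ', rho_mul]; exact hW _ ih
  refine h0 _ (Submodule.sum_mem _ fun i _ => h1 i) ?_
  rw [map_sum]
  have h2 := Finset.sum_range_succ' (fun i => ρ (x ^ i) v) p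
  rw [Finset.sum_range_succ, hx, pow_zero, add_left_inj] at h2
  rw [h2]
  exact Finset.sum_congr rfl fun i _ => by rw [pow_succ', rho_mul]

theorem exists_hyperplane {p : ℕ} (hp : p.Prime) (h2 : p ≠ 2) {A : Subgroup G} (hA : A ≤ 𝒞(A))
    (he : ∀ x ∈ A, x ^ p = 1) {U : Submodule (ZMod 2) V} (hU : Inv ρ A U) (h1 : U ≠ ⊥) :
    ∃ B ≤ A, fx ρ B U ≠ ⊥ ∧ (∀ x ∈ A, x ∉ B → ∀ v ∈ fx ρ B U, ρ x v = v → v = 0) ∧
      ∀ x ∈ A, x ∉ B → A ≤ B ⊔ zpowers x := by
  obtain ⟨B, ⟨hBA, hB⟩, hm⟩ := (wellFounded_gt (α := Subgroup G)).has_min {B | B ≤ A ∧ fx ρ B U ≠ ⊥}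
    ⟨⊥, bot_le, fun e => h1 (eq_bot_iff.2 fun v hv => e.le ⟨hv, fun b hb => by simp [mem_bot.1 hb]⟩)⟩
  have hn : A ≤ 𝒩(B) := (hA.trans (cent_mono hBA)).trans (cent_le_norm B)
  have key : ∀ x ∈ A, x ∉ B → ∀ v ∈ fx ρ B U, ρ x v = v → v = 0 := fun x hx hxB v hv e => by
    by_contra hv0
    refine hm (B ⊔ zpowers x) ⟨sup_le hBA (zpowers_le.2 hx), fun e' => hv0 (e'.le ⟨hv.1, fun b hb => ?_⟩)⟩
      (lt_of_le_of_ne le_sup_left fun e' => hxB (e'.ge (mem_sup_right (mem_zpowers x))))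
    obtain ⟨c, hc, d, hd, rfl⟩ := (mem_sup_nl ((zpowers_le.2 hx).trans hn)).1 hb
    obtain ⟨n, rfl⟩ := (mem_powers_iff_mem_zpowers.2 hd)
    have : ρ (x ^ n) v = v := by
      induction n with
      | zero => simp
      | succ n ih => rw [pow_succ, rho_mul, e, ih (by simp) (by simp [mul_mem_sup hc])]
    rw [rho_mul, this, hv.2 c hc]
  refine ⟨B, hBA, hB, key, fun x hx hxB y hy => ?_⟩
  by_contra hy'
  obtain ⟨v, hv, hv0⟩ := (Submodule.ne_bot_iff _).1 hB
  have hinv := fx_inv hU hn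
  have hc : Commute y x := hA hx y hy
  have e1 : ∀ j : ℕ, ∑ i ∈ Finset.range p, ρ ((y * x ^ j) ^ i) v = 0 := fun j =>
    sum_pow_eq_zero (he _ (mul_mem hy (pow_mem hx j))) (hinv _ (mul_mem hy (pow_mem hx j)))
      (key _ (mul_mem hy (pow_mem hx j)) fun h => hy' (by
        simpa using mul_mem (mem_sup_left h) (inv_mem (mem_sup_right (pow_mem (mem_zpowers x) j))))) hv
  have e2 : ∀ i ∈ Finset.range p, i ≠ 0 → ∑ j ∈ Finset.range p, ρ ((y * x ^ j) ^ i) v = 0 := fun i hi i0 => by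
    have h3 := sum_pow_eq_zero (he _ (pow_mem hx i)) (hinv _ (pow_mem hx i)) (key _ (pow_mem hx i) fun h =>
      hxB (mem_of_pow_mem_of_coprime (Nat.Coprime.coprime_dvd_left (orderOf_dvd_of_pow_eq_one (he x hx))
        (hp.coprime_iff_not_dvd.2 (Nat.not_dvd_of_pos_of_lt (Nat.pos_of_ne_zero i0)
          (Finset.mem_range.1 hi)))) h)) hv
    rw [← map_zero (ρ (y ^ i)), ← h3, map_sum]
    exact Finset.sum_congr rfl fun j _ => by
      rw [(hc.pow_right j).mul_pow, rho_mul, ← pow_mul, ← pow_mul, mul_comm]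
  have e3 : ∑ j ∈ Finset.range p, ∑ i ∈ Finset.range p, ρ ((y * x ^ j) ^ i) v = 0 :=
    Finset.sum_eq_zero fun j _ => e1 j
  rw [Finset.sum_comm, Finset.sum_eq_single 0 e2 (fun h => absurd (Finset.mem_range.2 hp.pos) h)] at e3
  simp only [pow_zero, map_one, End.one_apply, Finset.sum_const, Finset.card_range] at e3
  exact hv0 (eq_zero_of_odd (hp.odd_of_ne_two h2) e3)

theorem exists_compl {Z : Subgroup G} (hZ : Odd (Nat.card Z)) :
    ∃ U : Submodule (ZMod 2) V, Inv ρ 𝒩(Z) U ∧ fx ρ Z U = ⊥ ∧ ∀ c ∈ Z, ∀ v, ρ c v - v ∈ U := by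
  classical
  have := Fintype.ofFinite Z
  refine ⟨LinearMap.ker (∑ c : Z, ρ c), fun g hg v hv => ?_, eq_bot_iff.2 fun v hv => ?_, fun c hc v => ?_⟩
  · rw [LinearMap.mem_ker, LinearMap.sum_apply] at hv ⊢
    rw [← map_zero (ρ g), ← hv, map_sum]
    refine (Fintype.sum_equiv (Z.normalizerMonoidHom ⟨g, hg⟩).toEquiv _ _ fun c => ?_).symm
    rw [← rho_mul, ← rho_mul]; congr 2
    exact (inv_mul_cancel_right _ _).symm
  · have h1 := hv.1
    rw [LinearMap.mem_ker, LinearMap.sum_apply, Finset.sum_congr rfl fun (c : Z) _ => hv.2 c c.2, Finset.sum_const,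
      Finset.card_univ, ← Nat.card_eq_fintype_card] at h1
    exact eq_zero_of_odd hZ h1
  · rw [LinearMap.mem_ker, map_sub, LinearMap.sum_apply, LinearMap.sum_apply, sub_eq_zero]
    refine Fintype.sum_equiv (Equiv.mulRight (⟨c, hc⟩ : Z)) _ _ fun d => ?_
    rw [← rho_mul]; rfl

end rep

end CL.Fgs.M2
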