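/-
A 2-group `S` with a unique involution acting faithfully on a group of odd order: a module over `𝔽₂` for the product
on which `[O, z]` acts non-trivially has at least `|S| ^ 2` elements.
-/
import Cfsg.Agent.Fgs.CorMod1
import Cfsg.Agent.Fgs.MinAct
import Cfsg.Agent.GW.Basic
import Cfsg.Agent.Grp.PGroupSCN

set_option autoImplicit false
set_option linter.unusedSectionVars false

open Cfsg Subgroup CL.Even CL.Grp Module
open scoped commutatorElement

namespace CL.Fgs.M2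

universe u v

section grp
variable {G : Type u} [Group G] [Finite G]

/-- `z` is the unique involution of the 2-group `S`, which normalises `O`. -/
structure Uq (S O : Subgroup G) (z : G) : Prop where
  two : IsPGroup 2 S
  mem : z ∈ S
  sq : z * z = 1
  uniq : ∀ s ∈ S, s ≠ 1 → z ∈ zpowers s
  odd : Odd (Nat.card O)
  norm : S ≤ 𝒩(O)

theorem Uq.map {S O : Subgroup G} {z : G} (h : Uq S O z) {G' : Type u} [Group G'] (f : G →* G') :
    Uq (S.map f) (O.map f) (f z) :=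
  ⟨h.two.map f, mem_map_of_mem f h.mem, by rw [← map_mul, h.sq, map_one], by
    rintro _ ⟨s, hs, rfl⟩ h1
    obtain ⟨n, hn⟩ := h.uniq s hs fun e => h1 (by rw [e, map_one])
    exact ⟨n, by simp [← hn]⟩, Odd.of_dvd_nat h.odd (card_map_dvd O f), (map_mono h.norm).trans (le_normalizer_map f)⟩

theorem Uq.card_map {S O : Subgroup G} {z : G} (h : Uq S O z) {G' : Type u} [Group G'] {f : G →* G'}
    (hz : f z ≠ 1) : Nat.card (S.map f) = Nat.card S := by
  refine Nat.card_congr (Equiv.ofBijective (f.subgroupMap S) ⟨(injective_iff_map_eq_one _).2 fun s hs => ?_,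
    f.subgroupMap_surjective S⟩).symm
  by_contra h1
  obtain ⟨n, hn⟩ := h.uniq s s.2 fun e => h1 (Subtype.ext e)
  have h2 : f s = 1 := congrArg Subtype.val hs
  exact hz (by simp [← hn, h2])

theorem Uq.subgroupOf {S O N : Subgroup G} {z : G} (h : Uq S O z) (hz : z ∈ N) :
    Uq (S.subgroupOf N) (O.subgroupOf N) ⟨z, hz⟩ :=
  ⟨h.two.comap_subtype, h.mem, Subtype.ext h.sq, fun s hs h1 => by
    obtain ⟨n, hn⟩ := h.uniq s hs fun e => h1 (Subtype.ext e)
    exact ⟨n, Subtype.ext hn⟩, Odd.of_dvd_nat h.odd (card_comap_dvd_of_injective O _ N.subtype_injective),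
    fun x hx => mem_normalizer_iff.2 fun y => mem_normalizer_iff.1 (h.norm hx) y⟩

theorem Uq.norm_z {S O : Subgroup G} {z : G} (h : Uq S O z) : S ≤ 𝒩(zpowers z) := fun s hs => by
  by_cases z1 : z = 1
  · rw [z1, zpowers_one_eq_bot, normalizer_eq_top]; trivial
  obtain ⟨n, hn⟩ := h.uniq (s * z * s⁻¹) (mul_mem (mul_mem hs h.mem) (inv_mem hs)) (by simpa using z1)
  have e : z ∈ cj s (zpowers z) := by
    have := zpow_mem (conj_mem_cj s (mem_zpowers z)) n
    rwa [show (s * z * s⁻¹) ^ n = z from hn] at this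
  exact inv_mem_iff.1 (mem_norm_of_cj_le (le_cj_iff.1 (zpowers_le.2 e)))

theorem Uq.semi {S P R : Subgroup G} {z : G} (h : Uq S P z) (hn : S ≤ 𝒩(R)) (hc : P ⊓ 𝒞(zpowers z) ≤ R)
    (hne : ¬ P ≤ R) : Nat.card S + 1 ≤ R.relIndex P := by
  obtain ⟨y, hy, hyR⟩ := SetLike.not_le_iff_exists.1 hne
  obtain ⟨i, hi, c, hcP, e1, e2, rfl⟩ := CL.GW.exists_inverted_mul h.sq (h.norm h.mem) h.odd hy
  have hiR : i ∉ R := fun e => hyR (mul_mem e (hc ⟨hcP, by
    rintro _ ⟨n, rfl⟩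
    exact ((show Commute c z from e2).zpow_right n).eq.symm⟩))
  let f : Option S → P ⧸ R.subgroupOf P := fun o => match o with
    | none => (1 : P)
    | some s => (⟨s * i * (s : G)⁻¹, conj_mem (h.norm s.2) hi⟩ : P)
  have key : ∀ s : S, f none ≠ f (some s) := fun s e => hiR (by
    have := mem_subgroupOf.1 (QuotientGroup.eq.1 e)
    simpa [mul_assoc] using conj_mem' (hn s.2) this)
  have hf : Function.Injective f := by
    rintro (_ | s) (_ | s') e
    · rfl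
    · exact absurd e (key s')
    · exact absurd e.symm (key s)
    have h1 := conj_mem' (hn s.2) (mem_subgroupOf.1 (QuotientGroup.eq.1 e))
    by_contra hne
    obtain ⟨u, hu⟩ : ∃ u : G, u = (s : G)⁻¹ * s' := ⟨_, rfl⟩
    have huS : u ∈ S := hu ▸ mul_mem (inv_mem s.2) s'.2
    have h2 : i⁻¹ * (u * i * u⁻¹) ∈ R := by simpa [hu, mul_assoc] using h1
    have h3 : ∀ n : ℕ, i⁻¹ * (u ^ n * i * (u ^ n)⁻¹) ∈ R := fun n => by
      induction n with
      | zero => simp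
      | succ n ih =>
        have := mul_mem h2 (conj_mem (hn huS) ih)
        simpa [pow_succ', mul_assoc] using this
    obtain ⟨n, hn'⟩ := mem_powers_iff_mem_zpowers.2 (h.uniq u huS fun e' => hne (by
      rw [hu, inv_mul_eq_one] at e'
      rw [Subtype.ext e']))
    have h4 := h3 n
    rw [show u ^ n = z from hn', e1, ← mul_inv_rev, inv_mem_iff, ← pow_two] at h4
    exact hiR (mem_of_pow_mem_of_coprime (Nat.coprime_two_right.2 (h.odd.of_dvd_nat (orderOf_dvd_natCard _ hi))) h4)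
  have := Nat.card_le_card_of_injective f hf
  rwa [Finite.card_option] at this

theorem idx_le {p : ℕ} [hp : Fact p.Prime] {P A Z : Subgroup G} (hP : IsPGroup p P) (hZ : Nat.card Z ≤ p)
    (hc : ∀ g ∈ A, ∀ x ∈ P, ⁅g, x⁆ ∈ Z) (K : Subgroup G) : A ≤ K → K ≤ P → (𝒞(K)).relIndex A ≤ A.relIndex K →
    (𝒞(P)).relIndex A ≤ A.relIndex P := by
  induction K using WellFoundedGT.induction with
  | _ K ih =>
  intro h1 h2 h3
  by_cases e : P ≤ K
  · rwa [le_antisymm e h2]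
  obtain ⟨y, hy, hyK⟩ := SetLike.not_le_iff_exists.1 e
  have h4 : K ⊔ zpowers y ≤ P := sup_le h2 (zpowers_le.2 hy)
  refine ih (K ⊔ zpowers y) (lt_of_le_of_ne le_sup_left fun e' => hyK (e'.ge (mem_sup_right (mem_zpowers y))))
    (h1.trans le_sup_left) h4 ?_
  obtain ⟨n, hn⟩ := (hP.to_le h4).index (K.subgroupOf (K ⊔ zpowers y))
  have h5 : p ≤ K.relIndex (K ⊔ zpowers y) := by
    rw [relIndex, hn]
    refine Nat.le_self_pow (fun e' => hyK ?_) p
    rw [e', pow_zero] at hn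
    exact relIndex_eq_one.1 hn (mem_sup_right (mem_zpowers y))
  have h6 : 𝒞(K) ⊓ centralizer {y} ≤ 𝒞(K ⊔ zpowers y) := by
    rw [cent_sup]
    refine inf_le_inf_left _ fun g hg => ?_
    rintro _ ⟨n, rfl⟩
    exact ((show Commute g y from mem_centralizer_singleton_iff.1 hg).zpow_right n).eq.symm
  calc _ ≤ (𝒞(K) ⊓ centralizer {y}).relIndex A := relIndex_le_of_le_left h6 index_ne_zero_of_finite
    _ ≤ (𝒞(K)).relIndex A * (centralizer {y}).relIndex A := relIndex_inf_le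
    _ ≤ A.relIndex K * K.relIndex (K ⊔ zpowers y) := Nat.mul_le_mul h3
      ((relIndex_centralizer_singleton_le_card fun g hg => hc g hg y hy).trans (hZ.trans h5))
    _ = _ := relIndex_mul_relIndex _ _ _ h1 le_sup_left

theorem exists_max_ab {P Z : Subgroup G} (h1 : Z ≤ P) (h2 : Z ≤ 𝒞(Z)) :
    ∃ A : Subgroup G, Z ≤ A ∧ A ≤ P ∧ A ≤ 𝒞(A) ∧ P ⊓ 𝒞(A) ≤ A := by
  obtain ⟨A, ⟨a1, a2, a3⟩, hm⟩ := (wellFounded_gt (α := Subgroup G)).has_min {A | Z ≤ A ∧ A ≤ P ∧ A ≤ 𝒞(A)}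
    ⟨Z, le_rfl, h1, h2⟩
  refine ⟨A, a1, a2, a3, fun x hx => ?_⟩
  by_contra hxA
  have h3 := zpowers_le.2 (mem_inf.1 hx).2
  refine hm (A ⊔ zpowers x) ⟨a1.trans le_sup_left, sup_le a2 (zpowers_le.2 (mem_inf.1 hx).1), ?_⟩
    (lt_of_le_of_ne le_sup_left fun e => hxA (e.ge (mem_sup_right (mem_zpowers x))))
  rw [cent_sup]
  exact le_inf (sup_le a3 h3) (sup_le (le_centralizer_iff.1 h3) (zpowers x).le_centralizer)

theorem Uq.exists_min {S O : Subgroup G} {z : G} (h : Uq S O z) (hne : ¬ zpowers z ≤ 𝒞(O)) :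
    ∃ p : ℕ, p.Prime ∧ p ≠ 2 ∧ ∃ P : Subgroup G, IsPGroup p P ∧ Uq S P z ∧ P ≠ ⊥ ∧ ⁅P, zpowers z⁆ = P ∧
      P ⊓ 𝒞(zpowers z) = ⁅P, P⁆ ∧ ⁅P, P⁆ ≤ 𝒞(P) ∧ (¬ IsMulCommutative P → P ⊓ 𝒞(P) = ⁅P, P⁆) ∧
      ∀ x ∈ P, x ^ p = 1 := by
  obtain ⟨k, hk⟩ := IsPGroup.iff_card.1 h.two
  have hcop : ∀ X ≤ O, (Nat.card S).Coprime (Nat.card X) := fun X hX => by
    rw [hk]; exact Nat.Coprime.pow_left k (Nat.coprime_two_left.2 (h.odd.of_dvd_nat (card_dvd_of_le hX)))
  obtain ⟨p, hp, hd, Q, hQ, hn, hQc⟩ : ∃ p : ℕ, p.Prime ∧ p ∣ Nat.card O ∧ ∃ Q, IsSylowIn p Q O ∧ S ≤ 𝒩(Q) ∧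
      ¬ zpowers z ≤ 𝒞(Q) := by
    by_contra hall
    push Not at hall
    refine hne (le_centralizer_iff.1 (le_of_forall_isSylowIn fun p hp hd => ?_))
    have := Fact.mk hp
    have := h.two.isNilpotent
    obtain ⟨Q, hQ, hn⟩ := exists_isSylowIn_le_normalizer p h.norm (hcop O le_rfl) (Or.inl inferInstance)
    exact ⟨Q, hQ, le_centralizer_iff.1 (hall p hp hd Q hQ hn)⟩
  have h2 : p ≠ 2 := fun e => Nat.not_even_iff_odd.2 h.odd (even_iff_two_dvd.2 (e ▸ hd))
  obtain ⟨P, ⟨h1, h3, h4⟩, hm⟩ := (wellFounded_lt (α := Subgroup G)).has_min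
    {U | U ≤ Q ∧ S ≤ 𝒩(U) ∧ ¬ zpowers z ≤ 𝒞(U)} ⟨Q, le_rfl, hn, hQc⟩
  obtain ⟨a1, a2, -, a4, a5, a6⟩ := min_coprime_action hp (hQ.isPGroup.to_le h1) h3 (zpowers_le.2 h.mem) h.norm_z
    ((hcop P (h1.trans hQ.le)).coprime_dvd_left (card_dvd_of_le (zpowers_le.2 h.mem))) h4
    fun U hU hB => le_centralizer_iff.1 (by
      by_contra hc
      exact hm U ⟨hU.le.trans h1, hB, hc⟩ hU)
  exact ⟨p, hp, h2, P, hQ.isPGroup.to_le h1, ⟨h.two, h.mem, h.sq, h.uniq,
    h.odd.of_dvd_nat (card_dvd_of_le (h1.trans hQ.le)), h3⟩, fun e => h4 (by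
      rw [e]; exact fun x _ y hy => by rw [mem_bot.1 hy, one_mul, mul_one]), a1, a2, a4, a5, a6 h2⟩

end grp

theorem sq_le_two_pow (j : ℕ) : j * j ≤ 2 ^ j + 1 := by
  induction j with
  | zero => simp
  | succ j ih =>
    rcases lt_or_ge j 3 with h | h
    · interval_cases j <;> norm_num
    · rw [pow_succ]; nlinarith

theorem le_of_dvd_four_pow {p e k : ℕ} (hp : p.Prime) (he : 0 < e) (hd : p ∣ 2 ^ (2 * e) - 1) (hk : 2 ^ k + 1 ≤ p) :
    k ≤ e := by
  rw [mul_comm, pow_mul, ← one_pow 2, Nat.sq_sub_sq] at hd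
  have h1 : 2 ≤ 2 ^ e := Nat.le_self_pow he.ne' 2
  have h2 : p ≤ 2 ^ e + 1 := by
    rcases (Nat.Prime.dvd_mul hp).1 hd with h | h
    · exact Nat.le_of_dvd (by omega) h
    · exact (Nat.le_of_dvd (by omega) h).trans (by omega)
  exact (Nat.pow_le_pow_iff_right (by norm_num : 1 < 2)).1 (by omega)

/-- the bound for modules of dimension `n` -/
def Bnd (n : ℕ) : Prop :=
  ∀ (G : Type u) [Group G] [Finite G] (V : Type v) [AddCommGroup V] [Module (ZMod 2) V] [Module.Finite (ZMod 2) V]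
    (ρ : Representation (ZMod 2) G V) (S O : Subgroup G) (z : G) (k : ℕ), finrank (ZMod 2) V = n → Uq S O z →
    ¬ ⁅O, zpowers z⁆ ≤ ρ.ker → Nat.card S = 2 ^ k → 2 * k ≤ n

section main
variable {G : Type u} [Group G] [Finite G] {V : Type v} [AddCommGroup V] [Module (ZMod 2) V]
  [Module.Finite (ZMod 2) V] {ρ : Representation (ZMod 2) G V}

theorem bnd_core (ih : ∀ m < finrank (ZMod 2) V, Bnd.{u, v} m) (hρ : Function.Injective ρ) {S O : Subgroup G}
    {z : G} {k : ℕ} (h : Uq S O z) (hne : ¬ zpowers z ≤ 𝒞(O)) (hk : Nat.card S = 2 ^ k) :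
    2 * k ≤ finrank (ZMod 2) V := by
  obtain ⟨p, hp, h2, P, hP, hq, P1, c1, c2, c3, c4, c5⟩ := h.exists_min hne
  have := Fact.mk hp
  set Z := P ⊓ 𝒞(P) with hZ
  have Z1 : Z ≠ ⊥ := inf_cent_ne_bot hP hP le_normalizer P1
  have hZZ : Z ≤ 𝒞(Z) := inf_le_right.trans (cent_mono inf_le_left)
  have hPZ : P ≤ 𝒞(Z) := le_centralizer_iff.1 inf_le_right
  have hSZ : S ≤ 𝒩(Z) := le_norm_inf hq.norm (le_norm_cent hq.norm)
  obtain ⟨U, hU, hU0, hU1⟩ := exists_compl (ρ := ρ) (hq.odd.of_dvd_nat (card_dvd_of_le (inf_le_left : Z ≤ P)))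
  have hUP : Inv ρ P U := fun a ha => hU a (cent_le_norm Z (hPZ ha))
  have mov : ∀ c : G, c ≠ 1 → ∃ v, ρ c v ≠ v := fun c c1 => by
    by_contra hall
    push Not at hall
    exact c1 (hρ (by rw [map_one]; exact LinearMap.ext hall))
  have U1 : U ≠ ⊥ := fun e => by
    obtain ⟨c, hc, c1⟩ := (bot_or_exists_ne_one Z).resolve_left Z1
    obtain ⟨v, hv⟩ := mov c c1
    exact hv (sub_eq_zero.1 ((Submodule.mem_bot _).1 (e ▸ hU1 c hc v)))
  obtain ⟨B, hBZ, b1, b2, b3⟩ := exists_hyperplane hp h2 hZZ (fun x hx => c5 x hx.1)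
    (fun a ha => hUP a ha.1) U1
  by_cases hB : B = ⊥
  swap
  · set N := 𝒩(B) ⊓ 𝒩(Z) with hN
    have hPN : P ≤ N := le_inf ((hPZ.trans (cent_mono hBZ)).trans (cent_le_norm B)) (hPZ.trans (cent_le_norm Z))
    have hzN : z ∈ N := by
      refine ⟨mem_norm_of_cj_le fun y hy => ?_, hSZ h.mem⟩
      have hy' := mem_cj.1 hy
      by_cases hab : IsMulCommutative P
      · obtain ⟨i, hi, c, hc, e1, e2, e3⟩ := CL.GW.exists_inverted_mul h.sq (hq.norm h.mem) hq.odd (hBZ hy').1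
        have e4 : c ∈ (⁅P, P⁆ : Subgroup G) := c2.le ⟨hc, by
          rintro _ ⟨n, rfl⟩
          exact ((show Commute c z from e2).zpow_right n).eq.symm⟩
        rw [commutator_eq_bot_iff_le_centralizer.2 P.le_centralizer, mem_bot] at e4
        rw [e4, mul_one] at e3
        rw [show y = z * (z⁻¹ * y * z) * z⁻¹ by group, e3, e1]
        exact inv_mem (e3 ▸ hy')
      · have e := comm_of_mem (mem_inf.1 (c2.ge ((c4 hab).le (hBZ hy')))).2 (mem_zpowers z)
        rwa [show y = z * (z⁻¹ * y * z) * z⁻¹ by group, e, mul_inv_cancel_right]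
    have hinv : Inv ρ N (fx ρ B U) := fx_inv (fun a ha => hU a ha.2) inf_le_left
    obtain ⟨j, hj⟩ := IsPGroup.iff_card.1 (hq.subgroupOf hzN).two
    have h3 := ih _ (Submodule.finrank_lt (s := fx ρ B U) fun e => by
      obtain ⟨c, hc, c1⟩ := (bot_or_exists_ne_one B).resolve_left hB
      obtain ⟨v, hv⟩ := mov c c1
      exact hv ((e.ge (Submodule.mem_top : v ∈ ⊤)).2 c hc)) N (fx ρ B U)
      (Representation.subrepresentation (ρ.comp N.subtype) _ fun g v hv => hinv g g.2 v hv) _ _ _ j rfl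
      (hq.subgroupOf hzN) (fun hle => b1 (eq_bot_iff.2 fun v hv => hU0.le ⟨hv.1, fun c hc => by
        have e1 : c ∈ (⁅P.subgroupOf N, zpowers (⟨z, hzN⟩ : N)⁆ : Subgroup N).map N.subtype := by
          rw [map_commutator, map_subgroupOf_eq_of_le hPN, MonoidHom.map_zpowers, subtype_apply, c1]
          exact hc.1
        obtain ⟨d, hd, rfl⟩ := e1
        exact congrArg Subtype.val (LinearMap.congr_fun (MonoidHom.mem_ker.1 (hle hd)) ⟨v, hv⟩)⟩)) hj
    have h4 := orbit_bound hZZ hBZ hSZ (fun a ha => hUP a ha.1) b2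
    have h5 := card_inf_mul_relIndex 𝒩(B) S
    have h6 : Nat.card (𝒩(B) ⊓ S : Subgroup G) = 2 ^ j := by
      rw [← hj, ← card_map_of_injective N.subtype_injective, subgroupOf_map_subtype]
      congr 2
      exact le_antisymm (le_inf inf_le_right (le_inf inf_le_left (inf_le_right.trans hSZ)))
        (le_inf (inf_le_right.trans inf_le_left) inf_le_left)
    have j0 : j ≠ 0 := fun e => hne (by
      rw [e, pow_zero, card_eq_one] at h6
      rw [mem_bot.1 (h6.le ⟨hzN.1, h.mem⟩), zpowers_one_eq_bot]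
      exact bot_le)
    rw [h6, hk] at h5
    obtain ⟨i, -, hi⟩ := (Nat.dvd_prime_pow Nat.prime_two).1 (Dvd.intro_left _ h5)
    rw [hi, ← pow_add] at h5
    have h7 : j + i = k := Nat.pow_right_injective le_rfl h5
    have h8 : i + 1 ≤ 2 ^ i := Nat.lt_two_pow_self
    rw [hi] at h4
    have h9 : 1 ≤ j := Nat.pos_of_ne_zero j0
    nlinarith
  have hfx : fx ρ B U = U := le_antisymm (fun v hv => hv.1) fun v hv =>
    ⟨hv, fun b hb => by simp [mem_bot.1 (hB ▸ hb)]⟩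
  rw [hfx] at b2
  simp only [hB, mem_bot, bot_sup_eq] at b2 b3
  obtain ⟨c, hc, c0⟩ := (bot_or_exists_ne_one Z).resolve_left Z1
  have hcZ : Nat.card Z = p := by
    rw [le_antisymm (b3 c hc c0) (zpowers_le.2 hc), Nat.card_zpowers]
    exact orderOf_eq_prime (c5 c hc.1) c0
  have hcp : ρ c ^ p = 1 := by rw [← map_pow, c5 c hc.1, map_one]
  by_cases hab : IsMulCommutative P
  · have hPP : (⁅P, P⁆ : Subgroup G) = ⊥ := commutator_eq_bot_iff_le_centralizer.2 P.le_centralizer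
    have h3 := hq.semi (R := ⊥) (by rw [normalizer_eq_top]; exact le_top) (c2.trans hPP).le
      fun e => P1 (le_bot_iff.1 e)
    rw [relIndex_bot_left, hk, ← inf_eq_left.2 P.le_centralizer, ← hZ, hcZ] at h3
    obtain ⟨i, hi, d, hd, e1, e2, e3⟩ := CL.GW.exists_inverted_mul h.sq (hq.norm h.mem) hq.odd hc.1
    have e4 : d ∈ (⁅P, P⁆ : Subgroup G) := c2.le ⟨hd, by
      rintro _ ⟨n, rfl⟩
      exact ((show Commute d z from e2).zpow_right n).eq.symm⟩
    rw [hPP, mem_bot] at e4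
    rw [e4, mul_one] at e3
    subst e3
    have h4 := finrank_dihedral (g := ρ z) (hp.odd_of_ne_two h2) hcp (by rw [← map_mul, h.sq, map_one])
      (by rw [← map_mul, ← map_mul, mul_assoc, mul_inv_eq_iff_eq_mul.1 e1, mul_inv_cancel_left])
      (hUP c hi) (hU z (hSZ h.mem)) (b2 c hc c0)
    have h5 := dvd_of_fpf hp hcp (hUP c hi) (b2 c hc c0)
    have h6 : finrank (ZMod 2) U ≠ 0 := fun e => U1 (Submodule.finrank_eq_zero.1 e)
    rw [h4] at h5
    have h7 := le_of_dvd_four_pow hp (by omega) h5 h3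
    have h8 := U.finrank_le
    omega
  have hZP := c4 hab
  obtain ⟨A, a1, a2, a3, a4⟩ := exists_max_ab (inf_le_left : Z ≤ P) hZZ
  have hPA : P ≤ 𝒩(A) := le_norm_of_cj_le fun g hg y hy => by
    have hy' := mem_cj.1 hy
    rw [show y = ⁅g, g⁻¹ * y * g⁆ * (g⁻¹ * y * g) by rw [commutatorElement_def]; group]
    exact mul_mem (a1 (hZP.ge (commutator_mem_commutator hg (a2 hy')))) hy'
  obtain ⟨B', hBA, d1, d2, d3⟩ := exists_hyperplane hp h2 a3 (fun x hx => c5 x (a2 hx))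
    (fun a ha => hUP a (a2 ha)) U1
  have hcB : c ∉ B' := fun e => d1 (eq_bot_iff.2 fun v hv => b2 c hc c0 v hv.1 (hv.2 c e))
  have h3 : 𝒩(B') ⊓ P ≤ A := fun g hg => a4 ⟨hg.2, cent_mono (d3 c (a1 hc) hcB) (by
    rw [cent_sup]
    refine ⟨fun b hb => ?_, cent_mono (zpowers_le.2 hc) (hPZ hg.2)⟩
    by_contra hne
    have e1 : ⁅g, b⁆ ∈ B' := mul_mem (conj_mem hg.1 hb) (inv_mem hb)
    exact hcB (zpowers_le.2 e1 (b3 _ (hZP.ge (commutator_mem_commutator hg.2 (a2 (hBA hb))))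
      (fun e => hne (commutatorElement_eq_one_iff_mul_comm.1 e).symm) hc)))⟩
  have h4 := orbit_bound a3 hBA hPA (fun a ha => hUP a (a2 ha)) d2
  have h5 : A.relIndex P ≤ (𝒩(B')).relIndex P := by
    rw [← inf_relIndex_right 𝒩(B')]
    exact relIndex_le_of_le_left h3 index_ne_zero_of_finite
  have h6 := two_le_of_fpf hp hcp (fx_inv (fun a ha => hUP a (a2 ha))
    ((a3.trans (cent_mono hBA)).trans (cent_le_norm B')) c (a1 hc)) (d2 c (a1 hc) hcB) d1
  have h7 := hq.semi hSZ (c2.trans hZP.symm).le fun e => hab ⟨⟨fun a b =>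
    Subtype.ext (comm_of_mem (mem_inf.1 (e b.2)).2 a.2)⟩⟩
  have h8 := idx_le hP hcZ.le (A := A) (fun g hg x hx => hZP.ge (commutator_mem_commutator (a2 hg) hx)) A le_rfl a2
    (by rw [relIndex_eq_one.2 a3, relIndex_self])
  rw [← relIndex_mul_relIndex Z A P a1 a2, hk, show Z.relIndex A = (𝒞(P)).relIndex A by
    rw [← inf_relIndex_right 𝒞(P), ← inf_relIndex_right Z, hZ, inf_comm P, inf_assoc, inf_eq_right.2 a2]] at h7
  have h9 := sq_le_two_pow k
  have h10 : k ≤ A.relIndex P := Nat.mul_self_le_mul_self_iff.1 (h9.trans (h7.trans (Nat.mul_le_mul_right _ h8)))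
  nlinarith

theorem bnd (n : ℕ) : Bnd.{u, v} n := by
  induction n using Nat.strong_induction_on with
  | _ n ih =>
  intro G _ _ V _ _ _ ρ S O z k hn h hne hk
  subst hn
  have hz : ¬ zpowers (QuotientGroup.mk' ρ.ker z) ≤ 𝒞(O.map (QuotientGroup.mk' ρ.ker)) := fun e => hne (by
    rw [← QuotientGroup.ker_mk' ρ.ker, ← Subgroup.map_eq_bot_iff, map_commutator, MonoidHom.map_zpowers,
      commutator_eq_bot_iff_le_centralizer]
    exact le_centralizer_iff.1 e)
  refine bnd_core (ρ := QuotientGroup.lift ρ.ker ρ fun _ hx => hx) ih ((injective_iff_map_eq_one _).2 fun x hx => ?_)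
    (h.map (QuotientGroup.mk' ρ.ker)) hz ((h.card_map fun e => hz ?_).trans hk)
  · obtain ⟨x, rfl⟩ := QuotientGroup.mk_surjective x
    exact (QuotientGroup.eq_one_iff x).2 hx
  · rw [e, zpowers_one_eq_bot]; exact bot_le

end main

end CL.Fgs.M2
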