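/-
Minimal Frobenius groups with spectrum `{1, p, q}` and their direct products.
-/
import Cfsg.Agent.Grp.Coprime

set_option autoImplicit false
set_option linter.unusedSectionVars false

open Subgroup

namespace CL.Fgs.CritSpec

/-- A normal subgroup of exponent `p` outside which all elements have order `q`. -/
structure Base (p q : ℕ) {X : Type*} [Group X] (V : Subgroup X) : Prop where
  normal : V.Normal
  pw : ∀ v ∈ V, v ^ p = 1
  qw : ∀ x, x ∉ V → x ^ q = 1
  hp : p ∣ Nat.card X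
  hq : q ∣ Nat.card X

theorem exists_base {p q : ℕ} (hp : p.Prime) (hq : q.Prime) (hpq : p ≠ q) :
    ∃ (X : Type) (_ : Group X) (_ : Finite X) (V : Subgroup X), Base p q V := by
  have := Fact.mk hp
  have := Fact.mk hq
  have hk : q - 1 ≠ 0 := by have := hq.two_le; omega
  let F := GaloisField p (q - 1)
  have hF : Nat.card F = p ^ (q - 1) := GaloisField.card p _ hk
  obtain ⟨u, hu⟩ := exists_prime_orderOf_dvd_card' (G := Fˣ) q (by
    rw [Nat.card_units, hF]
    refine (Nat.modEq_iff_dvd' (Nat.one_le_pow _ _ hp.pos)).1 ?_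
    rw [← Nat.totient_prime hq]
    exact (Nat.ModEq.pow_totient ((Nat.coprime_primes hp hq).2 hpq)).symm)
  let φ : zpowers u →* MulAut (Multiplicative F) :=
    ((MulAutMultiplicative F).symm.toMonoidHom.comp (DistribMulAction.toAddAut Fˣ F)).comp (zpowers u).subtype
  have hc : Nat.card (Multiplicative F ⋊[φ] zpowers u) = p ^ (q - 1) * q := by
    rw [SemidirectProduct.card, Nat.card_zpowers, hu, Nat.card_congr Multiplicative.toAdd, hF]
  refine ⟨Multiplicative F ⋊[φ] zpowers u, inferInstance, Finite.of_equiv _ SemidirectProduct.equivProd.symm,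
    SemidirectProduct.rightHom.ker, inferInstance, fun v hv => ?_, fun x hx => ?_,
    hc ▸ (dvd_pow_self p hk).mul_right _, hc ▸ dvd_mul_left _ _⟩
  · rw [← SemidirectProduct.range_inl_eq_ker_rightHom] at hv
    obtain ⟨v, rfl⟩ := hv
    rw [← map_pow, ← ofAdd_toAdd v, ← ofAdd_nsmul, nsmul_eq_mul, CharP.cast_eq_zero, zero_mul, ofAdd_zero, map_one]
  · have key : ∀ n : ℕ, (x ^ n).left.toAdd = (∑ i ∈ Finset.range n, ((x.right : Fˣ) : F) ^ i) * x.left.toAdd :=
      fun n => by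
        induction n with
        | zero => simp
        | succ n ih =>
          rw [pow_succ, SemidirectProduct.mul_left, toAdd_mul, ih, Finset.sum_range_succ, add_mul,
            ← SemidirectProduct.rightHom_eq_right, map_pow]
          rfl
    have h1 : x.right ^ q = 1 := orderOf_dvd_iff_pow_eq_one.1 (((Nat.card_zpowers u).trans hu) ▸ orderOf_dvd_natCard x.right :)
    have h2 : ((x.right : Fˣ) : F) ≠ 1 := fun e => hx (Subtype.ext (Units.val_eq_one.1 e))
    have h3 : ((x.right : Fˣ) : F) ^ q = 1 := by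
      rw [← Units.val_pow_eq_pow_val, ← Subgroup.coe_pow, h1]; rfl
    refine SemidirectProduct.ext (Multiplicative.toAdd.injective ?_) ?_
    · rw [key, geom_sum_eq h2, h3]; simp
    · rw [← SemidirectProduct.rightHom_eq_right, map_pow]; exact h1

theorem eq_one_of_pow {X : Type*} [Group X] {p q : ℕ} (h : p.Coprime q) {x : X} (h1 : x ^ p = 1)
    (h2 : x ^ q = 1) : x = 1 :=
  orderOf_eq_one_iff.1 (Nat.eq_one_of_dvd_coprimes h (orderOf_dvd_of_pow_eq_one h1) (orderOf_dvd_of_pow_eq_one h2))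

/-- The minimal groups. -/
structure Good (p q : ℕ) (X : Type*) [Group X] : Prop where
  ord : ∀ x : X, orderOf x = 1 ∨ orderOf x = p ∨ orderOf x = q
  ep : ∃ x : X, orderOf x = p
  eq : ∃ x : X, orderOf x = q
  min : ∀ K : Subgroup X, p ∣ Nat.card K → q ∣ Nat.card K → K = ⊤
  nor : ∀ N : Subgroup X, N.Normal → N ≠ ⊥ → ∀ x, x ^ p = 1 → x ∈ N
  cl : ∀ x y : X, x ^ p = 1 → y ^ p = 1 → (x * y) ^ p = 1
  ncl : ∃ x y : X, x ^ q = 1 ∧ y ^ q = 1 ∧ (x * y) ^ q ≠ 1

theorem exists_good {p q : ℕ} (hp : p.Prime) (hq : q.Prime) (hpq : p ≠ q) :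
    ∃ (X : Type) (_ : Group X) (_ : Finite X), Good p q X := by
  have := Fact.mk hp
  have := Fact.mk hq
  have hc := (Nat.coprime_primes hp hq).2 hpq
  obtain ⟨X, _, _, V, h⟩ := exists_base hp hq hpq
  obtain ⟨H, ⟨h1, h2⟩, hm⟩ := exists_minimal_of_wellFoundedLT
    (fun K : Subgroup X => p ∣ Nat.card K ∧ q ∣ Nat.card K) ⟨⊤, by rw [card_top]; exact ⟨h.hp, h.hq⟩⟩
  have := h.normal
  have pw : ∀ v : H, (v : X) ∈ V → v ^ p = 1 := fun v hv => Subtype.ext (h.pw v hv)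
  have qw : ∀ v : H, (v : X) ∉ V → v ^ q = 1 := fun v hv => Subtype.ext (h.qw v hv)
  have hV : ∀ v : H, v ^ p = 1 → (v : X) ∈ V := fun v hv => by
    by_contra h3
    exact h3 (by rw [eq_one_of_pow hc hv (qw v h3)]; exact one_mem _)
  obtain ⟨v, hv⟩ := exists_prime_orderOf_dvd_card' p h1
  obtain ⟨x, hx⟩ := exists_prime_orderOf_dvd_card' q h2
  have hv1 : v ≠ 1 := fun e => hp.one_lt.ne (by rw [← hv, e, orderOf_one])
  have hvp : v ^ p = 1 := hv ▸ pow_orderOf_eq_one v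
  have hxq : x ^ q = 1 := hx ▸ pow_orderOf_eq_one x
  have hxV : (x : X) ∉ V := fun h3 => hq.one_lt.ne (by rw [← hx, eq_one_of_pow hc (pw x h3) hxq, orderOf_one])
  have min : ∀ K : Subgroup H, p ∣ Nat.card K → q ∣ Nat.card K → K = ⊤ := fun K h3 h4 => by
    rw [← card_subtype H K] at h3 h4
    exact eq_top_iff.2 fun y _ => by
      obtain ⟨z, hz, e⟩ := hm ⟨h3, h4⟩ (map_subtype_le K) y.2
      exact Subtype.ext e ▸ hz
  have dv : ∀ {r : ℕ} [Fact r.Prime] {K : Subgroup H} {y : H}, y ∈ K → y ≠ 1 → y ^ r = 1 → r ∣ Nat.card K :=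
    fun hy h3 h4 => orderOf_eq_prime h4 h3 ▸ orderOf_dvd_natCard _ hy
  refine ⟨H, inferInstance, inferInstance, fun y => ?_, ⟨v, hv⟩, ⟨x, hx⟩, min, fun N hN h3 y hy => ?_,
    fun a b ha hb => pw _ (mul_mem (hV a ha) (hV b hb)), v * x, x⁻¹, qw _ fun h3 => hxV
      ((mul_mem_cancel_left (hV v hvp)).1 h3), by rw [inv_pow, hxq, inv_one], fun e => hv1
      (eq_one_of_pow hc hvp (by rwa [mul_inv_cancel_right] at e))⟩
  · by_cases h3 : y = 1
    · exact Or.inl (orderOf_eq_one_iff.2 h3)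
    · by_cases h4 : (y : X) ∈ V
      · exact Or.inr (Or.inl (orderOf_eq_prime (pw y h4) h3))
      · exact Or.inr (Or.inr (orderOf_eq_prime (qw y h4) h3))
  by_cases h4 : ∃ n ∈ N, (n : X) ∉ V
  · obtain ⟨n, hn, h4⟩ := h4
    have h5 : n * v * n⁻¹ * v⁻¹ ≠ 1 := fun e => by
      have h6 : Commute n v := by rwa [mul_inv_eq_one, mul_inv_eq_iff_eq_mul] at e
      have := qw (n * v) fun h7 => h4 ((mul_mem_cancel_right (hV v hvp)).1 h7)
      rw [h6.mul_pow, qw n h4, one_mul] at this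
      exact hv1 (eq_one_of_pow hc hvp this)
    rw [min N (dv (by rw [mul_assoc, mul_assoc, ← mul_assoc v]; exact mul_mem hn (hN.conj_mem _ (inv_mem hn) v)) h5
      (pw _ (mul_mem (h.normal.conj_mem _ (hV v hvp) n) (inv_mem (hV v hvp)))))
      (dv hn (fun e => h4 (by rw [e]; exact one_mem _)) (qw n h4))]
    exact mem_top y
  push Not at h4
  obtain ⟨⟨n, hn⟩, h5⟩ := ne_bot_iff_exists_ne_one.1 h3
  have h6 := min (N ⊔ zpowers x) (dv (mem_sup_left hn) (fun e => h5 (Subtype.ext e)) (pw n (h4 n hn)))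
    (dv (mem_sup_right (mem_zpowers x)) (fun e => hxV (by rw [e]; exact one_mem _)) hxq)
  obtain ⟨m, hm, _, ⟨i, rfl⟩, rfl⟩ := (CL.Grp.mem_sup_iff_of_le_normalizer le_normalizer_of_normal).1 (h6.ge (mem_top y))
  have h7 : x ^ i = 1 := eq_one_of_pow hc (pw _ ((mul_mem_cancel_left (h4 m hm)).1 (hV _ hy))) (by
    rw [← zpow_natCast, ← zpow_mul, mul_comm, zpow_mul, zpow_natCast, hxq, one_zpow])
  simpa [h7] using hm

section prod

variable {ι : Type*} [Fintype ι] [DecidableEq ι] {p q : ι → ℕ} {X : ι → Type*} [∀ j, Group (X j)]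
  [∀ j, Finite (X j)] (h : ∀ j, Good (p j) (q j) (X j)) (hp : ∀ j, (p j).Prime) (hq : ∀ j, (q j).Prime)
  (hc : ∀ j k, j ≠ k → (p j * q j).Coprime (p k * q k))
include h

theorem orderOf_dvd (j : ι) (x : X j) : orderOf x ∣ p j * q j := by
  rcases (h j).ord x with e | e | e <;> rw [e]
  exacts [one_dvd _, dvd_mul_right _ _, dvd_mul_left _ _]

include hc

theorem range_orderOf : Set.range (orderOf : (∀ j, X j) → ℕ) =
    {m | ∃ c : ι → ℕ, (∀ j, c j = 1 ∨ c j = p j ∨ c j = q j) ∧ m = ∏ j, c j} := by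
  have key : ∀ g : ∀ j, X j, orderOf g = ∏ j, orderOf (g j) := fun g => by
    rw [Pi.orderOf, Finset.lcm_eq_prod fun j _ k _ hjk => Nat.Coprime.of_dvd (orderOf_dvd h j _) (orderOf_dvd h k _)
      (hc j k hjk)]
  ext m
  refine ⟨fun ⟨g, e⟩ => ⟨_, fun j => (h j).ord (g j), e ▸ key g⟩, fun ⟨c, h1, e⟩ => ?_⟩
  have : ∀ j, ∃ x : X j, orderOf x = c j := fun j => by
    rcases h1 j with e | e | e <;> rw [e]
    exacts [⟨1, orderOf_one⟩, (h j).ep, (h j).eq]
  choose g hg using this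
  exact ⟨g, by simp [key, hg, e]⟩

theorem eq_mulSingle {g : ∀ j, X j} {j : ι} (hg : g ^ (p j * q j) = 1) : g = Pi.mulSingle j (g j) := by
  funext k
  by_cases hk : k = j
  · rw [hk, Pi.mulSingle_eq_same]
  · rw [Pi.mulSingle_eq_of_ne hk]
    exact eq_one_of_pow (hc j k (Ne.symm hk)) (congrFun hg k) (orderOf_dvd_iff_pow_eq_one.1 (orderOf_dvd h k _))

include hp hq

theorem critical (H : Subgroup (∀ j, X j)) (N : Subgroup H) [hN : N.Normal]
    (h1 : ∀ j, (∃ x : H ⧸ N, orderOf x = p j) ∧ ∃ x : H ⧸ N, orderOf x = q j) : H = ⊤ ∧ N = ⊥ := by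
  have lift : ∀ j r, r.Prime → r ∣ p j * q j → (∃ x : H ⧸ N, orderOf x = r) →
      ∃ y : X j, ∃ hy : Pi.mulSingle j y ∈ H, orderOf y = r ∧ (⟨_, hy⟩ : H) ∉ N := fun j r hr h2 ⟨x, hx⟩ => by
    obtain ⟨x, rfl⟩ := QuotientGroup.mk_surjective x
    have := Fact.mk hr
    have h3 : r ∣ orderOf x := hx ▸ orderOf_map_dvd (QuotientGroup.mk' N) x
    have h4 : orderOf (x ^ (orderOf x / r)) = r := orderOf_pow_orderOf_div (orderOf_pos x).ne' h3
    have h5 : ((x ^ (orderOf x / r) : H) : ∀ j, X j) = Pi.mulSingle j _ := eq_mulSingle h hc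
      (orderOf_dvd_iff_pow_eq_one.1 (by rwa [orderOf_coe, h4]))
    refine ⟨_, h5 ▸ (x ^ (orderOf x / r)).2, by rw [← orderOf_piMulSingle, ← h5, orderOf_coe, h4], fun h6 => ?_⟩
    have h7 : x ^ (orderOf x / r) ∈ N := by convert h6
    rw [← QuotientGroup.eq_one_iff, QuotientGroup.mk_pow, ← orderOf_dvd_iff_pow_eq_one, hx] at h7
    have h8 : r * r ∣ orderOf x := by rw [← Nat.mul_div_cancel' h3]; exact Nat.mul_dvd_mul_left r h7
    have h9 : orderOf (x ^ (orderOf x / (r * r))) = r * r := orderOf_pow_orderOf_div (orderOf_pos x).ne' h8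
    have h10 : ((x ^ (orderOf x / (r * r)) : H) : ∀ j, X j) ^ r = 1 := funext fun k => by
      have h11 := (orderOf_apply_dvd_orderOf k).trans (((orderOf_coe _).trans h9).trans (pow_two r).symm).dvd
      rcases (h k).ord ((x ^ (orderOf x / (r * r)) : H).1 k) with e | e | e
      · exact orderOf_dvd_iff_pow_eq_one.1 (e.dvd.trans (one_dvd _))
      · exact orderOf_dvd_iff_pow_eq_one.1 (e.dvd.trans ((hp k).dvd_of_dvd_pow (e.symm.dvd.trans h11)))
      · exact orderOf_dvd_iff_pow_eq_one.1 (e.dvd.trans ((hq k).dvd_of_dvd_pow (e.symm.dvd.trans h11)))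
    have h11 : r * r ≤ r := Nat.le_of_dvd hr.pos (((orderOf_coe _).trans h9).symm.dvd.trans
      (orderOf_dvd_of_pow_eq_one h10))
    nlinarith [hr.two_le]
  have hH : ∀ j y, Pi.mulSingle j y ∈ H := fun j y => by
    obtain ⟨a, ha, h2, -⟩ := lift j _ (hp j) (dvd_mul_right _ _) (h1 j).1
    obtain ⟨b, hb, h3, -⟩ := lift j _ (hq j) (dvd_mul_left _ _) (h1 j).2
    exact ((h j).min (H.comap (MonoidHom.mulSingle X j)) (h2 ▸ orderOf_dvd_natCard _ ha)
      (h3 ▸ orderOf_dvd_natCard _ hb)).ge (mem_top y)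
  refine ⟨eq_top_iff.2 fun g _ => ?_, ?_⟩
  · exact pi_mem_of_mulSingle_mem g fun j => hH j _
  by_contra h2
  obtain ⟨r, hr, h3⟩ := Nat.exists_prime_and_dvd (show Nat.card N ≠ 1 from fun e => h2 (card_eq_one.1 e))
  have := Fact.mk hr
  obtain ⟨n, hn⟩ := exists_prime_orderOf_dvd_card' r h3
  obtain ⟨j, hj⟩ : ∃ j, (n : H).1 j ≠ 1 := by
    by_contra! h4
    exact hr.one_lt.ne (by rw [← hn, (Subtype.ext (Subtype.ext (funext h4)) : n = 1), orderOf_one])
  have h4 : (n : H).1 ^ r = 1 := by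
    rw [← hn, ← orderOf_coe, ← orderOf_coe, pow_orderOf_eq_one]
  have h5 := eq_mulSingle h hc (j := j) (g := (n : H).1) (orderOf_dvd_iff_pow_eq_one.1
    ((orderOf_dvd_of_pow_eq_one h4).trans (orderOf_eq_prime (congrFun h4 j) hj ▸ orderOf_dvd h j _)))
  obtain ⟨y, hy, h6, h7⟩ := lift j _ (hp j) (dvd_mul_right _ _) (h1 j).1
  refine h7 ((h j).nor (N.comap ((MonoidHom.mulSingle X j).codRestrict H (hH j))) inferInstance
    (ne_bot_iff_exists_ne_one.2 ⟨⟨(n : H).1 j, ?_⟩, fun e => hj (congrArg Subtype.val e)⟩) y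
    (h6 ▸ pow_orderOf_eq_one y))
  rw [mem_comap]
  convert n.2
  exact Subtype.ext h5.symm

end prod

end CL.Fgs.CritSpec
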