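import Cfsg.Agent.Fgs.Dv2Defs

/-!
# Finite subgroups of `GL₂(D)`: consequences of the rank condition
-/

set_option autoImplicit false

open Module

namespace CL.Dv2

universe u v

section Norm

variable {G : Type*} [Group G] {R : Type*} [Ring R] [Algebra ℚ R]

/-- The sum of the first `p` powers. -/
def nm (φ : G →* R) (p : ℕ) (x : G) : R := ∑ i ∈ Finset.range p, φ (x ^ i)

/-- The average of the first `p` powers. -/
noncomputable def av (φ : G →* R) (p : ℕ) (x : G) : R := (p : ℚ)⁻¹ • nm φ p x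

omit [Algebra ℚ R] in
theorem mul_nm (φ : G →* R) {p : ℕ} {x : G} (hx : x ^ p = 1) : φ x * nm φ p x = nm φ p x := by
  have h1 := Finset.sum_range_succ (fun i => φ (x ^ i)) p
  have h2 := Finset.sum_range_succ' (fun i => φ (x ^ i)) p
  simp only [hx, pow_zero] at h1 h2
  rw [nm, Finset.mul_sum]
  simp only [← map_mul, ← pow_succ']
  exact add_right_cancel (h2.symm.trans h1)

omit [Algebra ℚ R] in
theorem pow_mul_nm (φ : G →* R) {p : ℕ} {x : G} (hx : x ^ p = 1) (j : ℕ) :
    φ (x ^ j) * nm φ p x = nm φ p x := by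
  induction j with
  | zero => simp
  | succ j ih => rw [pow_succ, map_mul, mul_assoc, mul_nm φ hx, ih]

theorem mul_av (φ : G →* R) {p : ℕ} {x : G} (hx : x ^ p = 1) : φ x * av φ p x = av φ p x := by
  rw [av, mul_smul_comm, mul_nm φ hx]

theorem av_idem (φ : G →* R) {p : ℕ} (hp : p ≠ 0) {x : G} (hx : x ^ p = 1) :
    av φ p x * av φ p x = av φ p x := by
  have h1 : nm φ p x * nm φ p x = (p : ℚ) • nm φ p x := by
    conv_lhs => enter [1]; rw [nm]
    rw [Finset.sum_mul, Finset.sum_congr rfl fun i _ => pow_mul_nm φ hx i, Finset.sum_const, Finset.card_range,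
      Nat.cast_smul_eq_nsmul]
  have hp' : (p : ℚ) ≠ 0 := by exact_mod_cast hp
  rw [av, smul_mul_smul_comm, h1, smul_smul]
  congr 1
  field_simp

theorem conj_av (φ : G →* R) (p : ℕ) (g x : G) : φ g * av φ p x * φ g⁻¹ = av φ p (g * x * g⁻¹) := by
  rw [av, av, mul_smul_comm, smul_mul_assoc, nm, nm, Finset.mul_sum, Finset.sum_mul]
  simp only [← map_mul, conj_pow]

theorem commute_av (φ : G →* R) (p : ℕ) {a : R} {x : G} (h : Commute a (φ x)) :
    Commute a (av φ p x) := by
  refine Commute.smul_right (Commute.sum_right _ _ _ fun i _ => ?_) _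
  rw [map_pow]
  exact h.pow_right i

theorem av_commute (φ : G →* R) (p : ℕ) {x y : G} (h : x * y = y * x) :
    av φ p x * av φ p y = av φ p y * av φ p x :=
  (commute_av φ p (commute_av φ p (show Commute (φ y) (φ x) by
    rw [Commute, SemiconjBy, ← map_mul, ← map_mul, h])).symm).eq

theorem av_eq_zero (φ : G →* R) {p : ℕ} (hp : p ≠ 0) {x : G} : av φ p x = 0 ↔ nm φ p x = 0 := by
  have hp' : (p : ℚ)⁻¹ ≠ 0 := inv_ne_zero (by exact_mod_cast hp)
  constructor
  · intro h
    have := congrArg (fun a => (p : ℚ) • a) h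
    simp only [av, smul_smul, smul_zero] at this
    rwa [mul_inv_cancel₀ (by exact_mod_cast hp), one_smul] at this
  · intro h
    rw [av, h, smul_zero]

/-- A group of prime exponent `p` all of whose non-identity elements have norm zero has order at most `p`. -/
theorem card_le_of_nm [Finite G] (φ : G →* R) {p : ℕ} (hp : p.Prime) (hG : ∀ x : G, x ^ p = 1) {e : R}
    (he : e ≠ 0) (h : ∀ x : G, x ≠ 1 → nm φ p x * e = 0) : Nat.card G ≤ p := by
  classical
  have := Fintype.ofFinite G
  rcases subsingleton_or_nontrivial G with hs | hs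
  · rw [Nat.card_of_subsingleton (1 : G)]
    exact hp.one_le
  obtain ⟨x0, hx0⟩ := exists_ne (1 : G)
  set S : R := ∑ x : G, φ x with hS
  have hSy : ∀ y, S * φ y = S := fun y => by
    rw [hS, Finset.sum_mul]
    simp only [← map_mul]
    exact Equiv.sum_comp (Equiv.mulRight y) (fun x => φ x)
  have canc : ∀ (c : ℚ) (a : R), c ≠ 0 → c • a = 0 → a = 0 := fun c a hc hh => by
    have := congrArg (fun b => c⁻¹ • b) hh
    simp only [smul_smul, smul_zero] at this
    rwa [inv_mul_cancel₀ hc, one_smul] at this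
  have hSe : S * e = 0 := by
    have h1 : S * nm φ p x0 = (p : ℚ) • S := by
      rw [nm, Finset.mul_sum, Finset.sum_congr rfl fun i _ => hSy (x0 ^ i), Finset.sum_const,
        Finset.card_range, Nat.cast_smul_eq_nsmul]
    refine canc p _ (by exact_mod_cast hp.ne_zero) ?_
    rw [← smul_mul_assoc, ← h1, mul_assoc, h x0 hx0, mul_zero]
  have hi : ∀ i ∈ Finset.range p, i ≠ 0 → ∑ x : G, φ (x ^ i) = S := by
    intro i hi hi0
    have hc : Nat.Coprime i p := by
      refine Nat.Coprime.symm ((Nat.Prime.coprime_iff_not_dvd hp).2 fun hd => ?_)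
      have := Nat.le_of_dvd (Nat.pos_of_ne_zero hi0) hd
      have := Finset.mem_range.1 hi
      omega
    obtain ⟨j, -, hj⟩ := Nat.exists_mul_mod_eq_one_of_coprime hc hp.one_lt
    have hinj : Function.Injective fun x : G => x ^ i := by
      have k : ∀ x : G, (x ^ i) ^ j = x := fun x => by
        rw [← pow_mul, ← Nat.div_add_mod (i * j) p, hj, pow_add, pow_mul, hG, one_pow, one_mul, pow_one]
      intro x y hxy
      rw [← k x, ← k y]
      exact congrArg (· ^ j) hxy
    exact Equiv.sum_comp (Equiv.ofBijective _ (Finite.injective_iff_bijective.1 hinj)) (fun x => φ x)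
  have h1 : (∑ x : G, nm φ p x) * e = (p : ℚ) • e := by
    rw [Finset.sum_mul, Finset.sum_eq_single 1 (fun x _ hx => h x hx) (by simp)]
    simp [nm, Nat.cast_smul_eq_nsmul]
  have h2 : (∑ x : G, nm φ p x) * e = (Nat.card G : ℚ) • e := by
    simp only [nm]
    rw [Finset.sum_comm, Finset.sum_mul, Finset.sum_eq_single 0 (fun i hi' hi0 => by rw [hi i hi' hi0, hSe])
      (fun h0 => absurd (Finset.mem_range.2 hp.pos) h0)]
    simp [Nat.cast_smul_eq_nsmul]
  by_contra hlt
  refine he (canc ((Nat.card G : ℚ) - p) e ?_ (by rw [sub_smul, ← h1, ← h2, sub_self]))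
  have : (p : ℚ) < Nat.card G := by exact_mod_cast not_le.1 hlt
  linarith

end Norm

variable {G : Type u} [Group G] {V : Type v} [AddCommGroup V] [Module ℚ V] {ρ : G →* End ℚ V} {δ : ℕ}

theorem av_mem (ρ : G →* End ℚ V) (p : ℕ) (x : G) : av ρ p x ∈ alg ρ :=
  Subalgebra.smul_mem _ (Subalgebra.sum_mem _ fun _ _ => mem_alg ρ _) _

theorem Rk.av_ne_one (h : Rk ρ δ) {p : ℕ} {x : G} (hx : x ^ p = 1) (h1 : x ≠ 1) : av ρ p x ≠ 1 := by
  intro e
  have := mul_av ρ hx
  rw [e, mul_one] at this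
  exact h1 (h.inj (by rw [this, map_one]))

theorem av_two (ρ : G →* End ℚ V) (x : G) : (2 : ℚ) • av ρ 2 x = 1 + ρ x := by
  simp [av, nm, Finset.sum_range_succ, smul_smul]

theorem Rk.one (h : Rk ρ δ) [Nontrivial V] {m : G} (hm : ρ m = -1) : One G m where
  ne_one e := by
    rw [e, map_one] at hm
    have : (2 : ℚ) • (1 : End ℚ V) = 0 := by
      rw [two_smul]
      nth_rewrite 2 [hm]
      exact add_neg_cancel _
    simp at this
  sq := h.inj (by rw [map_mul, hm, map_one]; simp)
  cen g := h.inj (by rw [map_mul, map_mul, hm]; simp)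
  r1 a b ha hb hab := by
    have k : ∀ {x : G}, Rf m x → av ρ 2 x ≠ 0 := fun {x} hx e => by
      have := av_two ρ x
      rw [e, smul_zero] at this
      exact hx.ne_m (h.inj (by rw [hm]; exact (neg_eq_of_add_eq_zero_right this.symm).symm))
    have pa : a ^ 2 = 1 := by rw [pow_two, ha.sq]
    have pb : b ^ 2 = 1 := by rw [pow_two, hb.sq]
    rcases h.idem_eq (av_mem ρ 2 b) (av_mem ρ 2 a) (av_idem ρ two_ne_zero pb) (av_idem ρ two_ne_zero pa)
      (k hb) (h.av_ne_one pb hb.ne_one) (k ha) (h.av_ne_one pa ha.ne_one) (av_commute ρ 2 hab.symm) with e | e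
    · left
      have := av_two ρ a
      rw [e, av_two] at this
      exact h.inj (add_left_cancel this).symm
    · right
      have := av_two ρ a
      rw [e, smul_sub, av_two, two_smul] at this
      refine h.inj ?_
      rw [map_mul, hm, mul_neg, mul_one]
      refine add_left_cancel (a := 1) ?_
      rw [← this]
      abel

theorem Rk.noFrob [Finite G] (h : Rk ρ δ) : NoFrob G := by
  classical
  intro U c hU hc hn hf
  have := h.fin
  have := Fintype.ofFinite U
  set r := orderOf c with hr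
  have hcr : c ^ r = 1 := pow_orderOf_eq_one c
  have hni : ∀ i : ℕ, ∀ y ∈ U, c ^ i * y * (c ^ i)⁻¹ ∈ U := by
    intro i
    induction i with
    | zero => intro y hy; simpa using hy
    | succ i ih =>
      intro y hy
      have := hn _ (ih y hy)
      rw [pow_succ']
      convert this using 1
      group
  set S : End ℚ V := ∑ y : U, ρ y with hS
  have hN : (Nat.card U : ℚ) ≠ 0 := by exact_mod_cast Nat.card_pos.ne'
  set E : End ℚ V := (Nat.card U : ℚ)⁻¹ • S with hE
  have hyS : ∀ y : U, ρ y * S = S := fun y => by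
    rw [hS, Finset.mul_sum]
    simp only [← map_mul, ← Subgroup.coe_mul]
    exact Equiv.sum_comp (Equiv.mulLeft y) (fun x : U => ρ x)
  have hEE : E * E = E := by
    have : S * S = (Nat.card U : ℚ) • S := by
      conv_lhs => rw [hS, Finset.sum_mul]
      rw [Finset.sum_congr rfl fun y _ => hyS y, Finset.sum_const, Nat.cast_smul_eq_nsmul, Finset.card_univ,
        Nat.card_eq_fintype_card]
    rw [hE, smul_mul_smul_comm, this, smul_smul]
    congr 1
    field_simp
  have hEa : E ∈ alg ρ := Subalgebra.smul_mem _ (Subalgebra.sum_mem _ fun _ _ => mem_alg ρ _) _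
  have hE1 : 1 - E ≠ 0 := by
    intro e
    apply hU
    rw [eq_bot_iff]
    intro y hy
    have h1 : ρ y * E = E := by rw [hE, mul_smul_comm, hyS ⟨y, hy⟩]
    rw [← sub_eq_zero.1 e, mul_one] at h1
    exact h.inj (by rw [h1, map_one])
  have hcE : Commute E (ρ c) := by
    refine Commute.smul_left ?_ _
    have hinj : Function.Injective fun y : U => (⟨c * y * c⁻¹, hn y y.2⟩ : U) := by
      intro y z hyz
      have := congrArg Subtype.val hyz
      exact Subtype.ext (by simpa using this)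
    have := Equiv.sum_comp (Equiv.ofBijective _ (Finite.injective_iff_bijective.1 hinj)) (fun x : U => ρ x)
    rw [Commute, SemiconjBy]
    conv_lhs => rw [hS, ← this]
    rw [hS, Finset.sum_mul, Finset.mul_sum]
    refine Finset.sum_congr rfl fun y _ => ?_
    simp [← map_mul]
  have hr0 : r ≠ 0 := by omega
  have hc1 : Commute (1 - E) (av ρ r c) := commute_av ρ r ((Commute.one_left _).sub_left hcE)
  have hF : (1 - E) * (1 - E) = 1 - E := by rw [sub_mul, mul_sub, mul_sub, hEE]; simp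
  have hf' : (1 - E) * av ρ r c * ((1 - E) * av ρ r c) = (1 - E) * av ρ r c := by
    rw [mul_assoc, ← mul_assoc (av ρ r c), ← hc1.eq, mul_assoc, av_idem ρ hr0 hcr, ← mul_assoc, hF]
  have ht : ∀ i ∈ Finset.range r, i ≠ 0 → LinearMap.trace ℚ V ((1 - E) * ρ (c ^ i)) = 0 := by
    intro i hi hi0
    have hci : c ^ i ≠ 1 := pow_ne_one_of_lt_orderOf hi0 (Finset.mem_range.1 hi)
    have hinj : Function.Injective fun y : U =>
        (⟨y * (c ^ i * y⁻¹ * (c ^ i)⁻¹), mul_mem y.2 (hni i _ (inv_mem y.2))⟩ : U) := by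
      intro y z hyz
      have h1 : (y : G) * (c ^ i * (y : G)⁻¹ * (c ^ i)⁻¹) = z * (c ^ i * (z : G)⁻¹ * (c ^ i)⁻¹) :=
        congrArg Subtype.val hyz
      have h2 := hf i hci ((z : G)⁻¹ * y) (mul_mem (inv_mem z.2) y.2) (by
        calc c ^ i * ((z : G)⁻¹ * y) = (z : G)⁻¹ * (z * (c ^ i * (z : G)⁻¹ * (c ^ i)⁻¹)) * c ^ i * y := by group
          _ = (z : G)⁻¹ * y * c ^ i := by rw [← h1]; group)
      exact Subtype.ext (inv_mul_eq_one.1 h2).symm
    have hs := (Finite.injective_iff_bijective.1 hinj).2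
    have h3 : ∀ y : U, LinearMap.trace ℚ V (ρ y * ρ (c ^ i)) = LinearMap.trace ℚ V (ρ (c ^ i)) := by
      intro y
      obtain ⟨z, rfl⟩ := hs y
      have : ρ ((z : G) * (c ^ i * (z : G)⁻¹ * (c ^ i)⁻¹)) * ρ (c ^ i) = ρ z * (ρ (c ^ i) * ρ (z : G)⁻¹) := by
        simp only [← map_mul]
        congr 1
        group
      simp only [Subgroup.coe_inv]
      rw [this, LinearMap.trace_mul_comm, mul_assoc, ← map_mul ρ, inv_mul_cancel, map_one, mul_one]
    rw [sub_mul, one_mul, map_sub, hE, smul_mul_assoc, map_smul, hS, Finset.sum_mul, map_sum,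
      Finset.sum_congr rfl fun y _ => h3 y, Finset.sum_const, Finset.card_univ, ← Nat.card_eq_fintype_card,
      nsmul_eq_mul, smul_eq_mul, ← mul_assoc, inv_mul_cancel₀ hN, one_mul, sub_self]
  have h4 : (r : ℚ) * LinearMap.trace ℚ V ((1 - E) * av ρ r c) = LinearMap.trace ℚ V (1 - E) := by
    rw [av, mul_smul_comm, map_smul, smul_eq_mul, ← mul_assoc, mul_inv_cancel₀ (by exact_mod_cast hr0),
      one_mul, nm, Finset.mul_sum, map_sum, Finset.sum_eq_single 0 ht
        (fun h0 => absurd (Finset.mem_range.2 (by omega)) h0)]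
    simp
  rw [h.trace_idem hf', h.trace_idem hF] at h4
  have h5 : r * finrank ℚ (LinearMap.range ((1 - E) * av ρ r c)) = finrank ℚ (LinearMap.range (1 - E)) := by
    exact_mod_cast h4
  have a1 := h.rank_cases (mul_mem (sub_mem (one_mem _) hEa) (av_mem ρ r c))
  have a2 := h.rank_cases (sub_mem (one_mem _) hEa)
  have a3 : finrank ℚ (LinearMap.range (1 - E)) ≠ 0 := fun hh => hE1 (h.eq_zero_of_rank hh)
  have a4 := h.pos
  rcases a1 with a | a | a <;> rw [a] at h5
  · omega
  · have : 3 * δ ≤ r * δ := Nat.mul_le_mul_right _ hc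
    omega
  · have : 3 * (2 * δ) ≤ r * (2 * δ) := Nat.mul_le_mul_right _ hc
    omega

/-- In an abelian normal subgroup of exponent `p` and order `> p` there is an element whose idempotent is
fixed or complemented by every group element. -/
theorem Rk.exists_idem [Finite G] (h : Rk ρ δ) {p : ℕ} (hp : p.Prime) (A : Subgroup G) [A.Normal]
    (hA : ∀ x ∈ A, ∀ y ∈ A, x * y = y * x) (hAp : ∀ x ∈ A, x ^ p = 1) (hc : p < Nat.card A) :
    ∃ e ∈ alg ρ, e * e = e ∧ e ≠ 0 ∧ e ≠ 1 ∧ ∀ g, ρ g * e * ρ g⁻¹ = e ∨ ρ g * e * ρ g⁻¹ = 1 - e := by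
  have hnt : Nontrivial A := Finite.one_lt_card_iff_nontrivial.1 (hp.one_lt.trans hc)
  have h10 : (1 : End ℚ V) ≠ 0 := by
    intro e
    obtain ⟨x, hx⟩ := exists_ne (1 : A)
    apply hx
    refine Subtype.ext (h.inj ?_)
    rw [← mul_one (ρ _), e, mul_zero, OneMemClass.coe_one, map_one, e]
  by_contra hno
  refine absurd (card_le_of_nm (ρ.comp A.subtype) hp (fun x => Subtype.ext (hAp x x.2)) h10 fun x hx => ?_)
    (not_le.2 hc)
  by_contra hne
  rw [mul_one] at hne
  have h0 : ∀ y : G, (∃ g, y = g * x * g⁻¹) → av ρ p y ≠ 0 := by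
    rintro _ ⟨g, rfl⟩ e
    rw [← conj_av] at e
    apply hne
    have h1 : av ρ p x = 0 := by
      calc av ρ p x = ρ g⁻¹ * (ρ g * av ρ p x * ρ g⁻¹) * ρ g := by
            simp only [← mul_assoc, ← map_mul]
            rw [mul_assoc, ← map_mul]
            simp
        _ = 0 := by rw [e]; simp
    exact (av_eq_zero ρ hp.ne_zero).1 h1
  have hx1 : (x : G) ≠ 1 := fun e => hx (Subtype.ext e)
  refine hno ⟨av ρ p x, av_mem ρ p x, av_idem ρ hp.ne_zero (hAp x x.2), h0 x ⟨1, by simp⟩,
    h.av_ne_one (hAp x x.2) hx1, fun g => ?_⟩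
  have hy : g * x * g⁻¹ ∈ A := Subgroup.Normal.conj_mem ‹_› _ x.2 g
  rw [conj_av]
  exact h.idem_eq (av_mem ρ p x) (av_mem ρ p _) (av_idem ρ hp.ne_zero (hAp x x.2))
    (av_idem ρ hp.ne_zero (hAp _ hy)) (h0 x ⟨1, by simp⟩) (h.av_ne_one (hAp x x.2) hx1) (h0 _ ⟨g, rfl⟩)
    (h.av_ne_one (hAp _ hy) (by simpa using hx1)) (av_commute ρ p (hA _ x.2 _ hy))

/-- The stabiliser of an idempotent that is fixed or complemented contains all squares. -/
theorem sq_commute {e : End ℚ V} (hg : ∀ g, ρ g * e * ρ g⁻¹ = e ∨ ρ g * e * ρ g⁻¹ = 1 - e) (g : G) :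
    ρ (g * g) * e = e * ρ (g * g) := by
  have k : ρ g * ρ g⁻¹ = 1 := by rw [← map_mul, mul_inv_cancel, map_one]
  have k' : ρ g⁻¹ * ρ g = 1 := by rw [← map_mul, inv_mul_cancel, map_one]
  have h1 : ρ g * (ρ g * e * ρ g⁻¹) * ρ g⁻¹ = e := by
    rcases hg g with a | a
    · rw [a, a]
    · rw [a, mul_sub, sub_mul, a, mul_one, k]
      simp
  calc ρ (g * g) * e = ρ g * (ρ g * e * ρ g⁻¹) * ρ g⁻¹ * (ρ g * ρ g) := by
        rw [map_mul]
        simp only [mul_assoc]
        rw [← mul_assoc (ρ g⁻¹) (ρ g), k', one_mul, k', mul_one]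
    _ = e * ρ (g * g) := by rw [h1, map_mul]

theorem Rk.comm_on [Finite G] (h : Rk ρ δ) {p : ℕ} [hp : Fact p.Prime] (hp2 : p ≠ 2) (hG : IsPGroup p G)
    {e : End ℚ V} (ha : e ∈ alg ρ) (he : e * e = e) (e0 : e ≠ 0) (e1 : e ≠ 1)
    (hc : ∀ g, ρ g * e = e * ρ g) (x y : G) : ρ (x * y) * e = ρ (y * x) * e := by
  have := h.fin
  let φ : G →* End ℚ V :=
    { toFun := fun g => ρ g * e + (1 - e)
      map_one' := by simp
      map_mul' := fun a b => by
        have h1 : ρ a * e * (ρ b * e) = ρ (a * b) * e := by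
          rw [mul_assoc, ← mul_assoc e, ← hc, mul_assoc, he, ← mul_assoc, map_mul]
        have h2 : e * (1 - e) = 0 := by rw [mul_sub, he]; simp
        have h3 : (1 - e) * e = 0 := by rw [sub_mul, he]; simp
        have h4 : (1 - e) * (1 - e) = 1 - e := by rw [sub_mul, h2]; simp
        rw [add_mul, mul_add, mul_add, h1, mul_assoc _ e, h2, hc b, ← mul_assoc, h3, h4]
        simp }
  have hφ : ∀ g, φ g = ρ g * e + (1 - e) := fun _ => rfl
  have hφe : ∀ g, φ g * e = ρ g * e := fun g => by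
    rw [hφ, add_mul, mul_assoc, he, sub_mul, he]; simp
  have hφc : ∀ g, Commute e (φ g) := fun g => by
    rw [Commute, SemiconjBy, hφe, hφ, mul_add, ← mul_assoc, ← hc, mul_assoc, he, mul_sub, he]; simp
  let ψ : G ⧸ φ.ker →* End ℚ V := QuotientGroup.lift φ.ker φ le_rfl
  have hQ : IsPGroup p (G ⧸ φ.ker) := hG.to_quotient _
  rcases CL.Grp.isCyclic_or_quaternion_of_forall_ea hQ (fun E hE hcard => by
    have hlt : p < Nat.card E := by
      rw [hcard]
      exact lt_self_pow₀ hp.out.one_lt one_lt_two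
    refine absurd (card_le_of_nm (ψ.comp E.subtype) hp.out (fun z => Subtype.ext (hE.2 z z.2)) e0
      fun z hz => ?_) (not_le.2 hlt)
    by_contra hne
    obtain ⟨z, hzE⟩ := z
    obtain ⟨g, rfl⟩ := QuotientGroup.mk_surjective z
    set b := nm (ψ.comp E.subtype) p ⟨(g : G ⧸ φ.ker), hzE⟩ * e with hb
    have hnm : nm (ψ.comp E.subtype) p ⟨(g : G ⧸ φ.ker), hzE⟩ = nm φ p g := by
      simp only [nm]
      rfl
    have hba : b ∈ alg ρ := by
      rw [hb, hnm]
      exact mul_mem (Subalgebra.sum_mem _ fun _ _ =>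
        add_mem (mul_mem (mem_alg ρ _) ha) (sub_mem (one_mem _) ha)) ha
    have heb : e * b = b := by
      have : Commute e (nm φ p g) := Commute.sum_right _ _ _ fun i _ => hφc _
      rw [hb, hnm, ← mul_assoc, this.eq, mul_assoc, he]
    have hgb : φ g * b = b := by
      have := mul_nm (ψ.comp E.subtype) (x := ⟨(g : G ⧸ φ.ker), hzE⟩) (Subtype.ext (hE.2 _ hzE))
      rw [hb, ← mul_assoc]
      exact congrArg (· * e) this
    have hle : LinearMap.range b ≤ LinearMap.range e := by
      rw [← heb]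
      exact LinearMap.range_comp_le_range _ _
    have hre : finrank ℚ (LinearMap.range e) = δ := by
      have := (h.idem ha he e0 e1).1
      rw [h.trace_idem he] at this
      exact_mod_cast this
    have hrb : finrank ℚ (LinearMap.range b) ≠ 0 := fun hh => hne (h.eq_zero_of_rank hh)
    have heq : LinearMap.range b = LinearMap.range e := by
      refine Submodule.eq_of_le_of_finrank_le hle ?_
      have := h.rank_cases hba
      omega
    apply hz
    refine Subtype.ext ((QuotientGroup.eq_one_iff g).2 ?_)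
    have h5 : φ g * e = e := by
      ext v
      obtain ⟨w, hw⟩ : e v ∈ LinearMap.range b := heq ▸ ⟨v, rfl⟩
      rw [Module.End.mul_apply, ← hw, ← Module.End.mul_apply, hgb]
    rw [MonoidHom.mem_ker, hφ, ← hφe, h5]
    simp) with hcyc | ⟨h2, -⟩
  · have : ((x * y : G) : G ⧸ φ.ker) = (y * x : G) := by
      rw [QuotientGroup.mk_mul, QuotientGroup.mk_mul]
      exact hcyc.commutative.is_comm.comm _ _
    have h6 : φ (x * y) = φ (y * x) := congrArg ψ this
    rw [← hφe, ← hφe, h6]
  · exact absurd h2 hp2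

/-- Subgroups of odd prime power order are abelian. -/
theorem Rk.comm_of_isPGroup [Finite G] (h : Rk ρ δ) {p : ℕ} [hp : Fact p.Prime] (hp2 : p ≠ 2)
    (hG : IsPGroup p G) (x y : G) : x * y = y * x := by
  by_cases hc : IsCyclic G
  · exact hc.commutative.is_comm.comm _ _
  obtain ⟨A, hAn, hA, hcard⟩ := CL.Grp.exists_normal_elementary_sq_of_odd hp2 hG hc
  obtain ⟨e, ha, he, e0, e1, hg⟩ := h.exists_idem hp.out A
    (fun a ha b hb => congrArg Subtype.val (hA.1.is_comm.comm (⟨a, ha⟩ : A) ⟨b, hb⟩)) hA.2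
    (by rw [hcard]; exact lt_self_pow₀ hp.out.one_lt one_lt_two)
  have hcm : ∀ g, ρ g * e = e * ρ g := by
    intro g
    obtain ⟨n, hn⟩ := hG g
    obtain ⟨j, hj⟩ : Odd (p ^ n) := (hp.out.odd_of_ne_two hp2).pow
    have : g = g ^ (j + 1) * g ^ (j + 1) := by
      rw [← pow_add, show j + 1 + (j + 1) = p ^ n + 1 by omega, pow_succ, hn, one_mul]
    rw [this]
    exact sq_commute hg _
  have he' : (1 - e) * (1 - e) = 1 - e := by rw [sub_mul, mul_sub, mul_sub, he]; simp
  have h1 := h.comm_on hp2 hG ha he e0 e1 hcm x y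
  have h2 := h.comm_on hp2 hG (sub_mem (one_mem _) ha) he' (fun k => e1 (sub_eq_zero.1 k).symm)
    (fun k => e0 (by simpa using k)) (fun g => by rw [mul_sub, sub_mul, hcm]; simp) x y
  refine h.inj ?_
  have := congrArg₂ (· + ·) h1 h2
  simpa only [← mul_add, add_sub_cancel, mul_one] using this

end CL.Dv2
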