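import Cfsg.Agent.Fgs.Dv2B1
import Cfsg.Agent.Grp.Supersolv
import Cfsg.Agent.Inv.Small1
import Cfsg.Agent.S0493
import Cfsg.Agent.S0494

/-!
# Finite subgroups of `GL₂(D)`: normal nilpotent subgroups of a perfect irreducible group
-/

set_option autoImplicit false

open Module
open scoped commutatorElement

namespace CL.Dv2

universe u v

variable {G : Type u} [Group G] {V : Type v} [AddCommGroup V] [Module ℚ V] {ρ : G →* End ℚ V} {δ : ℕ}

theorem Irr.idem_eq_one (h : Irr ρ δ) {e : End ℚ V} (he : e * e = e) (e0 : e ≠ 0)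
    (hc : ∀ g, e * ρ g = ρ g * e) : e = 1 := by
  obtain ⟨u, rfl⟩ := h.unit e hc e0
  have : u * u = u := Units.ext he
  rw [mul_eq_left.1 this, Units.val_one]

theorem Irr.eq_neg_one (h : Irr ρ δ) {z : G} (hz : ∀ g, g * z = z * g) (h2 : z * z = 1) (h1 : z ≠ 1) :
    ρ z = -1 := by
  have p2 : z ^ 2 = 1 := by rw [pow_two, h2]
  have h0 : av ρ 2 z = 0 := by
    by_contra h0
    refine h.toRk.av_ne_one p2 h1 (h.idem_eq_one (av_idem ρ two_ne_zero p2) h0 fun g => ?_)
    exact (commute_av ρ 2 (show Commute (ρ g) (ρ z) by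
      rw [Commute, SemiconjBy, ← map_mul, ← map_mul, hz])).symm.eq
  have := av_two ρ z
  rw [h0, smul_zero] at this
  exact (neg_eq_of_add_eq_zero_right this.symm).symm

theorem eq_top_of_sq_mem (hperf : commutator G = ⊤) (H : Subgroup G) (hH : ∀ g, g * g ∈ H) : H = ⊤ := by
  rw [eq_top_iff, ← hperf, commutator_def, Subgroup.commutator_le]
  intro a _ b _
  have : ⁅a, b⁆ = a * a * (a⁻¹ * b * (a⁻¹ * b)) * (b⁻¹ * b⁻¹) := by
    rw [commutatorElement_def]; group
  rw [this]
  exact mul_mem (mul_mem (hH _) (hH _)) (hH _)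

theorem Irr.central_of_normal [Finite G] (h : Irr ρ δ) (hperf : commutator G = ⊤) {p : ℕ} [hp : Fact p.Prime]
    (B : Subgroup G) [hBn : B.Normal] (hB : IsPGroup p B) (hc : ∀ x ∈ B, ∀ y ∈ B, x * y = y * x) :
    ∀ x ∈ B, ∀ g, g * x = x * g := by
  by_cases hcyc : IsCyclic B
  · intro x hx g
    have := CL.Grp.commutator_le_centralizer_of_isCyclic B (hperf ▸ Subgroup.mem_top g)
    exact (this x hx).symm
  exfalso
  let A : Subgroup G :=
    { carrier := {x | x ∈ B ∧ x ^ p = 1}
      one_mem' := ⟨one_mem _, one_pow _⟩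
      mul_mem' := fun {a b} ha hb => ⟨mul_mem ha.1 hb.1, by
        rw [Commute.mul_pow (hc a ha.1 b hb.1), ha.2, hb.2, one_mul]⟩
      inv_mem' := fun {a} ha => ⟨inv_mem ha.1, by rw [inv_pow, ha.2, inv_one]⟩ }
  have hAn : A.Normal := ⟨fun a ha g => ⟨hBn.conj_mem a ha.1 g, by rw [conj_pow, ha.2]; simp⟩⟩
  have h1 := CL.Grp.sq_le_card_omegaOne_of_not_isCyclic hB
    ⟨⟨fun a b => Subtype.ext (hc a a.2 b b.2)⟩⟩ hcyc
  have h2 : Nat.card (Cfsg.omegaOne p B) ≤ Nat.card A :=
    Subgroup.card_le_of_le ((Subgroup.closure_le _).2 fun x hx => hx)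
  obtain ⟨e, -, he, e0, e1, hg⟩ := h.toRk.exists_idem hp.out A (fun a ha b hb => hc a ha.1 b hb.1)
    (fun a ha => ha.2) ((lt_self_pow₀ hp.out.one_lt one_lt_two).trans_le (h1.trans h2))
  let H : Subgroup G :=
    { carrier := {g | ρ g * e = e * ρ g}
      one_mem' := by simp
      mul_mem' := fun {a b} ha hb => by
        show ρ (a * b) * e = e * ρ (a * b)
        rw [map_mul, mul_assoc, hb, ← mul_assoc, ha, mul_assoc]
      inv_mem' := fun {a} ha => by
        show ρ a⁻¹ * e = e * ρ a⁻¹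
        calc ρ a⁻¹ * e = ρ a⁻¹ * (e * ρ a) * ρ a⁻¹ := by
              rw [mul_assoc, mul_assoc, ← map_mul, mul_inv_cancel, map_one, mul_one]
          _ = e * ρ a⁻¹ := by
              rw [← ha, ← mul_assoc, ← map_mul, inv_mul_cancel, map_one, one_mul] }
  have hH := eq_top_of_sq_mem hperf H (sq_commute hg)
  exact e1 (h.idem_eq_one he e0 fun g => (show g ∈ H from hH ▸ Subgroup.mem_top g).symm)

theorem pow_index_eq_one [Finite G] (hperf : commutator G = ⊤) (A : Subgroup G)
    (hA : ∀ x ∈ A, ∀ y ∈ A, x * y = y * x) {z : G} (hz : ∀ g, g * z = z * g) : z ^ A.index = 1 := by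
  letI : CommGroup A := { (inferInstance : Group A) with
    mul_comm := fun a b => Subtype.ext (hA a a.2 b b.2) }
  have key : ∀ (k : ℕ) (g₀ : G), g₀⁻¹ * z ^ k * g₀ ∈ A → g₀⁻¹ * z ^ k * g₀ = z ^ k := by
    intro k g _
    rw [mul_assoc, ← ((show Commute g z from hz g).pow_right k).eq, inv_mul_cancel_left]
  have h1 := MonoidHom.transfer_eq_pow (MonoidHom.id A) z key
  rw [CL.Inv.hom_eq_one_of_perfect hperf] at h1
  exact (congrArg Subtype.val h1).symm

theorem Rk.no_odd_central [Finite G] (h : Rk ρ δ) (hperf : commutator G = ⊤) {p : ℕ} [hp : Fact p.Prime]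
    (hp2 : p ≠ 2) {z : G} (hz : ∀ g, g * z = z * g) (hzp : z ^ p = 1) : z = 1 := by
  obtain ⟨P⟩ : Nonempty (Sylow p G) := inferInstance
  have h1 := pow_index_eq_one hperf (P : Subgroup G) (fun x hx y hy => congrArg Subtype.val
    ((h.comp (P : Subgroup G).subtype Subtype.val_injective).comm_of_isPGroup hp2 P.isPGroup'
      ⟨x, hx⟩ ⟨y, hy⟩)) hz
  have h2 : Nat.Coprime p (P : Subgroup G).index := (Nat.Prime.coprime_iff_not_dvd hp.out).2 P.not_dvd_index
  have := pow_gcd_eq_one.2 ⟨hzp, h1⟩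
  rwa [h2, pow_one] at this

theorem Irr.isPGroup_two [Finite G] (h : Irr ρ δ) (hperf : commutator G = ⊤) (N : Subgroup G) [N.Normal]
    (hN : Group.IsNilpotent N) : IsPGroup 2 N := by
  refine IsPGroup.of_card (n := (Nat.card N).primeFactorsList.length)
    (Nat.eq_prime_pow_of_unique_prime_dvd Nat.card_pos.ne' fun {p} hp hd => ?_)
  by_contra hp2
  have : Fact p.Prime := ⟨hp⟩
  obtain ⟨P⟩ : Nonempty (Sylow p N) := inferInstance
  have hPn : (P : Subgroup N).Normal := P.normal_of_normalizerCondition normalizerCondition_of_isNilpotent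
  have hPc := Sylow.characteristic_of_normal P hPn
  obtain ⟨x, hx⟩ := exists_prime_orderOf_dvd_card' p (P.dvd_card_of_dvd_card hd)
  have hQ : IsPGroup p ((P : Subgroup N).map N.subtype) := P.isPGroup'.map _
  have hc := h.central_of_normal hperf ((P : Subgroup N).map N.subtype) hQ (fun a ha b hb =>
    congrArg Subtype.val ((h.toRk.comp (Subgroup.subtype _) Subtype.val_injective).comm_of_isPGroup hp2 hQ
      ⟨a, ha⟩ ⟨b, hb⟩)) ((x : N) : G) ⟨x, x.2, rfl⟩
  have h1 := h.toRk.no_odd_central hperf hp2 hc (by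
    have := pow_orderOf_eq_one x
    rw [hx] at this
    exact congrArg (fun y : P => ((y : N) : G)) this)
  have h2 : x = 1 := Subtype.ext (Subtype.ext h1)
  rw [h2, orderOf_one] at hx
  exact hp.one_lt.ne hx

theorem alt5_of_index [Finite G] (N : Subgroup G) [N.Normal] (hS : IsSimpleGroup (G ⧸ N))
    (hna : ¬ IsMulCommutative (G ⧸ N)) (H : Subgroup G) (hNH : N ≤ H) (hH : H ≠ ⊤) (h5 : H.index ≤ 5) :
    Nonempty (G ⧸ N ≃* alternatingGroup (Fin 5)) := by
  let H' := H.map (QuotientGroup.mk' N)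
  have hi : H'.index = H.index :=
    Subgroup.index_map_eq _ (QuotientGroup.mk'_surjective N) (by rwa [QuotientGroup.ker_mk'])
  have hH' : H' ≠ ⊤ := fun e => hH (Subgroup.index_eq_one.1 (by rw [← hi, e, Subgroup.index_top]))
  obtain ⟨g, hg⟩ : ∃ g, g ∉ H' := by
    by_contra hn
    push Not at hn
    exact hH' ((Subgroup.eq_top_iff' _).2 hn)
  have h1 := CL.Inv.two_mul_card_dvd_factorial hna (Ω := (G ⧸ N) ⧸ H') ⟨g, ((1 : G ⧸ N) : (G ⧸ N) ⧸ H'), by
    intro e
    apply hg
    have : ((g * 1 : G ⧸ N) : (G ⧸ N) ⧸ H') = ((1 : G ⧸ N) : (G ⧸ N) ⧸ H') := e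
    simpa using QuotientGroup.eq.1 this⟩
  rw [← H'.index_eq_card, hi] at h1
  have h2 := Nat.le_of_dvd (by decide) (h1.trans (Nat.factorial_dvd_factorial h5))
  have h3 : Nat.card (G ⧸ N) ≤ 100 := by
    have : Nat.factorial 5 = 120 := by decide
    omega
  exact Cfsg.Agent.S0494.result (Cfsg.Agent.S0493.result (fun hc => hna hc.commutative) h3)

theorem center_le [Finite G] (N : Subgroup G) [N.Normal] (hS : IsSimpleGroup (G ⧸ N))
    (hna : ¬ IsMulCommutative (G ⧸ N)) : Subgroup.center G ≤ N := by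
  intro z hz
  have h1 : (z : G ⧸ N) ∈ Subgroup.center (G ⧸ N) := by
    rw [Subgroup.mem_center_iff] at hz ⊢
    intro q
    obtain ⟨g, rfl⟩ := QuotientGroup.mk_surjective q
    rw [← QuotientGroup.mk_mul, hz, QuotientGroup.mk_mul]
  rcases (inferInstance : (Subgroup.center (G ⧸ N)).Normal).eq_bot_or_eq_top with e | e
  · rw [e, Subgroup.mem_bot] at h1
    exact (QuotientGroup.eq_one_iff z).1 h1
  · exact absurd ⟨⟨fun a b => (Subgroup.mem_center_iff.1 (e ▸ Subgroup.mem_top b) a)⟩⟩ hna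

/-- A non-trivial normal 2-subgroup contains `-1`. -/
theorem Irr.exists_m [Finite G] (h : Irr ρ δ) (hperf : commutator G = ⊤) (N : Subgroup G) [hNn : N.Normal]
    (hN : IsPGroup 2 N) (h1 : N ≠ ⊥) : ∃ m ∈ N, ρ m = -1 := by
  have : Nontrivial N := (Subgroup.nontrivial_iff_ne_bot N).2 h1
  have hZ := hN.center_nontrivial
  have hZ2 : IsPGroup 2 (Subgroup.center N) := hN.to_subgroup _
  obtain ⟨n, hn, hc⟩ := (IsPGroup.nontrivial_iff_card hZ2).1 hZ
  obtain ⟨x, hx⟩ := exists_prime_orderOf_dvd_card' (G := Subgroup.center N) 2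
    (by rw [hc]; exact dvd_pow_self 2 hn.ne')
  have hc := h.central_of_normal hperf ((Subgroup.center N).map N.subtype) (hZ2.map _) (by
    rintro _ ⟨a, ha, rfl⟩ _ ⟨b, -, rfl⟩
    exact congrArg Subtype.val (Subgroup.mem_center_iff.1 ha b).symm) ((x : N) : G) ⟨x, x.2, rfl⟩
  refine ⟨((x : N) : G), (x : N).2, h.eq_neg_one hc ?_ fun e => ?_⟩
  · have := pow_orderOf_eq_one x
    rw [hx, pow_two] at this
    exact congrArg (fun y : Subgroup.center N => ((y : N) : G)) this
  · have h2 : x = 1 := Subtype.ext (Subtype.ext e)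
    rw [h2, orderOf_one] at hx
    exact absurd hx (by decide)

theorem Irr.alt5 [Finite G] (h : Irr ρ δ) (hperf : commutator G = ⊤) (N : Subgroup G) [hNn : N.Normal]
    (hN : IsPGroup 2 N) (hS : IsSimpleGroup (G ⧸ N)) (hna : ¬ IsMulCommutative (G ⧸ N))
    (hnc : ¬ N ≤ Subgroup.center G) : Nonempty (G ⧸ N ≃* alternatingGroup (Fin 5)) := by
  classical
  have := h.nontriv
  obtain ⟨m, hmN, hm⟩ := h.exists_m hperf N hN (fun e => hnc (e ▸ bot_le))
  have h1 := h.toRk.one hm
  set C := Subgroup.center G with hC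
  have hmC : m ∈ C := Subgroup.mem_center_iff.2 h1.cen
  have hCN : C ≤ N := center_le N hS hna
  have hinv : ∀ z ∈ C, z * z = 1 → z = 1 ∨ z = m := fun z hz hzz => by
    by_cases e : z = 1
    · exact Or.inl e
    · exact Or.inr (h.inj (by rw [hm, h.eq_neg_one (Subgroup.mem_center_iff.1 hz) hzz e]))
  let π := QuotientGroup.mk' C
  have hπ : ∀ x, π x = 1 ↔ x ∈ C := fun x => QuotientGroup.eq_one_iff x
  let E : Subgroup G :=
    { carrier := {x | x ∈ N ∧ π x * π x = 1 ∧ ∀ y ∈ N, Commute (π x) (π y)}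
      one_mem' := ⟨one_mem _, by simp, fun y _ => by simp⟩
      mul_mem' := fun {a b} ha hb => ⟨mul_mem ha.1 hb.1, by
        rw [map_mul, mul_assoc, ← mul_assoc (π b), (hb.2.2 a ha.1).eq, mul_assoc, hb.2.1, mul_one, ha.2.1],
        fun y hy => by rw [map_mul]; exact (ha.2.2 y hy).mul_left (hb.2.2 y hy)⟩
      inv_mem' := fun {a} ha => ⟨inv_mem ha.1, by rw [map_inv, ← mul_inv_rev, ha.2.1, inv_one],
        fun y hy => by rw [map_inv]; exact (ha.2.2 y hy).inv_left⟩ }
  have hEn : E.Normal := ⟨fun a ha g => ⟨hNn.conj_mem a ha.1 g, by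
    simp only [map_mul, map_inv]
    calc π g * π a * (π g)⁻¹ * (π g * π a * (π g)⁻¹) = π g * (π a * π a) * (π g)⁻¹ := by group
      _ = 1 := by rw [ha.2.1]; group, fun y hy => by
    have := (ha.2.2 _ (hNn.conj_mem y hy g⁻¹)).eq
    simp only [map_mul, map_inv, inv_inv] at this ⊢
    calc π g * π a * (π g)⁻¹ * π y = π g * (π a * ((π g)⁻¹ * π y * π g)) * (π g)⁻¹ := by group
      _ = π y * (π g * π a * (π g)⁻¹) := by rw [this]; group⟩⟩
  have hCE : C ≤ E := fun z hz => ⟨hCN hz, by rw [(hπ z).2 hz, one_mul],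
    fun y _ => by rw [(hπ z).2 hz]; exact Commute.one_left _⟩
  -- members of `E` commute up to sign
  have hpm : ∀ a ∈ E, ∀ b ∈ E, Pm m (a * b) (b * a) := by
    intro a ha b hb
    have hc : a * b * (b * a)⁻¹ ∈ C := (hπ _).1 (by
      rw [map_mul, map_inv, map_mul, map_mul, (ha.2.2 b hb.1).eq, mul_inv_cancel])
    set c := a * b * (b * a)⁻¹ with hc'
    have e1 : a * b = c * (b * a) := by rw [hc']; group
    have haa : a * a ∈ C := (hπ _).1 (by rw [map_mul, ha.2.1])
    have e2 : c * c = 1 := by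
      have k := Subgroup.mem_center_iff.1 hc
      have : a * a * b = c * c * (a * a * b) := by
        calc a * a * b = a * (c * (b * a)) := by rw [mul_assoc, e1]
          _ = c * (a * b) * a := by rw [← mul_assoc, k a]; group
          _ = c * c * (b * (a * a)) := by rw [e1]; group
          _ = c * c * (a * a * b) := by rw [Subgroup.mem_center_iff.1 haa b]
      exact (right_eq_mul.1 this)
    rcases hinv c hc e2 with e | e
    · left; rw [e1, e, one_mul]
    · right; rw [e1, e, h1.cen]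
  -- `E` is not central
  obtain ⟨x0, hx0E, hx0C⟩ : ∃ x ∈ E, x ∉ C := by
    have hN' : IsPGroup 2 (N.map π) := hN.map _
    have : Nontrivial (N.map π) := (Subgroup.nontrivial_iff_ne_bot _).2 fun e => hnc fun y hy =>
      (hπ y).1 (Subgroup.mem_bot.1 (e ▸ ⟨y, hy, rfl⟩))
    have hZ2 : IsPGroup 2 (Subgroup.center (N.map π)) := hN'.to_subgroup _
    obtain ⟨n, hn, hc⟩ := (IsPGroup.nontrivial_iff_card hZ2).1 hN'.center_nontrivial
    obtain ⟨⟨⟨_, x, hx, rfl⟩, hxc⟩, hx2⟩ := exists_prime_orderOf_dvd_card' (G := Subgroup.center (N.map π)) 2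
      (by rw [hc]; exact dvd_pow_self 2 hn.ne')
    refine ⟨x, ⟨hx, ?_, fun y hy => ?_⟩, fun e => ?_⟩
    · have := pow_orderOf_eq_one (⟨⟨π x, x, hx, rfl⟩, hxc⟩ : Subgroup.center (N.map π))
      rw [hx2, pow_two] at this
      exact congrArg (fun y : Subgroup.center (N.map π) => ((y : N.map π) : G ⧸ C)) this
    · exact (congrArg Subtype.val (Subgroup.mem_center_iff.1 hxc ⟨π y, y, hy, rfl⟩)).symm
    · have h2 : (⟨⟨π x, x, hx, rfl⟩, hxc⟩ : Subgroup.center (N.map π)) = 1 :=
        Subtype.ext (Subtype.ext ((hπ x).2 e))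
      rw [h2, orderOf_one] at hx2
      exact absurd hx2 (by decide)
  -- reduction to six conjugates
  have main : ∀ x ∈ E, x ∉ C → (∀ g : Fin 6 → G, ∃ i j, i ≠ j ∧ π (g i * x * (g i)⁻¹) = π (g j * x * (g j)⁻¹)) →
      Nonempty (G ⧸ N ≃* alternatingGroup (Fin 5)) := by
    intro x hxE hxC h6
    let H : Subgroup G := (Subgroup.centralizer {π x}).comap π
    have hH : ∀ g, g ∈ H ↔ π x * π g = π g * π x := fun g => by
      simp [H, Subgroup.mem_centralizer_iff]
    refine alt5_of_index N hS hna H (fun y hy => (hH y).2 (hxE.2.2 y hy).eq) (fun e => hxC ?_) ?_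
    · have k : ∀ g, g * x * g⁻¹ * x⁻¹ ∈ C := fun g => (hπ _).1 (by
        simp only [map_mul, map_inv]
        rw [← (hH g).1 (e ▸ Subgroup.mem_top g)]
        group)
      letI : CommGroup C := { (inferInstance : Group C) with
        mul_comm := fun a b => Subtype.ext (Subgroup.mem_center_iff.1 b.2 a) }
      let f : G →* C := MonoidHom.mk' (fun g => ⟨g * x * g⁻¹ * x⁻¹, k g⟩) fun a b => Subtype.ext (by
        have := Subgroup.mem_center_iff.1 (k b)
        show a * b * x * (a * b)⁻¹ * x⁻¹ = a * x * a⁻¹ * x⁻¹ * (b * x * b⁻¹ * x⁻¹)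
        calc a * b * x * (a * b)⁻¹ * x⁻¹ = a * (b * x * b⁻¹ * x⁻¹) * (x * a⁻¹ * x⁻¹) := by group
          _ = a * x * a⁻¹ * x⁻¹ * (b * x * b⁻¹ * x⁻¹) := by rw [mul_assoc, ← this]; group)
      rw [hC, Subgroup.mem_center_iff]
      intro g
      have := congrArg Subtype.val (CL.Inv.hom_eq_one_of_perfect hperf (A := C) f g)
      have h2 : g * x * g⁻¹ * x⁻¹ = 1 := this
      calc g * x = g * x * g⁻¹ * x⁻¹ * (x * g) := by group
        _ = x * g := by rw [h2, one_mul]
    · by_contra hlt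
      have := Fintype.ofFinite (G ⧸ H)
      obtain ⟨f⟩ : Nonempty (Fin 6 ↪ G ⧸ H) := Function.Embedding.nonempty_of_card_le (by
        rw [Fintype.card_fin, ← Nat.card_eq_fintype_card, ← Subgroup.index_eq_card]; omega)
      obtain ⟨i, j, hij, e⟩ := h6 fun i => (f i).out
      apply hij
      apply f.injective
      rw [← (f i).out_eq, ← (f j).out_eq]
      refine QuotientGroup.eq.2 ((hH _).2 ?_)
      simp only [map_mul, map_inv] at e ⊢
      calc π x * ((π (f i).out)⁻¹ * π (f j).out)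
          = (π (f i).out)⁻¹ * (π (f i).out * π x * (π (f i).out)⁻¹) * π (f j).out := by group
        _ = (π (f i).out)⁻¹ * π (f j).out * π x := by rw [e]; group
  have hpmπ : ∀ {a b : G}, Pm m a b → π a = π b := by
    rintro a b (rfl | rfl)
    · rfl
    · rw [map_mul, (hπ m).2 hmC, mul_one]
  by_cases hrf : ∃ x ∈ E, Rf m x
  · obtain ⟨x, hxE, hx⟩ := hrf
    refine main x hxE (fun e => ?_) fun g => ?_
    · rcases hinv x e hx.sq with e | e
      · exact hx.ne_one e
      · exact hx.ne_m e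
    · by_contra hn
      push Not at hn
      have hE : ∀ i, g i * x * (g i)⁻¹ ∈ E := fun i => hEn.conj_mem x hxE _
      obtain ⟨i, hi⟩ := h1.clique (fun i : Fin 5 => g i.succ * x * (g i.succ)⁻¹) (fun i => hx.conj h1 _)
        (fun i j hij => (hpm _ (hE _) _ (hE _)).resolve_left fun e =>
          hn _ _ (fun k => hij (Fin.succ_injective _ k)) (hpmπ (h1.r1 _ _ (hx.conj h1 _) (hx.conj h1 _) e)))
        (hx.conj h1 (g 0)) (fun i => hpm _ (hE _) _ (hE _))
      exact hn _ _ (Fin.succ_ne_zero i).symm (hpmπ hi)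
  · have hE2 : IsPGroup 2 E := hN.to_le fun x hx => hx.1
    have huniq : ∀ y ∈ E, y * y = 1 → y = 1 ∨ y = m := fun y hy hyy => by
      by_contra hn
      push Not at hn
      exact hrf ⟨y, hy, hyy, hn.1, hn.2⟩
    rcases CL.Grp.isCyclic_or_quaternion_of_forall_ea hE2 (fun F hF hcard => by
      have hsub : ((F : Set E)) ⊆ {1, ⟨m, hCE hmC⟩} := fun y hy => by
        have := hF.2 y hy
        rw [pow_two] at this
        rcases huniq y y.2 (congrArg Subtype.val this) with e | e
        · exact Or.inl (Subtype.ext e)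
        · exact Or.inr (Subtype.ext e)
      have h2 := Set.ncard_le_ncard hsub
      have h3 := Set.ncard_insert_le (1 : E) {⟨m, hCE hmC⟩}
      rw [Set.ncard_singleton] at h3
      have h4 : (F : Set E).ncard = 2 ^ 2 := hcard
      omega) with hcyc | ⟨-, n, a, b, hab, -, -⟩
    · exact absurd (Subgroup.mem_center_iff.2 (h.central_of_normal hperf E hE2 (fun x hx y hy =>
        congrArg Subtype.val (hcyc.commutative.is_comm.comm (⟨x, hx⟩ : E) ⟨y, hy⟩)) x0 hx0E)) hx0C
    · have hn : n = 2 := by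
        have haa : (a : G) * a ∈ C := (hπ _).1 (by rw [map_mul, a.2.2.1])
        have h2 : Commute (a ^ (2 : ℤ)) b := Subtype.ext (by
          rw [zpow_two]
          exact (Subgroup.mem_center_iff.1 haa b).symm)
        have h3 := Int.le_of_dvd (by decide) ((hab.zpow_commute_iff 2).1 h2)
        have h4 := hab.two_le
        by_contra h5
        have : (2 : ℤ) ^ 2 ≤ 2 ^ (n - 1) := pow_le_pow_right₀ (by decide) (by omega)
        omega
      have hcard : Nat.card E = 8 := by rw [hab.card, hn]; rfl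
      refine main x0 hx0E hx0C fun g => ?_
      by_contra hn
      push Not at hn
      let f : Fin 6 × Bool → E := fun q => ⟨g q.1 * x0 * (g q.1)⁻¹ * (if q.2 then m else 1),
        mul_mem (hEn.conj_mem x0 hx0E _) (by split_ifs; exacts [hCE hmC, one_mem _])⟩
      have hf : Function.Injective f := by
        rintro ⟨i, s⟩ ⟨j, t⟩ e
        have e' : g i * x0 * (g i)⁻¹ * (if s then m else 1) = g j * x0 * (g j)⁻¹ * (if t then m else 1) :=
          congrArg Subtype.val e
        have hij : i = j := by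
          by_contra hij
          refine hn i j hij ?_
          have k : ∀ s : Bool, π (if s then m else 1) = 1 := fun s => by
            split_ifs; exacts [(hπ m).2 hmC, map_one _]
          have := congrArg π e'
          rwa [map_mul, k, map_mul π _ (ite _ _ _), k, mul_one, mul_one] at this
        subst hij
        have := mul_left_cancel e'
        cases s <;> cases t <;> simp_all [h1.ne_one, h1.ne_one.symm]
      have := Nat.card_le_card_of_injective f hf
      rw [hcard] at this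
      simp at this

end CL.Dv2
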