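import Cfsg.Agent.Fgs.Dv2Defs
import Cfsg.Agent.Char.Integrality

/-!
# No reflection is a square: determinant integrality
-/

set_option autoImplicit false

open Module Polynomial

namespace CL.Dv2

universe u v

namespace DetInt

variable {V : Type v} [AddCommGroup V] [Module ℚ V] [FiniteDimensional ℚ V]

theorem det_int {b : End ℚ V} (hb : IsIntegral ℤ b) : ∃ z : ℤ, LinearMap.det b = z := by
  have h1 : IsIntegral ℤ (b.baseChange ℂ) := hb.map (Module.End.baseChangeHom ℚ ℂ V).toRingHom.toIntAlgHom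
  have h2 : IsIntegral ℤ (LinearMap.det (b.baseChange ℂ)) := by
    rw [Module.End.det_eq_prod_roots_charpoly_of_splits (IsAlgClosed.splits _)]
    refine IsIntegral.multiset_prod fun μ hμ => ?_
    obtain ⟨v, hv⟩ := ((Module.End.hasEigenvalue_iff_isRoot_charpoly _ μ).2 (isRoot_of_mem_roots hμ)).exists_hasEigenvector
    exact CL.Char.isIntegral_of_eigen h1 hv.2 hv.apply_eq_smul
  rw [LinearMap.det_baseChange] at h2
  obtain ⟨z, hz⟩ := CL.Char.exists_int_of_isIntegral_ratCast (q := LinearMap.det b) h2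
  exact ⟨z, by exact_mod_cast hz⟩

/-- compression to the range of `e` -/
def cr (e : End ℚ V) (b : End ℚ V) : End ℚ (LinearMap.range e) :=
  e.rangeRestrict ∘ₗ b ∘ₗ (LinearMap.range e).subtype

omit [FiniteDimensional ℚ V] in
theorem cr_mul (e b c : End ℚ V) : cr e b * cr e c = cr e (b * e * c) := rfl

omit [FiniteDimensional ℚ V] in
theorem cr_congr {e b c : End ℚ V} (h : e * b * e = e * c * e) : cr e b = cr e c :=
  LinearMap.ext fun ⟨_, x, rfl⟩ => Subtype.ext (LinearMap.congr_fun h x)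

omit [FiniteDimensional ℚ V] in
theorem cr_smul (e b : End ℚ V) (c : ℚ) : cr e (c • b) = c • cr e b := by
  simp [cr, LinearMap.comp_smul, LinearMap.smul_comp]

omit [FiniteDimensional ℚ V] in
theorem cr_one {e : End ℚ V} (he : e * e = e) : cr e 1 = 1 :=
  LinearMap.ext fun ⟨_, x, rfl⟩ => Subtype.ext (LinearMap.congr_fun he x)

theorem cr_int {e b : End ℚ V} (h : e * b * e = b * e) (hb : IsIntegral ℤ b) :
    ∃ z : ℤ, LinearMap.det (cr e b) = z := by
  obtain ⟨p, hp, h0⟩ := hb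
  refine det_int ⟨p, hp, LinearMap.ext fun x => Subtype.ext ?_⟩
  have : ∀ q : ℤ[X], ∀ x : LinearMap.range e, (aeval (cr e b) q x : V) = aeval b q x := fun q => by
    induction q using Polynomial.induction_on with
    | C a => simp
    | add p q hp hq => simp [hp, hq]
    | monomial n a ih =>
      rintro ⟨_, x, rfl⟩
      rw [pow_succ, ← mul_assoc, map_mul, map_mul (aeval b), aeval_X, aeval_X, End.mul_apply, End.mul_apply, ih]
      exact congrArg _ (LinearMap.congr_fun h x)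
  exact (this p x).trans (LinearMap.congr_fun h0 x)

theorem geom_odd {R : Type*} [Ring R] (x : R) (t : ℕ) :
    ∑ i ∈ Finset.range (2 * t + 1), x ^ i = 1 + (1 + x) * ∑ i ∈ Finset.range t, x ^ (2 * i + 1) := by
  induction t with
  | zero => simp
  | succ t ih =>
    rw [show 2 * (t + 1) + 1 = 2 * t + 1 + 1 + 1 by ring, Finset.sum_range_succ, Finset.sum_range_succ, ih,
      Finset.sum_range_succ, mul_add, add_mul 1 x (x ^ _), one_mul, ← pow_succ']
    abel

/-- the determinant computation -/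
theorem core {e K g g' η η' : End ℚ V} (he : e * e = e) (h0 : e ≠ 0) (h1 : K * e = e * K) (h2 : K * K = 1 - 2 * e)
    (h3 : (1 - K) * e = 1 - K) (h4 : e * (g * e * g') * e = e * ((1 / 4 : ℚ) • η) * e) (h5 : η * η' = 1)
    (h6 : η * e = e * η) (i1 : IsIntegral ℤ ((1 - K) * (g * (1 - K) * g'))) (i2 : IsIntegral ℤ K)
    (i3 : IsIntegral ℤ η') : False := by
  have h3' : e * (1 - K) = 1 - K := by linear_combination (norm := noncomm_ring) h3 + h1
  have c1 : e * K ^ 3 = K ^ 3 * e := ((show Commute K e from h1).pow_left 3).eq.symm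
  have c2 : e * η' = η' * e := by
    rw [← one_mul (e * η'), ← mul_eq_one_comm.1 h5, mul_assoc, ← mul_assoc η, h6, mul_assoc, h5, mul_one]
  obtain ⟨z1, k1⟩ := cr_int (e := e) (by rw [← mul_assoc, h3']) i1
  obtain ⟨z2, k2⟩ := cr_int (e := e) (by rw [c1, mul_assoc, he]) (i2.pow 3)
  obtain ⟨z3, k3⟩ := cr_int (e := e) (by rw [c2, mul_assoc, he]) i3
  have a1 : cr e (1 - K) * cr e (1 - K) = (-2 : ℚ) • cr e K := by
    rw [cr_mul, h3, ← cr_smul]
    refine cr_congr ?_
    have : (1 - K) * (1 - K) * e = (-2 : ℚ) • K * e := by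
      rw [show (-2 : ℚ) • K = -(2 * K) by rw [neg_smul, two_smul, two_mul]]
      linear_combination (norm := noncomm_ring) h2 * e - 2 * he
    rw [mul_assoc, this, mul_assoc]
  have a2 : cr e K * cr e (K ^ 3) = 1 := by
    rw [cr_mul, ← cr_one he]
    refine cr_congr ?_
    have : K * e * K ^ 3 = e := by
      rw [h1, mul_assoc, show K * K ^ 3 = K * K * (K * K) by noncomm_ring, h2]
      linear_combination (norm := noncomm_ring) 4 * e * he
    rw [this, he, mul_one]
  have a3 : cr e η * cr e η' = 1 := by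
    rw [cr_mul, ← cr_one he]
    exact cr_congr (by rw [h6, mul_assoc e η, h5, mul_one, he, he])
  have a4 : cr e g * cr e g' = (1 / 4 : ℚ) • cr e η := by rw [cr_mul, ← cr_smul]; exact cr_congr h4
  have a5 : cr e (1 - K) * cr e g * cr e (1 - K) * cr e g' = cr e ((1 - K) * (g * (1 - K) * g')) := by
    rw [cr_mul, cr_mul, cr_mul, h3, mul_assoc _ e (1 - K), h3', mul_assoc _ (1 - K) e, h3]
    simp only [mul_assoc]
  have hd : 0 < finrank ℚ (LinearMap.range e) := Nat.pos_of_ne_zero fun k => h0 (by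
    rwa [Submodule.finrank_eq_zero, LinearMap.range_eq_bot] at k)
  apply_fun LinearMap.det at a1 a2 a3 a4 a5
  simp only [map_mul, map_one, LinearMap.det_smul] at a1 a2 a3 a4
  rw [map_mul, map_mul, map_mul, k1] at a5
  rw [k2] at a2
  rw [k3] at a3
  generalize finrank ℚ (LinearMap.range e) = d at hd a1 a4
  have a6 : ((-2 : ℚ) ^ d * (-2) ^ d) * (1 / 4) ^ d = 1 := by rw [← mul_pow, ← mul_pow]; norm_num
  have a7 : ((-2 : ℚ) ^ d) * (z1 * z2 * z3) = 1 := by
    rw [← a5]
    generalize LinearMap.det (cr e (1 - K)) = p at *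
    generalize LinearMap.det (cr e K) = q at *
    generalize LinearMap.det (cr e g) = r at *
    generalize LinearMap.det (cr e g') = r' at *
    generalize LinearMap.det (cr e η) = t at *
    calc _ = (-2 : ℚ) ^ d * (p * p) * (r * r') * z2 * z3 := by ring
      _ = ((-2 : ℚ) ^ d * (-2) ^ d) * (1 / 4) ^ d * (q * z2) * (t * z3) := by rw [a1, a4]; ring
      _ = 1 := by rw [a6, a2, a3]; ring
  have a8 : (-2 : ℤ) ^ d * (z1 * z2 * z3) = 1 := by exact_mod_cast a7
  have := (dvd_pow_self (-2 : ℤ) hd.ne').trans (Dvd.intro _ a8)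
  norm_num at this

end DetInt

open DetInt in
theorem no_sq {G : Type u} [Group G] [Finite G] {V : Type v} [AddCommGroup V] [Module ℚ V] {ρ : G →* Module.End ℚ V}
    {δ : ℕ} (h : Rk ρ δ) {m : G} (hm : ρ m = -1) (k g : G) (hs : Rf m (k * k))
    (hx : k * k * (g * (k * k) * g⁻¹) ≠ 1) (hodd : Odd (orderOf (k * k * (g * (k * k) * g⁻¹)))) : False := by
  have := h.fin
  obtain ⟨s, hk⟩ : ∃ s, k * k = s := ⟨_, rfl⟩
  rw [hk] at hs hx hodd
  obtain ⟨x, ex⟩ : ∃ x, s * (g * s * g⁻¹) = x := ⟨_, rfl⟩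
  rw [ex] at hx hodd
  have g1 : g * s * g⁻¹ = s * x := by rw [← ex, ← mul_assoc s, hs.sq, one_mul]
  have g2 : s * x = x⁻¹ * s := by
    rw [← g1, ← ex, mul_inv_rev, conj_inv, hs.inv, mul_assoc _ s s, hs.sq, mul_one]
  have g3 : x * s = s * x⁻¹ := by
    rw [eq_mul_inv_iff_mul_eq, mul_assoc, g2, mul_inv_cancel_left]
  let T := (MonoidAlgebra.lift ℤ (End ℚ V) G ρ).range
  have hT : ∀ b ∈ T, IsIntegral ℤ b := by
    rintro _ ⟨a, rfl⟩
    exact (IsIntegral.of_finite ℤ a).map (MonoidAlgebra.lift ℤ (End ℚ V) G ρ)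
  have hρ : ∀ y, ρ y ∈ T := fun y => ⟨MonoidAlgebra.of ℤ G y, by simp⟩
  obtain ⟨e, he⟩ : ∃ e : End ℚ V, e = (1 / 2 : ℚ) • (1 - ρ s) := ⟨_, rfl⟩
  have e1 : ρ s = 1 - 2 * e := by rw [he, two_mul]; module
  have ss : ρ s * ρ s = 1 := by rw [← map_mul, hs.sq, map_one]
  have ee : e * e = e := by rw [he, smul_mul_smul_comm, sub_mul, mul_sub, mul_sub, ss]; simp only [mul_one, one_mul]; module
  have ea : e ∈ alg ρ := he ▸ Subalgebra.smul_mem _ (sub_mem (one_mem _) (mem_alg ρ s)) _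
  have e0 : e ≠ 0 := fun k => hs.ne_one (h.inj (by rw [e1, k, map_one, mul_zero, sub_zero]))
  have e1' : e ≠ 1 := fun k => hs.ne_m (h.inj (by rw [e1, k, hm]; noncomm_ring))
  have ce : ∀ b : End ℚ V, b * ρ s = ρ s * b → b * e = e * b := fun b hb => by
    rw [he, mul_smul_comm, smul_mul_assoc, mul_sub, sub_mul, hb, mul_one, one_mul]
  have xx : ρ x⁻¹ * ρ x = 1 := by rw [← map_mul, inv_mul_cancel, map_one]
  have xx' : ρ x * ρ x⁻¹ = 1 := by rw [← map_mul, mul_inv_cancel, map_one]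
  have G2 : ρ s * ρ x = ρ x⁻¹ * ρ s := by rw [← map_mul, g2, map_mul]
  have G3 : ρ x * ρ s = ρ s * ρ x⁻¹ := by rw [← map_mul, g3, map_mul]
  have hN : ∑ i ∈ Finset.range (orderOf x), ρ x ^ i = 0 := by
    by_contra n0
    have o1 : ρ x ^ orderOf x = 1 := by rw [← map_pow, pow_orderOf_eq_one, map_one]
    have o2 : (orderOf x : ℚ) ≠ 0 := Nat.cast_ne_zero.2 (orderOf_pos x).ne'
    have n1 := mul_geom_sum (ρ x) (orderOf x)
    have n2 := geom_sum_mul (ρ x) (orderOf x)
    have n3 : ∀ b : End ℚ V, ρ x * b = b → (∑ i ∈ Finset.range (orderOf x), ρ x ^ i) * b = (orderOf x : ℚ) • b :=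
      fun b hb => by
        have : ∀ i : ℕ, ρ x ^ i * b = b := fun i => by
          induction i with
          | zero => simp
          | succ i ih => rw [pow_succ, mul_assoc, hb, ih]
        simp only [Finset.sum_mul, this, Finset.sum_const, Finset.card_range, Nat.cast_smul_eq_nsmul]
    have n4 : ∀ b : End ℚ V, b * ρ x = b → b * (∑ i ∈ Finset.range (orderOf x), ρ x ^ i) = (orderOf x : ℚ) • b :=
      fun b hb => by
        have : ∀ i : ℕ, b * ρ x ^ i = b := fun i => by
          induction i with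
          | zero => simp
          | succ i ih => rw [pow_succ', ← mul_assoc, hb, ih]
        simp only [Finset.mul_sum, this, Finset.sum_const, Finset.card_range, Nat.cast_smul_eq_nsmul]
    have na : ∑ i ∈ Finset.range (orderOf x), ρ x ^ i ∈ alg ρ := sum_mem fun i _ => pow_mem (mem_alg ρ x) i
    generalize ∑ i ∈ Finset.range (orderOf x), ρ x ^ i = N at n0 n1 n2 n3 n4 na
    rw [o1, sub_self, sub_mul, one_mul, sub_eq_zero] at n1
    rw [o1, sub_self, mul_sub, mul_one, sub_eq_zero] at n2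
    have n5 : N * ρ s = ρ s * N := by
      have p1 := n3 (ρ s * N) (by rw [← mul_assoc, G3, mul_assoc]; nth_rw 1 [← n1]; rw [← mul_assoc _ _ N, xx, one_mul])
      have p2 := n4 (N * ρ s) (by
        rw [mul_assoc, G2, ← mul_assoc]; nth_rw 1 [← n2]; rw [mul_assoc N, xx', mul_one])
      exact smul_right_injective _ o2 (p2.symm.trans ((mul_assoc _ _ _).trans p1))
    have n6 : ρ x * ((orderOf x : ℚ)⁻¹ • N) = ((orderOf x : ℚ)⁻¹ • N) * ρ x := by
      rw [mul_smul_comm, smul_mul_assoc, n1, n2]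
    have n7 : ρ x * e = e * ρ x := by
      rcases h.idem_eq ea (Subalgebra.smul_mem _ na (orderOf x : ℚ)⁻¹) ee
        (by rw [smul_mul_smul_comm, n3 N n1, smul_smul, mul_assoc, inv_mul_cancel₀ o2, mul_one]) e0 e1'
        (smul_ne_zero (inv_ne_zero o2) n0) (fun k => hx (h.inj (by
          rw [← mul_one (ρ x), ← k, mul_smul_comm, n1, k, map_one])))
        (by rw [mul_smul_comm, smul_mul_assoc, ce N n5]) with k | k
      · rwa [k] at n6
      · rwa [k, mul_sub, sub_mul, mul_one, one_mul, sub_right_inj] at n6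
    have n8 : x * s = s * x := h.inj (by
      rw [map_mul, map_mul, e1]; linear_combination (norm := noncomm_ring) -2 * n7)
    have n9 : orderOf x ∣ 2 := orderOf_dvd_of_pow_eq_one (by
      rw [g2, mul_left_inj] at n8
      rw [sq]; nth_rw 1 [n8]; exact inv_mul_cancel x)
    exact hx (orderOf_eq_one_iff.1 (Nat.Coprime.eq_one_of_dvd (Nat.coprime_two_right.2 hodd) n9))
  obtain ⟨t, ht⟩ := hodd
  rw [ht, geom_odd] at hN
  have hB : -∑ i ∈ Finset.range t, ρ x ^ (2 * i + 1) ∈ T := neg_mem (sum_mem fun i _ => pow_mem (hρ x) _)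
  replace hN : (1 + ρ x) * (-∑ i ∈ Finset.range t, ρ x ^ (2 * i + 1)) = 1 := by
    rw [mul_neg, neg_eq_iff_add_eq_zero, add_comm, hN]
  generalize -∑ i ∈ Finset.range t, ρ x ^ (2 * i + 1) = B at hB hN
  have kk : ρ k * ρ k = 1 - 2 * e := by rw [← map_mul, hk, e1]
  have ke : ρ k * e = e * ρ k := ce _ (by rw [← map_mul, ← map_mul, ← hk, mul_assoc])
  obtain ⟨K, K1, K2, K3, K4⟩ : ∃ K ∈ T, K * e = e * K ∧ K * K = 1 - 2 * e ∧ (1 - K) * e = 1 - K := by
    by_cases j0 : (1 / 2 : ℚ) • ((1 - ρ k) * (1 - e)) = 0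
    · refine ⟨ρ k, hρ k, ke, kk, ?_⟩
      rw [smul_eq_zero_iff_right (by norm_num), mul_sub, mul_one, sub_eq_zero] at j0
      exact j0.symm
    have j1 : (1 / 2 : ℚ) • ((1 - ρ k) * (1 - e)) * e = 0 := by
      rw [smul_mul_assoc, mul_assoc, sub_mul 1 e e, one_mul, ee, sub_self, mul_zero, smul_zero]
    have j2 : (1 - ρ k) * (1 - e) * ((1 - ρ k) * (1 - e)) = (2 : ℚ) • ((1 - ρ k) * (1 - e)) := by
      rw [two_smul]
      linear_combination (norm := noncomm_ring) kk * (1 - e) * (1 - e) + (1 - ρ k) * ke * (e - 1) +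
        (4 - 2 * ρ k - 2 * e) * ee
    rcases h.idem_eq ea (Subalgebra.smul_mem _ (mul_mem (sub_mem (one_mem _) (mem_alg ρ k)) (sub_mem (one_mem _) ea))
      (1 / 2 : ℚ)) ee (by rw [smul_mul_smul_comm, j2, smul_smul]; norm_num) e0 e1' j0
      (fun k => e0 (by rwa [k, one_mul] at j1)) (by
        rw [j1, mul_smul_comm]
        refine smul_eq_zero_of_right _ ?_
        linear_combination (norm := noncomm_ring) ke * (1 - e) + (ρ k - 1) * ee) with j | j
    · exact absurd (by rwa [j, ee] at j1) e0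
    · refine ⟨-ρ k, neg_mem (hρ k), by rw [neg_mul, mul_neg, ke], by rw [neg_mul_neg, kk], ?_⟩
      have := congrArg (fun b => (2 : ℚ) • b) j
      simp only [smul_smul, two_smul] at this
      norm_num at this
      linear_combination (norm := noncomm_ring) this
  have gg : ρ g * ρ g⁻¹ = 1 := by rw [← map_mul, mul_inv_cancel, map_one]
  have gs : ρ g * ρ s * ρ g⁻¹ = ρ s * ρ x := by rw [← map_mul, ← map_mul, g1, map_mul]
  refine core (g := ρ g) (g' := ρ g⁻¹) (η := 2 + ρ x + ρ x⁻¹) (η' := B * B * ρ x) ee e0 K2 K3 K4 ?_ ?_ (ce _ ?_)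
    (hT _ (mul_mem (sub_mem (one_mem _) K1) (mul_mem (mul_mem (hρ _) (sub_mem (one_mem _) K1)) (hρ _)))) (hT _ K1)
    (hT _ (mul_mem (mul_mem hB hB) (hρ _)))
  · have : (4 : ℚ) • (e * (ρ g * e * ρ g⁻¹) * e) = e * (2 + ρ x + ρ x⁻¹) * e := by
      rw [show (4 : ℚ) = 1 + 1 + 1 + 1 by norm_num, add_smul, add_smul, add_smul, one_smul]
      rw [e1] at gs G2
      linear_combination (norm := noncomm_ring) 2 * e * gg * e - 2 * e * gs * e - e * G2 * e + 2 * ee * ρ x * e +
        2 * e * ρ x⁻¹ * ee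
    rw [mul_smul_comm, smul_mul_assoc, ← this, smul_smul]
    norm_num
  · calc _ = ρ x⁻¹ * ((1 + ρ x) * ((1 + ρ x) * B) * B) * ρ x := by
          linear_combination (norm := noncomm_ring) -xx * (2 + ρ x) * B * B * ρ x
      _ = 1 := by rw [hN, mul_one, hN, mul_one, xx]
  · linear_combination (norm := noncomm_ring) G3 - G2

end CL.Dv2
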