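import Cfsg.Agent.Fgs.Dv2B2
import Cfsg.Agent.Fgs.Dv2Int
import Cfsg.Agent.Grp.CoresPi
import Cfsg.Agent.S0199
import Cfsg.Agent.S0205
import Cfsg.Agent.S0215

/-!
# Finite subgroups of `GL₂(D)`: the quasisimple case, global 2-local hypotheses
-/

set_option autoImplicit false

open Module

namespace CL.Dv2

universe u v

section Simple

variable {S : Type u} [Group S] [Finite S]

theorem even_card (hS : IsSimpleGroup S) (hna : ¬ IsMulCommutative S) : 2 ∣ Nat.card S := by
  by_contra h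
  have := Cfsg.Agent.S0205.result (G := S) (Nat.odd_iff.2 (by omega))
  exact hna ⟨⟨IsSimpleGroup.comm_iff_isSolvable.2 this⟩⟩

theorem eq_one_of_central (hS : IsSimpleGroup S) (hna : ¬ IsMulCommutative S) {z : S}
    (hz : ∀ g, g * z = z * g) : z = 1 := by
  have h1 : z ∈ Subgroup.center S := Subgroup.mem_center_iff.2 hz
  rcases (inferInstance : (Subgroup.center S).Normal).eq_bot_or_eq_top with e | e
  · rwa [e, Subgroup.mem_bot] at h1
  · exact absurd ⟨⟨fun a b => (Subgroup.mem_center_iff.1 (e ▸ Subgroup.mem_top b) a)⟩⟩ hna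

theorem eq_bot_of_odd (hS : IsSimpleGroup S) (hna : ¬ IsMulCommutative S) (N : Subgroup S) (hN : N.Normal)
    (ho : (Nat.card N).Coprime 2) : N = ⊥ := by
  refine hN.eq_bot_or_eq_top.resolve_right fun e => ?_
  rw [e, Subgroup.card_top] at ho
  exact absurd (Nat.eq_one_of_dvd_coprimes ho (even_card hS hna) dvd_rfl) (by decide)

theorem eq_bot_of_two (hS : IsSimpleGroup S) (hna : ¬ IsMulCommutative S) (N : Subgroup S) (hN : N.Normal)
    (h2 : IsPGroup 2 N) : N = ⊥ := by
  refine hN.eq_bot_or_eq_top.resolve_right fun e => ?_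
  subst e
  have h3 : IsPGroup 2 S := h2.of_equiv Subgroup.topEquiv
  obtain ⟨z, hz⟩ := @exists_ne _ h3.center_nontrivial 1
  exact hz (Subtype.ext (eq_one_of_central hS hna (Subgroup.mem_center_iff.1 z.2)))

theorem not_isolated (hS : IsSimpleGroup S) (hna : ¬ IsMulCommutative S) (P : Sylow 2 S) {x : S}
    (hx : x ∈ P) (h1 : x ≠ 1) (h2 : x * x = 1) : ∃ g : S, g * x * g⁻¹ ∈ P ∧ g * x * g⁻¹ ≠ x := by
  by_contra hn
  push Not at hn
  obtain ⟨N, hN, ho, hc⟩ := Cfsg.Agent.S0215.result P x (orderOf_eq_prime (by rw [pow_two, h2]) h1) hx hn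
  rw [eq_bot_of_odd hS hna N hN (Nat.coprime_two_right.2 ho)] at hc
  refine h1 (eq_one_of_central hS hna fun g => ?_)
  have := Subgroup.mem_bot.1 (hc g)
  calc g * x = (x * g * x⁻¹ * g⁻¹) * (g * x) := by rw [this, one_mul]
    _ = x * g := by group

end Simple

variable {G : Type u} [Group G] [Finite G] {V : Type v} [AddCommGroup V] [Module ℚ V] {ρ : G →* End ℚ V}
  {δ : ℕ}

theorem Rk.not_simple (h : Rk ρ δ) (hS : IsSimpleGroup G) (hna : ¬ IsMulCommutative G) : False := by
  obtain ⟨P⟩ : Nonempty (Sylow 2 G) := inferInstance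
  have : Nontrivial P := (Subgroup.nontrivial_iff_ne_bot _).2 (P.ne_bot_of_dvd_card (even_card hS hna))
  have hZ2 : IsPGroup 2 (Subgroup.center P) := P.isPGroup'.to_subgroup _
  obtain ⟨n, hn, hc⟩ := (IsPGroup.nontrivial_iff_card hZ2).1 P.isPGroup'.center_nontrivial
  obtain ⟨x, hx⟩ := exists_prime_orderOf_dvd_card' (G := Subgroup.center P) 2
    (by rw [hc]; exact dvd_pow_self 2 hn.ne')
  set a : G := ((x : P) : G) with ha
  have a2 : a * a = 1 := by
    have := pow_orderOf_eq_one x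
    rw [hx, pow_two] at this
    exact congrArg (fun y : Subgroup.center P => ((y : P) : G)) this
  have a1 : a ≠ 1 := fun e => by
    have h2 : x = 1 := Subtype.ext (Subtype.ext e)
    rw [h2, orderOf_one] at hx
    exact absurd hx (by decide)
  obtain ⟨g, hg, hne⟩ := not_isolated hS hna P (x : P).2 a1 a2
  set b := g * a * g⁻¹ with hb
  have hab : b * a = a * b := congrArg Subtype.val (Subgroup.mem_center_iff.1 x.2 ⟨b, hg⟩)
  have b1 : b ≠ 1 := by simpa [hb] using a1
  have pa : a ^ 2 = 1 := by rw [pow_two, a2]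
  have pb : b ^ 2 = 1 := by rw [hb, conj_pow, pa]; simp
  have neg : ∀ z : G, ρ z = -1 → z = 1 := fun z hz =>
    eq_one_of_central hS hna fun g => h.inj (by rw [map_mul, map_mul, hz]; simp)
  have k : ∀ {z : G}, z ≠ 1 → av ρ 2 z ≠ 0 := fun {z} hz e => by
    have := av_two ρ z
    rw [e, smul_zero] at this
    exact hz (neg z (neg_eq_of_add_eq_zero_right this.symm).symm)
  rcases h.idem_eq (av_mem ρ 2 b) (av_mem ρ 2 a) (av_idem ρ two_ne_zero pb) (av_idem ρ two_ne_zero pa)
    (k b1) (h.av_ne_one pb b1) (k a1) (h.av_ne_one pa a1) (av_commute ρ 2 hab) with e | e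
  · have := av_two ρ a
    rw [e, av_two] at this
    exact hne (h.inj (add_left_cancel this))
  · have := av_two ρ a
    rw [e, smul_sub, av_two, two_smul] at this
    have h3 : ρ b = -ρ a := by
      have h4 : ρ a + ρ b = 0 := by
        refine add_left_cancel (a := 1) ?_
        rw [← add_assoc, ← this]
        abel
      exact (neg_eq_of_add_eq_zero_right h4).symm
    have h5 := neg (b * a) (by rw [map_mul, h3, neg_mul, ← map_mul, a2, map_one])
    exact hne (by rw [eq_inv_of_mul_eq_one_left h5, inv_eq_of_mul_eq_one_right a2])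

/-- An involution outside `O₂` inverts a non-trivial element of odd order. -/
theorem exists_odd {s : G} (hs : s * s = 1)
    (hO : ∀ M : Subgroup G, M.Normal → IsPGroup 2 M → s ∉ M) :
    ∃ g : G, s * (g * s * g⁻¹) ≠ 1 ∧ Odd (orderOf (s * (g * s * g⁻¹))) := by
  have hsi : s⁻¹ = s := inv_eq_of_mul_eq_one_right hs
  have hX : IsPGroup 2 (Subgroup.zpowers s) := by
    rintro ⟨_, i, rfl⟩
    refine ⟨1, Subtype.ext ?_⟩
    show (s ^ i) ^ 2 ^ 1 = 1
    rw [pow_one, ← zpow_natCast, ← zpow_mul, mul_comm, zpow_mul, zpow_natCast, pow_two, hs, one_zpow]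
  by_contra hn
  push Not at hn
  obtain ⟨M, hM, hM2, hle⟩ := Cfsg.Agent.S0199.result (Subgroup.zpowers s) hX fun g => by
    set y := s * (g * s * g⁻¹) with hy
    have hsy : s * y * s⁻¹ = y⁻¹ := by
      rw [hy, mul_inv_rev, mul_inv_rev, mul_inv_rev, inv_inv, hsi, ← mul_assoc, hs]
      group
    obtain ⟨a, b, hb, hab⟩ := Nat.exists_eq_two_pow_mul_odd (orderOf_pos y).ne'
    have hx1 : (y ^ 2 ^ a) ^ b = 1 := by rw [← pow_mul, ← hab, pow_orderOf_eq_one]
    have h1 : y ^ 2 ^ a = 1 := by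
      set x := y ^ 2 ^ a with hx
      obtain ⟨j, hj⟩ := hb
      have hsx : s * x ^ (j + 1) * s⁻¹ = (x ^ (j + 1))⁻¹ := by
        rw [hx, ← conj_pow, ← conj_pow, hsy, inv_pow, inv_pow]
      have h2 : s * ((x ^ (j + 1))⁻¹ * s * (x ^ (j + 1))⁻¹⁻¹) = x := by
        calc s * ((x ^ (j + 1))⁻¹ * s * (x ^ (j + 1))⁻¹⁻¹)
            = (s * x ^ (j + 1) * s⁻¹)⁻¹ * (s * s) * x ^ (j + 1) := by group
          _ = x ^ (2 * j + 1) * x := by rw [hsx, hs]; group
          _ = x := by rw [← hj, hx1, one_mul]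
      by_contra hne
      refine hn (x ^ (j + 1))⁻¹ (by rwa [h2]) ?_
      rw [h2]
      exact Odd.of_dvd_nat ⟨j, hj⟩ (orderOf_dvd_of_pow_eq_one hx1)
    have hY : IsPGroup 2 (Subgroup.zpowers y) := by
      rintro ⟨_, i, rfl⟩
      refine ⟨a, Subtype.ext ?_⟩
      show (y ^ i) ^ 2 ^ a = 1
      rw [← zpow_natCast, ← zpow_mul, mul_comm, zpow_mul, zpow_natCast, h1, one_zpow]
    have hN : Subgroup.zpowers s ≤ Subgroup.normalizer (Subgroup.zpowers y : Set G) := by
      rw [Subgroup.zpowers_le]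
      refine Subgroup.mem_normalizer_fintype ?_
      rintro _ ⟨i, rfl⟩
      show s * y ^ i * s⁻¹ ∈ Subgroup.zpowers y
      rw [← conj_zpow, hsy]
      exact zpow_mem (inv_mem (Subgroup.mem_zpowers y)) i
    refine (IsPGroup.to_sup_of_normal_left' hY hX hN).to_le (sup_le le_sup_right ?_)
    rw [MonoidHom.map_zpowers, Subgroup.zpowers_le]
    have : (MulAut.conj g).toMonoidHom s = s * y := by
      rw [hy, ← mul_assoc, hs, one_mul]; rfl
    rw [this]
    exact mul_mem (Subgroup.mem_sup_right (Subgroup.mem_zpowers s))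
      (Subgroup.mem_sup_left (Subgroup.mem_zpowers y))
  exact hO M hM hM2 (hle (Subgroup.mem_zpowers s))

theorem Irr.two (h : Irr ρ δ) {m : G} (hm : ρ m = -1) (N : Subgroup G) [N.Normal]
    (hNc : N ≤ Subgroup.center G) (hS : IsSimpleGroup (G ⧸ N)) (hna : ¬ IsMulCommutative (G ⧸ N)) :
    Two G m := by
  have := h.nontriv
  refine ⟨h.toRk.one hm, fun x hx => ?_⟩
  by_contra hn
  push Not at hn
  obtain ⟨g, h1, h2⟩ := exists_odd hx fun M hM hM2 hxM => by
    have := eq_bot_of_two hS hna (M.map (QuotientGroup.mk' N))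
      (hM.map _ (QuotientGroup.mk'_surjective N)) (hM2.map _)
    have h3 : x * x ∈ N := (QuotientGroup.eq_one_iff _).1 (Subgroup.mem_bot.1 (this ▸ ⟨_, hxM, rfl⟩))
    exact hn.2 (h.inj (by rw [hm, h.eq_neg_one (Subgroup.mem_center_iff.1 (hNc h3)) hx hn.1]))
  exact no_sq h.toRk hm x g ⟨hx, hn.1, hn.2⟩ h1 h2

omit [Finite G] in
theorem mem_zpowers_m {m : G} (h : One G m) {x : G} : x ∈ Subgroup.zpowers m ↔ x = 1 ∨ x = m := by
  constructor
  · rintro ⟨i, rfl⟩
    rcases Int.even_or_odd' i with ⟨j, rfl | rfl⟩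
    · left
      show m ^ (2 * j) = 1
      rw [zpow_mul, zpow_two, h.sq, one_zpow]
    · right
      show m ^ (2 * j + 1) = m
      rw [zpow_add, zpow_mul, zpow_two, h.sq, one_zpow, one_mul, zpow_one]
  · rintro (rfl | rfl)
    · exact one_mem _
    · exact Subgroup.mem_zpowers _

theorem Two.glob {m : G} (h : Two G m) (hperf : commutator G = ⊤) [(Subgroup.zpowers m).Normal]
    (hS : IsSimpleGroup (G ⧸ Subgroup.zpowers m)) (hna : ¬ IsMulCommutative (G ⧸ Subgroup.zpowers m)) :
    Glob G m where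
  toTwo := h
  idx M hM := by
    have := eq_top_of_sq_mem hperf M (Subgroup.mul_self_mem_of_index_two hM)
    rw [this, Subgroup.index_top] at hM
    exact absurd hM (by decide)
  zs P x hx h1 hm h2 := by
    let π := QuotientGroup.mk' (Subgroup.zpowers m)
    have hπ : ∀ y, π y = 1 ↔ y = 1 ∨ y = m := fun y =>
      (QuotientGroup.eq_one_iff y).trans (mem_zpowers_m h.toOne)
    obtain ⟨g, hg, hne⟩ := not_isolated hS hna (P.mapSurjective (QuotientGroup.mk'_surjective _)) (x := π x)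
      ⟨x, hx, rfl⟩ (fun e => ((hπ x).1 e).elim h1 hm) (by rw [← map_mul]; exact (hπ _).2 h2)
    obtain ⟨g, rfl⟩ := QuotientGroup.mk'_surjective _ g
    obtain ⟨y, hy, e⟩ := hg
    refine ⟨g, ?_, fun hp => hne ?_⟩
    · have h3 : π (y⁻¹ * (g * x * g⁻¹)) = 1 := by
        simp only [map_mul, map_inv]
        rw [← e, inv_mul_cancel]
      have h4 : y⁻¹ * (g * x * g⁻¹) ∈ P := by
        rcases (hπ _).1 h3 with e | e <;> rw [e]
        · exact one_mem _
        · exact h.toOne.m_mem P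
      have h5 := mul_mem (show y ∈ P from hy) h4
      rwa [mul_inv_cancel_left] at h5
    · rw [← map_inv, ← map_mul, ← map_mul]
      rcases hp with e | e
      · rw [e]
      · rw [e, map_mul, (hπ m).2 (Or.inr rfl), mul_one]

end CL.Dv2
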