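import Cfsg.Agent.Fgs.Dv2Defs

/-!
# Job DV-CFG: the centraliser of a reflection in a Sylow 2-subgroup
-/

set_option autoImplicit false

open Subgroup Cfsg CL.Grp

namespace CL.Dv2

universe u

namespace Cfgj

variable {G : Type u} [Group G] {m t x y : G}

theorem four (h : One G m) (rt : Rf m t) (yy : y * y = 1) (yt : y * t = t * y) :
    y = 1 ∨ y = m ∨ y = t ∨ y = t * m := by
  by_cases h1 : y = 1
  · exact .inl h1
  by_cases h2 : y = m
  · exact .inr (.inl h2)
  exact .inr (.inr (h.r1 y t ⟨yy, h1, h2⟩ rt yt))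

theorem nsq (h : Two G m) (rt : Rf m t) (e : Pm m (x * x) t) : False :=
  have k := rt.of_pm h.toOne e
  (h.r2 x k.sq).elim k.ne_one k.ne_m

theorem zp2 (tt : t * t = 1) (hx : x ∈ zpowers t) : x = 1 ∨ x = t := by
  obtain ⟨k, rfl⟩ := mem_zpowers_iff.1 hx
  rw [zpow_eq_zpow_emod k ((zpow_two t).trans tt)]
  rcases Int.emod_two_eq_zero_or_one k with e | e <;> simp [e]

theorem card_le_two (tt : t * t = 1) {E : Subgroup G} (h : ∀ e ∈ E, e = 1 ∨ e = t) : Nat.card E ≤ 2 := by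
  have k : orderOf t ≤ 2 := orderOf_le_of_pow_eq_one two_pos ((pow_two t).trans tt)
  have : Finite (zpowers t) := finite_zpowers.2 (isOfFinOrder_iff_pow_eq_one.2 ⟨2, two_pos, (pow_two t).trans tt⟩)
  rw [← Nat.card_zpowers] at k
  refine (card_le_of_le fun e he => ?_).trans k
  rcases h e he with rfl | rfl
  exacts [one_mem _, mem_zpowers _]

theorem anti (h : One G m) {s : G} (k : Pm m (s * t * s⁻¹) t) (hc : s * t ≠ t * s) : s * t = t * s * m := by
  rw [mul_inv_eq_iff_eq_mul.1 (k.resolve_left fun e => hc (mul_inv_eq_iff_eq_mul.1 e)), mul_assoc, ← h.cen, mul_assoc]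

theorem anti_mul (h : One G m) {p s : G} (h1 : p * t = t * p * m) (h2 : s * t = t * s * m) :
    p * s * t = t * (p * s) := by
  rw [mul_assoc, h2, ← mul_assoc, ← mul_assoc, h1, mul_assoc _ m, ← h.cen, ← mul_assoc, mul_assoc _ m, h.sq, mul_one,
    mul_assoc]

theorem transf [Finite G] (hperf : commutator G = ⊤) {i : G} (hi : ∀ g, g * i = i * g) (h4 : orderOf i = 4)
    {A : Subgroup G} (ab : ∀ a ∈ A, ∀ b ∈ A, a * b = b * a) (h : ¬ 4 ∣ A.index) : False := by
  let _ : CommGroup A := { (inferInstance : Group A) with mul_comm := fun a b => Subtype.ext (ab a a.2 b b.2) }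
  have k := MonoidHom.transfer_eq_pow (MonoidHom.id A) i fun k g _ => by
    rw [mul_assoc, ← ((show Commute g i from hi g).pow_right k).eq, inv_mul_cancel_left]
  have k1 : (MonoidHom.id A).transfer i = 1 := Abelianization.commutator_subset_ker _ (hperf ▸ mem_top i)
  exact h (h4 ▸ orderOf_dvd_of_pow_eq_one (congrArg Subtype.val (k.symm.trans k1)))

end Cfgj

open Cfgj

theorem tstruct {G : Type u} [Group G] [Finite G] {m : G} (h : Two G m) (P : Sylow 2 G) {t : G} (ht : t ∈ P)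
    (rt : Rf m t) :
    (∀ x ∈ P, ∀ y ∈ P, x * t = t * x → y * t = t * y → x * y = y * x) ∨
    ∃ (α γ : G) (k : ℕ), α ∈ P ∧ γ ∈ P ∧ 2 ≤ k ∧ orderOf α = 2 ^ k ∧ α ^ 2 ^ (k - 1) = m ∧ α * t = t * α ∧
      γ * t = t * γ ∧ γ * γ = m ∧ γ * α * γ⁻¹ = α⁻¹ ∧ ∀ y ∈ P, y * t = t * y →
        ∃ i : ℤ, y = α ^ i ∨ y = α ^ i * t ∨ y = γ * α ^ i ∨ y = γ * α ^ i * t := by
  have : Fact (Nat.Prime 2) := ⟨Nat.prime_two⟩
  let T : Subgroup G := (P : Subgroup G) ⊓ centralizer {t}
  have mT : ∀ {x}, x ∈ P → x * t = t * x → x ∈ T := fun h1 h2 => ⟨h1, mem_centralizer_singleton_iff.2 h2⟩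
  have cT : ∀ x : T, (x : G) * t = t * x := fun x => mem_centralizer_singleton_iff.1 x.2.2
  let Z := (zpowers t).subgroupOf T
  have Zc : Z ≤ center T := fun z hz => mem_center_iff.2 fun g => Subtype.ext (by
    change (g : G) * z = z * g
    rcases zp2 rt.sq (show (z : G) ∈ zpowers t from hz) with e | e <;> rw [e]
    exacts [by rw [mul_one, one_mul], cT g])
  have : Z.Normal := ⟨fun z hz g => by rwa [mem_center_iff.1 (Zc hz) g, mul_inv_cancel_right]⟩
  let π := QuotientGroup.mk' Z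
  have πe : ∀ a b : T, π a = π b → (a : G) = b ∨ (a : G) = b * t := fun a b e =>
    (zp2 rt.sq (show (b : G)⁻¹ * a ∈ zpowers t from (QuotientGroup.eq (s := Z)).1 e.symm)).imp
      (fun e => (inv_mul_eq_one.1 e).symm) inv_mul_eq_iff_eq_mul.1
  have sq : ∀ a : T, π a ^ 2 = 1 → (a : G) * a = 1 := fun a e =>
    (πe (a * a) 1 (by rw [map_mul, map_one, ← pow_two, e])).resolve_right fun e =>
      nsq h rt (.inl (e.trans (one_mul t)))
  let m' : T := ⟨m, mT (h.m_mem P) (h.cen t).symm⟩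
  let t' : T := ⟨t, mT ht rfl⟩
  have πt : π t' = 1 := (QuotientGroup.eq_one_iff _).2 (mem_zpowers t)
  rcases isCyclic_or_quaternion_of_forall_ea (p := 2) (G := T ⧸ Z)
    ((P.isPGroup'.to_le inf_le_left).to_quotient Z) (fun E hE e => by
      have := card_le_two (t := π m') (by rw [← map_mul, ← map_one π]; exact congrArg π (Subtype.ext h.sq)) (E := E)
        fun a ha => by
          obtain ⟨a, rfl⟩ := QuotientGroup.mk'_surjective Z a
          rcases four h.toOne rt (sq a (hE.2 _ ha)) (cT a) with e | e | e | e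
          · exact .inl (by rw [show a = 1 from Subtype.ext e, map_one])
          · exact .inr (congrArg π (Subtype.ext e))
          · exact .inl (by rw [show a = t' from Subtype.ext e]; exact πt)
          · exact .inr (by rw [show a = t' * m' from Subtype.ext e, map_mul, show QuotientGroup.mk' Z t' = 1 from πt,
              one_mul])
      omega) with hc | ⟨-, k, a, b, d, h1, h2⟩
  · exact .inl fun x hx y hy xt yt => congrArg Subtype.val ((π.isMulCommutative_of_isCyclic_of_ker_le_center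
      ((QuotientGroup.ker_mk' Z).le.trans Zc)).is_comm.comm ⟨x, mT hx xt⟩ ⟨y, mT hy yt⟩)
  obtain ⟨α, rfl⟩ := QuotientGroup.mk'_surjective Z a
  obtain ⟨γ, rfl⟩ := QuotientGroup.mk'_surjective Z b
  obtain ⟨k, rfl⟩ := Nat.exists_eq_add_of_le' d.two_le
  have oz := d.orderOf_z
  rw [show k + 2 - 1 = k + 1 from rfl] at h1 oz
  have z2 : (α : G) ^ 2 ^ (k + 1) * α ^ 2 ^ (k + 1) = 1 := sq (α ^ 2 ^ (k + 1)) (by
    rw [map_pow]; exact (congrArg ((π α ^ 2 ^ (k + 1)) ^ ·) oz).symm.trans (pow_orderOf_eq_one _))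
  have z1 : (α : G) ^ 2 ^ (k + 1) ≠ 1 := fun e => by
    rw [← map_pow, show α ^ 2 ^ (k + 1) = 1 from Subtype.ext e, map_one, orderOf_one] at oz
    omega
  have zs : (α : G) ^ 2 ^ (k + 1) = α ^ 2 ^ k * α ^ 2 ^ k := by rw [pow_succ, pow_mul, pow_two]
  have zm : (α : G) ^ 2 ^ (k + 1) = m := ((h.r2 _ (zs ▸ z2)).resolve_left (zs ▸ z1) ▸ zs :)
  have γγ : (γ : G) * γ = m := by
    rcases πe (γ * γ) (α ^ 2 ^ (k + 1)) (by rw [map_mul, map_pow, ← pow_two]; exact h1) with e | e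
    · exact e.trans zm
    · exact (nsq h rt (x := (γ : G)) (.inr (e.trans ((congrArg (· * t) zm).trans (h.cen t).symm)))).elim
  have γα : (γ : G) * α * (γ : G)⁻¹ = (α : G)⁻¹ := (πe (γ * α * γ⁻¹) α⁻¹ (by
    rw [map_mul, map_mul, map_inv, map_inv]; exact h2)).resolve_right fun e => nsq h rt (x := (γ : G) * α) (.inr (by
      calc (γ : G) * α * (γ * α) = γ * α * (γ : G)⁻¹ * (γ * γ) * α := by group
        _ = (α : G)⁻¹ * (t * α) * m := by
          rw [show (γ : G) * α * (γ : G)⁻¹ = (α : G)⁻¹ * t from e, γγ, mul_assoc _ m, ← h.cen]; group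
        _ = t * m := by rw [← cT α]; group))
  refine .inr ⟨α, γ, k + 2, α.2.1, γ.2.1, by omega, orderOf_eq_prime_pow z1 (by rw [pow_succ, pow_mul, pow_two, z2]),
    zm, cT α, cT γ, γγ, γα, fun y hy yt => ?_⟩
  obtain ⟨i, e | e⟩ := d.elt (π ⟨y, mT hy yt⟩)
  · exact ⟨i, (πe ⟨y, mT hy yt⟩ (α ^ i) (by rw [map_zpow]; exact e)).elim .inl fun e => .inr (.inl e)⟩
  · refine ⟨-i, .inr (.inr (πe ⟨y, mT hy yt⟩ (γ * α ^ (-i)) ?_))⟩
    rw [map_mul, map_zpow, e, eq_comm, ← mul_inv_eq_iff_eq_mul, ← conj_zpow]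
    exact (congrArg (· ^ (-i)) h2).trans (by simp)

theorem cfg_of {G : Type u} [Group G] [Finite G] {m : G} (h : Glob G m) (P : Sylow 2 G) {t : G} (ht : t ∈ P)
    (rt : Rf m t) (nrm : ∀ y ∈ P, Pm m (y * t * y⁻¹) t) : ∃ (u α γ : G) (k : ℕ), Cfg m P t u α γ k := by
  have h1 := h.toOne
  obtain ⟨g, uP, ut⟩ := h.zs P t ht rt.ne_one rt.ne_m (.inl rt.sq)
  have ru := rt.conj h1 g
  generalize g * t * g⁻¹ = u at uP ut ru
  have an : ∀ s ∈ P, s * t ≠ t * s → s * t = t * s * m := fun s hs => anti h1 (nrm s hs)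
  have ut' := an u uP fun e => ut (h.r1 u t ru rt e)
  rcases tstruct h.toTwo P ht rt with ab | ⟨α, γ, k, a1, a2, a3, a4, a5, a6, a7, a8, a9, a10⟩
  swap
  · exact ⟨u, α, γ, k, ht, uP, a1, a2, rt, ru, ut', nrm, a3, a4, a5, a6, a7, a8, a9, a10⟩
  exfalso
  have mP := h1.m_mem P
  have cu : u * t * u⁻¹ = t * m := by rw [ut', mul_assoc t, h.cen]; group
  have cm : ∀ g, g * m * g⁻¹ = m := fun g => by rw [h.cen, mul_inv_cancel_right]
  have cq : ∀ g y : G, g * y * g⁻¹ * (g * y * g⁻¹) = g * (y * y) * g⁻¹ := fun g y => by group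
  by_cases hy : ∃ y ∈ P, y * t = t * y ∧ y * y = m
  · obtain ⟨y, yP, yt, yy⟩ := hy
    have y'P : u * y * u⁻¹ ∈ P := mul_mem (mul_mem uP yP) (inv_mem uP)
    have y't : u * y * u⁻¹ * t = t * (u * y * u⁻¹) := by
      rw [← mul_left_inj m, mul_assoc _ t, ← cu, mul_assoc t, h.cen (u * y * u⁻¹), ← mul_assoc t, ← cu, conj_mul,
        conj_mul, yt]
    have yy' := ab _ y'P y yP y't yt
    have w2 : u * y * u⁻¹ * y * (u * y * u⁻¹ * y) = 1 := by
      calc _ = u * y * u⁻¹ * (y * (u * y * u⁻¹)) * y := by group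
        _ = u * (y * y) * u⁻¹ * (y * y) := by rw [← yy']; group
        _ = 1 := by rw [yy, cm, h.sq]
    have wu : u * (u * y * u⁻¹ * y) * u⁻¹ = u * y * u⁻¹ * y := by
      calc _ = u * u * y * (u * u)⁻¹ * (u * y * u⁻¹) := by group
        _ = _ := by rw [ru.sq, yy']; group
    obtain ⟨b, bP, bt, bu, bb⟩ : ∃ b ∈ P, b * t = t * b ∧ u * b = b * u ∧ b * b = m := by
      rcases four h1 rt w2 (by rw [mul_assoc, yt, ← mul_assoc, y't, mul_assoc]) with e | e | e | e
      · refine ⟨y * t, mul_mem yP ht, by rw [mul_assoc, ← mul_assoc t, ← yt, mul_assoc],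
          mul_inv_eq_iff_eq_mul.1 ?_, by rw [mul_assoc, ← mul_assoc t, ← yt, mul_assoc, rt.sq, mul_one, yy]⟩
        rw [← conj_mul, cu, eq_inv_of_mul_eq_one_left e, h.cen, ← yy]; group
      · exact ⟨y, yP, yt, mul_inv_eq_iff_eq_mul.1 (mul_right_cancel (e.trans yy.symm)), yy⟩
      · rw [e, cu] at wu
        exact absurd wu.symm (h1.ne_mul t)
      · rw [e, ← conj_mul, cu, cm, mul_assoc, h.sq, mul_one] at wu
        exact absurd wu (h1.ne_mul t)
    have bc : ∀ p ∈ P, p * b = b * p := fun p hp => by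
      by_cases k : p * t = t * p
      · exact ab p hp b bP k bt
      · have := ab _ (mul_mem hp uP) b bP (anti_mul h1 (an p hp k) ut') bt
        rwa [mul_assoc, bu, ← mul_assoc, ← mul_assoc, mul_left_inj] at this
    obtain ⟨g, xP, xb⟩ := h.zs P b bP (fun e => h.ne_one (by rw [← bb, e, mul_one]))
      (fun e => h.ne_one (by rw [← bb, e, h.sq])) (.inr bb)
    have xx : g * b * g⁻¹ * (g * b * g⁻¹) = m := by rw [cq, bb, cm]
    have gx : g⁻¹ * (g * b * g⁻¹) * g⁻¹⁻¹ = b := by group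
    generalize g * b * g⁻¹ = x at xP xb xx gx
    have rs : Rf m (x * b) := ⟨by rw [mul_assoc, ← mul_assoc b, ← bc x xP, mul_assoc, bb, ← mul_assoc, xx, h.sq],
      fun e => xb (.inr (by
        rw [eq_inv_of_mul_eq_one_left e, inv_eq_iff_mul_eq_one, ← mul_assoc, bb, h.sq])),
      fun e => xb (.inl (mul_right_cancel (e.trans bb.symm)))⟩
    obtain ⟨r, rP, rr, rs'⟩ : ∃ r ∈ P, r * r = 1 ∧ r * (x * b) = x * b * r * m := by
      by_cases k : Pm m (x * b) t
      · refine ⟨u, uP, ru.sq, ?_⟩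
        rcases k with k | k <;> rw [k]
        · exact ut'
        · rw [← mul_assoc, ut', mul_assoc t m, ← h.cen, ← mul_assoc]
      · refine ⟨t, ht, rt.sq, ?_⟩
        rw [an _ (mul_mem xP bP) fun e => k (h.r1 _ t rs rt e), mul_assoc _ m, h.sq, mul_one]
    have rx : r * x * r⁻¹ = x * m := by
      calc _ = r * (x * b) * (r * b)⁻¹ := by group
        _ = x * (b * r * m) * (b * r)⁻¹ := by rw [rs', bc r rP]; group
        _ = _ := by rw [h.cen]; group
    obtain ⟨c, c1, c2⟩ := ext_conj h1 P (b := b) (x := x) (g := g⁻¹)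
      (fun y hy => .inl (mul_inv_eq_iff_eq_mul.2 (bc y hy))) (.inl gx) (zpowers r)
      (fun a => ⟨1, Subtype.ext (by rcases zp2 rr a.2 with e | e <;> simp [e, pow_two, rr])⟩)
      fun y hy => zpowers_le (H := stab h1 x).2 (.inr rx) hy
    have c3 := bc _ (c2 r (mem_zpowers r))
    have c4 : c * r * c⁻¹ * (c * x * c⁻¹) = c * x * c⁻¹ * (c * r * c⁻¹) := by
      rcases c1 with e | e <;> rw [e]
      · exact c3
      · rw [← mul_assoc, c3, mul_assoc b, h.cen, mul_assoc b]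
    rw [conj_mul, conj_mul, mul_left_inj, mul_right_inj] at c4
    exact h1.ne_mul x ((mul_inv_eq_iff_eq_mul.2 c4).symm.trans rx)
  push Not at hy
  have sq : ∀ (k : ℕ), ∀ y ∈ P, y * t = t * y → y ^ 2 ^ k = 1 → y * y = 1 := fun k => by
    induction k with
    | zero => exact fun y _ _ e => by rw [show y = 1 by simpa using e, mul_one]
    | succ k ih =>
      exact fun y yP yt e => (h.r2 y (ih _ (mul_mem yP yP) (by rw [mul_assoc, yt, ← mul_assoc, yt, mul_assoc])
        (by rwa [← pow_two, ← pow_mul, ← pow_succ']))).resolve_right (hy y yP yt)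
  have tu : t * u * (t * u) = m := by
    rw [mul_assoc, ← mul_assoc u, ut', mul_assoc _ m, ← h.cen, ← mul_assoc, ← mul_assoc, ← mul_assoc, rt.sq, one_mul,
      ru.sq, one_mul]
  obtain ⟨g, xP, xb⟩ := h.zs P (t * u) (mul_mem ht uP) (fun e => h.ne_one (by rw [← tu, e, mul_one]))
    (fun e => h.ne_one (by rw [← tu, e, h.sq])) (.inr tu)
  have xx : g * (t * u) * g⁻¹ * (g * (t * u) * g⁻¹) = m := by rw [cq, tu, cm]
  generalize g * (t * u) * g⁻¹ = x at xP xb xx
  have k1 := anti_mul h1 (an x xP fun e => hy x xP e xx) ut'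
  obtain ⟨k, hk⟩ := P.isPGroup' ⟨_, mul_mem xP uP⟩
  have e : ∀ a, x * u = a → x = a * u := fun a e => by rw [← e, mul_assoc, ru.sq, mul_one]
  rcases four h1 rt (sq k _ (mul_mem xP uP) k1 (congrArg Subtype.val hk)) k1 with k | k | k | k
  · exact h.ne_one (by rw [← xx, e _ k, one_mul, ru.sq])
  · exact h.ne_one (by rw [← xx, e _ k, ← h.cen, (Pm.mul_m (m := m) u).sq h1, ru.sq])
  · exact xb (.inl (e _ k))
  · exact xb (.inr (by rw [e _ k, mul_assoc, ← h.cen, mul_assoc]))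

theorem no_central_four {G : Type u} [Group G] [Finite G] {m : G} (h : Two G m) (hperf : commutator G = ⊤) {i : G}
    (hi : ∀ g, g * i = i * g) (hii : i * i = m) : False := by
  have : Fact (Nat.Prime 2) := ⟨Nat.prime_two⟩
  have h1 := h.toOne
  have h4 : orderOf i = 4 := orderOf_eq_prime_pow (p := 2) (n := 1) (by rw [pow_one, pow_two, hii]; exact h.ne_one)
    (by rw [← h.sq, ← hii]; norm_num [pow_succ, mul_assoc])
  obtain ⟨P⟩ : Nonempty (Sylow 2 G) := inferInstance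
  have hn : (zpowers i).Normal := ⟨fun x hx g => by
    obtain ⟨k, rfl⟩ := mem_zpowers_iff.1 hx
    rwa [((show Commute g i from hi g).zpow_right k).eq, mul_inv_cancel_right]⟩
  have iP : i ∈ P := IsPGroup.le_sylow_of_normal (.of_card (n := 2) ((Nat.card_zpowers i).trans h4)) P (mem_zpowers i)
  have od := P.not_dvd_index
  by_cases hE : ∀ E : Subgroup P, E.Normal → IsElementaryAbelian 2 E → Nat.card E ≠ 2 ^ 2
  · rcases isCyclic_or_dqsGen_of_forall_normal P.isPGroup' hE with hc | ⟨-, n, a, b, d⟩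
    · exact transf hperf hi h4 (A := P) (fun a ha b hb => congrArg Subtype.val
        ((IsCyclic.isMulCommutative (α := P)).is_comm.comm ⟨a, ha⟩ ⟨b, hb⟩)) fun e => od ((by norm_num : 2 ∣ 4).trans e)
    · have := (center P).orderOf_dvd_natCard (x := ⟨i, iP⟩) (mem_center_iff.2 fun g => Subtype.ext (hi g))
      rw [d.card_center, ← orderOf_coe, h4] at this
      omega
  push Not at hE
  obtain ⟨E, En, Ee, Ec⟩ := hE
  obtain ⟨t, tE, t1, tm⟩ : ∃ t ∈ E, t ≠ 1 ∧ t ≠ ⟨m, h1.m_mem P⟩ := by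
    by_contra k
    have := card_le_two (t := (⟨m, h1.m_mem P⟩ : P)) (Subtype.ext h.sq) (E := E) fun e he => by
      by_contra k'
      push Not at k'
      exact k ⟨e, he, k'⟩
    exact absurd (Ec.ge.trans this) (by norm_num)
  have rt : Rf m t := ⟨congrArg Subtype.val ((pow_two t).symm.trans (Ee.2 t tE)), fun e => t1 (Subtype.ext e),
    fun e => tm (Subtype.ext e)⟩
  have nrm : ∀ y ∈ P, Pm m (y * t * y⁻¹) t := fun y hy => h.r1 _ _ (rt.conj h1 y) rt (congrArg
    (fun x : E => ((x : P) : G)) (Ee.1.is_comm.comm ⟨_, En.conj_mem t tE ⟨y, hy⟩⟩ ⟨t, tE⟩))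
  rcases tstruct h P t.2 rt with ab | ⟨α, γ, k, -, -, k2, oα, -, αt, γt, γγ, γα, nf⟩
  · refine transf hperf hi h4 (A := (P : Subgroup G) ⊓ centralizer {(t : G)}) (fun a ha b hb => ab a ha.1 b hb.1
      (mem_centralizer_singleton_iff.1 ha.2) (mem_centralizer_singleton_iff.1 hb.2)) fun e => ?_
    have k : ((P : Subgroup G) ⊓ centralizer {(t : G)}).relIndex P ∣ 2 := index_dvd_two_iff.2 (by
      by_cases k : ∃ u : P, (u : G) * t ≠ t * u
      · obtain ⟨u, hu⟩ := k
        refine ⟨u, fun b => ?_⟩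
        by_cases k : (b : G) * t = t * b
        · exact .inr ⟨b.2, mem_centralizer_singleton_iff.2 k⟩
        · exact .inl ⟨(b * u).2, mem_centralizer_singleton_iff.2
            (anti_mul h1 (anti h1 (nrm b b.2) k) (anti h1 (nrm u u.2) hu))⟩
      · push Not at k
        exact ⟨1, fun b => .inr ⟨b.2, mem_centralizer_singleton_iff.2 (k b)⟩⟩)
    rw [← relIndex_mul_index (inf_le_left : _ ≤ (P : Subgroup G))] at e
    exact od (Nat.dvd_of_mul_dvd_mul_left two_pos (e.trans (Nat.mul_dvd_mul_right k _)))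
  · have c1 : ∀ j : ℤ, γ * α ^ j = α ^ j * γ → α ^ j * α ^ j = 1 := fun j e => by
      rw [← mul_inv_eq_iff_eq_mul, ← conj_zpow, γα, inv_zpow] at e
      nth_rewrite 1 [← e]
      exact inv_mul_cancel _
    have c2 : ∀ j : ℤ, α * (γ * α ^ j) ≠ γ * α ^ j * α := fun j e => by
      rw [mul_assoc, ← ((Commute.refl α).zpow_right j).eq, ← mul_assoc, ← mul_assoc, mul_left_inj] at e
      have : orderOf α ∣ 2 ^ 1 := orderOf_dvd_of_pow_eq_one (by
        rw [pow_one, pow_two, ← eq_inv_iff_mul_eq_one, ← γα, ← e, mul_inv_cancel_right])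
      rw [oα, Nat.pow_dvd_pow_iff_le_right one_lt_two] at this
      omega
    obtain ⟨j, e | e | e | e⟩ := nf i iP (hi t).symm
    · exact h.ne_one (by rw [← hii, e, c1 j (e ▸ hi γ)])
    · have := hi γ
      rw [e, mul_assoc, ← γt, ← mul_assoc, ← mul_assoc, mul_left_inj] at this
      exact h.ne_one (by rw [← hii, e, mul_assoc, ← mul_assoc (t : G), ← ((show Commute α t from αt).zpow_left j).eq,
        mul_assoc, rt.sq, mul_one, c1 j this])
    · exact c2 j (e ▸ hi α)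
    · have := hi α
      rw [e, mul_assoc _ (t : G), ← αt, ← mul_assoc, ← mul_assoc (γ * α ^ j), mul_left_inj] at this
      exact c2 j this

end CL.Dv2
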