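import Mathlib
import Cfsg.Agent.Grp.PGroupCyc

/-!
# Finite subgroups of `GL₂(D)`, `D` a division ring of characteristic zero: definitions

* `Rk ρ δ`: a faithful rational representation of dimension `≤ 2 δ` in which every element of the
  enveloping algebra has rank divisible by `δ` (so rank `0`, `δ` or `2 δ`).
* `Irr ρ δ`: moreover the commuting algebra is a division algebra of dimension `δ`.
* `One G m`, `Two G m`, `Glob G m`, `Cfg`: the 2-local data (`m` plays the role of `-1`).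
-/

set_option autoImplicit false

open Module

namespace CL.Dv2

universe u v

section Rep

variable {G : Type u} [Group G] {V : Type v} [AddCommGroup V] [Module ℚ V]

/-- The enveloping algebra. -/
def alg (ρ : G →* End ℚ V) : Subalgebra ℚ (End ℚ V) := Algebra.adjoin ℚ (Set.range ρ)

theorem mem_alg (ρ : G →* End ℚ V) (g : G) : ρ g ∈ alg ρ := Algebra.subset_adjoin ⟨g, rfl⟩

/-- The rank condition. -/
structure Rk (ρ : G →* End ℚ V) (δ : ℕ) : Prop where
  fin : FiniteDimensional ℚ V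
  inj : Function.Injective ρ
  pos : 0 < δ
  le : finrank ℚ V ≤ 2 * δ
  dvd : ∀ a ∈ alg ρ, δ ∣ finrank ℚ (LinearMap.range a)

/-- Irreducibility data. -/
structure Irr (ρ : G →* End ℚ V) (δ : ℕ) : Prop extends Rk ρ δ where
  nontriv : Nontrivial V
  unit : ∀ a : End ℚ V, (∀ g, a * ρ g = ρ g * a) → a ≠ 0 → IsUnit a
  cen : finrank ℚ (Subalgebra.centralizer ℚ (Set.range ρ)) = δ
  dimA : finrank ℚ (alg ρ) * δ ≤ finrank ℚ V ^ 2

namespace Rk

variable {ρ : G →* End ℚ V} {δ : ℕ}

theorem rank_cases (h : Rk ρ δ) {a : End ℚ V} (ha : a ∈ alg ρ) :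
    finrank ℚ (LinearMap.range a) = 0 ∨ finrank ℚ (LinearMap.range a) = δ ∨
      finrank ℚ (LinearMap.range a) = 2 * δ := by
  have := h.fin
  obtain ⟨c, hc⟩ := h.dvd a ha
  have h1 : finrank ℚ (LinearMap.range a) ≤ 2 * δ := (Submodule.finrank_le _).trans h.le
  have h2 : c ≤ 2 := by
    by_contra h3
    have h4 : δ * 3 ≤ δ * c := Nat.mul_le_mul_left _ (by omega)
    have := h.pos
    omega
  interval_cases c <;> omega

theorem dim_cases (h : Rk ρ δ) :
    finrank ℚ V = 0 ∨ finrank ℚ V = δ ∨ finrank ℚ V = 2 * δ := by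
  have h1 := h.rank_cases (one_mem (alg ρ))
  rwa [Module.End.one_eq_id, LinearMap.range_id, finrank_top] at h1

theorem comp (h : Rk ρ δ) {H : Type*} [Group H] (f : H →* G) (hf : Function.Injective f) :
    Rk (ρ.comp f) δ where
  fin := h.fin
  inj := h.inj.comp hf
  pos := h.pos
  le := h.le
  dvd a ha := h.dvd a (Algebra.adjoin_mono (by rintro _ ⟨x, rfl⟩; exact ⟨f x, rfl⟩) ha)

theorem trace_idem (h : Rk ρ δ) {e : End ℚ V} (he : e * e = e) :
    LinearMap.trace ℚ V e = finrank ℚ (LinearMap.range e) := by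
  have := h.fin
  exact (LinearMap.IsIdempotentElem.isProj_range e he).trace

theorem eq_zero_of_rank (h : Rk ρ δ) {a : End ℚ V} (ha : finrank ℚ (LinearMap.range a) = 0) :
    a = 0 := by
  have := h.fin
  rwa [Submodule.finrank_eq_zero, LinearMap.range_eq_bot] at ha

/-- An idempotent of the enveloping algebra other than `0` and `1` has trace `δ`, and the dimension is `2 δ`. -/
theorem idem (h : Rk ρ δ) {e : End ℚ V} (ha : e ∈ alg ρ) (he : e * e = e) (h0 : e ≠ 0)
    (h1 : e ≠ 1) : LinearMap.trace ℚ V e = δ ∧ finrank ℚ V = 2 * δ := by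
  have := h.fin
  have he' : (1 - e) * (1 - e) = 1 - e := by rw [sub_mul, mul_sub, mul_sub, he]; simp
  have ht : LinearMap.trace ℚ V (1 - e) = finrank ℚ V - LinearMap.trace ℚ V e := by
    rw [map_sub, LinearMap.trace_one]
  rw [h.trace_idem he', h.trace_idem he] at ht
  rw [h.trace_idem he]
  have a1 := h.rank_cases ha
  have a2 := h.rank_cases (sub_mem (one_mem _) ha)
  have a3 : finrank ℚ (LinearMap.range e) ≠ 0 := fun hh => h0 (h.eq_zero_of_rank hh)
  have a4 : finrank ℚ (LinearMap.range (1 - e)) ≠ 0 := fun hh =>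
    h1 (sub_eq_zero.1 (h.eq_zero_of_rank hh)).symm
  have a5 : finrank ℚ (LinearMap.range (1 - e)) + finrank ℚ (LinearMap.range e) =
      finrank ℚ V := by
    have : ((finrank ℚ (LinearMap.range (1 - e)) + finrank ℚ (LinearMap.range e) : ℕ) : ℚ) =
        finrank ℚ V := by push_cast; rw [ht]; ring
    exact_mod_cast this
  have a6 := h.le
  have a7 := h.pos
  have a8 : finrank ℚ (LinearMap.range e) = δ := by omega
  exact ⟨by rw [a8], by omega⟩

/-- Two commuting idempotents of the enveloping algebra other than `0`, `1` are equal or complementary. -/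
theorem idem_eq (h : Rk ρ δ) {e f : End ℚ V} (ha : e ∈ alg ρ) (hb : f ∈ alg ρ) (he : e * e = e)
    (hf : f * f = f) (e0 : e ≠ 0) (e1 : e ≠ 1) (f0 : f ≠ 0) (f1 : f ≠ 1) (hc : e * f = f * e) :
    f = e ∨ f = 1 - e := by
  have := h.fin
  have key : ∀ {a b : End ℚ V}, a * a = a → b * b = b → a * b = b * a →
      LinearMap.trace ℚ V (a * b) = LinearMap.trace ℚ V a → a * b = a := by
    intro a b haa hbb hab ht
    have hi : (a - a * b) * (a - a * b) = a - a * b := by
      have : a * b * (a * b) = a * b := by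
        rw [mul_assoc, ← mul_assoc b, ← hab, mul_assoc, hbb, ← mul_assoc, haa]
      rw [sub_mul, mul_sub, mul_sub, this, haa, ← mul_assoc, haa, mul_assoc a b a, ← hab,
        ← mul_assoc, haa]
      simp
    have h0 : LinearMap.trace ℚ V (a - a * b) = 0 := by rw [map_sub, ht, sub_self]
    rw [h.trace_idem hi] at h0
    exact (sub_eq_zero.1 (h.eq_zero_of_rank (by exact_mod_cast h0))).symm
  have hef : e * f * (e * f) = e * f := by
    rw [mul_assoc, ← mul_assoc f, ← hc, mul_assoc, hf, ← mul_assoc, he]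
  obtain ⟨te, hn⟩ := h.idem ha he e0 e1
  obtain ⟨tf, -⟩ := h.idem hb hf f0 f1
  by_cases z : e * f = 0
  · right
    have he' : (1 - e) * (1 - e) = 1 - e := by rw [sub_mul, mul_sub, mul_sub, he]; simp
    have h1 : (1 - e) * f = f := by rw [sub_mul, z]; simp
    have h2 : (1 - e) * f = f * (1 - e) := by rw [sub_mul, mul_sub, hc]; simp
    have := key he' hf h2 (by
      rw [h1, tf, map_sub, te, LinearMap.trace_one, hn]; push_cast; ring)
    rw [← h1, this]
  · left
    have o : e * f ≠ 1 := by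
      intro o
      apply e1
      calc e = e * (e * f) := by rw [o, mul_one]
        _ = 1 := by rw [← mul_assoc, he, o]
    obtain ⟨tef, -⟩ := h.idem (mul_mem ha hb) hef z o
    have k1 := key he hf hc (by rw [tef, te])
    have k2 := key hf he hc.symm (by rw [← hc, tef, tf])
    rw [← k2, ← hc, k1]

end Rk

end Rep

section Grp

variable {G : Type u} [Group G]

/-- Equality up to the sign `m`. -/
def Pm (m a b : G) : Prop := a = b ∨ a = b * m

/-- A reflection: an involution other than `m`. -/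
structure Rf (m s : G) : Prop where
  sq : s * s = 1
  ne_one : s ≠ 1
  ne_m : s ≠ m

/-- `m` is a central involution and two distinct commuting reflections have product `m`. -/
structure One (G : Type u) [Group G] (m : G) : Prop where
  ne_one : m ≠ 1
  sq : m * m = 1
  cen : ∀ g : G, g * m = m * g
  r1 : ∀ a b : G, Rf m a → Rf m b → a * b = b * a → Pm m a b

/-- Moreover no reflection is a square. -/
structure Two (G : Type u) [Group G] (m : G) : Prop extends One G m where
  r2 : ∀ x : G, x * x * (x * x) = 1 → x * x = 1 ∨ x * x = m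

/-- Global hypotheses: no subgroup of index two, no isolated involution modulo `m`. -/
structure Glob (G : Type u) [Group G] (m : G) : Prop extends Two G m where
  idx : ∀ M : Subgroup G, M.index ≠ 2
  zs : ∀ (P : Sylow 2 G) (x : G), x ∈ P → x ≠ 1 → x ≠ m → (x * x = 1 ∨ x * x = m) →
    ∃ g : G, g * x * g⁻¹ ∈ P ∧ ¬ Pm m (g * x * g⁻¹) x

/-- A Sylow 2-subgroup `P` normalising `⟨t, m⟩` with `C_P(t) = ⟨α, γ⟩ × ⟨t⟩`, `⟨α, γ⟩` generalized quaternion of
order `2 ^ (k + 1)`, and a reflection `u ∈ P` anticommuting with `t`. -/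
structure Cfg (m : G) (P : Sylow 2 G) (t u α γ : G) (k : ℕ) : Prop where
  t_mem : t ∈ P
  u_mem : u ∈ P
  α_mem : α ∈ P
  γ_mem : γ ∈ P
  rt : Rf m t
  ru : Rf m u
  ut : u * t = t * u * m
  nrm : ∀ y ∈ P, Pm m (y * t * y⁻¹) t
  two_le : 2 ≤ k
  ord : orderOf α = 2 ^ k
  αm : α ^ 2 ^ (k - 1) = m
  αt : α * t = t * α
  γt : γ * t = t * γ
  γγ : γ * γ = m
  γα : γ * α * γ⁻¹ = α⁻¹
  nf : ∀ y ∈ P, y * t = t * y →
    ∃ i : ℤ, y = α ^ i ∨ y = α ^ i * t ∨ y = γ * α ^ i ∨ y = γ * α ^ i * t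

/-- No Frobenius group with a cyclic complement of order at least three. -/
def NoFrob (G : Type u) [Group G] : Prop :=
  ∀ (U : Subgroup G) (c : G), U ≠ ⊥ → 3 ≤ orderOf c → (∀ y ∈ U, c * y * c⁻¹ ∈ U) →
    (∀ j : ℕ, c ^ j ≠ 1 → ∀ y ∈ U, c ^ j * y = y * c ^ j → y = 1) → False

/-- The configuration of `SL₂(p)`, `p ≥ 17`, does not occur. -/
def NoFermat (G : Type u) [Group G] : Prop :=
  ∀ (p : ℕ) (y w x : G) (s : ℕ), p.Prime → 17 ≤ p → y ≠ 1 → y ^ p = 1 → w * y * w⁻¹ = y ^ s →
    (∀ j : ℕ, 0 < j → 2 * j < p - 1 → ¬ s ^ j ≡ 1 [MOD p]) → orderOf x = 3 →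
    Nat.card (Subgroup.centralizer ({x} : Set G)) ≤ p + 1 → (p = 17 → ∃ z : G, z ^ 3 = x) → False

namespace Pm

variable {m a b c d : G}

theorem refl (m a : G) : Pm m a a := Or.inl rfl

theorem symm (h : One G m) (hab : Pm m a b) : Pm m b a := by
  rcases hab with rfl | rfl
  · exact Or.inl rfl
  · exact Or.inr (by rw [mul_assoc, h.sq, mul_one])

theorem trans (h : One G m) (hab : Pm m a b) (hbc : Pm m b c) : Pm m a c := by
  rcases hab with rfl | rfl <;> rcases hbc with rfl | rfl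
  · exact Or.inl rfl
  · exact Or.inr rfl
  · exact Or.inr rfl
  · exact Or.inl (by rw [mul_assoc, h.sq, mul_one])

theorem mul (h : One G m) (hab : Pm m a b) (hcd : Pm m c d) : Pm m (a * c) (b * d) := by
  rcases hab with rfl | rfl <;> rcases hcd with rfl | rfl
  · exact Or.inl rfl
  · exact Or.inr (by rw [mul_assoc])
  · exact Or.inr (by rw [mul_assoc, ← h.cen, mul_assoc])
  · exact Or.inl (by rw [mul_assoc, ← h.cen, mul_assoc d, h.sq, mul_one])

theorem conj (h : One G m) (hab : Pm m a b) (g : G) : Pm m (g * a * g⁻¹) (g * b * g⁻¹) :=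
  ((refl m g).mul h hab).mul h (refl m _)

theorem mul_m (a : G) : Pm m (a * m) a := Or.inr rfl

theorem sq (h : One G m) (hab : Pm m a b) : a * a = b * b := by
  rcases hab with rfl | rfl
  · rfl
  · rw [mul_assoc, ← mul_assoc m, ← h.cen, mul_assoc b, h.sq, mul_one]

theorem mem {P : Subgroup G} (hm : m ∈ P) (hab : Pm m a b) (hb : b ∈ P) : a ∈ P := by
  rcases hab with rfl | rfl
  · exact hb
  · exact mul_mem hb hm

end Pm

theorem Rf.conj {m s : G} (h : One G m) (hs : Rf m s) (g : G) : Rf m (g * s * g⁻¹) where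
  sq := by
    calc g * s * g⁻¹ * (g * s * g⁻¹) = g * (s * s) * g⁻¹ := by group
      _ = 1 := by rw [hs.sq]; group
  ne_one e := hs.ne_one (by
    calc s = g⁻¹ * (g * s * g⁻¹) * g := by group
      _ = 1 := by rw [e]; group)
  ne_m e := hs.ne_m (by
    calc s = g⁻¹ * (g * s * g⁻¹) * g := by group
      _ = m := by rw [e, h.cen]; group)

theorem Rf.of_pm {m s s' : G} (h : One G m) (hs : Rf m s) (e : Pm m s' s) : Rf m s' where
  sq := by rw [e.sq h, hs.sq]
  ne_one e1 := by
    rcases e with rfl | rfl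
    · exact hs.ne_one e1
    · exact hs.ne_m (by
        calc s = s * m * m := by rw [mul_assoc, h.sq, mul_one]
          _ = m := by rw [e1, one_mul])
  ne_m e1 := by
    rcases e with rfl | rfl
    · exact hs.ne_m e1
    · exact hs.ne_one (by simpa using e1)

theorem One.ne_mul {m : G} (h : One G m) (a : G) : a ≠ a * m := fun e =>
  h.ne_one (by simpa using e.symm)

theorem One.inv_m {m : G} (h : One G m) : m⁻¹ = m := inv_eq_of_mul_eq_one_right h.sq

theorem Rf.inv {m s : G} (hs : Rf m s) : s⁻¹ = s := inv_eq_of_mul_eq_one_right hs.sq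

/-- There are no six pairwise anticommuting reflections: a reflection that commutes up to sign with five pairwise
anticommuting reflections is one of them up to sign. -/
theorem One.clique {m : G} (h : One G m) (s : Fin 5 → G) (hs : ∀ i, Rf m (s i))
    (ha : ∀ i j, i ≠ j → s i * s j = s j * s i * m) {x : G} (hx : Rf m x)
    (hc : ∀ i, Pm m (x * s i) (s i * x)) : ∃ i, Pm m x (s i) := by
  by_contra hn
  push Not at hn
  have hx' : ∀ i, x * s i = s i * x * m := fun i => (hc i).resolve_left fun e => hn i (h.r1 _ _ hx (hs i) e)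
  have mm : ∀ z, m * (m * z) = z := fun z => by rw [← mul_assoc, h.sq, one_mul]
  have cm : ∀ a z, a * (m * z) = m * (a * z) := fun a z => by rw [← mul_assoc, h.cen, mul_assoc]
  have A : ∀ {a b : G}, a * b = b * a * m → ∀ z, a * (b * z) = m * (b * (a * z)) := by
    intro a b e z
    rw [← mul_assoc, e, h.cen]
    simp only [mul_assoc]
  have S : ∀ i z, s i * (s i * z) = z := fun i z => by rw [← mul_assoc, (hs i).sq, one_mul]
  -- `w = s 1 * s 2 * s 3 * s 4` commutes with every `a` that anticommutes with these four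
  have C : ∀ a, a * s 1 = s 1 * a * m → a * s 2 = s 2 * a * m → a * s 3 = s 3 * a * m →
      a * s 4 = s 4 * a * m → s 1 * (s 2 * (s 3 * s 4)) * a = a * (s 1 * (s 2 * (s 3 * s 4))) := by
    intro a h1 h2 h3 h4
    rw [A h1, A h2, A h3, h4, h.cen]
    simp only [cm (s _), mm, mul_assoc]
  have D : s 1 * (s 1 * (s 2 * (s 3 * s 4))) = s 1 * (s 2 * (s 3 * s 4)) * s 1 * m := by
    simp only [mul_assoc]
    rw [A (ha 4 1 (by decide)), cm (s 3), A (ha 3 1 (by decide)), mm, A (ha 2 1 (by decide))]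
    simp only [cm (s _), h.cen (s _), mm]
  have hw : Rf m (s 1 * (s 2 * (s 3 * s 4))) := by
    refine ⟨?_, fun e => ?_, fun e => ?_⟩
    · simp only [mul_assoc]
      rw [A (ha 4 1 (by decide)), cm (s 3), A (ha 3 1 (by decide)), mm, A (ha 2 1 (by decide)), cm (s 1), S,
        A (ha 4 2 (by decide)), cm (s 3), A (ha 3 2 (by decide)), mm, S, A (ha 4 3 (by decide)), cm (s 3), S,
        mm, (hs 4).sq]
    · rw [e] at D
      exact h.ne_mul (s 1) (by simpa using D)
    · rw [e, ← h.cen] at D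
      exact h.ne_mul _ D
  have e0 := h.r1 _ _ hw (hs 0) (C _ (ha 0 1 (by decide)) (ha 0 2 (by decide)) (ha 0 3 (by decide))
    (ha 0 4 (by decide)))
  have e1 := h.r1 _ _ hw hx (C _ (hx' 1) (hx' 2) (hx' 3) (hx' 4))
  exact hn 0 ((e1.symm h).trans h e0)

/-- The stabiliser of `{b, b m}`. -/
def stab {m : G} (h : One G m) (b : G) : Subgroup G where
  carrier := {g | Pm m (g * b * g⁻¹) b}
  one_mem' := by simpa using Pm.refl m b
  mul_mem' {x y} hx hy := by
    have h1 : Pm m (x * (y * b * y⁻¹) * x⁻¹) (x * b * x⁻¹) := Pm.conj h hy x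
    have h2 : x * y * b * (x * y)⁻¹ = x * (y * b * y⁻¹) * x⁻¹ := by group
    show Pm m _ _
    rw [h2]
    exact h1.trans h hx
  inv_mem' {x} hx := by
    have h1 := (Pm.conj h hx x⁻¹).symm h
    have h2 : x⁻¹ * (x * b * x⁻¹) * x⁻¹⁻¹ = b := by group
    rw [h2] at h1
    exact h1

theorem mem_stab {m : G} (h : One G m) {b g : G} : g ∈ stab h b ↔ Pm m (g * b * g⁻¹) b := Iff.rfl

theorem One.m_mem [Finite G] {m : G} (h : One G m) (P : Sylow 2 G) : m ∈ P := by
  have hn : (Subgroup.zpowers m).Normal := ⟨fun x hx g => by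
    obtain ⟨i, rfl⟩ := Subgroup.mem_zpowers_iff.1 hx
    have : g * m ^ i = m ^ i * g := ((show Commute g m from h.cen g).zpow_right i).eq
    rw [this, mul_inv_cancel_right]
    exact hx⟩
  have hp : IsPGroup 2 (Subgroup.zpowers m) := IsPGroup.of_card (n := 1) (by
    rw [Nat.card_zpowers, pow_one]
    exact orderOf_eq_prime (by rw [pow_two, h.sq]) h.ne_one)
  exact (IsPGroup.le_sylow_of_normal hp P) (Subgroup.mem_zpowers m)

/-- Extremal conjugation modulo `m`: if `P` stabilises `{b, b m}`, `x` is conjugate to `b` up to sign and the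
2-subgroup `Y` stabilises `{x, x m}`, then some element conjugates `x` to `± b` and `Y` into `P`. -/
theorem ext_conj [Finite G] {m : G} (h : One G m) (P : Sylow 2 G) {b x g : G}
    (hP : ∀ y ∈ P, Pm m (y * b * y⁻¹) b) (hx : Pm m (g * x * g⁻¹) b) (Y : Subgroup G)
    (hY : IsPGroup 2 Y) (hYx : ∀ y ∈ Y, Pm m (y * x * y⁻¹) x) :
    ∃ c : G, Pm m (c * x * c⁻¹) b ∧ ∀ y ∈ Y, c * y * c⁻¹ ∈ P := by
  have hPH : (P : Subgroup G) ≤ stab h b := fun y hy => hP y hy
  let Y' : Subgroup G := Y.map (MulAut.conj g).toMonoidHom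
  have hY' : IsPGroup 2 Y' := hY.map _
  have hY'H : Y' ≤ stab h b := by
    rintro _ ⟨y, hy, rfl⟩
    show Pm m (g * y * g⁻¹ * b * (g * y * g⁻¹)⁻¹) b
    have h1 := (hx.symm h).conj h (g * y * g⁻¹)
    have h2 : g * y * g⁻¹ * (g * x * g⁻¹) * (g * y * g⁻¹)⁻¹ = g * (y * x * y⁻¹) * g⁻¹ := by group
    rw [h2] at h1
    exact (h1.trans h ((hYx y hy).conj h g)).trans h hx
  have hY'' : IsPGroup 2 (Y'.subgroupOf (stab h b)) := hY'.comap_subtype
  obtain ⟨Q, hQ⟩ := hY''.exists_le_sylow
  obtain ⟨c, hc⟩ := MulAction.exists_smul_eq (stab h b) Q (P.subtype hPH)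
  refine ⟨c * g, ?_, fun y hy => ?_⟩
  · have h2 : (c : G) * g * x * ((c : G) * g)⁻¹ = c * (g * x * g⁻¹) * (c : G)⁻¹ := by group
    rw [h2]
    exact (hx.conj h c).trans h c.2
  · have h1 : (⟨g * y * g⁻¹, hY'H ⟨y, hy, rfl⟩⟩ : stab h b) ∈ Q := hQ ⟨y, hy, rfl⟩
    have h2 : c * (⟨g * y * g⁻¹, hY'H ⟨y, hy, rfl⟩⟩ : stab h b) * c⁻¹ ∈ P.subtype hPH := by
      rw [← hc]
      exact ⟨_, h1, rfl⟩
    have h3 : (c : G) * g * y * ((c : G) * g)⁻¹ = c * (g * y * g⁻¹) * (c : G)⁻¹ := by group
    rw [h3]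
    exact h2

example {m : G} (h : Glob G m) : One G m := h.toOne

end Grp

end CL.Dv2
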