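import Cfsg.Agent.Fgs.Dv2Defs
import Cfsg.Agent.Char.Values

/-!
# The trace inequality excluding `SL₂(p)`, `p ≥ 17`
-/

set_option autoImplicit false

open Module Polynomial

namespace CL.Dv2

universe u v

namespace Fer

variable {G : Type u} [Group G] [Finite G] {V : Type v} [AddCommGroup V] [Module ℚ V] {ρ : G →* Module.End ℚ V}
  {δ : ℕ}

omit [Finite G] in
theorem dim_le (h : Rk ρ δ) {p s : ℕ} {y w : G} (hp : p.Prime) (y1 : y ≠ 1) (yp : y ^ p = 1)
    (hw : w * y * w⁻¹ = y ^ s) (hs : ∀ j : ℕ, 0 < j → 2 * j < p - 1 → ¬ s ^ j ≡ 1 [MOD p]) :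
    (p - 1) * ((p - 1) / 2) ≤ finrank ℚ (alg ρ) := by
  have := h.fin
  have : Fact p.Prime := ⟨hp⟩
  have : Fact (Irreducible (cyclotomic p ℚ)) := ⟨cyclotomic.irreducible_rat hp.pos⟩
  let M : Submodule ℚ (End ℚ V) :=
    (alg ρ).toSubmodule ⊓ LinearMap.ker (LinearMap.mulLeft ℚ (aeval (ρ y) (cyclotomic p ℚ)))
  have hL : ∀ a ∈ M, LinearMap.mulLeft ℚ (ρ y) a ∈ M := fun a ha => ⟨(alg ρ).mul_mem (mem_alg ρ y) ha.1, by
    have : aeval (ρ y) (cyclotomic p ℚ) * a = 0 := ha.2
    change aeval (ρ y) (cyclotomic p ℚ) * (ρ y * a) = 0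
    nth_rw 2 [← aeval_X (R := ℚ) (ρ y)]
    rw [← mul_assoc, ← map_mul, mul_comm, map_mul, mul_assoc, this, mul_zero]⟩
  have hR : ∀ a ∈ M, LinearMap.mulRight ℚ (ρ y) a ∈ M := fun a ha => ⟨(alg ρ).mul_mem ha.1 (mem_alg ρ y), by
    have : aeval (ρ y) (cyclotomic p ℚ) * a = 0 := ha.2
    change aeval (ρ y) (cyclotomic p ℚ) * (a * ρ y) = 0
    rw [← mul_assoc, this, zero_mul]⟩
  have k1 : ∀ (q : ℚ[X]) (a : M), (aeval ((LinearMap.mulLeft ℚ (ρ y)).restrict hL) q a : End ℚ V) =
      aeval (ρ y) q * a := fun q => by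
    induction q using Polynomial.induction_on with
    | C a => simp [Algebra.algebraMap_eq_smul_one]
    | add p q hp hq => simp [hp, hq, add_mul]
    | monomial n a ih =>
      intro b
      rw [pow_succ, ← mul_assoc, map_mul, map_mul (aeval (ρ y)), aeval_X, aeval_X, End.mul_apply, ih, mul_assoc]
      rfl
  let φ : AdjoinRoot (cyclotomic p ℚ) →ₐ[ℚ] End ℚ M :=
    Ideal.Quotient.liftₐ (Ideal.span {cyclotomic p ℚ}) (aeval ((LinearMap.mulLeft ℚ (ρ y)).restrict hL)) fun a ha => by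
      obtain ⟨b, rfl⟩ := Ideal.mem_span_singleton'.1 ha
      rw [map_mul, show aeval ((LinearMap.mulLeft ℚ (ρ y)).restrict hL) (cyclotomic p ℚ) = 0 from
        LinearMap.ext fun a => Subtype.ext ((k1 _ a).trans a.2.2), mul_zero]
  let _ : Module (AdjoinRoot (cyclotomic p ℚ)) M := Module.compHom M φ.toRingHom
  have k2 : ∀ (q : ℚ[X]) (a : M), ((AdjoinRoot.mk (cyclotomic p ℚ) q • a : M) : End ℚ V) = aeval (ρ y) q * a := k1
  have : IsScalarTower ℚ (AdjoinRoot (cyclotomic p ℚ)) M := ⟨fun q k a => by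
    change φ (q • k) a = q • φ k a
    rw [map_smul, LinearMap.smul_apply]⟩
  have : Module.Finite (AdjoinRoot (cyclotomic p ℚ)) M := Module.Finite.right ℚ _ _
  let c : End (AdjoinRoot (cyclotomic p ℚ)) M :=
    { toFun := (LinearMap.mulRight ℚ (ρ y)).restrict hR
      map_add' := map_add _
      map_smul' := fun k a => Subtype.ext (by
        obtain ⟨q, rfl⟩ := AdjoinRoot.mk_surjective k
        change ((AdjoinRoot.mk (cyclotomic p ℚ) q • a : M) : End ℚ V) * ρ y = _
        rw [k2, RingHom.id_apply, k2, mul_assoc]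
        rfl) }
  have k3 : ∀ j : ℕ, w ^ j * y = y ^ s ^ j * w ^ j := fun j => by
    induction j with
    | zero => simp
    | succ j ih =>
      rw [pow_succ', mul_assoc, ih, pow_succ' s, pow_mul, ← hw, conj_pow]
      group
  have k4 : ∀ j : ℕ, (ρ y - 1) * ρ (w ^ j) ∈ M := fun j =>
    ⟨(alg ρ).mul_mem (sub_mem (mem_alg ρ y) (one_mem _)) (mem_alg ρ _), by
      change aeval (ρ y) (cyclotomic p ℚ) * ((ρ y - 1) * ρ (w ^ j)) = 0
      have := congrArg (aeval (ρ y)) (cyclotomic_prime_mul_X_sub_one ℚ p)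
      rw [map_mul, map_sub, map_sub, map_pow, aeval_X, map_one, ← map_pow, yp, map_one, sub_self] at this
      rw [← mul_assoc, this, zero_mul]⟩
  have : CharZero (AdjoinRoot (cyclotomic p ℚ)) := algebraRat.charZero _
  have : NeZero (p : AdjoinRoot (cyclotomic p ℚ)) := ⟨Nat.cast_ne_zero.2 hp.ne_zero⟩
  have k5 : IsPrimitiveRoot (AdjoinRoot.root (cyclotomic p ℚ)) p := isRoot_cyclotomic_iff.1
    (map_cyclotomic p (AdjoinRoot.of (cyclotomic p ℚ)) ▸ AdjoinRoot.isRoot_root (cyclotomic p ℚ))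
  have k6 : p.Coprime s := hp.coprime_iff_not_dvd.2 fun ⟨t, ht⟩ => y1 (by
    rw [ht, pow_mul, yp, one_pow] at hw
    exact conj_eq_one_iff.1 hw)
  have k7 := End.eigenvectors_linearIndependent' c
    (fun j : Fin ((p - 1) / 2) => AdjoinRoot.root (cyclotomic p ℚ) ^ s ^ (j : ℕ)) (fun i j e => by
      have key : ∀ i j : Fin ((p - 1) / 2), i < j → ¬ s ^ (i : ℕ) ≡ s ^ (j : ℕ) [MOD p] := fun i j hij e => by
        have h1 : (i : ℕ) < j := hij
        have h2 := j.2
        refine hs (j - i) (by omega) (by omega) (Nat.ModEq.cancel_left_of_coprime (k6.pow_right i) ?_)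
        rw [← pow_add, mul_one, Nat.add_sub_cancel' h1.le]
        exact e.symm
      simp only [(k5.isOfFinOrder hp.ne_zero).pow_eq_pow_iff_modEq, ← k5.eq_orderOf] at e
      exact (lt_trichotomy i j).elim (fun k => absurd e (key i j k)) fun k => k.elim id
        fun k => absurd e.symm (key j i k))
    (fun j => ⟨_, k4 j⟩) fun j => ⟨End.mem_eigenspace_iff.2 (Subtype.ext (by
      rw [AdjoinRoot.root, ← map_pow, k2, map_pow (aeval (ρ y)), aeval_X]
      change (ρ y - 1) * ρ (w ^ (j : ℕ)) * ρ y = ρ y ^ s ^ (j : ℕ) * ((ρ y - 1) * ρ (w ^ (j : ℕ)))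
      rw [mul_assoc, ← map_mul, k3, map_mul, map_pow ρ y, ← mul_assoc, ← mul_assoc,
        (((Commute.refl (ρ y)).sub_left (Commute.one_left _)).pow_right _).eq])), fun e => y1 (h.inj (by
      have e1 := congrArg (fun a : M => (a : End ℚ V) * ρ (w ^ (j : ℕ))⁻¹) e
      simp only [mul_assoc, ← map_mul, mul_inv_cancel, map_one, mul_one, ZeroMemClass.coe_zero, zero_mul] at e1
      rw [map_one, ← sub_eq_zero, e1]))⟩
  have k8 := k7.fintype_card_le_finrank
  have k9 := Module.finrank_mul_finrank ℚ (AdjoinRoot (cyclotomic p ℚ)) M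
  rw [(AdjoinRoot.powerBasis (cyclotomic_ne_zero p ℚ)).finrank, AdjoinRoot.powerBasis_dim, natDegree_cyclotomic,
    Nat.totient_prime hp] at k9
  rw [Fintype.card_fin] at k8
  exact (Nat.mul_le_mul_left _ k8).trans (k9.le.trans (Submodule.finrank_mono (inf_le_left : M ≤ _)))

theorem tr_inv (h : Rk ρ δ) (g : G) : LinearMap.trace ℚ V (ρ g⁻¹) = LinearMap.trace ℚ V (ρ g) := by
  have := h.fin
  have h1 := CL.Char.char_inv ((End.baseChangeHom ℚ ℂ V).toRingHom.toMonoidHom.comp ρ) g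
  change LinearMap.trace ℂ _ ((ρ g⁻¹).baseChange ℂ) = starRingEnd ℂ (LinearMap.trace ℂ _ ((ρ g).baseChange ℂ)) at h1
  rw [LinearMap.trace_baseChange, LinearMap.trace_baseChange] at h1
  simpa using h1

theorem sum_sq [Fintype G] (h : Irr ρ δ) : ∑ g, LinearMap.trace ℚ V (ρ g) ^ 2 = Nat.card G * δ := by
  have := h.fin
  have h0 : (Nat.card G : ℚ) ≠ 0 := Nat.cast_ne_zero.2 Nat.card_pos.ne'
  have := invertibleOfNonzero h0
  have h1 := Representation.card_inv_mul_sum_char_eq_finrank (Representation.linHom ρ ρ)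
  have h2 : Representation.invariants (Representation.linHom ρ ρ) =
      (Subalgebra.centralizer ℚ (Set.range ρ)).toSubmodule := by
    ext a
    simp only [Representation.mem_invariants, Subalgebra.mem_toSubmodule, Subalgebra.mem_centralizer_iff,
      Set.forall_mem_range]
    refine forall_congr' fun g => ?_
    change ρ g * (a * ρ g⁻¹) = a ↔ _
    refine ⟨fun e => ?_, fun e => ?_⟩
    · conv_rhs => rw [← e, mul_assoc, mul_assoc, ← map_mul, inv_mul_cancel, map_one, mul_one]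
    · rw [← mul_assoc, e, mul_assoc, ← map_mul, mul_inv_cancel, map_one, mul_one]
  rw [h2, Subalgebra.finrank_toSubmodule, h.cen, inv_mul_eq_iff_eq_mul₀ h0] at h1
  rw [← h1]
  refine Finset.sum_congr rfl fun g _ => ?_
  rw [Representation.char_linHom, sq]
  exact congrArg (· * _) (tr_inv h.toRk g).symm

theorem classes (h : Irr ρ δ) {r c : ℕ} (x : Fin r → G) (hx : Function.Injective fun i => orderOf (x i))
    (hc : ∀ i, Nat.card (Subgroup.centralizer ({x i} : Set G)) ≤ c) {t : ℚ}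
    (ht : ∀ i, t ≤ LinearMap.trace ℚ V (ρ (x i)) ^ 2) : r * t ≤ c * δ := by
  classical
  have := h.fin
  have := Fintype.ofFinite G
  have h0 : (0 : ℚ) < Nat.card G := Nat.cast_pos.2 Nat.card_pos
  refine le_of_mul_le_mul_left ?_ h0
  calc _ = ∑ _a : Fin r × G, t := by simp; ring
    _ ≤ ∑ a : Fin r × G, LinearMap.trace ℚ V (ρ (a.2 * x a.1 * a.2⁻¹)) ^ 2 := Finset.sum_le_sum fun a _ => by
      rw [show LinearMap.trace ℚ V (ρ (a.2 * x a.1 * a.2⁻¹)) = _ from Representation.char_conj ρ (x a.1) a.2]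
      exact ht a.1
    _ = ∑ g : G, (Finset.univ.filter fun a : Fin r × G => a.2 * x a.1 * a.2⁻¹ = g).card •
        LinearMap.trace ℚ V (ρ g) ^ 2 := by
      rw [← Finset.sum_fiberwise Finset.univ fun a : Fin r × G => a.2 * x a.1 * a.2⁻¹]
      refine Finset.sum_congr rfl fun g _ => ?_
      rw [Finset.sum_congr rfl fun a ha => by rw [(Finset.mem_filter.1 ha).2], Finset.sum_const]
    _ ≤ ∑ g : G, c * LinearMap.trace ℚ V (ρ g) ^ 2 := Finset.sum_le_sum fun g _ => by
      rw [nsmul_eq_mul]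
      refine mul_le_mul_of_nonneg_right (Nat.cast_le.2 ?_) (sq_nonneg _)
      rcases (Finset.univ.filter fun a : Fin r × G => a.2 * x a.1 * a.2⁻¹ = g).eq_empty_or_nonempty with e | ⟨b, hb⟩
      · simp [e]
      have hb' := (Finset.mem_filter.1 hb).2
      have key : ∀ a : (Finset.univ.filter fun a : Fin r × G => a.2 * x a.1 * a.2⁻¹ = g), a.1.1 = b.1 := fun a =>
        hx (by
          have := congrArg orderOf ((Finset.mem_filter.1 a.2).2.trans hb'.symm)
          rwa [show orderOf (a.1.2 * x a.1.1 * a.1.2⁻¹) = _ from (MulAut.conj a.1.2).orderOf_eq (x a.1.1),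
            show orderOf (b.2 * x b.1 * b.2⁻¹) = _ from (MulAut.conj b.2).orderOf_eq (x b.1)] at this)
      rw [← Nat.card_eq_finsetCard]
      refine (Nat.card_le_card_of_injective (fun a => (⟨b.2⁻¹ * a.1.2, Subgroup.mem_centralizer_singleton_iff.2 (by
        have := (Finset.mem_filter.1 a.2).2.trans hb'.symm
        rw [key a, mul_inv_eq_iff_eq_mul] at this
        rw [mul_assoc, this]; group)⟩ : Subgroup.centralizer ({x b.1} : Set G))) fun a a' e => ?_).trans (hc b.1)
      exact Subtype.ext (Prod.ext ((key a).trans (key a').symm) (mul_left_cancel (congrArg Subtype.val e)))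
    _ = _ := by rw [← Finset.mul_sum, sum_sq h]; ring

omit [Finite G] in
theorem avg (h : Rk ρ δ) {g : G} {r : ℕ} (hr : r ≠ 0) (h1 : g ≠ 1) (h2 : g ^ r = 1) :
    ∑ i ∈ Finset.range r, LinearMap.trace ℚ V (ρ (g ^ i)) = 0 ∨
      (∑ i ∈ Finset.range r, LinearMap.trace ℚ V (ρ (g ^ i)) = r * δ ∧ finrank ℚ V = 2 * δ) := by
  have o2 : (r : ℚ) ≠ 0 := Nat.cast_ne_zero.2 hr
  have n1 := mul_geom_sum (ρ g) r
  rw [← map_pow, h2, map_one, sub_self, sub_mul, one_mul, sub_eq_zero] at n1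
  have n3 : (∑ i ∈ Finset.range r, ρ g ^ i) * (∑ i ∈ Finset.range r, ρ g ^ i) =
      (r : ℚ) • ∑ i ∈ Finset.range r, ρ g ^ i := by
    have : ∀ i : ℕ, ρ g ^ i * (∑ i ∈ Finset.range r, ρ g ^ i) = ∑ i ∈ Finset.range r, ρ g ^ i := fun i => by
      induction i with
      | zero => simp
      | succ i ih => rw [pow_succ, mul_assoc, n1, ih]
    simp only [Finset.sum_mul, this, Finset.sum_const, Finset.card_range, Nat.cast_smul_eq_nsmul]
  have na : ∑ i ∈ Finset.range r, ρ g ^ i ∈ alg ρ := sum_mem fun i _ => pow_mem (mem_alg ρ g) i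
  simp only [map_pow, ← map_sum]
  generalize ∑ i ∈ Finset.range r, ρ g ^ i = N at n1 n3 na
  by_cases n0 : N = 0
  · exact Or.inl (by rw [n0, map_zero])
  obtain ⟨k1, k2⟩ := h.idem (Subalgebra.smul_mem _ na (r : ℚ)⁻¹)
    (by rw [smul_mul_smul_comm, n3, smul_smul, mul_assoc, inv_mul_cancel₀ o2, mul_one])
    (smul_ne_zero (inv_ne_zero o2) n0) fun k => h1 (h.inj (by rw [← mul_one (ρ g), ← k, mul_smul_comm, n1, k, map_one]))
  rw [map_smul, smul_eq_mul, inv_mul_eq_iff_eq_mul₀ o2] at k1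
  exact Or.inr ⟨k1, k2⟩

end Fer

open Fer in
theorem noFermat {G : Type u} [Group G] [Finite G] {V : Type v} [AddCommGroup V] [Module ℚ V]
    {ρ : G →* Module.End ℚ V} {δ : ℕ} (h : Irr ρ δ) {m : G} (hm : ρ m = -1) : NoFermat G := by
  intro p y w x s hp h17 y1 yp hw hs ox hc hz
  have := h.fin
  have := h.nontriv
  have hA := (Nat.mul_le_mul_right δ (dim_le h.toRk hp y1 yp hw hs)).trans h.dimA
  obtain ⟨N, rfl⟩ := hp.odd_of_ne_two (by omega)
  rw [Nat.add_sub_cancel, Nat.mul_div_cancel_left _ two_pos] at hA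
  replace hA : (2 * N * N * δ : ℚ) ≤ (finrank ℚ V : ℚ) ^ 2 := by exact_mod_cast hA
  have d0 : (0 : ℚ) < δ := Nat.cast_pos.2 h.pos
  have mc : ∀ g, Commute g m := fun g => h.inj (by simp [hm])
  have om : orderOf m = 2 := orderOf_eq_prime (h.inj (by simp [hm])) fun e => by
    obtain ⟨v, hv⟩ := exists_ne (0 : V)
    rw [e, map_one] at hm
    have := LinearMap.congr_fun hm v
    exact hv (smul_right_injective V (two_ne_zero (α := ℚ)) (by simpa [two_smul, eq_neg_iff_add_eq_zero] using this))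
  have tm : ∀ g, LinearMap.trace ℚ V (ρ (g * m)) ^ 2 = LinearMap.trace ℚ V (ρ g) ^ 2 := fun g => by simp [hm]
  have omul : ∀ g : G, Odd (orderOf g) → orderOf (g * m) = orderOf g * 2 := fun g hg => by
    rw [(mc g).orderOf_mul_eq_mul_orderOf_of_coprime (om ▸ Nat.coprime_two_right.2 hg), om]
  have cm : ∀ g : G, Subgroup.centralizer ({g * m} : Set G) ≤ Subgroup.centralizer ({g} : Set G) := fun g a ha => by
    rw [Subgroup.mem_centralizer_singleton_iff] at ha ⊢
    rwa [← mul_assoc, mul_assoc g, ← (mc a).eq, ← mul_assoc, mul_left_inj] at ha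
  have x3 : x ^ 3 = 1 := ox ▸ pow_orderOf_eq_one x
  have x1 : x ≠ 1 := fun e => by simp [e] at ox
  have two : ∀ t, t ≤ LinearMap.trace ℚ V (ρ x) ^ 2 → 2 * t ≤ (2 * N + 2) * (δ : ℚ) := fun t ht => by
    have := classes h ![x, x * m] (c := 2 * N + 1 + 1) (t := t) (by
      rw [show (fun i => orderOf (![x, x * m] i)) = ![3, 6] from funext fun i => by
        fin_cases i <;> simp [omul x (by rw [ox]; decide), ox]]
      decide) (fun i => by
      fin_cases i
      exacts [hc, (Subgroup.card_le_of_le (cm x)).trans hc]) fun i => by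
      fin_cases i
      exacts [ht, ht.trans_eq (tm x).symm]
    push_cast at this
    linarith
  have a3 := avg h.toRk (r := 3) (by norm_num) x1 x3
  simp only [Finset.sum_range_succ, Finset.sum_range_zero, pow_zero, map_one, LinearMap.trace_one, pow_one] at a3
  rw [show x ^ 2 = x⁻¹ from eq_inv_of_mul_eq_one_left (by rw [← pow_succ, x3]), tr_inv h.toRk] at a3
  have hN : (8 : ℚ) ≤ N := by exact_mod_cast (by omega : 8 ≤ N)
  rcases a3 with a3 | ⟨a3, n2⟩
  · have := two ((finrank ℚ V : ℚ) ^ 2 / 4) (by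
      rw [show (finrank ℚ V : ℚ) = -2 * LinearMap.trace ℚ V (ρ x) by linear_combination a3]; nlinarith)
    have : N * N ≤ (2 * N + 2 : ℚ) := le_of_mul_le_mul_right (by linarith) d0
    nlinarith
  replace n2 : (finrank ℚ V : ℚ) = 2 * δ := by exact_mod_cast n2
  have tx : LinearMap.trace ℚ V (ρ x) = δ / 2 := by push_cast at a3; linarith
  obtain rfl : N = 8 := by
    have := two ((finrank ℚ V : ℚ) ^ 2 / 16) (by rw [tx, n2]; nlinarith)
    have : N * N ≤ (8 * N + 8 : ℚ) := le_of_mul_le_mul_right (by linarith) d0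
    have : N * N ≤ 8 * N + 8 := by exact_mod_cast this
    by_contra e
    nlinarith [show 9 ≤ N by omega]
  obtain ⟨z, rfl⟩ := hz rfl
  have z9 : z ^ 9 = 1 := by rw [← pow_mul] at x3; exact x3
  have four : ∀ u : G, u ^ 3 = z ^ 3 → (δ / 2 : ℚ) ^ 2 ≤ LinearMap.trace ℚ V (ρ u) ^ 2 → False := fun u hu ht => by
    have ou : orderOf u = 9 := orderOf_eq_prime_pow (p := 3) (n := 1) (by rwa [pow_one, hu]) (by
      rw [show 3 ^ (1 + 1) = 3 * 3 by norm_num, pow_mul, hu, x3])
    have cu : Subgroup.centralizer ({u} : Set G) ≤ Subgroup.centralizer ({z ^ 3} : Set G) := fun a ha => by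
      rw [Subgroup.mem_centralizer_singleton_iff] at ha ⊢
      exact hu ▸ ((show Commute a u from ha).pow_right 3).eq
    have := classes h ![z ^ 3, z ^ 3 * m, u, u * m] (c := 2 * 8 + 1 + 1) (t := (δ / 2 : ℚ) ^ 2) (by
      rw [show (fun i => orderOf (![z ^ 3, z ^ 3 * m, u, u * m] i)) = ![3, 6, 9, 18] from funext fun i => by
        fin_cases i <;> simp [omul _ (show Odd (orderOf (z ^ 3)) by rw [ox]; decide),
          omul u (by rw [ou]; decide), ox, ou]]
      decide) (fun i => by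
      fin_cases i
      exacts [hc, (Subgroup.card_le_of_le (cm _)).trans hc, (Subgroup.card_le_of_le cu).trans hc,
        (Subgroup.card_le_of_le ((cm u).trans cu)).trans hc]) fun i => by
      fin_cases i
      exacts [(congrArg (· ^ 2) tx).ge, (congrArg (· ^ 2) tx).ge.trans_eq (tm _).symm, ht, ht.trans_eq (tm _).symm]
    push_cast at this hA
    rw [n2] at hA
    nlinarith
  have a9 := avg h.toRk (r := 9) (by norm_num) (fun e => x1 (by rw [e, one_pow])) z9
  simp only [Finset.sum_range_succ, Finset.sum_range_zero, pow_zero, map_one, LinearMap.trace_one, pow_one] at a9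
  rw [show z ^ 2 = (z ^ 7)⁻¹ from eq_inv_of_mul_eq_one_left (by rw [← pow_add, z9]),
    show z ^ 5 = (z ^ 4)⁻¹ from eq_inv_of_mul_eq_one_left (by rw [← pow_add, z9]),
    show z ^ 6 = (z ^ 3)⁻¹ from eq_inv_of_mul_eq_one_left (by rw [← pow_add, z9]),
    show z ^ 8 = z⁻¹ from eq_inv_of_mul_eq_one_left (by rw [← pow_succ, z9])] at a9
  simp only [tr_inv h.toRk, tx, n2] at a9
  have f1 := mt (four z rfl) id
  have f4 := mt (four (z ^ 4) (by rw [← pow_mul, show 4 * 3 = 9 + 3 by norm_num, pow_add, z9, one_mul])) id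
  have f7 := mt (four (z ^ 7) (by
    rw [← pow_mul, show 7 * 3 = 9 + (9 + 3) by norm_num, pow_add, pow_add, z9, one_mul, one_mul])) id
  rw [not_le] at f1 f4 f7
  have g1 := abs_lt_of_sq_lt_sq' f1 (by positivity)
  have g4 := abs_lt_of_sq_lt_sq' f4 (by positivity)
  have g7 := abs_lt_of_sq_lt_sq' f7 (by positivity)
  push_cast at a9
  rcases a9 with a9 | ⟨a9, -⟩ <;> linarith [g1.1, g1.2, g4.1, g4.2, g7.1, g7.2]

end CL.Dv2
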