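import Cfsg.Agent.Fgs.Dv2Defs
import Cfsg.Agent.Transfer.Control

/-!
# Finite subgroups of `GL₂(D)`: cliques of five anticommuting reflections
-/

set_option autoImplicit false
set_option linter.unusedSectionVars false

namespace CL.Dv2

namespace Iii

open Subgroup Equiv

universe u

variable {G : Type u} [Group G] {m : G}

/-- The subgroup generated by the sign. -/
def Zm (_ : One G m) : Subgroup G := zpowers m

instance (o : One G m) : (Zm o).Normal := ⟨fun x hx g => by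
  obtain ⟨i, rfl⟩ := mem_zpowers_iff.1 hx
  rwa [((show Commute g m from o.cen g).zpow_right i).eq, mul_inv_cancel_right]⟩

/-- The quotient map modulo the sign. -/
def qm (o : One G m) : G →* G ⧸ Zm o := QuotientGroup.mk' _

theorem mem_Zm (o : One G m) {x : G} : x ∈ Zm o ↔ x = 1 ∨ x = m := by
  refine ⟨fun ⟨i, e⟩ => ?_, fun e => e.elim (fun e => e ▸ one_mem _) fun e => e ▸ mem_zpowers _⟩
  have h2 : ∀ j : ℤ, m ^ (2 * j) = 1 := fun j => by rw [zpow_mul, zpow_two, o.sq, one_zpow]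
  obtain ⟨j, rfl | rfl⟩ := Int.even_or_odd' i
  · exact .inl (e.symm.trans (h2 j))
  · exact .inr (e.symm.trans (show m ^ (2 * j + 1) = m by rw [zpow_add_one, h2, one_mul]))

theorem pm_iff (o : One G m) {a b : G} : Pm m a b ↔ qm o a = qm o b := by
  rw [eq_comm, qm, QuotientGroup.mk'_apply, QuotientGroup.mk'_apply, QuotientGroup.eq, mem_Zm, inv_mul_eq_one,
    inv_mul_eq_iff_eq_mul, eq_comm, Pm]

theorem qm_m (o : One G m) : qm o m = 1 := (QuotientGroup.eq_one_iff _).2 (mem_zpowers m)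

theorem pm_comm (o : One G m) {a b c : G} (h : Pm m a b) (e : b * c = c * b) : a * c = c * a := by
  rcases h with rfl | rfl
  · exact e
  · rw [mul_assoc, ← o.cen, ← mul_assoc, e, mul_assoc]

theorem pm_anti (o : One G m) {a b c : G} (h : Pm m a b) (e : c * b = b * c * m) : c * a = a * c * m := by
  rcases h with rfl | rfl
  · exact e
  · rw [← mul_assoc, e, mul_assoc b m, ← o.cen, mul_assoc b]

/-- Five pairwise anticommuting involutions. -/
structure Cq (m : G) (s : Fin 5 → G) : Prop where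
  sq : ∀ i, s i * s i = 1
  an : ∀ i j, i ≠ j → s i * s j = s j * s i * m

/-- The permutation `σ` is induced by conjugation. -/
def In (m : G) (s : Fin 5 → G) (σ : Perm (Fin 5)) : Prop := ∃ g, ∀ i, Pm m (g * s i * g⁻¹) (s (σ i))

theorem In.mul (o : One G m) {s : Fin 5 → G} {σ τ : Perm (Fin 5)} (h : In m s σ) (h' : In m s τ) : In m s (σ * τ) := by
  obtain ⟨g, hg⟩ := h
  obtain ⟨k, hk⟩ := h'
  exact ⟨g * k, fun i => by simpa [mul_assoc] using ((hk i).conj o g).trans o (hg (τ i))⟩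

theorem In.inv (o : One G m) {s : Fin 5 → G} {σ : Perm (Fin 5)} (h : In m s σ) : In m s σ⁻¹ := by
  obtain ⟨g, hg⟩ := h
  exact ⟨g⁻¹, fun i => by simpa [mul_assoc] using ((hg (σ⁻¹ i)).conj o g⁻¹).symm o⟩

theorem In.back (o : One G m) {s : Fin 5 → G} {σ π : Perm (Fin 5)} {c : G} (h : In m (fun i => c * s (π i) * c⁻¹) σ) :
    In m s (π * σ * π⁻¹) := by
  obtain ⟨g, hg⟩ := h
  exact ⟨c⁻¹ * g * c, fun i => by simpa [mul_assoc] using (hg (π⁻¹ i)).conj o c⁻¹⟩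

namespace Cq

variable {s : Fin 5 → G} (h : Cq m s) (o : One G m)
include h o

omit o in
theorem perm (π : Perm (Fin 5)) : Cq m fun i => s (π i) := ⟨fun _ => h.sq _, fun _ _ e => h.an _ _ (π.injective.ne e)⟩

theorem conj (c : G) : Cq m fun i => c * s i * c⁻¹ :=
  ⟨fun i => by rw [conj_mul, h.sq, mul_one, mul_inv_cancel], fun i j e => by
    rw [conj_mul, conj_mul, h.an i j e, mul_assoc _ c⁻¹ m, o.cen c⁻¹]; simp only [mul_assoc]⟩

theorem ncomm {i j : Fin 5} (e : s i * s j = s j * s i) : i = j :=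
  by_contra fun e1 => o.ne_mul _ (e.symm.trans (h.an i j e1))

theorem rf (i : Fin 5) : Rf m (s i) := by
  obtain ⟨j, hj⟩ := exists_ne i
  exact ⟨h.sq i, fun e => hj (h.ncomm o (by rw [e, mul_one, one_mul])), fun e => hj (h.ncomm o (by rw [e, o.cen]))⟩

theorem uniq {i j : Fin 5} (e : Pm m (s i) (s j)) : i = j := h.ncomm o (pm_comm o e rfl)

theorem qc (i j : Fin 5) : qm o (s i) * qm o (s j) = qm o (s j) * qm o (s i) := by
  by_cases e : i = j
  · rw [e]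
  · rw [← map_mul, h.an i j e, map_mul, map_mul, qm_m, mul_one]

theorem qs (i : Fin 5) : qm o (s i) * qm o (s i) = 1 := by rw [← map_mul, h.sq, map_one]

theorem qc' (i j : Fin 5) (z : G ⧸ Zm o) : qm o (s i) * (qm o (s j) * z) = qm o (s j) * (qm o (s i) * z) := by
  rw [← mul_assoc, h.qc o, mul_assoc]

theorem qs' (i : Fin 5) (z : G ⧸ Zm o) : qm o (s i) * (qm o (s i) * z) = z := by rw [← mul_assoc, h.qs o, one_mul]

theorem qi (i : Fin 5) : (qm o (s i))⁻¹ = qm o (s i) := inv_eq_of_mul_eq_one_right (h.qs o i)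

theorem rules : (∀ i j z, j < i → s i * (s j * z) = m * (s j * (s i * z))) ∧ (∀ i j, j < i → s i * s j = m * (s j * s i)) ∧
    (∀ i z, s i * (s i * z) = z) ∧ (∀ i, s i * s i = 1) ∧ (∀ i z, s i * (m * z) = m * (s i * z)) ∧
    (∀ i, s i * m = m * s i) ∧ (∀ z, m * (m * z) = z) ∧ m * m = 1 :=
  ⟨fun i j z e => by rw [← mul_assoc, h.an i j e.ne', o.cen]; simp only [mul_assoc],
    fun i j e => by rw [h.an i j e.ne', o.cen], fun i z => by rw [← mul_assoc, h.sq, one_mul], h.sq,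
    fun i z => by rw [← mul_assoc, o.cen, mul_assoc], fun _ => o.cen _, fun z => by rw [← mul_assoc, o.sq, one_mul], o.sq⟩

theorem four : Pm m (s 1 * s 2 * (s 3 * s 4)) (s 0) := by
  obtain ⟨r1, r2, r3, r4, r5, r6, r7, r8⟩ := h.rules o
  have h1 : s 1 * (s 1 * s 2 * (s 3 * s 4)) = s 1 * s 2 * (s 3 * s 4) * s 1 * m := by simp [mul_assoc, *]
  refine o.r1 _ _ ⟨by simp [mul_assoc, *], fun e => ?_, fun e => ?_⟩ (h.rf o 0) (by simp [mul_assoc, *])
  · rw [e, mul_one, one_mul] at h1; exact o.ne_mul _ h1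
  · rw [e, o.cen] at h1; exact o.ne_mul _ h1

theorem mk_in {g : G} {φ : Fin 5 → Fin 5} (e : ∀ i, Pm m (g * s i * g⁻¹) (s (φ i))) :
    ∃ σ : Perm (Fin 5), (∀ i, σ i = φ i) ∧ In m s σ :=
  ⟨Equiv.ofBijective φ (Finite.injective_iff_bijective.1 fun i j e1 =>
    (h.conj o g).uniq o ((e i).trans o (e1 ▸ (e j).symm o))), fun _ => rfl, g, e⟩

end Cq

/-- The abelian subgroup `⟨α, t⟩`. -/
def T0 (α t : G) : Subgroup G := zpowers α ⊔ zpowers t

/-- The setting. -/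
structure St (m : G) (P : Sylow 2 G) (t u α γ : G) (k : ℕ) (β a : G) : Prop extends Cfg m P t u α γ k where
  gl : Glob G m
  aT : a ∈ T0 α t
  aa : a * a = β
  ββ : β * β = m

/-- A labelled clique in `P`. -/
structure Lab (m : G) (P : Sylow 2 G) (t α γ β : G) (s : Fin 5 → G) : Prop extends Cq m s where
  mem : ∀ i, s i ∈ P
  s0 : Pm m (s 0) t
  s12 : Pm m (s 1 * s 2) β
  s34 : Pm m (s 3 * s 4) (β * t)
  s13 : γ⁻¹ * (s 1 * s 3) ∈ T0 α t

namespace St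

variable [Finite G] {P : Sylow 2 G} {t u α γ β a : G} {k : ℕ} (h : St m P t u α γ k β a)
include h

theorem o : One G m := h.gl.toOne

theorem T0_le {H : Subgroup G} (h1 : α ∈ H) (h2 : t ∈ H) : T0 α t ≤ H := sup_le (zpowers_le.2 h1) (zpowers_le.2 h2)

theorem tT : t ∈ T0 α t := mem_sup_right (mem_zpowers t)
theorem αT : α ∈ T0 α t := mem_sup_left (mem_zpowers α)
theorem βT : β ∈ T0 α t := h.aa ▸ mul_mem h.aT h.aT
theorem mT : m ∈ T0 α t := h.ββ ▸ mul_mem h.βT h.βT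
theorem TP {w : G} (hw : w ∈ T0 α t) : w ∈ P := h.T0_le (H := P) h.α_mem h.t_mem hw

theorem comm {v w : G} (hv : v ∈ T0 α t) (hw : w ∈ T0 α t) : v * w = w * v :=
  have h1 : ∀ {x}, x * α = α * x → x * t = t * x → x ∈ centralizer (T0 α t : Set G) := fun e1 e2 _ hy =>
    mem_centralizer_singleton_iff.1 (h.T0_le (mem_centralizer_singleton_iff.2 e1.symm)
      (mem_centralizer_singleton_iff.2 e2.symm) hy)
  h.T0_le (h1 rfl h.αt) (h1 h.αt.symm rfl) hw v hv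

theorem γinv {w : G} (hw : w ∈ T0 α t) : γ * w * γ⁻¹ = w⁻¹ := by
  rw [T0, zpowers_eq_closure, zpowers_eq_closure, ← Subgroup.closure_union] at hw
  induction hw using closure_induction with
  | mem x hx =>
    rcases hx with rfl | rfl
    · exact h.γα
    · rw [h.γt, mul_inv_cancel_right, h.rt.inv]
  | one => simp
  | mul x y hx hy e1 e2 =>
    rw [Subgroup.closure_union, ← zpowers_eq_closure, ← zpowers_eq_closure] at hx hy
    rw [← conj_mul, e1, e2, ← mul_inv_rev, h.comm hx hy]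
  | inv x _ e => rw [← conj_inv, e]

theorem nf' {y : G} (hy : y ∈ P) (e : y * t = t * y) : y ∈ T0 α t ∨ γ⁻¹ * y ∈ T0 α t := by
  have := fun i : ℤ => zpow_mem h.αT i
  obtain ⟨i, rfl | rfl | rfl | rfl⟩ := h.nf y hy e
  exacts [.inl (this i), .inl (mul_mem (this i) h.tT), .inr (by simpa using this i),
    .inr (by simpa [mul_assoc] using mul_mem (this i) h.tT)]

theorem g_inv {y w : G} (hy : γ⁻¹ * y ∈ T0 α t) (hw : w ∈ T0 α t) : y * w * y⁻¹ = w⁻¹ := by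
  calc _ = γ * (γ⁻¹ * y * w * (γ⁻¹ * y)⁻¹) * γ⁻¹ := by group
    _ = _ := by rw [h.comm hy hw, mul_inv_cancel_right, h.γinv hw]

theorem g_sq {y : G} (hy : γ⁻¹ * y ∈ T0 α t) : y * y = m := by
  calc _ = γ * (γ⁻¹ * y) * γ⁻¹ * (γ * γ) * (γ⁻¹ * y) := by group
    _ = _ := by rw [h.γinv hy, h.γγ, h.o.cen, inv_mul_cancel_right]

theorem g_mul {y y' : G} (hy : γ⁻¹ * y ∈ T0 α t) (hy' : γ⁻¹ * y' ∈ T0 α t) : y⁻¹ * y' ∈ T0 α t := by
  simpa [mul_assoc] using mul_mem (inv_mem hy) hy'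

theorem g_conj {y w : G} (hy : γ⁻¹ * y ∈ T0 α t) (hw : w ∈ T0 α t) : w * y * w⁻¹ = y * (w⁻¹ * w⁻¹) := by
  have h1 := h.g_inv hy (inv_mem hw)
  rw [inv_inv, mul_inv_eq_iff_eq_mul] at h1
  rw [← h1, mul_assoc]

theorem sq_eq {v w : G} (hv : v ∈ T0 α t) (hw : w ∈ T0 α t) (e : v * v = w * w) : Pm m v w ∨ Pm m v (w * t) := by
  have h1 : w⁻¹ * v ∈ T0 α t := mul_mem (inv_mem hw) hv
  have h2 : w⁻¹ * v * (w⁻¹ * v) = 1 := by
    rw [mul_assoc, ← mul_assoc v, h.comm hv (inv_mem hw), mul_assoc, e]; group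
  by_cases e1 : w⁻¹ * v = 1
  · exact .inl (.inl (inv_mul_eq_one.1 e1).symm)
  by_cases e2 : w⁻¹ * v = m
  · exact .inl (.inr (inv_mul_eq_iff_eq_mul.1 e2))
  simpa using Or.inr (b := Pm m (w * (w⁻¹ * v)) _) ((Pm.refl m w).mul h.o (h.o.r1 _ _ ⟨h2, e1, e2⟩ h.rt (h.comm h1 h.tT)))

theorem nsq {w : G} (e : Pm m (w * w) t) : False :=
  have := h.rt.of_pm h.o e
  (h.gl.r2 w this.sq).elim this.ne_one this.ne_m

theorem β_ne : β ≠ m := fun e => h.o.ne_one (h.ββ.symm.trans (by rw [e, h.o.sq]))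

theorem tq : qm h.o t ≠ 1 := fun e => h.nsq (w := 1) ((pm_iff h.o).2 (by simp [e]))

theorem anti {p : G} (hp : p ∈ P) (e : p * t ≠ t * p) : p * t = t * p * m := by
  rcases h.nrm p hp with e1 | e1
  · exact absurd (mul_inv_eq_iff_eq_mul.1 e1) e
  · rw [mul_inv_eq_iff_eq_mul.1 e1, mul_assoc, mul_assoc, h.o.cen]

theorem aa_t {p q : G} (e : p * t = t * p * m) (e' : q * t = t * q * m) : p * q * t = t * (p * q) := by
  rw [mul_assoc, e', ← mul_assoc, ← mul_assoc, e, mul_assoc _ m, ← h.o.cen, mul_assoc, mul_assoc q, h.o.sq, mul_one,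
    mul_assoc]

theorem conjT {p y : G} (hp : p ∈ P) (e : y * t = t * y) : p * y * p⁻¹ * t = t * (p * y * p⁻¹) := by
  have := pm_comm h.o (h.nrm p⁻¹ (inv_mem hp)) e.symm
  calc _ = p * (y * (p⁻¹ * t * p⁻¹⁻¹)) * p⁻¹ := by group
    _ = _ := by rw [← this]; group

theorem conj_a {p : G} (hp : p ∈ P) : p * a * p⁻¹ ∈ T0 α t :=
  (h.nf' (mul_mem (mul_mem hp (h.TP h.aT)) (inv_mem hp)) (h.conjT hp (h.comm h.aT h.tT))).resolve_right fun e =>
    h.β_ne (by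
      have := h.g_sq e
      rwa [conj_mul, h.aa, mul_inv_eq_iff_eq_mul, ← h.o.cen, mul_right_inj] at this)

theorem fixβ {p : G} (hp : p ∈ P) : Pm m (p * β * p⁻¹) β := by
  have h1 := h.conj_a hp
  have h2 : p * a * p⁻¹ * (p * a * p⁻¹) = p * β * p⁻¹ := by rw [conj_mul, h.aa]
  refine (h.sq_eq (h2 ▸ mul_mem h1 h1) h.βT (by rw [conj_mul, h.ββ, h.o.cen, mul_inv_cancel_right])).resolve_right
    fun e => h.nsq (w := a⁻¹ * (p * a * p⁻¹)) ?_
  rw [mul_assoc, ← mul_assoc (p * a * p⁻¹), h.comm h1 (inv_mem h.aT), mul_assoc, h2, ← mul_assoc, ← mul_inv_rev, h.aa]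
  simpa using (Pm.refl m β⁻¹).mul h.o e

theorem l0 {v y : G} (vv : v * v = 1) (vt : v * t = t * v * m) (e : Pm m (v * y * v⁻¹) (y * t)) : False := by
  have h1 : v * t * v⁻¹ = t * m := by rw [vt, mul_assoc t, h.o.cen, mul_assoc, mul_inv_cancel_right]
  have h2 : v * (v * y * v⁻¹) * v⁻¹ = y := by
    rw [show v * (v * y * v⁻¹) * v⁻¹ = v * v * y * (v * v)⁻¹ by group, vv]; simp
  refine h.o.ne_mul y (h2.symm.trans ?_)
  rcases e with e | e
  · rw [e, ← conj_mul, e, h1, mul_assoc, ← mul_assoc t, h.rt.sq, one_mul]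
  · rw [e, ← conj_mul, ← conj_mul, e, h1, h.o.cen v, mul_inv_cancel_right, mul_assoc, mul_assoc t, h.o.sq, mul_one,
      mul_assoc, ← h.o.cen, mul_assoc, ← mul_assoc t, h.rt.sq, one_mul]

theorem conj_t {x : G} (hx : Rf m x) : ∃ g, Pm m (g * x * g⁻¹) t := by
  by_contra! hc
  obtain ⟨N, -, h1, -⟩ := Transfer.thompson_transfer (P : Subgroup G) (centralizer {t} ⊓ P)
    (Transfer.odd_index_sylow_two P) (by
      rw [inf_relIndex_right]
      refine index_eq_two_iff_exists_notMem_and.2 ⟨⟨u, h.u_mem⟩, fun e => h.o.ne_mul _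
        ((mem_centralizer_singleton_iff.1 e).symm.trans h.ut), fun b => ?_⟩
      exact (em ((b : G) * t = t * b)).symm.imp (fun e => mem_centralizer_singleton_iff.2
        (h.aa_t (h.anti b.2 e) h.ut)) mem_centralizer_singleton_iff.2)
    x (by rw [sq, hx.sq]) fun g hg => hc g (h.o.r1 _ _ (hx.conj h.o g) h.rt (mem_centralizer_singleton_iff.1 hg.1))
  exact h.gl.idx N h1

theorem move {s : Fin 5 → G} (q : Cq m s) {e : Fin 5} {g : G} {σ : Perm (Fin 5)} (hg : IsPGroup 2 (zpowers g))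
    (hσ : ∀ i, Pm m (g * s i * g⁻¹) (s (σ i))) (he : σ e = e) :
    ∃ c, Pm m (c * s e * c⁻¹) t ∧ (∀ i, c * s i * c⁻¹ ∈ P) ∧ c * g * c⁻¹ ∈ P := by
  obtain ⟨x, hx⟩ := h.conj_t (q.rf h.o e)
  let R := closure (Set.range fun i => qm h.o (s i))
  have h1 : ∀ i, R ≤ centralizer {qm h.o (s i)} := fun i => (closure_le _).2 (by
    rintro _ ⟨j, rfl⟩; exact mem_centralizer_singleton_iff.2 (q.qc h.o j i))
  have h2 : R ≤ centralizer (R : Set _) := (closure_le _).2 (by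
    rintro _ ⟨j, rfl⟩ y hy; exact mem_centralizer_singleton_iff.1 (h1 j hy))
  have h3 : IsPGroup 2 R := fun ⟨y, hy⟩ => ⟨1, Subtype.ext (show y ^ 2 = 1 by
    induction hy using closure_induction with
    | mem _ hy => obtain ⟨i, rfl⟩ := hy; rw [sq, q.qs]
    | one => simp
    | mul y z hy hz e1 e2 => rw [(show Commute y z from h2 hz y hy).mul_pow, e1, e2, mul_one]
    | inv y _ e => rw [inv_pow, e, inv_one])⟩
  have h4 : zpowers (qm h.o g) ≤ normalizer (R : Set _) := zpowers_le.2 (mem_normalizer_fintype fun y hy =>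
    (closure_le (R.comap (MulAut.conj (qm h.o g)).toMonoidHom)).2 (by
      rintro _ ⟨j, rfl⟩
      exact subset_closure ⟨σ j, by simpa using ((pm_iff h.o).1 (hσ j)).symm⟩) hy)
  have h5 := (h3.to_sup_of_normal_left' (MonoidHom.map_zpowers (qm h.o) g ▸ hg.map _) h4).comap_of_ker_isPGroup (qm h.o)
    fun ⟨y, hy⟩ => ⟨1, Subtype.ext (show y ^ 2 = 1 by
      rcases (mem_Zm h.o).1 ((QuotientGroup.eq_one_iff _).1 hy) with rfl | rfl
      exacts [one_pow 2, (sq _).trans h.o.sq])⟩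
  obtain ⟨c, c1, c2⟩ := ext_conj h.o P h.nrm hx _ h5 fun y hy => (pm_iff h.o).2 (by
    have := mem_centralizer_singleton_iff.1 (sup_le (h1 e) (zpowers_le.2 (mem_centralizer_singleton_iff.2
      (mul_inv_eq_iff_eq_mul.1 (by simpa [he] using (pm_iff h.o).1 (hσ e))))) hy)
    rw [map_mul, map_mul, map_inv, this, mul_inv_cancel_right])
  exact ⟨c, c1, fun i => c2 _ (mem_sup_left (subset_closure ⟨i, rfl⟩)), c2 _ (mem_sup_right (mem_zpowers _))⟩

theorem pair_nf {s : Fin 5 → G} (q : Cq m s) (hP : ∀ i, s i ∈ P) (h0 : Pm m (s 0) t) {i j : Fin 5} (hi : i ≠ 0)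
    (hj : j ≠ 0) : s i * s j ∈ T0 α t ∨ γ⁻¹ * (s i * s j) ∈ T0 α t :=
  h.nf' (mul_mem (hP i) (hP j)) (h.aa_t (pm_anti h.o (h0.symm h.o) (q.an i 0 hi)) (pm_anti h.o (h0.symm h.o) (q.an j 0 hj)))

theorem label1 {s : Fin 5 → G} (q : Cq m s) (hP : ∀ i, s i ∈ P) (h0 : Pm m (s 0) t) (h1 : s 1 * s 2 ∈ T0 α t) :
    ∃ π : Perm (Fin 5), π 0 = 0 ∧ Lab m P t α γ β fun i => s (π i) := by
  obtain ⟨r1, r2, r3, r4, r5, r6, r7, r8⟩ := q.rules h.o
  have h2 : γ⁻¹ * (s 1 * s 3) ∈ T0 α t := (h.pair_nf q hP h0 (by decide) (by decide)).resolve_left fun e =>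
    h.o.ne_mul _ ((h.comm h1 e).symm.trans (by simp [mul_assoc, *]))
  have h3 := (pm_iff h.o).1 ((q.four h.o).trans h.o h0)
  have h4 : qm h.o t * qm h.o t = 1 := by rw [← map_mul, h.rt.sq, map_one]
  have h5 : qm h.o β * qm h.o β = 1 := by rw [← map_mul, h.ββ, qm_m]
  have h6 : qm h.o β * qm h.o t = qm h.o t * qm h.o β := by rw [← map_mul, h.comm h.βT h.tT, map_mul]
  rw [map_mul] at h3
  rcases h.sq_eq h1 h.βT (by simp [mul_assoc, h.ββ, *]) with e | e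
  · refine ⟨1, rfl, q, hP, h0, e, (pm_iff h.o).2 ?_, h2⟩
    rw [(pm_iff h.o).1 e] at h3
    rw [map_mul _ β, ← h3, ← mul_assoc, h5, one_mul]; rfl
  · refine ⟨swap 1 3 * swap 2 4, by decide, q.perm _, fun _ => hP _, h0, (pm_iff h.o).2 ?_, e, ?_⟩
    · rw [(pm_iff h.o).1 e, map_mul, ← eq_inv_mul_iff_mul_eq, mul_inv_rev, inv_eq_of_mul_eq_one_right h4,
        inv_eq_of_mul_eq_one_right h5, ← h6, mul_assoc, h4, mul_one] at h3
      exact h3
    · show γ⁻¹ * (s 3 * s 1) ∈ _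
      rw [q.an 3 1 (by decide), ← mul_assoc]
      exact mul_mem h2 h.mT

theorem label {s : Fin 5 → G} (q : Cq m s) (hP : ∀ i, s i ∈ P) {e : Fin 5} (h0 : Pm m (s e) t) :
    ∃ π : Perm (Fin 5), π 0 = e ∧ Lab m P t α γ β fun i => s (π i) := by
  have key : ∀ ρ : Perm (Fin 5), ρ 0 = e → s (ρ 1) * s (ρ 2) ∈ T0 α t →
      ∃ π : Perm (Fin 5), π 0 = e ∧ Lab m P t α γ β fun i => s (π i) := fun ρ e0 e1 => by
    obtain ⟨π, p1, p2⟩ := h.label1 (q.perm ρ) (fun _ => hP _) (e0 ▸ h0) e1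
    exact ⟨ρ * π, by rw [Perm.mul_apply, p1, e0], p2⟩
  have q' := q.perm (swap 0 e)
  have h1 : Pm m (s (swap 0 e 0)) t := by rwa [swap_apply_left]
  rcases h.pair_nf q' (fun _ => hP _) h1 (i := 1) (j := 2) (by decide) (by decide) with e1 | e1
  · exact key _ (swap_apply_left _ _) e1
  rcases h.pair_nf q' (fun _ => hP _) h1 (i := 1) (j := 3) (by decide) (by decide) with e2 | e2
  · exact key (swap 0 e * swap 2 3) (swap_apply_left 0 e) e2
  refine key (swap 0 e * (swap 1 2 * swap 2 3)) (swap_apply_left 0 e) ?_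
  show s (swap 0 e 2) * s (swap 0 e 3) ∈ _
  have := h.g_mul e1 e2
  rwa [mul_inv_rev, (q.rf h.o _).inv, (q.rf h.o _).inv, mul_assoc, ← mul_assoc (s _) (s _) (s _), q.sq, one_mul] at this

section
variable {s : Fin 5 → G} (l : Lab m P t α γ β s)
include l

theorem st {i : Fin 5} (hi : i ≠ 0) : s i * t = t * s i * m := pm_anti h.o (l.s0.symm h.o) (l.an i 0 hi)

theorem swap12 : In m s (swap 1 2) := by
  obtain ⟨r1, r2, r3, r4, r5, r6, r7, r8⟩ := l.toCq.rules h.o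
  have key : ∀ i, i ≠ 0 → s 1 * s 2 * s i = s i * (s 1 * s 2) → qm h.o a * qm h.o (s i) * (qm h.o a)⁻¹ = qm h.o (s i) :=
    fun i hi e => by
    have h1 := (h.sq_eq (h.conj_a (l.mem i)) h.aT (by
      rw [conj_mul, h.aa, ← pm_comm h.o (l.s12.symm h.o) e, mul_inv_cancel_right])).resolve_right
        (h.l0 (l.sq i) (h.st l hi))
    rw [pm_iff h.o, map_mul, map_mul, map_inv, mul_inv_eq_iff_eq_mul] at h1
    rw [← h1, mul_inv_cancel_right]
  have h3 := key 3 (by decide) (by simp [mul_assoc, *])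
  have h4 := key 4 (by decide) (by simp [mul_assoc, *])
  have hβ := (pm_iff h.o).1 l.s12
  have h5 := congrArg (qm h.o) (h.g_conj l.s13 h.aT)
  rw [← mul_inv_rev, h.aa, ← conj_mul] at h5
  simp only [map_mul, map_inv, h3] at h5 hβ
  have h1 : qm h.o a * qm h.o (s 1) * (qm h.o a)⁻¹ = qm h.o (s 2) := by
    rw [eq_mul_inv_of_mul_eq h5, ← hβ]
    simp only [mul_inv_rev, l.qi, mul_assoc, l.qs', l.qs, l.qc' h.o 3, l.qc h.o 3, l.qc' h.o 2 1, mul_one]
  have h2 : qm h.o a * qm h.o (s 2) * (qm h.o a)⁻¹ = qm h.o (s 1) := by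
    have h6 : qm h.o a * qm h.o β * (qm h.o a)⁻¹ = qm h.o β := by
      rw [← map_mul, h.comm h.aT h.βT, map_mul, mul_inv_cancel_right]
    rw [← hβ, ← conj_mul, h1, l.qc h.o 1 2] at h6
    exact mul_left_cancel h6
  refine ⟨a, fun i => (pm_iff h.o).2 ?_⟩
  simp only [map_mul, map_inv]
  fin_cases i
  · show qm h.o a * qm h.o (s 0) * (qm h.o a)⁻¹ = qm h.o (s 0)
    rw [← map_mul, ← pm_comm h.o l.s0 (h.comm h.tT h.aT), map_mul, mul_inv_cancel_right]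
  exacts [h1, h2, h3, h4]

theorem q3γ : qm h.o (s 3) * qm h.o (s 1 * s 3) * (qm h.o (s 3))⁻¹ = qm h.o (s 1 * s 3) := by
  rw [map_mul, l.qi, mul_assoc, mul_assoc, l.qs, mul_one, l.qc]

theorem no_dbl {y : G} (hy : y ∈ P) {τ : Perm (Fin 5)} (hτ : ∀ i, Pm m (y * s i * y⁻¹) (s (τ i))) (h0 : τ 0 = 0)
    (h1 : τ * τ = 1) (h2 : ∀ i, τ i = i → i = 0) : False := by
  have hβ := (pm_iff h.o).1 l.s12
  have hβt := (pm_iff h.o).1 l.s34
  have h3 := (pm_iff h.o).1 (h.fixβ hy)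
  have h4 := fun i => (pm_iff h.o).1 (hτ i)
  simp only [map_mul, map_inv] at hβ hβt h3 h4
  rw [← hβ, ← conj_mul, h4, h4, hβ] at h3
  rcases (by decide +kernel : ∀ τ : Perm (Fin 5), (τ 0 = 0 ∧ τ * τ = 1 ∧ ∀ i, τ i ≠ i ∨ i = 0) →
    (τ 1 = 2 ∧ τ 3 = 4) ∨ (τ 1 = 3 ∧ τ 2 = 4) ∨ (τ 1 = 4 ∧ τ 2 = 3)) τ ⟨h0, h1, fun i => (em _).symm.imp id (h2 i)⟩
    with ⟨e1, e2⟩ | ⟨e1, e2⟩ | ⟨e1, e2⟩
  · have h5 : qm h.o y * qm h.o (s 1 * s 3) * (qm h.o y)⁻¹ = qm h.o (s 1 * s 3) * qm h.o t := by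
      rw [← hβ] at hβt
      rw [map_mul, ← conj_mul, h4, h4, e1, e2, ← inv_mul_eq_iff_eq_mul.2 hβt]
      simp only [mul_inv_rev, l.qi, mul_assoc, l.qs', l.qc' h.o 3, l.qc' h.o 2 1]
    have key : ∀ y ∈ P, y * t = t * y →
        qm h.o y * qm h.o (s 1 * s 3) * (qm h.o y)⁻¹ ≠ qm h.o (s 1 * s 3) * qm h.o t := fun y hy e e1 => by
      rcases h.nf' hy e with e2 | e2
      · rw [← map_inv, ← map_mul, ← map_mul, h.g_conj l.s13 e2, map_mul, mul_right_inj] at e1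
        exact h.nsq ((pm_iff h.o).2 e1)
      · have e3 := h.g_mul l.s13 e2
        have e4 := h.g_conj l.s13 e3
        have e5 := h.g_inv l.s13 (mul_mem (inv_mem e3) (inv_mem e3))
        generalize s 1 * s 3 = g at *
        rw [← map_inv, ← map_mul, ← map_mul, show y * g * y⁻¹ = g * (g⁻¹ * y * g * (g⁻¹ * y)⁻¹) * g⁻¹ by group, e4,
          mul_assoc, e5, map_mul, mul_right_inj, mul_inv_rev] at e1
        exact h.nsq ((pm_iff h.o).2 e1)
    by_cases e : y * t = t * y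
    · exact key y hy e h5
    · exact key _ (mul_mem hy (l.mem 3)) (h.aa_t (h.anti hy e) (h.st l (by decide))) (by
        rw [map_mul _ y, mul_inv_rev, ← h5]; conv_rhs => rw [← h.q3γ l]
        group)
  · rw [e1, e2, hβt, mul_eq_left] at h3; exact h.tq h3
  · rw [e1, e2, l.qc, hβt, mul_eq_left] at h3; exact h.tq h3

theorem claim {x : G} (hx : Rf m x) (hP : x ∈ P) (e : Pm m (x * (s 1 * s 3) * x⁻¹) (s 1 * s 3)) : ∃ i, Pm m x (s i) := by
  by_cases xt : x * t = t * x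
  · exact ⟨0, (h.o.r1 _ _ hx h.rt xt).trans h.o (l.s0.symm h.o)⟩
  let C : Subgroup G := (centralizer (Set.range fun i => qm h.o (s i))).comap (qm h.o)
  have sC : ∀ i, s i ∈ C := fun i => by rintro _ ⟨j, rfl⟩; exact l.qc h.o j i
  have pC : ∀ {v w}, Pm m v w → w ∈ C → v ∈ C := fun e hw => by rwa [mem_comap, (pm_iff h.o).1 e]
  have tC := pC (l.s0.symm h.o) (sC 0)
  have βC := pC (l.s12.symm h.o) (mul_mem (sC 1) (sC 2))
  have key : ∀ w ∈ T0 α t, qm h.o w * qm h.o (s 1 * s 3) * (qm h.o w)⁻¹ = qm h.o (s 1 * s 3) → w ∈ C := fun w hw e => by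
    rw [← map_inv, ← map_mul, ← map_mul, h.g_conj l.s13 hw, map_mul, mul_eq_left, ← map_one (qm h.o), ← pm_iff] at e
    refine inv_mem_iff.1 (e.elim (fun e => ?_) fun e => ?_)
    · exact (h.sq_eq (inv_mem hw) (one_mem _) (by rw [e, mul_one])).elim (pC · (one_mem _)) (pC · (mul_mem (one_mem _) tC))
    · exact (h.sq_eq (inv_mem hw) h.βT (by rw [e, one_mul, h.ββ])).elim (pC · βC) (pC · (mul_mem βC tC))
  have h1 : qm h.o (s 3 * x) * qm h.o (s 1 * s 3) * (qm h.o (s 3 * x))⁻¹ = qm h.o (s 1 * s 3) := by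
    rw [← h.q3γ l]
    conv_rhs => rw [← (pm_iff h.o).1 e]
    rw [h.q3γ l]; simp only [map_mul, map_inv]; group
  have h2 : s 3 * x ∈ C := by
    rcases h.nf' (mul_mem (l.mem 3) hP) (h.aa_t (h.st l (by decide)) (h.anti hP xt)) with e1 | e1
    · exact key _ e1 h1
    · refine (mul_mem_cancel_left (inv_mem (mul_mem (sC 1) (sC 3)))).1 (key _ (h.g_mul l.s13 e1) ?_)
      rw [map_mul, map_inv, mul_inv_rev, mul_assoc, mul_assoc, ← mul_assoc (qm h.o (s 1 * s 3)), ← mul_assoc (qm h.o _),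
        ← mul_assoc (qm h.o _), h1]; group
  exact h.o.clique s (l.rf h.o) l.an hx fun i => (pm_iff h.o).2 (by
    rw [map_mul, map_mul, (mul_mem_cancel_left (sC 3)).1 h2 _ ⟨i, rfl⟩])

theorem same {s' : Fin 5 → G} (l' : Lab m P t α γ β s') {v : G} (hv : v ∈ T0 α t)
    (e : s' 1 * s' 3 = s 1 * s 3 * (v * v) ∨ s' 1 * s' 3 = s 1 * s 3 * (v * v) * t) :
    ∃ ρ : Fin 5 → Fin 5, ρ 0 = 0 ∧ ∀ j, Pm m (v * s' j * v⁻¹) (s (ρ j)) := by
  have q' := l'.conj h.o v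
  have hP : ∀ j, v * s' j * v⁻¹ ∈ P := fun j => mul_mem (mul_mem (h.TP hv) (l'.mem j)) (inv_mem (h.TP hv))
  have h1 : ∀ j, ∃ i, Pm m (v * s' j * v⁻¹) (s i) := fun j => h.claim l (q'.rf h.o j) (hP j) ((pm_iff h.o).2 (by
    have h2 := h.g_conj l'.s13 hv
    have h3 : qm h.o (v * s' j * v⁻¹) * qm h.o (v * (s' 1 * s' 3) * v⁻¹) =
        qm h.o (v * (s' 1 * s' 3) * v⁻¹) * qm h.o (v * s' j * v⁻¹) := by
      rw [← conj_mul, map_mul _ (v * s' 1 * v⁻¹), q'.qc' h.o j, q'.qc h.o j, ← mul_assoc]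
    have h4 := (pm_iff h.o).1 (h.nrm _ (hP j))
    generalize v * s' j * v⁻¹ = x at h3 h4
    simp only [map_mul _ _ x⁻¹, map_mul _ x, map_inv, mul_inv_eq_iff_eq_mul] at h4 ⊢
    rcases e with e | e <;> rw [h2, e] at h3
    · simpa only [mul_assoc, mul_inv_cancel_left, mul_inv_cancel, mul_one] using h3
    · rw [mul_assoc _ t, h.comm h.tT (mul_mem (inv_mem hv) (inv_mem hv)), show s 1 * s 3 * (v * v) * (v⁻¹ * v⁻¹ * t) =
        s 1 * s 3 * t by group, map_mul _ _ t, mul_assoc _ (qm h.o t), ← h4, ← mul_assoc, ← mul_assoc] at h3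
      exact mul_right_cancel h3))
  choose ρ hρ using h1
  refine ⟨ρ, l.uniq h.o (((hρ 0).symm h.o).trans h.o ((l'.s0.conj h.o v).trans h.o ?_)), hρ⟩
  rw [h.comm hv h.tT, mul_inv_cancel_right]
  exact l.s0.symm h.o

end

theorem std {s : Fin 5 → G} (q : Cq m s) (e : Fin 5) :
    ∃ (c : G) (π : Perm (Fin 5)), π 0 = e ∧ Lab m P t α γ β fun i => c * s (π i) * c⁻¹ := by
  obtain ⟨c, c1, c2, -⟩ := h.move q (e := e) (g := 1) (σ := 1) (by rw [zpowers_one_eq_bot]; exact IsPGroup.of_bot)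
    (fun i => by simpa using Pm.refl m _) rfl
  exact ⟨c, h.label (q.conj h.o c) c2 c1⟩

theorem hA {s : Fin 5 → G} (q : Cq m s) (e : Fin 5) : ∃ a b, a ≠ b ∧ a ≠ e ∧ b ≠ e ∧ In m s (swap a b) := by
  obtain ⟨c, π, rfl, l⟩ := h.std q e
  exact ⟨π 1, π 2, π.injective.ne (by decide), π.injective.ne (by decide), π.injective.ne (by decide),
    swap_apply_apply π 1 2 ▸ (h.swap12 l).back h.o⟩

theorem hB {s : Fin 5 → G} (q : Cq m s) {σ : Perm (Fin 5)} (h1 : In m s σ) (h2 : σ * σ = 1) {e : Fin 5}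
    (h3 : ∀ i, σ i = i ↔ i = e) : False := by
  obtain ⟨g, hg⟩ := h1
  obtain ⟨j, n, hn, e1⟩ := Nat.exists_eq_two_pow_mul_odd (orderOf_pos g).ne'
  obtain ⟨r, rfl⟩ := hn
  have h4 : ∀ n i, Pm m (g ^ (2 * n + 1) * s i * (g ^ (2 * n + 1))⁻¹) (s (σ i)) := fun n i => by
    induction n with
    | zero => simpa using hg i
    | succ n ih =>
      have := ((ih.conj h.o g).trans h.o (hg _)).conj h.o g
      rw [← Perm.mul_apply, h2, Perm.one_apply] at this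
      convert this.trans h.o (hg i) using 1; group
  obtain ⟨c, c1, c2, c3⟩ := h.move q (IsPGroup.of_card_dvd_pow (n := j) (by
    rw [Nat.card_zpowers, orderOf_dvd_iff_pow_eq_one, ← pow_mul, mul_comm, ← e1, pow_orderOf_eq_one])) (h4 r)
      ((h3 e).2 rfl)
  obtain ⟨π, rfl, l⟩ := h.label (q.conj h.o c) c2 c1
  refine h.no_dbl l c3 (τ := π⁻¹ * σ * π) (fun i => by simpa [mul_assoc] using (h4 r (π i)).conj h.o c)
    (by simp [(h3 _).2 rfl]) (by simp [mul_assoc, ← mul_assoc σ σ, h2]) fun i hi => π.injective ((h3 _).1 ?_)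
  simpa using congrArg π hi

theorem hC {s : Fin 5 → G} (q : Cq m s) :
    ∃ f : Fin 5 → Bool, ∀ e e', f e = f e' → ∃ σ, In m s σ ∧ σ e' = e := by
  choose c π hπ l using h.std q
  have h1 : ∀ w ∈ T0 α t, ∃ i : ℤ, w = α ^ i ∨ w = α ^ i * t := fun w hw => by
    obtain ⟨i, e | e | e | e⟩ := h.nf w (h.TP hw) (h.comm hw h.tT)
    · exact ⟨i, .inl e⟩
    · exact ⟨i, .inr e⟩
    all_goals
      have h2 : γ⁻¹ * w ∈ T0 α t := by
        rw [e]; simpa [mul_assoc, mul_mem_cancel_right h.tT] using zpow_mem h.αT i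
      have h3 := h.g_inv h2 h.aT
      rw [h.comm hw h.aT, mul_inv_cancel_right, eq_inv_iff_mul_eq_one, h.aa] at h3
      exact absurd (by rw [← h.ββ, h3, mul_one]) h.o.ne_one
  choose j hj using fun e => h1 _ (l e).s13
  refine ⟨fun e => decide (Even (j e)), fun e e' he => ?_⟩
  obtain ⟨r, hr⟩ : Even (j e' - j e) := Int.even_sub.2 (decide_eq_decide.1 he).symm
  have h2 := hj e
  have h3 := hj e'
  rw [inv_mul_eq_iff_eq_mul, inv_mul_eq_iff_eq_mul] at h2 h3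
  rw [show j e' = j e + r + r by omega, zpow_add, zpow_add] at h3
  have h4 : t * (α ^ r * α ^ r) = α ^ r * α ^ r * t := h.comm h.tT (mul_mem (zpow_mem h.αT r) (zpow_mem h.αT r))
  obtain ⟨ρ, ρ0, hρ⟩ := h.same (l e) (l e') (zpow_mem h.αT r) (by
    rcases h2 with h2 | h2 <;> rcases h3 with h3 | h3 <;> rw [h2, h3] <;> simp [mul_assoc, h4, h.rt.sq])
  obtain ⟨σ, s1, s2⟩ := q.mk_in h.o (g := (c e)⁻¹ * α ^ r * c e') (φ := fun i => π e (ρ ((π e')⁻¹ i))) fun i => by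
    simpa [mul_assoc] using (hρ ((π e')⁻¹ i)).conj h.o (c e)⁻¹
  exact ⟨σ, s2, by rw [s1, Perm.inv_eq_iff_eq.2 (hπ e').symm, ρ0, hπ]⟩

theorem exists_cq (huγ : u * γ = γ * u) : ∃ s, Cq m s := by
  obtain ⟨b, bT, bb, bu⟩ : ∃ b ∈ T0 α t, b * b = m ∧ u * b = b * u := by
    rcases h.fixβ h.u_mem with e | e <;> rw [mul_inv_eq_iff_eq_mul] at e
    · exact ⟨β, h.βT, h.ββ, e⟩
    · refine ⟨β * t, mul_mem h.βT h.tT, ?_, ?_⟩
      · rw [mul_assoc, ← mul_assoc t, h.comm h.tT h.βT, mul_assoc, h.rt.sq, mul_one, h.ββ]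
      · rw [← mul_assoc, e, mul_assoc, h.ut, mul_assoc β, h.o.cen (t * u), ← mul_assoc m, h.o.sq, one_mul, mul_assoc]
  have γb : γ * b = m * (b * γ) := by
    rw [mul_inv_eq_iff_eq_mul.1 (h.γinv bT), ← mul_assoc, ← bb, mul_assoc b b, ← mul_assoc b, bb, ← h.o.cen,
      inv_eq_of_mul_eq_one_right (show b * (b * m) = 1 by rw [← mul_assoc, bb, h.o.sq])]
  have A : ∀ {x y z : G}, x * y = z → ∀ w, x * (y * w) = z * w := fun e w => by rw [← mul_assoc, e]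
  have tb := h.comm h.tT bT
  have ut : u * t = m * (t * u) := by rw [h.ut, h.o.cen]
  refine ⟨![t, u, b * (t * u), γ * (t * u), b * (γ * (t * u))], fun i => ?_, fun i j hij => ?_⟩
  · fin_cases i <;> simp [mul_assoc, h.rt.sq, h.ru.sq, h.o.sq, A h.rt.sq, A h.ru.sq, A h.o.sq, A bb, A h.γγ, A γb, A tb, A bu,
      A ut, A huγ, A h.γt.symm, A (h.o.cen t), A (h.o.cen u), A (h.o.cen b), A (h.o.cen γ), h.o.cen t, h.o.cen u, bb, h.γγ]
  · fin_cases i <;> fin_cases j <;> simp [mul_assoc, ut, γb, h.rt.sq, h.ru.sq, h.o.sq, A h.rt.sq, A h.ru.sq, A h.o.sq, A bb,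
      A h.γγ, A γb, A tb, A bu, A ut, A huγ, A h.γt.symm, A (h.o.cen t), A (h.o.cen u), A (h.o.cen b), A (h.o.cen γ),
      h.o.cen t, h.o.cen u, h.o.cen b, h.o.cen γ] at hij ⊢

theorem final (huγ : u * γ = γ * u) : False := by
  obtain ⟨s, q⟩ := h.exists_cq huγ
  obtain ⟨a, b, ab, -, -, h1⟩ := h.hA q 0
  obtain ⟨x, x1, x2, h2⟩ : ∃ x, x ≠ a ∧ x ≠ b ∧ In m s (swap b x) := by
    obtain ⟨c, d, cd, ca, da, h2⟩ := h.hA q a
    by_cases e : c = b
    · exact ⟨d, da, e ▸ cd.symm, e ▸ h2⟩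
    by_cases e' : d = b
    · exact ⟨c, ca, e, e' ▸ swap_comm c d ▸ h2⟩
    obtain ⟨y, h3, h4⟩ := (by decide +kernel : ∀ a b c d : Fin 5, a ≠ b → c ≠ d → c ≠ a → d ≠ a → c ≠ b → d ≠ b →
      ∃ y, swap a b * swap c d * (swap a b * swap c d) = 1 ∧ ∀ i, (swap a b * swap c d) i = i ↔ i = y) a b c d ab cd ca da e e'
    exact (h.hB q (h1.mul h.o h2) h3 h4).elim
  obtain ⟨π, rfl, rfl, rfl⟩ := (by decide +kernel : ∀ a b x : Fin 5, a ≠ b → x ≠ a → x ≠ b →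
    ∃ π : Perm (Fin 5), π 0 = a ∧ π 1 = b ∧ π 2 = x) a b x ab x1 x2
  have q' := q.perm π
  have h3 : ∀ {i j}, In m s (swap (π i) (π j)) → In m (fun i => s (π i)) (swap i j) := fun {i j} e => by
    have := In.back h.o (s := fun i => s (π i)) (π := π⁻¹) (c := 1) (σ := swap (π i) (π j)) (by simpa using e)
    rwa [swap_apply_apply, show π⁻¹ * (π * swap i j * π⁻¹) * π⁻¹⁻¹ = swap i j by group] at this
  have a1 := h3 h1
  have a2 := h3 h2
  have a3 : In m (fun i => s (π i)) (swap 0 2) := by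
    simpa only [show swap (0 : Fin 5) 1 * swap 1 2 * swap 0 1 = swap 0 2 by decide] using (a1.mul h.o a2).mul h.o a1
  obtain ⟨f, hf⟩ := h.hC q'
  obtain ⟨σ, s1, s2⟩ : ∃ σ, In m (fun i => s (π i)) σ ∧ (σ 0 = 3 ∨ σ 0 = 4 ∨ σ 3 = 4) := by
    rcases (by decide : ∀ x y z : Bool, x = y ∨ x = z ∨ y = z) (f 0) (f 3) (f 4) with e | e | e
    · exact (hf _ _ e.symm).imp fun _ e => ⟨e.1, .inl e.2⟩
    · exact (hf _ _ e.symm).imp fun _ e => ⟨e.1, .inr (.inl e.2)⟩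
    · exact (hf _ _ e.symm).imp fun _ e => ⟨e.1, .inr (.inr e.2)⟩
  obtain ⟨x, hx, y, hy, z, hz, e1, e, e2⟩ := (by decide +kernel : ∀ σ : Perm (Fin 5), σ 0 = 3 ∨ σ 0 = 4 ∨ σ 3 = 4 →
    ∃ x ∈ [swap (0 : Fin 5) 1, swap 1 2, swap 0 2], ∃ y ∈ [swap (0 : Fin 5) 1, swap 1 2, swap 0 2],
      ∃ z ∈ [σ * x * σ⁻¹, σ⁻¹ * x * σ, σ * σ * σ, σ * σ * σ * y], z * y * (z * y) = 1 ∧ ∃ e, ∀ i, (z * y) i = i ↔ i = e) σ s2
  have h4 : ∀ x ∈ [swap (0 : Fin 5) 1, swap 1 2, swap 0 2], In m (fun i => s (π i)) x := by simp [a1, a2, a3]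
  refine h.hB q' (In.mul h.o ?_ (h4 y hy)) e1 e2
  have := h4 x hx
  simp only [List.mem_cons, List.not_mem_nil, or_false] at hz
  rcases hz with rfl | rfl | rfl | rfl
  exacts [(s1.mul h.o this).mul h.o (s1.inv h.o), ((s1.inv h.o).mul h.o this).mul h.o s1, (s1.mul h.o s1).mul h.o s1,
    ((s1.mul h.o s1).mul h.o s1).mul h.o (h4 y hy)]

end St

end Iii

universe u

theorem false_iii {G : Type u} [Group G] [Finite G] {m : G} (h : Glob G m) {P : Sylow 2 G} {t u α γ : G} {k : ℕ}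
    (c : Cfg m P t u α γ k) (hk : 3 ≤ k) (huγ : u * γ = γ * u) : False :=
  Iii.St.final (β := α ^ 2 ^ (k - 2)) (a := α ^ 2 ^ (k - 3)) ⟨c, h,
    Subgroup.mem_sup_left (pow_mem (Subgroup.mem_zpowers α) _),
    by rw [← pow_add, ← two_mul, ← pow_succ', show k - 3 + 1 = k - 2 by omega],
    by rw [← pow_add, ← two_mul, ← pow_succ', show k - 2 + 1 = k - 1 by omega, c.αm]⟩ huγ

end CL.Dv2
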