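/-
Finite subgroups of `GL₂(D)` (helper18 for helper7): reduction to an irreducible rational representation.
-/
import Cfsg.Agent.Fgs.Dv2Defs

set_option autoImplicit false

open Module

namespace CL.Dv2

universe u

namespace Red

variable {G : Type u} [Group G] {W : Type u} [AddCommGroup W] [Module ℚ W]

theorem comm_alg {ρ : G →* End ℚ W} {c a : End ℚ W} (hc : c ∈ Subalgebra.centralizer ℚ (Set.range ρ))
    (ha : a ∈ alg ρ) : a * c = c * a := by
  induction ha using Algebra.adjoin_induction with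
  | mem x hx => exact hc x hx
  | algebraMap r => exact Algebra.commutes r c
  | add x y _ _ hx hy => rw [add_mul, mul_add, hx, hy]
  | mul x y _ _ hx hy => rw [mul_assoc, hy, ← mul_assoc, hx, mul_assoc]

theorem irr_of [FiniteDimensional ℚ W] [Nontrivial W] (ρ : G →* End ℚ W) (inj : Function.Injective ρ)
    (hirr : ∀ U : Submodule ℚ W, (∀ g, ∀ w ∈ U, ρ g w ∈ U) → U = ⊥ ∨ U = ⊤)
    (h3 : ∀ w : Fin 3 → W, ∃ i, ∀ a ∈ alg ρ, (∀ j, j ≠ i → a (w j) = 0) → a (w i) = 0) : ∃ δ, Irr ρ δ := by
  classical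
  have unit : ∀ a : End ℚ W, (∀ g, a * ρ g = ρ g * a) → a ≠ 0 → IsUnit a := fun a ha h0 =>
    (LinearMap.isUnit_iff_ker_eq_bot a).2 ((hirr _ fun g w hw => by
      rw [LinearMap.mem_ker] at hw ⊢
      rw [← End.mul_apply, ha, End.mul_apply, hw, map_zero]).resolve_right fun e => h0 (LinearMap.ker_eq_top.1 e))
  set C := Subalgebra.centralizer ℚ (Set.range ρ) with hC
  have hdiv : ∀ c : C, IsUnit c ∨ c = 0 := fun c => by
    by_cases h0 : c = 0
    · exact Or.inr h0
    obtain ⟨v, hv⟩ := unit c.1 (fun g => (c.2 _ ⟨g, rfl⟩).symm) fun e => h0 (Subtype.ext e)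
    have hm : (v⁻¹ : (End ℚ W)ˣ).1 ∈ C := fun x hx => by
      rw [Units.mul_inv_eq_iff_eq_mul, mul_assoc, Units.eq_inv_mul_iff_mul_eq, hv, c.2 x hx]
    exact Or.inl ⟨⟨c, ⟨_, hm⟩, Subtype.ext (by simp [← hv]), Subtype.ext (by simp [← hv])⟩, rfl⟩
  have hfree : ∀ (U : Type u) [AddCommGroup U] [Module C U], Module.Free C U := fun U _ _ => by
    let _ := DivisionRing.ofIsUnitOrEqZero hdiv
    exact Module.Free.of_divisionRing C U
  have hsrc : StrongRankCondition C := by
    let _ := DivisionRing.ofIsUnitOrEqZero hdiv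
    infer_instance
  have := hfree W
  have : Module.Finite C W := Module.Finite.of_restrictScalars_finite ℚ C W
  let lin : alg ρ → (W →ₗ[C] W) := fun a =>
    { toFun := a.1, map_add' := map_add a.1
      map_smul' := fun c w => LinearMap.congr_fun (comm_alg c.2 a.2) w }
  have hd := finrank_mul_finrank ℚ C W
  let b := Module.finBasis C W
  have hle : finrank C W ≤ 2 := by
    by_contra h
    have : IsSimpleModule (alg ρ) W := by
      refine (isSimpleModule_iff _ _).2 ⟨fun U => ?_⟩
      rcases hirr (U.restrictScalars ℚ) fun g w hw => U.smul_mem ⟨_, mem_alg ρ g⟩ hw with e | e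
      · exact Or.inl ((Submodule.restrictScalars_eq_bot_iff _ _ _).1 e)
      · exact Or.inr ((Submodule.restrictScalars_eq_top_iff _ _ _).1 e)
    let e : Fin 3 → Fin (finrank C W) := Fin.castLE (by omega)
    obtain ⟨i, hi⟩ := h3 fun j => b (e j)
    let f := b.constr ℕ fun j => if j = e i then b j else 0
    let f' : End (End (alg ρ) W) W :=
      { toFun := f, map_add' := map_add f
        map_smul' := fun c w => f.map_smul ⟨c.restrictScalars ℚ, by
          rintro _ ⟨g, rfl⟩
          exact LinearMap.ext fun x => (c.map_smul ⟨_, mem_alg ρ g⟩ x).symm⟩ w }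
    obtain ⟨r, hr⟩ := jacobson_density f' (Finset.univ.image fun j => b (e j))
    have k : ∀ j, r.1 (b (e j)) = if e j = e i then b (e j) else 0 := fun j =>
      (hr _ (Finset.mem_image_of_mem _ (Finset.mem_univ j))).symm.trans (b.constr_basis ℕ _ _)
    have := hi r.1 r.2 fun j hj => by rw [k, if_neg fun e' => hj (Fin.castLE_injective _ e')]
    rw [k, if_pos rfl] at this
    exact b.ne_zero _ this
  refine ⟨finrank ℚ C, ⟨inferInstance, inj, finrank_pos, by nlinarith, fun a ha => ?_⟩, inferInstance, unit, rfl, ?_⟩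
  · have := hfree (LinearMap.range (lin ⟨a, ha⟩))
    exact ⟨_, (finrank_mul_finrank ℚ C (LinearMap.range (lin ⟨a, ha⟩))).symm⟩
  · let ev : alg ρ →ₗ[ℚ] (Fin (finrank C W) → W) :=
      { toFun := fun a i => a.1 (b i), map_add' := fun _ _ => rfl, map_smul' := fun _ _ => rfl }
    have h1 := LinearMap.finrank_le_finrank_of_injective (f := ev) fun a a' e => Subtype.ext (LinearMap.ext
      fun x => LinearMap.congr_fun (b.ext (f₁ := lin a) (f₂ := lin a') (congrFun e)) x)
    rw [finrank_pi_fintype, Finset.sum_const, Finset.card_univ, Fintype.card_fin, smul_eq_mul] at h1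
    calc _ ≤ finrank C W * finrank ℚ W * finrank ℚ C := Nat.mul_le_mul_right _ h1
      _ = _ := by rw [sq]; conv_rhs => rw [← hd]; skip
                  rw [hd]; nlinarith

variable {D : Type u} [DivisionRing D] [CharZero D]

/-- right multiplication -/
def rm (d : D) : End ℚ (Fin 2 → D) :=
  (AddMonoidHom.mk' (fun v i => v i * d) fun _ _ => funext fun _ => add_mul _ _ _).toRatLinearMap

theorem dep (w : Fin 3 → Fin 2 → D) : ∃ d : Fin 3 → D, ∑ j, rm (d j) (w j) = 0 ∧ ∃ i, d i ≠ 0 := by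
  have h : ¬ LinearIndependent Dᵐᵒᵖ fun j i => MulOpposite.op (w j i) := fun h => by
    have := h.fintype_card_le_finrank
    simp at this
  obtain ⟨g, hg, i, hi⟩ := Fintype.not_linearIndependent_iff.1 h
  refine ⟨fun j => (g j).unop, funext fun k => ?_, i, by simpa using hi⟩
  have := congrArg MulOpposite.unop (congrFun hg k)
  simpa [Fin.sum_univ_three, rm] using this

/-- the action on column vectors -/
def sig (φ : G →* (Matrix (Fin 2) (Fin 2) D)ˣ) : G →* End ℚ (Fin 2 → D) where
  toFun g := (AddMonoidHom.mk' (fun v => (φ g).1.mulVec v) (Matrix.mulVec_add _)).toRatLinearMap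
  map_one' := LinearMap.ext fun v => by simp
  map_mul' a b := LinearMap.ext fun v => by
    change (φ (a * b)).1.mulVec v = (φ a).1.mulVec ((φ b).1.mulVec v)
    rw [map_mul, Units.val_mul, Matrix.mulVec_mulVec]

theorem sig_rm (φ : G →* (Matrix (Fin 2) (Fin 2) D)ˣ) (g : G) (d : D) : rm d * sig φ g = sig φ g * rm d :=
  LinearMap.ext fun v => funext fun i => by
    change (φ g).1.mulVec v i * d = (φ g).1.mulVec (fun i => v i * d) i
    simp only [Matrix.mulVec, dotProduct, Fin.sum_univ_two, add_mul, mul_assoc]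

theorem sig_ne (φ : G →* (Matrix (Fin 2) (Fin 2) D)ˣ) {g : G} (h : φ g ≠ 1) : ∃ u, sig φ g u ≠ u := by
  by_contra hc
  push Not at hc
  refine h (Units.ext (Matrix.ext fun i j => ?_))
  have : (φ g).1.mulVec (Pi.single j 1) i = (Pi.single j 1 : Fin 2 → D) i := congrFun (hc (Pi.single j 1)) i
  rw [Matrix.mulVec_single_one, Pi.single_apply] at this
  exact this

theorem exists_irr {V : Type u} [AddCommGroup V] [Module ℚ V] [Finite G] (σ : G →* End ℚ V) {g₀ : G} {u : V}
    (hu : σ g₀ u ≠ u) : ∃ W : Submodule ℚ V, FiniteDimensional ℚ W ∧ W ≠ ⊥ ∧ (∀ g, ∀ w ∈ W, σ g w ∈ W) ∧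
      (∀ U ≤ W, (∀ g, ∀ w ∈ U, σ g w ∈ U) → U = ⊥ ∨ U = W) ∧ ∀ w ∈ W, (∀ g, σ g w = w) → w = 0 := by
  classical
  have := Fintype.ofFinite G
  have hs : ∀ h v, (∑ g, σ g) (σ h v) = (∑ g, σ g) v := fun h v => by
    rw [← End.mul_apply, Finset.sum_mul, ← Equiv.sum_comp (Equiv.mulRight h) (fun g => σ g)]
    simp
  let W0 := Submodule.span ℚ (Set.range fun g => σ g (σ g₀ u - u))
  have : FiniteDimensional ℚ W0 := FiniteDimensional.span_of_finite ℚ (Set.finite_range _)
  have h0 : W0 ≤ LinearMap.ker (∑ g, σ g) := Submodule.span_le.2 (by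
    rintro _ ⟨g, rfl⟩
    change (∑ g, σ g) _ = 0
    rw [hs, map_sub, hs, sub_self])
  obtain ⟨W, ⟨h1, h2, h3⟩, hmin⟩ := (InvImage.wf (fun W : Submodule ℚ V => finrank ℚ W) wellFounded_lt).has_min
    {W | W ≤ W0 ∧ W ≠ ⊥ ∧ ∀ g, ∀ w ∈ W, σ g w ∈ W} ⟨W0, le_rfl, fun e => by
      have : σ 1 (σ g₀ u - u) ∈ W0 := Submodule.subset_span ⟨1, rfl⟩
      rw [e, map_one] at this
      exact hu (sub_eq_zero.1 this), fun g w hw => by
      refine (Submodule.span_le.2 ?_ : W0 ≤ W0.comap (σ g)) hw
      rintro _ ⟨h, rfl⟩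
      exact Submodule.subset_span ⟨g * h, by simp⟩⟩
  have := Submodule.finiteDimensional_of_le h1
  refine ⟨W, this, h2, h3, fun U hU hi => or_iff_not_imp_left.2 fun h4 => Submodule.eq_of_le_of_finrank_le hU
    (not_lt.1 (hmin U ⟨hU.trans h1, h4, hi⟩)), fun w hw hf => ?_⟩
  have h4 : (∑ g, σ g) w = 0 := h0 (h1 hw)
  rw [LinearMap.sum_apply, Finset.sum_congr rfl fun g _ => hf g, Finset.sum_const, ← Nat.cast_smul_eq_nsmul ℚ,
    smul_eq_zero] at h4
  exact h4.resolve_left (Nat.cast_ne_zero.2 Finset.univ_nonempty.card_pos.ne')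

end Red

open Red in
theorem red {D : Type u} [DivisionRing D] [CharZero D] {G : Type u} [Group G] [Finite G]
    (φ : G →* (Matrix (Fin 2) (Fin 2) D)ˣ) (hφ : ∃ g, φ g ≠ 1) :
    ∃ (K : Subgroup G) (_ : K.Normal), K ≠ ⊤ ∧ ∃ (V : Type u) (_ : AddCommGroup V) (_ : Module ℚ V)
      (ρ : G ⧸ K →* Module.End ℚ V) (δ : ℕ), Irr ρ δ := by
  obtain ⟨g₀, hg₀⟩ := hφ
  obtain ⟨u, hu⟩ := sig_ne φ hg₀
  obtain ⟨W, h1, h2, h3, h4, h5⟩ := exists_irr (sig φ) hu
  let τ : G →* End ℚ W :=
    { toFun := fun g => (sig φ g).restrict (h3 g)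
      map_one' := LinearMap.ext fun w => Subtype.ext (by simp)
      map_mul' := fun a b => LinearMap.ext fun w => Subtype.ext (by simp) }
  have := Submodule.nontrivial_iff_ne_bot.2 h2
  refine ⟨τ.ker, inferInstance, fun e => h2 ((Submodule.eq_bot_iff _).2 fun w hw => h5 w hw fun g =>
    congrArg Subtype.val (LinearMap.congr_fun (show g ∈ τ.ker from e ▸ Subgroup.mem_top g) ⟨w, hw⟩)), W,
    inferInstance, inferInstance, QuotientGroup.lift _ τ le_rfl, irr_of _ (fun a b => ?_) (fun U hU => ?_) fun w => ?_⟩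
  · induction a using QuotientGroup.induction_on with | H a => ?_
    induction b using QuotientGroup.induction_on with | H b => ?_
    intro e
    refine QuotientGroup.eq.2 ?_
    rw [MonoidHom.mem_ker, map_mul, ← show τ a = τ b from e, ← map_mul, inv_mul_cancel, map_one]
  · rcases h4 (U.map W.subtype) (Submodule.map_subtype_le _ _) (by
      rintro g _ ⟨w, hw, rfl⟩
      exact ⟨_, hU g w hw, rfl⟩) with e | e
    · exact Or.inl (Submodule.map_injective_of_injective W.injective_subtype (e.trans (Submodule.map_bot _).symm))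
    · exact Or.inr (Submodule.map_injective_of_injective W.injective_subtype (e.trans (Submodule.map_subtype_top _).symm))
  · obtain ⟨d, hd, i, hi⟩ := dep fun j => (w j).1
    refine ⟨i, fun a ha h0 => ?_⟩
    obtain ⟨A, hA, hA'⟩ : ∃ A : End ℚ (Fin 2 → D), (∀ d, rm d * A = A * rm d) ∧ ∀ x : W, (a x).1 = A x := by
      clear h0
      induction ha using Algebra.adjoin_induction with
      | mem x hx =>
        obtain ⟨g, rfl⟩ := hx
        induction g using QuotientGroup.induction_on with | H g => exact ⟨sig φ g, sig_rm φ g, fun _ => rfl⟩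
      | algebraMap r => exact ⟨algebraMap ℚ _ r, fun d => (Algebra.commutes r _).symm, fun _ => rfl⟩
      | add x y _ _ hx hy =>
        obtain ⟨A, a1, a2⟩ := hx
        obtain ⟨B, b1, b2⟩ := hy
        exact ⟨A + B, fun d => by rw [mul_add, add_mul, a1, b1], fun v => by simp [a2, b2]⟩
      | mul x y _ _ hx hy =>
        obtain ⟨A, a1, a2⟩ := hx
        obtain ⟨B, b1, b2⟩ := hy
        exact ⟨A * B, fun d => by rw [← mul_assoc, a1, mul_assoc, b1, mul_assoc], fun v => by simp [a2, b2]⟩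
    have e := congrArg A hd
    rw [map_sum, map_zero, Finset.sum_eq_single i (fun j _ hj => by
      rw [← End.mul_apply, ← hA, End.mul_apply, ← hA', h0 j hj]; simp) (by simp), ← End.mul_apply, ← hA,
      End.mul_apply, ← hA'] at e
    exact Subtype.ext (funext fun k => (mul_eq_zero.1 (congrFun e k)).resolve_right hi)

end CL.Dv2
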