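import Cfsg.Agent.Fgs.Dv2Tri1

/-!
# DV-TRI: normal form of the action of `u` on `C_P(t)`
-/

set_option autoImplicit false

open Subgroup

namespace CL.Dv2.Cfg

open Tri

universe u

variable {G : Type u} [Group G] {m : G} {P : Sylow 2 G} {t u α γ : G} {k : ℕ} (c : Cfg m P t u α γ k)
include c

theorem βt_ne (h : Two G m) {y : G} (hy : y ∈ zpowers α) : ¬ Pm m y (α ^ 2 ^ (k - 2) * t) := fun e =>
  c.t_notMem h (by
    have h1 := (e.symm h.toOne).mem c.m_zp hy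
    simpa using mul_mem (inv_mem (npow_mem_zpowers α (2 ^ (k - 2)))) h1)

theorem sqA {y : G} (hy : y ∈ AA α t) : y * y ∈ zpowers α := by
  obtain ⟨i, rfl | rfl⟩ := c.memA.1 hy
  · exact mul_mem (zpow_mem_zpowers α i) (zpow_mem_zpowers α i)
  · rw [mul_assoc, ← mul_assoc t, ← ((show Commute α t from c.αt).zpow_left i).eq, mul_assoc, c.rt.sq, mul_one]
    exact mul_mem (zpow_mem_zpowers α i) (zpow_mem_zpowers α i)

/-- Type I is impossible. -/
theorem typeI [Finite G] (h : Glob G m) (hk : 3 ≤ k) (huα : u * α * u⁻¹ = α)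
    (hw : Pm m (γ⁻¹ * (u * γ * u⁻¹)) (α ^ 2 ^ (k - 2) * t)) : False := by
  have h1 := h.toOne
  set β := α ^ 2 ^ (k - 2) with hβ
  have βz : β ∈ zpowers α := npow_mem_zpowers α _
  have βA : β ∈ AA α t := mem_sup_left βz
  have ββ : β * β = m := c.β_sq
  have βi : β⁻¹ = β * m := inv_eq_of_mul_eq_one_right (by rw [← mul_assoc, ββ, h.sq])
  have uβ : u * β * u⁻¹ = β := by rw [hβ, ← conj_pow, huα]
  have cu : Commute u β := mul_inv_eq_iff_eq_mul.1 uβ
  have θpm : ∀ y ∈ AA α t, Pm m (u * y * u⁻¹) y := by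
    intro y hy
    obtain ⟨i, rfl | rfl⟩ := c.memA.1 hy
    · exact Or.inl (by rw [← conj_zpow, huα])
    · exact Or.inr (by rw [← conj_mul, ← conj_zpow, huα, c.θt, mul_assoc])
  have θg : ∀ g, γ⁻¹ * g ∈ AA α t → Pm m (u * g * u⁻¹) (g * (β * t)) := by
    intro g hg
    have h2 := ((Pm.refl m γ).mul h1 hw).mul h1 (θpm _ hg)
    rw [mul_assoc γ (β * t), (c.cA (mul_mem βA (t_AA α t)) hg).eq] at h2
    convert h2 using 1 <;> group
  -- squares of the elements `g u`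
  have gu : ∀ g, γ⁻¹ * g ∈ AA α t → g * u * (g * u) ∉ zpowers α := by
    intro g hg e
    have h2 := (Pm.refl m g).mul h1 (θg g hg)
    rw [← mul_assoc g g, c.gt_sq h1 hg, ← h.cen, c.ru.inv] at h2
    exact c.βt_ne h.toTwo e (Pm.trans h1 (by convert h2 using 1; group) (Pm.mul_m _))
  have cases4 : ∀ y ∈ P, y ∈ AA α t ∨ γ⁻¹ * y ∈ AA α t ∨ ∃ z, y = z * u ∧ (z ∈ AA α t ∨ γ⁻¹ * z ∈ AA α t) := by
    intro y hy
    rcases c.split h1 hy with e | e
    · exact (c.nf' hy e).imp_right Or.inl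
    · exact Or.inr (Or.inr ⟨_, (inv_mul_cancel_right y u).symm, c.nf' (mul_mem hy (inv_mem c.u_mem)) e⟩)
  have hP : ∀ y ∈ P, Pm m (y * β * y⁻¹) β := by
    have h2 : ∀ y, y ∈ AA α t ∨ γ⁻¹ * y ∈ AA α t → Pm m (y * β * y⁻¹) β := by
      rintro y (hy | hy)
      · exact Or.inl (by rw [(c.cA hy βA).eq, mul_inv_cancel_right])
      · exact Or.inr (by rw [c.gt_inv hy βA, βi])
    intro y hy
    rcases cases4 y hy with e | e | ⟨z, rfl, e⟩
    · exact h2 y (Or.inl e)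
    · exact h2 y (Or.inr e)
    · convert h2 z e using 1
      conv_rhs => rw [← uβ]
      group
  have rf : ∀ r ∈ P, Rf m r → r ∈ AA α t ∨ ∃ z ∈ AA α t, r = z * u := by
    intro r hr hr'
    rcases cases4 r hr with e | e | ⟨z, rfl, e | e⟩
    · exact Or.inl e
    · exact absurd ((c.gt_sq h1 e).symm.trans hr'.sq) h.ne_one
    · exact Or.inr ⟨z, e, rfl⟩
    · exact absurd (hr'.sq ▸ one_mem _) (gu z e)
  have rβ : ∀ r ∈ P, Rf m r → Commute r β := by
    intro r hr hr'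
    rcases rf r hr hr' with e | ⟨z, e, rfl⟩
    · exact c.cA e βA
    · exact (c.cA e βA).mul_left cu
  have zu : ∀ z ∈ AA α t, ∀ y ∈ P, Commute y (z * u) → Commute y β := by
    intro z hz
    have h2 : ∀ g, γ⁻¹ * g ∈ AA α t → ¬ Commute g (z * u) := by
      intro g hg e
      have h3 : u * g * u⁻¹ = g * (z * z) := by
        calc _ = z⁻¹ * (z * u * g) * u⁻¹ := by group
          _ = g * (g⁻¹ * z⁻¹ * g) * z := by rw [← e.eq]; group
          _ = _ := by rw [← c.gt_inv hg hz]; group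
      have h4 := (Pm.refl m g⁻¹).mul h1 (θg g hg)
      rw [h3, inv_mul_cancel_left, inv_mul_cancel_left] at h4
      exact c.βt_ne h.toTwo (c.sqA hz) h4
    intro y hy e
    rcases cases4 y hy with e' | e' | ⟨v, rfl, e' | e'⟩
    · exact c.cA e' βA
    · exact absurd e (h2 y e')
    · exact (c.cA e' βA).mul_left cu
    · refine absurd ?_ (h2 (v * z⁻¹) (by rw [← mul_assoc]; exact mul_mem e' (inv_mem hz)))
      have h3 := e.mul_left (Commute.refl (z * u)).inv_left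
      rwa [show v * u * (z * u)⁻¹ = v * z⁻¹ by group] at h3
  obtain ⟨g₀, hx, hxβ⟩ := h.zs P β (c.A_le βA) (fun e => h.ne_one (by rw [← ββ, e, mul_one]))
    (fun e => h.ne_one (by rw [← ββ, e, h.sq])) (Or.inr ββ)
  have hxx : g₀ * β * g₀⁻¹ * (g₀ * β * g₀⁻¹) = m := by rw [conj_mul, ββ, h.cen, mul_inv_cancel_right]
  have hx0 : Pm m (g₀⁻¹ * (g₀ * β * g₀⁻¹) * g₀⁻¹⁻¹) β := Or.inl (by group)
  generalize g₀ * β * g₀⁻¹ = x at hx hxβ hxx hx0
  have pmc : ∀ {a b : G}, Pm m a β → Commute b β → Commute b a := fun e e' => by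
    rcases e with rfl | rfl
    · exact e'
    · exact e'.mul_right (h.cen _)
  have unconj : ∀ {a b : G} (d : G), Commute (d * a * d⁻¹) (d * b * d⁻¹) → Commute a b := fun d e => by
    have := e.eq
    rw [conj_mul, conj_mul] at this
    exact mul_left_cancel (mul_right_cancel this)
  by_cases hc : Commute x β
  · have hs : Rf m (x * β) := ⟨by rw [hc.symm.mul_mul_mul_comm, hxx, ββ, h.sq],
      fun e => hxβ (Or.inr (by rw [← βi]; exact eq_inv_of_mul_eq_one_left e)),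
      fun e => hxβ (Or.inl (mul_right_cancel (e.trans ββ.symm)))⟩
    obtain ⟨r, hr, hr', e⟩ : ∃ r ∈ P, Rf m r ∧ r * (x * β) * r⁻¹ = x * β * m := by
      rcases c.nrm _ (mul_mem hx (c.A_le βA)) with e | e
      · refine ⟨u, c.u_mem, c.ru, ?_⟩
        rcases h.r1 _ _ hs c.rt (mul_inv_eq_iff_eq_mul.1 e) with e' | e' <;> rw [e']
        · exact c.θt
        · rw [← conj_mul, c.θt, h.cen u, mul_inv_cancel_right]
      · refine ⟨t, c.t_mem, c.rt, ?_⟩
        generalize x * β = s at e hs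
        rw [mul_inv_eq_iff_eq_mul] at e
        rw [c.rt.inv, mul_assoc, e, ← mul_assoc, ← mul_assoc, c.rt.sq, one_mul, h.cen]
    have e' : r * x * r⁻¹ = x * m := by
      rw [← conj_mul, (rβ r hr hr').eq, mul_inv_cancel_right, mul_assoc x, h.cen β, ← mul_assoc x] at e
      exact mul_right_cancel e
    obtain ⟨d, hd, hd'⟩ := ext_conj h1 P hP hx0 (zpowers r)
      (P.isPGroup'.to_le ((zpowers_le).2 hr)) fun y hy => (zpowers_le (H := stab h1 x)).2 (Or.inr e') hy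
    have h2 := unconj d (pmc hd (rβ _ (hd' r (mem_zpowers r)) (hr'.conj h1 d)))
    rw [h2.eq, mul_inv_cancel_right] at e'
    exact h1.ne_mul _ e'
  have hg : γ⁻¹ * x ∈ AA α t := by
    rcases cases4 x hx with e | e | ⟨v, rfl, e | e⟩
    · exact absurd (c.cA e βA) hc
    · exact e
    · exact absurd ((c.cA e βA).mul_left cu) hc
    · exact absurd (hxx ▸ c.m_zp) (gu v e)
  have hxt := c.gt_t hg
  obtain ⟨d, hd, hd'⟩ := ext_conj h1 P hP hx0 (P ⊓ stab h1 x) (P.isPGroup'.to_le inf_le_left) fun y hy => hy.2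
  have ht' := hd' t ⟨c.t_mem, Or.inl (by rw [← hxt, mul_inv_cancel_right])⟩
  have hβ' := hd' β ⟨c.A_le βA, Or.inr (by
    calc _ = β * (x * β⁻¹ * x⁻¹) * x := by group
      _ = _ := by rw [c.gt_inv hg (inv_mem βA), inv_inv, ββ, h.cen])⟩
  have htt : Pm m (d * t * d⁻¹) t := by
    rcases rf _ ht' (c.rt.conj h1 d) with e | ⟨z, hz, e⟩
    · exact h.r1 _ _ (c.rt.conj h1 d) c.rt (c.cA e (t_AA α t))
    · refine absurd (unconj d (pmc hd (zu z hz _ hβ' ?_))).symm hc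
      rw [← e]
      show _ = _
      rw [conj_mul, conj_mul, (c.cA βA (t_AA α t)).eq]
  obtain ⟨d, hd, hdt⟩ : ∃ d, Pm m (d * x * d⁻¹) β ∧ d * t * d⁻¹ = t := by
    rcases htt with e | e
    · exact ⟨d, hd, e⟩
    · refine ⟨u * d, ?_, ?_⟩
      · convert hd.conj h1 u using 1
        · group
        · exact uβ.symm
      · calc _ = u * (d * t * d⁻¹) * u⁻¹ := by group
          _ = _ := by rw [e, ← conj_mul, c.θt, h.cen u, mul_inv_cancel_right, mul_assoc, h.sq, mul_one]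
  obtain ⟨N, htN, hsq, hnm⟩ := c.exists_idx h.toTwo
  have hβN : β ∈ N := by
    have h2 := hsq (α ^ 2 ^ (k - 3)) ((show Commute α t from c.αt).pow_left _)
    rwa [← sq, ← pow_mul, ← pow_succ, show k - 3 + 1 = k - 2 by omega] at h2
  have hmN : m ∈ N := ββ ▸ mul_mem hβN hβN
  have back : ∀ g y, g * t = t * g → Pm m (g * y * g⁻¹) β → y ∈ N := fun g y e e' => by
    simpa [mul_assoc] using hnm g⁻¹ (show Commute g t from e).inv_left _ (e'.mem hmN hβN)
  have hxN := back d x (mul_inv_eq_iff_eq_mul.1 hdt) hd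
  have hxN' := back (u * d * u⁻¹) (u * x * u⁻¹) (c.θT h1 (mul_inv_eq_iff_eq_mul.1 hdt)) (by
    convert hd.conj h1 u using 1
    · group
    · exact uβ.symm)
  have h2 := ((θg x hg).symm h1).mem hmN hxN'
  exact htN (by simpa using mul_mem (inv_mem hβN) (mul_mem (inv_mem hxN) h2))

theorem θ_pow {a : ℤ} (ha : u * α * u⁻¹ = α ^ a ∨ u * α * u⁻¹ = α ^ a * t) (j : ℤ) :
    u * α ^ j * u⁻¹ = α ^ (a * j) ∨ u * α ^ j * u⁻¹ = α ^ (a * j) * t := by
  rw [← conj_zpow, zpow_mul]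
  rcases ha with e | e <;> rw [e]
  · exact Or.inl rfl
  · rw [((show Commute α t from c.αt).zpow_left a).mul_zpow]
    rcases Int.even_or_odd' j with ⟨i, rfl | rfl⟩
    · exact Or.inl (by rw [zpow_mul t, zpow_two, c.rt.sq, one_zpow, mul_one])
    · exact Or.inr (by rw [zpow_add t, zpow_mul t, zpow_two, c.rt.sq, one_zpow, one_mul, zpow_one])

theorem θ_even {a : ℤ} (ha : u * α * u⁻¹ = α ^ a ∨ u * α * u⁻¹ = α ^ a * t) (j : ℤ) :
    u * α ^ (2 * j) * u⁻¹ = α ^ (a * (2 * j)) := by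
  rw [← conj_zpow, zpow_mul α a]
  rcases ha with e | e <;> rw [e]
  rw [((show Commute α t from c.αt).zpow_left a).mul_zpow, zpow_mul t, zpow_two, c.rt.sq, one_zpow, mul_one]

theorem L0 (h : One G m) {y : G} (e : u * y * u⁻¹ = y * t) : False := by
  have h1 := c.θθ y
  rw [e, ← conj_mul, e, c.θt, mul_assoc, ← mul_assoc t, c.rt.sq, one_mul] at h1
  exact h.ne_mul y h1.symm

/-- Case (B). -/
theorem caseB (h : One G m) {s n : ℤ} (ha : u * α * u⁻¹ = α ^ (4 * s + 3) ∨ u * α * u⁻¹ = α ^ (4 * s + 3) * t)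
    (hw : γ⁻¹ * (u * γ * u⁻¹) = α ^ (2 * n) ∨ γ⁻¹ * (u * γ * u⁻¹) = α ^ (2 * n) * t) :
    ∃ g, γ⁻¹ * g ∈ AA α t ∧ u * g * u⁻¹ = g := by
  obtain ⟨i, hi⟩ := mem_odd (x := α ^ (2 : ℤ)) (n := k) (r := 2 * s + 1) (by
    rw [← zpow_natCast, ← zpow_mul, mul_comm, zpow_mul, zpow_natCast, c.pow_k, one_zpow]) ⟨s, rfl⟩
  have h1 : α ^ (2 * n) * α ^ ((4 * s + 3) * (-i * n)) = α ^ (-i * n) := by
    simp only at hi
    rw [zpow_mul, ← hi, ← zpow_mul, ← zpow_mul, ← zpow_mul, ← zpow_add]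
    congr 1; ring
  have ct : ∀ j : ℤ, t * α ^ j = α ^ j * t := fun j => ((show Commute α t from c.αt).zpow_left j).eq.symm
  have h2 : u * (γ * α ^ (-i * n)) * u⁻¹ = γ * ((γ⁻¹ * (u * γ * u⁻¹)) * (u * α ^ (-i * n) * u⁻¹)) := by group
  refine ⟨γ * α ^ (-i * n), by simpa using zpow_mem (α_AA α t) _, ?_⟩
  rcases hw with e | e <;> rcases c.θ_pow ha (-i * n) with e' | e' <;> rw [e, e'] at h2
  · rw [h2, h1]
  · exact (c.L0 h (by rw [h2, ← mul_assoc (α ^ (2 * n)), h1, mul_assoc])).elim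
  · exact (c.L0 h (by rw [h2, mul_assoc _ t, ct, ← mul_assoc (α ^ (2 * n)), h1, mul_assoc])).elim
  · rw [h2, mul_assoc _ t, ← mul_assoc t, ct, mul_assoc _ t, c.rt.sq, mul_one, h1]

/-- Case (C). -/
theorem caseC (h : Two G m) {s n : ℤ} (ha : u * α * u⁻¹ = α ^ (4 * s + 1) ∨ u * α * u⁻¹ = α ^ (4 * s + 1) * t)
    (hw : γ⁻¹ * (u * γ * u⁻¹) = α ^ (2 * n) ∨ γ⁻¹ * (u * γ * u⁻¹) = α ^ (2 * n) * t) :
    (∃ g, γ⁻¹ * g ∈ AA α t ∧ u * g * u⁻¹ = g) ∨ (3 ≤ k ∧ Pm m (γ⁻¹ * (u * γ * u⁻¹)) (α ^ 2 ^ (k - 2) * t)) := by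
  have h0 : γ⁻¹ * (u * γ * u⁻¹) * (u * (γ⁻¹ * (u * γ * u⁻¹)) * u⁻¹) = 1 := by
    calc _ = γ⁻¹ * (u * (u * γ * u⁻¹) * u⁻¹) := by group
      _ = _ := by rw [c.θθ, inv_mul_cancel]
  have h1 : α ^ (2 * n) * α ^ ((4 * s + 1) * (2 * n)) = (α ^ (2 * n) * α ^ (2 * n)) ^ (2 * s + 1) := by
    rw [← zpow_add, ← zpow_add, ← zpow_mul]; congr 1; ring
  obtain ⟨i, hi⟩ := mem_odd (x := α ^ (2 * n) * α ^ (2 * n)) (n := k) (r := 2 * s + 1) (by
    rw [← zpow_add, ← zpow_natCast, ← zpow_mul, mul_comm, zpow_mul, zpow_natCast, c.pow_k, one_zpow]) ⟨s, rfl⟩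
  simp only at hi
  rcases hw with e | e
  · rw [e, c.θ_even ha, h1] at h0
    rw [h0, one_zpow] at hi
    left
    rcases c.uq h (zpow_mem_zpowers α _) hi.symm with e' | e' <;> rw [e', inv_mul_eq_iff_eq_mul] at e
    · exact ⟨γ, by simp, by simpa using e⟩
    · exact ⟨γ * t, by simpa using t_AA α t, by
        rw [← conj_mul, e, c.θt, mul_assoc, ← mul_assoc m, ← h.cen, mul_assoc t, h.sq, mul_one]⟩
  · right
    have h2 : (α ^ (2 * n) * α ^ (2 * n)) ^ (2 * s + 1) = m := by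
      rw [e, ← conj_mul, c.θ_even ha, c.θt, mul_assoc, ← mul_assoc t,
        ← ((show Commute α t from c.αt).zpow_left _).eq, mul_assoc, ← mul_assoc t, c.rt.sq, one_mul, ← mul_assoc,
        h1] at h0
      rw [eq_inv_of_mul_eq_one_left h0, h.inv_m]
    have h3 : α ^ (2 * n) * α ^ (2 * n) = m := by
      rw [h2] at hi
      refine ((m_zpow h.toOne i).resolve_left fun e' => h.ne_one ?_).symm.trans hi |>.symm
      rw [← h2, ← hi, e', one_zpow]
    refine ⟨?_, ?_⟩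
    · by_contra hk
      have hk2 : k = 2 := by have := c.two_le; omega
      subst hk2
      have h4 : α ^ (2 : ℤ) = m := by rw [zpow_two, ← sq]; exact c.αm
      rw [zpow_mul, h4, ← (Commute.refl m).mul_zpow, h.sq, one_zpow] at h3
      exact h.ne_one h3.symm
    · rw [e]
      refine Pm.mul h.toOne ?_ (Pm.refl m t)
      have h4 : Commute (α ^ (2 * n)) (α ^ 2 ^ (k - 2))⁻¹ := ((Commute.refl α).pow_right _).inv_right.zpow_left _
      rcases c.uq h (y := α ^ (2 * n) * (α ^ 2 ^ (k - 2))⁻¹)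
        (mul_mem (zpow_mem_zpowers α _) (inv_mem (npow_mem_zpowers α _)))
        (by rw [h4.symm.mul_mul_mul_comm, h3, ← mul_inv_rev, c.β_sq, mul_inv_cancel]) with e' | e'
      · exact Or.inl (mul_inv_eq_one.1 e')
      · exact Or.inr (by rw [mul_inv_eq_iff_eq_mul.1 e', h.cen])

theorem step0 (h : One G m) : ∃ α' γ', Cfg m P t u α' γ' k ∧ u * α' * u⁻¹ ∈ AA α' t := by
  rcases c.nf' (mul_mem (mul_mem c.u_mem c.α_mem) (inv_mem c.u_mem)) (c.θT h c.αt) with e | e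
  · exact ⟨α, γ, c, e⟩
  have αα : α * α = m := by
    have h1 := c.gt_sq h e
    rw [conj_mul, mul_inv_eq_iff_eq_mul, ← h.cen] at h1
    exact mul_left_cancel h1
  have hk : k = 2 := by
    have h1 := ord_of h (n := 1) (x := α) (by rw [pow_one, sq, αα])
    rw [c.ord] at h1
    exact Nat.pow_right_injective le_rfl h1
  subst hk
  have hθ := c.θθ α
  have hgP : u * α * u⁻¹ ∈ P := mul_mem (mul_mem c.u_mem c.α_mem) (inv_mem c.u_mem)
  obtain ⟨g, hgd⟩ : ∃ g, u * α * u⁻¹ = g := ⟨_, rfl⟩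
  rw [hgd] at hgP hθ e
  have h1 : γ⁻¹ * (α * g) ∈ AA α t := by
    have h2 : γ⁻¹ * α * γ = α⁻¹ := by
      rw [mul_assoc, inv_mul_eq_iff_eq_mul, mul_inv_eq_iff_eq_mul.1 (c.invA (inv_mem (α_AA α t))), inv_inv]
    convert mul_mem (h2 ▸ inv_mem (α_AA α t) : γ⁻¹ * α * γ ∈ AA α t) e using 1
    group
  have h2 := c.gt_sq h h1
  have h3 := c.gt_t h1
  have hm : m ∈ AA (α * g) t := h2 ▸ mul_mem (α_AA _ t) (α_AA _ t)
  have gα : ∀ i : ℤ, g * α ^ i = (α ^ i)⁻¹ * g := fun i =>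
    mul_inv_eq_iff_eq_mul.1 (c.gt_inv e (zpow_mem (α_AA α t) i))
  have αi : α⁻¹ = α * m := inv_eq_of_mul_eq_one_right (by rw [← mul_assoc, αα, h.sq])
  have gα1 : g * α = α * g * m := by
    have := gα 1
    rwa [zpow_one, αi, mul_assoc α, ← h.cen, ← mul_assoc] at this
  have key : ∀ (i : ℤ), ∀ z ∈ AA (α * g) t, α ^ i * z ∈ AA (α * g) t ∨ α⁻¹ * (α ^ i * z) ∈ AA (α * g) t := by
    intro i z hz
    rcases Int.even_or_odd' i with ⟨j, rfl | rfl⟩
    · exact Or.inl (by rw [zpow_mul, zpow_two, αα]; exact mul_mem (zpow_mem hm j) hz)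
    · exact Or.inr (by
        rw [add_comm, zpow_add, zpow_one, zpow_mul, zpow_two, αα, mul_assoc, inv_mul_cancel_left]
        exact mul_mem (zpow_mem hm j) hz)
  refine ⟨α * g, α, { c with
    α_mem := mul_mem c.α_mem hgP
    γ_mem := c.α_mem
    ord := ord_of h (n := 1) (by rw [pow_one, sq, h2])
    αm := by rw [← h2, ← sq]; rfl
    αt := h3
    γt := c.αt
    γγ := αα
    γα := by
      rw [eq_inv_iff_mul_eq_one]
      calc _ = α * α * (g * g) := by group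
        _ = _ := by rw [αα, c.gt_sq h e, h.sq]
    nf := fun y hy e' => nf_of h3 c.rt.sq ?_ }, ?_⟩
  · rcases c.nf' hy e' with h4 | h4
    · obtain ⟨i, rfl | rfl⟩ := c.memA.1 h4
      · simpa using key i 1 (one_mem _)
      · exact key i t (t_AA _ t)
    · have h5 : g⁻¹ * y ∈ AA α t := by convert mul_mem (inv_mem e) h4 using 1; group
      obtain ⟨i, h6 | h6⟩ := c.memA.1 h5 <;> rw [inv_mul_eq_iff_eq_mul] at h6
      · convert key (-i - 1) _ (α_AA _ t) using 2 <;> rw [h6, gα] <;> group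
      · convert key (-i - 1) _ (mul_mem (α_AA _ t) (t_AA _ t)) using 2 <;> rw [h6, ← mul_assoc g, gα] <;> group
  · rw [← conj_mul, hθ, hgd, gα1]
    exact mul_mem (α_AA _ t) hm

theorem main [Finite G] (h : Glob G m) (hθ : u * α * u⁻¹ ∈ AA α t) : ∃ g, γ⁻¹ * g ∈ AA α t ∧ u * g * u⁻¹ = g := by
  have h1 := h.toOne
  have hk := c.two_le
  obtain ⟨a, ha⟩ := c.memA.1 hθ
  obtain ⟨n, hn⟩ := c.memA.1 (c.θγ h1 hθ)
  rcases Int.even_or_odd' n with ⟨n, rfl | rfl⟩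
  swap
  · exact (c.caseA h ⟨n, rfl⟩ hn).elim
  rcases Int.even_or_odd' a with ⟨a, rfl | rfl⟩
  · have h2 := c.θ_even ha (2 ^ (k - 2) : ℕ)
    have h3 : α ^ (2 * ((2 ^ (k - 2) : ℕ) : ℤ)) = m := by
      rw [two_mul, zpow_add, zpow_natCast, c.β_sq]
    rw [mul_comm (2 * a), zpow_mul α (2 * _), h3, h.cen, mul_inv_cancel_right, zpow_mul, zpow_two, h.sq,
      one_zpow] at h2
    exact absurd h2 h.ne_one
  rcases Int.even_or_odd' a with ⟨s, rfl | rfl⟩
  swap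
  · rw [show 2 * (2 * s + 1) + 1 = 4 * s + 3 by ring] at ha
    exact c.caseB h1 ha hn
  rw [show 2 * (2 * s) + 1 = 4 * s + 1 by ring] at ha
  rcases c.caseC h.toTwo ha hn with h2 | ⟨h2, h3⟩
  · exact h2
  have hγα : γ⁻¹ * (γ * α) ∈ AA α t := by simpa using α_AA α t
  have hw := c.θγ h1 hθ
  have e0 : (γ * α)⁻¹ * (u * (γ * α) * u⁻¹) = γ⁻¹ * (u * γ * u⁻¹) * (α⁻¹ * (u * α * u⁻¹)) := by
    rw [← mul_assoc _ α⁻¹, (c.cA hw (inv_mem (α_AA α t))).eq]; group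
  have ct : ∀ j : ℤ, t * α ^ j = α ^ j * t := fun j => ((show Commute α t from c.αt).zpow_left j).eq.symm
  have e1 : α⁻¹ * α ^ (4 * s + 1) = α ^ (4 * s) := by group
  have e2 : α ^ (2 * n) * α ^ (4 * s) = α ^ (2 * (n + 2 * s)) := by group
  rcases (c.chγ h1 hγα).caseC h.toTwo (n := n + 2 * s) ha (by
      rw [e0]
      rcases hn with e | e <;> rcases ha with e' | e' <;> rw [e, e']
      · exact Or.inl (by rw [e1, e2])
      · exact Or.inr (by rw [← mul_assoc α⁻¹, e1, ← mul_assoc, e2])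
      · exact Or.inr (by rw [e1, mul_assoc, ct, ← mul_assoc, e2])
      · exact Or.inl (by rw [← mul_assoc α⁻¹, e1, mul_assoc, ← mul_assoc t, ct, mul_assoc, c.rt.sq, mul_one, e2]))
    with ⟨g, h4, h5⟩ | ⟨-, h4⟩
  · exact ⟨g, by convert mul_mem (α_AA α t) h4 using 1; group, h5⟩
  rw [e0] at h4
  have h5 := (Pm.refl m (α * (γ⁻¹ * (u * γ * u⁻¹))⁻¹)).mul h1 (h4.trans h1 (h3.symm h1))
  have h6 : Pm m (u * α * u⁻¹) α := by convert h5 using 1 <;> group
  rcases h6 with e | e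
  · exact (c.typeI h h2 e h3).elim
  · refine ((c.chα h1).typeI h h2 ?_ (by rwa [c.αt_pow (by omega)])).elim
    rw [← conj_mul, e, c.θt, mul_assoc, ← mul_assoc m, ← h.cen, mul_assoc t, h.sq, mul_one]

end CL.Dv2.Cfg

namespace CL.Dv2

universe u

theorem exists_iii {G : Type u} [Group G] [Finite G] {m : G} (h : Glob G m) {P : Sylow 2 G} {t u α γ : G} {k : ℕ}
    (c : Cfg m P t u α γ k) :
    ∃ α' γ' : G, Cfg m P t u α' γ' k ∧ u * γ' = γ' * u ∧
      ∃ i : ℤ, u * α' * u⁻¹ = α' ^ i ∨ u * α' * u⁻¹ = α' ^ i * t := by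
  obtain ⟨α', γ', c', hθ⟩ := c.step0 h.toOne
  obtain ⟨g, h1, h2⟩ := c'.main h hθ
  exact ⟨α', g, c'.chγ h.toOne h1, mul_inv_eq_iff_eq_mul.1 h2, c'.memA.1 hθ⟩

end CL.Dv2
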