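import Cfsg.Agent.Fgs.Dv2Defs
import Cfsg.Agent.Transfer.Control

/-!
# DV-TRI, part 1: the structure of `C_P(t)` and the two impossible cases
-/

set_option autoImplicit false

open Subgroup

namespace CL.Dv2.Tri

universe u

variable {G : Type u} [Group G]

theorem mem_two {K : Subgroup G} {v : G} (hv : ∀ a ∈ K, v * a * v⁻¹ ∈ K) (h2 : v * v ∈ K) {y : G} :
    y ∈ K ⊔ zpowers v ↔ y ∈ K ∨ ∃ a ∈ K, y = a * v := by
  let S : Subgroup G :=
    { carrier := {y | y ∈ K ∨ ∃ a ∈ K, y = a * v}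
      one_mem' := Or.inl K.one_mem
      mul_mem' := by
        rintro x y (hx | ⟨a, ha, rfl⟩) (hy | ⟨b, hb, rfl⟩)
        · exact Or.inl (K.mul_mem hx hy)
        · exact Or.inr ⟨_, K.mul_mem hx hb, (mul_assoc _ _ _).symm⟩
        · exact Or.inr ⟨_, K.mul_mem ha (hv y hy), by group⟩
        · exact Or.inl (by convert K.mul_mem (K.mul_mem ha (hv b hb)) h2 using 1; group)
      inv_mem' := by
        rintro x (hx | ⟨a, ha, rfl⟩)
        · exact Or.inl (K.inv_mem hx)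
        · exact Or.inr ⟨_, K.mul_mem (K.inv_mem h2) (hv _ (K.inv_mem ha)), by group⟩ }
  refine ⟨fun h => (sup_le (fun _ h => Or.inl h) ((zpowers_le).2 (Or.inr ⟨1, K.one_mem, (one_mul v).symm⟩)) :
    K ⊔ zpowers v ≤ S) h, ?_⟩
  rintro (h | ⟨a, ha, rfl⟩)
  · exact mem_sup_left h
  · exact mul_mem (mem_sup_left ha) (mem_sup_right (mem_zpowers v))

theorem conj_zp {x v : G} (h : v * x * v⁻¹ ∈ zpowers x) : ∀ a ∈ zpowers x, v * a * v⁻¹ ∈ zpowers x := by
  rintro _ ⟨i, rfl⟩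
  exact conj_zpow (a := v) (b := x) (i := i) ▸ zpow_mem h i

theorem mem_odd {x : G} {n : ℕ} (hx : x ^ 2 ^ n = 1) {r : ℤ} (hr : Odd r) : x ∈ zpowers (x ^ r) := by
  rw [mem_zpowers_zpow_iff]
  have h1 : IsCoprime r ((2 : ℤ) ^ n) := (Int.isCoprime_two_right.2 hr).pow_right
  exact Int.isCoprime_iff_gcd_eq_one.1 (h1.of_isCoprime_of_dvd_right (by exact_mod_cast orderOf_dvd_of_pow_eq_one hx))

variable {m : G}

theorem ord_of (h : One G m) {x : G} {n : ℕ} (hx : x ^ 2 ^ n = m) : orderOf x = 2 ^ (n + 1) :=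
  orderOf_eq_prime_pow (hx ▸ h.ne_one) (by rw [pow_succ, pow_mul, hx, sq, h.sq])

theorem inv_uq (h : Two G m) {x : G} {n : ℕ} (hx : x ^ 2 ^ (n + 1) = m) {y : G} (hy : y ∈ zpowers x)
    (h2 : y * y = 1) : y = 1 ∨ y = m := by
  obtain ⟨j, rfl⟩ := hy
  rcases Int.even_or_odd j with ⟨i, rfl⟩ | hj
  · simp only [zpow_add] at h2 ⊢
    exact h.r2 _ h2
  · obtain ⟨i, hi⟩ := mem_odd (n := n + 2) (x := x) (by rw [pow_succ, pow_mul, hx, sq, h.sq]) hj
    have h3 : x ^ 2 = 1 := by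
      simp only at hi h2
      rw [← hi, sq, ← (Commute.refl _).mul_zpow, h2, one_zpow]
    rw [pow_succ', pow_mul, h3, one_pow] at hx
    exact absurd hx.symm h.ne_one

theorem m_zpow (h : One G m) (i : ℤ) : m ^ i = 1 ∨ m ^ i = m := by
  rcases Int.even_or_odd' i with ⟨j, rfl | rfl⟩
  · exact Or.inl (by rw [zpow_mul, zpow_two, h.sq, one_zpow])
  · exact Or.inr (by rw [zpow_add, zpow_mul, zpow_two, h.sq, one_zpow, one_mul, zpow_one])

/-- `⟨α, t⟩` -/
abbrev AA (α t : G) : Subgroup G := zpowers α ⊔ zpowers t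

theorem α_AA (α t : G) : α ∈ AA α t := mem_sup_left (mem_zpowers α)
theorem t_AA (α t : G) : t ∈ AA α t := mem_sup_right (mem_zpowers t)

theorem mem_AA {α t : G} (h1 : α * t = t * α) (h2 : t * t = 1) {y : G} :
    y ∈ AA α t ↔ ∃ i : ℤ, y = α ^ i ∨ y = α ^ i * t := by
  rw [mem_two (conj_zp (by rw [← h1, mul_inv_cancel_right]; exact mem_zpowers α)) (h2 ▸ one_mem _)]
  constructor
  · rintro (⟨i, rfl⟩ | ⟨_, ⟨i, rfl⟩, rfl⟩)
    · exact ⟨i, Or.inl rfl⟩
    · exact ⟨i, Or.inr rfl⟩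
  · rintro ⟨i, rfl | rfl⟩
    · exact Or.inl ⟨i, rfl⟩
    · exact Or.inr ⟨_, ⟨i, rfl⟩, rfl⟩

theorem nf_of {α t γ y : G} (h1 : α * t = t * α) (h2 : t * t = 1) (hy : y ∈ AA α t ∨ γ⁻¹ * y ∈ AA α t) :
    ∃ i : ℤ, y = α ^ i ∨ y = α ^ i * t ∨ y = γ * α ^ i ∨ y = γ * α ^ i * t := by
  rcases hy with hy | hy <;> obtain ⟨i, e | e⟩ := (mem_AA h1 h2).1 hy
  · exact ⟨i, Or.inl e⟩
  · exact ⟨i, Or.inr (Or.inl e)⟩
  · exact ⟨i, Or.inr (Or.inr (Or.inl (inv_mul_eq_iff_eq_mul.1 e)))⟩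
  · exact ⟨i, Or.inr (Or.inr (Or.inr (by rw [mul_assoc]; exact inv_mul_eq_iff_eq_mul.1 e)))⟩

end CL.Dv2.Tri

namespace CL.Dv2.Cfg

open Tri

universe u

variable {G : Type u} [Group G] {m : G} {P : Sylow 2 G} {t u α γ : G} {k : ℕ} (c : Cfg m P t u α γ k)
include c

theorem memA {y : G} : y ∈ AA α t ↔ ∃ i : ℤ, y = α ^ i ∨ y = α ^ i * t := mem_AA c.αt c.rt.sq

theorem nf' {y : G} (hy : y ∈ P) (h : y * t = t * y) : y ∈ AA α t ∨ γ⁻¹ * y ∈ AA α t := by
  obtain ⟨i, e | e | e | e⟩ := c.nf y hy h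
  · exact Or.inl (c.memA.2 ⟨i, Or.inl e⟩)
  · exact Or.inl (c.memA.2 ⟨i, Or.inr e⟩)
  · exact Or.inr (c.memA.2 ⟨i, Or.inl (by rw [e]; group)⟩)
  · exact Or.inr (c.memA.2 ⟨i, Or.inr (by rw [e]; group)⟩)

theorem A_le : AA α t ≤ P := sup_le ((zpowers_le).2 c.α_mem) ((zpowers_le).2 c.t_mem)

theorem m_zp : m ∈ zpowers α := c.αm ▸ npow_mem_zpowers α _

theorem m_A : m ∈ AA α t := mem_sup_left c.m_zp

theorem cA {y z : G} (hy : y ∈ AA α t) (hz : z ∈ AA α t) : Commute y z := by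
  have h : Commute α t := c.αt
  obtain ⟨i, rfl | rfl⟩ := c.memA.1 hy <;> obtain ⟨j, rfl | rfl⟩ := c.memA.1 hz
  · exact Commute.zpow_zpow_self α i j
  · exact (Commute.zpow_zpow_self α i j).mul_right (h.zpow_left i)
  · exact (Commute.zpow_zpow_self α i j).mul_left (h.zpow_left j).symm
  · exact ((Commute.zpow_zpow_self α i j).mul_right (h.zpow_left i)).mul_left
      ((h.zpow_left j).symm.mul_right (Commute.refl t))

theorem invA {y : G} (hy : y ∈ AA α t) : γ * y * γ⁻¹ = y⁻¹ := by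
  have h1 : ∀ i : ℤ, γ * α ^ i * γ⁻¹ = (α ^ i)⁻¹ := fun i => by rw [← conj_zpow, c.γα, inv_zpow]
  obtain ⟨i, rfl | rfl⟩ := c.memA.1 hy
  · exact h1 i
  · rw [← conj_mul, h1, c.γt, mul_inv_cancel_right, mul_inv_rev, c.rt.inv]
    exact ((show Commute α t from c.αt).zpow_left i).inv_left.eq

theorem gt_inv {g y : G} (hg : γ⁻¹ * g ∈ AA α t) (hy : y ∈ AA α t) : g * y * g⁻¹ = y⁻¹ := by
  rw [← c.invA hy]
  calc _ = γ * (γ⁻¹ * g * y * (γ⁻¹ * g)⁻¹) * γ⁻¹ := by group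
    _ = _ := by rw [(c.cA hg hy).eq, mul_inv_cancel_right]

theorem gt_sq (h : One G m) {g : G} (hg : γ⁻¹ * g ∈ AA α t) : g * g = m := by
  calc _ = γ * (γ⁻¹ * g) * γ⁻¹ * (γ * γ) * (γ⁻¹ * g) := by group
    _ = _ := by rw [c.invA hg, c.γγ, h.cen]; group

theorem gt_t {g : G} (hg : γ⁻¹ * g ∈ AA α t) : g * t = t * g := by
  have := c.gt_inv hg (t_AA α t)
  rwa [c.rt.inv, mul_inv_eq_iff_eq_mul] at this

theorem chγ (h : One G m) {g : G} (hg : γ⁻¹ * g ∈ AA α t) : Cfg m P t u α g k :=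
  { c with
    γ_mem := by simpa using mul_mem c.γ_mem (c.A_le hg)
    γt := c.gt_t hg
    γγ := c.gt_sq h hg
    γα := c.gt_inv hg (α_AA α t)
    nf := fun y hy e => nf_of c.αt c.rt.sq ((c.nf' hy e).imp_right fun h1 => by
      convert mul_mem (inv_mem hg) h1 using 1; group) }

theorem αt_pow {n : ℕ} (hn : 1 ≤ n) : (α * t) ^ 2 ^ n = α ^ 2 ^ n := by
  obtain ⟨n, rfl⟩ := Nat.exists_eq_add_of_le' hn
  rw [(show Commute α t from c.αt).mul_pow, pow_succ' 2 n, pow_mul t, sq, c.rt.sq, one_pow, mul_one]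

theorem AA_αt : AA (α * t) t = AA α t :=
  le_antisymm (sup_le ((zpowers_le).2 (mul_mem (α_AA α t) (t_AA α t))) le_sup_right)
    (sup_le ((zpowers_le).2 (by simpa using mul_mem (α_AA (α * t) t) (inv_mem (t_AA (α * t) t)))) le_sup_right)

theorem chα (h : One G m) : Cfg m P t u (α * t) γ k := by
  have hk := c.two_le
  have h1 : (α * t) ^ 2 ^ (k - 1) = m := by rw [c.αt_pow (by omega), c.αm]
  have h2 : α * t * t = t * (α * t) := by rw [← mul_assoc, ← c.αt]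
  exact { c with
    α_mem := mul_mem c.α_mem c.t_mem
    ord := by rw [ord_of h h1, Nat.sub_add_cancel (by omega)]
    αm := h1
    αt := h2
    γα := c.invA (mul_mem (α_AA α t) (t_AA α t))
    nf := fun y hy e => nf_of h2 c.rt.sq (c.AA_αt ▸ c.nf' hy e) }

theorem θt : u * t * u⁻¹ = t * m := by
  have h1 := c.nrm u c.u_mem
  rcases h1 with e | e
  · rw [mul_inv_eq_iff_eq_mul, c.ut] at e
    exact absurd (by simpa using e) fun e' : m = 1 => by
      have := c.ord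
      have hk := c.two_le
      have h2 := orderOf_dvd_of_pow_eq_one (c.αm.trans e')
      rw [this, Nat.pow_dvd_pow_iff_le_right (by decide)] at h2
      omega
  · exact e

theorem split (h : One G m) {y : G} (hy : y ∈ P) : y * t = t * y ∨ y * u⁻¹ * t = t * (y * u⁻¹) := by
  rcases c.nrm y hy with e | e
  · exact Or.inl (mul_inv_eq_iff_eq_mul.1 e)
  · refine Or.inr (mul_inv_eq_iff_eq_mul.1 ?_)
    have h1 : u⁻¹ * t * u = t * m := by have := c.θt; rwa [c.ru.inv] at this ⊢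
    calc _ = y * (u⁻¹ * t * u) * y⁻¹ := by group
      _ = y * t * y⁻¹ * m := by rw [h1, mul_assoc _ y⁻¹, h.cen y⁻¹]; group
      _ = _ := by rw [e, mul_assoc, h.sq, mul_one]

theorem θθ (y : G) : u * (u * y * u⁻¹) * u⁻¹ = y := by
  calc _ = u * u * y * (u * u)⁻¹ := by group
    _ = _ := by rw [c.ru.sq]; group

theorem θT (h : One G m) {y : G} (e : y * t = t * y) : u * y * u⁻¹ * t = t * (u * y * u⁻¹) := by
  have h1 : Commute (u * y * u⁻¹) (u * t * u⁻¹) := by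
    show _ = _
    rw [conj_mul, conj_mul, e]
  rw [c.θt] at h1
  have h2 := h1.mul_right (show Commute _ m from h.cen _)
  rwa [mul_assoc t, h.sq, mul_one] at h2

theorem θA (h : One G m) (hθ : u * α * u⁻¹ ∈ AA α t) {y : G} (hy : y ∈ AA α t) : u * y * u⁻¹ ∈ AA α t := by
  obtain ⟨i, rfl | rfl⟩ := c.memA.1 hy
  · rw [← conj_zpow]; exact zpow_mem hθ i
  · rw [← conj_mul, ← conj_zpow, c.θt]
    exact mul_mem (zpow_mem hθ i) (mul_mem (t_AA α t) c.m_A)

theorem pow_k : α ^ 2 ^ k = 1 := c.ord ▸ pow_orderOf_eq_one α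

theorem uq (h : Two G m) {y : G} (hy : y ∈ zpowers α) (h2 : y * y = 1) : y = 1 ∨ y = m := by
  have hk := c.two_le
  exact inv_uq h (n := k - 2) (by rw [← c.αm]; congr 2; omega) hy h2

theorem t_notMem (h : Two G m) : t ∉ zpowers α := fun e => (c.uq h e c.rt.sq).elim c.rt.ne_one c.rt.ne_m

theorem β_sq : α ^ 2 ^ (k - 2) * α ^ 2 ^ (k - 2) = m := by
  have hk := c.two_le
  rw [← sq, ← pow_mul, ← pow_succ, ← c.αm]; congr 2; omega

theorem γ_notMem (h : One G m) : γ ∉ AA α t := fun e => by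
  have h1 := c.γα
  rw [(c.cA e (α_AA α t)).eq, mul_inv_cancel_right, eq_inv_iff_mul_eq_one, ← sq] at h1
  have h2 := orderOf_dvd_of_pow_eq_one h1
  have hk := c.two_le
  rw [c.ord] at h2
  have := (Nat.pow_dvd_pow_iff_le_right (k := k) (l := 1) (by decide : 1 < 2)).1 h2
  omega

theorem θγ (h : One G m) (hθ : u * α * u⁻¹ ∈ AA α t) : γ⁻¹ * (u * γ * u⁻¹) ∈ AA α t :=
  (c.nf' (mul_mem (mul_mem c.u_mem c.γ_mem) (inv_mem c.u_mem)) (c.θT h c.γt)).resolve_left fun e =>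
    c.γ_notMem h (c.θθ γ ▸ c.θA h hθ e)

variable [Finite G]

/-- Case (A). -/
theorem caseA (h : Glob G m) {n : ℤ} (hn : Odd n)
    (hw : γ⁻¹ * (u * γ * u⁻¹) = α ^ n ∨ γ⁻¹ * (u * γ * u⁻¹) = α ^ n * t) : False := by
  have hk := c.two_le
  have hwA := c.memA.2 ⟨n, hw⟩
  set w := γ⁻¹ * (u * γ * u⁻¹) with hwd
  have hx2 : u * γ * (u * γ) = w⁻¹ * m := by
    rw [← c.invA hwA, ← c.γγ, hwd, c.ru.inv]; group
  have hww : w * w = (α * α) ^ n := by
    have h1 : Commute (α ^ n) t := (show Commute α t from c.αt).zpow_left n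
    rw [(Commute.refl α).mul_zpow]
    rcases hw with e | e <;> rw [e]
    rw [mul_assoc, ← mul_assoc t, ← h1.eq, mul_assoc, c.rt.sq, mul_one]
  have hx : (u * γ) ^ 2 ^ (k - 1 + 1) = m := by
    obtain ⟨j, rfl⟩ := hn
    obtain ⟨l, rfl⟩ := Nat.exists_eq_add_of_le' hk
    have h1 : (α * α) ^ 2 ^ l = m := by rw [← sq, ← pow_mul, ← pow_succ']; exact c.αm
    have h2 : w⁻¹ * m * (w⁻¹ * m) = (w * w)⁻¹ := by
      rw [mul_assoc, ← mul_assoc m, ← h.cen, mul_assoc w⁻¹, h.sq]; group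
    rw [show l + 2 - 1 + 1 = 1 + (1 + l) by omega, pow_add, pow_add, pow_one, pow_mul, pow_mul, sq, sq, hx2, h2, hww,
      inv_pow, ← zpow_natCast, ← zpow_mul, mul_comm, zpow_mul, zpow_natCast, h1, zpow_add, zpow_mul, zpow_two, h.sq,
      one_zpow, one_mul, zpow_one, h.inv_m]
  have hv2 : u * t * (u * t) = m := by
    calc _ = u * t * u⁻¹ * (u * u) * t := by group
      _ = _ := by rw [c.θt, c.ru.sq, mul_one, mul_assoc, ← h.cen, ← mul_assoc, c.rt.sq, one_mul]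
  have htu : t * u * t⁻¹ = u * m := by
    rw [mul_inv_eq_iff_eq_mul, mul_assoc, ← h.cen, ← mul_assoc, c.ut, mul_assoc, h.sq, mul_one]
  have htx : t * (u * γ) * t⁻¹ = u * γ * m := by
    rw [← conj_mul, htu, ← c.γt, mul_inv_cancel_right, mul_assoc, ← h.cen, mul_assoc]
  have hvx : u * t * (u * γ) * (u * t)⁻¹ = (u * γ)⁻¹ := by
    calc _ = u * (t * (u * γ) * t⁻¹) * u⁻¹ := by group
      _ = u * u * γ⁻¹ * (γ * γ * m) * u⁻¹ := by rw [htx]; group
      _ = _ := by rw [c.γγ, h.sq, c.ru.sq]; group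
  have hm : m ∈ zpowers (u * γ) := hx ▸ npow_mem_zpowers _ _
  have hM : ∀ {y}, y ∈ zpowers (u * γ) ⊔ zpowers (u * t) ↔ _ :=
    mem_two (conj_zp (by rw [hvx]; exact inv_mem (mem_zpowers _))) (hv2 ▸ hm)
  set M := zpowers (u * γ) ⊔ zpowers (u * t)
  have hnr : ∀ y ∈ M, ¬ Rf m y := by
    intro y hy hr
    rcases hM.1 hy with h1 | ⟨_, ⟨i, rfl⟩, rfl⟩
    · exact (inv_uq h.toTwo hx h1 hr.sq).elim hr.ne_one hr.ne_m
    · refine h.ne_one (Eq.trans ?_ hr.sq)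
      have h1 : u * t * (u * γ) ^ i * (u * t)⁻¹ = ((u * γ) ^ i)⁻¹ := by rw [← conj_zpow, hvx, inv_zpow]
      calc m = (u * γ) ^ i * ((u * γ) ^ i)⁻¹ * (u * t * (u * t)) := by rw [hv2]; group
        _ = _ := by rw [← h1]; group
  have hxM : u * γ ∈ M := mem_sup_left (mem_zpowers _)
  have hvM : u * t ∈ M := mem_sup_right (mem_zpowers _)
  have hmM : m ∈ M := mem_sup_left hm
  have htM : ∀ a ∈ M, t * a * t⁻¹ ∈ M := by
    have : M ≤ M.comap (MulAut.conj t).toMonoidHom := sup_le ((zpowers_le).2 (show t * (u * γ) * t⁻¹ ∈ M from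
      htx ▸ mul_mem hxM hmM)) ((zpowers_le).2 (show t * (u * t) * t⁻¹ ∈ M by
        rw [← conj_mul, htu, mul_inv_cancel_right, mul_assoc, ← h.cen, ← mul_assoc]; exact mul_mem hvM hmM))
    exact fun a ha => this ha
  have hN : (P : Subgroup G) ≤ M ⊔ zpowers t := by
    have h1 : t ∈ M ⊔ zpowers t := mem_sup_right (mem_zpowers t)
    have h2 : u ∈ M ⊔ zpowers t := by simpa using mul_mem (mem_sup_left hvM) (inv_mem h1)
    have h3 : γ ∈ M ⊔ zpowers t := by simpa using mul_mem (inv_mem h2) (mem_sup_left hxM)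
    have h4 : w ∈ M ⊔ zpowers t := mul_mem (inv_mem h3) (mul_mem (mul_mem h2 h3) (inv_mem h2))
    have h5 : α ^ n ∈ M ⊔ zpowers t := by
      rcases hw with e | e <;> rw [e] at h4
      · exact h4
      · simpa using mul_mem h4 (inv_mem h1)
    have h6 : AA α t ≤ M ⊔ zpowers t :=
      sup_le ((zpowers_le).2 ((zpowers_le).2 h5 (mem_odd c.pow_k hn))) le_sup_right
    have h7 : ∀ y ∈ P, y * t = t * y → y ∈ M ⊔ zpowers t := fun y hy e =>
      (c.nf' hy e).elim (fun e => h6 e) fun e => by simpa using mul_mem h3 (h6 e)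
    intro y hy
    rcases c.split h.toOne hy with e | e
    · exact h7 y hy e
    · simpa using mul_mem (h7 _ (mul_mem hy (inv_mem c.u_mem)) e) h2
  obtain ⟨N, -, h1, -⟩ := Transfer.thompson_transfer (P : Subgroup G) M (Transfer.odd_index_sylow_two P)
    (relIndex_eq_two_iff_exists_notMem_and.2 ⟨t, c.t_mem, fun e => hnr t e c.rt, fun b hb => by
      rcases (mem_two htM (c.rt.sq ▸ one_mem _)).1 (hN hb) with e | ⟨a, ha, rfl⟩
      · exact Or.inr e
      · exact Or.inl (by rwa [mul_assoc, c.rt.sq, mul_one])⟩) t (by rw [sq, c.rt.sq])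
    fun g e => hnr _ e (c.rt.conj h.toOne g)
  exact h.idx N h1

/-- A subgroup of index two of `C(t)` that does not contain `t`. -/
theorem exists_idx (h : Two G m) : ∃ N : Subgroup G, t ∉ N ∧ (∀ y, y * t = t * y → y * y ∈ N) ∧
    ∀ g, g * t = t * g → ∀ y ∈ N, g * y * g⁻¹ ∈ N := by
  have hK : ∀ {y}, y ∈ zpowers α ⊔ zpowers γ ↔ _ :=
    mem_two (conj_zp (by rw [c.γα]; exact inv_mem (mem_zpowers _))) (c.γγ ▸ c.m_zp)
  have htK : t ∉ zpowers α ⊔ zpowers γ := fun e => by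
    rcases hK.1 e with h1 | ⟨a, ha, h1⟩
    · exact c.t_notMem h h1
    · exact c.γ_notMem h.toOne (by simpa [h1] using mul_mem (inv_mem (mem_sup_left ha)) (t_AA α t))
  set C := centralizer ({t} : Set G) with hC
  have htC : t ∈ C := mem_centralizer_singleton_iff.2 rfl
  have two : ∀ S : Subgroup G, u ∈ S → S ≤ stab h.toOne t → C.relIndex S = 2 := fun S hu hS =>
    relIndex_eq_two_iff_exists_notMem_and.2 ⟨u, hu, fun e => h.toOne.ne_mul _
      ((mem_centralizer_singleton_iff.1 e).symm.trans c.ut), fun b hb => by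
        rcases hS hb with e | e
        · exact Or.inr (mem_centralizer_singleton_iff.2 (mul_inv_eq_iff_eq_mul.1 e))
        · refine Or.inl (mem_centralizer_singleton_iff.2 (mul_inv_eq_iff_eq_mul.1 ?_))
          calc _ = b * (u * t * u⁻¹) * b⁻¹ := by group
            _ = b * t * b⁻¹ * m := by rw [c.θt, mul_assoc _ b⁻¹, h.cen b⁻¹]; group
            _ = _ := by rw [e, mul_assoc, h.sq, mul_one]⟩
  have hPS : (P : Subgroup G) ≤ stab h.toOne t := c.nrm
  have hCS : C ≤ stab h.toOne t := fun y hy => Or.inl (mul_inv_eq_iff_eq_mul.2 (mem_centralizer_singleton_iff.1 hy))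
  have h1 := relIndex_mul_relIndex (C ⊓ P) C _ inf_le_left hCS
  have h2 := relIndex_mul_relIndex (C ⊓ P) P _ inf_le_right hPS
  rw [two _ (hPS c.u_mem) le_rfl, inf_relIndex_left] at h1
  rw [inf_relIndex_right, two _ c.u_mem hPS, ← h1, mul_comm] at h2
  have h3 : Odd ((P : Subgroup G).subgroupOf C).index := by
    show Odd ((P : Subgroup G).relIndex C)
    rw [← Nat.eq_of_mul_eq_mul_right two_pos h2]
    exact (Transfer.odd_index_sylow_two P).of_dvd_nat (relIndex_dvd_index_of_le hPS)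
  obtain ⟨N, hN, h4, h5⟩ := Transfer.thompson_transfer _ ((zpowers α ⊔ zpowers γ).subgroupOf C) h3
    (relIndex_eq_two_iff_exists_notMem_and.2 ⟨⟨t, htC⟩, c.t_mem, htK, fun b hb => by
      have hα : ∀ i : ℤ, α ^ i ∈ zpowers α ⊔ zpowers γ := fun i => mem_sup_left (zpow_mem_zpowers α i)
      have hγ : γ ∈ zpowers α ⊔ zpowers γ := mem_sup_right (mem_zpowers γ)
      simp only [mem_subgroupOf, coe_mul]
      obtain ⟨i, e | e | e | e⟩ := c.nf b hb (mem_centralizer_singleton_iff.1 b.2) <;> rw [e]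
      · exact Or.inr (hα i)
      · exact Or.inl (by rw [mul_assoc, c.rt.sq, mul_one]; exact hα i)
      · exact Or.inr (mul_mem hγ (hα i))
      · exact Or.inl (by rw [mul_assoc, c.rt.sq, mul_one]; exact mul_mem hγ (hα i))⟩)
    ⟨t, htC⟩ (Subtype.ext (by simp [sq, c.rt.sq])) fun g e => htK (by
      have h6 : (g : G) * t * (g : G)⁻¹ ∈ zpowers α ⊔ zpowers γ := e
      rwa [mem_centralizer_singleton_iff.1 g.2, mul_inv_cancel_right] at h6)
  refine ⟨N.map C.subtype, fun ⟨y, hy, e⟩ => h5 ((Subtype.ext e : y = ⟨t, htC⟩) ▸ hy), fun y hy =>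
    ⟨_, mul_self_mem_of_index_two h4 ⟨y, mem_centralizer_singleton_iff.2 hy⟩, rfl⟩, ?_⟩
  rintro g hg _ ⟨y, hy, rfl⟩
  exact ⟨_, hN.conj_mem y hy ⟨g, mem_centralizer_singleton_iff.2 hg⟩, rfl⟩

end CL.Dv2.Cfg
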