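/-
An element of prime order `p > 3` whose conjugates generate a finite solvable group fixes less than half of every
faithful irreducible module (Flavell).
-/
import Cfsg.Agent.Fgs.FixDimA
import Cfsg.Agent.Fgs.HHA
import Cfsg.Agent.Perm.Module

set_option autoImplicit false

namespace CL.Fgs.FD

open Cfsg Subgroup Module CL.Grp CL.Fgs.HH Polynomial
open scoped commutatorElement TensorProduct

universe u v

variable {K : Type*} [Field K] {G : Type*} [Group G]

theorem exists_min_normal [Finite G] {M : Subgroup G} (h : M ≠ ⊤) :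
    ∃ U : Subgroup G, U.Normal ∧ ¬ U ≤ M ∧ ∀ U' : Subgroup G, U'.Normal → U' < U → U' ≤ M := by
  obtain ⟨U, ⟨h1, h2⟩, h3⟩ := WellFounded.has_min (wellFounded_lt (α := Subgroup G)) {U | U.Normal ∧ ¬ U ≤ M}
    ⟨⊤, inferInstance, fun e => h (top_le_iff.1 e)⟩
  exact ⟨U, h1, h2, fun U' hn hlt => by_contra fun e => h3 U' ⟨hn, e⟩ hlt⟩

/-- The fixed point ratio in a transitive action of a solvable group. -/
theorem fpr [Finite G] [Group.IsSolvable G] {Ω : Type*} [Finite Ω] [Nontrivial Ω] [MulAction G Ω]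
    [MulAction.IsPretransitive G Ω] {x : G} {p : ℕ} (hp : Odd p) (hx : x ^ p = 1)
    (hgen : normalClosure ({x} : Set G) = ⊤) : 3 * Nat.card {ω : Ω // x • ω = ω} ≤ Nat.card Ω := by
  classical
  obtain ⟨ω₀, ω₁, hne⟩ := exists_pair_ne Ω
  obtain ⟨M, hM, hle⟩ := (eq_top_or_exists_le_coatom (MulAction.stabilizer G ω₀)).resolve_left fun e => by
    obtain ⟨g, rfl⟩ := MulAction.exists_smul_eq G ω₀ ω₁
    exact hne (show g ∈ MulAction.stabilizer G ω₀ from e ▸ mem_top g).symm
  have hfix : ∀ ω : Ω, ∃ g : G, ∀ y : G, y • ω = ω → g⁻¹ * y * g ∈ M := fun ω => by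
    obtain ⟨g, rfl⟩ := MulAction.exists_smul_eq G ω₀ ω
    exact ⟨g, fun y hy => hle (by rw [MulAction.mem_stabilizer_iff, mul_smul, mul_smul, hy, inv_smul_smul])⟩
  obtain ⟨U, hUn, hUM, hmin⟩ := exists_min_normal hM.1
  have hU0 : U ≠ ⊥ := fun e => hUM (e ▸ bot_le)
  have hUU : ⁅U, U⁆ ≤ M := hmin _ inferInstance (Group.IsSolvable.commutator_lt_of_ne_bot hU0)
  have htop : U ⊔ M = ⊤ := sup_eq_top_of_isCoatom hM hUM
  haveI hL : (U ⊓ M).Normal := normal_of_sup_le_normalizer htop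
    (le_norm_of_der_le (le_inf (commutator_le_self U) hUU) inf_le_left)
    (le_normalizer_inf (by rw [normalizer_eq_top]; exact le_top) le_normalizer)
  set L := U ⊓ M with hLd
  by_cases hc : ∀ u ∈ U, ⁅x, u⁆ ∈ L
  · have h1 : (⊤ : Subgroup G) ≤ Loc.commStab U L := hgen ▸
      normalClosure_le_normal (Set.singleton_subset_iff.2 (Loc.mem_commStab_of_normal.2 hc))
    haveI hMn : M.Normal := normal_of_sup_le_normalizer htop (fun u hu => mem_normalizer_fintype fun m hm => by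
      have := M.mul_mem (M.inv_mem (Loc.mem_commStab_of_normal.1 (h1 (mem_top m)) u hu).2) hm
      simpa [commutatorElement_def, mul_assoc] using this) le_normalizer
    have : IsEmpty {ω : Ω // x • ω = ω} := ⟨fun ⟨ω, hω⟩ => by
      obtain ⟨g, hg⟩ := hfix ω
      have h2 : x ∈ M := by simpa [mul_assoc] using hMn.conj_mem _ (hg x hω) g
      exact hM.1 (top_le_iff.1 (hgen ▸ normalClosure_le_normal (Set.singleton_subset_iff.2 h2)))⟩
    simp
  push Not at hc
  obtain ⟨u, hu, hux⟩ := hc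
  have hxu : ∀ u ∈ U, ⁅x, u⁆ ∈ U := fun u hu => mul_mem (hUn.conj_mem _ hu x) (inv_mem hu)
  have hdis : ∀ a ∈ U, ∀ b ∈ U, ⁅x, a⁻¹ * b⁆ ∉ L → ∀ ω ω' : Ω, x • ω = ω → x • ω' = ω' → a • ω ≠ b • ω' := by
    intro a ha b hb hn ω ω' h1 h2 e
    have e' : ω = (a⁻¹ * b) • ω' := by rw [mul_smul, ← e, inv_smul_smul]
    obtain ⟨g, hg⟩ := hfix ω
    have h3 : ⁅x, a⁻¹ * b⁆ • ω = ω := by
      rw [commutatorElement_def, mul_smul, mul_smul, mul_smul]
      nth_rewrite 1 [e']
      rw [inv_smul_smul, inv_smul_eq_iff.2 h2.symm, ← e', h1]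
    have h4 : g⁻¹ * ⁅x, a⁻¹ * b⁆ * g ∈ L :=
      ⟨by simpa using hUn.conj_mem _ (hxu _ (mul_mem (inv_mem ha) hb)) g⁻¹, hg _ h3⟩
    exact hn (by simpa [mul_assoc] using hL.conj_mem _ h4 g)
  obtain ⟨u', hu', h1, h2⟩ : ∃ u' ∈ U, ⁅x, u'⁆ ∉ L ∧ ⁅x, u⁻¹ * u'⁆ ∉ L := by
    by_cases h2 : ⁅x, u * u⁆ ∈ L
    swap
    · exact ⟨u * u, mul_mem hu hu, h2, by simpa using hux⟩
    refine ⟨x * u * x⁻¹, hUn.conj_mem _ hu x, fun h => hux ?_, fun h => hux ?_⟩
    · simpa [commutatorElement_def, mul_assoc] using hL.conj_mem _ h x⁻¹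
    let π := QuotientGroup.mk' L
    have hπ : ∀ g, π g = 1 ↔ g ∈ L := fun g => QuotientGroup.eq_one_iff g
    have hcm : ∀ a ∈ U, ∀ b ∈ U, Commute (π a) (π b) := fun a ha b hb => by
      rw [← commutatorElement_eq_one_iff_commute, ← map_commutatorElement, hπ]
      exact le_inf (commutator_le_self U) hUU (commutator_mem_commutator ha hb)
    rw [← hπ, map_commutatorElement, commutatorElement_eq_one_iff_commute] at h h2 ⊢
    set w := π (u⁻¹ * (x * u * x⁻¹)) with hw
    have hwu : Commute (π u) w := hcm _ hu _ (mul_mem (inv_mem hu) (hUn.conj_mem _ hu x))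
    have e1 : π x * π u * (π x)⁻¹ = π u * w := by simp [hw]
    have e2 : ∀ n : ℕ, π x ^ n * π u * (π x ^ n)⁻¹ = π u * w ^ n := fun n => by
      induction n with
      | zero => simp
      | succ n ih =>
        calc π x ^ (n + 1) * π u * (π x ^ (n + 1))⁻¹ = π x * (π x ^ n * π u * (π x ^ n)⁻¹) * (π x)⁻¹ := by group
          _ = π x * π u * (π x)⁻¹ * (π x * w ^ n * (π x)⁻¹) := by rw [ih]; group
          _ = _ := by rw [e1, (h.pow_right n).eq]; group
    have e3 : w ^ p = 1 := by simpa [← map_pow, hx] using (e2 p).symm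
    have e4 : w ^ 2 = 1 := by
      have : π x * (π u * π u) * (π x)⁻¹ = π u * π u := by rw [← map_mul, h2.eq]; simp
      rw [show π x * (π u * π u) * (π x)⁻¹ = (π x * π u * (π x)⁻¹) ^ 2 by rw [conj_pow, pow_two], e1, hwu.mul_pow,
        pow_two] at this
      simpa using this
    have e5 := pow_gcd_eq_one.2 ⟨e4, e3⟩
    rw [(Nat.coprime_two_left.2 hp).gcd_eq_one, pow_one] at e5
    rw [e5, mul_one, mul_inv_eq_iff_eq_mul] at e1
    exact e1
  let c : Fin 3 → G := ![1, u, u']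
  have hc : ∀ i j : Fin 3, i < j → ∀ ω ω' : Ω, x • ω = ω → x • ω' = ω' → c i • ω ≠ c j • ω' := fun i j hij => by
    fin_cases i <;> fin_cases j <;> simp at hij
    · exact hdis 1 (one_mem _) u hu (by simpa using hux)
    · exact hdis 1 (one_mem _) u' hu' (by simpa using h1)
    · exact hdis u hu u' hu' h2
  have := Nat.card_le_card_of_injective (fun t : Fin 3 × {ω : Ω // x • ω = ω} => c t.1 • t.2.1)
    fun ⟨i, ω⟩ ⟨j, ω'⟩ e => by
      rcases lt_trichotomy i j with h | rfl | h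
      · exact absurd e (hc i j h _ _ ω.2 ω'.2)
      · exact Prod.ext rfl (Subtype.ext (smul_left_cancel _ e))
      · exact absurd e.symm (hc j i h _ _ ω'.2 ω.2)
  simpa using this

variable {W : Type v} [AddCommGroup W] [Module K W] [FiniteDimensional K W] [Nontrivial W] [IsAlgClosed K]
  [Finite G] {ρ : G →* End K W}

theorem scalar_of_center (hI : Irr ρ) {z : G} (hz : z ∈ center G) : ∃ c : K, ρ z = c • 1 :=
  scalar_of_comm (S := Set.range ρ) (fun U hU => hI U fun g => hU _ ⟨g, rfl⟩) (by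
    rintro _ ⟨g, rfl⟩
    rw [← map_mul, ← map_mul, mem_center_iff.1 hz])

omit [FiniteDimensional K W] [Nontrivial W] [IsAlgClosed K] [Finite G] in
theorem fx_of_scalar {z : G} {c : K} (h : ρ z = c • 1) (hc : c ≠ 1) : fx (ρ z) = 0 := by
  suffices h0 : LinearMap.ker (ρ z - 1) = ⊥ by rw [fx, h0, finrank_bot]
  rw [eq_bot_iff]
  intro v hv
  rw [mem_fix, h] at hv
  by_contra h0
  exact hc (eq_of_wt h0 (hv.trans (one_smul K v).symm))

omit [FiniteDimensional K W] [IsAlgClosed K] [Finite G] in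
theorem scalar_pow {z : G} {c : K} (h : ρ z = c • 1) {n : ℕ} (hz : z ^ n = 1) : c ^ n = 1 :=
  smul_one_inj (U := W) (by
    have := congrArg ρ hz
    rwa [map_pow, h, _root_.smul_pow, one_pow, map_one, ← one_smul K (1 : End K W), smul_smul, mul_one] at this)

/-- A non-central abelian normal subgroup. -/
theorem case_abelian [Group.IsSolvable G] (hI : Irr ρ) (hρ : Function.Injective ρ) {x : G} {p : ℕ} (hp : p.Prime)
    (h5 : 5 ≤ p) (hx : x ^ p = 1) (hgen : normalClosure ({x} : Set G) = ⊤) {Q : Subgroup G} [hQ : Q.Normal]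
    (hab : ∀ a ∈ Q, ∀ b ∈ Q, a * b = b * a) (hZ : ¬ Q ≤ center G) : 2 * fx (ρ x) < finrank K W := by
  obtain ⟨μ, hμ⟩ := exists_wt ρ Q (W := ⊤) top_ne_bot (fun _ _ _ _ => trivial) fun a ha b hb w _ => by
    rw [commutatorElement_eq_one_iff_mul_comm.2 (hab a ha b hb), map_one, End.one_apply]
  rw [inf_top_eq] at hμ
  letI : MulAction G (Q → K) :=
    { smul := fun g χ a => χ ⟨g⁻¹ * a * g, hQ.conj_mem' a a.2 g⟩
      one_smul := fun χ => funext fun a => congrArg χ (Subtype.ext (by simp))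
      mul_smul := fun g h χ => funext fun a => congrArg χ (Subtype.ext (by simp [mul_assoc])) }
  let Ω := MulAction.orbit G (fun a : Q => μ a)
  haveI : Finite Ω := Set.finite_range _
  let U : Ω → Submodule K W := fun χ => ⨅ a : Q, (ρ a).eigenspace (χ.1 a)
  have mU : ∀ χ v, v ∈ U χ ↔ ∀ a : Q, ρ a v = χ.1 a • v := fun χ v => by
    simp [U, Submodule.mem_iInf]
  have hU : ∀ (g : G) χ, ∀ v ∈ U χ, ρ g v ∈ U (g • χ) := fun g χ v hv => (mU _ _).2 fun a => by
    have := (mU _ _).1 hv ⟨g⁻¹ * a * g, hQ.conj_mem' a a.2 g⟩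
    change _ = χ.1 ⟨g⁻¹ * a * g, hQ.conj_mem' a a.2 g⟩ • _
    rw [← map_smul, ← this, ← rho_mul_apply, ← rho_mul_apply]
    congr 2
    group
  have hi : iSupIndep U :=
    ((End.independent_iInf_maxGenEigenspace_of_forall_mapsTo (fun a : Q => ρ a) fun a b φ =>
      End.mapsTo_maxGenEigenspace_of_comm (show ρ b * ρ a = ρ a * ρ b by
        rw [← map_mul, ← map_mul, hab _ a.2 _ b.2]) φ).comp Subtype.val_injective).mono fun χ =>
      iInf_mono fun a => End.genEigenspace_le_maximal _ _ 1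
  have h0 : U ⟨_, MulAction.mem_orbit_self _⟩ ≠ ⊥ := fun e =>
    hμ (eq_bot_iff.2 fun v hv => e ▸ (mU _ _).2 fun a => hv a a.2)
  have ht : iSup U = ⊤ := (hI _ fun g w hw => by
    induction hw using Submodule.iSup_induction' with
    | mem χ w hw => exact Submodule.mem_iSup_of_mem _ (hU g χ w hw)
    | zero => simp
    | add a b _ _ ha hb => rw [map_add]; exact add_mem ha hb).resolve_left
      fun e => h0 (eq_bot_iff.2 (e ▸ le_iSup U _))
  haveI : Nontrivial Ω := by
    by_contra hn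
    haveI := not_nontrivial_iff_subsingleton.1 hn
    have h1 : U ⟨_, MulAction.mem_orbit_self _⟩ = ⊤ :=
      top_le_iff.1 (ht ▸ iSup_le fun χ => (congrArg U (Subsingleton.elim _ _)).le)
    refine hZ fun a ha => mem_center_iff.2 fun g => hρ ?_
    have h2 : ρ a = μ a • 1 := LinearMap.ext fun v => (mU _ v).1 (h1 ▸ Submodule.mem_top) ⟨a, ha⟩
    simp [h2]
  have h1 := imprim ρ U hU hi ht hp hx
  have h2 := fpr (Ω := Ω) (hp.odd_of_ne_two (by omega)) hx hgen
  have h3 : 0 < Nat.card Ω := Nat.card_pos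
  have h4 : 0 < finrank K W := finrank_pos
  generalize Nat.card Ω = n at *
  generalize Nat.card {ω : Ω // x • ω = ω} = f at *
  obtain ⟨r, rfl⟩ : ∃ r, p = r + 5 := ⟨p - 5, by omega⟩
  rw [show r + 5 - 1 = r + 4 from rfl] at h1
  by_contra h
  have h6 : (r + 5) * finrank K W * n ≤ (r + 5) * (2 * fx (ρ x)) * n := by gcongr; omega
  have h7 : (r + 4) * (3 * f) * finrank K W ≤ (r + 4) * n * finrank K W := by gcongr
  nlinarith [Nat.mul_pos h3 h4, Nat.zero_le (r * n * finrank K W)]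

/-- An element whose commutator with some element is central and non-trivial. -/
theorem easy (hI : Irr ρ) (hρ : Function.Injective ρ) {x y : G} {p : ℕ} (hp : p.Prime) (hp2 : p ≠ 2) (hK : (p : K) ≠ 0)
    (hx : x ^ p = 1) (hz : ⁅y, x⁆ ∈ center G) (h1 : ⁅y, x⁆ ≠ 1) : p * fx (ρ x) ≤ finrank K W := by
  have hc : Commute ⁅y, x⁆ x := (mem_center_iff.1 hz x).symm
  have e : y * x * y⁻¹ = ⁅y, x⁆ * x := by simp [commutatorElement_def]
  have hw : ⁅y, x⁆ ^ p = 1 := by
    have : (⁅y, x⁆ * x) ^ p = 1 := by rw [← e, conj_pow, hx]; simp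
    rwa [hc.mul_pow, hx, mul_one] at this
  obtain ⟨c, hcs⟩ := scalar_of_center hI hz
  have := (pg ρ hp hp2 hK (z := 1) (one_mem _) e (by rw [mem_center_iff.1 hz y]; simp) hc.eq hx hw (ζ := 1)
    (by simp) (one_pow p)).1 rfl
  rwa [fx_of_scalar hcs fun e => h1 (hρ (by simp [hcs, e])), mul_zero, add_zero] at this

theorem eight_le {p q j : ℕ} (hp' : p.Prime) (hp : 5 ≤ p) (hq : q.Prime) (hj : j ≠ 0) (h : q ^ j ≡ 1 [MOD p]) : 8 ≤ q ^ j := by
  have h1 : 1 < q ^ j := Nat.one_lt_pow hj hq.one_lt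
  have h2 := Nat.le_of_dvd (by omega) ((Nat.modEq_iff_dvd' h1.le).1 h.symm)
  by_contra h3
  obtain h4 | h4 : q ^ j = 6 ∨ q ^ j = 7 := by omega
  · have a2 := (Nat.prime_dvd_prime_iff_eq Nat.prime_two hq).1 (Nat.prime_two.dvd_of_dvd_pow (n := j) (by rw [h4]; norm_num))
    have a3 := (Nat.prime_dvd_prime_iff_eq Nat.prime_three hq).1 (Nat.prime_three.dvd_of_dvd_pow (n := j) (by rw [h4]; norm_num))
    omega
  · have h5 := (Nat.modEq_iff_dvd' h1.le).1 h.symm
    rw [h4] at h5 h2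
    obtain rfl | rfl : p = 5 ∨ p = 6 := by omega
    · omega
    · exact absurd hp' (by norm_num)

theorem faithful [Group.IsSolvable G] (ℓ : ℕ) [Fact ℓ.Prime] [CharP K ℓ] (hI : Irr ρ) (hρ : Function.Injective ρ)
    {x : G} {p : ℕ} (hp : p.Prime) (h5 : 5 ≤ p) (hx : x ^ p = 1) (h1 : x ≠ 1)
    (hgen : normalClosure ({x} : Set G) = ⊤) : 2 * fx (ρ x) < finrank K W := by
  have hn : 0 < finrank K W := finrank_pos
  have hp2 : p ≠ 2 := by omega
  by_cases hxZ : x ∈ center G
  · obtain ⟨c, hc⟩ := scalar_of_center hI hxZ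
    rwa [fx_of_scalar hc fun e => h1 (hρ (by simp [hc, e]))]
  obtain ⟨Q, hQn, hQZ, hmin⟩ := exists_min_normal (M := center G) fun e => hxZ (e ▸ mem_top x)
  have hQ0 : Q ≠ ⊥ := fun e => hQZ (e ▸ bot_le)
  have hQQ : ⁅Q, Q⁆ ≤ center G := hmin _ inferInstance (Group.IsSolvable.commutator_lt_of_ne_bot hQ0)
  have hnil : Group.IsNilpotent Q := isNilpotent_of_commutator_commutator_eq_bot
    (commutator_eq_bot_iff_le_centralizer.2 (hQQ.trans (center_le_centralizer _)))
  obtain ⟨q, hq, hQ⟩ : ∃ q : ℕ, q.Prime ∧ IsPGroup q Q := by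
    by_contra h
    push Not at h
    refine hQZ ?_
    rw [← fittingOf_eq_self hnil, fittingOf_eq_iSup_pCoreOf]
    exact iSup_le fun q => hmin _ inferInstance
      (lt_of_le_of_ne (pCoreOf_le _ _) fun e => h q q.2 (pCoreOf_eq_self_iff.1 e))
  haveI := Fact.mk hq
  haveI := Fact.mk hp
  have hqK : (q : K) ≠ 0 := fun e => by
    obtain rfl := (Nat.prime_dvd_prime_iff_eq Fact.out hq).1 ((CharP.cast_eq_zero_iff K ℓ q).1 e)
    obtain ⟨v, -, hv, h⟩ := Perm.exists_ne_zero_fixed_of_isPGroup hQ (ρ.comp Q.subtype) ⊤ (fun _ _ _ => trivial)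
      top_ne_bot
    have h2 := (hI (wt ρ Q fun _ => 1) fun g w hw a ha => by
      rw [rho_conj_wt (hQn.conj_mem' a ha g) hw]).resolve_left fun e =>
        hv (e.le (show v ∈ wt ρ Q fun _ => 1 from fun a ha => (h ⟨a, ha⟩).trans (one_smul K v).symm))
    refine hQ0 (eq_bot_iff.2 fun a ha => hρ ?_)
    rw [map_one]
    exact LinearMap.ext fun w => ((h2 ▸ Submodule.mem_top : w ∈ wt ρ Q fun _ => 1) a ha).trans (one_smul K w)
  have hxC : ¬ Q ≤ centralizer {x} := fun h => hQZ fun a ha => mem_center_iff.2 fun g => by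
    have : (⊤ : Subgroup G) ≤ centralizer (Q : Set G) := hgen ▸ normalClosure_le_normal
      (Set.singleton_subset_iff.2 (mem_centralizer_iff.2 fun b hb => mem_centralizer_singleton_iff.1 (h hb)))
    exact (mem_centralizer_iff.1 (this (mem_top g)) a ha).symm
  by_cases hab : Q ≤ centralizer (Q : Set G)
  · exact case_abelian hI hρ hp h5 hx hgen (fun a ha b hb => mem_centralizer_iff.1 (hab hb) a ha) hQZ
  have hrad : ∀ t ∈ Q, t ∉ center G → ∃ h ∈ Q, ⁅h, t⁆ ≠ 1 := fun t ht htZ => by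
    by_contra h
    push Not at h
    exact htZ (hmin (Q ⊓ centralizer (Q : Set G)) inferInstance (inf_lt_left.2 hab)
      ⟨ht, mem_centralizer_iff.2 fun a ha => commutatorElement_eq_one_iff_mul_comm.1 (h a ha)⟩)
  have hcQ : ∀ t ∈ Q, ⁅t, x⁆ ∈ Q := fun t ht => by
    simpa [commutatorElement_def, mul_assoc] using mul_mem ht (hQn.conj_mem _ (inv_mem ht) x)
  have hzp : IsPGroup p (zpowers x) := IsPGroup.of_card (n := 1) (by
    rw [Nat.card_zpowers, orderOf_eq_prime hx h1, pow_one])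
  have hNQ : ∀ H : Subgroup G, H ≤ normalizer (Q : Set G) := fun H => by rw [normalizer_eq_top]; exact le_top
  by_cases hqp : q = p
  · subst hqp
    obtain ⟨y, hy, hyx, h⟩ := exists_central_mod (B := Q ⊔ zpowers x) (T := Q)
      (hQ.to_sup_of_normal_left hzp).isNilpotent le_sup_left (hNQ _) hxC
    have hc : Commute ⁅y, x⁆ x := mem_centralizer_singleton_iff.1 (h x (mem_sup_right (mem_zpowers x)))
    have hw1 : ⁅y, x⁆ ≠ 1 := fun e => hyx (mem_centralizer_singleton_iff.2 (commutatorElement_eq_one_iff_mul_comm.1 e))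
    by_cases hwZ : ⁅y, x⁆ ∈ center G
    · have := easy hI hρ hp hp2 hqK hx hwZ hw1
      nlinarith
    have e : y * x * y⁻¹ = ⁅y, x⁆ * x := by simp [commutatorElement_def]
    have hw : ⁅y, x⁆ ^ q = 1 := by
      have : (⁅y, x⁆ * x) ^ q = 1 := by rw [← e, conj_pow, hx]; simp
      rwa [hc.mul_pow, hx, mul_one] at this
    have hwQ := hcQ y hy
    generalize ⁅y, x⁆ = w at *
    have hz : ⁅y, w⁆ ∈ center G := hQQ (commutator_mem_commutator hy hwQ)
    have e' : y * w * y⁻¹ = ⁅y, w⁆ * w := by simp [commutatorElement_def]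
    have hzq : ⁅y, w⁆ ^ q = 1 := by
      have : (⁅y, w⁆ * w) ^ q = 1 := by rw [← e', conj_pow, hw]; simp
      rwa [(show Commute ⁅y, w⁆ w from (mem_center_iff.1 hz w).symm).mul_pow, hw, mul_one] at this
    obtain ⟨ζ, hζ⟩ := scalar_of_center hI hz
    obtain ⟨a1, a2⟩ := pg ρ hp hp2 hqK hz e e' hc.eq hx hw hζ (scalar_pow hζ hzq)
    obtain ⟨v, hv, hv1⟩ := hrad w hwQ hwZ
    have a3 := easy hI hρ hp hp2 hqK hw (hQQ (commutator_mem_commutator hv hwQ)) hv1
    have a4 : q * fx (ρ x) ≤ 2 * finrank K W := by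
      by_cases h : ζ = 1
      · have := a1 h; omega
      · exact a2 h
    nlinarith
  have hcop : p.Coprime (Nat.card Q) := coprime_card_of_ne hp hq (Ne.symm hqp) hQ
  set A := Q ⊓ center G with hA
  let π := QuotientGroup.mk' A
  set B := Q ⊓ (centralizer ((zpowers (π x) : Subgroup _) : Set (G ⧸ A))).comap π with hB
  have mB : ∀ t ∈ Q, t ∈ B ↔ ⁅x, t⁆ ∈ A := fun t ht => by
    rw [hB, mem_inf, and_iff_right ht, mem_comap, ← QuotientGroup.eq_one_iff (N := A), zpowers_eq_closure,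
      centralizer_closure, mem_centralizer_singleton_iff]
    change _ ↔ π ⁅x, t⁆ = 1
    rw [map_commutatorElement, commutatorElement_eq_one_iff_mul_comm, eq_comm]
  have hAB : A ≤ B := fun a ha => (mB a ha.1).2 (by
    rw [commutatorElement_eq_one_iff_mul_comm.2 (mem_center_iff.1 ha.2 x)]; exact one_mem _)
  have h8 : 8 * A.relIndex B ≤ A.relIndex Q := by
    have e1 := relIndex_mul_relIndex A B Q hAB inf_le_left
    obtain ⟨j, hj⟩ : ∃ j, B.relIndex Q = q ^ j := hQ.index (B.subgroupOf Q)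
    have e2 := card_modEq_card_inf_centralizer (q := p) (Q := zpowers (π x)) (K := Q.map π)
      (by rw [← MonoidHom.map_zpowers]; exact hzp.map _) (by
        haveI := hQn.map π (QuotientGroup.mk'_surjective A)
        rw [normalizer_eq_top]; exact le_top)
    have e3 : ∀ H : Subgroup G, Nat.card (H.map π) = A.relIndex H := fun H => by
      rw [← relIndex_ker, QuotientGroup.ker_mk']
    have e4 : Q.map π ⊓ centralizer ((zpowers (π x) : Subgroup _) : Set (G ⧸ A)) = B.map π := by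
      refine le_antisymm ?_ (le_inf (map_mono inf_le_left) (map_le_iff_le_comap.2 inf_le_right))
      rintro _ ⟨⟨t, ht, rfl⟩, h⟩
      exact ⟨t, ⟨ht, h⟩, rfl⟩
    rw [e4, e3, e3, ← e1, hj] at e2
    have e5 : (A.relIndex B).Coprime p :=
      (hcop.coprime_dvd_right ((relIndex_dvd_card A B).trans (card_dvd_of_le inf_le_left))).symm
    have e6 : q ^ j ≡ 1 [MOD p] := Nat.ModEq.cancel_left_of_coprime e5.symm (by simpa using e2)
    have e7 : j ≠ 0 := fun e => by
      rw [e, pow_zero, relIndex_eq_one] at hj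
      have := le_centralizer_of_commutator_le_of_le_centralizer (A := zpowers x) (K := Q) (hNQ _)
        (by rwa [Nat.card_zpowers, orderOf_eq_prime hx h1]) (N := A) (by
          rw [← Loc.mem_commStab_iff_zpowers, Loc.mem_commStab_of_normal]
          exact fun t ht => (mB t ht).1 (hj ht))
        (le_centralizer_iff.1 (inf_le_right.trans (center_le_centralizer _)))
      exact hxC fun t ht => mem_centralizer_singleton_iff.2 (mem_centralizer_iff.1 (this (mem_zpowers x)) t ht)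
    rw [← e1, hj, mul_comm]
    exact Nat.mul_le_mul_left _ (eight_le hp h5 hq e7 e6)
  choose! lam hlam using fun z (hz : z ∈ center G) => scalar_of_center hI hz
  let R := Q ⊔ zpowers x
  have hQR : Q ≤ R := le_sup_left
  have hxR : x ∈ R := mem_sup_right (mem_zpowers x)
  have hcQ : Nat.card (Q.subgroupOf R) = Nat.card Q := Nat.card_congr (subgroupOfEquivOfLe hQR).toEquiv
  refine extra (Q := Q.subgroupOf R) (A := A.subgroupOf R) (B := B.subgroupOf R) (x := ⟨x, hxR⟩) ?_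
    (comap_mono inf_le_left) (hcQ ▸ natCast_card_ne_zero hq hQ hqK) (fun g => lam g)
    (fun g hg h hh => ⟨commutator_le_self Q (commutator_mem_commutator hg hh), hQQ (commutator_mem_commutator hg hh)⟩)
    (fun t ht htA => ?_) hp h5 (Subtype.ext hx) (hcQ ▸ hcop) (fun t ht h => (mB t ht).2 h)
    (by rwa [relIndex_subgroupOf (inf_le_left.trans hQR), relIndex_subgroupOf hQR]) (ρ.comp R.subtype)
    fun a ha v => LinearMap.congr_fun (hlam a ha.2) v
  · refine map_injective R.subtype_injective ?_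
    rw [Subgroup.map_sup, map_subgroupOf_eq_of_le hQR, MonoidHom.map_zpowers, top_map_subtype]
    rfl
  · obtain ⟨h, hh, e⟩ := hrad t ht fun e => htA ⟨ht, e⟩
    refine ⟨⟨h, hQR hh⟩, hh, fun e' => e (hρ ?_)⟩
    rw [hlam _ (hQQ (commutator_mem_commutator hh (show (t : G) ∈ Q from ht))), map_one]
    exact (congrArg (· • (1 : End K W)) e').trans (one_smul _ _)

theorem nontriv [Group.IsSolvable G] (ℓ : ℕ) [Fact ℓ.Prime] [CharP K ℓ] (hI : Irr ρ) {x : G} {p : ℕ} (hp : p.Prime)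
    (h5 : 5 ≤ p) (hx : x ^ p = 1) (hxk : x ∉ ρ.ker) (hgen : normalClosure ({x} : Set G) = ⊤) :
    2 * fx (ρ x) < finrank K W := by
  have h1 : normalClosure ({(x : G ⧸ ρ.ker)} : Set (G ⧸ ρ.ker)) = ⊤ := by
    have := map_normalClosure ({x} : Set G) (QuotientGroup.mk' ρ.ker) (QuotientGroup.mk'_surjective _)
    rw [hgen, map_top_of_surjective _ (QuotientGroup.mk'_surjective _), Set.image_singleton] at this
    exact this.symm
  obtain ⟨σ, e⟩ : ∃ σ : G ⧸ ρ.ker →* End K W, ∀ g : G, σ g = ρ g := ⟨QuotientGroup.lift ρ.ker ρ fun _ h => h, fun _ => rfl⟩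
  have hσ : Function.Injective σ := (injective_iff_map_eq_one σ).2 fun g hg => by
    obtain ⟨g, rfl⟩ := QuotientGroup.mk_surjective g
    exact (QuotientGroup.eq_one_iff g).2 ((e g).symm.trans hg)
  have h2 : (x : G ⧸ ρ.ker) ^ p = 1 := by rw [← QuotientGroup.mk_pow, hx]; rfl
  have h3 : Irr σ := fun U hU => hI U fun g => e g ▸ hU g
  rw [← e]
  exact faithful ℓ h3 hσ hp h5 h2 (fun e => hxk ((QuotientGroup.eq_one_iff x).1 e)) h1

omit [IsAlgClosed K] [Nontrivial W] [Finite G] in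
theorem fx_le_bc (ρ : G →* End K W) (x : G) : fx (ρ x) ≤ fx (bc ρ x) := by
  rw [fx, ← finrank_baseChange (R := AlgebraicClosure K)]
  refine LinearMap.finrank_le_finrank_of_injective
    (f := ((LinearMap.ker (ρ x - 1)).subtype.baseChange (AlgebraicClosure K)).codRestrict _ fun t => mem_fix.2 ?_)
    fun a b e => Module.Flat.lTensor_preserves_injective_linearMap (M := AlgebraicClosure K) _
      (LinearMap.ker (ρ x - 1)).injective_subtype (congrArg Subtype.val e)
  induction t using TensorProduct.induction_on with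
  | zero => simp
  | tmul a v =>
    change (ρ x).baseChange _ _ = _
    simp [mem_fix.1 v.2]
  | add a b ha hb => simp only [map_add, ha, hb]

theorem of_sum_zero [Group.IsSolvable G] (ℓ : ℕ) [Fact ℓ.Prime] [CharP K ℓ] {N : Subgroup G} [Fintype N]
    (hN : (Nat.card N : K) ≠ 0) (hsum : ∀ v, ∑ a : N, ρ a v = 0) {x : G} {p : ℕ} (hp : p.Prime) (h5 : 5 ≤ p)
    (hx : x ^ p = 1) (hgen : normalClosure ({x} : Set G) = ⊤) : 2 * fx (ρ x) < finrank K W := by
  refine of_irr x (fun W _ _ ρ => ∀ v, ∑ a : N, ρ a v = 0) (fun W _ _ ρ U hU h => ⟨fun v => Subtype.ext ?_, fun v => ?_⟩)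
    (fun W _ _ _ _ σ hI h => nontriv ℓ hI hp h5 hx (fun hx => ?_) hgen) _ _ ρ rfl hsum
  · rw [Submodule.coe_sum]; exact h v
  · obtain ⟨v, rfl⟩ := U.mkQ_surjective v
    change ∑ a : N, U.mkQ (ρ a v) = 0
    rw [← map_sum, h, map_zero]
  have : (⊤ : Subgroup G) ≤ σ.ker := hgen ▸ normalClosure_le_normal (Set.singleton_subset_iff.2 hx)
  obtain ⟨v, hv⟩ := exists_ne (0 : W)
  have h4 := h v
  simp only [show ∀ a : N, σ a = 1 from fun a => this (mem_top _), End.one_apply, Finset.sum_const,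
    Finset.card_univ, ← Nat.cast_smul_eq_nsmul K, ← Nat.card_eq_fintype_card] at h4
  exact hv ((smul_eq_zero.1 h4).resolve_left hN)

omit [IsAlgClosed K] in
/-- Flavell's theorem over an arbitrary field of positive characteristic. -/
theorem fixdim [Group.IsSolvable G] (ℓ : ℕ) [Fact ℓ.Prime] [CharP K ℓ] (hI : Irr ρ) (hρ : Function.Injective ρ)
    {x : G} {p : ℕ} (hp : p.Prime) (h5 : 5 ≤ p) (hx : x ^ p = 1) (h1 : x ≠ 1)
    (hgen : normalClosure ({x} : Set G) = ⊤) : 2 * fx (ρ x) < finrank K W := by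
  haveI : Nontrivial G := nontrivial_of_ne x 1 h1
  obtain ⟨N, q, hq, hN, hea⟩ := exists_isMinNormal_isElementaryAbelian G
  haveI := hN.normal
  haveI := Fact.mk hq
  haveI := Fintype.ofFinite N
  have hQ := isPGroup_of_isElementaryAbelian hea
  have hfix : wt ρ N (fun _ => 1) = ⊥ := (hI (wt ρ N fun _ => 1) fun g w hw a ha => by
      rw [rho_conj_wt (hN.normal.conj_mem' a ha g) hw]).resolve_right fun e =>
    hN.ne_bot (eq_bot_iff.2 fun a ha => hρ (by
      rw [map_one]
      exact LinearMap.ext fun w => ((e ▸ Submodule.mem_top : w ∈ wt ρ N fun _ => 1) a ha).trans (one_smul K w)))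
  have hqK : (q : K) ≠ 0 := fun e => by
    obtain rfl := (Nat.prime_dvd_prime_iff_eq Fact.out hq).1 ((CharP.cast_eq_zero_iff K ℓ q).1 e)
    obtain ⟨v, -, hv, h⟩ := Perm.exists_ne_zero_fixed_of_isPGroup hQ (ρ.comp N.subtype) ⊤ (fun _ _ _ => trivial)
      top_ne_bot
    exact hv (hfix.le (show v ∈ wt ρ N fun _ => 1 from fun a ha => (h ⟨a, ha⟩).trans (one_smul K v).symm))
  have hsum : ∑ a : N, ρ a = 0 := LinearMap.ext fun v => hfix.le (show _ ∈ wt ρ N fun _ => 1 from fun a ha => by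
    rw [one_smul, ← End.mul_apply, Finset.mul_sum]
    congr 1
    exact Fintype.sum_equiv (Equiv.mulLeft (⟨a, ha⟩ : N)) _ _ fun b => by simp)
  have h3 : finrank (AlgebraicClosure K) (AlgebraicClosure K ⊗[K] W) = finrank K W := finrank_baseChange
  haveI : Nontrivial (AlgebraicClosure K ⊗[K] W) := nontrivial_of_finrank_pos (R := AlgebraicClosure K) (by rw [h3]; exact finrank_pos)
  have h4 := of_sum_zero (ρ := bc ρ) ℓ (natCast_card_ne_zero hq hQ (bc_char hqK))
    (fun v => by rw [← LinearMap.sum_apply, bc_sum hsum, LinearMap.zero_apply]) hp h5 hx hgen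
  have := fx_le_bc ρ x
  omega

end CL.Fgs.FD
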