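/-
Two conjugates of an element of prime order `p ≥ 5` generating an extension of a solvable group by a module.
-/
import Cfsg.Agent.Fgs.FixDimB
import Cfsg.Agent.Fgs.HHThm
import Cfsg.Agent.Loc.HHAbelian

set_option autoImplicit false
set_option linter.unusedSectionVars false

namespace CL.Fgs.FD

open Cfsg Subgroup CL.Grp Module CL.Fgs.HH
open scoped Pointwise commutatorElement

variable {G : Type*} [Group G] [Finite G]

open scoped TensorProduct in
theorem of_sum_zero' {K : Type*} [Field K] {W : Type*} [AddCommGroup W] [Module K W] [FiniteDimensional K W]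
    [Nontrivial W] {ρ : G →* End K W} [Group.IsSolvable G] (ℓ : ℕ) [Fact ℓ.Prime] [CharP K ℓ] {N : Subgroup G}
    [Fintype N] (hN : (Nat.card N : K) ≠ 0) (hsum : ∑ a : N, ρ a = 0) {x : G} {p : ℕ} (hp : p.Prime) (h5 : 5 ≤ p)
    (hx : x ^ p = 1) (hgen : normalClosure ({x} : Set G) = ⊤) : 2 * fx (ρ x) < finrank K W := by
  have h3 : finrank (AlgebraicClosure K) (AlgebraicClosure K ⊗[K] W) = finrank K W := finrank_baseChange
  have : Nontrivial (AlgebraicClosure K ⊗[K] W) :=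
    nontrivial_of_finrank_pos (R := AlgebraicClosure K) (by rw [h3]; exact finrank_pos)
  have h4 := of_sum_zero (ρ := bc ρ) ℓ (bc_char hN)
    (fun v => by rw [← LinearMap.sum_apply, bc_sum hsum, LinearMap.zero_apply]) hp h5 hx hgen
  have := fx_le_bc ρ x
  omega

/-- If a `q`-subgroup `N` without fixed points on the normal subgroup `W` is covered by `B`, a supplement meeting
`W` trivially, then a `W`-conjugate of `B` normalises `N`. -/
theorem exists_conj_norm {W N B : Subgroup G} [W.Normal] {q : ℕ} [Fact q.Prime] (hN : IsPGroup q N)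
    (hq : ¬ q ∣ Nat.card W) (hM : (N ⊔ W).Normal) (hB : B ⊔ W = ⊤) (hd : W ⊓ B = ⊥) :
    ∃ w ∈ W, ∀ b ∈ B, w * b * w⁻¹ ∈ normalizer (N : Set G) := by
  have hNW : ∀ g ∈ N, g ∈ W → g = 1 := fun g h1 h2 => by
    obtain ⟨k, hk⟩ := IsPGroup.iff_orderOf.1 hN ⟨g, h1⟩
    rw [← Subgroup.orderOf_coe] at hk
    have h3 := W.orderOf_dvd_natCard h2
    rcases k with _ | k
    · exact orderOf_eq_one_iff.1 hk
    · exact absurd ((dvd_pow_self q k.succ_ne_zero).trans (hk ▸ h3)) hq
  have hS : IsSylowIn q N (N ⊔ W) := ⟨le_sup_left, hN, fun h => hq (h.trans (by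
    have h1 := card_sup_dvd_of_normal N W
    rw [← (N.subgroupOf (N ⊔ W)).index_mul_card, Nat.card_congr (subgroupOfEquivOfLe le_sup_left).toEquiv,
      mul_comm] at h1
    exact Nat.dvd_of_mul_dvd_mul_left Nat.card_pos h1))⟩
  have hP : IsPGroup q ↥(B ⊓ (N ⊔ W)) := fun ⟨b, hb, hb'⟩ => by
    obtain ⟨n, hn, w, hw, rfl⟩ := mem_sup_of_normal_right.1 hb'
    obtain ⟨k, hk⟩ := hN ⟨n, hn⟩
    refine ⟨k, Subtype.ext ?_⟩
    have h1 : (n * w) ^ q ^ k ∈ W ⊓ B := ⟨(QuotientGroup.eq_one_iff _).1 (by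
      rw [QuotientGroup.mk_pow, QuotientGroup.mk_mul, (QuotientGroup.eq_one_iff w).2 hw, mul_one,
        ← QuotientGroup.mk_pow, show n ^ q ^ k = 1 from congrArg Subtype.val hk, QuotientGroup.mk_one]),
      B.pow_mem hb _⟩
    rwa [hd, mem_bot] at h1
  obtain ⟨m, hm, hle⟩ := hS.exists_conj_le hP inf_le_right
  rw [conj_smul_le_iff] at hle
  obtain ⟨n₀, hn₀, w, hw, rfl⟩ := mem_sup_of_normal_right.1 hm
  refine ⟨w, hw, fun b hb => mem_normalizer_fintype fun n hn => ?_⟩
  have h1 : w⁻¹ * n * w ∈ B ⊔ W := hB ▸ mem_top _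
  obtain ⟨c, hc, v, hv, e⟩ := mem_sup_of_normal_right.1 h1
  have hcM : c ∈ N ⊔ W := by
    rw [eq_mul_inv_of_mul_eq e]
    exact mul_mem (mul_mem (mul_mem (mem_sup_right (inv_mem hw)) (mem_sup_left hn)) (mem_sup_right hw))
      (mem_sup_right (inv_mem hv))
  have key : ∀ d ∈ B ⊓ (N ⊔ W), w * d * w⁻¹ ∈ N := fun d hd => by
    have := N.mul_mem (N.mul_mem (N.inv_mem hn₀) (hle d hd)) hn₀
    rwa [show n₀⁻¹ * (n₀ * w * d * (n₀ * w)⁻¹) * n₀ = w * d * w⁻¹ by group] at this
  have h2 : w * v * w⁻¹ = 1 := hNW _ (by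
    have := N.mul_mem (N.inv_mem (key c ⟨hc, hcM⟩)) hn
    rwa [show (w * c * w⁻¹)⁻¹ * n = w * v * w⁻¹ by rw [eq_mul_inv_of_mul_eq e]; group] at this)
    (W.mul_mem (W.mul_mem hw hv) (W.inv_mem hw))
  have h3 : n = w * c * w⁻¹ := by
    rw [conj_eq_one_iff] at h2
    rw [h2, mul_one] at e
    rw [e]; group
  have := key (b * c * b⁻¹) ⟨B.mul_mem (B.mul_mem hb hc) (B.inv_mem hb), hM.conj_mem c hcM b⟩
  rwa [show w * (b * c * b⁻¹) * w⁻¹ = w * b * w⁻¹ * (w * c * w⁻¹) * (w * b * w⁻¹)⁻¹ by group, ← h3] at this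

/-- generation of `A W` by two conjugates when the centralisers in `W` do not fill up `W` -/
theorem exists_gen {W N A : Subgroup G} (hW : IsMinNormal W) (hab : IsMulCommutative W) {q : ℕ} [Fact q.Prime]
    (hN : IsPGroup q N) (hq : ¬ q ∣ Nat.card W) (hA : A ≤ normalizer (N : Set G)) (hAW : A ⊔ W = ⊤)
    (hC : W ⊓ centralizer (N : Set G) = ⊥) {x y v : G} (hg : A = zpowers x ⊔ zpowers y) (hv : v ∈ W)
    (h : ∀ w ∈ W, w * x = x * w → w * v * y ≠ y * (w * v)) : zpowers x ⊔ zpowers (v * y * v⁻¹) = ⊤ := by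
  have := hW.normal
  set B := zpowers x ⊔ zpowers (v * y * v⁻¹) with hB
  have hx : x ∈ B := mem_sup_left (mem_zpowers _)
  have hy : v * y * v⁻¹ ∈ B := mem_sup_right (mem_zpowers _)
  have hBW : B ⊔ W = ⊤ := by
    rw [eq_top_iff, ← hAW, hg]
    refine sup_le (sup_le (zpowers_le.2 (mem_sup_left hx)) (zpowers_le.2 ?_)) le_sup_right
    have := mul_mem (mul_mem (mem_sup_right (W.inv_mem hv) : v⁻¹ ∈ B ⊔ W) (mem_sup_left hy)) (mem_sup_right hv)
    rwa [show v⁻¹ * (v * y * v⁻¹) * v = y by group] at this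
  rcases hW.min (W ⊓ B) (normal_inf_of_abelian_of_sup_eq_top (by rw [sup_comm, hBW])) inf_le_left with hd | hd
  swap
  · rw [← hBW, sup_eq_left.2 (inf_eq_left.1 hd)]
  exfalso
  have hdis : Disjoint N W := by
    rw [disjoint_iff, eq_bot_iff_card]
    obtain ⟨k, hk⟩ := IsPGroup.iff_card.1 (hN.to_le (inf_le_left : N ⊓ W ≤ N))
    rcases k with _ | k
    · exact hk
    · exact absurd ((dvd_pow_self q k.succ_ne_zero).trans (hk ▸ card_dvd_of_le inf_le_right)) hq
  obtain ⟨w, hw, hb⟩ := exists_conj_norm hN hq (normal_of_sup_le_normalizer hAW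
    (le_normalizer_sup' hA le_normalizer_of_normal) (le_sup_right.trans le_normalizer)) hBW hd
  have key : ∀ u ∈ W, ∀ z ∈ A, u * z * u⁻¹ ∈ normalizer (N : Set G) → u * z = z * u := fun u hu z hz h1 => by
    have h2 : u * z * u⁻¹ * z⁻¹ ∈ W ⊓ normalizer (N : Set G) := ⟨by
      rw [mul_assoc, mul_assoc, ← mul_assoc z]
      exact W.mul_mem hu (hW.normal.conj_mem _ (W.inv_mem hu) z), (normalizer _).mul_mem h1 ((normalizer _).inv_mem (hA hz))⟩
    rwa [inf_normalizer_eq_inf_centralizer_of_disjoint le_normalizer_of_normal hdis, hC, mem_bot, mul_inv_eq_one,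
      mul_inv_eq_iff_eq_mul] at h2
  refine h w hw (key w hw x (hg ▸ mem_sup_left (mem_zpowers _)) (hb x hx))
    (key _ (W.mul_mem hw hv) y (hg ▸ mem_sup_right (mem_zpowers _)) ?_)
  have := hb _ hy
  rwa [show w * (v * y * v⁻¹) * w⁻¹ = w * v * y * (w * v)⁻¹ by group] at this

theorem exists_gen_min [Group.IsSolvable G] {W N A : Subgroup G} (hW : IsMinNormal W) {q r : ℕ} [Fact q.Prime]
    [Fact r.Prime] (hqr : q ≠ r) (hr : IsPGroup r W) (hN : IsPGroup q N) (hNA : N ≤ A)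
    (hA : A ≤ normalizer (N : Set G)) (hAW : A ⊔ W = ⊤) (hC : ¬ W ≤ centralizer (N : Set G)) {x a : G} {p : ℕ}
    (hp : p.Prime) (h5 : 5 ≤ p) (hx : x ^ p = 1) (hg : A = zpowers x ⊔ zpowers (a * x * a⁻¹)) :
    ∃ v ∈ W, zpowers x ⊔ zpowers (v * a * x * (v * a)⁻¹) = ⊤ := by
  classical
  have := hW.normal
  have he := hW.isElementaryAbelian_of_isPGroup hr
  have hab : IsMulCommutative W := he.1
  have hC' : W ⊓ centralizer (N : Set G) = ⊥ := (hW.min _ (normal_of_sup_le_normalizer hAW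
    (le_normalizer_inf' le_normalizer_of_normal (le_normalizer_centralizer' hA))
    (le_normalizer_of_isMulCommutative inf_le_left)) inf_le_left).resolve_right fun e => hC (inf_eq_left.1 e)
  have hne : ∀ {s t : ℕ} [Fact s.Prime] [Fact t.Prime] {P : Subgroup G}, s ≠ t → IsPGroup t P → ¬ s ∣ Nat.card P :=
    fun {s t} hs ht P h hP e => by
      obtain ⟨k, hk⟩ := IsPGroup.iff_card.1 hP
      exact h ((Nat.prime_dvd_prime_iff_eq hs.out ht.out).1 (hs.out.dvd_of_dvd_pow (hk ▸ e)))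
  have hgen : normalClosure ({x} : Set G) = ⊤ := by
    have h1 : x ∈ normalClosure ({x} : Set G) := subset_normalClosure rfl
    have h2 : A ≤ normalClosure ({x} : Set G) :=
      hg ▸ sup_le (zpowers_le.2 h1) (zpowers_le.2 (Normal.conj_mem inferInstance x h1 a))
    rw [eq_top_iff, ← hAW]
    exact sup_le h2 ((hW.le_or_commutator_eq_bot _).resolve_right fun e => hC
      ((commutator_eq_bot_iff_le_centralizer.1 e).trans (centralizer_le (hNA.trans h2))))
  have := Fintype.ofFinite N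
  have : Nontrivial (Loc.EAMod he) := hW.nontrivial
  have h1 := of_sum_zero' (ρ := Loc.conjEnd he) r (N := N)
    (fun e => hne hqr.symm hN ((ZMod.natCast_eq_zero_iff _ r).1 e)) (LinearMap.ext fun v => by
      rw [LinearMap.sum_apply, LinearMap.zero_apply, ← Loc.EAMod.val_eq_one, ← mem_bot, ← hC']
      refine ⟨Loc.EAMod.val_mem _ _, mem_centralizer_iff.2 fun n hn => ?_⟩
      have h2 : Loc.conjEnd he n (∑ b : N, Loc.conjEnd he b v) = ∑ b : N, Loc.conjEnd he b v := by
        rw [map_sum]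
        exact Fintype.sum_equiv (Equiv.mulLeft (⟨n, hn⟩ : N)) _ _ fun b => by simp
      rw [← mul_inv_eq_iff_eq_mul, ← Loc.val_conjEnd, h2]) hp h5 hx hgen
  have h2 := fx_conj (Loc.conjEnd he) a⁻¹ (a * x * a⁻¹)
  rw [show a⁻¹ * (a * x * a⁻¹) * a⁻¹⁻¹ = x by group] at h2
  obtain ⟨v, hv⟩ : ∃ v, v ∉ LinearMap.ker (Loc.conjEnd he x - 1) ⊔ LinearMap.ker (Loc.conjEnd he (a * x * a⁻¹) - 1) := by
    by_contra hc
    push Not at hc
    have h3 := Submodule.finrank_add_le_finrank_add_finrank (LinearMap.ker (Loc.conjEnd he x - 1))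
      (LinearMap.ker (Loc.conjEnd he (a * x * a⁻¹) - 1))
    rw [Submodule.eq_top_iff'.2 hc, finrank_top] at h3
    simp only [fx] at h1 h2
    omega
  refine ⟨v.val, v.val_mem, ?_⟩
  rw [show v.val * a * x * (v.val * a)⁻¹ = v.val * (a * x * a⁻¹) * v.val⁻¹ by group]
  refine exists_gen hW hab hN (hne hqr hr) hA hAW hC' hg v.val_mem fun w hw e1 e2 => hv ?_
  obtain ⟨u, rfl⟩ := Loc.EAMod.exists_val_eq he hw
  rw [show v = -u + (u + v) by abel]
  refine Submodule.add_mem_sup (neg_mem (mem_fix.2 ?_)) (mem_fix.2 ?_)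
  · rw [← Loc.EAMod.val_inj, Loc.val_conjEnd, ← e1, mul_inv_cancel_right]
  · rw [← Loc.EAMod.val_inj, Loc.val_conjEnd, Loc.EAMod.val_add, ← e2, mul_inv_cancel_right]

/-- maximality among the solvable groups generated by two conjugates forces `O_q(A)` to centralise `r`-groups -/
theorem le_cent_of_max {A N R : Subgroup G} (hs : Group.IsSolvable A) {q r : ℕ} [Fact q.Prime] [hr' : Fact r.Prime]
    (hqr : q ≠ r) (hr : IsPGroup r R) (hN : IsPGroup q N) (hNA : N ≤ A) (hA : A ≤ normalizer (N : Set G))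
    (hAR : A ≤ normalizer (R : Set G)) {x a : G} {p : ℕ} (hp : p.Prime) (h5 : 5 ≤ p) (hx : x ^ p = 1) (ha : a ∈ A)
    (hg : A = zpowers x ⊔ zpowers (a * x * a⁻¹))
    (hmax : ∀ B : Subgroup G, A ≤ B → Group.IsSolvable B → ∀ b ∈ B, B = zpowers x ⊔ zpowers (b * x * b⁻¹) → B = A) :
    N ≤ centralizer (R : Set G) := by
  by_contra hc
  have hcop : (Nat.card N).Coprime (Nat.card R) := IsPGroup.coprime_card_of_ne q r hqr N R hN hr
  obtain ⟨W, hWR, hAW, h1, hmin, h2, h3, h4, -⟩ := HH.exists_min_sub hr'.out hr hAR hNA hA hcop hc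
  have hWr := hr.to_le hWR
  set U := Odd.frattiniOf W with hU
  set H := A ⊔ W with hH
  have hHW : H ≤ normalizer (W : Set G) := sup_le hAW le_normalizer
  have hUW : U ≤ W := Odd.frattiniOf_le W
  have hUn : (U.subgroupOf H).Normal :=
    normal_subgroupOf_of_le_normalizer (hHW.trans (Odd.norm_le_norm_frattiniOf W))
  have hWn : (W.subgroupOf H).Normal := normal_subgroupOf_of_le_normalizer hHW
  have hHs : Group.IsSolvable H := by
    rw [hH, sup_comm]
    exact Odd.sol_sup (by have := hWr.isNilpotent; infer_instance) hs hAW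
  let π := QuotientGroup.mk' (U.subgroupOf H)
  have hπ : Function.Surjective π := QuotientGroup.mk'_surjective _
  have hker : ∀ g : H, π g = 1 ↔ (g : G) ∈ U := fun g => QuotientGroup.eq_one_iff g
  have hx' : x ∈ H := mem_sup_left (hg ▸ mem_sup_left (mem_zpowers x))
  have ha' : a ∈ H := mem_sup_left ha
  have hWU : ¬ W ≤ U := fun e => h1 (le_centralizer_iff.1 (e.trans (h4 ▸ h3 ▸ inf_le_right)))
  refine (exists_gen_min (W := (W.subgroupOf H).map π) (N := (N.subgroupOf H).map π)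
    (A := (A.subgroupOf H).map π) ⟨hWn.map π hπ, fun e => hWU fun w hw => (hker ⟨w, mem_sup_right hw⟩).1
      (mem_bot.1 (e ▸ mem_map_of_mem π hw)), fun K hK hle => ?_⟩ hqr ((hWr.comap_subtype).map π)
    ((hN.comap_subtype).map π) (map_mono (comap_mono hNA)) ?_ ?_ (fun e => hWU ?_) (x := π ⟨x, hx'⟩)
    (a := π ⟨a, ha'⟩) hp h5 (by rw [← map_pow, hker]; simp [hx]) ?_).elim ?_
  rotate_right
  · rintro _ ⟨⟨v, hv, rfl⟩, hgen⟩
    have h6 : (zpowers (⟨x, hx'⟩ : H) ⊔ zpowers (v * ⟨a, ha'⟩ * ⟨x, hx'⟩ * (v * ⟨a, ha'⟩)⁻¹)) ⊔ U.subgroupOf H = ⊤ := by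
      have := congrArg (comap π) hgen
      rwa [← map_mul, ← map_inv, ← map_mul, ← map_mul, ← MonoidHom.map_zpowers, ← MonoidHom.map_zpowers, ← Subgroup.map_sup,
        comap_map_eq, QuotientGroup.ker_mk', comap_top] at this
    have h7 := congrArg (map H.subtype) h6
    rw [Subgroup.map_sup, Subgroup.map_sup, MonoidHom.map_zpowers, MonoidHom.map_zpowers, ← MonoidHom.range_eq_map, range_subtype,
      subgroupOf_map_subtype, inf_eq_left.2 (hUW.trans le_sup_right)] at h7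
    set B := zpowers (H.subtype ⟨x, hx'⟩) ⊔ zpowers (H.subtype (v * ⟨a, ha'⟩ * ⟨x, hx'⟩ * (v * ⟨a, ha'⟩)⁻¹)) with hB
    have h8 : B ⊓ W = W := Odd.Phi_nongen (by
      rw [sup_comm, ← dedekind_right ((le_sup_left.trans h7.le).trans (hHW.trans (Odd.norm_le_norm_frattiniOf W))) hUW,
        sup_comm, h7]
      exact le_inf le_sup_right le_rfl) inf_le_right
    rw [sup_eq_left.2 (hUW.trans (inf_eq_right.1 h8))] at h7
    have h9 : H = A := hmax H le_sup_left hHs (v * a) (H.mul_mem v.2 ha') (h7.symm.trans (by rw [hB]; simp))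
    refine h1 (le_centralizer_iff.1 (commutator_eq_bot_iff_le_centralizer.1 (eq_bot_iff.2 ?_)))
    rw [← IsPGroup.disjoint_of_ne r q hqr.symm W N hWr hN |>.eq_bot]
    refine le_inf h2.le (commutator_le.2 fun w hw n hn => N.mul_mem ?_ (N.inv_mem hn))
    exact (mem_normalizer_iff.1 (hA (h9.le (mem_sup_right hw))) n).1 hn
  · have hKW : K.comap π ≤ W.subgroupOf H := (comap_mono hle).trans (by
      rw [comap_map_eq, QuotientGroup.ker_mk']
      exact sup_le le_rfl (comap_mono hUW))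
    have hK' : (K.comap π).Normal := hK.comap π
    rcases (map_le_iff_le_comap.2 hKW : (K.comap π).map H.subtype ≤ W).lt_or_eq with h6 | h6
    · have h7 := hmin _ h6 (le_sup_left.trans (le_normalizer_map_subtype _))
      refine Or.inl (eq_bot_iff.2 fun k hk => ?_)
      obtain ⟨k, rfl⟩ := hπ k
      rw [mem_bot, hker, h4, ← h3]
      exact ⟨hKW hk, h7 ⟨k, hk, rfl⟩⟩
    · refine Or.inr (le_antisymm hle ?_)
      rintro _ ⟨w, hw, rfl⟩
      obtain ⟨k, hk, e⟩ := h6.ge hw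
      exact Subtype.ext e ▸ hk
  · exact (map_mono ((comap_mono hA).trans (le_normalizer_comap _))).trans (le_normalizer_map π)
  · rw [← Subgroup.map_sup, ← subgroupOf_sup le_sup_left le_sup_right, subgroupOf_self, map_top_of_surjective π hπ]
  · refine h2.ge.trans (commutator_le.2 fun w hw n hn => 
      (hker ⁅(⟨w, mem_sup_right hw⟩ : H), (⟨n, mem_sup_left (hNA hn)⟩ : H)⁆).1 ?_)
    rw [map_commutatorElement, commutatorElement_eq_one_iff_mul_comm]
    exact (mem_centralizer_iff.1 (e (mem_map_of_mem π hw)) _ (mem_map_of_mem π hn)).symm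
  · rw [← map_inv, ← map_mul, ← map_mul, ← MonoidHom.map_zpowers, ← MonoidHom.map_zpowers, ← Subgroup.map_sup]
    congr 1
    apply map_injective H.subtype_injective
    rw [Subgroup.map_sup, MonoidHom.map_zpowers, MonoidHom.map_zpowers, subgroupOf_map_subtype,
      inf_eq_left.2 le_sup_left]
    exact hg

theorem isNilpotent_fittingOf_sup {A V : Subgroup G} (hV : Group.IsNilpotent V) (hAV : A ≤ normalizer (V : Set G))
    (h : ∀ (q r : ℕ) [Fact q.Prime] [Fact r.Prime], q ≠ r → pCoreOf q A ≤ centralizer (pCoreOf r V : Set G)) :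
    Group.IsNilpotent ↥(fittingOf A ⊔ V) := by
  set K := fittingOf A ⊔ V with hK
  have eV : V = ⨆ p : Nat.Primes, pCoreOf (p : ℕ) V := by rw [← fittingOf_eq_iSup_pCoreOf, fittingOf_eq_self hV]
  have hn : ∀ q : ℕ, A ≤ normalizer (pCoreOf q V : Set G) := fun q => hAV.trans (normalizer_le_normalizer_pCoreOf q V)
  have key : ∀ q : Nat.Primes, pCoreOf (q : ℕ) A ⊔ pCoreOf (q : ℕ) V ≤ fittingOf K := fun q => by
    have := Fact.mk q.2
    have hq : IsPGroup q ↥(pCoreOf (q : ℕ) A ⊔ pCoreOf (q : ℕ) V) :=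
      (pCoreOf_isPGroup _ A).to_sup_of_normal_right' (pCoreOf_isPGroup _ V) ((pCoreOf_le _ A).trans (hn q))
    refine le_fittingOf (sup_le_sup (pCoreOf_le_fittingOf _ A) (pCoreOf_le _ V)) (sup_le ((fittingOf_le A).trans
      (le_normalizer_sup' (le_normalizer_pCoreOf _ A) (hn q))) (eV.le.trans (iSup_le fun r => ?_))) hq.isNilpotent
    have := Fact.mk r.2
    by_cases e : q = r
    · exact e ▸ le_sup_right.trans le_normalizer
    · exact le_normalizer_sup' (le_normalizer_of_le_centralizer (le_centralizer_iff.1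
        (h q r fun k => e (Subtype.ext k)))) ((pCoreOf_le _ V).trans (le_normalizer_pCoreOf _ V))
  refine isNilpotent_of_le (fittingOf_isNilpotent K) (sup_le ?_ (eV.le.trans (iSup_le fun q => ?_)))
  · rw [fittingOf_eq_iSup_pCoreOf]
    exact iSup_le fun q => le_sup_left.trans (key q)
  · exact le_sup_right.trans (key q)

end CL.Fgs.FD
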