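/-
A transfer argument for `2`-groups inside `GL₁ × GL₂`.
-/
import Cfsg.Agent.Transfer.Basic
import Cfsg.Agent.Grp.SylowIn
import Cfsg.Agent.Grp.PGroupBasic

set_option autoImplicit false

namespace CL.Fgs.GL3Syl

open Subgroup
open scoped commutatorElement Pointwise

variable {P : Type*} [Group P] {F : Type*} [Field F]

theorem exists_comm_eq {A : Subgroup P} (hi : A.index = 2) (hA : ∀ a ∈ A, ∀ b ∈ A, a * b = b * a)
    {s : P} (hs : s ∉ A) {c : P} (hc : c ∈ commutator P) : ∃ b ∈ A, c = s⁻¹ * (b * s * b⁻¹) := by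
  have hn : A.Normal := normal_of_index_eq_two hi
  have hσ : ∀ b ∈ A, s⁻¹ * b * s ∈ A := fun b hb => hn.conj_mem' b hb s
  let N : Subgroup P :=
    { carrier := {c | ∃ b ∈ A, c = s⁻¹ * (b * s * b⁻¹)}
      one_mem' := ⟨1, one_mem _, by group⟩
      mul_mem' := by
        rintro _ _ ⟨b, hb, rfl⟩ ⟨b', hb', rfl⟩
        refine ⟨b * b', mul_mem hb hb', ?_⟩
        have h1 := hA _ (inv_mem hb) _ (mul_mem (hσ b' hb') (inv_mem hb'))
        calc _ = s⁻¹ * b * s * (b⁻¹ * (s⁻¹ * b' * s * b'⁻¹)) := by group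
          _ = _ := by rw [h1]; group
      inv_mem' := by
        rintro _ ⟨b, hb, rfl⟩
        refine ⟨b⁻¹, inv_mem hb, ?_⟩
        have h1 := hA _ hb _ (hσ _ (inv_mem hb))
        calc _ = b * (s⁻¹ * b⁻¹ * s) := by group
          _ = _ := by rw [h1]; group }
  have hNA : N ≤ A := by
    rintro _ ⟨b, hb, rfl⟩
    have := mul_mem (hσ b hb) (inv_mem hb)
    simpa only [mul_assoc] using this
  have hdec : ∀ x : P, x ∈ A ∨ ∃ a ∈ A, x = s * a := fun x => by
    by_cases hx : x ∈ A
    · exact Or.inl hx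
    · refine Or.inr ⟨s⁻¹ * x, ?_, by group⟩
      rw [mul_mem_iff_of_index_two hi, inv_mem_iff]
      exact iff_of_false hs hx
  have hN : N.Normal := ⟨fun n hn' g => by
    have h1 : ∀ a ∈ A, a * n * a⁻¹ = n := fun a ha => by
      rw [hA a ha n (hNA hn'), mul_inv_cancel_right]
    rcases hdec g with hg | ⟨a, ha, rfl⟩
    · rwa [h1 g hg]
    · obtain ⟨b, hb, hnb⟩ := hn'
      refine ⟨s * b * s⁻¹, hn.conj_mem b hb s, ?_⟩
      calc _ = s * (a * n * a⁻¹) * s⁻¹ := by group
        _ = _ := by rw [h1 a ha, hnb]; group⟩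
  have h1 : ∀ a ∈ A, Commute (QuotientGroup.mk' N s) (QuotientGroup.mk' N a) := fun a ha => by
    change _ * _ = _ * _
    rw [← map_mul, ← map_mul, QuotientGroup.mk'_apply, QuotientGroup.mk'_apply, QuotientGroup.eq]
    refine ⟨a, ha, ?_⟩
    have := hA _ (inv_mem ha) _ (hσ a ha)
    calc _ = a⁻¹ * (s⁻¹ * a * s) := by group
      _ = _ := by rw [this]; group
  have h2 : ∀ a ∈ A, ∀ b ∈ A, Commute (QuotientGroup.mk' N a) (QuotientGroup.mk' N b) :=
    fun a ha b hb => by
      change _ * _ = _ * _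
      rw [← map_mul, ← map_mul, hA a ha b hb]
  have h3 : commutator P ≤ N := by
    rw [commutator_eq_closure, closure_le]
    rintro _ ⟨x, y, rfl⟩
    rw [SetLike.mem_coe, ← QuotientGroup.eq_one_iff, ← QuotientGroup.mk'_apply,
      map_commutatorElement, commutatorElement_eq_one_iff_commute]
    rcases hdec x with hx | ⟨a, ha, rfl⟩ <;> rcases hdec y with hy | ⟨b, hb, rfl⟩
    · exact h2 _ hx _ hy
    · rw [map_mul]; exact (h1 _ hx).symm.mul_right (h2 _ hx _ hb)
    · rw [map_mul]; exact (h1 _ hy).mul_left (h2 _ ha _ hy)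
    · rw [map_mul, map_mul]
      exact ((Commute.refl _).mul_right (h1 _ hb)).mul_left ((h1 _ ha).symm.mul_right (h2 _ ha _ hb))
  exact h3 hc

theorem units_sq {x : Fˣ} (h : x * x = 1) : x = 1 ∨ x = -1 := by
  have := mul_self_eq_one_iff.1 (congrArg Units.val h)
  exact this.imp Units.ext Units.ext

/-- the abstract data of a nonabelian `2`-subgroup of `GL₁ × GL₂` containing `(-1, 1)` -/
structure Dat (a d : P →* Fˣ) (z w : P) (A : Subgroup P) : Prop where
  zc : ∀ x, z * x = x * z
  zz : z * z = 1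
  az : a z = -1
  dz : d z = 1
  ne : (-1 : Fˣ) ≠ 1
  wc : ∀ x, w * x = x * w
  ww : w * w = 1
  w1 : w ≠ 1
  wcomm : w ∈ commutator P
  uniq : ∀ u, u * u = 1 → a u = 1 → d u = 1 → u = 1 ∨ u = w
  nc : ∀ s, s * s = 1 → d s = -1 → ∃ y, y * s ≠ s * y
  idx : A.index = 2
  ab : ∀ a ∈ A, ∀ b ∈ A, a * b = b * a

theorem map_comm (a : P →* Fˣ) {c : P} (hc : c ∈ commutator P) : a c = 1 :=
  Abelianization.commutator_subset_ker a hc

namespace Dat

variable {a d : P →* Fˣ} {z w : P} {A : Subgroup P} (h : Dat a d z w A)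
include h

theorem zA : z ∈ A := by
  by_contra hz
  obtain ⟨b, -, hb⟩ := exists_comm_eq h.idx h.ab hz h.wcomm
  exact h.w1 (by rw [hb, ← h.zc]; group)

theorem comm_le : commutator P ≤ A := by
  intro c hc
  obtain ⟨s, hs⟩ : ∃ s, s ∉ A := by
    by_contra! hs
    have := h.idx
    rw [(eq_top_iff' A).2 hs, index_top] at this
    omega
  obtain ⟨b, hb, rfl⟩ := exists_comm_eq h.idx h.ab hs hc
  have := mul_mem ((normal_of_index_eq_two h.idx).conj_mem' b hb s) (inv_mem hb)
  simpa only [mul_assoc] using this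

theorem z_mul_sq {u : P} (hu : u * u = 1) : z * u * (z * u) = 1 := by
  rw [mul_assoc, ← mul_assoc u, ← h.zc u, ← mul_assoc, ← mul_assoc, h.zz, one_mul, hu]

theorem cls {u : P} (hu : u * u = 1) (hd : d u = 1) : u = 1 ∨ u = z ∨ u = w ∨ u = z * w := by
  rcases units_sq (x := a u) (by rw [← map_mul, hu, map_one]) with h1 | h1
  · rcases h.uniq u hu h1 hd with h2 | h2
    · exact Or.inl h2
    · exact Or.inr (Or.inr (Or.inl h2))
  · rcases h.uniq (z * u) (h.z_mul_sq hu) (by rw [map_mul, h.az, h1]; simp)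
      (by rw [map_mul, h.dz, hd, mul_one]) with h2 | h2
    · exact Or.inr (Or.inl (by rw [← one_mul u, ← h.zz, mul_assoc, h2, mul_one]))
    · exact Or.inr (Or.inr (Or.inr (by rw [← h2, ← mul_assoc, h.zz, one_mul])))

theorem conj_w {s : P} (hs : s * s = 1) (hd : d s = -1) : IsConj s (s * w) := by
  by_cases hsA : s ∈ A
  · obtain ⟨y, hy⟩ := h.nc s hs hd
    have h1 : y * s * y⁻¹ ∈ A := (normal_of_index_eq_two h.idx).conj_mem s hsA y
    have hsi : s⁻¹ = s := inv_eq_of_mul_eq_one_right hs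
    rcases h.uniq (s * (y * s * y⁻¹)) (by
        calc _ = s * ((y * s * y⁻¹) * s) * (y * s * y⁻¹) := by group
          _ = (s * s) * (y * (s * s) * y⁻¹) := by rw [← h.ab _ hsA _ h1]; group
          _ = 1 := by rw [hs]; group)
      (by rw [map_mul, map_mul, map_mul, map_inv, mul_inv_cancel_comm, ← map_mul, hs, map_one])
      (by rw [map_mul, map_mul, map_mul, map_inv, mul_inv_cancel_comm, ← map_mul, hs, map_one])
      with h2 | h2
    · exfalso
      apply hy
      rw [← mul_inv_eq_iff_eq_mul, eq_inv_of_mul_eq_one_right h2, hsi]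
    · exact isConj_iff.2 ⟨y, by rw [← h2, ← mul_assoc, hs, one_mul]⟩
  · obtain ⟨b, -, hb⟩ := exists_comm_eq h.idx h.ab hsA h.wcomm
    exact isConj_iff.2 ⟨b, by rw [hb]; group⟩

theorem conj_of_comm {u v : P} (hu : u * u = 1) (hd : d u = -1) (hv : v * v = 1)
    (huv : u⁻¹ * v ∈ commutator P) : IsConj u v := by
  by_cases huA : u ∈ A
  · have hvA : v ∈ A := (mul_mem_cancel_left (inv_mem huA)).1 (h.comm_le huv)
    rcases h.uniq (u⁻¹ * v) (by
        calc _ = u⁻¹ * (v * u⁻¹) * v := by group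
          _ = (u * u)⁻¹ * (v * v) := by rw [h.ab _ hvA _ (inv_mem huA)]; group
          _ = 1 := by rw [hu, hv]; group) (map_comm a huv) (map_comm d huv) with h1 | h1
    · rw [inv_mul_eq_one.1 h1]
    · rw [show v = u * w by rw [← h1]; group]
      exact h.conj_w hu hd
  · obtain ⟨b, -, hb⟩ := exists_comm_eq h.idx h.ab huA huv
    exact isConj_iff.2 ⟨b, (mul_left_cancel hb).symm⟩

theorem two_of_three [Finite P] {s : P} (hsA : s ∉ A) {b c : P} (hb : b ∈ A) (hc : c ∈ A)
    (hb' : s * b * s⁻¹ = b⁻¹) (hc' : s * c * s⁻¹ = c⁻¹) (ab : a b = 1) (db : d b = 1)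
    (ac : a c = 1) (dc : d c = 1) :
    b ∈ commutator P ∨ c ∈ commutator P ∨ b * c ∈ commutator P := by
  let B : Subgroup P :=
    { carrier := {b | b ∈ A ∧ s * b * s⁻¹ = b⁻¹ ∧ a b = 1 ∧ d b = 1}
      one_mem' := ⟨one_mem _, by group, map_one _, map_one _⟩
      mul_mem' := by
        rintro x y ⟨h1, h2, h3, h4⟩ ⟨h5, h6, h7, h8⟩
        refine ⟨mul_mem h1 h5, ?_, by rw [map_mul, h3, h7, mul_one],
          by rw [map_mul, h4, h8, mul_one]⟩
        calc _ = (s * x * s⁻¹) * (s * y * s⁻¹) := by group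
          _ = _ := by rw [h2, h6, h.ab _ h1 _ h5]; group
      inv_mem' := by
        rintro x ⟨h1, h2, h3, h4⟩
        refine ⟨inv_mem h1, ?_, by rw [map_inv, h3, inv_one], by rw [map_inv, h4, inv_one]⟩
        calc _ = (s * x * s⁻¹)⁻¹ := by group
          _ = _ := by rw [h2] }
  let q : B →* B := MonoidHom.mk' (fun x => x * x) fun x y => Subtype.ext (by
    change x.1 * y.1 * (x.1 * y.1) = x.1 * x.1 * (y.1 * y.1)
    calc _ = x.1 * (y.1 * x.1) * y.1 := by group
      _ = _ := by rw [h.ab _ y.2.1 _ x.2.1]; group)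
  have hr : ∀ x ∈ q.range, x.1 ∈ commutator P := by
    rintro _ ⟨x, rfl⟩
    have : (q x).1 = ⁅x.1, s⁆ := by
      change x.1 * x.1 = x.1 * s * x.1⁻¹ * s⁻¹
      calc _ = x.1 * (s * x.1 * s⁻¹)⁻¹ := by rw [x.2.2.1, inv_inv]
        _ = _ := by group
    rw [this]
    exact commutator_mem_commutator (mem_top _) (mem_top _)
  have hk : Nat.card q.ker ≤ 2 := by
    have : Nat.card q.ker ≤ Nat.card ({1, w} : Set P) := by
      refine Nat.card_le_card_of_injective (fun x => ⟨x.1.1, ?_⟩) fun x y hxy =>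
        Subtype.ext (Subtype.ext (Subtype.mk.inj hxy))
      exact h.uniq _ (congrArg Subtype.val x.2) x.1.2.2.2.1 x.1.2.2.2.2
    exact this.trans (by rw [Nat.card_coe_set_eq]; exact Set.ncard_pair h.w1.symm |>.le)
  rw [← index_range] at hk
  have h0 := q.range.index_ne_zero_of_finite
  let b' : B := ⟨b, hb, hb', ab, db⟩
  let c' : B := ⟨c, hc, hc', ac, dc⟩
  by_cases h1 : b' ∈ q.range
  · exact Or.inl (hr _ h1)
  by_cases h2 : c' ∈ q.range
  · exact Or.inr (Or.inl (hr _ h2))
  have h3 : q.range.index = 2 := by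
    by_contra h3
    exact h1 (by rw [index_eq_one.1 (show q.range.index = 1 by omega)]; trivial)
  exact Or.inr (Or.inr (hr (b' * c') ((mul_mem_iff_of_index_two h3).2 (iff_of_false h1 h2))))

theorem main [Finite P] (cz : P → Prop) (hcj : ∀ u v, IsConj u v → cz u → cz v)
    (h1 : ¬ cz 1) (hw : ¬ cz w) (hzw : ¬ cz (z * w))
    (h4 : ∀ s, s * s = 1 → d s = -1 → cz s → ¬ cz (z * s)) :
    ∃ H : Subgroup P, commutator P ≤ H ∧ z ∉ H ∧ ∀ u, u * u = 1 → cz u → z * u ∈ H := by
  let S : Set P := {s | s * s = 1 ∧ d s = -1 ∧ cz (z * s)}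
  let π := (Abelianization.of : P →* Abelianization P)
  have hπ : ∀ x y : P, π x = π y ↔ x⁻¹ * y ∈ commutator P := fun x y => by
    rw [← Abelianization.ker_of, MonoidHom.mem_ker, map_mul, map_inv, inv_mul_eq_one]
  have hK : ∀ s ∈ S, ∀ t ∈ S, π (z * s) ≠ π t := fun s hs t ht e => by
    have hc := h.conj_of_comm (h.z_mul_sq hs.1) (by rw [map_mul, h.dz, hs.2.1, one_mul]) ht.1
      ((hπ _ _).1 e)
    exact h4 t ht.1 ht.2.1 (hcj _ _ hc hs.2.2) ht.2.2
  have hzz : π z * π z = 1 := by rw [← map_mul, h.zz, map_one]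
  have hss : ∀ s ∈ S, π s * π s = 1 := fun s hs => by rw [← map_mul, hs.1, map_one]
  have hin : ∀ s ∈ S, ∀ t ∈ S, s ∈ A → t ∈ A → π s = π t := fun s hs t ht hsA htA => by
    have e : ∀ c, s * t = c → t = s * c := fun c hc => by rw [← hc, ← mul_assoc, hs.1, one_mul]
    rcases h.cls (u := s * t) (by
        calc _ = s * (t * s) * t := by group
          _ = (s * s) * (t * t) := by rw [h.ab _ htA _ hsA]; group
          _ = 1 := by rw [hs.1, ht.1, mul_one])
      (by rw [map_mul, hs.2.1, ht.2.1]; simp) with h2 | h2 | h2 | h2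
    · rw [e _ h2, mul_one]
    · exact absurd (by rw [e _ h2, h.zc]) (hK s hs t ht)
    · rw [e _ h2, map_mul, (Abelianization.ker_of P).ge h.wcomm, mul_one]
    · exact absurd (by rw [e _ h2, ← mul_assoc, map_mul π _ w, (Abelianization.ker_of P).ge h.wcomm,
        mul_one, h.zc]) (hK s hs t ht)
  have hout : ∀ s ∈ S, ∀ t ∈ S, ∀ u ∈ S, s ∉ A → t ∉ A → u ∉ A →
      π s = π t ∨ π s = π u ∨ π t = π u := fun s hs t ht u hu hsA htA huA => by
    have key : ∀ t ∈ S, t ∉ A → ∃ b ∈ A, s * b * s⁻¹ = b⁻¹ ∧ a b = 1 ∧ d b = 1 ∧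
        (b = s * t ∨ b = z * (s * t)) := fun t ht htA => by
      have hA : s * t ∈ A := (mul_mem_iff_of_index_two h.idx).2 (iff_of_false hsA htA)
      have hi : s * (s * t) * s⁻¹ = (s * t)⁻¹ := by
        rw [← mul_assoc, hs.1, one_mul, mul_inv_rev, inv_eq_of_mul_eq_one_right ht.1]
      have hd : d (s * t) = 1 := by rw [map_mul, hs.2.1, ht.2.1]; simp
      rcases units_sq (x := a (s * t)) (by
        rw [map_mul, mul_mul_mul_comm, ← map_mul, ← map_mul, hs.1, ht.1, map_one, mul_one])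
        with h2 | h2
      · exact ⟨_, hA, hi, h2, hd, Or.inl rfl⟩
      · refine ⟨_, mul_mem h.zA hA, ?_, by rw [map_mul, h2, h.az]; simp,
          by rw [map_mul, hd, h.dz, mul_one], Or.inr rfl⟩
        calc _ = z * (s * (s * t) * s⁻¹) := by rw [← mul_assoc s, ← h.zc]; group
          _ = _ := by
            rw [hi, h.zc, mul_inv_rev z, inv_eq_of_mul_eq_one_right h.zz]
    obtain ⟨b, hb, hb1, hb2, hb3, hb4⟩ := key t ht htA
    obtain ⟨c, hc, hc1, hc2, hc3, hc4⟩ := key u hu huA
    have k1 : ∀ t ∈ S, ∀ b, (b = s * t ∨ b = z * (s * t)) → b ∈ commutator P → π s = π t := by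
      rintro t ht b (rfl | rfl) hb
      · rw [hπ, inv_eq_of_mul_eq_one_right hs.1]; exact hb
      · refine absurd ?_ (hK s hs t ht)
        rw [hπ, inv_eq_of_mul_eq_one_right (h.z_mul_sq hs.1), mul_assoc]; exact hb
    rcases h.two_of_three hsA hb hc hb1 hc1 hb2 hb3 hc2 hc3 with h2 | h2 | h2
    · exact Or.inl (k1 t ht b hb4 h2)
    · exact Or.inr (Or.inl (k1 u hu c hc4 h2))
    · refine Or.inr (Or.inr ?_)
      have h3 : π b * π c = 1 := by rw [← map_mul]; exact (Abelianization.ker_of P).ge h2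
      have e1 := hss s hs
      have e2 := hss t ht
      rcases hb4 with rfl | rfl <;> rcases hc4 with rfl | rfl <;> simp only [map_mul] at h3
      · calc π t = π t * (π s * π t * (π s * π u)) := by rw [h3, mul_one]
          _ = (π t * π t) * (π s * π s) * π u := by ac_rfl
          _ = π u := by rw [e1, e2, one_mul, one_mul]
      · refine absurd ?_ (hK t ht u hu)
        calc π (z * t) = π z * π t * (π s * π t * (π z * (π s * π u))) := by
              rw [h3, mul_one, map_mul]
          _ = (π z * π z) * (π t * π t) * (π s * π s) * π u := by ac_rfl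
          _ = π u := by rw [e1, e2, hzz, one_mul, one_mul, one_mul]
      · refine absurd ?_ (hK t ht u hu)
        calc π (z * t) = π z * π t * (π z * (π s * π t) * (π s * π u)) := by
              rw [h3, mul_one, map_mul]
          _ = (π z * π z) * (π t * π t) * (π s * π s) * π u := by ac_rfl
          _ = π u := by rw [e1, e2, hzz, one_mul, one_mul, one_mul]
      · calc π t = π t * (π z * (π s * π t) * (π z * (π s * π u))) := by rw [h3, mul_one]
          _ = (π z * π z) * (π t * π t) * (π s * π s) * π u := by ac_rfl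
          _ = π u := by rw [e1, e2, hzz, one_mul, one_mul, one_mul]
  have hfour : ∀ s ∈ S, ∀ t ∈ S, ∀ u ∈ S, ∀ v ∈ S, ∃ x ∈ S, ∃ y ∈ S,
      π s * (π t * π u * π v) = π x * π y := fun s hs t ht u hu v hv => by
    have : π s = π t ∨ π s = π u ∨ π s = π v ∨ π t = π u ∨ π t = π v ∨ π u = π v := by
      have a1 := hin s hs t ht
      have a2 := hin s hs u hu
      have a3 := hin s hs v hv
      have a4 := hin t ht u hu
      have a5 := hin t ht v hv
      have a6 := hin u hu v hv
      have b1 := hout s hs t ht u hu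
      have b2 := hout s hs t ht v hv
      have b3 := hout s hs u hu v hv
      have b4 := hout t ht u hu v hv
      by_contra hcon
      simp only [not_or] at hcon
      obtain ⟨c1, c2, c3, c4, c5, c6⟩ := hcon
      by_cases p1 : s ∈ A
      · by_cases p2 : t ∈ A
        · exact c1 (a1 p1 p2)
        by_cases p3 : u ∈ A
        · exact c2 (a2 p1 p3)
        by_cases p4 : v ∈ A
        · exact c3 (a3 p1 p4)
        exact (b4 p2 p3 p4).elim c4 (·.elim c5 c6)
      by_cases p2 : t ∈ A
      · by_cases p3 : u ∈ A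
        · exact c4 (a4 p2 p3)
        by_cases p4 : v ∈ A
        · exact c5 (a5 p2 p4)
        exact (b3 p1 p3 p4).elim c2 (·.elim c3 c6)
      by_cases p3 : u ∈ A
      · by_cases p4 : v ∈ A
        · exact c6 (a6 p3 p4)
        exact (b2 p1 p2 p4).elim c1 (·.elim c3 c5)
      exact (b1 p1 p2 p3).elim c1 (·.elim c2 c4)
    rcases this with e | e | e | e | e | e
    · exact ⟨u, hu, v, hv, by
        rw [← one_mul (π u * π v), ← hss t ht, e]; ac_rfl⟩
    · exact ⟨t, ht, v, hv, by
        rw [← one_mul (π t * π v), ← hss u hu, e]; ac_rfl⟩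
    · exact ⟨t, ht, u, hu, by
        rw [e, mul_left_comm, hss v hv, mul_one]⟩
    · exact ⟨s, hs, v, hv, by
        rw [← one_mul (π s * π v), ← hss u hu, e]; ac_rfl⟩
    · exact ⟨s, hs, u, hu, by
        rw [← one_mul (π s * π u), ← hss v hv, e]; ac_rfl⟩
    · exact ⟨s, hs, t, ht, by
        rw [← one_mul (π s * π t), ← hss v hv, e]; ac_rfl⟩
  have hcl : ∀ x ∈ closure (π '' S), x = 1 ∨ (∃ s ∈ S, x = π s) ∨ (∃ s ∈ S, ∃ t ∈ S, x = π s * π t)
      ∨ ∃ s ∈ S, ∃ t ∈ S, ∃ u ∈ S, x = π s * π t * π u := by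
    have step : ∀ s ∈ S, ∀ x : Abelianization P, (x = 1 ∨ (∃ s ∈ S, x = π s) ∨
        (∃ s ∈ S, ∃ t ∈ S, x = π s * π t) ∨ ∃ s ∈ S, ∃ t ∈ S, ∃ u ∈ S, x = π s * π t * π u) →
        (π s * x = 1 ∨ (∃ t ∈ S, π s * x = π t) ∨ (∃ u ∈ S, ∃ t ∈ S, π s * x = π u * π t) ∨
          ∃ v ∈ S, ∃ t ∈ S, ∃ u ∈ S, π s * x = π v * π t * π u) := by
      rintro s hs x (rfl | ⟨t, ht, rfl⟩ | ⟨t, ht, u, hu, rfl⟩ | ⟨t, ht, u, hu, v, hv, rfl⟩)
      · exact Or.inr (Or.inl ⟨s, hs, mul_one _⟩)
      · exact Or.inr (Or.inr (Or.inl ⟨s, hs, t, ht, rfl⟩))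
      · exact Or.inr (Or.inr (Or.inr ⟨s, hs, t, ht, u, hu, (mul_assoc _ _ _).symm⟩))
      · exact Or.inr (Or.inr (Or.inl (hfour s hs t ht u hu v hv)))
    intro x hx
    induction hx using closure_induction_left with
    | one => exact Or.inl rfl
    | mul_left x hx y _ ih =>
      obtain ⟨s, hs, rfl⟩ := hx
      exact step s hs y ih
    | inv_mul_cancel x hx y _ ih =>
      obtain ⟨s, hs, rfl⟩ := hx
      rw [inv_eq_of_mul_eq_one_right (hss s hs)]
      exact step s hs y ih
  refine ⟨(closure (π '' S)).comap π, fun c hc => ?_, fun hz => ?_, fun u hu hcu => ?_⟩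
  · rw [mem_comap, (Abelianization.ker_of P).ge hc]; exact one_mem _
  · rcases hcl _ hz with e | ⟨s, hs, e⟩ | ⟨s, hs, t, ht, e⟩ | ⟨s, hs, t, ht, u, hu, e⟩
    · have := congrArg (Abelianization.lift a) e
      rw [map_one, Abelianization.lift_apply_of, h.az] at this
      exact h.ne this
    · have := congrArg (Abelianization.lift d) e
      rw [Abelianization.lift_apply_of, Abelianization.lift_apply_of, h.dz, hs.2.1] at this
      exact h.ne this.symm
    · refine hK s hs t ht ?_
      rw [map_mul, e, mul_right_comm, hss s hs, one_mul]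
    · have := congrArg (Abelianization.lift d) e
      rw [map_mul, map_mul, Abelianization.lift_apply_of, Abelianization.lift_apply_of,
        Abelianization.lift_apply_of, Abelianization.lift_apply_of, h.dz, hs.2.1, ht.2.1,
        hu.2.1] at this
      exact h.ne (by simpa using this.symm)
  · rcases units_sq (x := d u) (by rw [← map_mul, hu, map_one]) with h2 | h2
    · rcases h.cls hu h2 with rfl | rfl | rfl | rfl
      · exact absurd hcu h1
      · rw [h.zz]; exact one_mem _
      · exact absurd hcu hw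
      · exact absurd hcu hzw
    · exact subset_closure ⟨z * u, ⟨h.z_mul_sq hu, by rw [map_mul, h.dz, h2, one_mul],
        by rwa [← mul_assoc, h.zz, one_mul]⟩, rfl⟩

end Dat

theorem Dat.not_conj {G : Type*} [Group G] [Finite G] {X : Sylow 2 G} {a d : X →* Fˣ} {z w : X}
    {A : Subgroup X} (h : Dat a d z w A) :
    ¬ IsConj (z : G) w ∧ ¬ IsConj (z : G) (z * w : X) := by
  have key : ∀ u : X, (∀ x, u * x = x * u) → IsConj (z : G) u →
      ∃ n : normalizer (X : Set G), (X : Subgroup G).normalizerMonoidHom n z = u := by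
    intro u hu hc
    obtain ⟨g, hg⟩ := isConj_iff.1 hc
    obtain ⟨n, hn, e⟩ := X.conj_eq_normalizer_conj_of_mem_centralizer z g⁻¹
      (fun x hx => congrArg Subtype.val (h.zc ⟨x, hx⟩).symm)
      (by rw [inv_inv, hg]; exact fun x hx => congrArg Subtype.val (hu ⟨x, hx⟩).symm)
    refine ⟨⟨n, hn⟩⁻¹, Subtype.ext ?_⟩
    rw [inv_inv, hg] at e
    rw [e]
    change n⁻¹ * z * n⁻¹⁻¹ = _
    rw [inv_inv]
  have hw : ∀ θ : MulAut X, θ w = w := fun θ => by
    have hc : θ w ∈ commutator X := by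
      have := (characteristic_iff_map_le.1 (inferInstance : (commutator X).Characteristic)) θ
      exact this ⟨w, h.wcomm, rfl⟩
    refine (h.uniq _ (by rw [← map_mul, h.ww, map_one]) (map_comm a hc) (map_comm d hc)).resolve_left
      fun e => h.w1 (θ.injective (e.trans (map_one θ).symm))
  constructor
  · intro hc
    obtain ⟨n, hn⟩ := key w h.wc hc
    have : z = w := ((X : Subgroup G).normalizerMonoidHom n).injective (hn.trans (hw _).symm)
    exact h.ne (by rw [← h.az, this, map_comm a h.wcomm])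
  · intro hc
    obtain ⟨n, hn⟩ := key (z * w) (fun x => by
      rw [mul_assoc, h.wc, ← mul_assoc, h.zc, mul_assoc]) hc
    set θ := (X : Subgroup G).normalizerMonoidHom n with hθ
    have h2 : ∀ k : ℕ, (θ ^ (2 * k + 1)) z = z * w := fun k => by
      induction k with
      | zero => simpa using hn
      | succ k ih =>
        rw [show 2 * (k + 1) + 1 = 1 + 1 + (2 * k + 1) by ring, pow_add, pow_add, pow_one,
          MulAut.mul_apply, MulAut.mul_apply, ih, map_mul, hn, hw, mul_assoc, h.ww, mul_one, hn]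
    have hodd : ¬ 2 ∣ (X : Subgroup G).relIndex (normalizer (X : Set G)) :=
      (CL.Grp.isSylowIn_of_le X le_normalizer).not_dvd
    obtain ⟨k, hk⟩ := Nat.odd_iff.2 (Nat.two_dvd_ne_zero.1 hodd)
    have : ((X : Subgroup G).subgroupOf (normalizer (X : Set G))).Normal :=
      normal_in_normalizer
    have hm := pow_index_mem (H := (X : Subgroup G).subgroupOf (normalizer (X : Set G))) n
    change n ^ (X : Subgroup G).relIndex _ ∈ _ at hm
    rw [hk] at hm
    have h3 := h2 k
    rw [hθ, ← map_pow] at h3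
    have h4 : (X : Subgroup G).normalizerMonoidHom (n ^ (2 * k + 1)) z = z := Subtype.ext (by
      have := congrArg Subtype.val (h.zc ⟨_, hm⟩)
      change (n ^ (2 * k + 1)).1 * z * (n ^ (2 * k + 1)).1⁻¹ = z
      rw [mul_inv_eq_iff_eq_mul]
      exact this.symm)
    rw [h4] at h3
    exact h.w1 (by simpa using h3.symm)

theorem Dat.false_of_index {G : Type*} [Group G] [Finite G] (hG : ∀ H : Subgroup G, H.index ≠ 2)
    {X : Sylow 2 G} {a d : X →* Fˣ} {z w : X} {A : Subgroup X} (h : Dat a d z w A) : False := by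
  obtain ⟨n1, n2⟩ := h.not_conj
  have hz1 : z ≠ 1 := fun e => h.ne (by rw [← h.az, e, map_one])
  have n0 : ¬ IsConj (z : G) (1 : X) := fun e => hz1 (Subtype.ext (isConj_one_left.1 e))
  have hcj : ∀ u v : X, IsConj u v → IsConj (z : G) u → IsConj (z : G) v := fun u v e e' =>
    e'.trans ((X : Subgroup G).subtype.map_isConj e)
  obtain ⟨H, hH, hzH, hu⟩ := h.main (fun u => IsConj (z : G) u) hcj n0 n1 n2 (by
    intro s hs hd c1 c2
    obtain ⟨g₀, hg₀⟩ := isConj_iff.1 c1.symm
    have hXC : (X : Subgroup G) ≤ centralizer {(z : G)} := fun x hx =>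
      mem_centralizer_singleton_iff.2 (congrArg Subtype.val (h.zc ⟨x, hx⟩)).symm
    obtain ⟨c, hc, hle⟩ := (CL.Grp.isSylowIn_of_le X hXC).exists_conj_le
      (U := MulAut.conj g₀ • ((X : Subgroup G) ⊓ centralizer {(s : G)}))
      (CL.Grp.IsPGroup.conj_smul (X.2.to_le inf_le_left) g₀) (by
        rw [CL.Grp.conj_smul_le_iff]
        intro x hx
        have := mem_centralizer_singleton_iff.1 hx.2
        rw [mem_centralizer_singleton_iff, ← hg₀]
        calc _ = g₀ * (x * s) * g₀⁻¹ := by group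
          _ = _ := by rw [this]; group)
    rw [CL.Grp.conj_smul_conj_smul, CL.Grp.conj_smul_le_iff] at hle
    set g := c * g₀ with hgdef
    have hg : g * s * g⁻¹ = z := by
      have := mem_centralizer_singleton_iff.1 hc
      calc _ = c * (g₀ * s * g₀⁻¹) * c⁻¹ := by rw [hgdef]; group
        _ = z := by rw [hg₀, this]; group
    have ex : ∀ u : X, (∀ x, u * x = x * u) → ∃ u' : X, (u' : G) = g * u * g⁻¹ := fun u hu =>
      ⟨⟨_, hle u ⟨u.2, mem_centralizer_singleton_iff.2 (congrArg Subtype.val (hu s))⟩⟩, rfl⟩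
    obtain ⟨z', hz'⟩ := ex z h.zc
    obtain ⟨w', hw'⟩ := ex w h.wc
    have cg : ∀ u v : G, IsConj u v → IsConj u (g * v * g⁻¹) := fun u v e =>
      e.trans (isConj_iff.2 ⟨g, rfl⟩)
    have cg' : ∀ u v : G, IsConj u (g * v * g⁻¹) → IsConj u v := fun u v e =>
      e.trans (isConj_iff.2 ⟨g, rfl⟩).symm
    have sq : ∀ u u' : X, (u' : G) = g * u * g⁻¹ → u * u = 1 → u' * u' = 1 := fun u u' e hu =>
      Subtype.ext (by
        have : (u : G) * u = 1 := congrArg Subtype.val hu
        change (u' : G) * u' = 1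
        calc _ = g * (u * u) * g⁻¹ := by rw [e]; group
          _ = 1 := by rw [this]; group)
    have z2 := sq z z' hz' h.zz
    have w2 := sq w w' hw' h.ww
    have cz' : IsConj (z : G) z' := hz' ▸ cg _ _ (IsConj.refl _)
    have czz' : IsConj (z : G) (z * z' : X) := by
      have : ((z * z' : X) : G) = g * (z * s : X) * g⁻¹ := by
        rw [h.zc s]
        change (z : G) * z' = g * (s * z) * g⁻¹
        rw [hz', ← hg]; group
      rw [this]; exact cg _ _ c2
    have hzs : z' ≠ z := fun e => by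
      have e1 : g * z * g⁻¹ = g * s * g⁻¹ := by rw [← hz', e, hg]
      have e2 : z = s := Subtype.ext (by simpa using e1)
      exact h.ne (by rw [← hd, ← e2, h.dz])
    have dz' : d z' = -1 := by
      refine (units_sq (by rw [← map_mul, z2, map_one])).resolve_left fun e => ?_
      rcases h.cls z2 e with e | e | e | e
      · exact n0 (e ▸ cz')
      · exact hzs e
      · exact n1 (e ▸ cz')
      · exact n2 (e ▸ cz')
    have hcomm : z' * w' = w' * z' := Subtype.ext (by
      have : (z : G) * w = w * z := congrArg Subtype.val (h.zc w)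
      change (z' : G) * w' = w' * z'
      calc _ = g * (z * w) * g⁻¹ := by rw [hz', hw']; group
        _ = _ := by rw [this, hz', hw']; group)
    have key : ∀ u : X, u * u = 1 → z' * u = u * z' → ¬ IsConj (z : G) u → d u = 1 := by
      intro u hu hc hn
      refine (units_sq (by rw [← map_mul, hu, map_one])).resolve_right fun e => hn ?_
      have e0 : ∀ c, z' * u = c → u = z' * c := fun c hc => by
        rw [← hc, ← mul_assoc, z2, one_mul]
      rcases h.cls (u := z' * u) (by
          calc _ = z' * (u * z') * u := by group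
            _ = (z' * z') * (u * u) := by rw [← hc]; group
            _ = 1 := by rw [z2, hu, mul_one]) (by rw [map_mul, e, dz']; simp) with e | e | e | e
      · rw [e0 _ e, mul_one]; exact cz'
      · rw [e0 _ e, ← h.zc]; exact czz'
      · rw [e0 _ e]; exact hcj _ _ (h.conj_w z2 dz') cz'
      · rw [e0 _ e, ← mul_assoc, ← h.zc]
        exact hcj _ _ (h.conj_w (h.z_mul_sq z2) (by rw [map_mul, h.dz, dz', one_mul])) czz'
    have k1 := key w' w2 hcomm fun e => n1 (cg' _ _ (hw' ▸ e))
    have k2 := key (z' * w') (by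
        calc _ = z' * (w' * z') * w' := by group
          _ = (z' * z') * (w' * w') := by rw [← hcomm]; group
          _ = 1 := by rw [z2, w2, mul_one]) (by rw [mul_assoc, hcomm]) fun e => n2 (cg' _ _ (by
        have : ((z' * w' : X) : G) = g * (z * w : X) * g⁻¹ := by
          change (z' : G) * w' = g * (z * w) * g⁻¹
          rw [hz', hw']; group
        rwa [← this]))
    rw [map_mul, k1, dz', mul_one] at k2
    exact h.ne k2)
  have hHn : H.Normal := ⟨fun x hx y => by
    have : y * x * y⁻¹ = ⁅y, x⁆ * x := by rw [commutatorElement_def]; group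
    rw [this]
    exact mul_mem (hH (commutator_mem_commutator (mem_top _) (mem_top _))) hx⟩
  letI : CommGroup (X ⧸ H) :=
    { (inferInstance : Group (X ⧸ H)) with
      mul_comm := (Subgroup.Normal.quotient_commutative_iff_commutator_le.2 hH).1.1 }
  let ϕ : (X : Subgroup G) →* X ⧸ H := QuotientGroup.mk' H
  have hzz : (z : G) * z = 1 := congrArg Subtype.val h.zz
  have hϕ : ϕ z * ϕ z = 1 := by rw [← map_mul, h.zz, map_one]
  have ht := CL.Transfer.transfer_eq_pow_of_conj ϕ z (ϕ z) fun k g hk => by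
    rcases Nat.even_or_odd' k with ⟨j, rfl | rfl⟩
    · have : (⟨_, hk⟩ : (X : Subgroup G)) = 1 := Subtype.ext (by
        change g⁻¹ * (z : G) ^ (2 * j) * g = 1
        rw [pow_mul, sq, hzz, one_pow]; group)
      rw [this, map_one, pow_mul, sq, hϕ, one_pow]
    · have e : (z : G) ^ (2 * j + 1) = z := by rw [pow_succ, pow_mul, sq, hzz, one_pow, one_mul]
      rw [pow_succ (ϕ z), pow_mul, sq, hϕ, one_pow, one_mul]
      have := hu ⟨_, hk⟩ (Subtype.ext (by
        change g⁻¹ * (z : G) ^ (2 * j + 1) * g * (g⁻¹ * (z : G) ^ (2 * j + 1) * g) = 1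
        rw [e]
        calc _ = g⁻¹ * (z * z) * g := by group
          _ = 1 := by rw [hzz]; group)) (isConj_iff.2 ⟨g⁻¹, by
        change _ = g⁻¹ * (z : G) ^ (2 * j + 1) * g
        rw [e, inv_inv]⟩)
      refine (QuotientGroup.eq.2 ?_).symm
      rwa [inv_eq_of_mul_eq_one_right h.zz]
  obtain ⟨k, hk⟩ := Nat.odd_iff.2 (Nat.two_dvd_ne_zero.1 X.not_dvd_index)
  rw [hk, pow_succ, pow_mul, sq, hϕ, one_pow, one_mul] at ht
  set V := MonoidHom.transfer ϕ
  have hP : IsPGroup 2 V.range := ((X.2.to_quotient H).to_subgroup _)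
  have hnt : Nontrivial V.range := ⟨⟨⟨_, z, rfl⟩, 1, fun e =>
    hzH ((QuotientGroup.eq_one_iff z).1 (ht.symm.trans (congrArg Subtype.val e)))⟩⟩
  obtain ⟨M, hM, -⟩ := (eq_top_or_exists_le_coatom (⊥ : Subgroup V.range)).resolve_left bot_ne_top
  refine hG (M.comap V.rangeRestrict) ?_
  rw [index_comap_of_surjective _ V.rangeRestrict_surjective,
    CL.Grp.index_eq_of_isCoatom_pGroup hP hM]

end CL.Fgs.GL3Syl
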