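/-
Class numbers of sections of solvable permutation groups and of solvable linear groups over finite fields.
-/
import Cfsg.Agent.Fgs.HK3

set_option autoImplicit false
set_option linter.style.haveILetI false

open Subgroup CL.Odd CL.Grp CL.SL.Vc
open scoped Nat commutatorElement

namespace CL.SL.HK

universe u v

/-- passing from a section to its part inside `M` loses at most the factor `c` -/
def Ch {X : Type*} [Group X] (M : Subgroup X) (c : ℕ) : Prop :=
  ∀ (H Y : Type v) [Group H] [Finite H] [Group Y] (i : H →* X) (f : H →* Y), Function.Surjective f →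
    kk Y ≤ c * kk ((M.comap i).map f)

theorem kk_congr {A B : Type*} [Group A] [Group B] [Finite A] (e : A ≃* B) : kk A = kk B :=
  haveI := Finite.of_equiv _ e.toEquiv
  le_antisymm (Rd.kk_le e.symm.toMonoidHom e.symm.surjective) (Rd.kk_le e.toMonoidHom e.surjective)

theorem kk_pos (A : Type*) [Group A] [Finite A] : 0 < kk A := Nat.card_pos

theorem kk_le_card (A : Type*) [Group A] [Finite A] : kk A ≤ Nat.card A :=
  Nat.card_le_card_of_surjective _ ConjClasses.mk_surjective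

namespace Ch

variable {X X' : Type*} [Group X] [Group X'] {M M' : Subgroup X} {a b : ℕ}

theorem le (h : Ch.{v} M a) (hab : a ≤ b) : Ch.{v} M b := fun H Y _ _ _ i f hf =>
  (h H Y i f hf).trans (Nat.mul_le_mul_right _ hab)

theorem comap (h : Ch.{v} M a) (j : X' →* X) : Ch.{v} (M.comap j) a := fun H Y _ _ _ i f hf =>
  h H Y (j.comp i) f hf

theorem top : Ch.{v} (⊤ : Subgroup X) 1 := fun H Y _ _ _ i f hf => by
  haveI := Finite.of_surjective f hf
  rw [comap_top, map_top_of_surjective f hf, one_mul, kk_congr topEquiv]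

/-- descending from `M'` to a subgroup -/
theorem ext {K : Subgroup M'} (h : Ch.{v} K a) (h' : Ch.{v} M' b) : Ch.{v} (K.map M'.subtype) (a * b) :=
  fun H Y _ _ _ i f hf => by
  haveI := Finite.of_surjective f hf
  have h1 := h _ _ (i.subgroupComap M') _ (f.subgroupMap_surjective (M'.comap i))
  rw [kk_congr (equivMapOfInjective _ _ (subtype_injective _))] at h1
  have e : ((K.comap (i.subgroupComap M')).map (f.subgroupMap (M'.comap i))).map (Subgroup.subtype _) =
      ((K.map M'.subtype).comap i).map f := by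
    refine le_antisymm ?_ ?_
    · rintro _ ⟨_, ⟨x, hx, rfl⟩, rfl⟩
      exact ⟨x, ⟨_, hx, rfl⟩, rfl⟩
    · rintro _ ⟨x, ⟨k, hk, e⟩, rfl⟩
      have hx : x ∈ M'.comap i := by rw [mem_comap, ← e]; exact k.2
      exact ⟨_, ⟨⟨x, hx⟩, by rwa [show k = i.subgroupComap M' ⟨x, hx⟩ from Subtype.ext e] at hk, rfl⟩, rfl⟩
  rw [e] at h1
  refine (h' H Y i f hf).trans ((Nat.mul_le_mul_left _ h1).trans_eq ?_)
  ring

theorem inf (h : Ch.{v} M a) (h' : Ch.{v} M' b) : Ch.{v} (M ⊓ M') (a * b) := by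
  have := (h.comap M'.subtype).ext h'
  rwa [← subgroupOf, subgroupOf_map_subtype] at this

theorem iInf {ι : Type*} [Fintype ι] {M : ι → Subgroup X} {c : ι → ℕ} (h : ∀ j, Ch.{v} (M j) (c j)) :
    Ch.{v} (⨅ j, M j) (∏ j, c j) := by
  classical
  have H : ∀ s : Finset ι, Ch.{v} (⨅ j ∈ s, M j) (∏ j ∈ s, c j) := fun s => by
    induction s using Finset.induction_on with
    | empty => simpa using top
    | insert j s hj ih =>
      rw [Finset.iInf_insert, Finset.prod_insert hj]
      exact (h j).inf ih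
  simpa using H Finset.univ

theorem kk_le (h : Ch.{v} M a) {H Y : Type v} [Group H] [Finite H] [Group Y] (i : H →* X) (f : H →* Y)
    (hf : Function.Surjective f) (hk : ∀ x, i x ∈ M → f x = 1) : kk Y ≤ a := by
  have h1 := h H Y i f hf
  rw [(Subgroup.map_eq_bot_iff _).2 fun x hx => hk x hx] at h1
  exact h1.trans ((Nat.mul_le_mul_left _ (kk_le_card _)).trans_eq (by simp))

theorem of_kk [M.Normal] (h : ∀ (H Y : Type v) [Group H] [Finite H] [Group Y] (i : H →* X) (f : H →* Y),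
    Function.Surjective f → (∀ x, i x ∈ M → f x = 1) → kk Y ≤ a) : Ch.{v} M a := fun H Y _ _ _ i f hf => by
  haveI := Finite.of_surjective f hf
  haveI : ((M.comap i).map f).Normal := Normal.map inferInstance f hf
  refine (Fgs.card_conjClasses_le_mul ((M.comap i).map f)).trans ?_
  rw [mul_comm]
  exact Nat.mul_le_mul_right _ (h H _ i ((QuotientGroup.mk' _).comp f) ((QuotientGroup.mk'_surjective _).comp hf)
    fun x hx => (QuotientGroup.eq_one_iff _).2 ⟨x, hx, rfl⟩)

theorem mono [M'.Normal] (h : Ch.{v} M a) (hM : M ≤ M') : Ch.{v} M' a :=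
  of_kk fun _ _ _ _ _ i f hf hk => h.kk_le i f hf fun x hx => hk x (hM hx)

theorem index [Finite X] (M : Subgroup X) : Ch.{v} M M.index := fun H Y _ _ _ i f hf => by
  haveI := Finite.of_surjective f hf
  refine (kk_le_index_mul ((M.comap i).map f)).trans (Nat.mul_le_mul_right _ ?_)
  refine (Nat.le_of_dvd (Nat.pos_of_ne_zero index_ne_zero_of_finite) (index_map_dvd _ hf)).trans ?_
  rw [index_comap]
  exact (relIndex_le_of_le_right le_top (by simpa using index_ne_zero_of_finite)).trans_eq M.relIndex_top_right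

theorem bot [Finite X] (h : ∀ H : Subgroup X, kk H ≤ a) : Ch.{v} (⊥ : Subgroup X) a :=
  of_kk fun H Y _ _ _ i f hf hk => by
    refine (Rd.kk_le (i.rangeRestrict.liftOfSurjective i.rangeRestrict_surjective ⟨f, fun x hx => hk x ?_⟩)
      fun y => ?_).trans (h i.range)
    · exact congrArg Subtype.val hx
    · obtain ⟨x, rfl⟩ := hf y
      exact ⟨i.rangeRestrict x, MonoidHom.liftOfRightInverse_comp_apply _ _ _ _ x⟩

/-- elements outside `Z` have small centralisers -/
theorem cent [Finite X] (Z : Set X) (h1 : 1 ∈ Z) (hz : Z.ncard ≤ a) (hb : 1 ≤ b)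
    (hc : ∀ x ∉ Z, Nat.card C1[x] ≤ b) : Ch.{v} (⊥ : Subgroup X) (a + b - 1) := bot fun H => by
  classical
  haveI := Fintype.ofFinite H
  have e := Fgs.card_conjClasses_mul_card (G := H)
  rw [← Finset.sum_filter_add_sum_filter_not _ fun x : H => (x : X) ∈ Z] at e
  have k1 : (Finset.univ.filter fun x : H => (x : X) ∈ Z).card ≤ a := by
    refine le_trans ?_ hz
    rw [← Set.ncard_coe_finset]
    exact Set.ncard_le_ncard_of_injOn Subtype.val (fun x hx => by simpa using hx) Subtype.val_injective.injOn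
  have k2 : (Finset.univ.filter fun x : H => ¬ (x : X) ∈ Z).card < Nat.card H := by
    rw [Nat.card_eq_fintype_card]
    exact Finset.card_lt_card (Finset.filter_ssubset.2 ⟨1, Finset.mem_univ _, not_not.2 h1⟩)
  have k3 := Finset.sum_le_card_nsmul (Finset.univ.filter fun x : H => (x : X) ∈ Z) (fun x => Nat.card C1[x]) _
    fun x _ => card_le_card_group _
  have k4 := Finset.sum_le_card_nsmul (Finset.univ.filter fun x : H => ¬ (x : X) ∈ Z) (fun x => Nat.card C1[x]) b
    fun x hx => (Nat.card_le_card_of_injective (fun y : C1[x] => (⟨y, mem_centralizer_singleton_iff.2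
      (congrArg Subtype.val (mem_centralizer_singleton_iff.1 y.2))⟩ : C1[(x : X)])) fun y z e =>
        Subtype.ext (Subtype.ext (congrArg (fun w : C1[(x : X)] => (w : X)) e))).trans (hc x (by simpa using hx))
  rw [smul_eq_mul] at k3 k4
  refine Nat.le_sub_one_of_lt (Nat.lt_of_mul_lt_mul_right (a := Nat.card H) ?_)
  nlinarith [Nat.mul_le_mul_right (Nat.card H) k1, Nat.mul_le_mul_right b k2]

end Ch

theorem num3 {t : ℕ} (h : 9 ≤ t) : t ^ 4 ≤ 3 ^ (t - 1) := by
  induction t, h using Nat.le_induction with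
  | base => decide
  | succ t h ih =>
    have h1 : ((t + 1) * 9) ^ 4 ≤ (t * 10) ^ 4 := Nat.pow_le_pow_left (by omega) 4
    rw [show t + 1 - 1 = t - 1 + 1 by omega, pow_succ 3]
    rw [mul_pow, mul_pow] at h1
    omega

theorem num6 {t : ℕ} (h : 17 ≤ t) : t ^ 6 ≤ 3 ^ (t - 1) := by
  induction t, h using Nat.le_induction with
  | base => decide
  | succ t h ih =>
    have h1 : ((t + 1) * 17) ^ 6 ≤ (t * 18) ^ 6 := Nat.pow_le_pow_left (by omega) 6
    rw [show t + 1 - 1 = t - 1 + 1 by omega, pow_succ 3]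
    rw [mul_pow, mul_pow] at h1
    omega

section Mod

variable {G V : Type u} [Group G] [Finite G] [AddCommGroup V] [Finite V] [DistribMulAction G V]

theorem ch_card {c : ℕ} (h : Nat.card G ≤ c) : Ch.{v} (⊥ : Subgroup G) c := (Ch.index ⊥).le (index_bot.trans_le h)

/-- modules of order the square of a prime -/
theorem ch_sq {l : ℕ} (hl : l.Prime) (hi : Irr G V) (hf : Faith G V) (hV : Nat.card V = l ^ 2) :
    Ch.{v} (⊥ : Subgroup G) (l - 1 + (l ^ 2 - 1) - 1) := by
  haveI := Fact.mk hl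
  have h4 : l < l ^ 2 := by nlinarith [hl.two_le]
  haveI : Nontrivial V := Finite.one_lt_card_iff_nontrivial.1 (by have := hl.two_le; omega)
  obtain ⟨p, hp, h1, h2⟩ := hi.exists_prime
  obtain rfl := (Nat.prime_dvd_prime_iff_eq hp hl).1 (hp.dvd_of_dvd_pow (hV ▸ h1))
  have c1 : ∀ v : V, v ≠ 0 → Nat.card (AddSubgroup.zmultiples v) = p := fun v hv => by
    rw [Nat.card_zmultiples]; exact addOrderOf_eq_prime (h2 v) hv
  have c2 : ∀ v w : V, v ≠ 0 → v ∈ AddSubgroup.zmultiples w → w ∈ AddSubgroup.zmultiples v := fun v w hv h => by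
    have hw : w ≠ 0 := by rintro rfl; exact hv (by simpa using h)
    rw [AddSubgroup.eq_of_le_of_card_ge (AddSubgroup.zmultiples_le.2 h) (by rw [c1 v hv, c1 w hw])]
    exact AddSubgroup.mem_zmultiples w
  have c3 : ∀ v w : V, v ≠ 0 → w ∉ AddSubgroup.zmultiples v → ∀ Y : AddSubgroup V, v ∈ Y → w ∈ Y → Y = ⊤ :=
    fun v w hv h Y a1 a2 => by
      obtain ⟨k, hk, e⟩ := (Nat.dvd_prime_pow hp).1 (hV ▸ Y.card_addSubgroup_dvd_card)
      by_cases h2 : k = 2
      · exact AddSubgroup.eq_top_of_card_eq _ (by rw [e, h2, hV])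
      refine (h ?_).elim
      rwa [AddSubgroup.eq_of_le_of_card_ge (AddSubgroup.zmultiples_le.2 a1) (by
        rw [c1 v hv, e]; exact (Nat.pow_le_pow_right hp.pos (by omega)).trans_eq (pow_one p))]
  refine Ch.cent {x | ∀ v : V, x • v ∈ AddSubgroup.zmultiples v} (fun v => by simp) ?_ (by have := hp.pos; omega) fun x hx => ?_
  · obtain ⟨v, hv⟩ := exists_ne (0 : V)
    obtain ⟨w, hw⟩ : ∃ w, w ∉ AddSubgroup.zmultiples v := by
      by_contra! h
      have := c1 v hv
      rw [(AddSubgroup.eq_top_iff' _).2 h, AddSubgroup.card_top] at this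
      omega
    rw [← c1 v hv, ← Set.ncard_singleton (0 : V), ← SetLike.coe_sort_coe, Nat.card_coe_set_eq,
      ← Set.ncard_sdiff (by simp)]
    refine Set.ncard_le_ncard_of_injOn (· • v) (fun x hx => ⟨hx v, smul_ne x hv⟩) fun x hx y hy e => ?_
    have e : x • v = y • v := e
    have e2 : x • w - y • w = 0 := by
      by_contra h
      have a1 := c2 _ _ h (sub_mem (hx w) (hy w))
      have a2 := c2 _ (v + w) h (by simpa [e] using sub_mem (hx (v + w)) (hy (v + w)))
      exact hw (AddSubgroup.zmultiples_le.2 (c2 _ _ hv (by simpa using sub_mem a2 a1)) a1)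
    exact (inv_mul_eq_one.1 (hf _ (Xa.fix_of_gen (c3 v w hv hw) (by rw [mul_smul, e, inv_smul_smul])
      (by rw [mul_smul, sub_eq_zero.1 e2, inv_smul_smul])))).symm
  · obtain ⟨v, hv⟩ := not_forall.1 hx
    have h0 : v ≠ 0 := by rintro rfl; exact hv (by simp)
    rw [← hV, ← Set.ncard_singleton (0 : V), ← Set.ncard_compl, ← Nat.card_coe_set_eq]
    refine Nat.card_le_card_of_injective (fun c => ⟨(c : G) • v, smul_ne _ h0⟩) fun c c' e => Subtype.ext ?_
    have e : ((c'⁻¹ * c : C1[x]) : G) • v = v := by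
      rw [Subgroup.coe_mul, mul_smul, show (c : G) • v = (c' : G) • v from congrArg Subtype.val e]; simp
    refine (inv_mul_eq_one.1 (hf _ (Xa.fix_of_gen (c3 v _ h0 hv) e ?_))).symm
    change ((c'⁻¹ * c : C1[x]) : G) • x • v = _
    rw [← mul_smul, mem_centralizer_singleton_iff.1 (c'⁻¹ * c).2, mul_smul, e]

theorem prim_data [Nontrivial V] (hs : Group.IsSolvable G) {p : ℕ} {U E : Subgroup G} (h : Setup V p U E) :
    ∃ d e : ℕ, Nat.card G = C[U].index * (Nat.card U * d ^ 2 * e) ∧ 1 ≤ d ∧ 2 ^ (C[U].index * d) ≤ Nat.card V ∧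
      ((Nat.card U + 1) ^ d ≤ Nat.card V ∨ 2 ∣ d ∧ (4 * Nat.card U + 1) ^ (d / 2) ≤ Nat.card V) ∧
      (∀ r : ℕ, r.Prime → r ∣ d → r ∣ Nat.card U) ∧ (d ≤ 4 → e ≤ [0, 1, 6, 24, 120].getD d 0) ∧
      (d = 1 → C[U] ≤ U) := by
  obtain ⟨n, hn⟩ := card_pow h.hp h.pv
  have h1 := Finite.one_lt_card (α := V)
  obtain ⟨b, b1, b2, -⟩ := dim G V p n U E h hn (Nat.pos_of_ne_zero (by rintro rfl; rw [hn] at h1; simp at h1))
  obtain ⟨D, ξ, m⟩ := exists_mx (V := V) E
  obtain ⟨c0, hc0, e1, e2⟩ := shape h m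
  obtain ⟨d, hd, d1⟩ : ∃ d, U.relIndex E = d ^ 2 ∧
      ((Nat.card U + 1) ^ d ≤ Nat.card V ∨ 2 ∣ d ∧ (4 * Nat.card U + 1) ^ (d / 2) ≤ Nat.card V) := by
    obtain rfl | ⟨rfl, -⟩ := hc0
    · exact ⟨_, e1.trans (one_mul _), .inl (by simpa using e2)⟩
    · exact ⟨2 * Nat.card D, e1.trans (by ring), .inr ⟨dvd_mul_right _ _, by simpa [mul_comm] using e2⟩⟩
  have h0 : U.relIndex E ≠ 0 := index_ne_zero_of_finite
  have e : d = 1 → C[U] ≤ U := fun e g hg => h.self g fun a ha =>
    (mem_centralizer_iff.1 hg a (relIndex_eq_one.1 (by rw [hd, e]; rfl) ha)).symm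
  obtain ⟨x4, x9, -, -⟩ := xa G U E hs h.toGS
  have x16 := x16 G U E hs h.toGS
  rw [hd, ← mul_pow, Nat.pow_le_pow_iff_left two_ne_zero] at b2
  refine ⟨d, E.relIndex C[U], by rw [← hd, ← card_C h.toGS, index_mul_card], Nat.pos_of_ne_zero ?_, ?_, d1,
    fun r hr h' => prime_dvd_U h.toGS hr (hd ▸ h'.trans (dvd_pow_self d two_ne_zero)), fun h4 => ?_, e⟩
  · rintro rfl
    exact h0 hd
  · rw [hn]
    exact (Nat.pow_le_pow_right two_pos ((Nat.mul_le_mul_right d b1).trans b2)).trans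
      (Nat.pow_le_pow_left h.hp.two_le n)
  interval_cases d
  exacts [(h0 hd).elim, (relIndex_eq_one.2 ((e rfl).trans h.le)).le, Nat.le_of_dvd (by norm_num) (x4 hd), x9 hd, x16 hd]

/-- the bounds for small modules -/
def tb (q : ℕ) : ℕ := if q = 2 then 1 else if q = 3 then 2 else if q = 4 then 3 else if q = 8 then 21 else
  if q = 9 then 9 else if q = 16 then 27 else if q = 64 then 3 ^ 7 else if q = 81 then 3 ^ 8 else 3 ^ 15

set_option synthInstance.maxSize 4000 in
theorem tb_imp : ∀ q ∈ [8, 16, 64, 81, 256], ∀ y ≤ 16, ∀ t ≤ 8, y ∣ q → 2 ≤ y → 2 ≤ t → y ^ t ≤ q →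
    y ∈ [2, 3, 4, 9, 8, 16, 64, 81, 256] ∧ tb y ^ t * t ! ≤ tb q := by decide +kernel

set_option synthInstance.maxSize 40000 in
set_option synthInstance.maxHeartbeats 400000 in
theorem tb_prim : ∀ q ∈ [8, 16, 64, 81, 256], ∀ u ∈ Nat.divisors (q - 1), ∀ d ≤ 8, ∀ a ≤ 8, 1 ≤ d → 1 ≤ a →
    2 ^ (a * d) ≤ q → ((u + 1) ^ d ≤ q ∨ 2 ∣ d ∧ (4 * u + 1) ^ (d / 2) ≤ q) → (∀ r ∈ [2, 3, 5, 7], r ∣ d → r ∣ u) →
      d ≤ 4 ∧ (a * (u * d ^ 2 * [0, 1, 6, 24, 120].getD d 0) ≤ tb q ∨ q = 16 ∧ u = 15 ∧ d = 1 ∧ a ≤ 4) := by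
  decide +kernel

omit [Finite V] in
theorem ch_imp (hf : Faith G V) {L : Subgroup G} {π : V →+ V} {Y : AddSubgroup V} (I : Imp L π Y)
    [Group.IsSolvable G] {c : ℕ} (h : ∀ (G' : Type u) [Group G'] [Finite G'] [DistribMulAction G' Y],
      Group.IsSolvable G' → Irr G' Y → Faith G' Y → Ch.{v} (⊥ : Subgroup G') c) :
    Ch.{v} (⊥ : Subgroup G) (c ^ L.index * L.index !) := by
  letI := subAct I.inv
  haveI := Fintype.ofFinite (G ⧸ L)
  obtain ⟨G', _, _, _, f, h1, h2, h4, h3⟩ := exists_faith (G := L) (V := Y) inferInstance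
  obtain ⟨ψ, hψ⟩ := exists_emb I hf f fun l hl y hy =>
    congrArg Subtype.val ((h2 l ⟨y, hy⟩).symm.trans (by rw [hl, one_smul]))
  have k := (Ch.iInf fun q => (h G' h4 (irr_of_hom h2 I.irr') h3).comap
    ((Pi.evalMonoidHom (fun _ : G ⧸ L => G') q).comp ψ)).ext (Ch.index _)
  rw [Finset.prod_const, Finset.card_univ, ← Nat.card_eq_fintype_card, ← index] at k
  refine (k.mono ?_).le (Nat.mul_le_mul_left _ (Nat.le_of_dvd (Nat.factorial_pos _) (index_core_dvd L)))
  rintro _ ⟨x, hx, rfl⟩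
  exact congrArg Subtype.val ((injective_iff_map_eq_one ψ).1 hψ x (funext fun q => mem_iInf.1 hx q))

theorem ch_tb (q : ℕ) : ∀ (G V : Type u) [Group G] [Finite G] [AddCommGroup V] [Finite V] [DistribMulAction G V],
    Group.IsSolvable G → Irr G V → Faith G V → Nat.card V = q → q ∈ [2, 3, 4, 9, 8, 16, 64, 81, 256] →
      Ch.{v} (⊥ : Subgroup G) (tb q) := by
  induction q using Nat.strong_induction_on with
  | _ q ih =>
  intro G V _ _ _ _ _ hs hi hf hV hq
  have h0 : Nat.card G ≤ (q - 1)! := by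
    rw [card_eq_index (f := MonoidHom.id G) Function.surjective_id (fun _ _ => rfl) hf, ← hV]
    exact Nat.le_of_dvd (Nat.factorial_pos _) index_Kr_dvd
  rw [List.mem_cons, List.mem_cons, List.mem_cons, List.mem_cons] at hq
  obtain rfl | rfl | rfl | rfl | hq := hq
  · exact ch_card h0
  · exact ch_card h0
  · exact ch_sq Nat.prime_two hi hf hV
  · exact ch_sq Nat.prime_three hi hf hV
  have q1 : 8 ≤ q ∧ q ≤ 256 := by simp at hq; omega
  haveI : Nontrivial V := Finite.one_lt_card_iff_nontrivial.1 (by omega)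
  have b8 : ∀ n, 2 ^ n ≤ q → n ≤ 8 := fun n hn => (Nat.pow_le_pow_iff_right one_lt_two).1 (hn.trans q1.2)
  obtain ⟨p, U, E, h⟩ | ⟨L, π, Y, I⟩ := irr_cases' hs hi hf
  · obtain ⟨d, e, a1, a2, a3, a4, a5, a6, a7⟩ := prim_data hs h
    have hu := card_U_dvd h
    rw [hV] at a3 a4 hu
    have ha : 1 ≤ C[U].index := Nat.pos_of_ne_zero index_ne_zero_of_finite
    obtain ⟨b1, b2 | ⟨rfl, b2, rfl, b3⟩⟩ := tb_prim q hq _ (Nat.mem_divisors.2 ⟨hu, by omega⟩) d
      ((Nat.le_mul_of_pos_left _ ha).trans (b8 _ a3)) _ ((Nat.le_mul_of_pos_right _ a2).trans (b8 _ a3)) a2 ha a3 a4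
      fun r hr => a5 r (by simp at hr; rcases hr with rfl | rfl | rfl | rfl <;> norm_num)
    · exact ch_card (a1.le.trans (le_trans (Nat.mul_le_mul_left _ (Nat.mul_le_mul_left _ (a6 b1))) b2))
    classical
    haveI := h.cyc
    haveI := Fintype.ofFinite U
    have hU : C[U] = U := le_antisymm (a7 rfl) fun a ha => mem_centralizer_iff.2 fun w hw => h.cent w hw a (h.le ha)
    have c1 : ∀ n, 0 < n → (Subtype.val '' {x : U | x ^ n = 1}).ncard ≤ n := fun n hn => by
      refine (Set.ncard_image_le (Set.toFinite _)).trans ?_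
      simpa [← Set.ncard_coe_finset] using IsCyclic.card_pow_eq_one_le (α := U) hn
    refine Ch.cent (a := 8) (b := 20) (Subtype.val '' {x : U | x ^ 3 = 1} ∪ Subtype.val '' {x : U | x ^ 5 = 1})
      (.inl ⟨1, by simp, rfl⟩) ((Set.ncard_union_le _ _).trans (Nat.add_le_add (c1 3 (by omega)) (c1 5 (by omega))))
      (by omega) fun x hx => ?_
    have c2 : ∀ a ∈ Nat.divisors 15, a ≠ 15 → a ≤ 5 ∧ (a ∣ 3 ∨ a ∣ 5) := by decide
    by_cases h1 : x ∈ U
    · have e : zpowers (⟨x, h1⟩ : U) = ⊤ := by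
        refine eq_top_of_card_eq _ (by_contra fun h2 => ?_)
        rw [Nat.card_zpowers, b2] at h2
        obtain h3 | h3 := (c2 _ (Nat.mem_divisors.2 ⟨b2 ▸ orderOf_dvd_natCard _, by omega⟩) h2).2
        exacts [hx (.inl ⟨_, orderOf_dvd_iff_pow_eq_one.1 h3, rfl⟩), hx (.inr ⟨_, orderOf_dvd_iff_pow_eq_one.1 h3, rfl⟩)]
      refine (card_le_of_le (K := U) fun g hg => a7 rfl (mem_centralizer_iff.2 fun w hw => ?_)).trans (by omega)
      obtain ⟨k, hk⟩ : (⟨w, hw⟩ : U) ∈ zpowers (⟨x, h1⟩ : U) := e ▸ mem_top _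
      rw [← show x ^ k = w from congrArg Subtype.val hk]
      exact (Commute.zpow_right (mem_centralizer_singleton_iff.1 hg) k).symm
    · refine (card_le_index_mul _ U).trans (Nat.mul_le_mul (hU ▸ b3) (c2 _ (Nat.mem_divisors.2
        ⟨b2 ▸ card_dvd_of_le inf_le_right, by omega⟩) fun e => h1 (a7 rfl (mem_centralizer_iff.2 fun w hw => ?_))).1)
      rw [← eq_of_le_of_card_ge (inf_le_right (a := C1[x])) (b2.trans e.symm).le] at hw
      exact mem_centralizer_singleton_iff.1 hw.1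
  · have h2 := I.two_le
    have h3 := hV ▸ I.pow_le
    haveI := I.nontrivial
    have h4 : 2 ≤ Nat.card Y := Finite.one_lt_card
    have h5 := tb_imp q hq _ (by
      by_contra h5
      have := ((Nat.pow_le_pow_left (show 17 ≤ Nat.card Y by omega) 2).trans
        (Nat.pow_le_pow_right (by omega) h2)).trans h3
      omega) _ (b8 _ ((Nat.pow_le_pow_left h4 _).trans h3)) (hV ▸ Y.card_addSubgroup_dvd_card) h4 h2 h3
    exact (ch_imp hf I fun G' _ _ _ a b c => ih _ (hV ▸ I.card_lt.1) G' Y a b c rfl h5.1).le h5.2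

omit [Finite V] in
theorem ch_Kr (hs : Group.IsSolvable G) (hi : Irr G V) {c : ℕ} (h : ∀ (G' : Type u) [Group G'] [Finite G']
    [DistribMulAction G' V], Group.IsSolvable G' → Irr G' V → Faith G' V → Ch.{v} (⊥ : Subgroup G') c) :
    Ch.{v} (Kr G V) c := by
  obtain ⟨G', _, _, _, f, -, h2, h4, h3⟩ := exists_faith (V := V) hs
  exact ((h G' h4 (irr_of_hom h2 hi) h3).comap f).mono fun g hg => mem_Kr.2 fun w => by
    rw [← h2, mem_bot.1 (mem_comap.1 hg), one_smul]

theorem num2 {t : ℕ} (h : 2 ≤ t) : t - 1 + (t ^ 2 - 1) - 1 ≤ 3 ^ (t - 1) := by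
  induction t, h using Nat.le_induction with
  | base => decide
  | succ t h ih =>
    obtain rfl | h := h.eq_or_lt
    · decide
    have : (t + 1) ^ 2 ≤ 2 * t ^ 2 := by nlinarith
    have : 9 ≤ t ^ 2 := by nlinarith
    rw [show t + 1 - 1 = t - 1 + 1 by omega, pow_succ 3]
    omega

/-- irreducible modules of square order -/
theorem ch_irr (hs : Group.IsSolvable G) (hi : Irr G V) {d : ℕ} (hV : Nat.card V = d ^ 2) :
    Ch.{v} (Kr G V) (3 ^ (d - 1)) := by
  by_cases h : 17 ≤ d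
  · refine (Ch.index _).le ((index_Kr_le (baseThm G V hs (cr_of_irr hi)).1).trans ?_)
    rw [hV, ← pow_mul]
    exact num6 h
  by_cases hd : d.Prime
  · exact ch_Kr hs hi fun G' _ _ _ _ b c => (ch_sq hd b c hV).le (num2 hd.two_le)
  obtain ⟨p, k, hp, e⟩ := card_pow_of_irr hi
  have h1 : ∀ r s : ℕ, r.Prime → s.Prime → r ∣ d → s ∣ d → r = s := fun r s hr hs h1 h2 => by
    have k : ∀ r : ℕ, r.Prime → r ∣ d → r = p := fun r hr h => (Nat.prime_dvd_prime_iff_eq hr hp).1
      (hr.dvd_of_dvd_pow (e ▸ hV ▸ h.trans (dvd_pow_self d two_ne_zero)))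
    rw [k r hr h1, k s hs h2]
  have a1 := h1 2 3 Nat.prime_two Nat.prime_three
  have a2 := h1 2 5 Nat.prime_two Nat.prime_five
  have a3 := h1 2 7 Nat.prime_two Nat.prime_seven
  have a4 := h1 3 5 Nat.prime_three Nat.prime_five
  have a5 : 0 < Nat.card V := Nat.card_pos
  have a6 := Nat.le_of_dvd (Nat.factorial_pos _) (index_Kr_dvd (G := G) (V := V))
  have a7 := fun hq => ch_Kr.{u, v} hs hi fun G' _ _ _ a b c => ch_tb _ G' V a b c hV hq
  rw [hV] at a5 a6
  replace h : d ≤ 16 := by omega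
  interval_cases d <;> first
    | exact a7 (by decide)
    | exact absurd (by decide) hd
    | omega
    | exact (Ch.index _).le a6

end Mod

/-- solvable primitive permutation groups -/
theorem ch_coatom {G : Type u} [Group G] [Finite G] (hs : Group.IsSolvable G) {L : Subgroup G} (hL : IsCoatom L) :
    Ch.{v} L.normalCore (3 ^ (L.index - 1)) := by
  obtain ⟨A, _, _, _, τ, hA', e1, -, e3, -⟩ := affThm G hs L hL
  have t2 : 2 ≤ L.index := by
    have := mt index_eq_one.1 hL.1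
    have : L.index ≠ 0 := index_ne_zero_of_finite
    omega
  by_cases h8 : L.index = 8
  · exact (((ch_Kr hs hA' fun G' _ _ _ a b c => ch_tb _ G' A a b c (e1.trans h8) (by decide)).inf
      (Ch.index L)).mono e3).le (by rw [h8]; decide)
  haveI : Nontrivial A := Finite.one_lt_card_iff_nontrivial.1 (by omega)
  have k3 : ∀ k, Reg G A k → L.normalCore.index ≤ (L.index - 1) ^ k * L.index := fun k hk =>
    ((index_antitone e3).trans index_inf_le).trans (Nat.mul_le_mul_right _ (e1 ▸ index_Kr_le' hk))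
  have hb := baseThm G A hs (cr_of_irr hA')
  have h6 : L.index ≠ 6 := fun e => by
    obtain ⟨r, k, hr, e2⟩ := card_pow_of_irr hA'
    rw [e1, e] at e2
    have a2 := (Nat.prime_dvd_prime_iff_eq Nat.prime_two hr).1 (Nat.prime_two.dvd_of_dvd_pow (e2 ▸ (by decide : 2 ∣ 6)))
    have a3 := (Nat.prime_dvd_prime_iff_eq Nat.prime_three hr).1
      (Nat.prime_three.dvd_of_dvd_pow (e2 ▸ (by decide : 3 ∣ 6)))
    omega
  have k1 := Nat.le_of_dvd (Nat.factorial_pos _) (index_core_dvd L)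
  have k2 := fun hc => k3 2 (hb.2 (Or.inr (Or.inr (e1 ▸ hc))))
  have k4 := k3 3 hb.1
  refine (Ch.index _).le ?_
  generalize L.index = t at *
  by_cases h : 9 ≤ t
  · refine k4.trans (le_trans ?_ (num3 h))
    rw [pow_succ t 3]
    exact Nat.mul_le_mul_right _ (Nat.pow_le_pow_left (by omega) 3)
  replace h : t ≤ 8 := by omega
  interval_cases t
  exacts [k1.trans (by decide), k1.trans (by decide), k1.trans (by decide), (k2 (by decide)).trans (by decide),
    (h6 rfl).elim, (k2 (by decide)).trans (by decide), (h8 rfl).elim]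

/-- solvable transitive permutation groups -/
theorem ch_core (t : ℕ) : ∀ (G : Type u) [Group G] [Finite G], Group.IsSolvable G → ∀ S : Subgroup G, S.index = t →
    Ch.{v} S.normalCore (3 ^ (t - 1)) := by
  induction t using Nat.strong_induction_on with
  | _ t ih =>
  intro G _ _ hs S hS
  obtain rfl | ⟨L, hL, hSL⟩ := eq_top_or_exists_le_coatom S
  · exact (Ch.top.mono (normal_le_normalCore.2 le_rfl)).le (Nat.one_le_pow _ _ three_pos)
  haveI := Fintype.ofFinite (G ⧸ L)
  have e := (relIndex_mul_index hSL).trans hS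
  have t2 : 2 ≤ L.index := by
    have := mt index_eq_one.1 hL.1
    have : L.index ≠ 0 := index_ne_zero_of_finite
    omega
  have t1 : 1 ≤ S.relIndex L := Nat.pos_of_ne_zero index_ne_zero_of_finite
  have hm : ∀ (q : G ⧸ L) (n : L.normalCore), q.out⁻¹ * n * q.out ∈ L := fun q n =>
    L.normalCore_le (L.normalCore_normal.conj_mem' _ n.2 q.out)
  have k := (Ch.iInf fun q => (ih (S.relIndex L) (by nlinarith) L inferInstance (S.subgroupOf L) rfl).comap
    (MonoidHom.mk' (fun n => ⟨_, hm q n⟩) fun a b => Subtype.ext (by simp [mul_assoc]))).ext (ch_coatom hs hL)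
  rw [Finset.prod_const, Finset.card_univ, ← Nat.card_eq_fintype_card, ← index, ← pow_mul, ← pow_add] at k
  refine (k.mono ?_).le (Nat.pow_le_pow_right three_pos ?_)
  · rintro _ ⟨x, hx, rfl⟩ g
    obtain ⟨l, hl⟩ := QuotientGroup.mk_out_eq_mul L g⁻¹
    have := mem_iInf.1 hx (g⁻¹ : G) l
    simpa [mem_subgroupOf, hl, mul_assoc] using this
  · rw [Nat.sub_mul, e]
    have := Nat.le_mul_of_pos_left L.index t1
    omega

/-- solvable permutation groups -/
theorem ch_perm {G : Type u} [Group G] [Finite G] (hs : Group.IsSolvable G) (Ω : Type*) [Finite Ω] [Nonempty Ω]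
    [MulAction G Ω] : Ch.{v} (Kr G Ω) (3 ^ (Nat.card Ω - 1)) := by
  classical
  haveI := Fintype.ofFinite (MulAction.orbitRel.Quotient G Ω)
  have k := Ch.iInf fun q : MulAction.orbitRel.Quotient G Ω => ch_core.{u, v} _ G hs (MulAction.stabilizer G q.out) rfl
  rw [Finset.prod_pow_eq_pow_sum] at k
  refine (k.mono fun g hg => mem_Kr.2 fun w => ?_).le (Nat.pow_le_pow_right three_pos ?_)
  · obtain ⟨a, e⟩ : w ∈ MulAction.orbit G (Quotient.mk'' w : MulAction.orbitRel.Quotient G Ω).out :=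
      MulAction.orbitRel_apply.1 (Quotient.exact (Quotient.out_eq' _).symm)
    have := mem_iInf.1 hg (Quotient.mk'' w) a⁻¹
    rw [MulAction.mem_stabilizer_iff, inv_inv, mul_smul, mul_smul, inv_smul_eq_iff] at this
    exact (show a • _ = w from e) ▸ this
  · haveI : Nonempty (MulAction.orbitRel.Quotient G Ω) := ⟨Quotient.mk'' (Classical.arbitrary Ω)⟩
    rw [Nat.card_congr (MulAction.selfEquivSigmaOrbitsQuotientStabilizer G Ω), Nat.card_sigma]
    refine Nat.le_sub_one_of_lt (Finset.sum_lt_sum_of_nonempty Finset.univ_nonempty fun q _ => ?_)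
    exact Nat.sub_one_lt index_ne_zero_of_finite

end CL.SL.HK
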