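/-
Class numbers of sections of solvable linear groups in coprime characteristic.
-/
import Cfsg.Agent.Fgs.HK4

set_option autoImplicit false
set_option linter.style.haveILetI false

open Subgroup CL.Odd CL.Grp CL.SL.Vc Module
open scoped commutatorElement

namespace CL.SL.HK

universe u v w

variable {G : Type u} [Group G] [Finite G]

theorem sec_sq {U E : Subgroup G} (h : GS U E) {N : Type*} [AddCommGroup N] [DistribMulAction G N] {ν : G → N}
    (s : Sec U E N ν) {Z : AddSubgroup N} (hZ : Inv G N Z) : ∃ d, Nat.card Z = d ^ 2 := by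
  haveI := s.pre_normal h hZ
  have hT : s.pre Z ≤ E := fun _ ha => ha.1
  have hU : U ≤ C[s.pre Z] := fun u hu => mem_centralizer_iff.2 fun a ha => (h.cent u hu a ha.1).symm
  obtain ⟨M, -, ⟨m1, m2, m3⟩, m4⟩ := Finite.exists_le_maximal (a := U)
    (p := fun A : Subgroup G => U ≤ A ∧ A ≤ s.pre Z ∧ A ≤ C[A]) ⟨le_rfl, s.le_pre h Z,
      hU.trans (centralizer_le (s.le_pre h Z))⟩
  have e1 : C[M] ⊓ s.pre Z = M := le_antisymm (fun c hc => by
    have a1 : M ≤ (C[M] ⊓ s.pre Z ⊓ C1[c]) ⊓ C[C[M] ⊓ s.pre Z ⊓ C1[c]] := fun x hx =>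
      ⟨⟨⟨m3 hx, m2 hx⟩, mem_centralizer_singleton_iff.2 (hc.1 x hx)⟩, fun y hy => (hy.1.1 x hx).symm⟩
    exact m4 ⟨m1.trans a1, fun x hx => hx.1.1.2, inf_le_right.trans (centralizer_le (SetLike.coe_subset_coe.2 inf_le_left))⟩
      a1 ⟨⟨hc, mem_centralizer_singleton_iff.2 rfl⟩, fun y hy => mem_centralizer_singleton_iff.1 hy.2⟩) (le_inf m3 m2)
  have e2 : C[s.pre Z] ⊓ M = U := le_antisymm ((inf_le_inf_left _ m2).trans (h.abn _ inferInstance
    (le_inf hU (s.le_pre h Z)) (inf_le_right.trans hT) fun a ha b hb => hb.1 a ha.2)) (le_inf hU m1)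
  have e3 := le_antisymm (h.pair_le (m2.trans hT) hT) (h.pair_le hT (m2.trans hT))
  rw [← inf_relIndex_right, ← inf_relIndex_right C[M], e1, e2] at e3
  refine ⟨U.relIndex M, ?_⟩
  rw [sq, show U.relIndex M * U.relIndex M = U.relIndex (s.pre Z) by
    rw [← relIndex_mul_relIndex _ _ _ m1 m2, ← e3]]
  let f : s.pre Z →* Multiplicative Z := MonoidHom.mk' (fun a => Multiplicative.ofAdd ⟨ν a, a.2.2⟩) fun a b =>
    congrArg Multiplicative.ofAdd (Subtype.ext (s.mul _ a.2.1 _ b.2.1))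
  have k1 : f.ker = U.subgroupOf (s.pre Z) := Subgroup.ext fun a =>
    (Multiplicative.ofAdd.injective.eq_iff.trans Subtype.ext_iff).trans (s.zero _ a.2.1)
  have k2 : f.range = ⊤ := f.range_eq_top.2 fun z => by
    obtain ⟨a, ha, e⟩ := s.surj z.toAdd
    exact ⟨⟨a, ha, e ▸ z.toAdd.2⟩, congrArg Multiplicative.ofAdd (Subtype.ext e)⟩
  rw [relIndex, ← k1, index_ker, k2, card_top]
  rfl

theorem ch_gs (hs : Group.IsSolvable G) {U E : Subgroup G} (h : GS U E) (hU : C[U] = ⊤) {n : ℕ}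
    (hn : U.relIndex E ≤ n ^ 2) : Ch.{v} E (3 ^ (n - 1)) := by
  obtain ⟨N, _, _, _, ν, s⟩ := exists_sec h
  haveI := h.nE
  obtain ⟨M, h1, d, -, h2, h3⟩ := cr_ind (s.cr h) (fun Y => ∃ M : Subgroup G, (∀ g ∈ M, ∀ y ∈ Y, g • y = y) ∧
      ∃ d, 1 ≤ d ∧ d ^ 2 ≤ Nat.card Y ∧ Ch.{v} M (3 ^ (d - 1)))
    ⟨⊤, fun g _ y hy => by rw [AddSubgroup.mem_bot.1 hy, smul_zero], 1, le_rfl, Nat.card_pos, Ch.top⟩
    fun Z W W' hZ _ hi _ h1 _ h2 ⟨M, a1, d, a2, a3, a4⟩ => by
      letI := subAct hZ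
      obtain ⟨e, he⟩ := sec_sq h s hZ
      have h0 : 1 ≤ e := Nat.pos_of_ne_zero (by rintro rfl; exact Nat.card_pos.ne' he)
      refine ⟨Kr G Z ⊓ M, fun g hg y hy => ?_, e * d, Nat.mul_pos h0 a2, ?_, ((ch_irr hs hi he).inf a4).le ?_⟩
      · obtain ⟨z, hz, w, hw, rfl⟩ := AddSubgroup.mem_sup.1 hy
        rw [smul_add, a1 g hg.2 w hw, show g • z = z from congrArg Subtype.val (mem_Kr.1 hg.1 ⟨z, hz⟩)]
      · rw [mul_pow, ← he]
        refine (Nat.mul_le_mul_left _ a3).trans ?_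
        rw [← Nat.card_prod]
        refine Nat.card_le_card_of_injective (fun x => ⟨x.1 + x.2, AddSubgroup.add_mem_sup x.1.2 x.2.2⟩) fun x y e => ?_
        have e : (x.1 : N) + x.2 = y.1 + y.2 := congrArg Subtype.val e
        have h3 : (x.1 : N) - y.1 = 0 := by
          rw [← AddSubgroup.mem_bot, ← h1]
          refine AddSubgroup.mem_inf.2 ⟨sub_mem x.1.2 y.1.2, ?_⟩
          rw [show (x.1 : N) - y.1 = y.2 - x.2 by linear_combination (norm := abel) e]
          exact h2 (sub_mem y.2.2 x.2.2)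
        rw [sub_eq_zero.1 h3, add_right_inj] at e
        exact Prod.ext (Subtype.ext (sub_eq_zero.1 h3)) (Subtype.ext e)
      · rw [← pow_add]
        obtain ⟨e, rfl⟩ := Nat.exists_eq_add_of_le' h0
        obtain ⟨d, rfl⟩ := Nat.exists_eq_add_of_le' a2
        refine Nat.pow_le_pow_right three_pos (Nat.le_sub_one_of_lt ?_)
        simp only [Nat.add_sub_cancel]
        nlinarith [Nat.zero_le (e * d)]
  rw [AddSubgroup.card_top, s.card] at h2
  exact (h3.mono fun g hg => s.ker_le h ⟨mem_Kr.2 fun w => h1 g hg w trivial, hU ▸ mem_top g⟩).le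
    (Nat.pow_le_pow_right three_pos (Nat.sub_le_sub_right ((Nat.pow_le_pow_iff_left two_ne_zero).1 (h2.trans hn)) 1))

variable {K : Type*} [Field K] [IsAlgClosed K]

/-- the conclusion: a subnormal subgroup that acts as a group of class at most two -/
def Cl {V : Type*} [AddCommGroup V] [Module K V] (ρ : G →* End K V) : Prop :=
  ∃ M : Subgroup G, M.IsSubnormal ∧ (∀ a ∈ M, ∀ b ∈ M, ∀ c ∈ M, ρ ⁅⁅a, b⁆, c⁆ = 1) ∧ Ch.{v} M (3 ^ (finrank K V - 1))

theorem cl_prim {V : Type*} [AddCommGroup V] [Module K V] [FiniteDimensional K V] [Nontrivial V] {ρ : G →* End K V}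
    (hs : Group.IsSolvable G) (hf : ∀ g, ρ g = 1 → g = 1)
    (h : ∀ A : Subgroup G, A.Normal → IsMulCommutative A → ∀ a ∈ A, ∃ c : K, ∀ x, ρ a x = c • x) : Cl.{u, v} ρ := by
  obtain ⟨x, hx⟩ := exists_ne (0 : V)
  obtain ⟨U, E, h1, h2⟩ := exists_gs hs fun A hA hc => by
    choose c hc using fun a : A => h A hA hc a a.2
    refine isCyclic_of_injective_ringHom (R := K) ⟨⟨c, smul_left_injective K hx ?_⟩, fun a b =>
      smul_left_injective K hx ?_⟩ fun a b (e : c a = c b) => (mul_inv_eq_one.1 (Subtype.ext (hf _ ?_)))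
    · simp [← hc]
    · simp only
      rw [mul_smul, ← hc, ← hc, ← hc, coe_mul, map_mul, End.mul_apply]
    · rw [coe_mul, map_mul, show ρ a = ρ b from LinearMap.ext fun y => by rw [hc, hc, e], ← map_mul]
      simp
  obtain ⟨u₀, h0⟩ := h1.cyc.exists_monoid_generator
  obtain ⟨l, hl⟩ := (ρ u₀).exists_eigenvalue
  have h3 := dim_big (ρ := ρ) h1 u₀.2 (fun u hu => let ⟨k, e⟩ := h0 ⟨u, hu⟩; ⟨k, congrArg Subtype.val e⟩)
    (fun u hu y e => by
      obtain ⟨c, hc⟩ := h U h1.nU h2 u hu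
      refine or_iff_not_imp_right.2 fun hy => hf u (LinearMap.ext fun z => ?_)
      rw [hc, show c = 1 from smul_left_injective K hy (by simpa [hc] using e), one_smul, End.one_apply]) hl
  refine ⟨E, h1.nE.isSubnormal, fun a ha b hb c hc => by rw [h1.comm_U_left (h1.comm a ha b hb) hc, map_one],
    ch_gs hs h1 (eq_top_iff.2 fun g _ u hu => comm_iff.1 (hf _ (LinearMap.ext fun y => ?_)))
      (h3.trans (Nat.pow_le_pow_left (Submodule.finrank_le _) 2))⟩
  obtain ⟨c, hc⟩ := h U h1.nU h2 u hu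
  have e : ρ u * ρ g = ρ g * ρ u := LinearMap.ext fun z => by rw [End.mul_apply, End.mul_apply, hc, hc, map_smul]
  rw [commutatorElement_def, map_mul, map_mul, map_mul, e, ← map_mul, ← map_mul, ← map_mul]
  simp

theorem cl_main (n : ℕ) : ∀ (G : Type u) [Group G] [Finite G] (V : Type w) [AddCommGroup V] [Module K V]
    [FiniteDimensional K V] [Nontrivial V] (ρ : G →* End K V), Group.IsSolvable G → (Nat.card G : K) ≠ 0 →
      finrank K V = n → Cl.{u, v} ρ := by
  induction n using Nat.strong_induction_on with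
  | _ n ih =>
  intro G _ _ V _ _ _ _ ρ hs hG hn
  wlog hf : ∀ g, ρ g = 1 → g = 1 generalizing G
  · obtain ⟨M, h1, h2, h3⟩ := this (G ⧸ ρ.ker) (QuotientGroup.lift ρ.ker ρ fun _ hx => hx) inferInstance
      (ne_zero_of_dvd_ne_zero hG (Nat.cast_dvd_cast (card_quotient_dvd_card _))) fun g hg => by
        obtain ⟨g, rfl⟩ := QuotientGroup.mk_surjective g
        exact (QuotientGroup.eq_one_iff g).2 hg
    exact ⟨_, h1.comap (QuotientGroup.mk' _), fun a ha b hb c hc => by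
      have := h2 _ ha _ hb _ hc
      rwa [← map_commutatorElement, ← map_commutatorElement] at this, h3.comap _⟩
  by_cases h : ∀ A : Subgroup G, A.Normal → IsMulCommutative A → ∀ a ∈ A, ∃ c : K, ∀ x, ρ a x = c • x
  · exact cl_prim hs hf h
  push Not at h
  obtain ⟨A, hA, hc, a₀, ha, h0⟩ := h
  classical
  have hss : ∀ a : A, (ρ a).IsFinitelySemisimple := fun a =>
    (End.isSemisimple_of_squarefree_aeval_eq_zero (Polynomial.X_pow_sub_one_separable_iff.2 hG).squarefree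
      (by rw [map_sub, map_pow, Polynomial.aeval_X, ← map_pow, pow_card_eq_one']; simp)).isFinitelySemisimple
  have hcm : ∀ a b : A, Commute (ρ a) (ρ b) := fun a b => Commute.map (congrArg Subtype.val (hc.is_comm.comm a b)) ρ
  let W : (A → K) → Submodule K V := fun χ => ⨅ a : A, (ρ a).eigenspace (χ a)
  have mem : ∀ χ x, x ∈ W χ ↔ ∀ a : A, ρ a x = χ a • x := fun χ x => by
    simp only [W, Submodule.mem_iInf, End.mem_eigenspace_iff]
  have htop : ⨆ χ, W χ = ⊤ := by
    simpa only [(hss _).maxGenEigenspace_eq_eigenspace] using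
      End.iSup_iInf_maxGenEigenspace_eq_top_of_iSup_maxGenEigenspace_eq_top_of_commute (fun a : A => ρ a)
        (fun a b _ => hcm a b) fun a => End.iSup_maxGenEigenspace_eq_top _
  have hind : iSupIndep W := by
    simpa only [(hss _).maxGenEigenspace_eq_eigenspace] using
      End.independent_iInf_maxGenEigenspace_of_forall_mapsTo (fun a : A => ρ a)
        fun a b l => End.mapsTo_maxGenEigenspace_of_comm (hcm b a) l
  have mv : ∀ (g : G) χ, ∀ x ∈ W χ, ρ g x ∈ W fun a => χ (MulAut.conjNormal g⁻¹ a) := fun g χ x hx =>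
    (mem _ _).2 fun a => by
      rw [← map_smul, ← (mem _ _).1 hx, ← End.mul_apply, ← End.mul_apply, ← map_mul, ← map_mul]
      simp [mul_assoc]
  haveI : Finite {χ // W χ ≠ ⊥} := Submodule.finite_ne_bot_of_iSupIndep hind
  haveI := Fintype.ofFinite {χ // W χ ≠ ⊥}
  haveI : Nonempty {χ // W χ ≠ ⊥} := by
    by_contra! h
    exact top_ne_bot (htop.symm.trans (iSup_eq_bot.2 fun χ => by_contra fun e => h.false ⟨χ, e⟩))
  letI : MulAction G {χ // W χ ≠ ⊥} :=
    { smul := fun g χ => ⟨fun a => χ.1 (MulAut.conjNormal g⁻¹ a), by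
        obtain ⟨x, hx, h1⟩ := (Submodule.ne_bot_iff _).1 χ.2
        exact (Submodule.ne_bot_iff _).2 ⟨_, mv g _ x hx, dim_ne g h1⟩⟩
      one_smul := fun χ => Subtype.ext (funext fun a => congrArg χ.1 (by simp))
      mul_smul := fun g h χ => Subtype.ext (funext fun a => congrArg χ.1 (by simp)) }
  have st : ∀ (χ : {χ // W χ ≠ ⊥}) (g : Kr G {χ // W χ ≠ ⊥}), ∀ x ∈ W χ, ρ g x ∈ W χ := fun χ g x hx => by
    have := mv g _ x hx
    rwa [show (fun a => χ.1 (MulAut.conjNormal (g : G)⁻¹ a)) = χ.1 from congrArg Subtype.val (mem_Kr.1 g.2 χ)] at this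
  have nt : ∀ χ : {χ // W χ ≠ ⊥}, Nontrivial (W χ) := fun χ => Submodule.nontrivial_iff_ne_bot.2 χ.2
  choose M m1 m2 m3 using fun χ : {χ // W χ ≠ ⊥} => ih _ (hn ▸ Submodule.finrank_lt (s := W χ) fun e => by
      obtain ⟨x, hx⟩ := h0 (χ.1 ⟨a₀, ha⟩)
      exact hx ((mem _ _).1 (e ▸ Submodule.mem_top) ⟨a₀, ha⟩)) (Kr G {χ // W χ ≠ ⊥}) (W χ)
    ⟨⟨fun g => (ρ g).restrict (st χ g), by ext; simp⟩, fun a b => by ext; simp⟩ inferInstance
    (ne_zero_of_dvd_ne_zero hG (Nat.cast_dvd_cast (card_subgroup_dvd_card _))) rfl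
  refine ⟨(⨅ χ, M χ).map (Subgroup.subtype _), IsSubnormal.trans' ?_ (Normal.isSubnormal inferInstance), ?_,
    ((Ch.iInf m3).ext (ch_perm hs _)).le ?_⟩
  · have H : ∀ s : Finset _, (⨅ χ ∈ s, M χ).IsSubnormal := fun s => by
      induction s using Finset.induction_on with
      | empty => simp
      | insert j s hj ih => rw [Finset.iInf_insert]; exact (m1 j).inf ih
    simpa using H Finset.univ
  · rintro _ ⟨a, ha, rfl⟩ _ ⟨b, hb, rfl⟩ _ ⟨c, hc, rfl⟩
    rw [← map_commutatorElement, ← map_commutatorElement]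
    refine LinearMap.eqLocus_eq_top.1 (top_le_iff.1 (htop ▸ iSup_le fun χ x hx => ?_))
    by_cases e : W χ = ⊥
    · rw [e, Submodule.mem_bot] at hx
      exact hx ▸ zero_mem _
    · exact congrArg Subtype.val (LinearMap.congr_fun (m2 ⟨χ, e⟩ a (mem_iInf.1 ha _) b (mem_iInf.1 hb _) c
        (mem_iInf.1 hc _)) ⟨x, hx⟩)
  · rw [Finset.prod_pow_eq_pow_sum, ← pow_add]
    refine Nat.pow_le_pow_right three_pos ?_
    have k1 := LinearMap.finrank_le_finrank_of_injective (f := DirectSum.coeLinearMap fun χ : {χ // W χ ≠ ⊥} => W χ)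
      (hind.comp Subtype.val_injective).dfinsupp_lsum_injective
    rw [finrank_directSum] at k1
    have k2 : ∑ χ : {χ // W χ ≠ ⊥}, finrank K (W χ) = ∑ χ : {χ // W χ ≠ ⊥}, (finrank K (W χ) - 1 + 1) :=
      Finset.sum_congr rfl fun χ _ => (Nat.sub_add_cancel finrank_pos).symm
    rw [k2, Finset.sum_add_distrib, Finset.sum_const, smul_eq_mul, mul_one, Finset.card_univ,
      ← Nat.card_eq_fintype_card] at k1
    have : 0 < Nat.card {χ // W χ ≠ ⊥} := Nat.card_pos
    omega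

/-- modulo the Fitting subgroup -/
theorem ch_fitting {V : Type*} [AddCommGroup V] [Module K V] [FiniteDimensional K V] [Nontrivial V] (ρ : G →* End K V)
    (hs : Group.IsSolvable G) (hG : (Nat.card G : K) ≠ 0) (hf : ∀ g, ρ g = 1 → g = 1) :
    Ch.{v} (Cfsg.fittingSubgroup G) (3 ^ (finrank K V - 1)) := by
  obtain ⟨M, h1, h2, h3⟩ := cl_main _ G V ρ hs hG rfl
  refine h3.mono (le_fittingSubgroup_of_isSubnormal h1 (isNilpotent_of_commutator_commutator_eq_bot ?_))
  rw [commutator_eq_bot_iff_le_centralizer, commutator_le]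
  exact fun a ha b hb c hc => (comm_iff.1 (hf _ (h2 a ha b hb c hc))).symm

end CL.SL.HK
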