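/-
Class numbers of solvable groups without normal `p'`-subgroups.
-/
import Cfsg.Agent.Fgs.HK5
import Cfsg.Agent.S4958

set_option autoImplicit false
set_option linter.style.haveILetI false

open Subgroup CL.Odd CL.Grp CL.SL.Vc Module
open scoped commutatorElement IsMulCommutative

namespace CL.SL.HK

universe u

/-- an abelian group acting coprimely has a regular orbit -/
theorem reg_of_comm {G V : Type*} [Group G] [Finite G] [AddCommGroup V] [DistribMulAction G V] {p : ℕ}
    (hV : ∀ v : V, p • v = 0) (A : Subgroup G) (hA : ∀ a ∈ A, ∀ b ∈ A, a * b = b * a) (hp : (Nat.card A).Coprime p) :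
    ∃ v : V, ∀ a ∈ A, a • v = v → ∀ w : V, a • w = w := by
  obtain ⟨_, ⟨v, rfl⟩, hv⟩ := (wellFounded_lt (α := Subgroup G)).has_min
    (Set.range fun v : V => A ⊓ MulAction.stabilizer G v) ⟨_, 0, rfl⟩
  refine ⟨v, fun a ha e u => by_contra fun h => ?_⟩
  have key : ∀ u : V, a • (a • u - u) = a • u - u → a • u - u = 0 := fun u hu => by
    have h1 : ∀ n : ℕ, a ^ n • u = u + n • (a • u - u) := fun n => by
      induction n with
      | zero => simp
      | succ n ih => rw [pow_succ', mul_smul, ih, smul_add, smul_comm, hu, succ_nsmul]; abel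
    have h2 := h1 (Nat.card A)
    rw [show a ^ Nat.card A = 1 from congrArg Subtype.val (pow_card_eq_one' (x := (⟨a, ha⟩ : A))), one_smul,
      left_eq_add] at h2
    exact AddMonoid.addOrderOf_eq_one_iff.1 (Nat.eq_one_of_dvd_coprimes hp (addOrderOf_dvd_of_nsmul_eq_zero h2)
      (addOrderOf_dvd_of_nsmul_eq_zero (hV _)))
  refine hv _ ⟨v + (a • u - u), rfl⟩ (lt_of_le_of_ne (fun b hb => ⟨hb.1, ?_⟩) fun e' => ?_)
  · have e1 : b • v - v = a • (u - b • u) - (u - b • u) := by
      have := MulAction.mem_stabilizer_iff.1 hb.2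
      rw [smul_add, smul_sub, ← mul_smul, hA b hb.1 a ha, mul_smul] at this
      rw [smul_sub]
      linear_combination (norm := abel) this
    exact sub_eq_zero.1 (e1.trans (key _ (by rw [← e1, smul_sub, ← mul_smul, hA a ha b hb.1, mul_smul, e])))
  · have := MulAction.mem_stabilizer_iff.1 (e'.ge ⟨ha, e⟩).2
    rw [smul_add, e, add_right_inj] at this
    exact h (sub_eq_zero.1 (key u this))

variable {X : Type u} [Group X] [Finite X] {p : ℕ} [hp : Fact p.Prime] (V : Subgroup X) [V.Normal]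

/-- the conjugation action on an abelian normal subgroup -/
@[reducible] def cjAct [IsMulCommutative V] : DistribMulAction X (Additive V) where
  smul g w := Additive.ofMul (MulAut.conjNormal g w.toMul)
  one_smul w := by
    change Additive.ofMul (MulAut.conjNormal 1 w.toMul) = w
    simp
  mul_smul a b w := by
    change Additive.ofMul (MulAut.conjNormal (a * b) w.toMul) =
      Additive.ofMul (MulAut.conjNormal a (MulAut.conjNormal b w.toMul))
    simp
  smul_zero _ := congrArg Additive.ofMul (map_one _)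
  smul_add _ x y := congrArg Additive.ofMul (map_mul _ x.toMul y.toMul)

omit [Finite X] in
theorem cj_iff [IsMulCommutative V] (g : X) (w : Additive V) :
    letI := cjAct V; g • w = w ↔ g * w.toMul = w.toMul * g :=
  (Additive.ofMul.injective.eq_iff.trans Subtype.ext_iff).trans mul_inv_eq_iff_eq_mul

omit [V.Normal] in
theorem cop_index (h1 : ∀ v ∈ V, v ^ p = 1) (h2 : ¬ p ∣ V.index) : (Nat.card V).Coprime V.index := by
  obtain ⟨k, e⟩ := IsPGroup.exists_card_eq (p := p) (G := V) fun v => ⟨1, Subtype.ext (by simpa using h1 v v.2)⟩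
  exact e ▸ ((hp.out.coprime_iff_not_dvd).2 h2).pow_left k

theorem kk_two (h1 : ∀ v ∈ V, v ^ p = 1) (h2 : ¬ p ∣ V.index) (h3 : C[V] = V) (h4 : ∀ a b c : X, ⁅⁅a, b⁆, c⁆ ∈ V) :
    kk X ≤ Nat.card V := by
  haveI : IsMulCommutative V := le_centralizer_iff_isMulCommutative.1 h3.ge
  letI := cjAct V
  obtain ⟨G, hG⟩ := exists_right_complement'_of_coprime (cop_index V h1 h2)
  obtain ⟨v, hv⟩ := reg_of_comm (V := Additive V) (p := p) (fun v => congrArg Additive.ofMul
    (Subtype.ext (h1 _ v.toMul.2))) (G ⊓ C[G]) (fun a ha b hb => hb.2 a ha.1) (Nat.Coprime.coprime_dvd_left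
      (card_dvd_of_le inf_le_left) (hG.symm.index_eq_card ▸ (hp.out.coprime_iff_not_dvd.2 h2).symm))
  have k : ∀ g ∈ G, g ∈ V → g = 1 := fun g h h' => mem_bot.1 (hG.disjoint.le_bot ⟨h', h⟩)
  have cm : ∀ {K : Subgroup X} {a b : X}, a ∈ K → b ∈ K → ⁅a, b⁆ ∈ K := fun ha hb =>
    mul_mem (mul_mem (mul_mem ha hb) (inv_mem ha)) (inv_mem hb)
  refine Cfsg.Agent.S4958.result p V h1 h2 h3 G hG v.toMul v.toMul.2 fun a ha b hb => comm_iff.1 (k _ (cm ha.1 hb.1) ?_)
  rw [← h3]
  exact fun w hw => ((cj_iff V _ _).1 (hv _ ⟨cm ha.1 hb.1, fun c hc => (comm_iff.1 (k _ (cm (cm ha.1 hb.1) hc)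
    (h4 a b c))).symm⟩ ((cj_iff V _ _).2 (mem_centralizer_singleton_iff.1 (cm ha.2 hb.2))) (Additive.ofMul ⟨w, hw⟩))).symm

theorem kk_aux (K : Type) [Field K] [IsAlgClosed K] [Algebra (ZMod p) K] [CharP K p] [IsMulCommutative V]
    [Module (ZMod p) (Additive V)] (hs : Group.IsSolvable X) (h1 : ∀ v ∈ V, v ^ p = 1) (h2 : ¬ p ∣ V.index)
    (h3 : C[V] = V) {r : ℕ} (hr : Nat.card V = p ^ r) (h0 : 0 < r) : kk X ≤ 3 ^ (r - 1) * p ^ r := by
  letI := cjAct V
  have hd : finrank K (Additive V →ₗ[ZMod p] K) = r := by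
    rw [finrank_linearMap_self]
    refine Nat.pow_right_injective hp.out.two_le ?_
    simp only
    rw [← hr, ← Nat.card_congr (Additive.toMul (α := V)), natCard_eq_pow_finrank (K := ZMod p), Nat.card_zmod]
  haveI := nontrivial_of_finrank_pos (hd.symm ▸ h0 : 0 < _)
  let ρ : X →* End K (Additive V →ₗ[ZMod p] K) :=
    ⟨⟨fun g => LinearMap.lcomp _ _ ((DistribSMul.toAddMonoidHom _ g⁻¹).toZModLinearMap p), by ext; simp⟩,
      fun a b => by ext; simp [mul_smul]⟩
  have hρ : ∀ g, ρ g = 1 ↔ g ∈ V := fun g => by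
    rw [← inv_mem_iff, ← SetLike.ext_iff.1 h3]
    refine ⟨fun e w hw => ((cj_iff V _ (Additive.ofMul ⟨w, hw⟩)).1 (sub_eq_zero.1 ((forall_dual_apply_eq_zero_iff
      (ZMod p) _).1 fun f => (algebraMap (ZMod p) K).injective ?_))).symm, fun e => LinearMap.ext fun f =>
        LinearMap.ext fun w => congrArg f ((cj_iff V _ w).2 (e _ w.toMul.2).symm)⟩
    rw [map_sub, map_sub, map_zero, sub_eq_zero]
    exact LinearMap.congr_fun (LinearMap.congr_fun e (Algebra.linearMap (ZMod p) K ∘ₗ f)) _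
  obtain ⟨M, -, m1, m2⟩ := cl_main.{u, u} _ (X ⧸ V) _ (QuotientGroup.lift V ρ fun g hg => (hρ g).2 hg) inferInstance
    (fun e => h2 ((CharP.cast_eq_zero_iff K p _).1 e)) rfl
  have k := m2 X X (QuotientGroup.mk' V) (MonoidHom.id X) Function.surjective_id
  have hV : V ≤ M.comap (QuotientGroup.mk' V) := fun v hv => by
    rw [mem_comap, QuotientGroup.mk'_apply, (QuotientGroup.eq_one_iff v).2 hv]; exact one_mem _
  rw [map_id, hd] at k
  refine k.trans (Nat.mul_le_mul_left _ ((kk_two (p := p) (V.subgroupOf _) (fun v hv => Subtype.ext (h1 _ hv))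
    (fun e => h2 (e.trans (relIndex_dvd_index_of_normal _ _))) (le_antisymm (fun g hg => ?_) fun g hg w hw =>
      Subtype.ext (h3.ge hg _ hw)) fun a b c => ?_).trans_eq ((card_subgroupOf_of_le hV).trans hr)))
  · exact h3.le fun w hw => congrArg Subtype.val (hg ⟨w, hV hw⟩ hw)
  · have := m1 _ a.2 _ b.2 _ c.2
    rw [← map_commutatorElement, ← map_commutatorElement] at this
    exact (hρ _).1 this

theorem kk_cop (hs : Group.IsSolvable X) (h1 : ∀ v ∈ V, v ^ p = 1) (h2 : ¬ p ∣ V.index) (h3 : C[V] = V) {r : ℕ}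
    (hr : Nat.card V = p ^ r) (h0 : 0 < r) : kk X ≤ 3 ^ (r - 1) * p ^ r :=
  haveI : IsMulCommutative V := le_centralizer_iff_isMulCommutative.1 h3.ge
  letI : Module (ZMod p) (Additive V) := AddCommGroup.zmodModule fun v => congrArg Additive.ofMul
    (Subtype.ext (h1 _ v.toMul.2))
  kk_aux V (AlgebraicClosure (ZMod p)) hs h1 h2 h3 hr h0

theorem cent_eq [IsMulCommutative V] (h : Cfsg.pPrimeCore p X = ⊥) (h1 : ∀ v ∈ V, v ^ p = 1) (h2 : ¬ p ∣ V.index) :
    C[V] = V := by
  have h3 : ¬ p ∣ (V.subgroupOf C[V]).index := fun e => h2 (e.trans (relIndex_dvd_index_of_normal _ _))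
  obtain ⟨D, hD⟩ := exists_right_complement'_of_coprime
    (cop_index (p := p) (V.subgroupOf C[V]) (fun v hv => Subtype.ext (h1 _ hv)) h3)
  have hN : D.Normal := normal_of_sup_le_normalizer hD.sup_eq_top (le_normalizer_of_le_centralizer
    fun v hv d _ => Subtype.ext (d.2 _ hv).symm) le_normalizer
  have := le_pPrimeCore_of_isSubnormal (p := p) (hN.isSubnormal.trans' (Normal.isSubnormal inferInstance)) (by
    rw [card_map_subtype, ← hD.symm.index_eq_card]; exact (hp.out.coprime_iff_not_dvd.2 h3).symm)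
  rw [h, le_bot_iff, map_eq_bot_iff_of_injective _ (subtype_injective _)] at this
  refine le_antisymm (subgroupOf_eq_top.1 ?_) (le_centralizer V)
  rw [← hD.sup_eq_top, this, sup_bot_eq]

theorem kk_le_of_pPrimeCore {d : ℕ} (hs : Group.IsSolvable X) (h : Cfsg.pPrimeCore p X = ⊥)
    (hd : (Nat.card X).factorization p = d) (h0 : 0 < d) : Nat.card (ConjClasses X) ≤ 3 ^ (d - 1) * p ^ d := by
  induction hn : Nat.card X using Nat.strong_induction_on generalizing X d with
  | _ n ih =>
  subst hn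
  haveI : Nontrivial X := by
    by_contra h
    rw [not_nontrivial_iff_subsingleton] at h
    simp [Nat.card_unique] at hd
    omega
  obtain ⟨V, hV⟩ := exists_isMinNormal X
  haveI := hV.normal
  haveI := hV.isMulCommutative_of_isSolvable inferInstance
  obtain ⟨q, r, hq, hr, e⟩ := hV.exists_card_eq_pow inferInstance
  obtain rfl : p = q := by
    by_contra h1
    exact hV.ne_bot (pPrimeCore_eq_bot_iff.1 h V inferInstance (e ▸ ((Nat.coprime_primes hq hp.out).2 (Ne.symm h1)).pow_left r))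
  have h1 := hV.pow_eq_one_of_dvd inferInstance hq (e ▸ dvd_pow_self p hr.ne')
  let O := Cfsg.pPrimeCore p (X ⧸ V)
  let f := (QuotientGroup.mk' O).comp (QuotientGroup.mk' V)
  have hf : Function.Surjective f := (QuotientGroup.mk'_surjective O).comp (QuotientGroup.mk'_surjective V)
  have hK : f.ker = O.comap (QuotientGroup.mk' V) := by rw [← MonoidHom.comap_ker, QuotientGroup.ker_mk']
  have hVK : V ≤ f.ker := fun v hv => by
    rw [hK, mem_comap, QuotientGroup.mk'_apply, (QuotientGroup.eq_one_iff v).2 hv]; exact one_mem _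
  have c1 : Nat.card f.ker = p ^ r * Nat.card O := by rw [hK, card_comap_mk', e]
  have c2 : V.relIndex f.ker = Nat.card O := Nat.eq_of_mul_eq_mul_left (Nat.card_pos (α := V)) (by
    rw [card_mul_relIndex hVK, c1, e])
  have c3 : ¬ p ∣ (V.subgroupOf f.ker).index := fun e => not_dvd_card_pPrimeCore p _ (e.trans c2.dvd)
  haveI : IsMulCommutative (V.subgroupOf f.ker) := inferInstance
  have k1 := kk_cop (V.subgroupOf f.ker) inferInstance (fun v hv => Subtype.ext (h1 _ hv)) c3 (cent_eq _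
    (pPrimeCore_eq_bot_of_isSubnormal (Normal.isSubnormal inferInstance) h) (fun v hv => Subtype.ext (h1 _ hv)) c3)
    ((card_subgroupOf_of_le hVK).trans e) hr
  have c4 : Nat.card X = p ^ r * Nat.card O * Nat.card ((X ⧸ V) ⧸ O) := by
    rw [← c1, ← f.ker.card_mul_index, index_ker, f.range_eq_top.2 hf, card_top]
  have c5 : d = r + (Nat.card ((X ⧸ V) ⧸ O)).factorization p := by
    rw [← hd, c4, Nat.factorization_mul (c1 ▸ Nat.card_pos.ne') Nat.card_pos.ne', Nat.factorization_mul
      (pow_pos hq.pos r).ne' Nat.card_pos.ne', hq.factorization_pow]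
    rw [Finsupp.add_apply, Finsupp.add_apply, Finsupp.single_eq_same,
      Nat.factorization_eq_zero_of_not_dvd (not_dvd_card_pPrimeCore p _), add_zero]
  refine (Fgs.card_conjClasses_le_mul f.ker).trans ((Nat.mul_le_mul k1
    (kk_congr (QuotientGroup.quotientKerEquivOfSurjective f hf)).le).trans ?_)
  have h3 := pPrimeCore_quotient_pPrimeCore p (X ⧸ V)
  obtain h2 | h2 := ((Nat.card ((X ⧸ V) ⧸ O)).factorization p).eq_zero_or_pos
  · have h4 := pPrimeCore_eq_top_iff.2 (hq.coprime_iff_not_dvd.2 fun e =>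
      (hq.factorization_pos_of_dvd Nat.card_pos.ne' e).ne' h2).symm
    have h5 := kk_le_card ((X ⧸ V) ⧸ O)
    rw [← card_top, ← h4, h3, card_bot] at h5
    rw [c5, h2]
    exact (Nat.mul_le_mul_left _ h5).trans_eq (mul_one _)
  refine (Nat.mul_le_mul_left _ (ih _ ?_ (X := (X ⧸ V) ⧸ O) inferInstance h3 rfl h2 rfl)).trans ?_
  · exact (Nat.le_of_dvd Nat.card_pos (card_quotient_dvd_card O)).trans_lt (card_quotient_lt hV.ne_bot)
  rw [c5, pow_add, mul_mul_mul_comm, ← pow_add]
  exact Nat.mul_le_mul_right _ (Nat.pow_le_pow_right three_pos (by omega))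

end CL.SL.HK
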