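/-
Groups whose Sylow 3-normaliser is `S₃ × S₃` and contains the centraliser of every 3-element (Hayden's lemma).
-/
import Cfsg.Agent.Perm.Exc3d
import Cfsg.Agent.Char.BSChar
import Cfsg.Agent.Transfer.Abelian
import Cfsg.Agent.Grp.Coprime2

set_option autoImplicit false

namespace CL.Fgs.Hay

open Cfsg Subgroup CL.Grp CL.Perm CL.Char
open scoped commutatorElement Pointwise

variable {G : Type*} [Group G]

/-- The configuration: `T = ⟨a⟩ × ⟨b⟩`, `r` fixes `a` and inverts `b`, `s` inverts `a` and fixes `b`. -/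
structure Cfg (T : Sylow 3 G) (a b r s : G) : Prop where
  aT : a ∈ (T : Subgroup G)
  bT : b ∈ (T : Subgroup G)
  a1 : a ≠ 1
  b1 : b ≠ 1
  ea : IsElementaryAbelian 3 (T : Subgroup G)
  card : Nat.card (T : Subgroup G) = 9
  gen : ∀ t ∈ (T : Subgroup G), ∃ x ∈ zpowers a, ∃ y ∈ zpowers b, x * y = t
  rN : r ∈ normalizer ((T : Subgroup G) : Set G)
  sN : s ∈ normalizer ((T : Subgroup G) : Set G)
  rr : r * r = 1
  ss : s * s = 1
  ra : r * a * r⁻¹ = a
  rb : r * b * r⁻¹ = b⁻¹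
  sa : s * a * s⁻¹ = a⁻¹
  sb : s * b * s⁻¹ = b
  acta : ∀ g ∈ normalizer ((T : Subgroup G) : Set G), g * a * g⁻¹ = a ∨ g * a * g⁻¹ = a⁻¹
  actb : ∀ g ∈ normalizer ((T : Subgroup G) : Set G), g * b * g⁻¹ = b ∨ g * b * g⁻¹ = b⁻¹
  cent : centralizer ((T : Subgroup G) : Set G) ≤ T
  loc : ∀ t ∈ (T : Subgroup G), t ≠ 1 → centralizer ({t} : Set G) ≤ normalizer ((T : Subgroup G) : Set G)

theorem conj_zpowers {g a : G} (h : g * a * g⁻¹ = a) {x : G} (hx : x ∈ zpowers a) : g * x * g⁻¹ = x := by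
  obtain ⟨i, rfl⟩ := hx
  simp only
  rw [← conj_zpow, h]

theorem conj_zpowers_inv {g a : G} (h : g * a * g⁻¹ = a⁻¹) {x : G} (hx : x ∈ zpowers a) : g * x * g⁻¹ = x⁻¹ := by
  obtain ⟨i, rfl⟩ := hx
  simp only
  rw [← conj_zpow, h, inv_zpow]

theorem eq_one_of_cube {x : G} (h3 : x ^ 3 = 1) (h2 : x * x = 1) : x = 1 := by
  calc x = x ^ 3 * (x * x)⁻¹ := by group
    _ = 1 := by rw [h3, h2]; simp

namespace Cfg

variable {T : Sylow 3 G} {a b r s : G} (h : Cfg T a b r s)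
include h

theorem comm {x y : G} (hx : x ∈ (T : Subgroup G)) (hy : y ∈ (T : Subgroup G)) : x * y = y * x :=
  congrArg Subtype.val (h.ea.1.1.1 (⟨x, hx⟩ : (T : Subgroup G)) ⟨y, hy⟩)

theorem cube {x : G} (hx : x ∈ (T : Subgroup G)) : x ^ 3 = 1 := h.ea.2 x hx

theorem symm : Cfg T b a s r :=
  { h with
    aT := h.bT, bT := h.aT, a1 := h.b1, b1 := h.a1
    gen := fun t ht => by
      obtain ⟨x, hx, y, hy, rfl⟩ := h.gen t ht
      exact ⟨y, hy, x, hx, h.comm (zpowers_le.2 h.bT hy) (zpowers_le.2 h.aT hx)⟩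
    rN := h.sN, sN := h.rN, rr := h.ss, ss := h.rr, ra := h.sb, rb := h.sa, sa := h.rb, sb := h.ra
    acta := h.actb, actb := h.acta }

theorem a_ne_inv : a ≠ a⁻¹ := fun e => h.a1 (eq_one_of_cube (h.cube h.aT) (by nth_rewrite 1 [e]; simp))

theorem conj_mem {g t : G} (hg : g ∈ normalizer ((T : Subgroup G) : Set G)) (ht : t ∈ (T : Subgroup G)) :
    g * t * g⁻¹ ∈ (T : Subgroup G) := (mem_normalizer_iff.1 hg t).1 ht

theorem mem_of_fix {g : G} (ha : g * a * g⁻¹ = a) (hb : g * b * g⁻¹ = b) : g ∈ (T : Subgroup G) := by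
  refine h.cent (mem_centralizer_iff.2 fun t ht => ?_)
  obtain ⟨x, hx, y, hy, rfl⟩ := h.gen t ht
  have e : g * (x * y) * g⁻¹ = x * y := by
    calc g * (x * y) * g⁻¹ = g * x * g⁻¹ * (g * y * g⁻¹) := by group
      _ = _ := by rw [conj_zpowers ha hx, conj_zpowers hb hy]
  exact (mul_inv_eq_iff_eq_mul.1 e).symm

theorem inv_of_inv {g : G} (ha : g * a * g⁻¹ = a⁻¹) (hb : g * b * g⁻¹ = b⁻¹) {t : G} (ht : t ∈ (T : Subgroup G)) :
    g * t * g⁻¹ = t⁻¹ := by
  obtain ⟨x, hx, y, hy, rfl⟩ := h.gen t ht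
  calc g * (x * y) * g⁻¹ = g * x * g⁻¹ * (g * y * g⁻¹) := by group
    _ = _ := by
      rw [conj_zpowers_inv ha hx, conj_zpowers_inv hb hy, h.comm (zpowers_le.2 h.aT hx) (zpowers_le.2 h.bT hy),
        mul_inv_rev]

theorem sq_mem {g : G} (hg : g ∈ normalizer ((T : Subgroup G) : Set G)) : g * g ∈ (T : Subgroup G) := by
  have key : ∀ x : G, g * x * g⁻¹ = x ∨ g * x * g⁻¹ = x⁻¹ → g * g * x * (g * g)⁻¹ = x := fun x hx => by
    have e : g * g * x * (g * g)⁻¹ = g * (g * x * g⁻¹) * g⁻¹ := by group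
    rcases hx with hx | hx
    · rw [e, hx, hx]
    · rw [e, hx, show g * x⁻¹ * g⁻¹ = (g * x * g⁻¹)⁻¹ by group, hx, inv_inv]
  exact h.mem_of_fix (key a (h.acta g hg)) (key b (h.actb g hg))

theorem mem_of_cube {g : G} (hg : g ∈ normalizer ((T : Subgroup G) : Set G)) (h3 : g ^ 3 = 1) :
    g ∈ (T : Subgroup G) := by
  have : g = g * g * (g * g) := by
    calc g = g * g ^ 3 := by rw [h3, mul_one]
      _ = _ := by simp [pow_succ, mul_assoc]
  rw [this]
  exact mul_mem (h.sq_mem hg) (h.sq_mem hg)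

theorem pow_six {g : G} (hg : g ∈ normalizer ((T : Subgroup G) : Set G)) : g ^ 6 = 1 := by
  rw [← h.cube (h.sq_mem hg), ← pow_two, ← pow_mul]

/-- `T` is a TI-subgroup. -/
theorem ti {t g : G} (ht : t ∈ (T : Subgroup G)) (h1 : t ≠ 1) (hg : g * t * g⁻¹ ∈ (T : Subgroup G)) :
    g ∈ normalizer ((T : Subgroup G) : Set G) := by
  have key : ∀ {t g : G}, t ∈ (T : Subgroup G) → t ≠ 1 → g * t * g⁻¹ ∈ (T : Subgroup G) →
      ∀ x ∈ (T : Subgroup G), g * x * g⁻¹ ∈ (T : Subgroup G) := by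
    intro t g ht h1 hg x hx
    refine h.mem_of_cube (h.loc _ hg (fun e => h1 (by simpa using e)) (mem_centralizer_singleton_iff.2 ?_)) ?_
    · calc g * x * g⁻¹ * (g * t * g⁻¹) = g * (x * t) * g⁻¹ := by group
        _ = _ := by rw [h.comm hx ht]; group
    · rw [conj_pow, h.cube hx]; simp
  refine mem_normalizer_iff.2 fun x => ⟨key ht h1 hg x, fun hx => ?_⟩
  have := key (g := g⁻¹) hg (fun e => h1 (by simpa using e)) (by simpa [mul_assoc] using ht) _ hx
  simpa [mul_assoc] using this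

variable [Finite G]

theorem exists_conj_mem {x : G} (hx : x ^ 3 = 1) : ∃ g : G, g * x * g⁻¹ ∈ (T : Subgroup G) := by
  have hp : IsPGroup 3 (zpowers x) := fun ⟨y, i, hi⟩ => ⟨1, Subtype.ext (by
    simp only [← hi, pow_one, SubmonoidClass.mk_pow, OneMemClass.coe_one]
    rw [← zpow_natCast, ← zpow_mul, mul_comm, zpow_mul, zpow_natCast, hx, one_zpow])⟩
  obtain ⟨Q, hQ⟩ := hp.exists_le_sylow
  obtain ⟨g, rfl⟩ := MulAction.exists_smul_eq G Q T
  exact ⟨g, (smul_mem_pointwise_smul_iff (a := MulAut.conj g) (S := (Q : Subgroup G))).2 (hQ (mem_zpowers x))⟩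

/-- No conjugate of `r` in the normaliser fixes `b`. -/
theorem not_fix {g : G} (hb : g * r * g⁻¹ * b * (g * r * g⁻¹)⁻¹ = b) : False := by
  set u := g * r * g⁻¹ with hu
  have hu2 : u * u = 1 := by
    calc u * u = g * (r * r) * g⁻¹ := by rw [hu]; group
      _ = 1 := by rw [h.rr]; simp
  let C := centralizer ({u} : Set G)
  have hbC : b ∈ C := mem_centralizer_singleton_iff.2 (mul_inv_eq_iff_eq_mul.1 hb).symm
  have haC : g * a * g⁻¹ ∈ C := mem_centralizer_singleton_iff.2 (by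
    calc g * a * g⁻¹ * u = g * (r * a * r⁻¹) * g⁻¹ * u := by rw [h.ra]
      _ = _ := by rw [hu]; group)
  have hp : ∀ x : C, (x : G) ^ 3 = 1 → IsPGroup 3 (zpowers x) := fun x hx ⟨y, i, hi⟩ => ⟨1, Subtype.ext (by
    have hx' : x ^ 3 = 1 := Subtype.ext hx
    simp only [← hi, pow_one, SubmonoidClass.mk_pow, OneMemClass.coe_one]
    rw [← zpow_natCast, ← zpow_mul, mul_comm, zpow_mul, zpow_natCast, hx', one_zpow])⟩
  obtain ⟨Y, hY⟩ := (hp ⟨b, hbC⟩ (h.cube h.bT)).exists_le_sylow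
  obtain ⟨Y', hY'⟩ := (hp ⟨_, haC⟩ (by simp only; rw [conj_pow, h.cube h.aT]; simp)).exists_le_sylow
  obtain ⟨c, rfl⟩ := MulAction.exists_smul_eq C Y' Y
  have h1 : c * ⟨_, haC⟩ * c⁻¹ ∈ ((c • Y' : Sylow 3 C) : Subgroup C) :=
    (smul_mem_pointwise_smul_iff (a := MulAut.conj c) (S := (Y' : Subgroup C))).2 (hY' (mem_zpowers _))
  have h2 := hY (mem_zpowers _)
  obtain ⟨Q, hQ⟩ := ((c • Y').isPGroup'.map C.subtype).exists_le_sylow
  obtain ⟨k, hk⟩ := MulAction.exists_smul_eq G Q T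
  have h3 : ∀ x ∈ ((c • Y' : Sylow 3 C) : Subgroup C), k * (x : G) * k⁻¹ ∈ (T : Subgroup G) := fun x hx => by
    rw [← hk]
    exact (smul_mem_pointwise_smul_iff (a := MulAut.conj k) (S := (Q : Subgroup G))).2 (hQ ⟨x, hx, rfl⟩)
  have h4 := h.comm (h3 _ h1) (h3 _ h2)
  set a' : G := (c : G) * (g * a * g⁻¹) * (c : G)⁻¹ with ha'
  have h5 : a' * b = b * a' := by
    have : k * (a' * b) * k⁻¹ = k * (b * a') * k⁻¹ := by
      calc k * (a' * b) * k⁻¹ = k * a' * k⁻¹ * (k * b * k⁻¹) := by group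
        _ = k * b * k⁻¹ * (k * a' * k⁻¹) := h4
        _ = _ := by group
    simpa using this
  have h6 : a' = c * g * a * ((c : G) * g)⁻¹ := by rw [ha']; group
  have h7 : a' ∈ (T : Subgroup G) :=
    h.mem_of_cube (h.loc b h.bT h.b1 (mem_centralizer_singleton_iff.2 h5)) (by rw [h6, conj_pow, h.cube h.aT]; simp)
  have h8 : u * a' * u⁻¹ = a' := by
    have := mem_centralizer_singleton_iff.1 (c * ⟨_, haC⟩ * c⁻¹).2
    change a' * u = u * a' at this
    rw [← this]; group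
  have h9 : u * a * u⁻¹ = a := by
    rcases h.acta _ (h.ti h.aT h.a1 (h6 ▸ h7)) with e | e
    · rwa [h6, e] at h8
    · rw [h6, e] at h8
      rw [← inv_inj, ← h8]; group
  have h10 : u = 1 := eq_one_of_cube (h.cube (h.mem_of_fix h9 hb)) hu2
  have h11 : r = 1 := by simpa [hu] using h10
  have := h.rb
  rw [h11] at this
  exact h.symm.a_ne_inv (by simpa using this)

/-- One of `r`, `s` has no conjugate in the normaliser which inverts the element it fixes. -/
theorem fix_or :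
    (∀ g : G, g * r * g⁻¹ ∈ normalizer ((T : Subgroup G) : Set G) → g * r * g⁻¹ * a * (g * r * g⁻¹)⁻¹ = a) ∨
    (∀ g : G, g * s * g⁻¹ ∈ normalizer ((T : Subgroup G) : Set G) → g * s * g⁻¹ * b * (g * s * g⁻¹)⁻¹ = b) := by
  by_contra hn
  push Not at hn
  obtain ⟨⟨g, hg, hga⟩, k, hk, hkb⟩ := hn
  have ua := (h.acta _ hg).resolve_left hga
  have ub := (h.actb _ hg).resolve_left h.not_fix
  have vb := (h.actb _ hk).resolve_left hkb
  have va := (h.acta _ hk).resolve_left h.symm.not_fix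
  set u := g * r * g⁻¹ with hu
  set v := k * s * k⁻¹ with hv
  have key : ∀ x : G, u * x * u⁻¹ = x⁻¹ → v * x * v⁻¹ = x⁻¹ → u * v⁻¹ * x * (u * v⁻¹)⁻¹ = x := fun x h1 h2 => by
    have h3 : v⁻¹ * x * v = x⁻¹ := by
      rw [← inv_inj, inv_inv]
      calc (v⁻¹ * x * v)⁻¹ = v⁻¹ * x⁻¹ * v := by group
        _ = x := by rw [← h2]; group
    calc u * v⁻¹ * x * (u * v⁻¹)⁻¹ = u * (v⁻¹ * x * v) * u⁻¹ := by group
      _ = (u * x * u⁻¹)⁻¹ := by rw [h3]; group
      _ = x := by rw [h1, inv_inv]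
  have ht := h.mem_of_fix (key a ua va) (key b ub vb)
  set t := u * v⁻¹ with htd
  have h1 := h.inv_of_inv va vb (inv_mem (mul_mem ht ht))
  have h2 : u = t * t * v * (t * t)⁻¹ := by
    calc u = t * v := by rw [htd]; group
      _ = t * t ^ 3 * v := by rw [h.cube ht, mul_one]
      _ = t * t * (t * t)⁻¹⁻¹ * v := by group
      _ = _ := by rw [← h1]; group
  refine h.not_fix (g := (t * t * k)⁻¹ * g) ?_
  have h3 : (t * t * k)⁻¹ * g * r * ((t * t * k)⁻¹ * g)⁻¹ = s := by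
    calc _ = (t * t * k)⁻¹ * u * (t * t * k) := by rw [hu]; generalize t * t * k = w; group
      _ = s := by rw [h2, hv]; group
  rw [h3, h.sb]

theorem comm_inf_le {M : Subgroup G}
    (hc : (Nat.card ((T : Subgroup G).subgroupOf M)).Coprime ((T : Subgroup G).subgroupOf M).index)
    (hM : ∀ g ∈ M, g ∈ normalizer ((T : Subgroup G) : Set G) → g * a * g⁻¹ = a) :
    ⁅M, M⁆ ⊓ T ≤ zpowers b := by
  have h1 : (((T : Subgroup G).subgroupOf M).focalSubgroup).map M.subtype ≤ zpowers b := by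
    rw [Transfer.map_focal_subgroupOf_le_iff]
    intro x hx g hg hgx
    by_cases h1 : x = 1
    · simp [h1]
    have hN := h.ti hx.1 h1 hgx
    obtain ⟨y, hy, z, hz, rfl⟩ := h.gen x hx.1
    have e : (y * z)⁻¹ * (g * (y * z) * g⁻¹) = z⁻¹ * (y⁻¹ * (g * y * g⁻¹)) * (g * z * g⁻¹) := by group
    rw [e, conj_zpowers (hM g hg hN) hy]
    rcases h.actb g hN with e | e
    · rw [conj_zpowers e hz]; simp
    · rw [conj_zpowers_inv e hz]; simpa using mul_mem (inv_mem hz) (inv_mem hz)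
  rintro x ⟨hx, hxT⟩
  rw [← map_subtype_commutator] at hx
  obtain ⟨y, hy, rfl⟩ := hx
  refine h1 ⟨y, ?_, rfl⟩
  rw [← Transfer.commutator_inf_eq_focal_of_hall _ hc]
  exact ⟨hy, hxT⟩

theorem coprime_index : (Nat.card (T : Subgroup G)).Coprime (T : Subgroup G).index := T.card_coprime_index

theorem a_not_mem : a ∉ zpowers b := fun ha => h.a_ne_inv (by rw [← conj_zpowers_inv h.rb ha, h.ra])

theorem exists_lam : ∃ lam : centralizer ({a} : Set G) →* ℂˣ, lam ⟨a, mem_centralizer_singleton_iff.2 rfl⟩ ≠ 1 ∧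
    ∀ c, lam c ^ 3 = 1 := by
  set C := centralizer ({a} : Set G) with hC
  have hTC : (T : Subgroup G) ≤ C := fun t ht => mem_centralizer_singleton_iff.2 (h.comm ht h.aT)
  have hc : (Nat.card ((T : Subgroup G).subgroupOf C)).Coprime ((T : Subgroup G).subgroupOf C).index :=
    (T.subtype hTC).card_coprime_index
  have h1 := h.comm_inf_le hc fun g hg _ => by rw [mem_centralizer_singleton_iff.1 hg]; simp
  have h2 : Abelianization.of (⟨a, hTC h.aT⟩ : C) ≠ 1 := fun e => by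
    have : (⟨a, hTC h.aT⟩ : C) ∈ commutator C := (QuotientGroup.eq_one_iff _).1 e
    exact h.a_not_mem (h1 ⟨by rw [← map_subtype_commutator]; exact ⟨_, this, rfl⟩, h.aT⟩)
  haveI : Finite (Abelianization C) := Finite.of_surjective _ (QuotientGroup.mk_surjective (s := commutator C))
  haveI : NeZero ((Monoid.exponent (Abelianization C) : ℕ) : ℂ) := ⟨Nat.cast_ne_zero.2 Monoid.exponent_ne_zero_of_finite⟩
  obtain ⟨φ, hφ⟩ := CommGroup.exists_apply_ne_one_of_hasEnoughRootsOfUnity (Abelianization C) ℂ h2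
  refine ⟨(powMonoidHom 2).comp (φ.comp Abelianization.of), fun e => hφ (eq_one_of_cube ?_ ?_), fun c => ?_⟩
  · rw [← map_pow, ← map_pow, show (⟨a, hTC h.aT⟩ : C) ^ 3 = 1 from Subtype.ext (h.cube h.aT), map_one, map_one]
  · rw [← pow_two]; exact e
  · have : c ^ 6 = 1 := Subtype.ext (h.pow_six (h.loc a h.aT h.a1 c.2))
    change (φ (Abelianization.of c) ^ 2) ^ 3 = 1
    rw [← pow_mul, ← map_pow, ← map_pow, this, map_one, map_one]

theorem exists_normal
    (hr : ∀ g : G, g * r * g⁻¹ ∈ normalizer ((T : Subgroup G) : Set G) → g * r * g⁻¹ * a * (g * r * g⁻¹)⁻¹ = a) :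
    ∃ M : Subgroup G, M.Normal ∧ M ≠ ⊤ ∧ r ∈ M := by
  haveI := Fintype.ofFinite G
  obtain ⟨lam, hl1, hl3⟩ := h.exists_lam
  let C := centralizer ({a} : Set G)
  have hC : C = centralizer ({a} : Set G) := rfl
  have hCN : C ≤ normalizer ((T : Subgroup G) : Set G) := h.loc a h.aT h.a1
  have memC : ∀ g : G, g ∈ C ↔ g * a * g⁻¹ = a := fun g => by
    rw [hC, mem_centralizer_singleton_iff, mul_inv_eq_iff_eq_mul]
  have hsC : ∀ c ∈ C, s * c * s⁻¹ ∈ C := fun c hc => (memC _).2 (by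
    have e : s⁻¹ * a * s = a⁻¹ := by
      have := h.sa
      rw [← inv_inj, inv_inv] at this
      rw [← inv_inj, inv_inv]
      nth_rewrite 2 [← this]
      calc (s⁻¹ * a * s)⁻¹ = s⁻¹ * a⁻¹ * s := by group
        _ = a := by rw [← h.sa]; group
        _ = _ := this.symm
    calc s * c * s⁻¹ * a * (s * c * s⁻¹)⁻¹ = s * (c * (s⁻¹ * a * s) * c⁻¹) * s⁻¹ := by group
      _ = s * (c * a * c⁻¹)⁻¹ * s⁻¹ := by rw [e]; group
      _ = (s * a * s⁻¹)⁻¹ := by rw [(memC c).1 hc]; group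
      _ = a := by rw [h.sa, inv_inv])
  have hsq : ∀ c : C, lam c ≠ 1 → (c : G) * c ≠ 1 := fun c hc e => hc (eq_one_of_cube (hl3 c) (by
    rw [← map_mul, show c * c = 1 from Subtype.ext e, map_one]))
  obtain ⟨χ₁, χ₂, h1, h2, h1', -, -, hv⟩ := bs_exists_irr (C := C) (y := s)
    (fun hs => h.a_ne_inv (by rw [← h.sa, (memC s).1 hs])) hsC lam
    (fun c hc g hg => by
      have hN : g ∈ normalizer ((T : Subgroup G) : Set G) := h.ti (h.sq_mem (hCN c.2)) (hsq c hc) (by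
        have := h.sq_mem (hCN hg)
        rwa [show g * c * g⁻¹ * (g * c * g⁻¹) = g * (c * c) * g⁻¹ by group] at this)
      rcases h.acta g hN with e | e
      · exact .inl ((memC g).2 e)
      · refine .inr ((memC _).2 ?_)
        have e2 : s⁻¹ * a⁻¹ * s = a := by rw [← h.sa]; group
        calc g * s⁻¹ * a * (g * s⁻¹)⁻¹ = (g * (s⁻¹ * a⁻¹ * s) * g⁻¹)⁻¹ := by group
          _ = a := by rw [e2, e, inv_inv])
    ⟨a, (memC a).2 (by simp)⟩ hl1 (fun e => hl1 (eq_one_of_cube (hl3 _) (by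
      nth_rewrite 1 [← e]
      rw [← map_mul, ← map_one lam]
      congr 1
      exact Subtype.ext (by simp [h.sa]))))
  have hz : ∀ g : G, (∀ (x : G) (hx : x⁻¹ * g * x ∈ C), lam ⟨_, hx⟩ = 1) → χ₁ g - χ₂ g = 1 := fun g hg => by
    have h0 : indFun C (fun c => 1 - (lam c : ℂ)) g = 0 :=
      indFun_eq_zero_of_conj _ fun x hx => by simp [hg x hx]
    rw [hv] at h0
    linear_combination -h0
  have hinv : ∀ g : G, g * g = 1 → χ₁ g - χ₂ g = 1 := fun g hg => hz g fun x hx => by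
    by_contra hne
    exact hsq _ hne (by
      calc x⁻¹ * g * x * (x⁻¹ * g * x) = x⁻¹ * (g * g) * x := by group
        _ = 1 := by rw [hg]; simp)
  refine ⟨charKer χ₁, h1.charKer_normal, fun e => h1' (h1.charKer_eq_top_iff.1 e), h1.mem_charKer.2 ?_⟩
  refine (bs_apply_eq_of_products h1 h2 (hinv 1 (by simp)) (hinv r h.rr) fun g g' => hz _ fun x hx => ?_).1
  by_contra hne
  set c := x⁻¹ * (g * r * g⁻¹ * (g' * r * g'⁻¹)) * x with hc
  set u := x⁻¹ * g * r * (x⁻¹ * g)⁻¹ with hu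
  have e1 : u * c * u⁻¹ = c⁻¹ := by
    have hr' : r⁻¹ = r := inv_eq_of_mul_eq_one_right h.rr
    calc u * c * u⁻¹ = x⁻¹ * g * (r * r) * g⁻¹ * g' * r * g'⁻¹ * g * r⁻¹ * g⁻¹ * x := by rw [hu, hc]; group
      _ = x⁻¹ * g' * r⁻¹ * g'⁻¹ * g * r⁻¹ * g⁻¹ * x := by rw [h.rr, hr']; group
      _ = c⁻¹ := by rw [hc]; group
  have hN : u ∈ normalizer ((T : Subgroup G) : Set G) := h.ti (h.sq_mem (hCN hx)) (hsq ⟨c, hx⟩ hne) (by
    rw [show u * (c * c) * u⁻¹ = u * c * u⁻¹ * (u * c * u⁻¹) by group, e1]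
    exact h.sq_mem (inv_mem (hCN hx)))
  have huC : u ∈ C := (memC u).2 (hr _ hN)
  have e2 : (⟨u, huC⟩ : C) * ⟨c, hx⟩ * (⟨u, huC⟩ : C)⁻¹ = (⟨c, hx⟩ : C)⁻¹ := Subtype.ext e1
  have e3 := congrArg lam e2
  rw [map_mul, map_mul, map_inv, map_inv, mul_inv_cancel_comm] at e3
  exact hne (eq_one_of_cube (hl3 _) (eq_inv_iff_mul_eq_one.1 e3))

theorem eq_bot_of_normal (O : Subgroup G) [O.Normal] (hO : ¬ 3 ∣ Nat.card O) : O = ⊥ := by
  have hcop : (Nat.card (T : Subgroup G)).Coprime (Nat.card O) := by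
    rw [h.card]
    exact Nat.Coprime.pow_left 2 ((Nat.Prime.coprime_iff_not_dvd Nat.prime_three).2 hO)
  have hd : (T : Subgroup G) ⊓ O = ⊥ := (disjoint_of_coprime_natCard hcop).eq_bot
  haveI := h.ea.1
  refine eq_bot_iff.2 (le_of_forall_centralizer_le (A := (T : Subgroup G)) (fun hc => ?_)
    (by rw [normalizer_eq_top]; exact le_top) hcop fun t ht h1 c hc => ?_)
  · obtain ⟨g, hg⟩ := hc.exists_ofOrder_eq_natCard
    have : orderOf g ∣ 3 := orderOf_dvd_of_pow_eq_one (Subtype.ext (h.cube g.2))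
    rw [hg, h.card] at this
    omega
  · have hN := h.loc t ht h1 hc.2
    have hcO : c ∈ O := hc.1
    have hT : c ∈ (T : Subgroup G) := h.cent (mem_centralizer_iff.2 fun x hx => by
      have : c * x * c⁻¹ * x⁻¹ ∈ (T : Subgroup G) ⊓ O :=
        ⟨mul_mem (h.conj_mem hN hx) ((T : Subgroup G).inv_mem hx), by
          have := mul_mem hcO (‹O.Normal›.conj_mem _ (inv_mem hcO) x)
          simpa [mul_assoc] using this⟩
      rw [hd, mem_bot] at this
      rw [← one_mul (x * c), ← this]; group)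
    exact hd ▸ ⟨hT, hc.1⟩

theorem not_card {K : Subgroup G} [K.Normal] {p n : ℕ} (hp : p.Prime) (h6 : ¬ p ∣ 6) (hn : ¬ p ∣ n)
    (hK : Nat.card K = p * n) (h9 : ∀ d, d ∣ n → d ≡ 1 [MOD p] → ¬ 9 ∣ (p - 1) * d) : False := by
  haveI := Fact.mk hp
  obtain ⟨Q'⟩ : Nonempty (Sylow p K) := inferInstance
  have hQ' : Nat.card (Q' : Subgroup K) = p := by
    rw [Sylow.card_eq_multiplicity, hK, Nat.factorization_mul hp.ne_zero (by rintro rfl; exact hn (dvd_zero p)),
      Finsupp.add_apply, hp.factorization_self, Nat.factorization_eq_zero_of_not_dvd hn, add_zero, pow_one]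
  set Q := (Q' : Subgroup K).map K.subtype with hQ
  have hQc : Nat.card Q = p := by rw [hQ, card_subtype, hQ']
  have h1 : normalizer (Q : Set G) ⊔ K = ⊤ :=
    normalizer_sup_eq_top_of_not_dvd (Q'.isPGroup'.map _) (map_subtype_le _) (not_dvd_relIndex_sylow_map Q')
  have h2 : (normalizer (Q : Set G)).index = Nat.card (Sylow p K) := by
    have e1 : (normalizer (Q : Set G)).subgroupOf K = normalizer ((Q' : Subgroup K) : Set K) := by
      rw [subgroupOf_normalizer_eq (map_subtype_le _)]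
      congr 2
      exact comap_map_eq_self_of_injective K.subtype_injective _
    rw [Q'.card_eq_index_normalizer, ← Sylow.coe_coe, ← e1, ← relIndex]
    have e2 := relIndex_mul_index (inf_le_left : normalizer (Q : Set G) ⊓ K ≤ _)
    have e3 := relIndex_mul_index (inf_le_right : normalizer (Q : Set G) ⊓ K ≤ _)
    rw [inf_relIndex_left, ← relIndex_sup_left, sup_comm, h1, relIndex_top_right] at e2
    rw [inf_relIndex_right, ← e2, mul_comm] at e3
    exact (Nat.eq_of_mul_eq_mul_left (Nat.pos_of_ne_zero index_ne_zero_of_finite) e3).symm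
  have h3 : Nat.card (Sylow p K) ∣ n := by
    have := Q'.card_dvd_index
    have e := (Q' : Subgroup K).card_mul_index
    rw [hQ', hK] at e
    rwa [Nat.eq_of_mul_eq_mul_left hp.pos e] at this
  have h4 : (centralizer (Q : Set G)).index ∣ (p - 1) * Nat.card (Sylow p K) := by
    rw [← relIndex_mul_index (centralizer_le_normalizer (Q : Set G)), h2]
    refine Nat.mul_dvd_mul_right ?_ _
    haveI : IsCyclic Q := isCyclic_of_prime_card hQc
    have := Transfer.relIndex_centralizer_normalizer_dvd Q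
    rwa [IsCyclic.card_mulAut, hQc, Nat.totient_prime hp] at this
  have h5 : 3 ∣ Nat.card (centralizer (Q : Set G)) := by
    by_contra h5
    have h7 : 9 ∣ Nat.card (centralizer (Q : Set G)) * (centralizer (Q : Set G)).index := by
      rw [card_mul_index, ← h.card]; exact card_subgroup_dvd_card _
    exact h9 _ h3 (card_sylow_modEq_one p K) ((Nat.Coprime.dvd_of_dvd_mul_left
      (Nat.Coprime.pow_left 2 ((Nat.Prime.coprime_iff_not_dvd Nat.prime_three).2 h5)) h7).trans h4)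
  obtain ⟨c, hc⟩ := exists_prime_orderOf_dvd_card' 3 h5
  obtain ⟨y, hy⟩ := exists_prime_orderOf_dvd_card' (G := Q) p hQc.symm.dvd
  have hc3 : (c : G) ^ 3 = 1 := by rw [← hc, ← Subgroup.orderOf_coe]; exact pow_orderOf_eq_one _
  obtain ⟨g, hg⟩ := h.exists_conj_mem hc3
  have h7 : g * y * g⁻¹ ∈ normalizer ((T : Subgroup G) : Set G) := h.loc _ hg
    (fun e => by
      have : c = 1 := Subtype.ext (by simpa using e)
      rw [this, orderOf_one] at hc; omega)
    (mem_centralizer_singleton_iff.2 (by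
      calc g * y * g⁻¹ * (g * c * g⁻¹) = g * (y * c) * g⁻¹ := by group
        _ = _ := by rw [mem_centralizer_iff.1 c.2 y y.2]; group))
  have h8 := h.pow_six h7
  rw [conj_pow] at h8
  have h10 : y ^ 6 = 1 := Subtype.ext (by simpa using h8)
  exact h6 (hy ▸ orderOf_dvd_of_pow_eq_one h10)

theorem normalizer_eq_top_of
    (hr : ∀ g : G, g * r * g⁻¹ ∈ normalizer ((T : Subgroup G) : Set G) → g * r * g⁻¹ * a * (g * r * g⁻¹)⁻¹ = a) :
    normalizer ((T : Subgroup G) : Set G) = ⊤ := by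
  obtain ⟨M, hMn, hM, hrM⟩ := h.exists_normal hr
  have inM : ∀ g ∈ M, ∀ x : G, x ^ 3 = 1 → g * x * g⁻¹ = x⁻¹ → ⁅g, x⁆ = x := fun g _ x h3 e => by
    rw [commutatorElement_def, e]
    calc x⁻¹ * x⁻¹ = x * (x ^ 3)⁻¹ := by group
      _ = x := by rw [h3]; simp
  have commM : ∀ g ∈ M, ∀ x : G, ⁅g, x⁆ ∈ M := fun g hg x => by
    have := mul_mem hg (hMn.conj_mem _ (inv_mem hg) x)
    simpa [commutatorElement_def, mul_assoc] using this
  have hbM : b ∈ M := inM r hrM b (h.cube h.bT) h.rb ▸ commM r hrM b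
  have hfix : ∀ g ∈ M, g ∈ normalizer ((T : Subgroup G) : Set G) → g * a * g⁻¹ = a := fun g hg hN => by
    refine (h.acta g hN).resolve_right fun e => hM ?_
    have haM : a ∈ M := inM g hg a (h.cube h.aT) e ▸ commM g hg a
    have hTM : (T : Subgroup G) ≤ M := fun t ht => by
      obtain ⟨x, hx, y, hy, rfl⟩ := h.gen t ht
      exact mul_mem (zpowers_le.2 haM hx) (zpowers_le.2 hbM hy)
    have step : ∀ n ∈ normalizer ((T : Subgroup G) : Set G), n * a * n⁻¹ = a → n ∈ M := fun n hn e1 => by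
      rcases h.actb n hn with e2 | e2
      · exact hTM (h.mem_of_fix e1 e2)
      · have : n * r ∈ M := hTM (h.mem_of_fix
          (by calc n * r * a * (n * r)⁻¹ = n * (r * a * r⁻¹) * n⁻¹ := by group
            _ = a := by rw [h.ra, e1])
          (by calc n * r * b * (n * r)⁻¹ = n * (r * b * r⁻¹) * n⁻¹ := by group
            _ = (n * b * n⁻¹)⁻¹ := by rw [h.rb]; group
            _ = b := by rw [e2, inv_inv]))
        simpa using mul_mem this (inv_mem hrM)
    have hNM : normalizer ((T : Subgroup G) : Set G) ≤ M := fun n hn => by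
      rcases h.acta n hn with e1 | e1
      · exact step n hn e1
      · have : n * g ∈ M := step _ (mul_mem hn hN) (by
          calc n * g * a * (n * g)⁻¹ = n * (g * a * g⁻¹) * n⁻¹ := by group
            _ = (n * a * n⁻¹)⁻¹ := by rw [e]; group
            _ = a := by rw [e1, inv_inv])
        simpa using mul_mem this (inv_mem hg)
    have := Sylow.normalizer_sup_eq_top' T hTM
    exact (sup_eq_right.2 hNM).symm.trans this
  have hKT := h.comm_inf_le (Transfer.coprime_subgroupOf_of_hall _ M h.coprime_index) hfix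
  set K := ⁅M, M⁆ with hK
  have hKM : K ≤ M := commutator_le_self M
  have hbK : b ∈ K := inM r hrM b (h.cube h.bT) h.rb ▸ commutator_mem_commutator hrM hbM
  have ob : orderOf b = 3 := orderOf_eq_prime (h.cube h.bT) h.b1
  have hsc : SC3 (⟨b, hbK⟩ : K) := by
    refine ⟨by rw [← Subgroup.orderOf_coe, ob], fun c hc => ?_⟩
    have e : (c : G) * b = b * c := (congrArg Subtype.val hc.eq).symm
    have hN := h.loc b h.bT h.b1 (mem_centralizer_singleton_iff.2 e)
    obtain ⟨i, hi⟩ := hKT ⟨c.2, h.mem_of_fix (hfix c (hKM c.2) hN) (by rw [e]; simp)⟩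
    exact ⟨i, Subtype.ext (by simpa using hi)⟩
  obtain ⟨J, hJn, hbJ, hJ⟩ := ft3 hsc
  have hJ3 : ¬ 3 ∣ Nat.card J := (Inv3.mk (by rw [normalizer_eq_top]; trivial) hbJ).not_dvd hsc
  have hO : (pPrimeCore 3 K).map K.subtype = ⊥ := h.eq_bot_of_normal _ (by
    rw [card_subtype]; exact not_dvd_card_pPrimeCore 3 K)
  have hJb : J = ⊥ := by
    rw [map_eq_bot_iff_of_injective _ K.subtype_injective] at hO
    exact eq_bot_iff.2 (hO ▸ le_pPrimeCore ((Nat.Prime.coprime_iff_not_dvd Nat.prime_three).2 hJ3).symm)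
  subst hJb
  rcases hJ with hJ | ⟨-, -, hJ | ⟨hJ, -⟩⟩
  · have hKN : K ≤ normalizer ((T : Subgroup G) : Set G) := fun g hg => by
      obtain ⟨k, hk, hg'⟩ := hJ ⟨g, hg⟩
      rw [mem_bot.1 hk, inv_one, one_mul] at hg'
      obtain ⟨i, hi⟩ := (mem_normalizer_iff.1 hg' _).1 (mem_zpowers _)
      refine h.ti h.bT h.b1 ?_
      have := congrArg Subtype.val hi
      simp only [SubgroupClass.coe_zpow, coe_mul, coe_inv] at this
      exact this ▸ zpow_mem h.bT i
    refine eq_top_iff.2 fun g _ => h.ti h.bT h.b1 (h.mem_of_cube (hKN (Normal.conj_mem inferInstance _ hbK g)) ?_)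
    rw [conj_pow, h.cube h.bT]; simp
  · rw [index_bot] at hJ
    refine (h.not_card (K := K) (p := 5) (n := 12) (by norm_num) (by norm_num) (by norm_num) hJ fun d hd _ h9 => ?_).elim
    have := h9.trans (Nat.mul_dvd_mul_left _ hd)
    omega
  · rw [index_bot] at hJ
    refine (h.not_card (K := K) (p := 7) (n := 24) (by norm_num) (by norm_num) (by norm_num) hJ fun d hd h1 h9 => ?_).elim
    have := Nat.le_of_dvd (by norm_num) hd
    unfold Nat.ModEq at h1
    interval_cases d <;> omega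

theorem normalizer_eq_top' : normalizer ((T : Subgroup G) : Set G) = ⊤ :=
  h.fix_or.elim h.normalizer_eq_top_of h.symm.normalizer_eq_top_of

end Cfg

theorem exists_cfg [Finite G] (T : Sylow 3 G) (hT : IsElementaryAbelian 3 (T : Subgroup G))
    (hcard : Nat.card (T : Subgroup G) = 9) (hC : centralizer ((T : Subgroup G) : Set G) = T)
    (hsq : ∀ g ∈ normalizer ((T : Subgroup G) : Set G), g * g ∈ (T : Subgroup G))
    (hidx : (T : Subgroup G).relIndex (normalizer ((T : Subgroup G) : Set G)) = 4)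
    (hloc : ∀ t ∈ (T : Subgroup G), t ≠ 1 → centralizer ({t} : Set G) ≤ normalizer ((T : Subgroup G) : Set G)) :
    ∃ a b r s, Cfg T a b r s := by
  set N := normalizer ((T : Subgroup G) : Set G) with hN
  have comm : ∀ x ∈ (T : Subgroup G), ∀ y ∈ (T : Subgroup G), x * y = y * x := fun x hx y hy =>
    congrArg Subtype.val (hT.1.1.1 (⟨x, hx⟩ : (T : Subgroup G)) ⟨y, hy⟩)
  have cj : ∀ g ∈ N, ∀ t ∈ (T : Subgroup G), g * t * g⁻¹ ∈ (T : Subgroup G) := fun g hg t ht =>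
    (mem_normalizer_iff.1 hg t).1 ht
  have fixT : ∀ x ∈ (T : Subgroup G), ∀ y ∈ (T : Subgroup G), x * y * x⁻¹ = y := fun x hx y hy => by
    rw [comm x hx y hy]; simp
  have memT : ∀ g : G, (∀ t ∈ (T : Subgroup G), g * t * g⁻¹ = t) → g ∈ (T : Subgroup G) := fun g hg =>
    hC.le (mem_centralizer_iff.2 fun t ht => (mul_inv_eq_iff_eq_mul.1 (hg t ht)).symm)
  have other : ∀ n ∈ N, ∃ m ∈ N, m ∉ (T : Subgroup G) ∧ m * n ∉ (T : Subgroup G) := fun n hn => by
    by_contra hm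
    push Not at hm
    by_cases hnT : n ∈ (T : Subgroup G)
    · have : N ≤ T := fun m hmN => by
        by_contra h1
        exact h1 (by simpa using mul_mem (hm m hmN h1) (inv_mem hnT))
      rw [relIndex_eq_one.2 this] at hidx
      omega
    · have : (T : Subgroup G).relIndex N = 2 := by
        refine index_eq_two_iff.2 ⟨⟨n, hn⟩, fun m => ?_⟩
        simp only [mem_subgroupOf, coe_mul]
        by_cases h1 : (m : G) ∈ (T : Subgroup G)
        · exact .inr ⟨h1, fun h2 => hnT (by simpa using mul_mem (inv_mem h1) h2)⟩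
        · exact .inl ⟨hm m m.2 h1, h1⟩
      omega
  obtain ⟨n, hnN, hnT, t, ht, hti⟩ : ∃ n ∈ N, n ∉ (T : Subgroup G) ∧ ∃ t ∈ (T : Subgroup G), n * t * n⁻¹ ≠ t⁻¹ := by
    by_contra hn
    push Not at hn
    obtain ⟨m, hm, hmT, -⟩ := other 1 (one_mem _)
    obtain ⟨k, hk, hkT, hkm⟩ := other m hm
    refine hkm (memT _ fun t ht => ?_)
    calc k * m * t * (k * m)⁻¹ = k * (m * t * m⁻¹) * k⁻¹ := by group
      _ = t := by rw [hn m hm hmT t ht, hn k hk hkT _ (inv_mem ht), inv_inv]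
  obtain ⟨t', ht', hti'⟩ : ∃ t ∈ (T : Subgroup G), n * t * n⁻¹ ≠ t := by
    by_contra hn
    push Not at hn
    exact hnT (memT n hn)
  have nn : ∀ x ∈ (T : Subgroup G), n * (n * x * n⁻¹) * n⁻¹ = x := fun x hx => by
    rw [show n * (n * x * n⁻¹) * n⁻¹ = n * n * x * (n * n)⁻¹ by group, fixT _ (hsq n hnN) x hx]
  set a := t * (n * t * n⁻¹) with ha
  set b := t'⁻¹ * (n * t' * n⁻¹) with hb
  have aT : a ∈ (T : Subgroup G) := mul_mem ht (cj n hnN t ht)
  have bT : b ∈ (T : Subgroup G) := mul_mem (inv_mem ht') (cj n hnN t' ht')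
  have a1 : a ≠ 1 := fun e => hti (eq_inv_of_mul_eq_one_right e)
  have b1 : b ≠ 1 := fun e => hti' (inv_mul_eq_one.1 e).symm
  have na : n * a * n⁻¹ = a := by
    calc n * a * n⁻¹ = n * t * n⁻¹ * (n * (n * t * n⁻¹) * n⁻¹) := by rw [ha]; group
      _ = a := by rw [nn t ht, comm _ (cj n hnN t ht) t ht]
  have nb : n * b * n⁻¹ = b⁻¹ := by
    calc n * b * n⁻¹ = (n * t' * n⁻¹)⁻¹ * (n * (n * t' * n⁻¹) * n⁻¹) := by rw [hb]; group
      _ = b⁻¹ := by rw [nn t' ht', hb]; group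
  have oa : orderOf a = 3 := orderOf_eq_prime (hT.2 a aT) a1
  have ob : orderOf b = 3 := orderOf_eq_prime (hT.2 b bT) b1
  have hab : a ∉ zpowers b := fun h => a1 (eq_one_of_cube (hT.2 a aT) (by
    nth_rewrite 1 [← na]
    rw [conj_zpowers_inv nb h]; simp))
  have gen : ∀ t ∈ (T : Subgroup G), ∃ x ∈ zpowers a, ∃ y ∈ zpowers b, x * y = t := fun x hx => by
    have hle : zpowers a ⊔ zpowers b ≤ T := sup_le (zpowers_le.2 aT) (zpowers_le.2 bT)
    have hlt : zpowers b < zpowers a ⊔ zpowers b :=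
      lt_of_le_of_ne le_sup_right fun e => hab (e ▸ mem_sup_left (mem_zpowers a))
    have h1 := card_lt_card_of_lt hlt
    have h2 := card_dvd_of_le hle
    rw [Nat.card_zpowers, ob] at h1
    rw [hcard] at h2
    have h3 : Nat.card ↥(zpowers a ⊔ zpowers b) = 9 := by
      have := Nat.le_of_dvd (by norm_num) h2
      generalize Nat.card ↥(zpowers a ⊔ zpowers b) = k at *
      interval_cases k <;> omega
    have h4 : zpowers a ⊔ zpowers b = T := eq_of_le_of_card_ge hle (by rw [h3, hcard])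
    haveI := hT.1
    exact (mem_sup_of_le_normalizer ((zpowers_le.2 aT).trans
      (le_normalizer_of_isMulCommutative (zpowers_le.2 bT)))).1 (h4 ▸ hx)
  have swap : ∀ g ∈ N, ∀ x ∈ (T : Subgroup G), n * (g * x * g⁻¹) * n⁻¹ = g * (n * x * n⁻¹) * g⁻¹ := fun g hg x hx => by
    have h1 : g⁻¹ * n * g * n⁻¹ ∈ (T : Subgroup G) := by
      have := mul_mem (mul_mem (inv_mem (hsq g hg)) (hsq _ (mul_mem hg hnN))) (inv_mem (hsq n hnN))
      rwa [show (g * g)⁻¹ * (g * n * (g * n)) * (n * n)⁻¹ = g⁻¹ * n * g * n⁻¹ by group] at this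
    rw [← fixT _ h1 _ (cj n hnN x hx)]; group
  have acta : ∀ g ∈ N, g * a * g⁻¹ = a ∨ g * a * g⁻¹ = a⁻¹ := fun g hg => by
    obtain ⟨x, hx, y, hy, e⟩ := gen _ (cj g hg a aT)
    have h1 := swap g hg a aT
    rw [na, ← e, show n * (x * y) * n⁻¹ = n * x * n⁻¹ * (n * y * n⁻¹) by group, conj_zpowers na hx,
      conj_zpowers_inv nb hy, mul_right_inj] at h1
    have h2 : y = 1 := eq_one_of_cube (hT.2 y (zpowers_le.2 bT hy)) (by nth_rewrite 1 [← h1]; simp)
    rw [h2, mul_one] at e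
    rcases (mem_zpowers_three oa).1 hx with h | h | h
    · exact absurd (by simpa [h] using e.symm) a1
    · exact .inl (e ▸ h)
    · exact .inr (e ▸ h)
  have actb : ∀ g ∈ N, g * b * g⁻¹ = b ∨ g * b * g⁻¹ = b⁻¹ := fun g hg => by
    obtain ⟨x, hx, y, hy, e⟩ := gen _ (cj g hg b bT)
    have h1 := swap g hg b bT
    rw [nb, show g * b⁻¹ * g⁻¹ = (g * b * g⁻¹)⁻¹ by group, ← e,
      show n * (x * y) * n⁻¹ = n * x * n⁻¹ * (n * y * n⁻¹) by group, conj_zpowers na hx,
      conj_zpowers_inv nb hy, comm _ (zpowers_le.2 aT hx) _ (zpowers_le.2 bT hy), mul_inv_rev, mul_left_inj] at h1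
    have h2 : x = 1 := eq_one_of_cube (hT.2 x (zpowers_le.2 aT hx)) (by nth_rewrite 1 [h1]; simp)
    rw [h2, one_mul] at e
    rcases (mem_zpowers_three ob).1 hy with h | h | h
    · exact absurd (by simpa [h] using e.symm) b1
    · exact .inl (e ▸ h)
    · exact .inr (e ▸ h)
  have cube : ∀ g ∈ N, g * g * g ∈ N ∧ g * g * g * (g * g * g) = 1 ∧
      ∀ x ∈ (T : Subgroup G), g * g * g * x * (g * g * g)⁻¹ = g * x * g⁻¹ := fun g hg =>
    ⟨mul_mem (mul_mem hg hg) hg, by rw [← hT.2 _ (hsq g hg)]; simp [pow_succ, mul_assoc], fun x hx => by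
      rw [← fixT _ (hsq g hg) _ (cj g hg x hx)]; simp [mul_assoc]⟩
  have memT' : ∀ g : G, g * a * g⁻¹ = a → g * b * g⁻¹ = b → g ∈ (T : Subgroup G) := fun g h1 h2 =>
    memT g fun t ht => by
      obtain ⟨x, hx, y, hy, rfl⟩ := gen t ht
      rw [show g * (x * y) * g⁻¹ = g * x * g⁻¹ * (g * y * g⁻¹) by group, conj_zpowers h1 hx, conj_zpowers h2 hy]
  obtain ⟨m, hm, ma, mb⟩ : ∃ m ∈ N, m * a * m⁻¹ = a⁻¹ ∧ m * b * m⁻¹ = b := by
    obtain ⟨m, hm, hmT, hmn⟩ := other n hnN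
    have e1 : m * n * a * (m * n)⁻¹ = m * a * m⁻¹ := by
      rw [show m * n * a * (m * n)⁻¹ = m * (n * a * n⁻¹) * m⁻¹ by group, na]
    have e2 : m * n * b * (m * n)⁻¹ = (m * b * m⁻¹)⁻¹ := by
      rw [show m * n * b * (m * n)⁻¹ = m * (n * b * n⁻¹) * m⁻¹ by group, nb]; group
    rcases acta m hm with h1 | h1 <;> rcases actb m hm with h2 | h2
    · exact absurd (memT' m h1 h2) hmT
    · exact absurd (memT' _ (e1.trans h1) (by rw [e2, h2, inv_inv])) hmn
    · exact ⟨m, hm, h1, h2⟩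
    · exact ⟨m * n, mul_mem hm hnN, e1.trans h1, by rw [e2, h2, inv_inv]⟩
  obtain ⟨r1, r2, r3⟩ := cube n hnN
  obtain ⟨s1, s2, s3⟩ := cube m hm
  exact ⟨a, b, _, _, aT, bT, a1, b1, hT, hcard, gen, r1, s1, r2, s2, (r3 a aT).trans na, (r3 b bT).trans nb,
    (s3 a aT).trans ma, (s3 b bT).trans mb, acta, actb, hC.le, hloc⟩

end CL.Fgs.Hay
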