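/-
The number of conjugacy classes of a permutation group of degree `n` is at most `4 ^ n`
(counted prime by prime).
-/
import Cfsg.Agent.Fgs.ClassFusion
import Cfsg.Agent.Inv.BaerSuzuki

set_option autoImplicit false

namespace CL.KPerm

open Subgroup Finset CL.Fgs MulAction

theorem sub_one_mul_le_of_dvd_factorial {p e m : ℕ} [hp : Fact p.Prime] (h : p ^ e ∣ m.factorial) :
    (p - 1) * e ≤ m := by
  have h1 : e ≤ padicValNat p m.factorial :=
    (padicValNat_dvd_iff_le (Nat.factorial_ne_zero m)).1 h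
  have h2 := sub_one_mul_padicValNat_factorial (p := p) m
  exact (Nat.mul_le_mul_left _ h1).trans (h2 ▸ Nat.sub_le _ _)

theorem pow_le_of_dvd_factorial {p e j : ℕ} [hp : Fact p.Prime] (h : p ^ e ∣ (p * j).factorial) :
    p ^ e ≤ (2 * p) ^ j := by
  have h1 := sub_one_mul_le_of_dvd_factorial h
  have h2 := hp.out.two_le
  rw [mul_pow, mul_comm]
  rcases le_total e j with h3 | h3
  · exact (Nat.pow_le_pow_right hp.out.pos h3).trans (Nat.le_mul_of_pos_right _ (by positivity))
  obtain ⟨k, rfl⟩ := Nat.exists_eq_add_of_le h3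
  obtain ⟨q, rfl⟩ : ∃ q, p = q + 1 := ⟨p - 1, by omega⟩
  rw [pow_add]
  refine Nat.mul_le_mul_left _ ?_
  calc (q + 1) ^ k ≤ (2 ^ q) ^ k := Nat.pow_le_pow_left (Nat.lt_two_pow_self) _
    _ ≤ 2 ^ j := by
      rw [← pow_mul]
      refine Nat.pow_le_pow_right two_pos ?_
      simp only [Nat.add_sub_cancel] at h1
      nlinarith

variable {G Ω : Type*} [Group G] [Finite G] [MulAction G Ω] [Fintype Ω]

theorem card_dvd_factorial [FaithfulSMul G Ω] (H : Subgroup G) (S : Finset Ω)
    (h : ∀ x ∈ H, ∀ ω, ω ∉ S → x • ω = ω) : Nat.card H ∣ S.card.factorial := by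
  classical
  have h1 : H.map (toPermHom G Ω) ≤ (Equiv.Perm.ofSubtype : Equiv.Perm {ω // ω ∈ S} →* _).range := by
    rintro _ ⟨x, hx, rfl⟩
    refine Equiv.Perm.mem_range_ofSubtype_iff.2 fun ω hω => ?_
    by_contra e
    exact Equiv.Perm.mem_support.1 hω (h x hx ω e)
  rw [← card_map_of_injective (f := toPermHom G Ω) toPerm_injective]
  refine (card_dvd_of_le h1).trans ((card_range_dvd _).trans ?_)
  rw [Nat.card_perm, Nat.card_eq_fintype_card, Fintype.card_coe]

/-- The number of cycles of `x`. -/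
noncomputable def cyc (Ω : Type*) [MulAction G Ω] (x : G) : ℕ :=
  Nat.card (orbitRel.Quotient (zpowers x) Ω)

theorem cyc_le {p j : ℕ} [hp : Fact p.Prime] {x : G} (hx : IsPGroup p (zpowers x)) (S : Finset Ω)
    [DecidableEq Ω] (hS : ∀ ω, ω ∈ S ↔ x • ω ≠ ω) (hj : S.card = p * j) :
    cyc Ω x ≤ j + Sᶜ.card := by
  classical
  have := Fintype.ofFinite (orbitRel.Quotient (zpowers x) Ω)
  let f : Ω → orbitRel.Quotient (zpowers x) Ω := Quotient.mk''
  have h1 : (univ : Finset (orbitRel.Quotient (zpowers x) Ω)) ⊆ S.image f ∪ Sᶜ.image f := by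
    intro q _
    obtain ⟨ω, rfl⟩ := Quotient.exists_rep q
    rw [← image_union]
    exact mem_image_of_mem f (by simp)
  have h2 : p * (S.image f).card ≤ S.card := by
    refine mul_card_image_le_card S p fun q hq => ?_
    obtain ⟨ω, hω, rfl⟩ := mem_image.1 hq
    obtain ⟨k, hk⟩ := hx.card_orbit ω
    have h3 : orbit (zpowers x) ω ⊆ (S.filter fun a => f a = f ω : Finset Ω) := by
      rintro _ ⟨⟨g, hg⟩, rfl⟩
      refine mem_coe.2 (mem_filter.2 ⟨(hS _).2 fun e => (hS ω).1 hω ?_, Quotient.sound' ⟨_, rfl⟩⟩)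
      have hc : x * g = g * x := by
        obtain ⟨i, rfl⟩ := hg; exact ((Commute.refl x).zpow_right i).eq
      change x • g • ω = g • ω at e
      rwa [← mul_smul, hc, mul_smul, smul_left_cancel_iff] at e
    have h4 := Set.ncard_le_ncard h3
    rw [Set.ncard_coe_finset, ← Nat.card_coe_set_eq, hk] at h4
    refine le_trans (Nat.le_self_pow ?_ p) h4
    rintro rfl
    have := (Nat.card_eq_one_iff_unique.1 hk).1
    exact (hS ω).1 hω (congrArg Subtype.val (Subsingleton.elim
      (⟨x • ω, ⟨⟨x, mem_zpowers x⟩, rfl⟩⟩ : orbit (zpowers x) ω) ⟨ω, mem_orbit_self ω⟩))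
  rw [cyc, Nat.card_eq_fintype_card]
  refine (card_le_card h1).trans ((card_union_le _ _).trans (add_le_add ?_ card_image_le))
  exact Nat.le_of_mul_le_mul_left (hj ▸ h2) hp.out.pos

theorem dvd_card_fiber {p : ℕ} [hp : Fact p.Prime] {P R : Subgroup G} (hP : IsPGroup p P) (hR : R < P)
    [DecidablePred fun ω : Ω => P ⊓ stabilizer G ω = R] :
    p ∣ (univ.filter fun ω : Ω => P ⊓ stabilizer G ω = R).card := by
  obtain ⟨g, hg, hgR, hn⟩ := CL.Inv.exists_mem_normalizer_of_lt_pgroup hP hR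
  let N : Subgroup G := P ⊓ normalizer (R : Set G)
  let A : SubMulAction N Ω := ⟨{ω | P ⊓ stabilizer G ω = R}, fun c ω hω => by
    have e : P ⊓ stabilizer G ω = R := hω
    ext y
    rw [mem_normalizer_iff''.1 c.2.2 y, ← e]
    simp only [Subgroup.mem_inf, mem_stabilizer_iff, mul_smul, inv_smul_eq_iff]
    refine and_congr ⟨fun h => mul_mem (mul_mem (inv_mem c.2.1) h) c.2.1, fun h => ?_⟩ Iff.rfl
    have hc : (c : G) ∈ P := c.2.1
    rwa [mul_mem_cancel_right hc, mul_mem_cancel_left (inv_mem hc)] at h⟩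
  have h := (hP.to_le (inf_le_left : N ≤ P)).card_modEq_card_fixedPoints A
  have h0 : IsEmpty (fixedPoints N A) := ⟨fun ⟨⟨ω, hω⟩, h⟩ => hgR (by
    rw [← show P ⊓ stabilizer G ω = R from hω]
    exact ⟨hg, congrArg Subtype.val (h ⟨g, hg, hn⟩)⟩)⟩
  rw [Nat.card_of_isEmpty (α := fixedPoints N A)] at h
  rw [← card_subtype_eq_filter]
  exact (Nat.modEq_zero_iff_dvd).1 h

open Classical in
theorem sum_pow_cyc_le [Fintype G] [FaithfulSMul G Ω] {p : ℕ} [hp : Fact p.Prime] {P : Subgroup G}
    (hP : IsPGroup p P) {a b : ℝ} (ha : 1 ≤ a) (hab : a ≤ b) (h : a ^ p + 2 * p * a ≤ b ^ p) :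
    ∑ x ∈ univ.filter (· ∈ P), a ^ cyc Ω x ≤ b ^ Fintype.card Ω := by
  let st : Ω → Subgroup G := fun ω => P ⊓ stabilizer G ω
  let Q : Finset (Subgroup G) := univ.image st
  let m : Subgroup G → ℕ := fun R => (univ.filter fun ω => st ω = R).card
  let β : Subgroup G → ℝ := fun R => if R = P then 0 else (2 * p * a) ^ (m R / p)
  have hle : ∀ R ∈ Q, R ≤ P := fun R hR => by
    obtain ⟨ω, -, rfl⟩ := mem_image.1 hR; exact inf_le_left
  have hm : ∀ R ∈ Q, R ≠ P → m R = p * (m R / p) := fun R hR hne =>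
    (Nat.mul_div_cancel' (dvd_card_fiber hP (lt_of_le_of_ne (hle R hR) hne))).symm
  have hsum : ∀ J ⊆ Q, (univ.filter fun ω => st ω ∈ J).card = ∑ R ∈ J, m R := fun J _ => by
    rw [card_eq_sum_card_fiberwise (f := st) (s := univ.filter fun ω => st ω ∈ J) (t := J)
      fun ω hω => (mem_filter.1 hω).2]
    refine sum_congr rfl fun R hR => congrArg card ?_
    ext ω
    simp only [mem_filter, mem_univ, true_and, and_iff_right_iff_imp]
    exact fun e => e ▸ hR
  have ha0 : 0 ≤ a := zero_le_one.trans ha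
  calc ∑ x ∈ univ.filter (· ∈ P), a ^ cyc Ω x
      = ∑ J ∈ Q.powerset, ∑ x ∈ (univ.filter (· ∈ P)).filter fun x => Q.filter (x ∉ ·) = J,
          a ^ cyc Ω x := (sum_fiberwise_of_maps_to (fun x _ => mem_powerset.2 (filter_subset _ _)) _).symm
    _ ≤ ∑ J ∈ Q.powerset, (∏ R ∈ J, β R) * ∏ R ∈ Q \ J, a ^ m R := by
        refine sum_le_sum fun J hJ => ?_
        have hJ' := mem_powerset.1 hJ
        by_cases hPJ : P ∈ J
        · rw [sum_eq_zero fun x hx => ?_, prod_eq_zero (f := β) hPJ (if_pos rfl), zero_mul]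
          obtain ⟨hx1, rfl⟩ := mem_filter.1 hx
          exact absurd (mem_filter.1 hx1).2 (mem_filter.1 hPJ).2
        have hne : ∀ R ∈ J, R ≠ P := fun R hR e => hPJ (e ▸ hR)
        let S := univ.filter fun ω => st ω ∈ J
        have hS : S.card = p * ∑ R ∈ J, m R / p := by
          rw [hsum J hJ', mul_sum]; exact sum_congr rfl fun R hR => hm R (hJ' hR) (hne R hR)
        have hSc : Sᶜ.card = ∑ R ∈ Q \ J, m R := by
          rw [← hsum _ sdiff_subset]
          congr 1
          ext ω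
          simp [S, Q]
        have hx : ∀ x ∈ (univ.filter (· ∈ P)).filter fun x => Q.filter (x ∉ ·) = J,
            x ∈ P ∧ ∀ ω, ω ∈ S ↔ x • ω ≠ ω := fun x hx => by
          obtain ⟨hx1, rfl⟩ := mem_filter.1 hx
          have hx2 := (mem_filter.1 hx1).2
          refine ⟨hx2, fun ω => ?_⟩
          simp [S, Q, st, hx2]
        let H : Subgroup G := P ⊓ fixingSubgroup G ((Sᶜ : Finset Ω) : Set Ω)
        obtain ⟨e, he⟩ := (hP.to_le (inf_le_left : H ≤ P)).exists_card_eq
        have h1 := card_dvd_factorial H S fun x hx ω hω =>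
          (mem_fixingSubgroup_iff G).1 hx.2 ω (by simpa using hω)
        rw [he, hS] at h1
        have h2 : ((univ.filter (· ∈ P)).filter fun x => Q.filter (x ∉ ·) = J).card ≤
            (2 * p) ^ ∑ R ∈ J, m R / p := by
          refine le_trans ?_ (he ▸ pow_le_of_dvd_factorial h1)
          rw [card_subgroup_eq_filter]
          refine card_le_card fun x hx' => mem_filter.2 ⟨mem_univ _, (hx x hx').1, ?_⟩
          refine (mem_fixingSubgroup_iff G).2 fun ω hω => ?_
          by_contra e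
          exact (mem_compl.1 hω) (((hx x hx').2 ω).2 e)
        refine (sum_le_card_nsmul _ _ (a ^ (∑ R ∈ J, m R / p + ∑ R ∈ Q \ J, m R)) fun x hx' => ?_).trans ?_
        · refine pow_le_pow_right₀ ha (hSc ▸ cyc_le (hP.to_le (zpowers_le.2 (hx x hx').1)) S
            (hx x hx').2 hS)
        rw [nsmul_eq_mul, prod_congr rfl (g := fun R => (2 * p * a) ^ (m R / p))
          fun R hR => if_neg (hne R hR), prod_pow_eq_pow_sum, prod_pow_eq_pow_sum, pow_add,
          ← mul_assoc, mul_pow _ a]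
        gcongr
        exact_mod_cast h2
    _ = ∏ R ∈ Q, (β R + a ^ m R) := (prod_add _ _ _).symm
    _ ≤ ∏ R ∈ Q, b ^ m R := by
        refine prod_le_prod (fun R _ => add_nonneg ?_ (by positivity)) fun R hR => ?_
        · simp only [β]; split_ifs <;> positivity
        by_cases e : R = P
        · simp only [β, if_pos e, zero_add]; gcongr
        have h0 : m R / p ≠ 0 := fun e0 => by
          obtain ⟨ω, -, rfl⟩ := mem_image.1 hR
          have := hm _ hR e
          rw [e0, mul_zero, card_eq_zero] at this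
          exact filter_eq_empty_iff.1 this (mem_univ ω) rfl
        simp only [β, if_neg e]
        conv_lhs => rw [add_comm]; enter [1]; rw [hm R hR e, pow_mul]
        conv_rhs => rw [hm R hR e, pow_mul]
        refine (pow_add_pow_le (by positivity) (by positivity) h0).trans ?_
        gcongr
    _ = b ^ Fintype.card Ω := by
        rw [prod_pow_eq_pow_sum, ← hsum Q Subset.rfl]
        congr 1
        simp [Q]

/-- The centralizer of `x` permutes the cycles of `x`. -/
@[reducible] def cycAct (Ω : Type*) [MulAction G Ω] (x : G) :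
    MulAction cent(x) (orbitRel.Quotient (zpowers x) Ω) where
  smul c := Quotient.map' (fun ω => (c : G) • ω) fun ω ω' ⟨⟨g, i, hi⟩, h⟩ => ⟨⟨g, i, hi⟩, by
    have hc : g * c = c * g := hi ▸ ((show Commute (c : G) x from mem_cent.1 c.2).zpow_right i).eq.symm
    change g • (c : G) • ω' = _
    rw [← mul_smul, hc, mul_smul]
    exact congrArg _ h⟩
  one_smul q := Quotient.inductionOn' q fun ω => congrArg Quotient.mk'' (one_smul G ω)
  mul_smul c d q := Quotient.inductionOn' q fun ω => congrArg Quotient.mk'' (mul_smul (c : G) d ω)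

theorem kPi_cent_le [FaithfulSMul G Ω] {π : Set ℕ} {x : G} (hx : IsPiElt πᶜ x) :
    ∃ H : Subgroup (Equiv.Perm (orbitRel.Quotient (zpowers x) Ω)), kPi π cent(x) ≤ kPi π H := by
  letI := cycAct Ω x
  let f := toPermHom cent(x) (orbitRel.Quotient (zpowers x) Ω)
  refine ⟨f.range, (kPi_le_mul π f.ker).trans ?_⟩
  have h1 : kPi π f.ker ≤ 1 := by
    refine kPi_le_of_dvd (b := Nat.card f.ker) (by rw [one_mul]) one_ne_zero
      (isPiNum_card_of_forall fun c hc => isPiElt_of_pow_eq_one (n := orderOf x) hx ?_)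
    refine Subtype.ext (eq_of_smul_eq_smul (α := Ω) fun ω => ?_)
    obtain ⟨⟨g, i, hi⟩, h⟩ : (orbitRel (zpowers x) Ω) ((c : G) • ω) ω :=
      Quotient.exact' (DFunLike.congr_fun (MonoidHom.mem_ker.1 hc) (Quotient.mk'' ω))
    change g • ω = (c : G) • ω at h
    have hc : Commute (c : G) g := hi ▸ ((show Commute (c : G) x from mem_cent.1 c.2).zpow_right i)
    have key : ∀ k : ℕ, (c : G) ^ k • ω = g ^ k • ω := fun k => by
      induction k with
      | zero => simp
      | succ k ih => rw [pow_succ', mul_smul, ih, ← mul_smul, (hc.pow_right k).eq, mul_smul, ← h,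
          ← mul_smul, ← pow_succ]
    rw [Subgroup.coe_pow, key, orderOf_dvd_iff_pow_eq_one.1 (orderOf_dvd_of_mem_zpowers ⟨i, hi⟩)]
    rfl
  refine (Nat.mul_le_mul_right _ h1).trans ?_
  rw [one_mul]
  exact kPi_le_of_surjective π (QuotientGroup.quotientKerEquivRange f).symm.toMonoidHom
    (MulEquiv.surjective _)

open Classical in
theorem kPi_le_sum [Fintype G] {π : Set ℕ} {p : ℕ} [Fact p.Prime] (hp : p ∈ π) (P : Sylow p G) :
    kPi π G ≤ ∑ x ∈ univ.filter (· ∈ (P : Subgroup G)), kPi (π \ {p}) cent(x) := by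
  refine Nat.le_of_mul_le_mul_right ?_ (Nat.card_pos (α := G))
  rw [kPi_mul_card_eq_sum (Set.singleton_subset_iff.2 hp), sum_mul]
  calc _ ≤ ∑ y : G, ∑ x ∈ (univ.filter (· ∈ (P : Subgroup G))).filter (IsConj · y),
        kPi (π \ {p}) cent(x) * Nat.card cent(x) := by
        refine (sum_le_sum fun y hy => ?_).trans (sum_le_sum_of_subset (subset_univ _))
        obtain ⟨g, hg⟩ := (mem_filter.1 hy).2.exists_conj_mem_sylow P
        have hc : IsConj y (g * y * g⁻¹) := isConj_iff.2 ⟨g, rfl⟩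
        refine le_trans ?_ (single_le_sum (f := fun x => kPi (π \ {p}) cent(x) * Nat.card cent(x))
          (fun _ _ => Nat.zero_le _) (mem_filter.2 ⟨mem_filter.2 ⟨mem_univ _, hg⟩, hc.symm⟩))
        refine Nat.mul_le_mul ?_ (card_cent_eq_of_isConj hc).le
        rw [cent_conj_eq_map]
        exact kPi_le_of_surjective _ ((MulAut.conj g).subgroupMap _).symm.toMonoidHom
          (MulEquiv.surjective _)
    _ = _ := by
        rw [sum_congr rfl fun y _ => sum_filter (IsConj · y) _, sum_comm]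
        refine sum_congr rfl fun x _ => ?_
        rw [← sum_filter, sum_const, card_filter_isConj, smul_eq_mul, mul_left_comm, cs_mul_card_cent]

theorem kPi_Iio_le (B : ℕ) : ∀ (G Ω : Type) [Group G] [Finite G] [MulAction G Ω] [Fintype Ω]
    [FaithfulSMul G Ω], (kPi (Set.Iio (B + 3)) G : ℝ) ≤ (4 - 2 / 2 ^ B) ^ Fintype.card Ω := by
  classical
  induction B with
  | zero =>
    intro G Ω _ _ _ _ _
    have := Fact.mk Nat.prime_two
    obtain ⟨P⟩ : Nonempty (Sylow 2 G) := inferInstance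
    obtain ⟨e, he⟩ := P.isPGroup'.exists_card_eq
    have h1 := card_dvd_factorial (Ω := Ω) (P : Subgroup G) univ fun _ _ ω h => absurd (mem_univ ω) h
    rw [he] at h1
    have h2 := sub_one_mul_le_of_dvd_factorial h1
    have h3 : kPi (Set.Iio (0 + 3)) G = kPi {2} G := kPi_congr fun x => forall₂_congr fun q hq =>
      imp_congr_right fun _ => by
        have := hq.two_le
        simp only [Set.mem_Iio, Set.mem_singleton_iff]; omega
    rw [h3, show (4 - 2 / 2 ^ 0 : ℝ) = (2 : ℕ) by norm_num]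
    exact_mod_cast (kPi_singleton_le P).trans
      (he.le.trans (Nat.pow_le_pow_right two_pos (by simpa using h2)))
  | succ B ih =>
    intro G Ω _ _ _ _ _
    have h1 : (1 : ℝ) ≤ 2 ^ B := one_le_pow₀ one_le_two
    have h2 : (2 : ℝ) ≤ 4 - 2 / 2 ^ B := by
      have : (2 : ℝ) / 2 ^ B ≤ 2 := div_le_self zero_le_two h1
      linarith
    have h3 : (4 - 2 / 2 ^ (B + 1) : ℝ) = 4 - 2 / 2 ^ B + 1 / 2 ^ B := by field_simp; ring
    have h4 : (0 : ℝ) < 1 / 2 ^ B := by positivity
    by_cases hp : (B + 3).Prime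
    swap
    · have h5 : kPi (Set.Iio (B + 1 + 3)) G = kPi (Set.Iio (B + 3)) G :=
        kPi_congr fun x => forall₂_congr fun q hq => imp_congr_right fun _ => by
          have : q ≠ B + 3 := fun e => hp (e ▸ hq)
          simp only [Set.mem_Iio]; omega
      rw [h5, h3]
      refine (ih G Ω).trans ?_
      gcongr
      linarith
    have := Fact.mk hp
    have := Fintype.ofFinite G
    obtain ⟨P⟩ : Nonempty (Sylow (B + 3) G) := inferInstance
    have h5 : Set.Iio (B + 1 + 3) \ {B + 3} = Set.Iio (B + 3) := by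
      ext q; simp only [Set.mem_diff, Set.mem_Iio, Set.mem_singleton_iff]; omega
    have h6 := kPi_le_sum (π := Set.Iio (B + 1 + 3)) (show B + 3 < B + 1 + 3 by omega) P
    rw [h5] at h6
    refine le_trans (Nat.cast_le.2 h6) ?_
    rw [Nat.cast_sum, h3]
    refine le_trans (sum_le_sum fun x hx => ?_) (sum_pow_cyc_le P.isPGroup' (one_le_two.trans h2)
      (le_add_of_nonneg_right h4.le) ?_)
    · obtain ⟨H, hH⟩ := kPi_cent_le (Ω := Ω) (π := Set.Iio (B + 3))
        ((isPiElt_singleton_of_mem P.isPGroup' (mem_filter.1 hx).2).mono (by simp))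
      have := Fintype.ofFinite (orbitRel.Quotient (zpowers x) Ω)
      rw [cyc, Nat.card_eq_fintype_card]
      exact (Nat.cast_le.2 hH).trans (ih H _)
    refine le_trans ?_ (pow_add_mul_le_add_pow (by linarith) (by linarith) _)
    generalize (4 - 2 / 2 ^ B : ℝ) = a at *
    have h7 : (2 : ℝ) ^ (B + 1) ≤ a ^ (B + 1) := by gcongr
    have h8 : 2 * a ≤ a ^ (B + 3 - 1) * (1 / 2 ^ B) := by
      rw [mul_one_div, le_div_iff₀ (by positivity), show B + 3 - 1 = B + 1 + 1 from rfl, pow_succ a]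
      rw [pow_succ] at h7
      nlinarith
    have h9 : (0 : ℝ) ≤ ((B + 3 : ℕ) : ℝ) := Nat.cast_nonneg _
    nlinarith

theorem card_conjClasses_le_four_pow (G Ω : Type) [Group G] [Finite G] [MulAction G Ω] [Fintype Ω]
    [FaithfulSMul G Ω] : Nat.card (ConjClasses G) ≤ 4 ^ Fintype.card Ω := by
  have h := kPi_Iio_le (Nat.card G) G Ω
  rw [kPi_eq_card_conjClasses (π := Set.Iio (Nat.card G + 3)) fun x q _ hq => Set.mem_Iio.2 (by
    have := Nat.le_of_dvd Nat.card_pos (hq.trans (orderOf_dvd_natCard x)); omega)] at h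
  have h1 : (0 : ℝ) < 2 / 2 ^ Nat.card G := by positivity
  have h2 : (2 : ℝ) / 2 ^ Nat.card G ≤ 2 := div_le_self zero_le_two (one_le_pow₀ one_le_two)
  have h3 : (4 - 2 / 2 ^ Nat.card G : ℝ) ^ Fintype.card Ω ≤ 4 ^ Fintype.card Ω := by
    gcongr <;> linarith
  exact_mod_cast h.trans h3

end CL.KPerm
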