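/-
Nilpotent action in Lie rings: sums of nilpotently acting subgroups, and the Khukhro-Shumyatsky form of Kreknin's
theorem (a graded Lie ring on which the zero component acts nilpotently is solvable).
-/
import Cfsg.Agent.Fgs.LieAut

set_option autoImplicit false
set_option linter.style.haveILetI false
open TensorProduct

namespace CL.Fgs.Lie

universe u

section Asc

variable {L : Type*} [LieRing L]

/-- the elements sent into `B` by any `n` successive brackets with elements of `S` -/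
def asc (B : AddSubgroup L) (S : Set L) : ℕ → AddSubgroup L
  | 0 => B
  | n + 1 =>
    { carrier := {x | ∀ y ∈ S, ⁅x, y⁆ ∈ asc B S n}
      zero_mem' := fun y _ => by rw [zero_lie]; exact zero_mem _
      add_mem' := fun ha hb y hy => by rw [add_lie]; exact add_mem (ha y hy) (hb y hy)
      neg_mem' := fun ha y hy => by rw [neg_lie]; exact neg_mem (ha y hy) }

variable {B B' : AddSubgroup L} {S S' : Set L} {x : L}

theorem mem_asc_succ {n : ℕ} : x ∈ asc B S (n + 1) ↔ ∀ y ∈ S, ⁅x, y⁆ ∈ asc B S n := Iff.rfl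

theorem asc_mono (hB : B ≤ B') (hS : S' ⊆ S) (n : ℕ) : asc B S n ≤ asc B' S' n := by
  induction n with
  | zero => exact hB
  | succ n ih => exact fun x hx y hy => ih (hx y (hS hy))

theorem asc_closure (B : AddSubgroup L) (S : Set L) (n : ℕ) : asc B (AddSubgroup.closure S) n = asc B S n := by
  refine le_antisymm (asc_mono le_rfl AddSubgroup.subset_closure n) ?_
  induction n with
  | zero => exact le_rfl
  | succ n ih =>
    intro x hx y hy
    induction hy using AddSubgroup.closure_induction with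
    | mem y hy => exact ih (hx y hy)
    | zero => rw [lie_zero]; exact zero_mem _
    | add a b _ _ ha hb => rw [lie_add]; exact add_mem ha hb
    | neg a _ ha => rw [lie_neg]; exact neg_mem ha

theorem asc_asc (B : AddSubgroup L) (S : Set L) (a b : ℕ) : asc (asc B S a) S b = asc B S (a + b) := by
  induction b with
  | zero => rfl
  | succ b ih => ext x; rw [mem_asc_succ, ih, ← add_assoc, mem_asc_succ]

theorem asc_le_succ (hB : ∀ x ∈ B, ∀ y ∈ S, ⁅x, y⁆ ∈ B) (n : ℕ) : asc B S n ≤ asc B S (n + 1) := by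
  induction n with
  | zero => exact hB
  | succ n ih => exact fun x hx y hy => ih (hx y hy)

theorem asc_le_asc (hB : ∀ x ∈ B, ∀ y ∈ S, ⁅x, y⁆ ∈ B) : Monotone (asc B S) :=
  monotone_nat_of_le_succ (asc_le_succ hB)

theorem lie_lie_swap (x y w : L) : ⁅⁅x, y⁆, w⁆ = ⁅⁅x, w⁆, y⁆ + ⁅x, ⁅y, w⁆⁆ := by
  rw [leibniz_lie, ← lie_skew y]
  abel

theorem asc_inv {y : L} (hB : ∀ x ∈ B, ⁅x, y⁆ ∈ B) (hS : ∀ w ∈ S, ⁅y, w⁆ ∈ S) (n : ℕ) :
    ∀ x ∈ asc B S n, ⁅x, y⁆ ∈ asc B S n := by
  induction n with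
  | zero => exact hB
  | succ n ih =>
    intro x hx w hw
    rw [lie_lie_swap]
    exact add_mem (ih _ (hx w hw)) (hx _ (hS w hw))

section Union

variable {Z Z' : AddSubgroup L} {K : Set L} (hZ : ∀ x ∈ Z, ∀ y ∈ K, ⁅x, y⁆ ∈ Z) (hZ' : ∀ x ∈ Z', ∀ y ∈ K, ⁅x, y⁆ ∈ Z')
  (hc : ∀ x ∈ Z', ∀ y ∈ K, ∀ w ∈ K, ⁅x, ⁅y, w⁆⁆ ∈ Z)
include hZ hZ' hc

theorem asc_inv' (hS : S ⊆ K) (n : ℕ) : ∀ x ∈ Z', x ∈ asc Z S n → ∀ y ∈ K, ⁅x, y⁆ ∈ asc Z S n := by
  induction n with
  | zero => exact fun x _ => hZ x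
  | succ n ih =>
    intro x hx' hx y hy w hw
    rw [lie_lie_swap]
    exact add_mem (ih _ (hZ' x hx' w (hS hw)) (hx w hw) y hy)
      (asc_le_asc (fun a ha b hb => hZ a ha b (hS hb)) (Nat.zero_le n) (hc x hx' y hy w (hS hw)))

theorem asc_union (hS : S ⊆ K) (hS' : S' ⊆ K) (n : ℕ) : ∀ a b, a + b = n → ∀ x ∈ Z', x ∈ asc Z S a → x ∈ asc Z S' b →
    x ∈ asc Z (S ∪ S') n := by
  have h0 : ∀ n, Z ≤ asc Z (S ∪ S') n := fun n =>
    asc_le_asc (fun a ha b hb => hZ a ha b (Set.union_subset hS hS' hb)) (Nat.zero_le n)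
  induction n with
  | zero =>
    intro a b e x _ h _
    rwa [show a = 0 by omega] at h
  | succ n ih =>
    intro a b e x hx h h'
    rcases a with _ | a
    · exact h0 _ h
    rcases b with _ | b
    · exact h0 _ h'
    rintro y (hy | hy)
    · exact ih a (b + 1) (by omega) _ (hZ' x hx y (hS hy)) (h y hy) (asc_inv' hZ hZ' hc hS' _ x hx h' y (hS hy))
    · exact ih (a + 1) b (by omega) _ (hZ' x hx y (hS' hy)) (asc_inv' hZ hZ' hc hS _ x hx h y (hS' hy)) (h' y hy)

theorem asc_biUnion {J : Type*} (Y : J → Set L) (hY : ∀ j, Y j ⊆ K) {m : ℕ} (hm : ∀ j, asc ⊥ (Y j) m = ⊤)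
    (t : Finset J) : Z' ≤ asc Z (⋃ j ∈ t, Y j) (t.card * m + 1) := by
  classical
  induction t using Finset.induction_on with
  | empty => intro x _ y hy; simp at hy
  | insert j t hj ih =>
    intro x hx
    rw [Finset.set_biUnion_insert]
    refine asc_union hZ hZ' hc (hY j) (Set.iUnion₂_subset fun i _ => hY i) _ m (t.card * m + 1) ?_ x hx
      (asc_mono bot_le le_rfl m (hm j ▸ AddSubgroup.mem_top x)) (ih hx)
    rw [Finset.card_insert_of_notMem hj]
    ring

end Union

/-- A solvable chain of subgroups, each a sum of boundedly many nilpotently acting subgroups, acts nilpotently. -/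
theorem asc_of_chain {J : Type*} (t : Finset J) (Y : J → Set L) {m : ℕ} (hm : ∀ j, asc ⊥ (Y j) m = ⊤) (r : ℕ) :
    ∀ K : ℕ → AddSubgroup L, (∀ s, ∀ x ∈ K s, ∀ y ∈ K s, ⁅x, y⁆ ∈ K (s + 1)) → (∀ s, K (s + 1) ≤ K s) →
      (∀ s, K s ≤ AddSubgroup.closure (⋃ j ∈ t, Y j ∩ K s)) → K r = ⊥ →
      asc ⊥ (K 0 : Set L) ((t.card * m + 1) ^ r) = ⊤ := by
  induction r with
  | zero =>
    intro K _ _ _ h
    rw [h, eq_top_iff]
    intro x _ y hy
    rw [AddSubgroup.mem_bot.1 hy, lie_zero]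
    exact zero_mem _
  | succ r ih =>
    intro K h1 h2 h3 h4
    have h5 := ih (fun s => K (s + 1)) (fun s => h1 _) (fun s => h2 _) (fun s => h3 _) h4
    have inv : ∀ i, ∀ x ∈ asc ⊥ (K 1 : Set L) i, ∀ y ∈ (K 0 : Set L), ⁅x, y⁆ ∈ asc ⊥ (K 1 : Set L) i :=
      fun i x hx y hy => asc_inv (fun a ha => by rw [AddSubgroup.mem_bot.1 ha, zero_lie]; exact zero_mem _)
        (fun w hw => h1 0 y hy w (h2 0 hw)) i x hx
    have key : ∀ i, asc ⊥ (K 1 : Set L) i ≤ asc ⊥ (K 0 : Set L) (i * (t.card * m + 1)) := fun i => by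
      induction i with
      | zero => simp [asc]
      | succ i ihi =>
        refine (asc_biUnion (inv i) (inv (i + 1)) (fun x hx y hy w hw => hx _ (h1 0 y hy w hw))
          (fun j => Y j ∩ K 0) (fun j => Set.inter_subset_right)
          (fun j => top_le_iff.1 (hm j ▸ asc_mono le_rfl Set.inter_subset_left m)) t).trans ?_
        rw [← asc_closure, add_mul, one_mul, ← asc_asc ⊥ (K 0 : Set L)]
        exact asc_mono ihi (h3 0) _
    rw [pow_succ, eq_top_iff, ← h5]
    exact key _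

/-- the derived series -/
def dser (L : Type*) [LieRing L] : ℕ → AddSubgroup L
  | 0 => ⊤
  | s + 1 => AddSubgroup.closure {x | ∃ u ∈ dser L s, ∃ w ∈ dser L s, ⁅u, w⁆ = x}

theorem lie_mem_dser {s : ℕ} {u w : L} (hu : u ∈ dser L s) (hw : w ∈ dser L s) : ⁅u, w⁆ ∈ dser L (s + 1) :=
  AddSubgroup.subset_closure ⟨u, hu, w, hw, rfl⟩

theorem dser_succ_le (s : ℕ) : dser L (s + 1) ≤ dser L s := by
  induction s with
  | zero => exact le_top
  | succ s ih =>
    refine (AddSubgroup.closure_le _).2 ?_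
    rintro _ ⟨u, hu, w, hw, rfl⟩
    exact lie_mem_dser (ih hu) (ih hw)

theorem map_mem_dser {M : Type*} [LieRing M] (f : L →+ M) (hf : ∀ x y, f ⁅x, y⁆ = ⁅f x, f y⁆) (s : ℕ) :
    ∀ x ∈ dser L s, f x ∈ dser M s := by
  induction s with
  | zero => exact fun _ _ => AddSubgroup.mem_top _
  | succ s ih =>
    refine (AddSubgroup.closure_le ((dser M (s + 1)).comap f)).2 ?_
    rintro _ ⟨u, hu, w, hw, rfl⟩
    change f ⁅u, w⁆ ∈ dser M (s + 1)
    rw [hf]
    exact lie_mem_dser (ih u hu) (ih w hw)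

end Asc

section KS

variable {L : Type*} [LieRing L] {n : ℕ} {V : ZMod n → AddSubgroup L}

theorem lie_mem_gen (hV : BrLe V V V) (k : ℕ) {u : L} (hu : u ∈ V 0) (j : ZMod n) :
    ∀ x ∈ gen V k j, ⁅x, u⁆ ∈ gen V k j := by
  let P : ZMod n → AddSubgroup L := fun v =>
    { carrier := {y | y ∈ gen V k v ∧ ⁅y, u⁆ ∈ gen V k v}
      zero_mem' := ⟨zero_mem _, by rw [zero_lie]; exact zero_mem _⟩
      add_mem' := fun {a b} ha hb => ⟨add_mem ha.1 hb.1, by rw [add_lie]; exact add_mem ha.2 hb.2⟩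
      neg_mem' := fun {a} ha => ⟨neg_mem ha.1, by rw [neg_lie]; exact neg_mem ha.2⟩ }
  have h : gen V k ≤ P := by
    refine gen_le (trunc_le_iff.2 fun j hj y hy => ⟨le_gen hj hy, le_gen hj (mem_of_eq (hV _ _ y hy u hu) (add_zero j))⟩)
      fun i j a ha b hb => ⟨brLe_gen V k i j a ha.1 b hb.1, ?_⟩
    rw [lie_lie_swap]
    exact add_mem (brLe_gen V k i j _ ha.2 b hb.1) (brLe_gen V k i j a ha.1 _ hb.2)
  exact fun x hx => (h j hx).2

theorem br_trunc_le' [NeZero n] (j : ZMod n) {X : AddSubgroup L} (h1 : gen V (j.val + 1) j ≤ X)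
    (h2 : ∀ u ∈ V 0, ∀ w ∈ V j, ⁅u, w⁆ ∈ X) : br V (trunc V j.val) j ≤ X := by
  refine (AddSubgroup.closure_le _).2 ?_
  rintro _ ⟨a, b, hab, u, hu, w, hw, rfl⟩
  unfold trunc at hw
  split_ifs at hw with hb
  · rcases hb.eq_or_lt with hb | hb
    · have hjb := ZMod.val_injective n hb
      subst hjb
      have : a = 0 := by simpa using hab
      exact h2 u (this ▸ hu) w hw
    · have ha : j.val + 1 ≤ a.val := by
        have h1 := ZMod.val_add a b
        rw [hab] at h1
        have h2 := ZMod.val_lt b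
        by_cases h3 : a.val + b.val < n
        · rw [Nat.mod_eq_of_lt h3] at h1; omega
        · have h4 := ZMod.val_lt a
          rw [Nat.mod_eq_sub_mod (by omega), Nat.mod_eq_of_lt (by omega)] at h1
          omega
      exact h1 (mem_of_eq (brLe_gen V _ a b u (le_gen ha hu) w (le_gen hb hw)) hab)
  · rw [AddSubgroup.mem_bot.1 hw, lie_zero]; exact zero_mem _

/-- the bound in the Khukhro-Shumyatsky theorem -/
def ksf (m : ℕ) : ℕ → ℕ
  | 0 => 0
  | k + 1 => ksf m k + (ksf m k + 1) * m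

theorem gen_mono {W : ZMod n → AddSubgroup L} (h : W ≤ V) (k : ℕ) : gen W k ≤ gen V k :=
  gen_le (trunc_le_iff.2 fun j hj => (h j).trans (le_gen hj)) (brLe_gen V k)

theorem iter_der_le_gen' [NeZero n] (m k : ℕ) : ∀ V : ZMod n → AddSubgroup L, BrLe V V V → asc ⊥ (V 0 : Set L) m = ⊤ →
    der^[ksf m k] V ≤ gen V k := by
  induction k with
  | zero => exact fun V _ _ j => le_gen (Nat.zero_le _)
  | succ k ih =>
    intro V hV h0
    have sub : ∀ s, asc ⊥ (der^[s] V 0 : Set L) m = ⊤ := fun s =>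
      top_le_iff.1 (h0 ▸ asc_mono le_rfl ((iter_der_spec hV s).2 0) m)
    rw [ksf, Function.iterate_add_apply]
    obtain ⟨hM, hMV⟩ := iter_der_spec hV ((ksf m k + 1) * m)
    refine (ih _ hM (sub _)).trans (gen_le (trunc_le_iff.2 fun j hj => ?_) (brLe_gen V _))
    rcases hj.eq_or_lt with hj | hj
    swap
    · exact (hMV j).trans (le_gen hj)
    subst hj
    have key : ∀ r t, r + t = m → der^[(ksf m j.val + 1) * r] V j ≤
        gen V (j.val + 1) j ⊔ (asc ⊥ (V 0 : Set L) t ⊓ V j) := fun r => by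
      induction r with
      | zero =>
        intro t e
        rw [show t = m by omega, h0]
        simp
      | succ r ihr =>
        intro t e
        obtain ⟨hW, hWV⟩ := iter_der_spec hV ((ksf m j.val + 1) * r)
        rw [mul_add, mul_one, add_comm, Function.iterate_add_apply, Function.iterate_succ_apply']
        refine le_trans (br_mono (iter_der_spec hW _).2 (ih _ hW (sub _)) j) ?_
        refine le_trans (br_le_iff.2 (brLe_gen_trunc hW _) j) ?_
        refine br_trunc_le' j ((gen_mono hWV _ j).trans le_sup_left) fun u hu w hw => ?_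
        obtain ⟨g, hg, a, ha, rfl⟩ := AddSubgroup.mem_sup.1 (ihr (t + 1) (by omega) hw)
        rw [← lie_skew, add_lie]
        exact neg_mem (add_mem (AddSubgroup.mem_sup_left (lie_mem_gen hV _ (hWV 0 hu) j g hg))
          (AddSubgroup.mem_sup_right ⟨ha.1 u (hWV 0 hu), mem_of_eq (hV _ _ a ha.2 u (hWV 0 hu)) (add_zero j)⟩))
    simpa [asc] using key m 0 rfl

/-- **Khukhro-Shumyatsky** -/
theorem kreknin_nil [NeZero n] {m : ℕ} (hV : BrLe V V V) (h0 : asc ⊥ (V 0 : Set L) m = ⊤) : der^[ksf m n] V = ⊥ := by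
  refine le_bot_iff.1 ((iter_der_le_gen' m n V hV h0).trans (gen_le (trunc_le_iff.2 fun j hj => ?_) ?_))
  · have := ZMod.val_lt j; omega
  · intro i j u hu w _
    rw [Pi.bot_apply, AddSubgroup.mem_bot] at hu
    rw [hu, zero_lie]; exact zero_mem _

theorem dser_le_iSup (h : ⨆ i, V i = ⊤) (s : ℕ) : dser L s ≤ ⨆ i, der^[s] V i := by
  induction s with
  | zero => exact h.ge
  | succ s ih =>
    refine (AddSubgroup.closure_le _).2 ?_
    rintro _ ⟨u, hu, w, hw, rfl⟩
    rw [Function.iterate_succ_apply']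
    refine AddSubgroup.iSup_induction _ (C := fun u => ⁅u, w⁆ ∈ ⨆ i, der (der^[s] V) i) (ih hu) (fun i u hu => ?_)
      (by rw [zero_lie]; exact zero_mem _) fun a b ha hb => by rw [add_lie]; exact add_mem ha hb
    exact AddSubgroup.iSup_induction _ (C := fun w => ⁅u, w⁆ ∈ ⨆ i, der (der^[s] V) i) (ih hw)
      (fun j w hw => AddSubgroup.mem_iSup_of_mem (i + j) (brLe_br _ _ i j u hu w hw))
      (by rw [lie_zero]; exact zero_mem _) fun a b ha hb => by rw [lie_add]; exact add_mem ha hb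

end KS

theorem mem_of_nsmul_mem {L : Type*} [AddCommGroup L] {p e : ℕ} (h : p.Coprime e) {X : AddSubgroup L} {x : L}
    (he : e • x = 0) (hx : p • x ∈ X) : x ∈ X := by
  have h1 : (p : ℤ) * Nat.gcdA p e + e * Nat.gcdB p e = 1 := by rw [← Nat.gcd_eq_gcd_ab, h]; rfl
  have h2 : x = Nat.gcdA p e • p • x + Nat.gcdB p e • e • x := by
    rw [← natCast_zsmul, ← natCast_zsmul, smul_smul, smul_smul, ← add_smul, mul_comm, mul_comm _ (e : ℤ), h1, one_smul]
  rw [h2, he, smul_zero, add_zero]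
  exact zsmul_mem hx _

theorem smul_lie_smul {A M : Type*} [CommRing A] [LieRing M] [LieAlgebra A M] (a b : A) (u w : M) :
    ⁅a • u, b • w⁆ = (a * b) • ⁅u, w⁆ := by rw [smul_lie, lie_smul, smul_smul]

/-- A Lie ring of exponent prime to `p` with an automorphism of order `p` whose fixed points act nilpotently is
solvable. -/
theorem dser_eq_bot_of_aut {p : ℕ} (hp : p.Prime) {L : Type u} [LieRing L] (φ : L →+ L)
    (hφ : ∀ x y, φ ⁅x, y⁆ = ⁅φ x, φ y⁆) (hφp : ∀ x, φ^[p] x = x) {e : ℕ} (hpe : p.Coprime e) (he : ∀ x : L, e • x = 0)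
    {C : AddSubgroup L} (hC : ∀ x, ∑ j ∈ Finset.range p, φ^[j] x ∈ C) {m : ℕ} (hm : asc ⊥ (C : Set L) m = ⊤) :
    dser L (ksf m p) = ⊥ := by
  classical
  haveI := Fact.mk hp
  obtain ⟨A, _, ω, r, hω, hs, hr⟩ := exists_root_ring hp
  obtain ⟨Φ, hΦ⟩ : ∃ Φ : A ⊗[ℤ] L →ₗ[A] A ⊗[ℤ] L, ∀ (a : A) (y : L), Φ (a ⊗ₜ y) = a ⊗ₜ φ y :=
    ⟨φ.toIntLinearMap.baseChange A, fun a y => rfl⟩
  have hΦi : ∀ (j : ℕ) (a : A) (y : L), (Φ ^ j) (a ⊗ₜ y) = a ⊗ₜ φ^[j] y := by
    intro j a y
    induction j with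
    | zero => rfl
    | succ j ih => rw [pow_succ', Module.End.mul_apply, ih, hΦ, Function.iterate_succ_apply']
  have hΦl : ∀ u w : A ⊗[ℤ] L, Φ ⁅u, w⁆ = ⁅Φ u, Φ w⁆ := by
    have la : ∀ a b c : A ⊗[ℤ] L, ⁅a, b + c⁆ = ⁅a, b⁆ + ⁅a, c⁆ := fun a b c => LieRing.lie_add a b c
    have l0 : ∀ a : A ⊗[ℤ] L, ⁅a, (0 : A ⊗[ℤ] L)⁆ = 0 := fun a => by
      have := la a 0 0
      rw [add_zero] at this
      exact left_eq_add.1 this
    intro u w
    induction u using TensorProduct.induction_on with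
    | zero => simp
    | add a b ha hb => rw [add_lie, map_add, map_add, add_lie, ha, hb]
    | tmul a y =>
      induction w using TensorProduct.induction_on with
      | zero => rw [map_zero, l0, l0, map_zero]
      | add a b ha hb => rw [la, map_add, map_add, la, ha, hb]
      | tmul b z =>
        rw [LieAlgebra.ExtendScalars.bracket_tmul, hΦ, hΦ, hΦ, hφ, LieAlgebra.ExtendScalars.bracket_tmul]
  have hΦp : ∀ v : A ⊗[ℤ] L, (Φ ^ p) v = v := by
    intro v
    induction v using TensorProduct.induction_on with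
    | zero => simp
    | add a b ha hb => rw [map_add, ha, hb]
    | tmul a y => rw [hΦi, hφp]
  have hE : ∀ v : A ⊗[ℤ] L, e • v = 0 := by
    intro v
    induction v using TensorProduct.induction_on with
    | zero => simp
    | add a b ha hb => rw [smul_add, ha, hb, add_zero]
    | tmul a y => rw [← tmul_smul, he, tmul_zero]
  let χ : AddChar (ZMod p) A := AddChar.zmodChar p hω
  have hχ : ∀ j : ZMod p, j ≠ 0 → ∑ i : ZMod p, χ (i * j) = 0 := by
    intro j hj
    refine (Equiv.sum_comp (Equiv.mulRight₀ j hj) χ).trans ?_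
    rw [← hs, Finset.sum_range]
    obtain ⟨q, rfl⟩ : ∃ q, p = q + 1 := ⟨p - 1, by have := hp.pos; omega⟩
    rfl
  let V : ZMod p → AddSubgroup (A ⊗[ℤ] L) := fun i =>
    { carrier := {v | Φ v = χ i • v}
      zero_mem' := by simp
      add_mem' := fun {a b} ha hb => by
        simp only [Set.mem_ofPred_eq] at ha hb ⊢; rw [map_add, ha, hb, smul_add]
      neg_mem' := fun {a} ha => by
        simp only [Set.mem_ofPred_eq] at ha ⊢; rw [map_neg, ha, smul_neg] }
  have hV : ∀ i v, v ∈ V i ↔ Φ v = χ i • v := fun _ _ => Iff.rfl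
  have hVV : BrLe V V V := by
    intro i j u hu w hw
    rw [hV] at hu hw ⊢
    rw [hΦl, hu, hw, AddChar.map_add_eq_mul]
    exact smul_lie_smul _ _ u w
  have hspan : ∀ v : A ⊗[ℤ] L, p • v ∈ ⨆ i, V i := by
    intro v
    let π : ZMod p → A ⊗[ℤ] L := fun i => ∑ j ∈ Finset.range p, χ (-i * j) • (Φ ^ j) v
    have hπ : ∀ i, π i ∈ V i := by
      intro i
      rw [hV]
      have h1 : ∑ j ∈ Finset.range p, χ (-i * ((j + 1 : ℕ) : ZMod p)) • (Φ ^ (j + 1)) v = π i := by
        have h2 := Finset.sum_range_succ (fun j : ℕ => χ (-i * j) • (Φ ^ j) v) p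
        rw [Finset.sum_range_succ'] at h2
        simp only [Nat.cast_zero, mul_zero, pow_zero, Module.End.one_apply, ZMod.natCast_self, hΦp] at h2
        exact add_right_cancel h2
      conv_rhs => rw [← h1]
      rw [map_sum, Finset.smul_sum]
      refine Finset.sum_congr rfl fun j _ => ?_
      rw [map_smul, smul_smul, ← AddChar.map_add_eq_mul, pow_succ', Module.End.mul_apply]
      congr 2
      push_cast; ring
    have hsum : ∑ i, π i = p • v := by
      rw [Finset.sum_comm, Finset.sum_eq_single 0]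
      · simp [← Nat.cast_smul_eq_nsmul A]
      · intro j hj hj0
        rw [← Finset.sum_smul]
        have : (-(j : ZMod p)) ≠ 0 := by
          rw [Ne, neg_eq_zero, ZMod.natCast_eq_zero_iff]
          exact Nat.not_dvd_of_pos_of_lt (Nat.pos_of_ne_zero hj0) (Finset.mem_range.1 hj)
        have h3 := hχ _ this
        simp only [mul_neg, neg_mul] at h3 ⊢
        rw [h3, zero_smul]
      · intro h; exact absurd (Finset.mem_range.2 hp.pos) h
    rw [← hsum]
    exact sum_mem fun i _ => AddSubgroup.mem_iSup_of_mem i (hπ i)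
  let S : Set (A ⊗[ℤ] L) := {v | ∃ a : A, ∃ c ∈ C, a ⊗ₜ c = v}
  have hS : (V 0 : Set (A ⊗[ℤ] L)) ⊆ AddSubgroup.closure S := fun v hv => by
    have h1 : Φ v = v := by simpa using (hV 0 v).1 hv
    have h2 : ∀ j, (Φ ^ j) v = v := fun j => by
      induction j with
      | zero => rfl
      | succ j ih => rw [pow_succ', Module.End.mul_apply, ih, h1]
    have h3 : ∀ w : A ⊗[ℤ] L, ∑ j ∈ Finset.range p, (Φ ^ j) w ∈ AddSubgroup.closure S := fun w => by
      induction w using TensorProduct.induction_on with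
      | zero => simp
      | add a b ha hb => simpa only [map_add, Finset.sum_add_distrib] using add_mem ha hb
      | tmul a y => simp only [hΦi]; rw [← tmul_sum]; exact AddSubgroup.subset_closure ⟨a, _, hC y, rfl⟩
    exact mem_of_nsmul_mem hpe (hE v) (by simpa [h2] using h3 v)
  have hasc : ∀ t, ∀ x ∈ asc ⊥ (C : Set L) t, ∀ a : A, a ⊗ₜ[ℤ] x ∈ asc ⊥ S t := fun t => by
    induction t with
    | zero => intro x hx a; rw [AddSubgroup.mem_bot.1 hx, tmul_zero]; exact zero_mem _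
    | succ t ih =>
      rintro x hx a _ ⟨b, c, hc, rfl⟩
      rw [LieAlgebra.ExtendScalars.bracket_tmul]
      exact ih _ (hx c hc) _
  have h0 : asc ⊥ (V 0 : Set (A ⊗[ℤ] L)) m = ⊤ := by
    refine top_le_iff.1 (le_trans (fun v _ => ?_) (asc_mono le_rfl hS m))
    rw [asc_closure]
    induction v using TensorProduct.induction_on with
    | zero => exact zero_mem _
    | add a b ha hb => exact add_mem (ha trivial) (hb trivial)
    | tmul a y => exact hasc m y (hm ▸ AddSubgroup.mem_top y) a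
  have h1 := dser_le_iSup (V := V) (top_le_iff.1 fun v _ => mem_of_nsmul_mem hpe (hE v) (hspan v)) (ksf m p)
  rw [kreknin_nil hVV h0] at h1
  let f : L →+ A ⊗[ℤ] L := (TensorProduct.mk ℤ A L 1).toAddMonoidHom
  have hf0 : ∀ y, f y = 1 ⊗ₜ y := fun _ => rfl
  refine le_bot_iff.1 fun x hx => ?_
  have h2 := h1 (map_mem_dser f (fun y z => by
    rw [hf0, hf0, hf0, LieAlgebra.ExtendScalars.bracket_tmul, one_mul]) _ x hx)
  simp only [Pi.bot_apply, iSup_bot, AddSubgroup.mem_bot, hf0] at h2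
  have h3 := congrArg (fun v : A ⊗[ℤ] L => TensorProduct.lid ℤ L (r.rTensor L v)) h2
  simpa only [LinearMap.rTensor_tmul, hr, lid_tmul, one_smul, map_zero, AddSubgroup.mem_bot] using h3

end CL.Fgs.Lie
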