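/-
Mann's bound for the order of a `p`-group of given derived length (helper20).
-/
import Cfsg.Agent.Grp.Comm1
import Cfsg.Agent.Grp.PGroupMaxClass

set_option autoImplicit false

open Subgroup
open scoped commutatorElement

namespace CL.Fgs.MannDL

variable {G : Type*} [Group G]

/-- `[M, G, ..., G]` -/
def ch (M : Subgroup G) : ℕ → Subgroup G
  | 0 => M
  | i + 1 => ⁅ch M i, ⊤⁆

instance ch_normal (M : Subgroup G) [h : M.Normal] : ∀ i, (ch M i).Normal
  | 0 => h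
  | i + 1 => have := ch_normal M i; Subgroup.commutator_normal _ _

theorem ch_add (M : Subgroup G) (i j : ℕ) : ch (ch M i) j = ch M (i + j) := by
  induction j with
  | zero => rfl
  | succ j ih => rw [ch, ih]; rfl

theorem ch_succ_le (M : Subgroup G) [M.Normal] (i : ℕ) : ch M (i + 1) ≤ ch M i := commutator_le_left _ _

theorem comm_lcs (j : ℕ) (M : Subgroup G) [M.Normal] :
    ⁅M, (⊤ : Subgroup G).lowerCentralSeries j⁆ ≤ ch M (j + 1) := by
  induction j generalizing M with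
  | zero => exact le_rfl
  | succ j ih =>
    rw [commutator_comm, Subgroup.lowerCentralSeries_succ _ j]
    apply CL.Grp.three_subgroups
    · rw [commutator_comm ⊤]
      have := ih (ch M 1)
      rwa [ch_add, show 1 + (j + 1) = j + 1 + 1 by ring] at this
    · exact commutator_mono (ih M) le_rfl

theorem comm_sup_zpowers_le {K N : Subgroup G} [K.Normal] [N.Normal] {x : G} (h : N = K ⊔ zpowers x) :
    ⁅N, N⁆ ≤ ⁅N, K⁆ := by
  have hK : K ≤ N := h ▸ le_sup_left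
  have hx : zpowers x ≤ N := h ▸ le_sup_right
  conv_lhs => rw [h]
  refine CL.Grp.commutator_sup_right_le (h ▸ le_rfl) (CL.Grp.commutator_sup_left_le ?_ ?_)
  · rw [commutator_comm]; exact commutator_mono hx le_rfl
  · rw [(commutator_eq_bot_iff_le_centralizer).2 (le_centralizer _)]; exact bot_le

theorem comm_two {K N L : Subgroup G} [L.Normal] {x y : G} (h : N = K ⊔ zpowers x ⊔ zpowers y)
    (h1 : ⁅N, K⁆ ≤ L) (h2 : ⁅⁅N, N⁆, ⊤⁆ ≤ L) : ⁅N, N⁆ ≤ L ⊔ zpowers ⁅x, y⁆ := by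
  have hK : K ≤ N := h ▸ le_sup_left.trans le_sup_left
  have hx : zpowers x ≤ N := h ▸ le_sup_right.trans le_sup_left
  have hy : zpowers y ≤ N := h ▸ le_sup_right
  have hc : zpowers ⁅x, y⁆ ≤ ⁅N, N⁆ :=
    zpowers_le.2 (commutator_mem_commutator (hx (mem_zpowers x)) (hy (mem_zpowers y)))
  have : (L ⊔ zpowers ⁅x, y⁆).Normal := by
    rw [← Subgroup.commutator_top_right_le_iff]
    exact (CL.Grp.commutator_sup_left_le (commutator_le_left _ _) ((commutator_mono hc le_rfl).trans h2)).trans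
      le_sup_left
  have e0 : ∀ a : G, ⁅zpowers a, zpowers a⁆ ≤ L ⊔ zpowers ⁅x, y⁆ := fun a => by
    rw [(commutator_eq_bot_iff_le_centralizer).2 (le_centralizer _)]; exact bot_le
  have e1 : ⁅zpowers x, zpowers y⁆ ≤ L ⊔ zpowers ⁅x, y⁆ := by
    rw [zpowers_eq_closure x, zpowers_eq_closure y, CL.Grp.commutator_closure_le_iff]
    rintro _ rfl _ rfl
    exact mem_sup_right (mem_zpowers _)
  have e2 : ∀ A ≤ N, ⁅A, K⁆ ≤ L ⊔ zpowers ⁅x, y⁆ := fun A hA =>
    ((commutator_mono hA le_rfl).trans h1).trans le_sup_left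
  conv_lhs => rw [h]
  refine CL.Grp.commutator_sup_right_le (CL.Grp.commutator_sup_right_le (e2 _ h.ge) ?_) ?_
  · refine CL.Grp.commutator_sup_left_le (CL.Grp.commutator_sup_left_le ?_ (e0 x)) ?_
    · rw [commutator_comm]; exact e2 _ hx
    · rw [commutator_comm]; exact e1
  · refine CL.Grp.commutator_sup_left_le (CL.Grp.commutator_sup_left_le ?_ e1) (e0 y)
    rw [commutator_comm]; exact e2 _ hy

theorem comm_comm_le {K N : Subgroup G} [N.Normal] {x y : G} (h : N = K ⊔ zpowers x ⊔ zpowers y)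
    (h1 : ⁅N, K⁆ ≤ ⁅⁅N, N⁆, ⊤⁆) : ⁅⁅N, N⁆, ⁅N, N⁆⁆ ≤ ⁅⁅N, N⁆, ⁅⁅N, N⁆, (⊤ : Subgroup G)⁆⁆ := by
  have hx : x ∈ N := h ▸ mem_sup_left (mem_sup_right (mem_zpowers x))
  have hy : y ∈ N := h ▸ mem_sup_right (mem_zpowers y)
  exact comm_sup_zpowers_le (le_antisymm (comm_two h h1 le_rfl)
    (sup_le (commutator_le_left _ _) (zpowers_le.2 (commutator_mem_commutator hx hy))))

variable [Finite G] {p : ℕ} [hp : Fact p.Prime]

/-- the exponent of the order -/
noncomputable def lg (p : ℕ) (H : Subgroup G) : ℕ := Nat.log p (Nat.card H)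

theorem card_eq (hG : IsPGroup p G) (H : Subgroup G) : Nat.card H = p ^ lg p H := by
  obtain ⟨k, hk⟩ := IsPGroup.iff_card.1 (hG.to_subgroup H)
  rw [lg, hk, Nat.log_pow hp.out.one_lt]

theorem lg_lt (hG : IsPGroup p G) {H K : Subgroup G} (h : H < K) : lg p H + 1 ≤ lg p K := by
  have h1 := Subgroup.card_le_of_le h.le
  have h2 : Nat.card H ≠ Nat.card K := fun e => h.ne (Subgroup.eq_of_le_of_card_ge h.le e.ge)
  have h3 := lt_of_le_of_ne h1 h2
  rw [card_eq hG, card_eq hG] at h3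
  exact (Nat.pow_lt_pow_iff_right hp.out.one_lt).1 h3

theorem lg_le (hG : IsPGroup p G) {H K : Subgroup G} (h : H ≤ K) : lg p H ≤ lg p K :=
  h.eq_or_lt.elim (fun e => e ▸ le_rfl) fun e => (Nat.le_succ _).trans (lg_lt hG e)

theorem eq_of_lg (hG : IsPGroup p G) {H K : Subgroup G} (h : H ≤ K) (h2 : lg p K ≤ lg p H) : H = K :=
  h.eq_or_lt.resolve_right fun e => by have := lg_lt hG e; omega

theorem lg_ch (hG : IsPGroup p G) (M : Subgroup G) [M.Normal] (j : ℕ) (h : ch M j ≠ ⊥) :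
    lg p (ch M j) + j ≤ lg p M := by
  have := hG.isNilpotent
  induction j with
  | zero => exact le_rfl
  | succ j ih =>
    have h1 : ch M j ≠ ⊥ := fun e => h (le_bot_iff.1 (e ▸ ch_succ_le M j))
    have := lg_lt hG (CL.Grp.commutator_top_lt h1)
    have := ih h1
    change lg p ⁅ch M j, ⊤⁆ + (j + 1) ≤ _
    omega

theorem two_gen (hG : IsPGroup p G) {K N : Subgroup G} (h : K ≤ N) (h2 : lg p N ≤ lg p K + 2) :
    ∃ x y : G, N = K ⊔ zpowers x ⊔ zpowers y := by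
  have key : ∀ A : Subgroup G, A ≤ N → ∃ x ∈ N, N = A ⊔ zpowers x ∨ lg p A + 1 ≤ lg p (A ⊔ zpowers x) := fun A hA => by
    rcases hA.eq_or_lt with rfl | h3
    · exact ⟨1, one_mem _, .inl (by simp)⟩
    · obtain ⟨x, hx, hn⟩ := SetLike.exists_of_lt h3
      exact ⟨x, hx, .inr (lg_lt hG (lt_of_le_of_ne le_sup_left fun e => hn (e ▸ mem_sup_right (mem_zpowers x))))⟩
  obtain ⟨x, hx, e | e⟩ := key K h
  · exact ⟨x, 1, by simpa using e⟩
  have h4 : K ⊔ zpowers x ≤ N := sup_le h (zpowers_le.2 hx)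
  obtain ⟨y, hy, e' | e'⟩ := key _ h4
  · exact ⟨x, y, e'⟩
  · exact ⟨x, y, (eq_of_lg hG (sup_le h4 (zpowers_le.2 hy)) (by omega)).symm⟩

theorem exists_K (hG : IsPGroup p G) {N : Subgroup G} [N.Normal] {j : ℕ}
    (hN : N ≤ (⊤ : Subgroup G).lowerCentralSeries j) (h : ⁅N, N⁆ ≠ ⊥) :
    ∃ K : Subgroup G, K.Normal ∧ K ≤ N ∧ lg p K + 2 ≤ lg p N ∧ ⁅N, N⁆ ≤ ch K j := by
  have := hG.isNilpotent
  by_cases hc : ∃ x, N = ch N 1 ⊔ zpowers x
  · obtain ⟨x, hx⟩ := hc
    have h1 : ⁅N, N⁆ ≤ ch (ch N 2) j := by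
      refine (comm_sup_zpowers_le hx).trans ?_
      rw [commutator_comm, ch_add, show 2 + j = 1 + (j + 1) by ring, ← ch_add]
      exact (commutator_mono le_rfl hN).trans (comm_lcs j _)
    refine ⟨ch N 2, inferInstance, (ch_succ_le N 1).trans (ch_succ_le N 0), lg_ch hG N 2 fun e => h ?_, h1⟩
    rw [e] at h1
    refine le_bot_iff.1 (h1.trans ?_)
    clear h1 hN
    induction j with
    | zero => exact le_rfl
    | succ j ih => exact (ch_succ_le _ j).trans ih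
  · have h0 : N ≠ ⊥ := fun e => h (by rw [e]; simp)
    obtain ⟨x, hx, hn⟩ := SetLike.exists_of_lt (CL.Grp.commutator_top_lt h0)
    have e1 : ch N 1 < ch N 1 ⊔ zpowers x :=
      lt_of_le_of_ne le_sup_left fun e => hn (show x ∈ ch N 1 from e ▸ mem_sup_right (mem_zpowers x))
    have e2 : ch N 1 ⊔ zpowers x < N :=
      lt_of_le_of_ne (sup_le (ch_succ_le N 0) (zpowers_le.2 hx)) fun e => hc ⟨x, e.symm⟩
    have := lg_lt hG e1
    have := lg_lt hG e2
    refine ⟨ch N 1, inferInstance, ch_succ_le N 0, by omega, ?_⟩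
    rw [ch_add, add_comm]
    exact (commutator_mono le_rfl hN).trans (comm_lcs j _)

/-- P. Hall's bound, and the case of equality -/
theorem hall (hG : IsPGroup p G) {N : Subgroup G} [N.Normal] {j : ℕ}
    (hN : N ≤ (⊤ : Subgroup G).lowerCentralSeries j) (h : ⁅N, N⁆ ≠ ⊥) :
    lg p ⁅N, N⁆ + j + 2 ≤ lg p N ∧ (lg p ⁅N, N⁆ + j + 3 ≤ lg p N ∨
      ⁅⁅N, N⁆, ⁅N, N⁆⁆ ≤ ⁅⁅N, N⁆, ⁅⁅N, N⁆, (⊤ : Subgroup G)⁆⁆) := by
  obtain ⟨K, _, h1, h2, h3⟩ := exists_K hG hN h
  have h4 := lg_ch hG K j fun e => h (le_bot_iff.1 (e ▸ h3))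
  have h5 := lg_le hG h3
  refine ⟨by omega, ?_⟩
  by_cases h6 : lg p ⁅N, N⁆ + j + 3 ≤ lg p N
  · exact .inl h6
  obtain ⟨x, y, e⟩ := two_gen hG h1 (by omega)
  refine .inr (comm_comm_le e ?_)
  rw [eq_of_lg hG h3 (by omega), commutator_comm]
  exact (commutator_mono le_rfl hN).trans (comm_lcs j K)

omit [Finite G] in
theorem der_le (i : ℕ) : ∃ j, j + 1 = 2 ^ i ∧ derivedSeries G i ≤ (⊤ : Subgroup G).lowerCentralSeries j := by
  induction i with
  | zero => exact ⟨0, rfl, le_rfl⟩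
  | succ i ih =>
    obtain ⟨j, e, h⟩ := ih
    exact ⟨j + j + 1, by rw [pow_succ]; omega,
      (commutator_mono h h).trans (CL.Grp.commutator_lowerCentralSeries_le j j)⟩

theorem step (hG : IsPGroup p G) (i : ℕ) (h : derivedSeries G i ≠ ⊥) :
    lg p (derivedSeries G i) + 2 ^ i + 2 * i ≤ lg p (⊤ : Subgroup G) + 1 ∨
    (lg p (derivedSeries G i) + 2 ^ i + 2 * i ≤ lg p (⊤ : Subgroup G) + 2 ∧
      derivedSeries G (i + 1) ≤ (⊤ : Subgroup G).lowerCentralSeries (2 ^ (i + 1))) ∨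
    (lg p (derivedSeries G i) + 2 ^ i + 2 * i ≤ lg p (⊤ : Subgroup G) + 3 ∧
      derivedSeries G i ≤ (⊤ : Subgroup G).lowerCentralSeries (2 ^ i)) := by
  induction i with
  | zero => exact .inl (by simp)
  | succ i ih =>
    have h0 : derivedSeries G i ≠ ⊥ := fun e => h (by rw [derivedSeries_succ, e]; simp)
    obtain ⟨j, e, hj⟩ := der_le (G := G) i
    obtain ⟨h1, h2⟩ := hall hG hj h
    rw [← derivedSeries_succ] at h1 h2
    have e2 : 2 ^ (i + 1) = 2 * 2 ^ i := by ring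
    rcases ih h0 with h3 | ⟨h3, h4⟩ | ⟨h3, h4⟩
    · rcases h2 with h2 | h2
      · exact .inl (by omega)
      · refine .inr (.inl ⟨by omega, h2.trans ?_⟩)
        obtain ⟨j', e', hj'⟩ := der_le (G := G) (i + 1)
        refine (commutator_mono hj' (commutator_mono hj' le_rfl)).trans ?_
        rw [← Subgroup.lowerCentralSeries_succ, show 2 ^ (i + 1 + 1) = j' + (j' + 1) + 1 by rw [pow_succ]; omega]
        exact CL.Grp.commutator_lowerCentralSeries_le _ _
    · exact .inr (.inr ⟨by omega, h4⟩)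
    · have h5 := (hall hG h4 h).1
      rw [← derivedSeries_succ] at h5
      refine .inr (.inr ⟨by omega, (commutator_mono h4 h4).trans
        ((CL.Grp.commutator_lowerCentralSeries_le _ _).trans (Subgroup.lowerCentralSeries_antitone _ (by omega)))⟩)

theorem bound {n k : ℕ} (hcard : Nat.card G = p ^ n) (hk : derivedSeries G k ≠ ⊥) : 2 ^ k + 2 * k ≤ n + 2 := by
  have hG : IsPGroup p G := IsPGroup.of_card hcard
  have h1 : lg p (⊤ : Subgroup G) = n := by rw [lg, card_top, hcard, Nat.log_pow hp.out.one_lt]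
  have h2 := lg_lt hG (bot_lt_iff_ne_bot.2 hk)
  rcases step hG k hk with h | ⟨h, -⟩ | ⟨h, -⟩ <;> omega

end CL.Fgs.MannDL
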