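/-
Generators of `p`-groups of automorphisms (a subgroup of `Aut` induced on a normal subgroup of order `p ^ n` needs at
most `n ^ 2 / 4` generators) and of `p`-central groups.
-/
import Cfsg.Agent.Fgs.RankTwo
import Cfsg.Agent.Grp.PGroupSCN
import Cfsg.Agent.Grp.Frattini

set_option autoImplicit false

open Subgroup Cfsg CL.Grp
open scoped commutatorElement

namespace CL.Fgs.Mantel

universe u

variable {P : Type*} [Group P] {p : ℕ}

/-- a central chain with factors of order `p` -/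
structure Chain (p n : ℕ) (c : ℕ → Subgroup P) (e : ℕ → P) : Prop where
  zero : c 0 = ⊥
  nor : ∀ i ≤ n, (c i).Normal
  succ : ∀ i < n, c (i + 1) = c i ⊔ zpowers (e i)
  nmem : ∀ i < n, e i ∉ c i
  pow : ∀ i < n, e i ^ p ∈ c i
  cen : ∀ i < n, ∀ g, ⁅e i, g⁆ ∈ c i

theorem exists_chain [Finite P] [Fact p.Prime] (hP : IsPGroup p P) (n : ℕ) : ∀ (A : Subgroup P) [A.Normal],
    Nat.card A = p ^ n → ∃ c e, Chain p n c e ∧ c n = A := by
  induction n with
  | zero =>
    intro A _ h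
    exact ⟨fun _ => ⊥, fun _ => 1, ⟨rfl, fun _ _ => inferInstance, by simp, by simp, by simp, by simp⟩,
      (card_eq_one.1 (by simpa using h)).symm⟩
  | succ n ih =>
    intro A hA h
    obtain ⟨K, x, hK, hc, h1, h2, h3, h4⟩ := exists_normal_sup_zpowers_eq hP A h
    obtain ⟨c, e, hh, rfl⟩ := ih K hc
    refine ⟨fun i => if i ≤ n then c i else A, fun i => if i < n then e i else x,
      ⟨by simp [hh.zero], fun i _ => ?_, fun i hi => ?_, fun i hi => ?_, fun i hi => ?_, fun i hi => ?_⟩, by simp⟩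
    · split_ifs with h5
      exacts [hh.nor i h5, hA]
    all_goals rcases (Nat.lt_succ_iff.1 hi).lt_or_eq with h5 | rfl
    · simpa [h5, h5.le, Nat.succ_le_iff] using hh.succ i h5
    · simpa using h1.symm
    · simpa [h5, h5.le] using hh.nmem i h5
    · simpa using h2
    · simpa [h5, h5.le] using hh.pow i h5
    · simpa using h3
    · simpa [h5, h5.le] using hh.cen i h5
    · simpa using h4

/-- the elements centralizing `g` modulo `N` -/
def cm (N : Subgroup P) (hN : N.Normal) (g : P) : Subgroup P where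
  carrier := {y | ⁅y, g⁆ ∈ N}
  one_mem' := by simp
  mul_mem' {a b} ha hb := by
    convert mul_mem (hN.conj_mem _ hb a) ha using 1
    simp [commutatorElement_def, mul_assoc]
  inv_mem' {a} ha := by
    convert hN.conj_mem' _ (inv_mem ha) a using 1
    simp [commutatorElement_def, mul_assoc]

/-- `g` first moves `e k`, and moves it at level `i` -/
def Lead (c : ℕ → Subgroup P) (e : ℕ → P) (g : P) (i k : ℕ) : Prop :=
  g ∈ centralizer (c k : Set P) ∧ ⁅e k, g⁆ ∈ c (i + 1) ∧ ⁅e k, g⁆ ∉ c i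

variable {n : ℕ} {c : ℕ → Subgroup P} {e : ℕ → P} (h : Chain p n c e)
include h

theorem Chain.exists_pow [hp : Fact p.Prime] {i : ℕ} (hi : i < n) {x y : P} (hx : x ∈ c (i + 1)) (hx' : x ∉ c i)
    (hy : y ∈ c (i + 1)) : ∃ m : ℤ, y * (x ^ m)⁻¹ ∈ c i := by
  have := h.nor i hi.le
  have h1 : ∀ z ∈ c (i + 1), (z : P ⧸ c i) ∈ zpowers (e i : P ⧸ c i) := fun z hz => by
    have h2 := mem_map_of_mem (QuotientGroup.mk' (c i)) hz
    rwa [h.succ i hi, Subgroup.map_sup, QuotientGroup.map_mk'_self, bot_sup_eq, MonoidHom.map_zpowers] at h2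
  have h2 : (e i : P ⧸ c i) ^ p = 1 := (QuotientGroup.eq_one_iff _).2 (h.pow i hi)
  have h3 := orderOf_eq_prime h2 (mt (QuotientGroup.eq_one_iff _).1 (h.nmem i hi))
  have h4 : orderOf (x : P ⧸ c i) = p := orderOf_eq_prime (by
    obtain ⟨k, hk⟩ := h1 x hx
    rw [← hk, ← zpow_natCast, ← zpow_mul, mul_comm, zpow_mul, zpow_natCast, h2, one_zpow])
    (mt (QuotientGroup.eq_one_iff _).1 hx')
  have : Finite (zpowers (e i : P ⧸ c i)) := Nat.finite_of_card_ne_zero (by rw [Nat.card_zpowers, h3]; exact hp.out.ne_zero)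
  obtain ⟨m, hm⟩ := (eq_of_le_of_card_ge (zpowers_le.2 (h1 x hx)) (by rw [Nat.card_zpowers, Nat.card_zpowers, h3, h4])).ge
    (h1 y hy)
  exact ⟨m, (QuotientGroup.eq_one_iff _).1 (by simp [← hm])⟩

theorem Chain.tri [Fact p.Prime] {i j k : ℕ} (hij : i < j) (hjk : j < k) (hk : k < n) {g x : P} (hg : Lead c e g i j)
    (hx : Lead c e x j k) : Lead c e ⁅x, g⁆ i k := by
  have := h.nor k hk.le
  have h1 : ⁅e k, ⁅x, g⁆⁆ = ⁅⁅e k, x⁆, g⁆ := by
    have h2 : ∀ a ∈ c k, a * x⁻¹ = x⁻¹ * a := inv_mem hx.1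
    have h3 := inv_mem (h.cen k hk x)
    have h4 : (e k)⁻¹ * g⁻¹ * e k * g ∈ c k := by
      convert this.conj_mem' _ (inv_mem (h.cen k hk g⁻¹)) (e k) using 1
      simp [commutatorElement_def, mul_assoc]
    calc ⁅e k, ⁅x, g⁆⁆ = e k * x * (e k)⁻¹ * g * e k * ((e k)⁻¹ * g⁻¹ * e k * g * x⁻¹) *
          ((e k)⁻¹ * g⁻¹ * e k * g)⁻¹ * (e k)⁻¹ * x * g⁻¹ * x⁻¹ := by simp only [commutatorElement_def]; group
      _ = e k * x * (e k)⁻¹ * g * (x⁻¹ * ⁅e k, x⁆⁻¹) * x * g⁻¹ * x⁻¹ := by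
        rw [h2 _ h4]; simp only [commutatorElement_def]; group
      _ = e k * x * (e k)⁻¹ * (g * ⁅e k, x⁆⁻¹ * g⁻¹ * x⁻¹) := by rw [← h2 _ h3]; group
      _ = _ := by rw [h2 _ (this.conj_mem _ h3 g)]; simp only [commutatorElement_def]; group
  have h2 : ∀ m (hm : m ≤ n), c j ≤ cm (c m) (h.nor m hm) g := fun m hm y hy => by
    rw [cm, ← SetLike.mem_coe]
    simp [commutatorElement_eq_one_iff_mul_comm.2 (hg.1 y hy)]
  refine ⟨?_, h1 ▸ ?_, h1 ▸ fun h3 => hg.2.2 ?_⟩
  · rw [commutatorElement_def, mul_assoc, mul_assoc, ← mul_assoc g]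
    exact mul_mem hx.1 (normal_centralizer.conj_mem _ (inv_mem hx.1) g)
  · exact (h.succ j (by omega)).le.trans (sup_le (h2 (i + 1) (by omega)) (zpowers_le.2 hg.2.1)) hx.2.1
  · obtain ⟨m, hm⟩ := h.exists_pow (i := j) (by omega) hx.2.1 hx.2.2
      ((h.succ j (by omega)).ge (mem_sup_right (mem_zpowers _)))
    exact (mul_mem_cancel_right (inv_mem (zpow_mem (K := cm (c i) (h.nor i (by omega)) g) h3 m))).1 (h2 i (by omega) hm)

/-- if `R` realizes all leading positions of `H` then `H ≤ R C_H(c n)` -/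
theorem Chain.le_of_lead [Fact p.Prime] {H R : Subgroup P} (h0 : H ⊓ centralizer (c n : Set P) ≤ R)
    (h1 : ∀ i k, i < k → k < n → (∃ g ∈ H, Lead c e g i k) → ∃ x ∈ H ⊓ R, Lead c e x i k) : H ≤ R := by
  have h2 : ∀ k ≤ n, H ⊓ centralizer (c k : Set P) ≤ R := by
    intro k hk
    induction hk using Nat.decreasingInduction with
    | self => exact h0
    | of_succ k hk ih =>
      let φ : centralizer (c k : Set P) →* P := MonoidHom.mk' (fun g => ⁅e k, g⁆) fun a b => by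
        have := a.2 _ (h.cen k hk b)
        calc ⁅e k, (a * b : P)⁆ = ⁅e k, (a : P)⁆ * (a * ⁅e k, (b : P)⁆) * (a : P)⁻¹ := by
              simp [commutatorElement_def, mul_assoc]
          _ = _ := by rw [← this]; simp [mul_assoc]
      have h3 : ∀ i ≤ k, ∀ g ∈ H ⊓ centralizer (c k : Set P), ⁅e k, g⁆ ∈ c i → g ∈ R := by
        intro i
        induction i with
        | zero =>
          refine fun _ g hg h3 => ih ⟨hg.1, ?_⟩
          rw [h.zero, mem_bot, commutatorElement_eq_one_iff_mul_comm] at h3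
          rw [h.succ k hk, centralizer_sup_zpowers]
          exact ⟨hg.2, mem_centralizer_singleton_iff.2 h3.symm⟩
        | succ i ih2 =>
          intro hi g hg h3
          by_cases h4 : ⁅e k, g⁆ ∈ c i
          · exact ih2 (by omega) g hg h4
          obtain ⟨x, hx, h5⟩ := h1 i k hi hk ⟨g, hg.1, hg.2, h3, h4⟩
          obtain ⟨m, hm⟩ := h.exists_pow (i := i) (by omega) h5.2.1 h5.2.2 h3
          refine (R.mul_mem_cancel_right (R.inv_mem (R.zpow_mem hx.2 m))).1 (ih2 (by omega) _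
            (mul_mem hg (inv_mem (zpow_mem (mem_inf.2 ⟨hx.1, h5.1⟩) m))) ?_)
          change φ (⟨g, hg.2⟩ * (⟨x, h5.1⟩ ^ m)⁻¹) ∈ _
          rwa [map_mul, map_inv, map_zpow]
      exact fun g hg => h3 k le_rfl g hg (h.cen k hk g)
  refine fun g hg => h2 0 n.zero_le ⟨hg, ?_⟩
  simp [h.zero, mem_centralizer_iff]

theorem Chain.exists_gen [Fact p.Prime] (H : Subgroup P) : ∃ X : Finset P, X.card ≤ n ^ 2 / 4 ∧ (X : Set P) ⊆ H ∧
    H ≤ ⁅H, H⁆ ⊔ (closure (X : Set P) ⊔ H ⊓ centralizer (c n : Set P)) := by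
  classical
  let E : Fin n → Fin n → Prop := fun a b => a < b ∧ (∃ g ∈ H, Lead c e g a b) ∧ ¬ ∃ g ∈ ⁅H, H⁆, Lead c e g a b
  have h1 : ∀ a b d, E a b → E b d → ¬ E a d := fun a b d ⟨h1, ⟨g, hg, h2⟩, _⟩ ⟨h3, ⟨x, hx, h4⟩, _⟩ h5 =>
    h5.2.2 ⟨_, commutator_mem_commutator hx hg, h.tri h1 h3 d.2 h2 h4⟩
  have h2 : (SimpleGraph.fromRel E).CliqueFree (2 + 1) := fun s hs => by
    obtain ⟨a, b, d, hab, had, hbd, -⟩ := SimpleGraph.is3Clique_iff.1 hs
    rw [SimpleGraph.fromRel_adj] at hab had hbd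
    rcases hab.2 with h2 | h2 <;> rcases had.2 with h3 | h3 <;> rcases hbd.2 with h4 | h4
    exacts [h1 _ _ _ h2 h4 h3, h1 _ _ _ h3 h4 h2, (h2.1.trans (h4.1.trans h3.1)).false, h1 _ _ _ h3 h2 h4,
      h1 _ _ _ h2 h3 h4, (h2.1.trans (h3.1.trans h4.1)).false, h1 _ _ _ h4 h3 h2, h1 _ _ _ h4 h2 h3]
  have h3 : ∀ s : Sym2 (Fin n), ∃ x ∈ H, ∀ a b, s = s(a, b) → E a b → Lead c e x a b := fun s => by
    by_cases h3 : ∃ a b, s = s(a, b) ∧ E a b
    · obtain ⟨a, b, rfl, h4, ⟨x, hx, h5⟩, -⟩ := h3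
      refine ⟨x, hx, fun a' b' h6 h7 => ?_⟩
      rcases Sym2.eq_iff.1 h6 with ⟨rfl, rfl⟩ | ⟨rfl, rfl⟩
      exacts [h5, (h4.trans h7.1).false.elim]
    · exact ⟨1, one_mem _, fun a b h4 h5 => (h3 ⟨a, b, h4, h5⟩).elim⟩
  choose f hf hf' using h3
  refine ⟨(SimpleGraph.fromRel E).edgeFinset.image f, Finset.card_image_le.trans (h2.card_edgeFinset_le.trans ?_),
    fun x hx => ?_, h.le_of_lead (le_sup_right.trans le_sup_right) fun i k hik hk h4 => ?_⟩
  · rw [Fintype.card_fin, Nat.choose_eq_zero_of_lt (Nat.mod_lt n two_pos)]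
    exact Nat.div_le_div_right (by omega)
  · obtain ⟨s, -, rfl⟩ := Finset.mem_image.1 hx
    exact hf s
  by_cases h5 : ∃ g ∈ ⁅H, H⁆, Lead c e g i k
  · obtain ⟨g, hg, h6⟩ := h5
    exact ⟨g, ⟨commutator_le_self H hg, mem_sup_left hg⟩, h6⟩
  have h6 : E ⟨i, hik.trans hk⟩ ⟨k, hk⟩ := ⟨hik, h4, h5⟩
  exact ⟨_, ⟨hf _, mem_sup_right (mem_sup_left (subset_closure (Finset.mem_image_of_mem f
    (SimpleGraph.mem_edgeFinset.2 ((SimpleGraph.fromRel_adj _ _ _).2 ⟨h6.1.ne, .inl h6⟩)))))⟩, hf' _ _ _ rfl h6⟩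

omit h

/-- Thompson: for odd `p`, if the elements of order `p` are central then `|Y : Φ(Y)| ≤ |Ω₁(Y)|`. -/
theorem index_frattini_le [hp : Fact p.Prime] (hp2 : p ≠ 2) (m : ℕ) : ∀ (Y : Type u) [Group Y] [Finite Y],
    Nat.card Y = m → IsPGroup p Y → ∀ E : Subgroup Y, (∀ x, x ∈ E ↔ x ^ p = 1) → E ≤ center Y →
    (frattini Y).index ≤ Nat.card E := by
  induction m using Nat.strong_induction_on with
  | _ m ih =>
  rintro Y _ _ rfl hY E h1 h2
  have : E.Normal := ⟨fun x hx g => by rwa [mem_center_iff.1 (h2 hx) g, mul_inv_cancel_right]⟩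
  rcases subsingleton_or_nontrivial Y with _ | _
  · rw [Subsingleton.elim (frattini Y) ⊤, index_top]
    exact Nat.card_pos
  by_cases h3 : E ≤ frattini Y
  · have h4 : ∀ e ∈ (⊤ : Subgroup Y), e ^ p = 1 → ∀ x ∈ (⊤ : Subgroup Y), Commute x e := fun e _ he x _ =>
      mem_center_iff.1 (h2 ((h1 e).2 he)) x
    have h5 : ∀ x : Y ⧸ E, x ^ p = 1 → x ∈ center (Y ⧸ E) := fun x hx => mem_center_iff.2 fun y => by
      obtain ⟨x, rfl⟩ := QuotientGroup.mk_surjective x
      obtain ⟨y, rfl⟩ := QuotientGroup.mk_surjective y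
      exact (commutatorElement_eq_one_iff_mul_comm.1 ((QuotientGroup.eq_one_iff ⁅x, y⁆).2 ((h1 _).2
        (comm_pow_eq_one_of_pcentral hp2 (hY.to_subgroup ⊤) h4 ⊤ le_rfl x trivial y trivial
          ((h1 _).1 ((QuotientGroup.eq_one_iff (x ^ p)).1 hx)))))).symm
    have h6 : omegaOne p (⊤ : Subgroup (Y ⧸ E)) ≤ center _ := CL.Loc.omegaOne_le_iff.2 fun x _ => h5 x
    rw [← comap_frattini_of_surjective (QuotientGroup.mk'_surjective E) (by rwa [QuotientGroup.ker_mk']),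
      index_comap_of_surjective _ (QuotientGroup.mk'_surjective E)]
    refine (ih _ (card_quotient_lt fun h7 => ?_) _ rfl (hY.to_quotient E) _
      (fun x => ⟨fun hx => ?_, fun hx => Subgroup.subset_closure (And.intro trivial hx)⟩) h6).trans (card_omegaOne_quotient_le
        (fun x => (h1 x).2) (fun x y _ hy => mul_pow_of_pcentral hp2 (hY.to_subgroup ⊤) h4 trivial trivial ((h1 _).1 hy))
        fun x => (h1 x).1)
    · obtain ⟨x, hx⟩ := exists_prime_orderOf_dvd_card' p (hY.card_eq_or_dvd.resolve_left Finite.one_lt_card.ne')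
      have h8 := (h1 x).2 (hx ▸ pow_orderOf_eq_one x)
      rw [h7, mem_bot] at h8
      exact hp.out.ne_one (by rw [← hx, h8, orderOf_one])
    · induction hx using closure_induction with
      | mem x hx => exact hx.2
      | one => exact one_pow p
      | mul x y hx _ h7 h8 => rw [Commute.mul_pow (mem_center_iff.1 (h6 hx) y).symm, h7, h8, one_mul]
      | inv x _ h7 => rw [inv_pow, h7, inv_one]
  obtain ⟨M, hM, h4⟩ := exists_isCoatom_not_le h3
  have := normal_of_isCoatom_pGroup hY hM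
  have h5 := ih _ (card_lt_of_ne_top hM.1) M rfl (hY.to_subgroup M) (E.subgroupOf M)
    (fun x => (h1 _).trans (by rw [← map_pow, map_eq_one_iff _ M.subtype_injective]))
    fun x hx => mem_center_iff.2 fun y => Subtype.ext (mem_center_iff.1 (h2 hx) y)
  calc (frattini Y).index ≤ ((frattini M).map M.subtype).index := index_antitone (map_subtype_frattini_le_pGroup hY M)
    _ = (frattini M).index * M.index := by rw [index_map_subtype]
    _ ≤ Nat.card (M ⊓ E : Subgroup Y) * M.relIndex E := Nat.mul_le_mul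
      (by rwa [← card_subtype, subgroupOf_map_subtype, inf_comm] at h5)
      (by rw [← relIndex_sup_left, hM.2 _ (left_lt_sup.2 h4), relIndex_top_right])
    _ = _ := card_inf_mul_relIndex _ _

end CL.Fgs.Mantel
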