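/-
Many classes of π-elements (helper6), part 1: counting lemmas.
-/
import Cfsg.Agent.Fgs.ClassFusion
import Cfsg.Agent.Char.Linear
import Cfsg.Agent.Char.Faithful
import Cfsg.Agent.Char.Orth2
import Cfsg.Agent.Grp.HallWielandt
import Cfsg.Agent.Grp.Coprime

set_option autoImplicit false

namespace CL.Fgs.ManyPi

open Subgroup Cfsg Finset CL.Fgs CL.Grp
open scoped Pointwise

variable {G : Type*} [Group G]

/-- the class number against the index of the derived subgroup -/
theorem sq_mul_classes_le [Finite G] {s : ℕ} (hs : ∀ r : ℕ, r.Prime → r ∣ Nat.card G → s ≤ r) :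
    s ^ 2 * Nat.card (ConjClasses G) + (commutator G).index ≤ Nat.card G + s ^ 2 * (commutator G).index := by
  classical
  have e1 : Nat.card (IrrCharacter G) = ∑ _χ : IrrCharacter G, 1 := by simp
  have e2 : (commutator G).index = ∑ χ : IrrCharacter G, if (χ : G → ℂ) 1 = 1 then 1 else 0 := by
    rw [← CL.Char.card_linear_irr, card_subtype_eq_filter, card_filter]
  rw [← CL.Char.card_irr_eq_card_conjClasses, e1, e2, ← CL.Char.sum_charDegree_sq (G := G),
    mul_sum, mul_sum, ← sum_add_distrib, ← sum_add_distrib]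
  refine sum_le_sum fun χ _ => ?_
  split_ifs with h
  · have : charDegree (χ : G → ℂ) = 1 := by
      have := χ.2.cast_charDegree
      rw [h] at this
      exact_mod_cast this
    rw [this]; omega
  · have h1 : charDegree (χ : G → ℂ) ≠ 1 := fun e => h (by rw [← χ.2.cast_charDegree, e, Nat.cast_one])
    obtain ⟨r, hr, hd⟩ := Nat.exists_prime_and_dvd h1
    have h2 := (hs r hr (hd.trans χ.2.charDegree_dvd_card)).trans (Nat.le_of_dvd χ.2.charDegree_pos hd)
    have := Nat.pow_le_pow_left h2 2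
    omega

theorem card_commutator_le [Finite G] {s : ℕ} (h2 : 2 ≤ s) (hs : ∀ r : ℕ, r.Prime → r ∣ Nat.card G → s ≤ r)
    (h : Nat.card G < s * Nat.card (ConjClasses G)) : Nat.card (commutator G) ≤ s := by
  have h1 := sq_mul_classes_le hs
  rw [← (commutator G).index_mul_card] at h h1
  set l := (commutator G).index
  set d := Nat.card (commutator G)
  set k := Nat.card (ConjClasses G)
  have hl : 0 < l := Nat.pos_of_ne_zero index_ne_zero_of_finite
  by_contra hc
  push Not at hc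
  obtain ⟨t, rfl⟩ := Nat.exists_eq_add_of_le h2
  obtain ⟨e, he⟩ := Nat.exists_eq_add_of_lt hc
  rw [he] at h h1
  have h3 : (2 + t) * (l * (2 + t + e + 1)) < (2 + t) ^ 2 * k := by
    rw [sq, mul_assoc]; exact Nat.mul_lt_mul_of_pos_left h (by omega)
  nlinarith [Nat.zero_le (l * e), Nat.zero_le (l * e * t)]

theorem comm_of_classes [Finite G] {s : ℕ} (h2 : 2 ≤ s) (hs : ∀ r : ℕ, r.Prime → r ∣ Nat.card G → s ≤ r)
    (h : Nat.card G * (s ^ 2 + s - 1) < s ^ 3 * Nat.card (ConjClasses G)) : IsMulCommutative G := by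
  have h1 := sq_mul_classes_le hs
  by_contra hc
  have h0 : Nat.card (commutator G) ≠ 1 := fun e => hc (by
    rw [Subgroup.card_eq_one, commutator_eq_bot_iff_center_eq_top] at e
    exact ⟨⟨fun a b => mem_center_iff.1 (e ▸ mem_top b) a⟩⟩)
  obtain ⟨r, hr, hd⟩ := Nat.exists_prime_and_dvd h0
  have h4 := (hs r hr (hd.trans (card_subgroup_dvd_card _))).trans (Nat.le_of_dvd Nat.card_pos hd)
  rw [← (commutator G).index_mul_card] at h h1
  set l := (commutator G).index
  set d := Nat.card (commutator G)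
  set k := Nat.card (ConjClasses G)
  obtain ⟨t, rfl⟩ := Nat.exists_eq_add_of_le h2
  obtain ⟨e, he⟩ := Nat.exists_eq_add_of_le h4
  rw [he] at h h1
  have e1 : (2 + t) ^ 2 + (2 + t) - 1 = t ^ 2 + 5 * t + 5 := by
    rw [Nat.sub_eq_iff_eq_add (by nlinarith)]; ring
  rw [e1] at h
  have h3 := Nat.mul_le_mul_left (2 + t) h1
  nlinarith [Nat.zero_le (l * e), Nat.zero_le (l * e * t), Nat.zero_le (l * e * t ^ 2)]

theorem kPi_cent_conj [Finite G] (π : Set ℕ) (g y : G) : kPi π cent(g * y * g⁻¹) ≤ kPi π cent(y) := by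
  rw [cent_conj_eq_map]
  exact kPi_le_of_surjective π ((MulAut.conj g).toMonoidHom.subgroupMap _) (MonoidHom.subgroupMap_surjective _ _)

theorem cl_mul_card [Fintype G] (T : Set G) [DecidablePred fun x : G => ConjClasses.mk x ∈ ConjClasses.mk '' T] :
    cl T * Nat.card G = ∑ x ∈ univ.filter (fun x : G => ConjClasses.mk x ∈ ConjClasses.mk '' T), Nat.card cent(x) := by
  rw [cl, ← Nat.card_coe_set_eq]
  exact card_classes_mul_card (fun C => C ∈ ConjClasses.mk '' T) _ fun _ => Iff.rfl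

/-- splitting the count of π-classes according to the σ-part -/
theorem split [Finite G] {π σ : Set ℕ} (h : σ ⊆ π) (T : Set G) (hT : ∀ y ∈ T, IsPiElt σ y) {u v B : ℕ}
    (h1 : ∀ y : G, IsPiElt σ y → u * kPi (π \ σ) cent(y) ≤ v ∨ ∃ g : G, g * y * g⁻¹ ∈ T)
    (h2 : ∀ y ∈ T, u * kPi (π \ σ) cent(y) ≤ B) : u * kPi π G + v * cl T ≤ B * cl T + v * kPi σ G := by
  classical
  have := Fintype.ofFinite G
  refine Nat.le_of_mul_le_mul_right ?_ (Nat.card_pos (α := G))
  have e : univ.filter (fun x : G => ConjClasses.mk x ∈ ConjClasses.mk '' T) =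
      (univ.filter (IsPiElt σ : G → Prop)).filter (fun x : G => ConjClasses.mk x ∈ ConjClasses.mk '' T) := by
    ext x
    simp only [mem_filter, mem_univ, true_and, iff_and_self]
    rintro ⟨y, hy, e⟩
    exact (hT y hy).of_isConj (ConjClasses.mk_eq_mk_iff_isConj.1 e)
  rw [add_mul, add_mul, mul_assoc, mul_assoc, mul_assoc, mul_assoc, kPi_mul_card_eq_sum h, cl_mul_card,
    kPi_mul_card, e, sum_filter (s := univ.filter _), mul_sum, mul_sum, mul_sum, mul_sum, ← sum_add_distrib,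
    ← sum_add_distrib]
  refine sum_le_sum fun y hy => ?_
  simp only [mem_filter, mem_univ, true_and] at hy
  split_ifs with hc
  · obtain ⟨z, hz, e⟩ := hc
    obtain ⟨g, rfl⟩ := isConj_iff.1 (ConjClasses.mk_eq_mk_iff_isConj.1 e)
    have := ((Nat.mul_le_mul_left u (kPi_cent_conj (π \ σ) g z)).trans (h2 z hz))
    rw [← mul_assoc]
    exact Nat.add_le_add_right (Nat.mul_le_mul_right _ this) _
  · rcases h1 y hy with h3 | ⟨g, hg⟩
    · rw [← mul_assoc, mul_zero, mul_zero, add_zero, zero_add]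
      exact Nat.mul_le_mul_right _ h3
    · exact absurd ⟨_, hg, ConjClasses.mk_eq_mk_iff_isConj.2 (isConj_iff.2 ⟨g, rfl⟩).symm⟩ hc

/-- orbits of a `q`-element off its centralizer have at least `q` points -/
theorem mul_cl_diff_cent_le [Finite G] {q : ℕ} [hq : Fact q.Prime] {Y : Subgroup G} {a : G}
    (ha : a ∈ normalizer (Y : Set G)) (haq : IsPiElt {q} a) :
    q * cl ((Y : Set G) \ cent(a)) ≤ ((Y : Set G) \ cent(a)).ncard := by
  refine mul_cl_le fun x hx => ?_
  have hsub : {y : G | ∃ c ∈ zpowers a, c * x * c⁻¹ = y} ⊆ {y | y ∈ (Y : Set G) \ cent(a) ∧ IsConj x y} := by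
    rintro _ ⟨c, hc, rfl⟩
    refine ⟨⟨(mem_normalizer_iff.1 (zpowers_le.2 ha hc) x).1 hx.1, fun h => hx.2 ?_⟩, isConj_iff.2 ⟨c, rfl⟩⟩
    have h1 : c * a * c⁻¹ = a := mem_cent_iff_conj.1 (zpowers_le_cent a hc)
    have : c * x * c⁻¹ ∈ cent(c * a * c⁻¹) := by rwa [h1]
    exact conj_mem_cent_conj.1 this
  refine le_trans ?_ (Set.ncard_le_ncard hsub (Set.toFinite _))
  rw [ncard_conj_subgroup]
  obtain ⟨k, hk⟩ := (isPiElt_singleton_iff hq.out).1 haq
  have hd : cent(x).relIndex (zpowers a) ∣ q ^ k := by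
    rw [← hk, ← Nat.card_zpowers]; exact relIndex_dvd_card _ _
  obtain ⟨j, -, hj⟩ := (Nat.dvd_prime_pow hq.out).1 hd
  rw [hj]
  refine Nat.le_self_pow ?_ _
  rintro rfl
  exact hx.2 (mem_cent_comm.1 (relIndex_eq_one.1 hj (mem_zpowers a)))

/-- the index of the fixed points of an `r`-element on an `r'`-group is `1` mod `r` -/
theorem dvd_relIndex_sub_one [Finite G] {r : ℕ} [hr : Fact r.Prime] {Y : Subgroup G} {a : G}
    (ha : a ∈ normalizer (Y : Set G)) (har : IsPiElt {r} a) (hY : ¬ r ∣ Nat.card Y) :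
    r ∣ (Y ⊓ cent(a)).relIndex Y - 1 := by
  have h := card_modEq_card_inf_centralizer har.isPGroup_zpowers (zpowers_le.2 ha)
  rw [centralizer_zpowers] at h
  have h1 := CL.Grp.card_mul_relIndex (inf_le_left : Y ⊓ cent(a) ≤ Y)
  set i := (Y ⊓ cent(a)).relIndex Y with hi
  have hi0 : i ≠ 0 := by
    intro h0; rw [h0, mul_zero] at h1; exact Nat.card_pos.ne h1
  have h2 : ¬ r ∣ Nat.card ↥(Y ⊓ cent(a)) := fun hd => hY (h1 ▸ hd.mul_right _)
  rw [← h1] at h
  obtain ⟨j, hj⟩ : ∃ j, i = j + 1 := ⟨i - 1, by omega⟩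
  rw [hj] at h ⊢
  have h3 : r ∣ Nat.card ↥(Y ⊓ cent(a)) * j := by
    rw [mul_add, mul_one] at h
    have := (Nat.modEq_iff_dvd' (Nat.le_add_left _ _)).1 h.symm
    rwa [Nat.add_sub_cancel] at this
  exact ((Nat.Prime.dvd_mul hr.out).1 h3).resolve_left h2

theorem kPi_le_cl [Finite G] {π : Set ℕ} {S : Set G} (h : ∀ x : G, IsPiElt π x → ∃ g : G, g * x * g⁻¹ ∈ S) :
    kPi π G ≤ cl S := by
  rw [cl, ← Nat.card_coe_set_eq]
  refine Nat.card_le_card_of_injective (fun C => ⟨C.1, ?_⟩) fun _ _ e => Subtype.ext (Subtype.mk.inj e)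
  obtain ⟨C, hC⟩ := C
  obtain ⟨y, rfl⟩ := ConjClasses.mk_surjective C
  obtain ⟨g, hg⟩ := h y (hC y rfl)
  exact ⟨_, hg, ConjClasses.mk_eq_mk_iff_isConj.2 (isConj_iff.2 ⟨g, rfl⟩).symm⟩

theorem exists_conj_mem_of_hall [Finite G] {π : Set ℕ} {H : Subgroup G} (hH : IsPiHall π H)
    (hn : Group.IsNilpotent H) {x : G} (hx : IsPiElt π x) : ∃ g : G, g * x * g⁻¹ ∈ H := by
  obtain ⟨g, hg⟩ := (hallD_of_isNilpotent_hall hH hn).le_conj hH (K := zpowers x)
    (fun p hp hd => hx p hp (by rwa [Nat.card_zpowers] at hd))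
  exact ⟨g⁻¹, by simpa using (mem_conj_smul_iff g x H).1 (hg (mem_zpowers x))⟩

/-- a `q`-element acting nontrivially on a nilpotent Hall subgroup with smaller primes -/
theorem mul_kPi_le_of_acts [Finite G] {π : Set ℕ} {H : Subgroup G} (hH : IsPiHall π H) (hn : Group.IsNilpotent H)
    {p q : ℕ} [hq : Fact q.Prime] (h : ∀ r : ℕ, r.Prime → r ∣ Nat.card H → p ≤ r ∧ r < q) {a : G}
    (ha : a ∈ normalizer (H : Set G)) (haq : IsPiElt {q} a) (hne : a ∉ centralizer (H : Set G)) :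
    p * kPi π G ≤ Nat.card H := by
  have h1 : kPi π G ≤ cl (H : Set G) := kPi_le_cl fun x hx => exists_conj_mem_of_hall hH hn hx
  have hq' : ¬ q ∣ Nat.card H := fun hd => lt_irrefl _ (h q hq.out hd).2
  have h2 := succ_mul_card_inf_cent_le ha haq hq' hne
  have h3 := mul_cl_diff_cent_le ha haq
  have h4 := cl_le_add_diff (H : Set G) cent(a)
  have h5 := cl_le_ncard ((H : Set G) ∩ cent(a))
  have h6 := ncard_diff_add_card_inf H cent(a)
  rw [← coe_inf, ncard_coe_subgroup] at h5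
  rw [← coe_inf] at h4
  have h7 := CL.Grp.card_mul_relIndex (inf_le_left : H ⊓ cent(a) ≤ H)
  set n := (H ⊓ cent(a)).relIndex H
  set c := Nat.card ↥(H ⊓ cent(a))
  have hc : 0 < c := Nat.card_pos
  have hn1 : q + 1 ≤ n := by
    rw [← h7, mul_comm c] at h2
    exact Nat.le_of_mul_le_mul_right h2 hc
  have hnd : n ∣ Nat.card H := Dvd.intro_left _ h7
  obtain ⟨r, hr, hrn⟩ := Nat.exists_prime_and_dvd (show n ≠ 1 by have := hq.out.two_le; omega)
  obtain ⟨n', hn'⟩ := hrn
  have hr' := h r hr ((Dvd.intro _ hn'.symm).trans hnd)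
  obtain ⟨s, hs, hsn⟩ := Nat.exists_prime_and_dvd (show n' ≠ 1 by rintro rfl; omega)
  have hs' := h s hs ((hsn.trans (Dvd.intro_left _ hn'.symm)).trans hnd)
  have hn0 : 0 < n' := Nat.pos_of_ne_zero (by rintro rfl; omega)
  have h8 : p * p ≤ n := hn' ▸ Nat.mul_le_mul hr'.1 (hs'.1.trans (Nat.le_of_dvd hn0 hsn))
  have h9 : p + 1 ≤ q := by omega
  set d := cl ((H : Set G) \ cent(a))
  have h10 : (p + 1) * d + c ≤ c * n := by
    have := Nat.mul_le_mul_right d h9
    omega
  have h11 : p * (d + c) ≤ c * n := by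
    rcases Nat.eq_zero_or_pos p with rfl | hp0
    · simp
    refine Nat.le_of_mul_le_mul_left ?_ (show 0 < p + 1 by omega)
    have := Nat.mul_le_mul_left p h10
    have := Nat.mul_le_mul_left c h8
    nlinarith
  rw [← h7]
  exact (Nat.mul_le_mul_left p (by omega)).trans h11

end CL.Fgs.ManyPi
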