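/-
Many classes of π-elements (helper6), part 2: if `k_π(G) > |G|_π / p` for the least prime `p` of `π`, then `G` has
a nilpotent Hall π-subgroup.
-/
import Cfsg.Agent.Fgs.ManyPi1
import Cfsg.Agent.Grp.Hall2
import Cfsg.Agent.Grp.SZConj
import Cfsg.Agent.Grp.Fitting

set_option autoImplicit false

namespace CL.Fgs.ManyPi

open Subgroup Cfsg CL.Fgs CL.Grp
open scoped Pointwise

universe u

variable {G : Type*} [Group G]

theorem card_eq_of_hall [Finite G] {π : Set ℕ} {a b : ℕ} (h : Nat.card G = a * b) (ha : IsPiNum π a)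
    (hb : IsPiNum πᶜ b) {H : Subgroup G} (hH : IsPiHall π H) : Nat.card H = a :=
  Nat.dvd_antisymm (IsPiNum.dvd_of_dvd_mul hH.1 hb (h ▸ card_subgroup_dvd_card H))
    (ha.dvd_of_dvd_mul (b := H.index) (fun q hq hd hq' => hH.2 q hq hq' hd)
      (by rw [H.card_mul_index, h]; exact Dvd.intro _ rfl))

theorem hall_of_card_eq [Finite G] {π : Set ℕ} {a b : ℕ} (h : Nat.card G = a * b) (ha : IsPiNum π a)
    (hb : IsPiNum πᶜ b) {H : Subgroup G} (hH : Nat.card H = a) : IsPiHall π H := by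
  have h1 := H.card_mul_index
  rw [hH, h] at h1
  have h2 := Nat.eq_of_mul_eq_mul_left (hH ▸ Nat.card_pos) h1
  exact ⟨hH ▸ ha, fun q hq hq' hd => hb q hq (h2 ▸ hd) hq'⟩

/-- the refined bound in the centralizer of an element centralizing a Hall subgroup -/
theorem two_mul_kPi_le [Finite G] {σ : Set ℕ} {p q m b n : ℕ} [hq : Fact q.Prime] (Q : Sylow q G)
    (hG : Nat.card G = m * b) (hm : IsPiNum σ m) (hb : IsPiNum σᶜ b) (hqσ : q ∉ σ) (hp : 2 ≤ p) (hpq : p < q)
    (hr : ∀ r : ℕ, r.Prime → r ∣ m → p ≤ r ∧ r < q) {H : Subgroup G} (hH : IsPiHall σ H) (hn : Group.IsNilpotent H)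
    {Q0 : Subgroup G} (h0 : IsPGroup q Q0) (h0H : Q0 ≤ centralizer (H : Set G))
    (hc : Nat.card Q0 * n = Nat.card (Q : Subgroup G)) (hqn : q ≤ n)
    (hmax : ∀ U : Subgroup G, IsPGroup q U → U ≤ centralizer (H : Set G) →
      Nat.card U ≠ Nat.card (Q : Subgroup G)) : 2 * p * kPi σ G ≤ (n + 1) * m := by
  by_contra hlt
  push Not at hlt
  have hm0 : m ≠ 0 := by rintro rfl; exact Nat.card_pos.ne' (by simpa using hG)
  have hk : kPi σ G ≤ m := kPi_le_of_dvd (dvd_of_eq hG) hm0 hb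
  have hnp : n + 1 < 2 * p := by
    by_contra h
    exact absurd (Nat.mul_le_mul (not_lt.1 h) hk) (not_le.2 hlt)
  obtain ⟨⟨N, hN, hN1, hN2⟩, -⟩ := exists_normal_pi_complement_abelian_hall (G := G) σ fun r hr' hrσ R => by
    refine normalizer_le_centralizer_of_kPi R ?_
    obtain ⟨j, hj⟩ := R.isPGroup'.exists_card_eq
    have hRσ : IsPiNum {r} (Nat.card (R : Subgroup G)) := hj ▸ isPiNum_singleton_pow hr'.out j
    obtain ⟨t, ht⟩ : Nat.card (R : Subgroup G) ∣ m :=
      (hRσ.mono (Set.singleton_subset_iff.2 hrσ)).dvd_of_dvd_mul hb (hG ▸ card_subgroup_dvd_card _)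
    by_cases hrm : r ∣ m
    · have h1 : kPi σ G ≤ kPi {r} G * t := kPi_le_kPi_mul_of_dvd (b := Nat.card (R : Subgroup G) * b)
        (Set.singleton_subset_iff.2 hrσ) (dvd_of_eq (by rw [hG, ht]; ring)) (by rintro rfl; simp [hm0] at ht)
        (IsPiNum.mul (fun x hx hd hx' => hx'.2 (hRσ x hx hd)) fun x hx hd hx' => hb x hx hd hx'.1)
      have h2 := hr r hr'.out hrm
      refine Nat.lt_of_mul_lt_mul_right (a := t) ?_
      calc (r + 1) * Nat.card (R : Subgroup G) * t = (r + 1) * m := by rw [ht, mul_assoc]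
        _ ≤ (n + 1) * m := Nat.mul_le_mul_right _ (by omega)
        _ < 2 * p * kPi σ G := hlt
        _ ≤ 2 * r * (kPi {r} G * t) := Nat.mul_le_mul (by omega) h1
        _ = _ := by ring
    · have h1 : Nat.card (R : Subgroup G) = 1 := by
        rcases Nat.eq_zero_or_pos j with rfl | hj0
        · simpa using hj
        · exact absurd ((dvd_pow_self r hj0.ne').trans (hj ▸ Dvd.intro _ ht.symm)) hrm
      have := kPi_pos (G := G) {r}
      have := hr'.out.two_le
      rw [h1]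
      nlinarith
  have hle : ∀ U : Subgroup G, IsPGroup q U → U ≤ N := fun U hU x hx =>
    IsPiElt.mem_of_index (π := σᶜ) (by rwa [compl_compl])
      ((isPiElt_singleton_of_mem hU hx).mono (Set.singleton_subset_iff.2 hqσ))
  obtain ⟨Q1, hQ1, h01, hH1⟩ := exists_isSylowIn_ge_le_normalizer (A := H) (K := N) (p := q)
    (by rw [normalizer_eq_top]; exact le_top) (IsPiNum.coprime hH.1 hN1) (Or.inl inferInstance) (hle _ h0) h0
    ((le_centralizer_iff.1 h0H).trans (centralizer_le_normalizer _))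
  have hc1 : Nat.card Q1 = Nat.card (Q : Subgroup G) := hQ1.card_eq (isSylowIn_of_le Q (hle _ Q.2))
  obtain ⟨h, hh, hh1⟩ : ∃ h ∈ H, h ∉ centralizer (Q1 : Set G) := by
    by_contra hc'
    push Not at hc'
    exact hmax Q1 hQ1.isPGroup (le_centralizer_iff.1 hc') hc1
  obtain ⟨r, hr1, hrd, hr2⟩ := exists_piPart_not_mem hh1
  have := Fact.mk hr1
  have hrm : r ∣ m := card_eq_of_hall hG hm hb hH ▸ hrd.trans (orderOf_dvd_natCard H hh)
  have h2 := hr r hr1 hrm
  obtain ⟨j, hj⟩ := hQ1.isPGroup.exists_card_eq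
  have h3 := dvd_relIndex_sub_one (hH1 (piPart_mem hh)) (isPiElt_piPart {r} h) (fun hd => by
    rw [hj] at hd
    exact h2.2.ne ((Nat.prime_dvd_prime_iff_eq hr1 hq.out).1 (hr1.dvd_of_dvd_pow hd)))
  set n' := (Q1 ⊓ cent(piPart {r} h)).relIndex Q1
  have hn1 : n' ≠ 1 := fun h0 => hr2 (le_cent_iff.1 ((relIndex_eq_one.1 h0).trans inf_le_right))
  have hn2 : Q0.relIndex Q1 = n := by
    have := card_mul_relIndex h01
    rw [hc1, ← hc] at this
    exact Nat.eq_of_mul_eq_mul_left Nat.card_pos this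
  have hn3 : n' ∣ n := hn2 ▸ relIndex_dvd_of_le_left _
    (le_inf h01 fun x hx => mem_cent.2 (h0H hx _ (piPart_mem hh)).symm)
  have hn4 : n' ≤ n := Nat.le_of_dvd (by have := hq.out.two_le; omega) hn3
  have hodd : Odd n' := by
    refine Odd.of_dvd_nat ?_ (hj ▸ relIndex_dvd_card _ _)
    exact (hq.out.odd_of_ne_two (by omega)).pow
  rcases hr1.eq_two_or_odd' with rfl | hro
  · omega
  · have h4 : 2 * r ∣ n' - 1 := (Nat.coprime_two_left.2 hro).mul_dvd_of_dvd_of_dvd
      (Nat.Odd.sub_odd hodd odd_one).two_dvd h3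
    have := Nat.le_of_dvd (by have := hodd.pos; omega) h4
    omega

/-- centralizers with many classes contain a nilpotent Hall subgroup -/
def Big (σ : Set ℕ) (p m : ℕ) (G : Type*) [Group G] : Prop :=
  ∀ y : G, m < p * kPi σ cent(y) → ∃ K : Subgroup G, IsPiHall σ K ∧ K ≤ cent(y)

theorem Big.conj [Finite G] {σ : Set ℕ} {p q m : ℕ} [Fact q.Prime] (hB : Big σ p m G) {H : Subgroup G}
    (hH : IsPiHall σ H) (hn : Group.IsNilpotent H) {Q0 : Subgroup G}
    (h0 : IsSylowIn q Q0 (centralizer (H : Set G))) (y : G) (hy : IsPiElt {q} y) :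
    p * kPi σ cent(y) ≤ m ∨ ∃ g : G, g * y * g⁻¹ ∈ Q0 := by
  refine or_iff_not_imp_left.2 fun h => ?_
  obtain ⟨K, hK, hKy⟩ := hB y (not_le.1 h)
  obtain ⟨g, rfl⟩ := (hallD_of_isNilpotent_hall hH hn).conj hK hH
  have h1 : g * y * g⁻¹ ∈ centralizer ((MulAut.conj g • K : Subgroup G) : Set G) := by
    rw [centralizer_conj_smul]
    exact conj_mem_conj_smul g (le_cent_iff.1 hKy)
  obtain ⟨c, -, hc⟩ := h0.exists_conj_le (hy.conj g).isPGroup_zpowers (zpowers_le.2 h1)
  exact ⟨c * g, by simpa [mul_assoc] using hc (conj_mem_conj_smul c (mem_zpowers _))⟩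

/-- the main counting step -/
theorem sylow_le_centralizer [Finite G] {π : Set ℕ} {p q m b : ℕ} [hq : Fact q.Prime] (hqπ : q ∈ π) (hp : 2 ≤ p)
    (hpq : p < q) (hG : Nat.card G = m * b) (hm : IsPiNum (π \ {q}) m) (hb : IsPiNum (π \ {q})ᶜ b)
    (hr : ∀ r : ℕ, r.Prime → r ∣ m → p ≤ r ∧ r < q) (hB : Big (π \ {q}) p m G) {H : Subgroup G}
    (hH : IsPiHall (π \ {q}) H) (hn : Group.IsNilpotent H) (Q : Sylow q G)
    (h0 : IsSylowIn q ((Q : Subgroup G) ⊓ centralizer (H : Set G)) (centralizer (H : Set G)))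
    (hres : pResidual q G = ⊤ ∨ (Q : Subgroup G) ≤ normalizer (H : Set G))
    (hk : Nat.card (Q : Subgroup G) * m < p * kPi π G) : (Q : Subgroup G) ≤ centralizer (H : Set G) := by
  by_contra hne
  set Q0 := (Q : Subgroup G) ⊓ centralizer (H : Set G) with hQ0
  have hm0 : m ≠ 0 := by rintro rfl; exact Nat.card_pos.ne' (by simpa using hG)
  have hsub : ({q} : Set ℕ) ⊆ π := Set.singleton_subset_iff.2 hqπ
  have hT : ∀ y ∈ (Q0 : Set G), IsPiElt {q} y := fun y hy => isPiElt_singleton_of_mem h0.isPGroup hy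
  have hsmall := hB.conj hH hn h0
  have hkm : ∀ y : G, kPi (π \ {q}) cent(y) ≤ m := fun y =>
    kPi_le_of_dvd ((card_subgroup_dvd_card _).trans (dvd_of_eq hG)) hm0 hb
  have hc := card_mul_relIndex (inf_le_left : Q0 ≤ Q)
  set n := Q0.relIndex Q
  obtain ⟨j, hj⟩ := Q.isPGroup'.exists_card_eq
  have hqn : q ≤ n := by
    obtain ⟨i, -, hi⟩ := (Nat.dvd_prime_pow hq.out).1 (hj ▸ Dvd.intro_left _ hc)
    rw [hi]
    refine Nat.le_self_pow ?_ _
    rintro rfl
    exact hne ((relIndex_eq_one.1 hi).trans inf_le_right)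
  have hcl : cl (Q0 : Set G) ≤ Nat.card Q0 := ncard_coe_subgroup Q0 ▸ cl_le_ncard _
  have hc0 : 0 < Nat.card Q0 := Nat.card_pos
  by_cases hab : IsMulCommutative (Q : Subgroup G)
  swap
  · have h1 := split hsub Q0 hT hsmall fun y _ => Nat.mul_le_mul_left p (hkm y)
    have h2 : q ^ 3 * Nat.card (ConjClasses (Q : Subgroup G)) ≤ Nat.card (Q : Subgroup G) * (q ^ 2 + q - 1) :=
      not_lt.1 fun h => hab (comm_of_classes hq.out.two_le (fun r hr hd =>
        ((Nat.prime_dvd_prime_iff_eq hr hq.out).1 (hr.dvd_of_dvd_pow (hj ▸ hd))).ge) h)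
    have h3 := kPi_singleton_le_conjClasses_sylow Q
    set c := cl (Q0 : Set G)
    set kq := kPi {q} G
    have h4 : Nat.card (Q : Subgroup G) + c < p * c + kq := by
      refine Nat.lt_of_mul_lt_mul_right (a := m) ?_
      nlinarith
    obtain ⟨s, rfl⟩ := Nat.exists_eq_add_of_le hp
    obtain ⟨t, ht⟩ := Nat.exists_eq_add_of_lt hpq
    have e1 : q ^ 2 + q - 1 + 1 = q ^ 2 + q := Nat.sub_add_cancel (by omega)
    have h5 : q * c ≤ Nat.card (Q : Subgroup G) := by rw [← hc, mul_comm]; exact Nat.mul_le_mul hcl hqn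
    have h6 : q ^ 3 * kq + Nat.card (Q : Subgroup G) ≤ Nat.card (Q : Subgroup G) * (q ^ 2 + q) := by
      rw [← e1, mul_add, mul_one]
      exact Nat.add_le_add_right ((Nat.mul_le_mul_left _ h3).trans h2) _
    set a := Nat.card (Q : Subgroup G)
    have h7 : q ^ 3 * a < q ^ 3 * ((1 + s) * c + kq) := Nat.mul_lt_mul_of_pos_left (by nlinarith) (pow_pos hq.out.pos 3)
    have h8 : q ^ 3 * ((1 + s) * c) ≤ (1 + s) * q ^ 2 * a := by
      have := Nat.mul_le_mul_left ((1 + s) * q ^ 2) h5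
      nlinarith
    have h9 : q ^ 3 * a = (s + t + 3) * q ^ 2 * a := by rw [ht]; ring
    have h10 : q * a ≤ q ^ 2 * a := Nat.mul_le_mul_right _ (Nat.le_self_pow two_ne_zero q)
    nlinarith [Nat.zero_le (t * q ^ 2 * a)]
  have hQy : ∀ y ∈ Q0, (Q : Subgroup G) ≤ cent(y) := fun y hy x hx =>
    mem_cent.2 (congrArg Subtype.val (hab.is_comm.comm ⟨x, hx⟩ ⟨y, hy.1⟩))
  have hHy : ∀ y ∈ Q0, H ≤ cent(y) := fun y hy => le_cent_iff.2 hy.2
  have hcH := card_eq_of_hall hG hm hb hH
  rcases hres with hres | hres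
  · have hB2 : ∀ y ∈ (Q0 : Set G), 2 * p * kPi (π \ {q}) cent(y) ≤ (n + 1) * m := by
      intro y hy
      have hH' := isPiHall_subgroupOf_of_le hH (hHy y hy)
      have e1 : Nat.card (H.subgroupOf cent(y)) = m := by
        rw [Nat.card_congr (subgroupOfEquivOfLe (hHy y hy)).toEquiv, hcH]
      have e2 : Nat.card ((Q.subtype (hQy y hy) : Sylow q cent(y)) : Subgroup cent(y)) =
          Nat.card (Q : Subgroup G) := Nat.card_congr (subgroupOfEquivOfLe (hQy y hy)).toEquiv
      refine two_mul_kPi_le (Q.subtype (hQy y hy)) (b := (H.subgroupOf cent(y)).index)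
        (by rw [← e1, card_mul_index]) hm (fun r hr hd hr' => hH'.2 r hr hr' hd) (fun h => h.2 rfl) hp hpq hr hH'
        (isNilpotent_subgroupOf hn _) (Q0 := Q0.subgroupOf cent(y)) (h0.isPGroup.comap_subtype)
        (fun x hx z hz => Subtype.ext (hx.2 z hz)) ?_ hqn fun U hU hUH e => ?_
      · rw [e2, ← hc, Nat.card_congr (subgroupOfEquivOfLe (inf_le_left.trans (hQy y hy))).toEquiv]
      · have h1 := h0.card_le (hU.map cent(y).subtype) (by
          rintro _ ⟨x, hx, rfl⟩ z hz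
          exact congrArg Subtype.val (hUH hx ⟨z, hHy y hy hz⟩ hz))
        rw [card_subtype, e, e2, ← hc] at h1
        have := hq.out.two_le
        nlinarith
    have h1 := split (u := 2 * p) (v := 2 * m) hsub Q0 hT (fun y hy => (hsmall y hy).imp_left fun h => by
      rw [mul_assoc]; exact Nat.mul_le_mul_left 2 h) hB2
    set S : Set G := {x | x ∈ (Q : Subgroup G) ∧ ¬ ∃ g : G, g * x * g⁻¹ ∈ Q0}
    have h2 : kPi {q} G ≤ cl (Q0 : Set G) + cl S := by
      refine (kPi_le_cl fun x hx => ?_).trans (cl_union_le _ _)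
      by_cases h : ∃ g : G, g * x * g⁻¹ ∈ Q0
      · exact h.imp fun g hg => Or.inl hg
      · obtain ⟨g, hg⟩ := hx.exists_conj_mem_sylow Q
        exact ⟨g, Or.inr ⟨hg, fun ⟨g', hg'⟩ => h ⟨g' * g, by simpa [mul_assoc] using hg'⟩⟩⟩
    have h3 : 2 * cl S ≤ S.ncard := by
      refine two_mul_cl_le fun x hx => ?_
      by_contra hc'
      push Not at hc'
      have hfix : ∀ g ∈ normalizer ((Q : Subgroup G) : Set G), g * x * g⁻¹ = x := fun g hg => by
        by_contra h
        exact hc' _ ⟨(mem_normalizer_iff.1 hg x).1 hx.1, fun ⟨g', hg'⟩ => hx.2 ⟨g' * g, by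
          simpa [mul_assoc] using hg'⟩⟩ h (isConj_iff.2 ⟨g, rfl⟩)
      have hx1 : x ∈ commutator G :=
        focalSubgroup_le_commutator _ ((focalSubgroup_eq_of_pResidual_eq_top hres Q).ge hx.1)
      have h4 := CL.Transfer.pow_index_mem_commutator (Q : Subgroup G) hx.1 hx1 fun k g hg => by
        obtain ⟨a, ha, e⟩ := CL.Transfer.fusion_normalizer_of_comm Q hab (x ^ k) (pow_mem hx.1 k) g⁻¹
          (by rw [inv_inv]; exact hg)
        rw [inv_inv] at e
        rw [← e, ← conj_pow, hfix a ha]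
      rw [commutator_eq_bot_iff_le_centralizer.2 (Subgroup.le_centralizer (Q : Subgroup G))] at h4
      have h5 : x = 1 := (isPiElt_singleton_of_mem Q.2 hx.1).eq_one (isPiElt_of_pow_eq_one
        ((isPiNum_compl_singleton_iff hq.out).2 Q.not_dvd_index) h4)
      exact hx.2 ⟨1, by rw [h5]; simpa using one_mem Q0⟩
    have h4 : S.ncard + Nat.card Q0 ≤ Nat.card (Q : Subgroup G) := by
      have := ncard_diff_add_card_inf (Q : Subgroup G) Q0
      rw [inf_of_le_right (inf_le_left : Q0 ≤ Q)] at this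
      rw [← this]
      refine Nat.add_le_add_right (Set.ncard_le_ncard (fun x hx => ?_) (Set.toFinite _)) _
      exact ⟨hx.1, fun h => hx.2 ⟨1, by simpa using h⟩⟩
    have h5 := Nat.mul_le_mul_left ((n + 1) * m) hcl
    have h6 := Nat.mul_le_mul_left (2 * m) h2
    have h7 := Nat.mul_le_mul_left m (show 2 * cl S + Nat.card Q0 ≤ Nat.card Q0 * n by rw [hc]; omega)
    rw [← hc] at hk
    nlinarith
  · obtain ⟨a, ha, ha1⟩ := SetLike.not_le_iff_exists.1 hne
    have h1 := split (u := p) (v := m) (B := m) hsub Q0 hT hsmall fun y (hy : y ∈ Q0) => by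
      have e1 : Nat.card (H.subgroupOf cent(y)) = m := by
        rw [Nat.card_congr (subgroupOfEquivOfLe (hHy y hy)).toEquiv, hcH]
      rw [← e1]
      refine mul_kPi_le_of_acts (q := q) (isPiHall_subgroupOf_of_le hH (hHy y hy)) (isNilpotent_subgroupOf hn _)
        (e1 ▸ hr) (a := ⟨a, hQy y hy ha⟩) (fun x => mem_normalizer_iff.1 (hres ha) x)
        (isPiElt_coe_iff.1 (isPiElt_singleton_of_mem Q.2 ha)) fun h => ha1 fun z hz =>
          congrArg Subtype.val (h ⟨z, hHy y hy hz⟩ hz)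
    have h2 := Nat.mul_le_mul_left m (kPi_singleton_le Q)
    nlinarith

/-- Frattini step: a nilpotent Hall π-subgroup of a normal subgroup of `q`-power index -/
theorem exists_sylow_le_normalizer [Finite G] {π : Set ℕ} {q : ℕ} [hq : Fact q.Prime] (hqπ : q ∈ π) {H R : Subgroup G}
    [R.Normal] (hH : IsPiHall (π \ {q}) H) (hn : Group.IsNilpotent H) (hHR : H ≤ R) {X : Subgroup R}
    (hX : IsPiHall π X) (hXn : Group.IsNilpotent X) :
    ∃ Q : Sylow q G, (Q : Subgroup G) ≤ normalizer (H : Set G) := by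
  refine exists_sylow_le_of_not_dvd_index ?_
  have hH' := isPiHall_subgroupOf_normal hH R
  have hF : normalizer (H : Set G) ⊔ R = ⊤ := by
    refine eq_top_iff.2 fun g _ => ?_
    obtain ⟨r, hr⟩ := (hallD_of_isNilpotent_hall hH' (isNilpotent_subgroupOf hn _)).conj
      (isPiHall_subgroupOf_normal (isPiHall_conj hH g) R) hH'
    have h1 := congrArg (map R.subtype) hr
    have h2 : MulAut.conj g • H ≤ R := (conj_smul_le_iff _ _ _).2 fun x hx => Normal.conj_mem inferInstance _ (hHR hx) g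
    rw [map_conj_smul, subgroupOf_map_subtype, subgroupOf_map_subtype, inf_of_le_left h2, inf_of_le_left hHR,
      conj_smul_conj_smul, conj_smul_eq_self_iff] at h1
    rw [sup_comm, ← inv_mul_cancel_left (r : G) g]
    exact mul_mem_sup (inv_mem r.2) h1
  rw [← relIndex_top_right, ← hF, relIndex_sup_normal_left]
  obtain ⟨g, hg⟩ := (hallD_of_isNilpotent_hall hX hXn).le_conj hX (K := H.subgroupOf R)
    fun r hr hd => (hH'.1 r hr hd).1
  have hY := isPiHall_conj hX g
  have hYn : Group.IsNilpotent (MulAut.conj g • X : Subgroup R) := by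
    rw [conj_smul_eq_map]; exact isNilpotent_map hXn _
  set Y := MulAut.conj g • X
  obtain ⟨S, hS⟩ := exists_isSylowIn (p := q) Y
  have h1 : S ≤ (normalizer (H : Set G)).subgroupOf R := fun x hx => centralizer_le_normalizer _ fun z hz => by
    have h2 : Commute (⟨x, hS.le hx⟩ : Y) ⟨⟨z, hHR hz⟩, hg hz⟩ := by
      refine commute_of_coprime_orderOf_of_isNilpotent (IsPiElt.coprime (π := {q}) ?_ ?_)
      · exact isPiElt_coe_iff.1 (isPiElt_singleton_of_mem hS.isPGroup hx)
      · exact isPiElt_coe_iff.1 (isPiElt_coe_iff.1 ((isPiElt_of_mem hH.1 hz).mono fun r hr => hr.2))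
    exact (congrArg (fun w : Y => ((w : R) : G)) h2.eq).symm
  intro hd
  have h2 : q ∣ S.relIndex Y * Y.index := by
    rw [relIndex_mul_index hS.le]
    exact hd.trans (index_dvd_of_le h1)
  exact ((Nat.Prime.dvd_mul hq.out).1 h2).elim hS.not_dvd (hY.2 q hq.out hqπ)

theorem main (m : ℕ) : ∀ (π : Set ℕ) (G : Type u) [Group G] [Finite G] (b p : ℕ), Nat.card G = m * b →
    IsPiNum π m → IsPiNum πᶜ b → 2 ≤ p → (∀ r : ℕ, r.Prime → r ∣ m → p ≤ r) → m < p * kPi π G →
    ∃ H : Subgroup G, IsPiHall π H ∧ Group.IsNilpotent H := by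
  induction m using Nat.strong_induction_on with
  | _ m ih =>
    intro π G _ _ b p hG hm hb hp hr hk
    have hm0 : m ≠ 0 := by rintro rfl; exact Nat.card_pos.ne' (by simpa using hG)
    by_cases h1 : m = 1
    · exact ⟨⊥, hall_of_card_eq hG hm hb (by rw [h1, card_bot]), inferInstance⟩
    have hne : m.primeFactors.Nonempty := Nat.nonempty_primeFactors.2 (by omega)
    obtain ⟨hq, hqm, -⟩ := Nat.mem_primeFactors.1 (m.primeFactors.max'_mem hne)
    have hmax : ∀ r : ℕ, r.Prime → r ∣ m → r ≤ m.primeFactors.max' hne := fun r hr hd =>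
      m.primeFactors.le_max' r (Nat.mem_primeFactors.2 ⟨hr, hd, hm0⟩)
    generalize m.primeFactors.max' hne = q at hq hqm hmax
    have := Fact.mk hq
    have hqπ := hm q hq hqm
    obtain ⟨a, m', rfl, ha, hm'⟩ := exists_piNum_mul {q} hm0
    have hb' : IsPiNum {q}ᶜ (m' * b) := hm'.mul fun r hr hd e => hb r hr hd (Set.mem_singleton_iff.1 e ▸ hqπ)
    have hQ : ∀ Q : Sylow q G, Nat.card (Q : Subgroup G) = a := fun Q =>
      card_eq_of_hall (by rw [hG, mul_assoc]) ha hb' (isPiHall_sylow Q)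
    have hσ : IsPiNum (π \ {q}) m' := fun r hr hd => ⟨hm r hr (hd.mul_left _), hm' r hr hd⟩
    have hσ' : IsPiNum (π \ {q})ᶜ (a * b) :=
      IsPiNum.mul (fun r hr hd h => h.2 (ha r hr hd)) fun r hr hd h => hb r hr hd h.1
    have hG' : Nat.card G = m' * (a * b) := by rw [hG]; ring
    by_cases h2 : m' = 1
    · obtain ⟨Q⟩ : Nonempty (Sylow q G) := inferInstance
      exact ⟨Q, hall_of_card_eq hG hm hb (by rw [hQ, h2, mul_one]), Q.isPGroup'.isNilpotent⟩
    have hr' : ∀ r : ℕ, r.Prime → r ∣ m' → p ≤ r ∧ r < q := fun r hr1 hd =>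
      ⟨hr r hr1 (hd.mul_left _), lt_of_le_of_ne (hmax r hr1 (hd.mul_left _)) (hm' r hr1 hd)⟩
    have hpq : p < q := by
      obtain ⟨r, hr1, hd⟩ := Nat.exists_prime_and_dvd h2
      exact (hr' r hr1 hd).1.trans_lt (hr' r hr1 hd).2
    have hm'0 : m' ≠ 0 := right_ne_zero_of_mul hm0
    have ha1 : 1 < a := by
      have : q ∣ a := by
        simpa using (isPiNum_singleton_pow hq 1).dvd_of_dvd_mul hm' (a := a) (by simpa using hqm)
      exact hq.one_lt.trans_le (Nat.le_of_dvd (Nat.pos_of_ne_zero (left_ne_zero_of_mul hm0)) this)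
    have hB' : ∀ y : G, m' < p * kPi (π \ {q}) cent(y) →
        ∃ K : Subgroup G, IsPiHall (π \ {q}) K ∧ Group.IsNilpotent K ∧ K ≤ cent(y) := by
      intro y hy
      obtain ⟨m1, b1, e, h3, h4⟩ := exists_piNum_mul (π \ {q}) (Nat.card_pos (α := cent(y))).ne'
      obtain ⟨t, ht⟩ : m1 ∣ m' := h3.dvd_of_dvd_mul hσ'
        ((Dvd.intro _ e.symm).trans (hG' ▸ card_subgroup_dvd_card _))
      have hm1 : m1 ≠ 0 := left_ne_zero_of_mul (ht ▸ hm'0)
      have h5 : kPi (π \ {q}) cent(y) ≤ m1 := kPi_le_of_dvd (dvd_of_eq e) hm1 h4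
      obtain rfl : t = 1 := by
        by_contra h6
        obtain ⟨r, hr1, hd⟩ := Nat.exists_prime_and_dvd h6
        have h7 := (hr' r hr1 (ht ▸ hd.mul_left _)).1.trans
          (Nat.le_of_dvd (Nat.pos_of_ne_zero (right_ne_zero_of_mul (ht ▸ hm'0))) hd)
        have := Nat.mul_le_mul h7 h5
        rw [mul_comm t, ← ht] at this
        omega
      rw [mul_one] at ht
      subst ht
      obtain ⟨K, hK, hKn⟩ := ih m' (lt_mul_left (Nat.pos_of_ne_zero hm'0) ha1) _ cent(y) b1 p e h3 h4 hp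
        (fun r h h' => (hr' r h h').1) hy
      exact ⟨K.map cent(y).subtype, hall_of_card_eq hG' hσ hσ' (by rw [card_subtype, card_eq_of_hall e h3 h4 hK]),
        isNilpotent_map hKn _, map_subtype_le _⟩
    have hB : Big (π \ {q}) p m' G := fun y hy => (hB' y hy).imp fun K hK => ⟨hK.1, hK.2.2⟩
    obtain ⟨H, hH, hn⟩ : ∃ H : Subgroup G, IsPiHall (π \ {q}) H ∧ Group.IsNilpotent H := by
      by_contra hc
      obtain ⟨Q⟩ : Nonempty (Sylow q G) := inferInstance
      have h3 := split (u := p) (v := m') (B := 0) (Set.singleton_subset_iff.2 hqπ) (∅ : Set G) (by simp)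
        (fun y _ => Or.inl (not_lt.1 fun h => hc ((hB' y h).imp fun K hK => ⟨hK.1, hK.2.1⟩))) (by simp)
      have h4 := Nat.mul_le_mul_left m' ((kPi_singleton_le Q).trans_eq (hQ Q))
      nlinarith [Nat.zero_le (m' * cl (∅ : Set G))]
    obtain ⟨Q, hQH⟩ : ∃ Q : Sylow q G, (Q : Subgroup G) ≤ centralizer (H : Set G) := by
      by_cases hres : pResidual q G = ⊤
      · obtain ⟨S, hS⟩ := exists_isSylowIn (p := q) (centralizer (H : Set G))
        obtain ⟨Q, rfl⟩ := hS.exists_sylow_inf_eq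
        exact ⟨Q, sylow_le_centralizer hqπ hp hpq hG' hσ hσ' hr' hB hH hn Q hS (Or.inl hres) (by rwa [hQ])⟩
      · have := pResidual_normal (G := G) q
        set R := pResidual q G
        obtain ⟨j, hj⟩ := index_pResidual q G
        have hj1 : 1 < q ^ j := by
          rw [← hj]
          exact lt_of_le_of_ne (Nat.pos_of_ne_zero index_ne_zero_of_finite) fun h => hres (index_eq_one.1 h.symm)
        obtain ⟨a1, b1, e, h3, h4⟩ := exists_piNum_mul π (Nat.card_pos (α := R)).ne'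
        have e1 : Nat.card G = a1 * q ^ j * b1 := by rw [← R.card_mul_index, hj, e]; ring
        have h5 : IsPiNum π (a1 * q ^ j) :=
          h3.mul ((isPiNum_singleton_pow hq j).mono (Set.singleton_subset_iff.2 hqπ))
        have e2 : a * m' = a1 * q ^ j := Nat.dvd_antisymm (hm.dvd_of_dvd_mul h4 (e1 ▸ Dvd.intro _ hG.symm))
          (h5.dvd_of_dvd_mul hb (hG ▸ Dvd.intro _ e1.symm))
        have h6 : kPi π G ≤ kPi π R * q ^ j := (kPi_le_mul π R).trans (Nat.mul_le_mul_left _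
          ((kPi_le_card_conjClasses _).trans ((card_conjClasses_le_card _).trans_eq hj)))
        obtain ⟨X, hX, hXn⟩ := ih a1 (e2 ▸ lt_mul_right (Nat.pos_of_ne_zero (left_ne_zero_of_mul (e2 ▸ hm0))) hj1)
          π R b1 p e h3 h4 hp (fun r h h' => hr r h (e2 ▸ h'.mul_right _)) (by
            refine Nat.lt_of_mul_lt_mul_right (a := q ^ j) ?_
            rw [← e2, mul_assoc]
            exact hk.trans_le (Nat.mul_le_mul_left _ h6))
        obtain ⟨Q, hQH⟩ := exists_sylow_le_normalizer hqπ hH hn (le_pResidual_of_coprime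
          ((Nat.coprime_comm.1 ((Nat.Prime.coprime_iff_not_dvd hq).2 fun hd => (hH.1 q hq hd).2 rfl)))) hX hXn
        exact ⟨Q, sylow_le_centralizer hqπ hp hpq hG' hσ hσ' hr' hB hH hn Q
          ((isSylowIn_of_le Q hQH).inf_of_normalized (centralizer_le_normalizer _)
            (fun g hg => by
              rw [← conj_smul_eq_self_iff] at hg ⊢
              rw [← centralizer_conj_smul, hg])) (Or.inr hQH) (by rwa [hQ])⟩
    have h3 := isPiHall_sup (isPiHall_sylow Q) hH (hQH.trans (centralizer_le_normalizer _))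
    rw [Set.union_diff_cancel (Set.singleton_subset_iff.2 hqπ)] at h3
    exact ⟨_, h3, isNilpotent_sup Q.isPGroup'.isNilpotent hn (hQH.trans (centralizer_le_normalizer _))
      ((le_centralizer_iff.1 hQH).trans (centralizer_le_normalizer _))⟩

/-- the Hall subgroup and its class number -/
theorem exists_hall [Finite G] {π : Set ℕ} {p m : ℕ} (hp : p.Prime) (hmin : ∀ q ∈ π, p ≤ q) (hm : m ∣ Nat.card G)
    (hmπ : IsPiNum π m) (hm' : ∀ q ∈ π, ¬ q ∣ Nat.card G / m) (hk : m < p * kPi π G) :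
    ∃ H : Subgroup G, Nat.card H = m ∧ Group.IsNilpotent H ∧ kPi π G ≤ Nat.card (ConjClasses H) ∧
      ∀ r : ℕ, r.Prime → r ∣ Nat.card H → p ≤ r := by
  have hG := (Nat.mul_div_cancel' hm).symm
  have hb : IsPiNum πᶜ (Nat.card G / m) := fun q _ hd hq => hm' q hq hd
  obtain ⟨H, hH, hn⟩ := main m π G _ p hG hmπ hb hp.two_le (fun r hr hd => hmin r (hmπ r hr hd)) hk
  exact ⟨H, card_eq_of_hall hG hmπ hb hH, hn, (kPi_le_of_forall_conj_mem fun x hx =>
    exists_conj_mem_of_hall hH hn hx).trans (kPi_le_card_conjClasses _), fun r hr hd => hmin r (hH.1 r hr hd)⟩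

end CL.Fgs.ManyPi
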