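/-
A non-cyclic group of order `q²` acting coprimely with abelian fixed-point subgroups: the minimal counterexample
to solvability, invariant Sylow and Hall subgroups.
-/
import Cfsg.Agent.Fgs.TowerB
import Cfsg.Agent.Odd.Wielandt
import Cfsg.Agent.Odd.BG1e

set_option autoImplicit false

open Subgroup Cfsg CL.Odd CL.Grp CL.Fgs
open scoped commutatorElement Pointwise

namespace CL.MartAb

universe u

variable {G : Type u} [Group G] [Finite G] {A K N X Y T P R E V : Subgroup G} {q p r : ℕ} {a b c : G}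

/-- `A` is non-cyclic of order `q²`, acts coprimely on `K`, with abelian fixed-point subgroups. -/
structure Hyp (A K : Subgroup G) (q : ℕ) : Prop where
  hq : q.Prime
  card : Nat.card A = q ^ 2
  nc : ¬ IsCyclic A
  norm : A ≤ N[K]
  cop : (Nat.card A).Coprime (Nat.card K)
  ab : ∀ a ∈ A, a ≠ 1 → IsMulCommutative ↥(K ⊓ C1[a])

/-- A minimal counterexample. -/
structure Min (A K : Subgroup G) (q : ℕ) : Prop extends Hyp A K q where
  nsol : ¬ Group.IsSolvable K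
  sol : ∀ N : Subgroup G, N < K → A ≤ N[N] → Group.IsSolvable N
  simp : ∀ N : Subgroup G, N ≤ K → K ≤ N[N] → A ≤ N[N] → N = ⊥ ∨ N = K

/-- `P` is an `A`-invariant Sylow `p`-subgroup of `K`. -/
structure IS (A K : Subgroup G) (p : ℕ) (P : Subgroup G) : Prop where
  hp : p.Prime
  syl : IsSylowIn p P K
  norm : A ≤ N[P]

namespace Hyp

variable (h : Hyp A K q)
include h

theorem pA : IsPGroup q A := IsPGroup.of_card h.card

theorem abA : IsMulCommutative A := by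
  have := Fact.mk h.hq
  exact IsPGroup.isMulCommutative_of_card_eq_prime_sq h.card

theorem solA : Group.IsSolvable A := sol_of_abelian h.abA

theorem ord (ha : a ∈ A) (h1 : a ≠ 1) : orderOf a = q := by
  have hd : orderOf a ∣ q ^ 2 := h.card ▸ Subgroup.orderOf_dvd_natCard A ha
  obtain ⟨k, hk, e⟩ := (Nat.dvd_prime_pow h.hq).1 hd
  interval_cases k
  · exact absurd (orderOf_eq_one_iff.1 (by simpa using e)) h1
  · simpa using e
  · refine absurd (cyclic_iff.2 ⟨a, Subgroup.eq_of_le_of_card_ge (zpowers_le.2 ha) ?_⟩) h.nc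
    rw [h.card, Nat.card_zpowers, e]

theorem mem_zp (ha : a ∈ A) (hb : b ∈ zpowers a) (h1 : b ≠ 1) : a ∈ zpowers b := by
  obtain ⟨k, rfl⟩ := hb
  have ha1 : a ≠ 1 := by rintro rfl; simp at h1
  exact mem_zpowers_zpow_of_prime (h.ord ha ha1 ▸ h.hq) h1

theorem sup_zp (hb : b ∈ A) (h1 : b ≠ 1) (hc : c ∈ A) (hcb : c ∉ zpowers b) : zpowers b ⊔ zpowers c = A := by
  have hi : ((zpowers b).relIndex A).Prime :=
    (HH.prime_card_and_index h.hq h.hq (by rw [h.card, sq]) (zpowers_le.2 hb) (zpowers_ne_bot.2 h1)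
      fun e => hcb (e ▸ hc)).2
  exact HH.eq_of_prime_index hi le_sup_left (sup_le (zpowers_le.2 hb) (zpowers_le.2 hc))
    fun e => hcb (e (mem_sup_right (mem_zpowers c)))

theorem exists_third {a₁ a₂ : G} (h1 : a₁ ∈ A) (h1' : a₁ ≠ 1) (h2 : a₂ ∈ A) (h2' : a₂ ≠ 1) :
    ∃ c ∈ A, c ∉ zpowers a₁ ∧ c ∉ zpowers a₂ := by
  by_cases e : a₂ ∈ zpowers a₁
  · have : ¬ A ≤ zpowers a₁ := fun e => h.nc (cyclic_of_le (cyclic_zpowers a₁) e)
    obtain ⟨c, hc, hc'⟩ := SetLike.not_le_iff_exists.1 this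
    exact ⟨c, hc, hc', fun e' => hc' (zpowers_le.2 e e')⟩
  · refine ⟨a₁ * a₂, mul_mem h1 h2, fun e' => e ?_, fun e' => e (h.mem_zp h2 ?_ h1')⟩
    · exact (mul_mem_cancel_left (mem_zpowers a₁)).1 e'
    · exact (mul_mem_cancel_right (mem_zpowers a₂)).1 e'

theorem copX (hX : X ≤ K) : (Nat.card A).Coprime (Nat.card X) := coprime_of_le_right h.cop hX

theorem n_c1 (ha : a ∈ A) : A ≤ N[C1[a]] :=
  le_norm_c1_of_le_c1 (le_c1_iff.2 (abelian_iff.1 h.abA ha))

theorem gen (hX : X ≤ K) (hn : A ≤ N[X]) {M : Subgroup G} (hM : ∀ a ∈ A, a ≠ 1 → X ⊓ C1[a] ≤ M) : X ≤ M :=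
  coprime_abelian_gen_cent1 h.abA h.nc hn (h.copX hX) hM

theorem exists_c1 (hX : X ≤ K) (hn : A ≤ N[X]) {M : Subgroup G} (hM : ¬ X ≤ M) :
    ∃ a ∈ A, a ≠ 1 ∧ ¬ X ⊓ C1[a] ≤ M :=
  coprime_abelian_exists_cent1 h.abA h.nc hn (h.copX hX) hM

theorem cent (ha : a ∈ A) (h1 : a ≠ 1) (hX : X ≤ K) (hY : Y ≤ K) (hX' : X ≤ C1[a]) (hY' : Y ≤ C1[a]) :
    X ≤ C[Y] :=
  le_cent_of_abelian (h.ab a ha h1) (le_inf hX hX') (le_inf hY hY')

theorem sub (hX : X ≤ K) (hn : A ≤ N[X]) : Hyp A X q :=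
  ⟨h.hq, h.card, h.nc, hn, h.copX hX, fun a ha h1 => abelian_of_le (h.ab a ha h1) (inf_le_inf_right _ hX)⟩

theorem quo (hN : N ≤ K) (hKN : K ≤ N[N]) (hn : A ≤ N[N]) : Hyp (quo N A) (quo N K) q := by
  have hi : N ⊓ A = ⊥ := inf_eq_bot_of_coprime_card (h.copX hN).symm
  refine ⟨h.hq, (card_quo_of_inf_eq_bot hn hi).trans h.card, fun e => h.nc (cyclic_of_quo hn hi e),
    quo_le_norm N h.norm, coprime_quo h.cop N, fun x hx h1 => ?_⟩
  obtain ⟨a, ha, rfl⟩ := (mem_quo_of_le hn).1 hx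
  have hz : zpowers a ≤ A := zpowers_le.2 ha
  rw [← centralizer_zpowers, ← quo_zpowers (hn ha), coprime_quo_cent (hz.trans h.norm) ⟨hN, hKN⟩ (hz.trans hn)
    (coprime_of_le_left (h.copX hN) hz) (Or.inl (sol_of_le h.solA hz)), centralizer_zpowers]
  exact abelian_quo (h.ab a ha (by rintro rfl; exact h1 (coset_one N))) N

end Hyp

theorem solvable_of_min (H : ∀ (G : Type u) [Group G] [Finite G] (A K : Subgroup G), ¬ Min A K q)
    (h : Hyp A K q) : Group.IsSolvable K := by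
  induction hn : Nat.card K using Nat.strong_induction_on generalizing G with
  | _ n ih =>
  by_contra hs
  have hsub : ∀ N : Subgroup G, N < K → A ≤ N[N] → Group.IsSolvable N := fun N hN hA =>
    ih _ (hn ▸ card_lt_card_of_lt hN) (h.sub hN.le hA) rfl
  refine H G A K ⟨h, hs, hsub, fun N h1 h2 h3 => ?_⟩
  by_contra hc
  push Not at hc
  refine hs (sol_of_quo h2 (hsub N (lt_of_le_of_ne h1 hc.2) h3) (ih _ ?_ (h.quo h1 h2 h3) rfl))
  have e := card_mul_card_quo (N := N) (H := K) ⟨h1, h2⟩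
  have h4 : 1 < Nat.card N := (one_lt_card_iff_ne_bot N).2 hc.1
  have h5 : 0 < Nat.card (quo N K) := Nat.card_pos
  rw [← hn, ← e]
  nlinarith

theorem exists_IS (h : Hyp A K q) (hp : p.Prime) : ∃ P, IS A K p P :=
  (coprime_Sylow_exists hp h.norm h.cop (Or.inl h.solA)).imp fun _ hP => ⟨hp, hP.1, hP.2⟩

/-- Fitting height two gives `p`-length one. -/
theorem le_core_sup_norm (hs : Group.IsSolvable N) (hq : q.Prime) (hA : Nat.card A = q ^ 2) (hn : A ≤ N[N])
    (hc : (Nat.card A).Coprime (Nat.card N)) (hf : N ⊓ C[A] = ⊥) (hp : p.Prime) (hP : IsSylowIn p P N) :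
    N ≤ piCoreOf {p}ᶜ N ⊔ (N ⊓ N[P]) := by
  have := Fact.mk hp
  have h2 : nres^[2] N = ⊥ := by
    have : (N.subgroupOf N[N]).Normal := normal_in_normalizer
    have e := HH.fit_two_of_fpf (K := N.subgroupOf N[N]) (X := A.subgroupOf N[N])
      (Group.isSolvable_of_isSolvable_injective (f := (subgroupOfEquivOfLe le_normalizer).toMonoidHom)
        (MulEquiv.injective _)) hq hq
      (by rw [card_subgroupOf_of_le hn, hA, sq])
      (by rwa [card_subgroupOf_of_le hn, card_subgroupOf_of_le le_normalizer])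
      (eq_bot_iff.2 fun x hx => Subtype.ext (hf.le ⟨hx.1, (mem_cent_subgroupOf hn).1 hx.2⟩))
    have e' := congrArg (Subgroup.map (N[N]).subtype) e
    rwa [map_nres_iter, map_subgroupOf_eq_of_le le_normalizer, Subgroup.map_bot] at e'
  have hD : Group.IsNilpotent (nres N) := nres_eq_bot_iff.1 h2
  have hnD : N ≤ N[nres N] := (le_norm_self N).trans (norm_le_norm_nres N)
  have hq : Group.IsNilpotent (quo (nres N) N) := by
    rw [quo_def, ← nres_le_iff_map, ker_qmk]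
    intro x hx
    have := mem_map_of_mem (N[nres N]).subtype hx
    rwa [map_nres, map_subgroupOf_eq_of_le hnD] at this
  have h3 : N ≤ N[nres N ⊔ P] := nil_quo_hall_norm hnD hq (sylow_hall hP) hnD (le_norm_self N)
  have h4 := sylow_frattini_sup (hP.of_le (K := nres N ⊔ P) le_sup_right (sup_le (nres_le N) hP.le))
    (sup_le (nres_le N) hP.le) h3
  have hO : pCoreOf p (nres N) ≤ P :=
    hP.le_of_normalized (pCoreOf_isPGroup p _) ((pCoreOf_le p _).trans (nres_le N))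
      (NormalIn.pCore p ⟨nres_le N, hnD⟩).2
  have hPP : P ≤ N ⊓ N[P] := le_inf hP.le (le_norm_self P)
  refine h4.ge.trans (sup_le (sup_le ((nil_dp_pCoreOf hp hD).sup_eq.ge.trans (sup_le ?_ ?_)) ?_) le_sup_right)
  · exact (hO.trans hPP).trans le_sup_right
  · exact (le_piCoreOf ((piCoreOf_le _ _).trans (nres_le N)) (NormalIn.piCore _ ⟨nres_le N, hnD⟩).2
      (piCoreOf_isPiSubgroup _ _)).trans le_sup_left
  · exact hPP.trans le_sup_right

namespace Min

variable (h : Min A K q)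
include h

theorem ne_of_sol (hs : Group.IsSolvable X) : X ≠ K := fun e => h.nsol (e ▸ hs)

theorem fpf : K ⊓ C[A] = ⊥ := by
  have h1 : K ≤ C[K ⊓ C[A]] := h.gen le_rfl h.norm fun a ha h1 =>
    h.cent ha h1 inf_le_left inf_le_left inf_le_right (inf_le_right.trans (cent_le_c1 ha))
  refine (h.simp _ inf_le_left (le_norm_of_le_cent h1) (le_norm_inf h.norm (le_norm_cent (le_norm_self A)))).resolve_right
    (h.ne_of_sol (sol_of_abelian (abelian_iff.2 (inf_le_left.trans h1))))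

theorem fpfX (hX : X ≤ K) : X ⊓ C[A] = ⊥ := eq_bot_iff.2 ((inf_le_inf_right _ hX).trans h.fpf.le)

theorem norm_lt (hT : T ≤ K) (hn : A ≤ N[T]) (h0 : T ≠ ⊥) (hs : Group.IsSolvable T) : K ⊓ N[T] < K :=
  lt_of_le_of_ne inf_le_left fun e =>
    (h.simp T hT (inf_eq_left.1 e) hn).elim h0 (h.ne_of_sol hs)

theorem c1_c1 (hb : b ∈ A) (h1 : b ≠ 1) (hc : c ∈ A) (hcb : c ∉ zpowers b) : K ⊓ C1[b] ⊓ C1[c] = ⊥ := by
  rw [inf_assoc, ← centralizer_zpowers, ← centralizer_zpowers, ← cent_sup, h.sup_zp hb h1 hc hcb, h.fpf]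

theorem le_syl (hP : IS A K p P) (hX : X ≤ K) (hn : A ≤ N[X]) (hp : IsPGroup p X) : X ≤ P := by
  obtain ⟨S, h1, h2, h3⟩ := coprime_Sylow_subset hP.hp h.norm h.cop (Or.inl h.solA) hp hX hn
  obtain ⟨c, hc, rfl⟩ := coprime_Sylow_trans hP.hp h.norm h.cop (Or.inl h.solA) h1 hP.syl h2 hP.norm
  rwa [mem_bot.1 (h.fpf.le hc), cj_one]

theorem syl_inf (hP : IS A K p P) (hN : N ≤ K) (hn : A ≤ N[N]) : IsSylowIn p (N ⊓ P) N := by
  have := Fact.mk hP.hp
  obtain ⟨S, h1, h2⟩ := coprime_Sylow_exists hP.hp hn (h.copX hN) (Or.inl h.solA)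
  have h3 : S ≤ N ⊓ P := le_inf h1.le (h.le_syl hP (h1.le.trans hN) h2 h1.isPGroup)
  rwa [h1.eq_of_le (hP.syl.isPGroup.to_le inf_le_right) h3 inf_le_left]

theorem len_one (hP : IS A K p P) (hN : N < K) (hn : A ≤ N[N]) :
    N ≤ piCoreOf {p}ᶜ N ⊔ (N ⊓ N[N ⊓ P]) :=
  le_core_sup_norm (h.sol N hN hn) h.hq h.card hn (h.copX hN.le) (h.fpfX hN.le) hP.hp (h.syl_inf hP hN.le hn)

/-- Wielandt's formula for the Frobenius group `E⟨c⟩`. -/
theorem frob (hb : b ∈ A) (h1 : b ≠ 1) (hc : c ∈ A) (hcb : c ∉ zpowers b) (hE : E ≤ K) (hEb : E ≤ C1[b])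
    (hnE : A ≤ N[E]) (hV : V ≤ K) (hnV : A ≤ N[V]) (hEV : E ≤ N[V]) (hs : Group.IsSolvable V)
    (hco : (Nat.card V).Coprime (Nat.card E)) (hf : V ⊓ C1[c] ≤ C[E]) : E ≤ C[V] := by
  by_cases h0 : E = ⊥
  · exact h0.le.trans bot_le
  have hz : zpowers c ≤ A := zpowers_le.2 hc
  have sd : Sdp E (zpowers c) (E ⊔ zpowers c) :=
    Sdp.of_coprime (hz.trans hnE) (coprime_of_le_left (h.copX hE) hz).symm
  have F : Frob (E ⊔ zpowers c) E (zpowers c) := by
    refine ⟨sd, h0, fun e => hcb ?_, fun x hx hx1 => eq_bot_iff.2 ?_⟩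
    · rw [zpowers_eq_bot.1 e]; exact one_mem _
    · refine (inf_le_inf_right _ (le_inf hE hEb)).trans (h.c1_c1 hb h1 (hz hx) fun e => hcb ?_).le
      exact zpowers_le.2 e (h.mem_zp hc hx hx1)
  have w := F.wielandt (sup_le hEV (hz.trans hnV))
    (by rw [← sd.card]; exact hco.mul_right (coprime_of_le_left (h.copX hV) hz).symm) hs
  have e : V ⊓ C[E ⊔ zpowers c] = V ⊓ C[zpowers c] := by
    rw [cent_sup, centralizer_zpowers]
    exact le_antisymm (inf_le_inf_left _ inf_le_right) (le_inf inf_le_left (le_inf hf inf_le_right))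
  rw [e] at w
  exact le_cent_of_card_inf_cent (Nat.eq_of_mul_eq_mul_left (pow_pos Nat.card_pos _) w).symm

theorem not_pnilp (hP : IS A K p P) (h0 : P ≠ ⊥) : ¬ PNilp p K := fun e => by
  have sd := e.sdp hP.hp hP.syl
  rcases h.simp _ (piCoreOf_le {p}ᶜ K) (le_normalizer_piCoreOf _ K)
    (h.norm.trans (normalizer_le_normalizer_piCoreOf _ K)) with h1 | h1
  · exact h.ne_of_sol (sol_of_isPGroup hP.hp hP.syl.isPGroup) (sd.left_eq_bot_iff.1 h1)
  · exact h0 (sd.right_eq_bot_iff.2 h1)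

/-- No non-trivial invariant Sylow subgroup is centralised by a non-identity element of `A`. -/
theorem not_le_c1 (hP : IS A K p P) (h0 : P ≠ ⊥) (ha : a ∈ A) (h1 : a ≠ 1) : ¬ P ≤ C1[a] := fun e => by
  refine h.not_pnilp hP h0 (Burnside_normal_complement hP.hp hP.syl ?_)
  have hz : zpowers a ≤ A := zpowers_le.2 ha
  have hn : A ≤ N[K ⊓ N[P]] := le_norm_inf h.norm (le_norm_norm hP.norm)
  refine (coprime_cent_prod (hz.trans hn) (coprime_of_le_left (h.copX inf_le_left) hz)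
    (Or.inl (sol_of_le h.solA hz))).ge.trans (sup_le ?_ ?_)
  · refine (commutator_mono inf_le_right (zpowers_le.2 (le_c1_iff.1 e))).trans ?_
    exact comm_le_right (le_norm_cent le_rfl)
  · rw [centralizer_zpowers]
    exact h.cent ha h1 (inf_le_left.trans inf_le_left) hP.syl.le inf_le_right e

end Min

end CL.MartAb
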