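/-
Finite groups with a Sylow subgroup of maximal class: fusion of uniform elements (helper23).
-/
import Cfsg.Agent.Fus.MaxCl3
import Cfsg.Agent.Transfer.Tate
import Cfsg.Agent.Even.Amb2

set_option autoImplicit false

namespace CL.Fgs.MCS

open Cfsg Subgroup CL.Grp CL.Even
open scoped commutatorElement

local notation "γ[" G ", " j "]" => Subgroup.lowerCentralSeries (⊤ : Subgroup G) j

variable {G : Type*} [Group G] [Finite G] {p n : ℕ} [hp : Fact p.Prime]

omit [Finite G] in
theorem uniform_map {G' : Type*} [Group G'] (e : G ≃* G') {s : G} (h : IsUniformElt n s) : IsUniformElt n (e s) :=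
  ⟨fun c => h.1 (by
    have := mem_map_of_mem e.symm.toMonoidHom c
    rwa [map_lowerCentralSeries, map_top_of_surjective _ e.symm.surjective, MulEquiv.coe_toMonoidHom,
      e.symm_apply_apply] at this),
  fun j h1 h2 c => h.2 j h1 h2 ((mem_twoStep_of_surjective (f := e.toMonoidHom) e.surjective
    (((MonoidHom.ker_eq_bot_iff _).2 e.injective).trans_le bot_le)).1 c)⟩

theorem exists_uniform_notMem (h : MaxCl p n G) {M : Subgroup G} (hM : M ≠ ⊤) : ∃ s, s ∉ M ∧ IsUniformElt n s := by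
  have h3 := h.three_le
  have h2 := hp.out.two_le
  obtain ⟨s, hs⟩ := exists_forall_notMem h.isPGroup (fun i => if i = 0 then M else twoStep G (n - 2 - i)) fun i _ => by
    split_ifs
    exacts [hM, twoStep_ne_top h.isPGroup (by rw [h.cl]; omega)]
  refine ⟨s, hs 0 hp.out.pos, fun c => hs 1 hp.out.one_lt (lcs_one_le_twoStep _ c), fun j h1 h2 => ?_⟩
  obtain ⟨d, hd⟩ : ∃ d, j + d = n - 2 := ⟨n - 2 - j, by omega⟩
  induction d using Nat.strong_induction_on generalizing j with
  | _ d ih =>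
    by_cases hdp : d < p
    · have := hs d hdp
      rwa [if_neg (by omega), show n - 2 - d = j by omega] at this
    · exact fun hj => ih (d - (p - 1)) (by omega) (j + (p - 1)) (by omega) (by omega) (by omega)
        (h.twoStep_le h1 (by omega) hj)

theorem uniform_of_mem (h : MaxCl p n G) {E : Subgroup G} (hE : E ≠ ⊤) {s t : G} (hs : IsUniformElt n s) (h1 : s ∈ E)
    (h2 : t ∈ E) (h3 : t ∉ γ[G, 1]) : IsUniformElt n t := ⟨h3, fun j j1 j2 c => by
  obtain ⟨M, _, hM, hi⟩ := exists_normal_index_eq_ge h.isPGroup hE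
  refine hs.2 j j1 j2 ((?_ : M ≤ _) (hM h1))
  rw [Fus.eq_sup_zpowers_of_maxCl h (fun e => hp.out.one_lt.ne (by rw [← hi, e, index_top]))
    (commutator_le_of_index_prime (hi.symm ▸ hp.out)) (hM h2) h3]
  exact sup_le (lcs_one_le_twoStep j) (zpowers_le.2 c)⟩

variable {P : Sylow p G} (h : MaxCl p n P)
include h

theorem uniform_conj {x : G} (hx : ∀ y : P, IsConj x y → y ∉ γ[P, 1]) (m : ℕ) : ∀ E : Subgroup G,
    Nat.card P ≤ Nat.card E + m → E ≤ P → ∀ y : P, y.1 ∈ E → IsConj x y → IsUniformElt n y → ∀ g, cj g E ≤ P →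
      ∀ z : P, z = g * y * g⁻¹ → IsUniformElt n z := by
  have top : ∀ E : Subgroup G, E = P → ∀ y : P, IsUniformElt n y → ∀ g, cj g E ≤ P →
      ∀ z : P, z = g * y * g⁻¹ → IsUniformElt n z := by
    rintro _ rfl y hy g hg z e
    have := uniform_map (normalizerMonoidHom (P : Subgroup G) ⟨g, mem_norm_of_cj_le hg⟩) hy
    rwa [show z = normalizerMonoidHom (P : Subgroup G) ⟨g, mem_norm_of_cj_le hg⟩ y from Subtype.ext e]
  induction m with
  | zero => exact fun E hE h1 y _ _ => top E (eq_of_le_of_card_ge h1 hE) y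
  | succ m ih =>
    intro E hE h1 y y1 y2 y3 g hg z e
    by_cases c : E = P
    · exact top E c y y3 g hg z e
    have lt : ∀ {A B : Subgroup G}, A < B → Nat.card A < Nat.card B := fun l =>
      (card_le_of_le l.le).lt_of_ne fun e => l.ne (eq_of_le_of_card_ge l.le e.ge)
    have a1 := lt_inf_normalizer_pGroup P.isPGroup' (h1.lt_of_ne c)
    have b1 := lt_inf_normalizer_pGroup (isPGroup_cj P.isPGroup' g⁻¹) ((cj_le_iff.1 hg).lt_of_ne fun e =>
      c (eq_of_le_of_card_ge h1 (by rw [e, card_cj])))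
    obtain ⟨S, hS, s1⟩ := exists_isSylowIn_ge (U := P ⊓ 𝒩(E)) P.isPGroup'.to_inf_left inf_le_right
    obtain ⟨a, ha, s2⟩ := syl_conj_le hS (U := cj g⁻¹ P ⊓ 𝒩(E)) (isPGroup_cj P.isPGroup' g⁻¹).to_inf_left inf_le_right
    obtain ⟨k, -, s3⟩ := syl_conj_le (isSylowIn_top P) hS.2.1 le_top
    have k0 : cj k E ≤ P := (cj_mono k (a1.le.trans s1)).trans s3
    have k1 : cj k E < P := k0.lt_of_ne fun e => c (eq_of_le_of_card_ge h1 (by rw [← e, card_cj]))
    have m1 := conj_mem_cj k y1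
    have m2 := conj_mem_cj k (conj_mem ha y1)
    have c2 : IsConj x (k * (a * y * a⁻¹) * k⁻¹) := (y2.trans (isConj_iff.2 ⟨a, rfl⟩)).trans (isConj_iff.2 ⟨k, rfl⟩)
    have u1 := ih _ (by have := lt a1; omega) inf_le_left y (a1.le y1) y2 y3 k ((cj_mono k s1).trans s3) ⟨_, k1.le m1⟩ rfl
    have u2 := uniform_of_mem h (E := (cj k E).subgroupOf P) (fun e => k1.not_ge (subgroupOf_eq_top.1 e)) u1
      (t := ⟨_, k1.le m2⟩) m1 m2 (hx _ c2)
    have v1 : Nat.card P ≤ Nat.card (cj k (cj a (cj g⁻¹ P ⊓ 𝒩(E)))) + m := by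
      have := lt b1; rw [card_cj, card_cj]; omega
    have v2 : cj (g * a⁻¹ * k⁻¹) (cj k (cj a (cj g⁻¹ P ⊓ 𝒩(E)))) ≤ P := by
      rw [cj_mul, cj_inv_cj, cj_mul, cj_inv_cj, cj_le_iff]; exact inf_le_left
    exact ih _ v1 ((cj_mono k s2).trans s3) ⟨_, k1.le m2⟩ (conj_mem_cj k (conj_mem_cj a (b1.le y1))) c2 u2 _ v2 z
      (by rw [e]; group)

theorem factorization_eq_two {x : P} (hu : IsUniformElt n x) (hx : ∀ y : P, IsConj (x : G) y → y ∉ γ[P, 1]) :
    (Nat.card (centralizer ({x.1} : Set G))).factorization p = 2 := by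
  obtain ⟨T, hT, t1⟩ := exists_isSylowIn_ge (U := zpowers x.1) (P.isPGroup'.to_le (zpowers_le.2 x.2))
    (zpowers_le.2 (mem_centralizer_singleton_iff.2 rfl))
  obtain ⟨g, -, hg⟩ := syl_conj_le (isSylowIn_top P) hT.2.1 le_top
  have m := hg (conj_mem_cj g (t1 (mem_zpowers _)))
  have u := uniform_conj h hx _ _ le_add_self (zpowers_le.2 x.2) x (mem_zpowers _) (IsConj.refl _) hu g
    ((cj_mono g t1).trans hg) ⟨_, m⟩ rfl
  refine le_antisymm ((Nat.pow_le_pow_iff_right hp.out.one_lt).1 (le_trans ?_ (h.card_cent_le u))) ?_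
  · rw [← hT.card_eq_pow, ← card_cj g, ← Nat.card_congr (subgroupOfEquivOfLe hg).toEquiv]
    refine card_le_of_le fun t ht => mem_centralizer_singleton_iff.2 (Subtype.ext ?_)
    have := mem_centralizer_singleton_iff.1 (hT.1 (mem_cj.1 ht))
    calc t.1 * (g * x * g⁻¹) = g * (g⁻¹ * t * g * x) * g⁻¹ := by group
      _ = g * x * g⁻¹ * t := by erw [this]; simp [mul_assoc]
  · rw [← hp.out.pow_dvd_iff_le_factorization Nat.card_pos.ne', sq]
    nth_rewrite 2 [← h.card_center]
    have h3 := h.three_le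
    refine (mul_card_dvd_card_of_lt h.isPGroup (K := centralizer {x}) ((center_le_centralizer _).lt_of_ne fun e =>
      hu.1 (lcs_anti (by omega) (h.center_eq.le (e.ge (mem_centralizer_singleton_iff.2 rfl)))))).trans ?_
    rw [← card_subtype]
    refine card_dvd_of_le ?_
    rintro _ ⟨c, hc, rfl⟩
    exact mem_centralizer_singleton_iff.2 (congrArg Subtype.val (mem_centralizer_singleton_iff.1 hc))

variable (hres : ∀ N : Subgroup G, N.Normal → (N.index).Coprime p → N = ⊤)
include hres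

omit h in
theorem eq_top_of_le {N : Subgroup G} [hN : N.Normal] (e : (P : Subgroup G) ≤ N) : N = ⊤ :=
  hres N hN ((hp.out.coprime_iff_not_dvd.2 fun c => P.not_dvd_index (c.trans (index_dvd_of_le e))).symm)

theorem caseB {N : Subgroup G} [hN : N.Normal] (h1 : N ≠ ⊤) (h2 : γ[P, 1] ≤ N.subgroupOf P) :
    ∃ x ∈ (P : Subgroup G), (Nat.card (centralizer ({x} : Set G))).factorization p = 2 := by
  obtain ⟨s, s1, s2⟩ := exists_uniform_notMem h (M := N.subgroupOf P)
    fun e => h1 (eq_top_of_le hres (subgroupOf_eq_top.1 e))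
  refine ⟨s, s.2, factorization_eq_two h s2 fun y hy c => s1 ?_⟩
  obtain ⟨g, hg⟩ := isConj_iff.1 hy.symm
  exact mem_subgroupOf.2 (hg ▸ hN.conj_mem _ (h2 c) g)

theorem cases (hcore : pPrimeCore p G = ⊥) {N : Subgroup G} [hN : N.Normal] (h1 : N ≠ ⊤) :
    (∃ x ∈ (P : Subgroup G), (Nat.card (centralizer ({x} : Set G))).factorization p = 2) ∨
      (N ≤ center G ∧ Nat.card N ≤ p) := by
  by_cases h2 : γ[P, 1] ≤ N.subgroupOf P
  · exact .inl (caseB h hres h1 h2)
  obtain ⟨r, hr⟩ := h.isPGroup.index (N.subgroupOf P)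
  have r3 : 3 ≤ r := by
    by_contra c
    exact h2 (lowerCentralSeries_le_of_index_dvd (p := p) _ (k := 0) (by rw [hr]; exact pow_dvd_pow p (by omega)))
  have e := eq_lowerCentralSeries_of_maxClass h.card h.three_le h.cl _ (by omega) hr
  have NP : N ≤ P := by
    have t := CL.Transfer.inf_pResidual_eq_bot_of_le_frattini P N fun x hx => ⟨⟨x, hx.2⟩,
      h.frattini_eq.ge (lcs_anti (by omega) (e.le hx.1)), rfl⟩
    rw [res_def] at t
    have : (pResidualOf p N).Normal := normalizer_eq_top_iff.1 (top_le_iff.1 (le_norm_res le_normalizer_of_normal))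
    refine (isSylowIn_top P).le_of_normalized (isPGroup_of_res_eq_bot (le_bot_iff.1 (hcore ▸
      le_pPrimeCore_of_not_dvd ?_))) le_top le_normalizer_of_normal
    have := (isSylowIn_inf_normal P (pResidualOf p N)).2.2
    rwa [inf_comm, t, relIndex_bot_left] at this
  have cN : Nat.card N = p ^ (n - r) := by
    rw [← Nat.card_congr (subgroupOfEquivOfLe NP).toEquiv, e, h.card_lcs (by omega)]; congr; omega
  by_cases c : r + 2 ≤ n
  · obtain ⟨s, s1⟩ := MaxCl.exists_isUniformElt n P h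
    refine .inl ⟨s, s.2, factorization_eq_two h s1 fun y hy c' => ?_⟩
    obtain ⟨g, hg⟩ := isConj_iff.1 hy.symm
    have : cj g ((γ[P, n - 3]).map (P : Subgroup G).subtype) ≤ (center P).map (P : Subgroup G).subtype := by
      rintro _ ⟨_, ⟨w, hw, rfl⟩, rfl⟩
      have w1 : g * w * g⁻¹ ∈ N := hN.conj_mem _ (e.ge (lcs_anti (by omega) hw)) g
      refine ⟨⟨_, NP w1⟩, h.mem_center_of_commute s1 (lcs_anti (by omega) (e.le w1)) (Subtype.ext ?_), rfl⟩
      have : w * y = y * w := commutatorElement_eq_one_iff_mul_comm.1 (mem_bot.1 ((h.lcs_eq_bot (by omega)).le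
        (commutator_lowerCentralSeries_le (n - 3) 1 (commutator_mem_commutator hw c'))))
      change g * w * g⁻¹ * s = s * (g * w * g⁻¹)
      rw [← hg, conj_mul, conj_mul, ← coe_mul, this, coe_mul]
    have := card_le_of_le this
    rw [card_cj, card_subtype, card_subtype, h.card_center, h.card_lcs (by omega),
      show n - (n - 3 + 1) = 2 by omega] at this
    exact this.not_gt (by simpa using Nat.pow_lt_pow_right hp.out.one_lt one_lt_two)
  · refine .inr ⟨fun x hx => mem_center_iff.2 fun g => ((eq_top_of_le hres (P := P) (N := 𝒞(N)) fun y hy z hz =>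
      (congrArg Subtype.val (mem_center_iff.1 (h.center_eq.ge (lcs_anti (by omega) (e.le (show ⟨z, NP hz⟩ ∈ _ from hz))))
        ⟨y, hy⟩)).symm).ge (mem_top g) x hx).symm, ?_⟩
    rw [cN]
    exact (Nat.pow_le_pow_right hp.out.pos (by omega)).trans_eq (pow_one p)

end CL.Fgs.MCS
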