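/-
The Navarro-Rizo fixed point formula for a coprime action of a `p`-group, and the resulting product formula
for the numbers of conjugates of elements lying in a Sylow subgroup of a `p`-solvable group.
-/
import Cfsg.Agent.Odd.Lift2
import Cfsg.Agent.Loc.PSolv
set_option autoImplicit false

open Cfsg CL.Grp CL.Odd Subgroup
open scoped Pointwise

namespace CL.NavRizo

universe u

/-- The multiplicative Navarro-Rizo identity for a function on subgroups of `P`. -/
def NR (p : ℕ) {P : Type*} [Group P] [Fintype P] (f : Subgroup P → ℕ) : Prop :=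
  ∏ x : P, f (zpowers x) ^ p =
    (∏ x : P, f (zpowers (x ^ p))) * f ⊤ ^ ((p - 1) * Fintype.card P)

section basic
variable {p : ℕ} {P : Type*} [Group P] [Fintype P]

theorem NR.const (hp : 1 ≤ p) (c : ℕ) : NR p (fun _ : Subgroup P => c) := by
  unfold NR
  simp only [Finset.prod_const, Finset.card_univ]
  rw [← pow_mul, ← pow_add]
  congr 1
  obtain ⟨k, rfl⟩ := Nat.exists_eq_add_of_le hp
  simp only [Nat.add_sub_cancel_left]
  ring

theorem NR.mul {f g : Subgroup P → ℕ} (hf : NR p f) (hg : NR p g) :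
    NR p (fun A => f A * g A) := by
  unfold NR at *
  simp only [mul_pow, Finset.prod_mul_distrib]
  rw [hf, hg]; ring

theorem nr_pow_iff {q : ℕ} (hq : 1 < q) (d : Subgroup P → ℕ) :
    NR p (fun A => q ^ d A) ↔ ∑ x : P, d (zpowers x) * p =
      ∑ x : P, d (zpowers (x ^ p)) + d ⊤ * ((p - 1) * Fintype.card P) := by
  unfold NR
  simp only [← pow_mul, Finset.prod_pow_eq_pow_sum, ← pow_add]
  exact ⟨fun h => Nat.pow_right_injective hq h, fun h => by rw [h]⟩

theorem nr_of_factorization {f : Subgroup P → ℕ} (h0 : ∀ A, f A ≠ 0)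
    (h : ∀ q : ℕ, q.Prime → NR p (fun A => q ^ (f A).factorization q)) : NR p f := by
  unfold NR
  have hl : ∏ x : P, f (zpowers x) ^ p ≠ 0 :=
    Finset.prod_ne_zero_iff.mpr fun x _ => pow_ne_zero _ (h0 _)
  have hr1 : ∏ x : P, f (zpowers (x ^ p)) ≠ 0 := Finset.prod_ne_zero_iff.mpr fun x _ => h0 _
  have hr2 : f ⊤ ^ ((p - 1) * Fintype.card P) ≠ 0 := pow_ne_zero _ (h0 _)
  apply Nat.eq_of_factorization_eq hl (mul_ne_zero hr1 hr2)
  intro q
  by_cases hq : q.Prime
  · have := (nr_pow_iff hq.one_lt _).mp (h q hq)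
    rw [Nat.factorization_mul hr1 hr2, Nat.factorization_prod (fun x _ => pow_ne_zero _ (h0 _)),
      Nat.factorization_prod (fun x _ => h0 _), Nat.factorization_pow]
    simp only [Nat.factorization_pow, Finsupp.finsetSum_apply, Finsupp.smul_apply, smul_eq_mul,
      Finsupp.add_apply]
    rw [mul_comm ((p - 1) * Fintype.card P), ← this]
    exact Finset.sum_congr rfl fun x _ => mul_comm _ _
  · simp [Nat.factorization_eq_zero_of_not_prime _ hq]

end basic

section chars
variable {p : ℕ} [hp : Fact p.Prime] {P : Type*} [Group P] [Fintype P]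

theorem mem_sdiff_iff (hP : IsPGroup p P) {x y : P} (hx : x ≠ 1) :
    (y ∈ zpowers x ∧ y ∉ zpowers (x ^ p)) ↔ zpowers y = zpowers x := by
  obtain ⟨k, hk⟩ := IsPGroup.iff_orderOf.mp hP x
  have hk0 : k ≠ 0 := by
    rintro rfl
    exact hx (orderOf_eq_one_iff.mp (by simpa using hk))
  constructor
  · rintro ⟨hy, hn⟩
    obtain ⟨n, rfl⟩ := (mem_powers_iff_mem_zpowers.mpr hy : y ∈ Submonoid.powers x)
    simp only at hn ⊢
    have hpn : ¬ p ∣ n := by
      rintro ⟨m, rfl⟩
      exact hn (by rw [pow_mul]; exact pow_mem (mem_zpowers _) _)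
    apply le_antisymm (zpowers_le_of_mem (pow_mem (mem_zpowers x) n))
    rw [zpowers_le, mem_zpowers_pow_iff, hk]
    exact Nat.Coprime.pow_right k ((Nat.Prime.coprime_iff_not_dvd hp.out).mpr hpn).symm
  · intro h
    refine ⟨h ▸ mem_zpowers y, fun hn => ?_⟩
    have h1 : x ∈ zpowers (x ^ p) := (zpowers_le.mpr hn) (h ▸ mem_zpowers x)
    rw [mem_zpowers_pow_iff, hk] at h1
    have h2 : p ∣ Nat.gcd p (p ^ k) := Nat.dvd_gcd dvd_rfl (dvd_pow_self p hk0)
    rw [h1] at h2
    exact hp.out.one_lt.ne' (Nat.dvd_one.mp h2)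

omit [Fintype P] in
theorem card_zpowers_eq (hP : IsPGroup p P) {x : P} (hx : x ≠ 1) :
    Nat.card (zpowers x) = p * Nat.card (zpowers (x ^ p)) := by
  obtain ⟨k, hk⟩ := IsPGroup.iff_orderOf.mp hP x
  have hk0 : k ≠ 0 := by
    rintro rfl
    exact hx (orderOf_eq_one_iff.mp (by simpa using hk))
  rw [Nat.card_zpowers, Nat.card_zpowers, orderOf_pow_of_dvd hp.out.ne_zero
    (hk ▸ dvd_pow_self p hk0), Nat.mul_div_cancel' (hk ▸ dvd_pow_self p hk0)]

open Classical in
theorem sum_split (hP : IsPGroup p P) {x : P} (hx : x ≠ 1) (φ : P → ℂ) :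
    ∑ a : zpowers x, φ a = ∑ a : zpowers (x ^ p), φ a +
      ∑ y ∈ Finset.univ.filter (fun y : P => zpowers y = zpowers x), φ y := by
  have e : ∀ H : Subgroup P, ∑ a : H, φ a = ∑ y : P, if y ∈ H then φ y else 0 := fun H => by
    rw [← Finset.sum_filter]
    exact (Finset.sum_subtype _ (by simp) φ).symm
  rw [e, e, Finset.sum_filter, ← Finset.sum_add_distrib]
  refine Finset.sum_congr rfl fun y _ => ?_
  have := mem_sdiff_iff hP (y := y) hx
  have hle : zpowers (x ^ p) ≤ zpowers x := zpowers_le_of_mem (pow_mem (mem_zpowers x) p)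
  by_cases h1 : y ∈ zpowers (x ^ p)
  · have h3 : ¬ zpowers y = zpowers x := fun h => (this.mpr h).2 h1
    simp [h1, hle h1, h3]
  · by_cases h2 : y ∈ zpowers x
    · simp [h1, h2, this.mp ⟨h2, h1⟩]
    · have h3 : ¬ zpowers y = zpowers x := fun h => h2 (this.mpr h).1
      simp [h1, h2, h3]

theorem nr_of_fixDim (hP : IsPGroup p P) {χ : P → ℂ} {d : Subgroup P → ℕ} (hd : FixDim χ d) :
    ∑ x : P, d (zpowers x) * p =
      ∑ x : P, d (zpowers (x ^ p)) + d ⊤ * ((p - 1) * Fintype.card P) := by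
  classical
  set E : P → Finset P := fun x => Finset.univ.filter (fun y : P => zpowers y = zpowers x) with hE
  have hE0 : ∀ x, ((E x).card : ℂ) ≠ 0 := fun x => by
    exact_mod_cast (Finset.card_pos.mpr ⟨x, by simp [hE]⟩).ne'
  have hp1 : ((p - 1 : ℕ) : ℂ) = (p : ℂ) - 1 := by
    rw [Nat.cast_sub hp.out.one_le]; simp
  have key : ∀ x : P, (d (zpowers x) : ℂ) * p =
      d (zpowers (x ^ p)) + ((p : ℂ) - 1) * ∑ y ∈ E x, χ y / (E y).card := by
    intro x
    have hs : ∑ y ∈ E x, χ y / (E y).card = (∑ y ∈ E x, χ y) / (E x).card := by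
      rw [Finset.sum_div]
      refine Finset.sum_congr rfl fun y hy => ?_
      have : zpowers y = zpowers x := by simpa [hE] using hy
      simp only [hE, this]
    rw [hs]
    by_cases hx : x = 1
    · subst hx
      have hE1 : E 1 = {1} := by
        ext y; simp [hE, zpowers_eq_bot]
      have h1 := hd (zpowers (1 : P))
      rw [Nat.card_zpowers, orderOf_one] at h1
      have h2 : ∑ a : zpowers (1 : P), χ a = χ 1 := by
        have : ∀ a : zpowers (1 : P), (a : P) = 1 := fun a => by simpa using a.2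
        simp only [this, Finset.sum_const, Finset.card_univ]
        rw [← Nat.card_eq_fintype_card, Nat.card_zpowers, orderOf_one, one_smul]
      rw [hE1, one_pow, Finset.sum_singleton, Finset.card_singleton, ← h2, h1]
      push_cast; ring
    · have h1 := sum_split hP hx χ
      have h2 := sum_split hP hx (fun _ => 1)
      simp only [Finset.sum_const, Finset.card_univ, nsmul_eq_mul, mul_one,
        ← Nat.card_eq_fintype_card] at h2
      rw [hd, hd] at h1
      rw [card_zpowers_eq hP hx] at h1 h2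
      have h0 : (Nat.card (zpowers (x ^ p)) : ℂ) ≠ 0 := by exact_mod_cast Nat.card_pos.ne'
      have h3 := hE0 x
      push_cast at h1 h2
      change _ = _ + ∑ y ∈ E x, χ y at h1
      change _ = _ + ((E x).card : ℂ) at h2
      have h4 : ((E x).card : ℂ) = ((p : ℂ) - 1) * Nat.card (zpowers (x ^ p)) := by
        linear_combination -h2
      have h5 : ∑ y ∈ E x, χ y = Nat.card (zpowers (x ^ p)) *
          ((d (zpowers x) : ℂ) * p - d (zpowers (x ^ p))) := by linear_combination -h1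
      have h6 : (p : ℂ) - 1 ≠ 0 := by
        intro h; rw [h, zero_mul] at h4; exact h3 h4
      rw [h4, h5]
      field_simp
      ring
  have hsum : ∑ x : P, ∑ y ∈ E x, χ y / (E y).card = ∑ y : P, χ y := by
    rw [Finset.sum_comm' (t' := Finset.univ) (s' := E) (by
      intro x y; simp [hE, eq_comm])]
    refine Finset.sum_congr rfl fun y _ => ?_
    rw [Finset.sum_const, nsmul_eq_mul]
    have := hE0 y
    field_simp
  have htop : ∑ y : P, χ y = Fintype.card P * (d ⊤ : ℂ) := by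
    have := hd ⊤
    rw [Subgroup.card_top, Nat.card_eq_fintype_card] at this
    rw [← this]
    exact (Fintype.sum_equiv Subgroup.topEquiv.toEquiv _ _ (fun _ => rfl)).symm
  have : ((∑ x : P, d (zpowers x) * p : ℕ) : ℂ) =
      ((∑ x : P, d (zpowers (x ^ p)) + d ⊤ * ((p - 1) * Fintype.card P) : ℕ) : ℂ) := by
    push_cast
    simp only [key, Finset.sum_add_distrib, ← Finset.mul_sum, hsum, htop, hp1]
    ring
  exact_mod_cast this

theorem nr_solvable (hP : IsPGroup p P) {X : Type u} [Group X] [Finite X] (f : P →* X)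
    {V : Subgroup X} (hV : f.range ≤ N[V]) (hs : Group.IsSolvable V)
    (hc : (Nat.card P).Coprime (Nat.card V)) :
    NR p (fun A : Subgroup P => Nat.card ↥(V ⊓ C[A.map f])) := by
  have hVN : V ≤ N[V] := Subgroup.le_normalizer
  set f' : P →* N[V] := f.codRestrict _ (fun x => hV ⟨x, rfl⟩)
  have key : ∀ A : Subgroup P, (V.subgroupOf N[V] ⊓ C[A.map f']).map
      (N[V]).subtype = V ⊓ C[A.map f] := fun A => by
    rw [map_subtype_inf_centralizer hVN, Subgroup.map_map]; rfl
  have := fix_induction_normal (⊥ : Subgroup P) False (NR p) (NR.const hp.out.one_le 1)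
    (fun _ _ => NR.mul) (fun q χ d hq _ hd _ => (nr_pow_iff hq.one_lt d).mpr (nr_of_fixDim hP hd))
    _ ↥N[V] f' (V.subgroupOf N[V]) rfl (isSolvable_subgroupOf _ _)
    (by rwa [card_subgroupOf_of_le hVN]) False.elim
  convert this using 2 with A
  rw [← key, card_map_subtype]

/-- The Navarro-Rizo formula. -/
theorem nr_coprime (hP : IsPGroup p P) {X : Type u} [Group X] [Finite X] (f : P →* X)
    {K : Subgroup X} (hK : f.range ≤ N[K]) (hc : (Nat.card P).Coprime (Nat.card K)) :
    NR p (fun A : Subgroup P => Nat.card ↥(K ⊓ C[A.map f])) := by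
  refine nr_of_factorization (fun A => Nat.card_pos.ne') fun q hq => ?_
  have : Fact q.Prime := ⟨hq⟩
  have hAp : ∀ A : Subgroup P, IsPGroup p (A.map f) := fun A => (hP.to_subgroup A).map f
  have hAs : ∀ A : Subgroup P, Group.IsSolvable (A.map f) := fun A => by
    have := (hAp A).isNilpotent
    infer_instance
  have hAc : ∀ A : Subgroup P, (Nat.card (A.map f)).Coprime (Nat.card K) := fun A =>
    hc.coprime_dvd_left ((Subgroup.card_map_dvd A f).trans (Subgroup.card_subgroup_dvd_card A))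
  have hAr : ∀ A : Subgroup P, A.map f ≤ f.range := fun A => map_le_range f A
  rw [MonoidHom.range_eq_map] at hK hAr
  obtain ⟨S, hS, hSn⟩ := exists_isSylowIn_le_normalizer q hK (hAc ⊤) (Or.inl (hAs ⊤))
  have hSs : Group.IsSolvable S := by
    have := hS.isPGroup.isNilpotent
    infer_instance
  have := nr_solvable hP f (V := S) (by rwa [MonoidHom.range_eq_map]) hSs
    (hc.coprime_dvd_right (Subgroup.card_dvd_of_le hS.le))
  convert this using 2 with A
  exact (IsSylowIn.inf_centralizer ((hAr A).trans hK) (hAc A) (Or.inl (hAs A)) hS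
    ((hAr A).trans hSn)).card_eq_pow.symm

end chars

section count
variable {p : ℕ} [hp : Fact p.Prime] {P : Type*} [Group P] [Fintype P]

theorem card_eq_of_fibers {α β : Type*} [Finite α] [Finite β] (f : α → β) (c : ℕ)
    (h : ∀ b, Nat.card {a // f a = b} = c) : Nat.card α = Nat.card β * c := by
  have := Fintype.ofFinite β
  rw [← Nat.card_congr (Equiv.sigmaFiberEquiv f), Nat.card_sigma]
  simp [h]

/-- number of `g` conjugating `φ A` into the image of `φ` -/
noncomputable def cnt {G : Type*} [Group G] (φ : P →* G) (A : Subgroup P) : ℕ :=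
  Nat.card {g : G // ∀ x ∈ A, g⁻¹ * φ x * g ∈ φ.range}

omit [Fintype P] in
theorem cond_map {G G' : Type*} [Group G] [Group G'] (π : G →* G') (φ : P →* G) {x : P} {g : G}
    (h : g⁻¹ * φ x * g ∈ φ.range) : (π g)⁻¹ * (π.comp φ) x * π g ∈ (π.comp φ).range := by
  obtain ⟨y, hy⟩ := h
  exact ⟨y, by simp [hy]⟩

omit [Fintype P] in
theorem cond_lift {G : Type*} [Group G] (N : Subgroup G) [N.Normal] (φ : P →* G) {x : P} {g : G}
    (h : ((QuotientGroup.mk' N) g)⁻¹ * ((QuotientGroup.mk' N).comp φ) x * (QuotientGroup.mk' N) g ∈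
      ((QuotientGroup.mk' N).comp φ).range) : g⁻¹ * φ x * g ∈ φ.range ⊔ N := by
  obtain ⟨y, hy⟩ := h
  have : (QuotientGroup.mk' N) (φ y) = (QuotientGroup.mk' N) (g⁻¹ * φ x * g) := by
    simpa using hy
  obtain ⟨n, hn, e⟩ := (QuotientGroup.mk'_eq_mk' N).mp this
  rw [← e]
  exact mul_mem (mem_sup_left ⟨y, rfl⟩) (mem_sup_right hn)

omit [Fintype P] in
theorem cnt_of_le {G : Type*} [Group G] [Finite G] (N : Subgroup G) [N.Normal] (φ : P →* G)
    (hN : N ≤ φ.range) (A : Subgroup P) :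
    cnt φ A = cnt ((QuotientGroup.mk' N).comp φ) A * Nat.card N := by
  unfold cnt
  refine card_eq_of_fibers (fun g => ⟨QuotientGroup.mk' N g.1, fun x hx =>
    cond_map _ φ (g.2 x hx)⟩) _ ?_
  rintro ⟨b, hb⟩
  obtain ⟨g₁, rfl⟩ := QuotientGroup.mk'_surjective N b
  have hc : ∀ c : N, (QuotientGroup.mk' N) (c * g₁) = (QuotientGroup.mk' N) g₁ := fun c => by
    rw [map_mul, show (QuotientGroup.mk' N) (c : G) = 1 from (QuotientGroup.eq_one_iff _).mpr c.2,
      one_mul]
  symm
  refine Nat.card_congr (Equiv.ofBijective (fun c => ⟨⟨c * g₁, fun x hx => ?_⟩,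
    Subtype.ext (hc c)⟩) ⟨fun c c' h => ?_, ?_⟩)
  · have := hb x hx
    rw [← hc c] at this
    exact (sup_eq_left.mpr hN).le (cond_lift N φ this)
  · exact Subtype.ext (mul_right_cancel (congrArg (fun t => t.1.1) h))
  · rintro ⟨⟨g, hg⟩, hgb⟩
    have h1 : (QuotientGroup.mk' N) g = (QuotientGroup.mk' N) g₁ := congrArg Subtype.val hgb
    refine ⟨⟨g * g₁⁻¹, ?_⟩, Subtype.ext (Subtype.ext (by simp))⟩
    rw [← QuotientGroup.eq_one_iff]
    change (QuotientGroup.mk' N) (g * g₁⁻¹) = 1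
    rw [map_mul, map_inv, h1, mul_inv_cancel]

omit [Fintype P] in
theorem cnt_of_coprime (hP : IsPGroup p P) {G : Type*} [Group G] [Finite G] (N : Subgroup G)
    [N.Normal] (φ : P →* G) (hφ : IsSylowIn p φ.range ⊤) (hN : (Nat.card N).Coprime p)
    (A : Subgroup P) :
    cnt φ A = cnt ((QuotientGroup.mk' N).comp φ) A * Nat.card ↥(N ⊓ C[A.map φ]) := by
  unfold cnt
  have hdisj : φ.range ⊓ N = ⊥ := by
    refine disjoint_iff.mp (Subgroup.disjoint_of_coprime_natCard ?_)
    obtain ⟨k, hk⟩ := hφ.isPGroup.exists_card_eq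
    rw [hk]
    exact Nat.Coprime.pow_left k hN.symm
  refine card_eq_of_fibers (fun g => ⟨QuotientGroup.mk' N g.1, fun x hx =>
    cond_map _ φ (g.2 x hx)⟩) _ ?_
  rintro ⟨b, hb⟩
  obtain ⟨g₀, rfl⟩ := QuotientGroup.mk'_surjective N b
  have hS : IsSylowIn p φ.range (φ.range ⊔ N) := hφ.of_le le_sup_left le_top
  have hU : IsPGroup p (MulAut.conj g₀⁻¹ • A.map φ : Subgroup G) :=
    IsPGroup.conj_smul ((hP.to_subgroup A).map φ) _
  obtain ⟨h, hh, hle⟩ := hS.exists_conj_le hU (by
    rw [conj_smul_le_iff]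
    rintro _ ⟨x, hx, rfl⟩
    simpa using cond_lift N φ (hb x hx))
  obtain ⟨r, hr, n, hn, rfl⟩ :=
    (mem_sup_iff_of_le_normalizer' Subgroup.le_normalizer_of_normal).mp hh
  set g₁ := g₀ * n⁻¹ with hg₁
  have hg₁S : ∀ x ∈ A, g₁⁻¹ * φ x * g₁ ∈ φ.range := by
    intro x hx
    rw [conj_smul_conj_smul, conj_smul_le_iff] at hle
    have h1 := hle (φ x) ⟨x, hx, rfl⟩
    have h2 := mul_mem (mul_mem (inv_mem hr) h1) hr
    convert h2 using 1
    rw [hg₁]; group
  have hg₁b : (QuotientGroup.mk' N) g₁ = (QuotientGroup.mk' N) g₀ := by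
    rw [hg₁, map_mul, map_inv,
      show (QuotientGroup.mk' N) n = 1 from (QuotientGroup.eq_one_iff _).mpr hn]
    simp
  have hc : ∀ c : ↥(N ⊓ C[A.map φ]),
      (QuotientGroup.mk' N) (c * g₁) = (QuotientGroup.mk' N) g₀ := fun c => by
    rw [map_mul, show (QuotientGroup.mk' N) (c : G) = 1 from
      (QuotientGroup.eq_one_iff _).mpr c.2.1, one_mul, hg₁b]
  symm
  refine Nat.card_congr (Equiv.ofBijective (fun c => ⟨⟨c * g₁, fun x hx => ?_⟩,
    Subtype.ext (hc c)⟩) ⟨fun c c' h => ?_, ?_⟩)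
  · have h1 : φ x * c = c * φ x := c.2.2 (φ x) ⟨x, hx, rfl⟩
    have h2 : ((c : G) * g₁)⁻¹ * φ x * (c * g₁) = g₁⁻¹ * φ x * g₁ := by
      rw [mul_inv_rev, mul_assoc, mul_assoc, ← mul_assoc (φ x), h1]; group
    rw [h2]
    exact hg₁S x hx
  · exact Subtype.ext (mul_right_cancel (congrArg (fun t => t.1.1) h))
  · rintro ⟨⟨g, hg⟩, hgb⟩
    have h1 : (QuotientGroup.mk' N) g = (QuotientGroup.mk' N) g₁ :=
      (congrArg Subtype.val hgb).trans hg₁b.symm
    refine ⟨⟨g * g₁⁻¹, Subgroup.mem_inf.mpr ⟨?_, ?_⟩⟩, Subtype.ext (Subtype.ext (by simp))⟩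
    · rw [← QuotientGroup.eq_one_iff]
      change (QuotientGroup.mk' N) (g * g₁⁻¹) = 1
      rw [map_mul, map_inv, h1, mul_inv_cancel]
    · rintro _ ⟨x, hx, rfl⟩
      have h2 : (g⁻¹ * φ x * g)⁻¹ * (g₁⁻¹ * φ x * g₁) ∈ φ.range ⊓ N := by
        refine Subgroup.mem_inf.mpr ⟨mul_mem (inv_mem (hg x hx)) (hg₁S x hx), ?_⟩
        rw [← QuotientGroup.eq_one_iff]
        change (QuotientGroup.mk' N) _ = 1
        simp only [map_mul, map_inv, h1]
        group
      rw [hdisj, Subgroup.mem_bot, inv_mul_eq_one] at h2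
      calc φ x * (g * g₁⁻¹) = g * (g⁻¹ * φ x * g) * g₁⁻¹ := by group
        _ = g * g₁⁻¹ * φ x := by rw [h2]; group

theorem nr_cnt (hP : IsPGroup p P) (n : ℕ) : ∀ (G : Type u) [Group G] [Finite G], Nat.card G = n →
    IsPSolvable p G → ∀ φ : P →* G, IsSylowIn p φ.range ⊤ → NR p (cnt φ) := by
  induction n using Nat.strong_induction_on with
  | _ n ih =>
  intro G _ _ hn hG φ hφ
  by_cases hT : (⊤ : Subgroup G) = ⊥
  · have : cnt φ = fun _ => Nat.card G := by
      funext A
      unfold cnt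
      refine Nat.card_congr (Equiv.subtypeUnivEquiv fun g x _ => ?_)
      have : g⁻¹ * φ x * g = 1 := Subgroup.mem_bot.mp (hT ▸ Subgroup.mem_top _)
      rw [this]; exact one_mem _
    rw [this]
    exact NR.const hp.out.one_le _
  obtain ⟨N, hNn, hN1, -, hN⟩ := (Loc.isPSolvable_iff_below.mp hG).exists_normal hT
  have hlt : Nat.card (G ⧸ N) < n := by
    rw [← hn, Subgroup.card_eq_card_quotient_mul_card_subgroup N]
    exact lt_mul_of_one_lt_right Nat.card_pos (N.one_lt_card_iff_ne_bot.mpr hN1)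
  have hφ' : IsSylowIn p ((QuotientGroup.mk' N).comp φ).range ⊤ := by
    obtain ⟨Q, hQ⟩ := isSylowIn_top_iff.mp hφ
    refine isSylowIn_top_iff.mpr ⟨Q.mapSurjective (QuotientGroup.mk'_surjective N), ?_⟩
    rw [Sylow.coe_mapSurjective, hQ, MonoidHom.range_comp]
  have hq := ih _ hlt (G ⧸ N) rfl (Loc.isPSolvable_quotient hG N) _ hφ'
  rcases hN with ⟨m, hm⟩ | hN
  · have hle : N ≤ φ.range :=
      hφ.le_of_normalized (IsPGroup.of_card hm) le_top Subgroup.le_normalizer_of_normal
    have : cnt φ = fun A => cnt ((QuotientGroup.mk' N).comp φ) A * Nat.card N :=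
      funext fun A => cnt_of_le N φ hle A
    rw [this]
    exact hq.mul (NR.const hp.out.one_le _)
  · have : cnt φ = fun A => cnt ((QuotientGroup.mk' N).comp φ) A * Nat.card ↥(N ⊓ C[A.map φ]) :=
      funext fun A => cnt_of_coprime hP N φ hφ hN A
    rw [this]
    refine hq.mul (nr_coprime hP φ Subgroup.le_normalizer_of_normal ?_)
    obtain ⟨k, hk⟩ := hP.exists_card_eq
    rw [hk]
    exact Nat.Coprime.pow_left k hN.symm

end count

end CL.NavRizo
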