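/-
The faithful irreducible module over `𝔽₂` of `3² : D₈`.
-/
import Cfsg.Agent.Base

set_option autoImplicit false

namespace CL.NineD8

open Subgroup

variable {S : Type*} [Group S]

/-- generators of a dihedral group of order eight -/
structure DD (X : Subgroup S) (s t z : S) : Prop where
  ss : s * s = 1
  tt : t * t = 1
  zz : z * z = 1
  zs : z * s = s * z
  zt : z * t = t * z
  ts : t * s = s * t * z
  z1 : z ≠ 1
  s1 : s ≠ 1
  t1 : t ≠ 1
  sz : s ≠ z
  tz : t ≠ z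
  ms : s ∈ X
  mt : t ∈ X
  mz : z ∈ X
  all : ∀ x ∈ X, (x = 1 ∨ x = z ∨ x = s ∨ x = s * z) ∨ (x = t ∨ x = t * z) ∨ x = s * t ∨ x = t * s

theorem exists_DD {X : Subgroup S} (e : X ≃* DihedralGroup 4) : ∃ s t z, DD X s t z := by
  let f : DihedralGroup 4 →* S := X.subtype.comp e.symm.toMonoidHom
  have hf : Function.Injective f := X.subtype_injective.comp e.symm.injective
  have hm : ∀ x, f x ∈ X := fun x => (e.symm x).2
  refine ⟨f (.sr 0), f (.sr 1), f (.r 2), ?_, ?_, ?_, ?_, ?_, ?_, ?_, ?_, ?_, ?_, ?_, hm _, hm _, hm _, fun x hx => ?_⟩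
  all_goals try obtain ⟨y, rfl⟩ : ∃ y, f y = x := ⟨e ⟨x, hx⟩, by simp [f]⟩
  all_goals simp only [← map_mul, ← map_one f, hf.eq_iff, Ne]
  all_goals try (clear hx; revert y)
  all_goals decide

namespace DD
variable {X : Subgroup S} {s t z : S} (h : DD X s t z)
include h

theorem st : s * t = t * s * z := by rw [h.ts, mul_assoc, h.zz, mul_one]

theorem symm : DD X t s z :=
  ⟨h.tt, h.ss, h.zz, h.zt, h.zs, h.st, h.z1, h.t1, h.s1, h.tz, h.sz, h.mt, h.ms, h.mz, fun x hx => by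
    have := h.all x hx; tauto⟩

theorem stst : s * t * (s * t) = z := by
  rw [mul_assoc, ← mul_assoc t, h.ts, mul_assoc, h.zt, ← mul_assoc, ← mul_assoc, ← mul_assoc, h.ss, one_mul, h.tt, one_mul]

theorem cs : ∀ x, s * (s * x) = x := fun x => by rw [← mul_assoc, h.ss, one_mul]
theorem cz : ∀ x, z * (z * x) = x := fun x => by rw [← mul_assoc, h.zz, one_mul]
theorem czs : ∀ x, z * (s * x) = s * (z * x) := fun x => by rw [← mul_assoc, h.zs, mul_assoc]

/-- the four-group containing `s` -/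
def B : Subgroup S where
  carrier := {1, z, s, s * z}
  one_mem' := Or.inl rfl
  mul_mem' := by
    rintro _ _ (rfl | rfl | rfl | rfl) (rfl | rfl | rfl | rfl) <;>
      simp [mul_assoc, h.ss, h.zz, h.zs, h.cs, h.czs]
  inv_mem' := by
    have e : s * z * (s * z) = 1 := by simp [mul_assoc, h.zz, h.ss, h.czs]
    rintro _ (rfl | rfl | rfl | rfl)
    · simp
    · simp [inv_eq_of_mul_eq_one_left h.zz]
    · simp [inv_eq_of_mul_eq_one_left h.ss]
    · rw [inv_eq_of_mul_eq_one_left e]; simp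

theorem mem_B {x : S} : x ∈ h.B ↔ x = 1 ∨ x = z ∨ x = s ∨ x = s * z := Iff.rfl

theorem card_B : Nat.card h.B = 4 := by
  have e : s * z ≠ 1 := fun e => h.sz (mul_right_cancel (e.trans h.zz.symm))
  change ({1, z, s, s * z} : Set S).ncard = 4
  rw [Set.ncard_insert_of_notMem (by simp [h.z1.symm, h.s1.symm, e.symm]),
    Set.ncard_insert_of_notMem (by simp [h.sz.symm, h.s1]), Set.ncard_pair (by simp [h.z1])]

theorem B_le : h.B ≤ X := by
  rintro _ (rfl | rfl | rfl | rfl)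
  exacts [one_mem _, h.mz, h.ms, mul_mem h.ms h.mz]

theorem B_sq : ∀ b ∈ h.B, b ^ 2 = 1 := by
  rintro _ (rfl | rfl | rfl | rfl) <;> simp [sq, mul_assoc, h.ss, h.zz, h.czs]

theorem eq_B [Finite S] {C : Subgroup S} (h1 : C ≤ X) (h2 : Nat.card C = 4) (h3 : ∀ b ∈ C, b ^ 2 = 1) :
    C = h.B ∨ C = h.symm.B := by
  have h4 : s * t ∉ C := fun e => h.z1 (h.stst.symm.trans (sq (s * t) ▸ h3 _ e))
  have h5 : t * s ∉ C := fun e => h.z1 (h.symm.stst.symm.trans (sq (t * s) ▸ h3 _ e))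
  by_cases h6 : C ≤ h.B
  · exact Or.inl (eq_of_le_of_card_ge h6 (by rw [h.card_B, h2]))
  refine Or.inr (eq_of_le_of_card_ge (fun x hx => ?_) (by rw [h.symm.card_B, h2]))
  obtain ⟨y, hy, hy'⟩ := SetLike.not_le_iff_exists.1 h6
  have e1 : s * z * t = t * s := by rw [h.ts, mul_assoc, h.zt, mul_assoc]
  have e2 : s * (t * z) = t * s := by rw [h.ts, mul_assoc]
  have e3 : s * z * (t * z) = s * t := by rw [← mul_assoc, e1, ← h.st]
  have hxy := mul_mem hx hy
  rcases h.all x (h1 hx) with (e | e | e | e) | (e | e) | e | e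
  any_goals simp only [mem_B, e, true_or, or_true]
  rotate_left 2
  · exact absurd (e ▸ hx) h4
  · exact absurd (e ▸ hx) h5
  all_goals
    rcases h.all y (h1 hy) with e' | (e' | e') | e' | e'
    · exact absurd e' hy'
    rotate_left 2
    · exact absurd (e' ▸ hy) h4
    · exact absurd (e' ▸ hy) h5
    all_goals
      simp only [e, e', e1, e2, e3] at hxy
      contradiction

variable {A : Subgroup S} [hN : A.Normal] (hA : Cfsg.IsElementaryAbelian 3 A) (hA9 : Nat.card A = 9)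
  (hAC : centralizer (A : Set S) = A)
include hA hA9 hAC

omit h hN hA9 in
theorem eq_one {x : S} (h1 : x * x = 1) (h2 : ∀ a ∈ A, x * a * x = a) : x = 1 := by
  have : x ∈ A := hAC ▸ mem_centralizer_iff.2 fun a ha => by
    conv_lhs => rw [← h2 a ha, mul_assoc, h1, mul_one]
  have h3 := hA.2 x this
  rwa [pow_three, h1, mul_one] at h3

omit h hN hA9 hAC in
theorem comm {a b : S} (ha : a ∈ A) (hb : b ∈ A) : a * b = b * a :=
  congrArg Subtype.val (hA.1.is_comm.comm ⟨a, ha⟩ ⟨b, hb⟩)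

omit h hA hA9 hAC in
theorem cj {x a : S} (h1 : x * x = 1) (ha : a ∈ A) : x * a * x ∈ A := by
  have := hN.conj_mem a ha x
  rwa [inv_eq_of_mul_eq_one_left h1] at this

omit h hA9 hAC in
/-- an involution without fixed points inverts -/
theorem inv_of {x : S} (h1 : x * x = 1) (h2 : ∀ a ∈ A, x * a = a * x → a = 1) {a : S} (ha : a ∈ A) :
    x * a * x = a⁻¹ := by
  refine eq_inv_of_mul_eq_one_right (h2 _ (mul_mem ha (cj h1 ha)) ?_)
  conv_rhs => rw [comm hA ha (cj h1 ha)]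
  simp only [mul_assoc]

omit h hA9 hN hAC in
theorem inv_ne {a : S} (ha : a ∈ A) (e : a⁻¹ = a) : a = 1 := by
  have h3 := hA.2 a ha
  rwa [pow_three, ← mul_assoc, mul_eq_one_iff_eq_inv.2 e.symm, one_mul] at h3

theorem z_inv [Finite S] : ∀ a ∈ A, z * a * z = a⁻¹ := by
  refine fun a ha => inv_of hA h.zz (fun c hc e => ?_) ha
  by_contra hc1
  let N : Subgroup S :=
    { carrier := {x | x ∈ A ∧ z * x * z = x⁻¹}
      one_mem' := ⟨one_mem _, by simp [h.zz]⟩
      mul_mem' := fun {x y} hx hy => ⟨mul_mem hx.1 hy.1, by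
        rw [comm hA hx.1 hy.1, mul_inv_rev, ← hx.2, ← hy.2, comm hA hy.1 hx.1]
        simp only [mul_assoc, h.cz]⟩
      inv_mem' := fun {x} hx => ⟨inv_mem hx.1, by
        rw [← hx.2]; simp only [mul_assoc, h.cz, mul_inv_rev, inv_eq_of_mul_eq_one_left h.zz]
        rw [← mul_assoc, ← mul_assoc, ← hx.2]; simp only [mul_assoc, h.zz, mul_one, h.cz]⟩ }
  have hNA : N ≤ A := fun _ hx => hx.1
  have h1 : N ≠ A := fun e1 => hc1 (inv_ne hA hc (by
    rw [← (show c ∈ N from e1 ▸ hc).2, e, mul_assoc, h.zz, mul_one]))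
  have h2 : ∃ x ∈ N, x ≠ 1 := by
    by_contra h2
    push Not at h2
    refine h.z1 (eq_one hA hAC h.zz fun x hx => ?_)
    have := h2 (x⁻¹ * (z * x * z)) ⟨mul_mem (inv_mem hx) (cj h.zz hx), by
      rw [mul_inv_rev, inv_inv, mul_inv_rev, mul_inv_rev, inv_eq_of_mul_eq_one_left h.zz]
      simp only [mul_assoc, h.zz, mul_one]⟩
    exact (inv_mul_eq_one.1 this).symm
  obtain ⟨x, hx, hx1⟩ := h2
  have h3 : Nat.card N = 3 := by
    have h4 := card_dvd_of_le hNA
    rw [hA9, show 9 = 3 ^ 2 from rfl, Nat.dvd_prime_pow Nat.prime_three] at h4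
    obtain ⟨i, hi, e1⟩ := h4
    interval_cases i
    · exact absurd (card_eq_one.1 e1 ▸ hx : x ∈ (⊥ : Subgroup S)) hx1
    · exact e1
    · exact absurd (eq_of_le_of_card_ge hNA (by rw [hA9, e1]; rfl)) h1
  have h4 : ∀ y ∈ N, y ≠ 1 → y = x ∨ y = x⁻¹ := fun y hy hy1 => by
    have h5 : x ≠ x⁻¹ := fun e => hx1 (inv_ne hA hx.1 e.symm)
    have h6 : ({1, x, x⁻¹} : Set S) = N := Set.eq_of_subset_of_ncard_le (by
      rintro _ (rfl | rfl | rfl)
      exacts [one_mem _, hx, inv_mem hx]) (by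
        rw [Set.ncard_insert_of_notMem (by simp [hx1.symm, hx1]), Set.ncard_pair h5]; exact h3.le)
    have : y ∈ ({1, x, x⁻¹} : Set S) := h6 ▸ hy
    exact this.resolve_left hy1
  have h5 := h.stst
  generalize s * t = u at h5
  have h5' : Commute z u := h5 ▸ (Commute.refl u).mul_left (Commute.refl u)
  have h6 : u * x * u⁻¹ ∈ N := ⟨hN.conj_mem x hx.1 _, by
    calc z * (u * x * u⁻¹) * z = z * u * x * (u⁻¹ * z) := by simp only [mul_assoc]
      _ = u * (z * x * z) * u⁻¹ := by rw [h5'.eq, ← h5'.inv_right.eq]; simp only [mul_assoc]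
      _ = _ := by rw [hx.2]; group⟩
  have h7 : z * x * z⁻¹ = x := by
    rw [← h5]
    rcases h4 _ h6 (by simpa using hx1) with e | e
    · calc _ = u * (u * x * u⁻¹) * u⁻¹ := by group
        _ = x := by rw [e, e]
    · calc _ = u * (u * x * u⁻¹) * u⁻¹ := by group
        _ = u * x⁻¹ * u⁻¹ := by rw [e]
        _ = (u * x * u⁻¹)⁻¹ := by group
        _ = x := by rw [e, inv_inv]
  rw [inv_eq_of_mul_eq_one_left h.zz, hx.2] at h7
  exact hx1 (inv_ne hA hx.1 h7)

theorem exists_a [Finite S] : ∃ a ∈ A, a ≠ 1 ∧ s * a = a * s := by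
  by_contra h1
  push Not at h1
  have h2 := fun a ha => inv_of hA h.ss (a := a) (fun c hc e => by_contra fun h2 => h1 c hc h2 e) ha
  have e : s * z * (s * z) = 1 := by simp [mul_assoc, h.zz, h.ss, h.czs]
  refine h.sz (mul_right_cancel ((eq_one hA hAC e fun a ha => ?_).trans h.zz.symm))
  calc s * z * a * (s * z) = s * (z * a * z) * s := by rw [← h.zs]; simp only [mul_assoc, h.zs]
    _ = a := by rw [h.z_inv hA hA9 hAC a ha, h2 _ (inv_mem ha), inv_inv]

theorem s_b [Finite S] {a : S} (ha : a ∈ A) (hs : s * a = a * s) : s * (t * a * t) * s = (t * a * t)⁻¹ := by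
  calc s * (t * a * t) * s = s * t * a * (t * s) := by simp only [mul_assoc]
    _ = t * (s * (z * a * z) * s) * t := by
      rw [h.st]
      nth_rewrite 2 [h.ts]
      simp only [mul_assoc, h.czs, ← h.zt]
    _ = _ := by
      rw [h.z_inv hA hA9 hAC a ha, ((show Commute s a from hs).inv_right).eq, mul_assoc a⁻¹, h.ss, mul_one,
        mul_inv_rev, mul_inv_rev, inv_eq_of_mul_eq_one_left h.tt, mul_assoc]

theorem mem_A [Finite S] {a : S} (ha : a ∈ A) (h1 : a ≠ 1) (hs : s * a = a * s) {x : S} (hx : x ∈ A) :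
    ∃ i j : ℕ, x = a ^ i * (t * a * t) ^ j := by
  have hb := cj h.tt ha
  have hsb := h.s_b hA hA9 hAC ha hs
  have hb1 : t * a * t ≠ 1 := fun e => h1 (by
    have := congrArg (fun y => t * y * t) e
    simpa [mul_assoc, h.symm.cs, h.tt] using this)
  generalize t * a * t = b at *
  have ho : ∀ c ∈ A, c ≠ 1 → orderOf c = 3 := fun c hc h1 => orderOf_eq_prime (hA.2 c hc) h1
  have hd : Disjoint (zpowers a) (zpowers b) := by
    refine disjoint_def.2 fun {y} ⟨i, hi⟩ ⟨j, hj⟩ => inv_ne hA (hi ▸ zpow_mem ha i) ?_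
    have e1 : s * y * s⁻¹ = y := by rw [← hi, ((show Commute s a from hs).zpow_right i).eq, mul_inv_cancel_right]
    have e2 : s * y * s⁻¹ = y⁻¹ := by
      rw [← hj, ← conj_zpow, inv_eq_of_mul_eq_one_left h.ss, hsb, inv_zpow]
    rw [← e2, e1]
  let f : zpowers a × zpowers b → A := fun p => ⟨p.1 * p.2, mul_mem (zpowers_le.2 ha p.1.2) (zpowers_le.2 hb p.2.2)⟩
  have hf : Function.Bijective f := (Nat.bijective_iff_injective_and_card f).2
    ⟨fun p q e => mul_injective_of_disjoint hd (congrArg Subtype.val e), by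
      rw [Nat.card_prod, Nat.card_zpowers, Nat.card_zpowers, ho a ha h1, ho b hb hb1, hA9]⟩
  obtain ⟨⟨⟨u, hu⟩, v, hv⟩, e⟩ := hf.2 ⟨x, hx⟩
  obtain ⟨i, rfl⟩ := mem_powers_iff_mem_zpowers.2 hu
  obtain ⟨j, rfl⟩ := mem_powers_iff_mem_zpowers.2 hv
  exact ⟨i, j, (congrArg Subtype.val e).symm⟩

end DD

section
variable {M : Type*} [AddCommGroup M] [Module (ZMod 2) M]

theorem add_self (m : M) : m + m = 0 := by
  rw [← two_smul (ZMod 2), show (2 : ZMod 2) = 0 from rfl, zero_smul]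

theorem exists_fix {u : Module.End (ZMod 2) M} (hu : u * u = 1) {p : M → Prop} (h1 : ∀ x y, p x → p y → p (x + y))
    (h2 : ∀ x, p x → p (u x)) (h : ∃ v ≠ 0, p v) : ∃ v ≠ 0, p v ∧ u v = v := by
  obtain ⟨v, h3, h4⟩ := h
  by_cases e : u v = v
  · exact ⟨v, h3, h4, e⟩
  · refine ⟨u v + v, fun e1 => e (by rw [← add_zero (u v), ← add_self v, ← add_assoc, e1, zero_add]),
      h1 _ _ (h2 _ h4) h4, ?_⟩
    rw [map_add, ← Module.End.mul_apply, hu, Module.End.one_apply, add_comm]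

/-- coordinates -/
abbrev C4 : Type := ZMod 2 × ZMod 2 × ZMod 2 × ZMod 2

variable [Finite S] {X A : Subgroup S} {s t z : S} (h : DD X s t z) [hN : A.Normal] (hA : Cfsg.IsElementaryAbelian 3 A)
  (hA9 : Nat.card A = 9) (hAC : centralizer (A : Set S) = A) (hAX : A ⊔ X = ⊤) (ρ : Representation (ZMod 2) S M)
  (hfaith : Function.Injective ρ)
  (hirr : ∀ N : Submodule (ZMod 2) M, (∀ s : S, ∀ m ∈ N, ρ s m ∈ N) → N = ⊥ ∨ N = ⊤)
include h hA hA9 hAC hAX hfaith hirr

omit hAX in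
theorem fix_zero {a : S} (ha : a ∈ A) (h1 : a ≠ 1) (hs : s * a = a * s) {m : M} (h2 : ρ a m = m)
    (h3 : ρ (t * a * t) m = m) : m = 0 := by
  let U : Submodule (ZMod 2) M := ⨅ x : A, LinearMap.eqLocus (ρ x) 1
  have hU : ∀ v, v ∈ U ↔ ∀ x ∈ A, ρ x v = v := fun v => by simp [U, Submodule.mem_iInf]
  rcases hirr U fun g v hv => (hU _).2 fun x hx => by
    conv_rhs => rw [← (hU v).1 hv _ (hN.conj_mem' x hx g)]
    simp [← Module.End.mul_apply, ← map_mul, mul_assoc] with e | e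
  · refine (Submodule.mem_bot _).1 (e ▸ (hU m).2 fun x hx => ?_)
    obtain ⟨i, j, rfl⟩ := h.mem_A hA hA9 hAC ha h1 hs hx
    rw [map_mul, map_pow, map_pow, Module.End.mul_apply, Module.End.pow_apply, Module.End.pow_apply,
      Function.iterate_fixed h3, Function.iterate_fixed h2]
  · exact absurd (hfaith ((LinearMap.ext fun v => (hU v).1 (e ▸ Submodule.mem_top) a ha).trans ρ.map_one.symm)) h1

theorem main {a : S} (ha : a ∈ A) (h1 : a ≠ 1) (hs : s * a = a * s) (hv : ∃ v ≠ 0, ρ a v = v) :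
    Nat.card M = 16 ∧ Nat.card {m : M // ∀ b ∈ h.B, ρ b m = m} = 4 ∧
      Nat.card {m : M // ∀ b ∈ h.symm.B, ρ b m = m} = 2 := by
  have hb := DD.cj h.tt ha
  have hsb := h.s_b hA hA9 hAC ha hs
  have h0 := fun m => fix_zero h hA hA9 hAC ρ hfaith hirr ha h1 hs (m := m)
  have hmem := fun x => h.mem_A hA hA9 hAC ha h1 hs (x := x)
  have hta : t * a = t * a * t * t := by rw [mul_assoc _ t, h.tt, mul_one]
  have htb : t * (t * a * t) = a * t := by simp only [← mul_assoc, h.tt, one_mul]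
  generalize t * a * t = b at *
  have hzi := h.z_inv hA hA9 hAC
  have i2 : ∀ c ∈ A, c⁻¹ = c * c := fun c hc => inv_eq_of_mul_eq_one_right (pow_three c ▸ hA.2 c hc)
  have hz : ∀ c ∈ A, z * c = c * c * z := fun c hc => by rw [← i2 c hc, ← hzi c hc, mul_assoc, h.zz, mul_one]
  have hsb' : s * b = b * b * s := by rw [← i2 b hb, ← hsb, mul_assoc, h.ss, mul_one]
  have ap : ∀ {x y x' y' : S}, x * y = x' * y' → ∀ m, ρ x (ρ y m) = ρ x' (ρ y' m) := fun e m => by
    rw [← Module.End.mul_apply, ← map_mul, e, map_mul, Module.End.mul_apply]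
  have ap2 : ∀ x y m, ρ (x * y) m = ρ x (ρ y m) := fun x y m => by rw [map_mul, Module.End.mul_apply]
  have c3 : ∀ c ∈ A, ∀ m, ρ c (ρ c (ρ c m)) = m := fun c hc m => by
    rw [← ap2, ← ap2, ← pow_three', hA.2 c hc, map_one, Module.End.one_apply]
  have hab := ap (DD.comm hA ha hb)
  obtain ⟨v, v0, ⟨av, zv⟩, sv⟩ := exists_fix (u := ρ s) (p := fun v => ρ a v = v ∧ ρ z v = v)
    (by rw [← map_mul, h.ss, map_one]) (fun x y hx hy => by simp [hx.1, hx.2, hy.1, hy.2])
    (fun x hx => ⟨by rw [← ap hs, hx.1], by rw [ap h.zs, hx.2]⟩)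
    (exists_fix (u := ρ z) (p := fun v => ρ a v = v) (by rw [← map_mul, h.zz, map_one])
      (fun x y hx hy => by simp [hx, hy]) (fun x hx => by
        rw [ap (show a * z = z * (a * a) by rw [← i2 a ha, ← hzi a ha, mul_assoc z, h.cz]), ap2, hx, hx]) hv)
  have hts := ap h.ts
  have tt : ∀ m, ρ t (ρ t m) = m := fun m => by rw [← ap2, h.tt, map_one, Module.End.one_apply]
  have bw : ρ b (ρ t v) = ρ t v := by rw [← ap hta, av]
  have zw : ρ z (ρ t v) = ρ t v := by rw [ap h.zt, zv]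
  have sw : ρ s (ρ t v) = ρ t v := by rw [ap h.st, zv, ap2, sv]
  have sq : ∀ x y : M, x + y = 0 → x = y := fun x y e => by rw [← add_zero x, ← add_self y, ← add_assoc, e, zero_add]
  have bbv : ρ b (ρ b v) = v + ρ b v := sq _ _ (h0 _ (by simp only [map_add, hab, av])
    (by simp only [map_add, c3 b hb]; abel))
  have aaw : ρ a (ρ a (ρ t v)) = ρ t v + ρ a (ρ t v) := sq _ _ (h0 _ (by simp only [map_add, c3 a ha]; abel)
    (by simp only [map_add, ← hab, bw]))
  let L : C4 → M := fun c => c.1 • v + c.2.1 • ρ b v + (c.2.2.1 • ρ t v + c.2.2.2 • ρ a (ρ t v))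
  have two : ∀ c : ZMod 2, c = 0 ∨ c = 1 := by decide
  have inj0 : ∀ (g : S) (m : M), ρ g m = 0 → m = 0 := fun g m e => by
    rw [← ρ.inv_self_apply g m, e, map_zero]
  have pair : ∀ (g : S) (m : M) (c d : ZMod 2), m ≠ 0 → ρ g (ρ g m) = m + ρ g m → c • m + d • ρ g m = 0 →
      c = 0 ∧ d = 0 := fun g m c d hm e e1 => by
    rcases two c with rfl | rfl <;> rcases two d with rfl | rfl <;>
      simp only [zero_smul, one_smul, zero_add, add_zero] at e1
    · exact ⟨rfl, rfl⟩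
    · exact absurd (inj0 _ _ e1) hm
    · exact absurd e1 hm
    · exact absurd (inj0 _ _ (inj0 _ _ (e.trans e1))) hm
  have hL : Function.Injective L := fun c d e => by
    have e1 : (c.1 - d.1) • v + (c.2.1 - d.2.1) • ρ b v =
        (d.2.2.1 - c.2.2.1) • ρ t v + (d.2.2.2 - c.2.2.2) • ρ a (ρ t v) := by
      simp only [L] at e
      linear_combination (norm := module) e
    have e2 := h0 ((c.1 - d.1) • v + (c.2.1 - d.2.1) • ρ b v) (by simp only [map_add, map_smul, hab, av])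
      (by simp only [e1, map_add, map_smul, ← hab, bw])
    have e3 := pair _ _ _ _ v0 bbv e2
    have e4 := pair _ _ _ _ (fun e => v0 (inj0 _ _ e)) aaw (e1.symm.trans e2)
    simp only [sub_eq_zero] at e3 e4
    exact Prod.ext e3.1 (Prod.ext e3.2 (Prod.ext e4.1.symm e4.2.symm))
  have La : ∀ c, ρ a (L c) = L (c.1, c.2.1, c.2.2.2, c.2.2.1 + c.2.2.2) := fun c => by
    simp only [L, map_add, map_smul, hab, av, aaw]; module
  have Lb : ∀ c, ρ b (L c) = L (c.2.1, c.1 + c.2.1, c.2.2.1, c.2.2.2) := fun c => by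
    simp only [L, map_add, map_smul, ← hab (ρ t v), bw, bbv]; module
  have Lz : ∀ c, ρ z (L c) = L (c.1 + c.2.1, c.2.1, c.2.2.1 + c.2.2.2, c.2.2.2) := fun c => by
    simp only [L, map_add, map_smul, ap (hz a ha), ap (hz b hb), zv, zw, ap2, aaw, bbv]; module
  have Ls : ∀ c, ρ s (L c) = L (c.1 + c.2.1, c.2.1, c.2.2.1, c.2.2.2) := fun c => by
    simp only [L, map_add, map_smul, ap hs, ap hsb', sv, sw, ap2, bbv]; module
  have Lt : ∀ c, ρ t (L c) = L (c.2.2.1, c.2.2.2, c.1, c.2.1) := fun c => by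
    simp only [L, map_add, map_smul, ap hta, ap htb, tt]; module
  let N : Submodule (ZMod 2) M :=
    { carrier := Set.range L
      zero_mem' := ⟨0, by simp [L]⟩
      add_mem' := by
        rintro _ _ ⟨c, rfl⟩ ⟨d, rfl⟩
        exact ⟨c + d, by simp only [L, Prod.fst_add, Prod.snd_add]; module⟩
      smul_mem' := by
        rintro r _ ⟨c, rfl⟩
        exact ⟨r • c, by simp only [L, Prod.smul_fst, Prod.smul_snd, smul_eq_mul]; module⟩ }
  let T : Submonoid S :=
    { carrier := {g | ∀ m ∈ N, ρ g m ∈ N}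
      one_mem' := fun m hm => by simpa using hm
      mul_mem' := fun {x y} hx hy m hm => by rw [ap2]; exact hx _ (hy m hm) }
  have Ta : a ∈ T := by rintro _ ⟨c, rfl⟩; exact ⟨_, (La c).symm⟩
  have Tb : b ∈ T := by rintro _ ⟨c, rfl⟩; exact ⟨_, (Lb c).symm⟩
  have Tz : z ∈ T := by rintro _ ⟨c, rfl⟩; exact ⟨_, (Lz c).symm⟩
  have Ts : s ∈ T := by rintro _ ⟨c, rfl⟩; exact ⟨_, (Ls c).symm⟩
  have Tt : t ∈ T := by rintro _ ⟨c, rfl⟩; exact ⟨_, (Lt c).symm⟩
  have hNt : N = ⊤ := (hirr N fun g => by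
    obtain ⟨x, hx, y, hy, rfl⟩ := mem_sup_of_normal_left.1 (hAX ▸ mem_top g)
    obtain ⟨i, j, rfl⟩ := hmem x hx
    refine T.mul_mem (T.mul_mem (T.pow_mem Ta i) (T.pow_mem Tb j)) ?_
    rcases h.all y hy with (rfl | rfl | rfl | rfl) | (rfl | rfl) | rfl | rfl
    exacts [T.one_mem, Tz, Ts, T.mul_mem Ts Tz, Tt, T.mul_mem Tt Tz, T.mul_mem Ts Tt, T.mul_mem Tt Ts]).resolve_left
      fun e => v0 ((Submodule.mem_bot _).1 (e ▸ show v ∈ N from ⟨(1, 0, 0, 0), by simp [L]⟩))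
  let E : C4 ≃ M := Equiv.ofBijective L ⟨hL, fun m => show m ∈ N from hNt ▸ Submodule.mem_top⟩
  refine ⟨by rw [← Nat.card_congr E]; simp, ?_, ?_⟩
  · rw [← Nat.card_congr (E.subtypeEquiv (p := fun c => c.2.1 = 0 ∧ c.2.2.2 = 0) fun c => ?_), Nat.card_eq_fintype_card]
    · decide
    · change _ ↔ ∀ b ∈ h.B, ρ b (L c) = L c
      simp only [h.mem_B, forall_eq_or_imp, forall_eq, map_one, Module.End.one_apply, ap2, Lz, Ls, hL.eq_iff]
      revert c; decide
  · rw [← Nat.card_congr (E.subtypeEquiv (p := fun c => c.2.1 = 0 ∧ c.2.2.2 = 0 ∧ c.1 = c.2.2.1) fun c => ?_),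
      Nat.card_eq_fintype_card]
    · decide
    · change _ ↔ ∀ b ∈ h.symm.B, ρ b (L c) = L c
      simp only [h.symm.mem_B, forall_eq_or_imp, forall_eq, map_one, Module.End.one_apply, ap2, Lz, Lt, hL.eq_iff]
      revert c; decide

theorem concl {a : S} (ha : a ∈ A) (h1 : a ≠ 1) (hs : s * a = a * s) (hv : ∃ v ≠ 0, ρ a v = v) :
    Nat.card M = 16 ∧ ∃! B : Subgroup S, B ≤ X ∧ Nat.card B = 4 ∧ (∀ b ∈ B, b ^ 2 = 1) ∧
      Nat.card {m : M // ∀ b ∈ B, ρ b m = m} = 2 := by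
  obtain ⟨h2, h3, h4⟩ := main h hA hA9 hAC hAX ρ hfaith hirr ha h1 hs hv
  refine ⟨h2, h.symm.B, ⟨h.symm.B_le, h.symm.card_B, h.symm.B_sq, h4⟩, fun C hC => ?_⟩
  refine (h.eq_B hC.1 hC.2.1 hC.2.2.1).resolve_left fun e => ?_
  have := hC.2.2.2
  rw [e, h3] at this
  exact absurd this (by decide)

theorem final [Nontrivial M] :
    Nat.card M = 16 ∧ ∃! B : Subgroup S, B ≤ X ∧ Nat.card B = 4 ∧ (∀ b ∈ B, b ^ 2 = 1) ∧
      Nat.card {m : M // ∀ b ∈ B, ρ b m = m} = 2 := by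
  obtain ⟨a, ha, h1, hs⟩ := h.exists_a hA hA9 hAC
  have hb := DD.cj h.tt ha
  have hsb := h.s_b hA hA9 hAC ha hs
  have hta : t * a = t * a * t * t := by rw [mul_assoc _ t, h.tt, mul_one]
  have htb : t * (t * a * t) = a * t := by simp only [← mul_assoc, h.tt, one_mul]
  generalize t * a * t = b at *
  have hab := DD.comm hA ha hb
  have ap2 : ∀ x y m, ρ (x * y) m = ρ x (ρ y m) := fun x y m => by rw [map_mul, Module.End.mul_apply]
  have inj0 : ∀ (g : S) (m : M), ρ g m = 0 → m = 0 := fun g m e => by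
    rw [← ρ.inv_self_apply g m, e, map_zero]
  by_cases c1 : ∃ v ≠ 0, ρ a v = v
  · exact concl h hA hA9 hAC hAX ρ hfaith hirr ha h1 hs c1
  by_cases c2 : ∃ v ≠ 0, ρ (a * b) v = v
  · refine concl h.symm hA hA9 hAC hAX ρ hfaith hirr (mul_mem ha hb) (fun e => h1 (DD.inv_ne hA ha ?_)) ?_ c2
    · rw [← inv_eq_of_mul_eq_one_right e, inv_inv, (show Commute s a from hs).inv_right.eq, mul_assoc, h.ss,
        mul_one] at hsb
      exact hsb
    · rw [← mul_assoc, hta, mul_assoc, htb, ← mul_assoc, hab]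
  exfalso
  push Not at c1 c2
  have d1 : ∀ v, ρ a v = v → v = 0 := fun v e => by_contra fun h0 => c1 v h0 e
  have d2 : ∀ v, ρ (a * b) v = v → v = 0 := fun v e => by_contra fun h0 => c2 v h0 e
  have d3 : ∀ v, ρ b v = v → v = 0 := fun v e => inj0 t _ (d1 _ (by rw [← ap2, ← htb, ap2, e]))
  have d4 : ∀ v, ρ (a * (b * b)) v = v → v = 0 := fun v e => inj0 s _ (d2 _ (by
    have e1 : b * s = s * (b * b) := by
      rw [← inv_eq_of_mul_eq_one_right ((pow_three b).symm.trans (hA.2 b hb)), ← hsb, mul_assoc s, h.cs]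
    rw [← ap2, mul_assoc, e1, ← mul_assoc, ← hs, mul_assoc, ap2, e]))
  have key : ∀ c ∈ A, (∀ v, ρ c v = v → v = 0) → ∀ v, v + ρ c v + ρ (c * c) v = 0 := fun c hc hd v => hd _ (by
    rw [map_add, map_add, ← ap2, ← ap2, ← pow_three, hA.2 c hc, map_one, Module.End.one_apply]; abel)
  obtain ⟨v, hv⟩ := exists_ne (0 : M)
  have k1 := key a ha d1
  have k2 := key b hb d3 v
  have k3 := key _ (mul_mem ha hb) d2 v
  have k4 := key _ (mul_mem ha (mul_mem hb hb)) d4 v
  have e1 : a * b * (a * b) = a * a * (b * b) := by rw [mul_assoc, ← mul_assoc b, ← hab]; simp only [mul_assoc]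
  have e2 : a * (b * b) * (a * (b * b)) = a * a * b := by
    have : b * b * a = a * (b * b) := (DD.comm hA ha (mul_mem hb hb)).symm
    rw [mul_assoc, ← mul_assoc (b * b), this, mul_assoc a (b * b), mul_assoc b b, ← pow_three, hA.2 b hb, mul_one,
      mul_assoc]
  rw [e1] at k3
  rw [e2] at k4
  have k5 := k1 (ρ b v)
  have k6 := k1 (ρ (b * b) v)
  simp only [← ap2] at k5 k6
  refine hv ?_
  have k7 := add_self v
  linear_combination (norm := module) k2 + k3 + k4 - k5 - k6 - k7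

end

end CL.NineD8
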