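/-
Groups in which centralizers of strongly real elements of odd order are transitive on the
Sylow 2-subgroups (helper6): such a simple group is solvable.
-/
import Cfsg.Agent.Fgs.ClassReal
import Cfsg.Agent.Inv.BaerSuzuki

set_option autoImplicit false

namespace CL.Fgs.RealSyl

open Subgroup Cfsg CL.Fgs
open scoped Pointwise

variable {T : Type*} [Group T] [Finite T]

/-- `C(y)` is transitive on the Sylow 2-subgroups -/
def Tr (y : T) : Prop := ∀ S S' : Sylow 2 T, ∃ c : T, Commute c y ∧ c • S = S'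

/-- `e ∈ Ω₁ Z(S)` -/
def ZI (S : Sylow 2 T) (e : T) : Prop := e * e = 1 ∧ e ∈ S ∧ ∀ w ∈ S, Commute e w

omit [Finite T] in
theorem conj_mem_smul (c : T) {S : Sylow 2 T} {w : T} (hw : w ∈ S) : c * w * c⁻¹ ∈ c • S := by
  rw [CL.Grp.mem_sylow_smul_iff]; simpa [mul_assoc] using hw

omit [Finite T] in
theorem ZI.conj {S : Sylow 2 T} {e : T} (h : ZI S e) (c : T) : ZI (c • S) (c * e * c⁻¹) := by
  refine ⟨by rw [conj_mul, h.1]; simp, conj_mem_smul c h.2.1, fun w hw => ?_⟩
  have := h.2.2 _ ((CL.Grp.mem_sylow_smul_iff c w S).1 hw)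
  have e1 : w = c * (c⁻¹ * w * c) * c⁻¹ := by group
  rw [e1, Commute, SemiconjBy, conj_mul, conj_mul, this.eq]

theorem exists_sqrt {g : T} (hg : Odd (orderOf g)) : ∃ h ∈ zpowers g, h * h = g := by
  obtain ⟨k, hk⟩ := hg
  refine ⟨g ^ (k + 1), pow_mem (mem_zpowers g) _, ?_⟩
  rw [← pow_add, show k + 1 + (k + 1) = orderOf g + 1 by omega, pow_succ, pow_orderOf_eq_one,
    one_mul]

omit [Finite T] in
theorem inverts_of_mem_zpowers {e g h : T} (he : e * g * e⁻¹ = g⁻¹) (hh : h ∈ zpowers g) :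
    e * h * e⁻¹ = h⁻¹ := by
  obtain ⟨i, rfl⟩ := hh
  simp only
  rw [← conj_zpow, he, inv_zpow]

omit [Finite T] in
theorem commute_of_sq {g w : T} (hg : Odd (orderOf g)) (h : Commute w (g * g)) : Commute w g := by
  have : g ∈ cent(w) := mem_of_sq_mem_of_odd hg (by rw [pow_orderOf_eq_one]; exact one_mem _)
    (by rw [sq]; exact mem_cent'.2 h)
  exact mem_cent'.1 this

omit [Finite T] in
theorem inverts_mul {a b : T} (ha : a * a = 1) (hb : b * b = 1) :
    a * (a * b) * a⁻¹ = (a * b)⁻¹ := by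
  rw [← mul_assoc, ha, one_mul, mul_inv_rev, inv_eq_of_mul_eq_one_right hb]

theorem isPGroup_of_part {a b : T} (ha : a * a = 1) (hb : b * b = 1)
    (h : piPart ({2}ᶜ : Set ℕ) (a * b) = 1) : IsPGroup 2 (closure ({a, b} : Set T)) := by
  refine CL.Inv.isPGroup_closure_pair_of_invol ha hb ?_
  rw [piPart_eq_one_iff, compl_compl, isPiElt_singleton_iff Nat.prime_two] at h
  obtain ⟨k, hk⟩ := h
  exact ⟨k, by rw [← hk, pow_orderOf_eq_one]⟩

section Main

variable {D : Subgroup T} (hD : IsPGroup 2 D)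
  (hT : ∀ e g : T, e * e = 1 → Odd (orderOf g) → e * g * e⁻¹ = g⁻¹ → Tr g)
  (hM : ∀ (S : Sylow 2 T) (e g : T), ZI S e → g ≠ 1 → Odd (orderOf g) → e * g * e⁻¹ = g⁻¹ →
    Nat.card ↥((S : Subgroup T) ⊓ cent(g)) ≤ Nat.card D)

include hD in
theorem exists_sylow_ge {Q : Subgroup T} (hQ : IsPGroup 2 Q) (hc : Q ≤ centralizer (D : Set T)) :
    ∃ S : Sylow 2 T, D ≤ S ∧ Q ≤ S := by
  obtain ⟨S, hS⟩ := (IsPGroup.to_sup_of_normal_left' hD hQ
    (hc.trans (centralizer_le_normalizer _))).exists_le_sylow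
  exact ⟨S, le_sup_left.trans hS, le_sup_right.trans hS⟩

include hT hM in
theorem mem_of_sylow {S : Sylow 2 T} {e g : T} (he : ZI S e) (g1 : g ≠ 1) (go : Odd (orderOf g))
    (gi : e * g * e⁻¹ = g⁻¹) (gD : g ∈ centralizer (D : Set T)) {S' : Sylow 2 T} (hS' : D ≤ S')
    {w : T} (hw : w ∈ S') (hc : Commute w g) : w ∈ D := by
  obtain ⟨c, hc1, rfl⟩ := hT e g he.1 go gi S S'
  have h1 : D ≤ ((c • S : Sylow 2 T) : Subgroup T) ⊓ cent(g) :=
    le_inf hS' fun d hd => mem_cent.2 (gD d hd)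
  have h2 : ((c • S : Sylow 2 T) : Subgroup T) ⊓ cent(g) =
      MulAut.conj c • ((S : Subgroup T) ⊓ cent(g)) := by
    ext y
    rw [CL.Grp.mem_conj_smul_iff, mem_inf, mem_inf, mem_cent, mem_cent]
    refine and_congr (CL.Grp.mem_sylow_smul_iff c y S) ⟨fun h => ?_, fun h => ?_⟩
    · exact (hc1.inv_left.mul_left h).mul_left hc1
    · have := (hc1.mul_left h).mul_left hc1.inv_left
      simpa [mul_assoc] using this
  have h3 := eq_of_le_of_card_ge h1 (by rw [h2, CL.Grp.card_conj_smul]; exact hM S e g he g1 go gi)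
  rw [h3]
  exact ⟨hw, mem_cent.2 hc⟩

include hD hT hM in
theorem mem_of_two {S : Sylow 2 T} {e g : T} (he : ZI S e) (g1 : g ≠ 1) (go : Odd (orderOf g))
    (gi : e * g * e⁻¹ = g⁻¹) (gD : g ∈ centralizer (D : Set T)) {t : T} (ht : IsPiElt {2} t)
    (tD : t ∈ centralizer (D : Set T)) (hc : Commute t g) : t ∈ D := by
  obtain ⟨S', h1, h2⟩ := exists_sylow_ge hD ht.isPGroup_zpowers (zpowers_le.2 tD)
  exact mem_of_sylow hT hM he g1 go gi gD h1 (h2 (mem_zpowers t)) hc

include hD hT hM in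
theorem commute_of_two {B : Sylow 2 T} {a g t : T} (ha : ZI B a) (hB : D ≤ B) (g1 : g ≠ 1)
    (go : Odd (orderOf g)) (gi : a * g * a⁻¹ = g⁻¹) (gD : g ∈ centralizer (D : Set T))
    (tD : t ∈ centralizer (D : Set T)) (hp : IsPGroup 2 (closure ({a, t} : Set T))) :
    Commute a t := by
  have aD : a ∈ centralizer (D : Set T) := fun d hd => (ha.2.2 d (hB hd)).symm.eq
  obtain ⟨B', h1, h2⟩ := exists_sylow_ge hD hp ((closure_le _).2 (by
    rintro _ (rfl | rfl); exacts [aD, tD]))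
  have aB' : a ∈ B' := h2 (subset_closure (by simp))
  have tB' : t ∈ B' := h2 (subset_closure (by simp))
  obtain ⟨c, hc, rfl⟩ := hT a g ha.1 go gi B B'
  have hz := ha.conj c
  have ai : a⁻¹ = a := inv_eq_of_mul_eq_one_right ha.1
  -- `d = (c a c⁻¹) a` lies in `D`
  have hd : c * a * c⁻¹ * a ∈ D := by
    refine mem_of_sylow hT hM ha g1 go gi gD h1 (mul_mem hz.2.1 aB') ?_
    have e1 : a * g⁻¹ * a⁻¹ = g := by rw [← conj_inv, gi, inv_inv]
    have e2 : c * a * c⁻¹ * a * g * (c * a * c⁻¹ * a)⁻¹ = g := by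
      calc c * a * c⁻¹ * a * g * (c * a * c⁻¹ * a)⁻¹
          = c * a * c⁻¹ * (a * g * a⁻¹) * (c * a⁻¹ * c⁻¹) := by group
        _ = c * (a * (c⁻¹ * g⁻¹ * c) * a⁻¹) * c⁻¹ := by rw [gi]; group
        _ = g := by
          rw [hc.inv_left.inv_right.eq, inv_mul_cancel_right, e1, hc.eq, mul_inv_cancel_right]
    exact mem_cent.1 (mem_cent_iff_conj.2 e2)
  have e3 : a = (c * a * c⁻¹) * (c * a * c⁻¹ * a) := by rw [← mul_assoc, hz.1, one_mul]
  rw [e3]
  exact (hz.2.2 t tB').mul_left (tD _ hd)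

include hD hT hM in
theorem mem_or_mul_mem {B : Sylow 2 T} {a f x : T} (ha : ZI B a) (hf : ZI B f) (hB : D ≤ B)
    (x1 : x ≠ 1) (xo : Odd (orderOf x)) (xi : a * x * a⁻¹ = x⁻¹)
    (xD : x ∈ centralizer (D : Set T)) : f ∈ D ∨ a * f ∈ D := by
  by_contra hcon
  obtain ⟨fD', afD⟩ := not_or.1 hcon
  have cD : ∀ {S : Sylow 2 T} {e : T}, ZI S e → D ≤ S → e ∈ centralizer (D : Set T) :=
    fun he hS d hd => (he.2.2 d (hS hd)).symm.eq
  have sD : ∀ {S : Sylow 2 T} {c : T}, D ≤ S → c ∈ centralizer (D : Set T) →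
      D ≤ (c • S : Sylow 2 T) := by
    intro S c hS hc d hd
    have := conj_mem_smul c (hS hd)
    rwa [← hc d hd, mul_inv_cancel_right] at this
  have aD := cD ha hB
  have fD := cD hf hB
  have ai : a⁻¹ = a := inv_eq_of_mul_eq_one_right ha.1
  have fi : f⁻¹ = f := inv_eq_of_mul_eq_one_right hf.1
  have ax : a * x = x⁻¹ * a := by rw [← xi]; group
  -- `j = a x` is conjugate to `a`
  obtain ⟨h, hh, hx⟩ := exists_sqrt xo
  have hD' : h ∈ centralizer (D : Set T) := zpowers_le.2 xD hh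
  have ej : h⁻¹ * a * h⁻¹⁻¹ = a * x := by
    rw [← inverts_of_mem_zpowers xi hh, inverts_of_mem_zpowers xi hh, inv_inv, ← hx,
      ← inverts_of_mem_zpowers xi hh]
    group
  have hj := ha.conj h⁻¹
  have hjB := sD hB (inv_mem hD')
  obtain ⟨j, hjdef⟩ : ∃ j, j = a * x := ⟨_, rfl⟩
  rw [ej, ← hjdef] at hj
  have jD := cD hj hjB
  have jx : j * x * j⁻¹ = x⁻¹ := by
    calc j * x * j⁻¹ = a * x * a⁻¹ := by rw [hjdef]; group
      _ = _ := xi
  have ji : j⁻¹ = j := inv_eq_of_mul_eq_one_right hj.1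
  -- `b = j a j⁻¹ = a x²`
  have hb := ha.conj j
  have hbB := sD hB jD
  have eb : j * a * j⁻¹ = a * (x * x) := by
    calc j * a * j⁻¹ = a * x * (a * x⁻¹ * a⁻¹) := by rw [hjdef]; group
      _ = a * (x * x) := by rw [← conj_inv, xi]; group
  set b := j * a * j⁻¹ with hbdef
  have bD := cD hb hbB
  have bx : b * x * b⁻¹ = x⁻¹ := by
    calc b * x * b⁻¹ = a * x * a⁻¹ := by rw [eb]; group
      _ = _ := xi
  -- the dihedral group `⟨f, b⟩`
  have fbD : f * b ∈ centralizer (D : Set T) := mul_mem fD bD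
  have g1 : piPart ({2}ᶜ : Set ℕ) (f * b) ≠ 1 := by
    intro h1
    have h2 := commute_of_two hD hT hM hb hbB x1 xo bx xD fD
      (by rw [Set.pair_comm]; exact isPGroup_of_part hf.1 hb.1 h1)
    have h3 : Commute f (x * x) := by
      have := (hf.2.2 a ha.2.1).mul_right h2.symm
      rwa [eb, ← mul_assoc, ha.1, one_mul] at this
    exact fD' (mem_of_sylow hT hM ha x1 xo xi xD hB hf.2.1 (commute_of_sq xo h3))
  have go := isPiElt_compl_two_iff.1 (isPiElt_piPart ({2}ᶜ : Set ℕ) (f * b))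
  have gi := inverts_of_mem_zpowers (inverts_mul hf.1 hb.1)
    (piPart_mem_zpowers ({2}ᶜ : Set ℕ) (f * b))
  have uD := mem_of_two hD hT hM hf g1 go gi (piPart_mem fbD) (isPiElt_piPart {2} (f * b))
    (piPart_mem fbD) (commute_piPart_piPart (Commute.refl _))
  have eg := piPart_compl_mul_piPart {2} (f * b)
  obtain ⟨y, hy, ey⟩ := exists_sqrt go
  have yD : y ∈ centralizer (D : Set T) := zpowers_le.2 (piPart_mem fbD) hy
  have fy := inverts_of_mem_zpowers gi hy
  set u := piPart ({2} : Set ℕ) (f * b)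
  set k := f * y with hk
  have kD : k ∈ centralizer (D : Set T) := mul_mem fD yD
  have kk : k * k = 1 := by
    calc k * k = f * y * f⁻¹ * y := by rw [hk, fi]; group
      _ = 1 := by rw [fy]; group
  have ek : k * f * k⁻¹ = b * u⁻¹ := by
    calc k * f * k⁻¹ = f * y * (f * y⁻¹ * f⁻¹) := by rw [hk]; group
      _ = f * (y * y * u) * u⁻¹ := by rw [← conj_inv, fy]; group
      _ = b * u⁻¹ := by rw [ey, eg, ← mul_assoc, hf.1, one_mul]
  have ez : j * k * f * (j * k)⁻¹ = a * u⁻¹ := by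
    calc j * k * f * (j * k)⁻¹ = j * (k * f * k⁻¹) * j⁻¹ := by group
      _ = (j * j) * a * (j * j)⁻¹ * (j * u⁻¹ * j⁻¹) := by rw [ek, hbdef]; group
      _ = a * u⁻¹ := by rw [hj.1, ← jD _ (inv_mem uD)]; group
  have zD : j * k ∈ centralizer (D : Set T) := mul_mem jD kD
  have auB : a * u⁻¹ ∈ B := mul_mem ha.2.1 (hB (inv_mem uD))
  by_cases g2 : piPart ({2}ᶜ : Set ℕ) (j * k) = 1
  · have h2 := commute_of_two hD hT hM hj hjB x1 xo jx xD kD (isPGroup_of_part hj.1 kk g2)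
    have zz : j * k * (j * k) = 1 := by rw [h2.symm.mul_mul_mul_comm, hj.1, kk, one_mul]
    set z := j * k
    have hf' := hf.conj z
    have hx' : z * f * z⁻¹ * x * (z * f * z⁻¹)⁻¹ = x⁻¹ := by
      calc _ = a * x * a⁻¹ := by rw [ez, mul_assoc a, xD _ (inv_mem uD)]; group
        _ = _ := xi
    have h3 := commute_of_two hD hT hM hf' (sD hB zD) x1 xo hx' xD zD
      (CL.Inv.isPGroup_closure_pair_of_invol hf'.1 zz ⟨2, by
        have h4 : Commute f (z * f * z⁻¹) := hf.2.2 _ (ez ▸ auB)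
        have zi : z⁻¹ = z := inv_eq_of_mul_eq_one_right zz
        have h5 : z * f * z⁻¹ * z * (z * f * z⁻¹ * z) = z * f * z⁻¹ * f := by
          calc _ = z * f * z⁻¹ * ((z * z) * f) := by group
            _ = _ := by rw [zz, one_mul]
        rw [show 2 ^ 2 = 2 * 2 by norm_num, pow_mul, sq, sq, h5, h4.mul_mul_mul_comm,
          hf'.1, hf.1, one_mul]⟩)
    have h6 : f = z * f * z⁻¹ := by
      calc f = z⁻¹ * (z * f * z⁻¹ * z) := by group
        _ = _ := by rw [h3.eq]; group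
    apply afD
    rw [h6, ez, ← mul_assoc, ha.1, one_mul]
    exact inv_mem uD
  · have go2 := isPiElt_compl_two_iff.1 (isPiElt_piPart ({2}ᶜ : Set ℕ) (j * k))
    have gi2 := inverts_of_mem_zpowers (inverts_mul hj.1 kk)
      (piPart_mem_zpowers ({2}ᶜ : Set ℕ) (j * k))
    have gD2 : piPart ({2}ᶜ : Set ℕ) (j * k) ∈ centralizer (D : Set T) := piPart_mem zD
    have uD2 := mem_of_two hD hT hM hj g2 go2 gi2 gD2 (isPiElt_piPart {2} (j * k))
      (piPart_mem zD) (commute_piPart_piPart (Commute.refl _))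
    have eg2 := piPart_compl_mul_piPart {2} (j * k)
    set g := piPart ({2}ᶜ : Set ℕ) (j * k)
    set v := piPart ({2} : Set ℕ) (j * k)
    have e1 : g * f * g⁻¹ = a * u⁻¹ := by
      rw [← ez, ← eg2, mul_assoc g v, fD _ uD2]; group
    obtain ⟨c, hc, hcB⟩ := hT j g hj.1 go2 gi2 B (h⁻¹ • B)
    have c1 := hj.2.2 _ (hcB ▸ conj_mem_smul c hf.2.1)
    have c2 := hj.2.2 _ (hcB ▸ conj_mem_smul c (e1 ▸ auB))
    have e2 : c * (g * f * g⁻¹) * c⁻¹ = g * (c * f * c⁻¹) * g⁻¹ := by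
      calc _ = (c * g) * f * (c * g)⁻¹ := by group
        _ = _ := by rw [hc.eq]; group
    rw [e2] at c2
    set w := c * f * c⁻¹ with hw
    have e3 : g⁻¹ * w * g = g * w * g⁻¹ := by
      calc g⁻¹ * w * g = (j * g * j⁻¹) * (j * w * j⁻¹) * (j * g * j⁻¹)⁻¹ := by
            rw [gi2, c1.eq]; group
        _ = j * (g * w * g⁻¹) * j⁻¹ := by group
        _ = _ := by rw [c2.eq]; group
    have h4 : Commute w g := commute_of_sq go2 (by
      calc w * (g * g) = g * (g⁻¹ * w * g) * g := by group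
        _ = g * g * w := by rw [e3]; group)
    have h5 : Commute f g := by
      have := (hc.inv_left.mul_left h4).mul_left hc
      simpa [hw, mul_assoc] using this
    exact fD' (mem_of_sylow hT hM hj g2 go2 gi2 gD2 hB hf.2.1 h5)

end Main

/-- a simple group in which the centralizer of each element of odd order inverted by an
involution is transitive on the Sylow 2-subgroups has odd order or is cyclic -/
theorem simple_tr [IsSimpleGroup T] (h2 : 2 ∣ Nat.card T)
    (hT : ∀ e g : T, e * e = 1 → Odd (orderOf g) → e * g * e⁻¹ = g⁻¹ → Tr g) :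
    Group.IsSolvable T := by
  classical
  by_contra hs
  obtain ⟨S⟩ : Nonempty (Sylow 2 T) := inferInstance
  have hS : Nontrivial S := by
    rw [Subgroup.nontrivial_iff_ne_bot]
    intro h
    exact S.not_dvd_index (by rw [h, index_bot]; exact h2)
  obtain ⟨t, ht⟩ := exists_prime_orderOf_dvd_card' (G := center S) 2 (by
    obtain ⟨k, hk, e⟩ := (S.isPGroup'.to_subgroup (center S)).nontrivial_iff_card.1
      S.isPGroup'.center_nontrivial
    rw [e]; exact dvd_pow_self 2 hk.ne')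
  have ht' : orderOf ((t : S) : T) = 2 := by rw [orderOf_coe, orderOf_coe, ht]
  obtain ⟨x₀, h1, ho, hi⟩ := Cfsg.Agent.S0200.result _ ht' fun N hN hp htN => by
    rcases hN.eq_bot_or_eq_top with rfl | rfl
    · rw [mem_bot.1 htN] at ht'; simp at ht'
    · haveI := (hp.of_equiv topEquiv).isNilpotent
      exact hs inferInstance
  have hZ : ZI S ((t : S) : T) := ⟨by
    have := pow_orderOf_eq_one ((t : S) : T)
    rwa [ht', sq] at this, (t : S).2,
    fun w hw => congrArg Subtype.val (mem_center_iff.1 t.2 ⟨w, hw⟩).symm⟩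
  obtain ⟨⟨B, a, x⟩, ⟨ha, x1, xo, xi⟩, hmax⟩ := Set.exists_max_image
    {p : Sylow 2 T × T × T | ZI p.1 p.2.1 ∧ p.2.2 ≠ 1 ∧ Odd (orderOf p.2.2) ∧
      p.2.1 * p.2.2 * p.2.1⁻¹ = p.2.2⁻¹}
    (fun p => Nat.card ↥((p.1 : Subgroup T) ⊓ cent(p.2.2))) (Set.toFinite _)
    ⟨⟨S, _, x₀⟩, hZ, h1, ho, hi⟩
  simp only at ha x1 xo xi hmax
  have key : ∀ f, ZI B f → f ∈ normalizer (zpowers x : Set T) := by
    intro f hf
    have hn : ∀ g : T, Commute g x → g ∈ normalizer (zpowers x : Set T) := fun g hg => by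
      rw [mem_normalizer_iff_map_conj_eq, MonoidHom.map_zpowers]
      simp only [MonoidHom.coe_coe, MulAut.conj_apply, hg.eq, mul_inv_cancel_right]
    have han : a ∈ normalizer (zpowers x : Set T) := by
      rw [mem_normalizer_iff_map_conj_eq, MonoidHom.map_zpowers]
      simp only [MonoidHom.coe_coe, MulAut.conj_apply, xi, zpowers_inv]
    rcases mem_or_mul_mem (D := (B : Subgroup T) ⊓ cent(x)) B.isPGroup'.to_inf_left hT
      (fun S e g h1 h2 h3 h4 => hmax ⟨S, e, g⟩ ⟨h1, h2, h3, h4⟩) ha hf inf_le_left x1 xo xi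
      (fun d hd => (mem_cent.1 hd.2).eq) with h | h
    · exact hn f (mem_cent.1 h.2)
    · exact (mul_mem_cancel_left han).1 (hn _ (mem_cent.1 h.2))
  have a1 : a ≠ 1 := by
    rintro rfl
    exact x1 (eq_one_of_odd_of_sq xo (by rw [sq, ← eq_inv_iff_mul_eq_one]; simpa using xi))
  have hN : normalClosure ({a} : Set T) ≤ normalizer (zpowers x : Set T) := by
    refine (closure_le _).2 fun y hy => ?_
    obtain ⟨a', ha', hy'⟩ := Group.mem_conjugatesOfSet_iff.1 hy
    rw [Set.mem_singleton_iff.1 ha'] at hy'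
    obtain ⟨g, rfl⟩ := isConj_iff.1 hy'
    obtain ⟨c, hc, hcB⟩ := hT _ x ha.1 xo xi (g • B) B
    have h3 := key _ (hcB ▸ (ha.conj g).conj c)
    have hcn : c ∈ normalizer (zpowers x : Set T) := by
      rw [mem_normalizer_iff_map_conj_eq, MonoidHom.map_zpowers]
      simp only [MonoidHom.coe_coe, MulAut.conj_apply, hc.eq, mul_inv_cancel_right]
    exact (mul_mem_cancel_left hcn).1 ((mul_mem_cancel_right (inv_mem hcn)).1 h3)
  rcases (normalClosure_normal (s := ({a} : Set T))).eq_bot_or_eq_top with h | h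
  · exact a1 (mem_bot.1 (h ▸ subset_normalClosure (Set.mem_singleton a)))
  · rw [h, top_le_iff, normalizer_eq_top_iff] at hN
    rcases hN.eq_bot_or_eq_top with h' | h'
    · exact x1 (mem_bot.1 (h' ▸ mem_zpowers x))
    · haveI : IsCyclic T := ⟨⟨x, fun y => by
        have : y ∈ zpowers x := h' ▸ mem_top y
        exact this⟩⟩
      exact hs inferInstance

end CL.Fgs.RealSyl
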