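/-
An elementary abelian group acting coprimely with unique invariant Sylow subgroups and fixed points of odd order:
definitions, the elementary layer, and the statements of the pieces of the solvability proof.
-/
import Cfsg.Agent.Fgs.MartA
import Cfsg.Agent.Loc.SigAct

set_option autoImplicit false

open Subgroup Cfsg CL.Odd CL.Grp CL.Fgs
open scoped commutatorElement Pointwise

namespace CL.Row

universe u

variable {G : Type u} [Group G] [Finite G] {A B B' K L N X Y V P Q : Subgroup G} {r p q : ℕ}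

/-- an `A`-invariant `p`-subgroup of `K` -/
structure IG (A K : Subgroup G) (p : ℕ) (X : Subgroup G) : Prop where
  hp : p.Prime
  le : X ≤ K
  norm : A ≤ N[X]
  pg : IsPGroup p X

/-- an `A`-invariant Sylow `p`-subgroup of `K` -/
structure IS (A K : Subgroup G) (p : ℕ) (P : Subgroup G) : Prop where
  hp : p.Prime
  syl : IsSylowIn p P K
  norm : A ≤ N[P]

/-- the hypothesis of the theorem -/
structure Hyp (A K : Subgroup G) (r : ℕ) : Prop where
  hr : r.Prime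
  el : IsElementaryAbelian r A
  norm : A ≤ N[K]
  cop : (Nat.card A).Coprime (Nat.card K)
  uniq : ∀ p X Y, IG A K p X → IG A K p Y → IsPGroup p ↥(X ⊔ Y)
  odd : Odd (Nat.card ↥(K ⊓ C[A]))

/-- a subgroup of order `r` of `A` -/
structure Ln (A : Subgroup G) (r : ℕ) (B : Subgroup G) : Prop where
  le : B ≤ A
  card : Nat.card B = r

/-- rank two -/
structure Hyp2 (A K : Subgroup G) (r : ℕ) : Prop extends Hyp A K r where
  card : Nat.card A = r ^ 2
  r2 : r ≠ 2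
  solc : ∀ B, Ln A r B → Group.IsSolvable ↥(K ⊓ C[B])

/-- a simple minimal counterexample -/
structure Min (A K : Subgroup G) (r : ℕ) : Prop extends Hyp A K r where
  nsol : ¬ Group.IsSolvable K
  sol : ∀ N : Subgroup G, N < K → A ≤ N[N] → Group.IsSolvable N
  simp : ∀ N : Subgroup G, N ≤ K → K ≤ N[N] → N = ⊥ ∨ N = K

/-- a simple minimal counterexample of rank two -/
structure Min2 (A K : Subgroup G) (r : ℕ) : Prop extends Hyp2 A K r, Min A K r

/-- towers: `S = [S, A]` over an odd `Q` over `V` -/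
def TL : Prop := ∀ (G : Type u) [Group G] [Finite G] (A K S Q V : Subgroup G) (r s q p : ℕ), Hyp2 A K r →
  IG A K s S → IG A K q Q → IG A K p V → q ≠ 2 → s ≠ q → p ≠ q → S ≤ N[Q] → S ≤ N[V] → Q ≤ N[V] → ⁅S, A⁆ = S →
  ⁅Q, S⁆ ≤ C[V]

/-- Thompson factorization for odd primes -/
def TF : Prop := ∀ (G : Type u) [Group G] [Finite G] (A K P : Subgroup G) (r p : ℕ), Hyp A K r →
  Group.IsSolvable K → IS A K p P → p ≠ 2 → P ≠ ⊥ → ∃ X Y : Subgroup G, X ≤ P ∧ X ≠ ⊥ ∧ N[P] ≤ N[X] ∧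
    Y ≤ P ∧ Y ≠ ⊥ ∧ N[P] ≤ N[Y] ∧ K ≤ piCoreOf {p}ᶜ K ⊔ (K ⊓ N[X]) ⊔ (K ⊓ N[Y])

/-- no subgroup of order `r` centralises the invariant Sylow `2`-subgroup -/
def F2 : Prop := ∀ (G : Type u) [Group G] [Finite G] (A K T B : Subgroup G) (r : ℕ), Min2 A K r →
  IS A K 2 T → Ln A r B → ¬ T ≤ C[B]

/-- some invariant `2`-subgroup acts non-trivially on an invariant `3`-subgroup -/
def F3 : Prop := ∀ (G : Type u) [Group G] [Finite G] (A K : Subgroup G) (r : ℕ), Min A K r →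
  ∃ Y V : Subgroup G, IG A K 2 Y ∧ IG A K 3 V ∧ Y ≤ N[V] ∧ ¬ Y ≤ C[V]

/-- the rank-two case -/
def Rk2 : Prop := ∀ (G : Type u) [Group G] [Finite G] (A K : Subgroup G) (r : ℕ), ¬ Min2 A K r

/-- the theorem -/
def Thm : Prop := ∀ (G : Type u) [Group G] [Finite G] (A K : Subgroup G) (r : ℕ), Hyp A K r → Group.IsSolvable K

/-- the reduction to rank two -/
def Red : Prop := F3.{u} → Rk2.{u} → Thm.{u}

theorem le_of_sup_der_of_nil (hn : Group.IsNilpotent X) (h : Y ≤ X) (e : X ≤ Y ⊔ ⁅X, X⁆) : X ≤ Y := by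
  by_contra hc
  obtain ⟨L, ⟨hKL, hLH⟩, hmax⟩ := (wellFounded_gt (α := Subgroup G)).has_min
    {L | Y ≤ L ∧ L < X} ⟨Y, le_rfl, lt_of_le_of_ne h fun e => hc e.ge⟩
  have h1 := lt_inf_norm_of_nil hn hLH
  have h2 : X ≤ N[L] := by
    by_contra h2
    exact hmax (X ⊓ N[L]) ⟨hKL.trans h1.le, lt_of_le_of_ne inf_le_left fun e => h2 (inf_eq_left.1 e)⟩ h1
  exact (sup_der_lt_of_sol (sol_of_nil hn) ⟨hLH.le, h2⟩ hLH.ne).not_ge (e.trans (sup_le_sup_right hKL _))

namespace IG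

omit [Finite G] in
theorem of_le (h : IG A K p X) (hY : Y ≤ X) (hn : A ≤ N[Y]) : IG A K p Y :=
  ⟨h.hp, hY.trans h.le, hn, h.pg.to_le hY⟩

omit [Finite G] in
theorem mono (h : IG A K p X) (hL : X ≤ L) : IG A L p X := ⟨h.hp, hL, h.norm, h.pg⟩

theorem nil (h : IG A K p X) : Group.IsNilpotent X := nil_of_isPGroup h.hp h.pg

theorem sol (h : IG A K p X) : Group.IsSolvable X := sol_of_isPGroup h.hp h.pg

theorem cop (h : IG A K p X) (k : IG A K q Y) (hne : p ≠ q) : (Nat.card X).Coprime (Nat.card Y) :=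
  coprime_card_of_isPGroup_ne h.hp k.hp hne h.pg k.pg

omit [Finite G] in
theorem inf (h : IG A K p X) (hn : A ≤ N[Y]) : IG A K p (X ⊓ Y) := h.of_le inf_le_left (le_norm_inf h.norm hn)

omit [Finite G] in
theorem inf' (h : IG A K p X) (hn : A ≤ N[Y]) : IG A K p (Y ⊓ X) := h.of_le inf_le_right (le_norm_inf hn h.norm)

omit [Finite G] in
theorem comm (h : IG A K p X) (hn : A ≤ N[Y]) (hY : Y ≤ N[X]) : IG A K p ⁅X, Y⁆ :=
  h.of_le (comm_le_left hY) (le_norm_comm h.norm hn)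

omit [Finite G] in
theorem star (h : IG A K p X) : IG A K p ⁅X, A⁆ := h.comm (le_norm_self A) h.norm

theorem quo (h : IG A K p X) (N : Subgroup G) : IG (quo N A) (quo N K) p (quo N X) :=
  ⟨h.hp, quo_mono N h.le, quo_le_norm N h.norm, isPGroup_quo h.pg N⟩

omit [Finite G] in
theorem core (hp : p.Prime) (hL : L ≤ K) (hn : A ≤ N[L]) : IG A K p (pCoreOf p L) :=
  ⟨hp, (pCoreOf_le p L).trans hL, hn.trans (normalizer_le_normalizer_pCoreOf p L), pCoreOf_isPGroup p L⟩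

end IG

omit [Finite G] in
theorem IS.ig (h : IS A K p P) : IG A K p P := ⟨h.hp, h.syl.le, h.norm, h.syl.isPGroup⟩

namespace Hyp

variable (h : Hyp A K r)
include h

omit [Finite G] in
theorem abA : IsMulCommutative A := h.el.1

omit [Finite G] in
theorem solA : Group.IsSolvable A := sol_of_abelian h.abA

theorem copX (hX : X ≤ K) : (Nat.card A).Coprime (Nat.card X) := coprime_of_le_right h.cop hX

theorem copB (hB : B ≤ A) (hX : X ≤ K) : (Nat.card B).Coprime (Nat.card X) := coprime_of_le_left (h.copX hX) hB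

omit [Finite G] in
theorem nB (hB : B ≤ A) : A ≤ N[B] := le_norm_of_abelian h.abA le_rfl hB

omit [Finite G] in
theorem nC (hB : B ≤ A) : A ≤ N[C[B]] := le_norm_cent (h.nB hB)

theorem sub (hX : X ≤ K) (hn : A ≤ N[X]) : Hyp A X r :=
  ⟨h.hr, h.el, hn, h.copX hX, fun p _ _ a b => h.uniq p _ _ (a.mono (a.le.trans hX)) (b.mono (b.le.trans hX)),
    odd_of_le h.odd (inf_le_inf_right _ hX)⟩

theorem exists_IS (hp : p.Prime) : ∃ P, IS A K p P :=
  (coprime_Sylow_exists hp h.norm h.cop (Or.inl h.solA)).imp fun _ hP => ⟨hp, hP.1, hP.2⟩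

theorem le_syl (hP : IS A K p P) (hX : IG A K p X) : X ≤ P :=
  have := Fact.mk hP.hp
  le_sup_right.trans (hP.syl.eq_of_le (h.uniq p _ _ hP.ig hX) le_sup_left (sup_le hP.syl.le hX.le)).le

theorem syl_inf (hP : IS A K p P) (hN : N ≤ K) (hn : A ≤ N[N]) : IS A N p (N ⊓ P) := by
  have := Fact.mk hP.hp
  obtain ⟨S, hS⟩ := (h.sub hN hn).exists_IS hP.hp
  have h3 : S ≤ N ⊓ P := le_inf hS.syl.le (h.le_syl hP (hS.ig.mono (hS.syl.le.trans hN)))
  rwa [hS.syl.eq_of_le (hP.syl.isPGroup.to_le inf_le_right) h3 inf_le_left]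

theorem quo (hN : N ≤ K) (hKN : K ≤ N[N]) (hn : A ≤ N[N]) : Hyp (quo N A) (quo N K) r := by
  refine ⟨h.hr, ea_quo h.el N, quo_le_norm N h.norm, coprime_quo h.cop N, fun p X Y hX hY => ?_, ?_⟩
  · have := Fact.mk hX.hp
    obtain ⟨P, hP⟩ := h.exists_IS hX.hp
    have key : ∀ X, IG (CL.Odd.quo N A) (CL.Odd.quo N K) p X → X ≤ CL.Odd.quo N P := fun X hX => by
      have h1 : coquo N X ≤ K := coquo_le_of_le_quo hN hX.le
      have h2 := sylow_quo hX.hp (h.syl_inf hP h1 (le_norm_coquo hn hX.norm)).syl (coquo_le_norm X)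
      rw [quo_coquo] at h2
      exact (h2.eq_of_le hX.pg h2.le le_rfl).le.trans (quo_mono N inf_le_right)
    exact (isPGroup_quo hP.syl.isPGroup N).to_le (sup_le (key X hX) (key Y hY))
  · rw [coprime_quo_cent h.norm ⟨hN, hKN⟩ hn (h.copX hN) (Or.inl h.solA)]
    exact odd_quo h.odd N

omit [Finite G] h in
theorem cj_ig (hX : IG A K p X) {c : G} (hc : c ∈ K ⊓ C[A]) : IG A K p (cj c • X) :=
  ⟨hX.hp, cj_le_of_mem hX.le hc.1, by
    rw [← cj_normalizer, ← cj_eq_self_of_mem_cent hc.2]; exact cj_mono c hX.norm, isPGroup_cj.2 hX.pg⟩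

/-- the fixed points normalise the invariant Sylow subgroups -/
theorem cent_norm (hP : IS A K p P) : K ⊓ C[A] ≤ N[P] := fun _ hc =>
  mem_norm_of_cj_le (h.le_syl hP (cj_ig hP.ig hc))

/-- if `Y` normalises `V`, it centralises the fixed points in `V` -/
theorem star (hY : IG A K q Y) (hV : IG A K p V) (hne : p ≠ q) (hn : Y ≤ N[V]) : V ⊓ C[A] ≤ C[Y] := by
  have := Fact.mk hY.hp
  have sd := Sdp.of_coprime hn (hV.cop hY hne)
  have hs : IS A (V ⊔ Y) q Y := ⟨hY.hp, hall_sylow (sd.hall_right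
    (have := Fact.mk hV.hp; isPiSubgroup_of_isPGroup hV.pg hne) (isPiSubgroup_singleton_iff.2 hY.pg)), hY.norm⟩
  have h1 : V ⊓ C[A] ≤ N[Y] := (inf_le_inf_right _ le_sup_left).trans
    ((h.sub (sup_le hV.le hY.le) (le_norm_sup hV.norm hY.norm)).cent_norm hs)
  refine comm_eq_bot_iff.1 (eq_bot_iff.2 (le_trans (le_inf ?_ (comm_le_right h1)) sd.inf_eq.le))
  exact (commutator_mono inf_le_left le_rfl).trans (comm_le_left hn)

theorem two_cent (hY : IG A K 2 Y) : Y ⊓ C[A] = ⊥ := by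
  have := Fact.mk Nat.prime_two
  obtain ⟨n, hn⟩ := IsPGroup.iff_card.1 (hY.pg.to_le (inf_le_left : Y ⊓ C[A] ≤ Y))
  have h1 := odd_of_le h.odd (inf_le_inf_right C[A] hY.le)
  rw [hn] at h1
  rcases n with _ | n
  · exact card_eq_one.1 hn
  · exact absurd h1 (Nat.not_odd_iff_even.2 (Nat.even_pow.2 ⟨even_two, n.succ_ne_zero⟩))

theorem dec (hX : X ≤ K) (hn : A ≤ N[X]) : ⁅X, A⁆ ⊔ (X ⊓ C[A]) = X :=
  coprime_cent_prod hn (h.copX hX) (Or.inl h.solA)

theorem star_star (hX : X ≤ K) (hn : A ≤ N[X]) : ⁅⁅X, A⁆, A⁆ = ⁅X, A⁆ := coprime_commGid hn (h.copX hX)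

theorem two_star (hY : IG A K 2 Y) : ⁅Y, A⁆ = Y := by
  have := h.dec hY.le hY.norm
  rwa [h.two_cent hY, sup_bot_eq] at this

/-- `[V, Y]` is its own commutator with `A` -/
theorem comm_star (hY : IG A K q Y) (hV : IG A K p V) (hne : p ≠ q) (hn : Y ≤ N[V]) : ⁅⁅V, Y⁆, A⁆ = ⁅V, Y⁆ := by
  have hD := hV.comm hY.norm hn
  have nD : Y ≤ N[⁅V, Y⁆] := right_le_norm_comm V Y
  have c1 : (Nat.card Y).Coprime (Nat.card ↥⁅V, Y⁆) := hY.cop hD hne.symm
  have e : ⁅⁅V, Y⁆, Y⁆ = ⁅V, Y⁆ := coprime_commGid hn (hY.cop hV hne.symm)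
  have h1 : ⁅V, Y⁆ ⊓ C[Y] ≤ ⁅⁅V, Y⁆, ⁅V, Y⁆⁆ :=
    (coprime_der1_sdprod (Sdp.of_coprime nD c1.symm) c1.symm hD.sol
      (e.ge.trans (comm_le_der le_sup_left le_sup_right))).2
  refine le_antisymm (comm_le_left hD.norm) ?_
  refine le_of_sup_der_of_nil hD.nil (comm_le_left hD.norm) ?_
  exact (h.dec hD.le hD.norm).ge.trans (sup_le_sup_left ((le_inf inf_le_left (h.star hY hD hne nD)).trans h1) _)

end Hyp

namespace Hyp2

variable (h : Hyp2 A K r)
include h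

omit [Finite G] in
theorem prime (b : Ln A r B) : (Nat.card B).Prime := b.card ▸ h.hr

omit [Finite G] in
theorem ne_bot (b : Ln A r B) : B ≠ ⊥ := fun e => (h.prime b).ne_one (by rw [e]; exact card_bot)

theorem not_le (b : Ln A r B) : ¬ A ≤ B := fun e => by
  have h1 := card_le_of_le e
  have h2 := h.hr.two_le
  rw [h.card, b.card] at h1
  nlinarith

theorem sup_eq (b : Ln A r B) (b' : Ln A r B') (hne : B ≠ B') : B ⊔ B' = A := by
  have hi : (B.relIndex A).Prime :=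
    (HH.prime_card_and_index h.hr h.hr (by rw [h.card, sq]) b.le (h.ne_bot b) fun e => h.not_le b e.ge).2
  exact HH.eq_of_prime_index hi le_sup_left (sup_le b.le b'.le)
    fun e => hne (Subgroup.eq_of_le_of_card_ge (le_sup_right.trans e) (by rw [b.card, b'.card])).symm

theorem ln_zp {a : G} (ha : a ∈ A) (h1 : a ≠ 1) : Ln A r (zpowers a) :=
  have := Fact.mk h.hr
  ⟨zpowers_le.2 ha, by rw [Nat.card_zpowers]; exact orderOf_eq_prime (h.el.2 a ha) h1⟩

theorem nc : ¬ IsCyclic A := fun e => by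
  obtain ⟨a, rfl⟩ := cyclic_iff.1 e
  by_cases h1 : a = 1
  · have h2 := h.card
    have h3 := h.hr.two_le
    rw [h1, zpowers_one_eq_bot, card_bot] at h2
    nlinarith
  · exact h.not_le (h.ln_zp (mem_zpowers a) h1) le_rfl

/-- three subgroups of order `r` do not cover `A` -/
theorem exists_ln (B₁ B₂ B₃ : Subgroup G) : ∃ B, Ln A r B ∧ B ≠ B₁ ∧ B ≠ B₂ ∧ B ≠ B₃ := by
  classical
  by_contra hc
  push Not at hc
  have := Fintype.ofFinite G
  let f : Subgroup G → Finset G := fun B => if Nat.card B = r then ((B : Set G).toFinset.erase 1) else ∅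
  have hf : ∀ B, (f B).card ≤ r - 1 := fun B => by
    by_cases e : Nat.card B = r
    · simp only [f, if_pos e]
      rw [Finset.card_erase_of_mem (by simp), Set.toFinset_card, ← Nat.card_eq_fintype_card]
      exact Nat.sub_le_sub_right (le_of_eq e) 1
    · simp only [f, if_neg e]
      exact Nat.zero_le _
  have hs : (A : Set G).toFinset.erase 1 ⊆ f B₁ ∪ f B₂ ∪ f B₃ := fun a ha => by
    obtain ⟨h1, h2⟩ := Finset.mem_erase.1 ha
    have b := h.ln_zp (by simpa using h2) h1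
    have k : a ∈ f (zpowers a) := by
      simp only [f, if_pos b.card]
      exact Finset.mem_erase.2 ⟨h1, by simp⟩
    by_cases e1 : zpowers a = B₁
    · simp [← e1, k]
    by_cases e2 : zpowers a = B₂
    · simp [← e2, k]
    · simp [← hc _ b e1 e2, k]
  have h1 := Finset.card_le_card hs
  rw [Finset.card_erase_of_mem (by simp), Set.toFinset_card, ← Nat.card_eq_fintype_card] at h1
  have h2 : Nat.card (A : Set G) = r ^ 2 := h.card
  have h3 := (Finset.card_union_le _ _).trans (Nat.add_le_add (Finset.card_union_le (f B₁) (f B₂)) le_rfl)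
    (a := (f B₁ ∪ f B₂ ∪ f B₃).card)
  have h4 := hf B₁
  have h5 := hf B₂
  have h6 := hf B₃
  have h7 : 3 ≤ r := lt_of_le_of_ne h.hr.two_le h.r2.symm
  obtain ⟨k, rfl⟩ := Nat.exists_eq_add_of_le h7
  have h8 : (3 + k) ^ 2 = 9 + 6 * k + k ^ 2 := by ring
  omega

theorem sub (hX : X ≤ K) (hn : A ≤ N[X]) : Hyp2 A X r :=
  ⟨h.toHyp.sub hX hn, h.card, h.r2, fun B b => sol_of_le (h.solc B b) (inf_le_inf_right _ hX)⟩

theorem ln_quo (hN : N ≤ K) (hn : A ≤ N[N]) (b : Ln A r B) : Ln (quo N A) r (quo N B) :=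
  ⟨quo_mono N b.le, (card_quo_of_inf_eq_bot (b.le.trans hn)
    (inf_eq_bot_of_coprime_card (h.copB b.le hN).symm)).trans b.card⟩

theorem exists_ln_quo (hN : N ≤ K) (hn : A ≤ N[N]) {D : Subgroup (Quo N)} (d : Ln (quo N A) r D) :
    ∃ B, Ln A r B ∧ quo N B = D := by
  have e : quo N (A ⊓ coquo N D) = D := by rw [quo_inf_coquo, inf_eq_right.2 d.le]
  refine ⟨_, ⟨inf_le_left, ?_⟩, e⟩
  rw [← card_quo_of_inf_eq_bot (inf_le_left.trans hn)
    (inf_eq_bot_of_coprime_card (h.copB inf_le_left hN).symm), e, d.card]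

theorem quo (hN : N ≤ K) (hKN : K ≤ N[N]) (hn : A ≤ N[N]) : Hyp2 (quo N A) (quo N K) r := by
  refine ⟨h.toHyp.quo hN hKN hn, (card_quo_of_inf_eq_bot hn
    (inf_eq_bot_of_coprime_card (h.copX hN).symm)).trans h.card, h.r2, fun D d => ?_⟩
  obtain ⟨B, b, rfl⟩ := h.exists_ln_quo hN hn d
  rw [coprime_quo_cent (b.le.trans h.norm) ⟨hN, hKN⟩ (b.le.trans hn) (h.copB b.le hN)
    (Or.inl (sol_of_le h.solA b.le))]
  exact sol_quo (h.solc B b) N

theorem gen (hX : X ≤ K) (hn : A ≤ N[X]) {M : Subgroup G} (hM : ∀ B, Ln A r B → X ⊓ C[B] ≤ M) : X ≤ M :=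
  coprime_abelian_gen_cent1 h.abA h.nc hn (h.copX hX) fun a ha h1 =>
    centralizer_zpowers a ▸ hM _ (h.ln_zp ha h1)

theorem cent_inf (b : Ln A r B) (b' : Ln A r B') (hne : B ≠ B') : C[B] ⊓ C[B'] = C[A] := by
  rw [← cent_sup, h.sup_eq b b' hne]

theorem comm_eq (b : Ln A r B) (b' : Ln A r B') (hne : B ≠ B') (hY : Y ≤ C[B]) : ⁅Y, B'⁆ = ⁅Y, A⁆ := by
  rw [← h.sup_eq b b' hne, sup_comm]
  exact (comm_sup_cent_right (cent_symm hY)
    (le_norm_comm (le_norm_of_le_cent (cent_symm hY)) (b.le.trans (h.nB b'.le)))).symm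

omit [Finite G] in
theorem nB_inf (hn : A ≤ N[X]) (b : Ln A r B) : A ≤ N[X ⊓ C[B]] := le_norm_inf hn (h.nC b.le)

omit [Finite G] in
theorem st_le (hn : A ≤ N[X]) (b : Ln A r B) : ⁅X ⊓ C[B], A⁆ ≤ X ⊓ C[B] := comm_le_left (h.nB_inf hn b)

omit [Finite G] in
theorem st_ig (hX : IG A K p X) (b : Ln A r B) : IG A K p ⁅X ⊓ C[B], A⁆ := (hX.inf (h.nC b.le)).star

theorem st_st (hX : X ≤ K) (hn : A ≤ N[X]) (b : Ln A r B) : ⁅⁅X ⊓ C[B], A⁆, A⁆ = ⁅X ⊓ C[B], A⁆ :=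
  h.star_star (inf_le_left.trans hX) (h.nB_inf hn b)

theorem st_le_comm (b : Ln A r B) (b' : Ln A r B') (hne : B ≠ B') : ⁅X ⊓ C[B], A⁆ ≤ ⁅X, B'⁆ :=
  (h.comm_eq b b' hne inf_le_right).ge.trans (commutator_mono inf_le_left le_rfl)

theorem gen' (hX : X ≤ K) (hn : A ≤ N[X]) {M : Subgroup G} (hM : ∀ B, Ln A r B → ⁅X ⊓ C[B], A⁆ ≤ M)
    (hC : X ⊓ C[A] ≤ M) : X ≤ M :=
  h.gen hX hn fun B b => (h.dec (inf_le_left.trans hX) (h.nB_inf hn b)).ge.trans
    (sup_le (hM B b) ((inf_le_inf_right _ inf_le_left).trans hC))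

/-- `[X, D]` is generated by the `[C_X(B), A]`, `B ≠ D` -/
theorem gen_comm (hX : IG A K p X) {D M : Subgroup G} (hD : D ≤ A)
    (hM : ∀ B, Ln A r B → B ≠ D → ⁅X ⊓ C[B], A⁆ ≤ M) : ⁅X, D⁆ ≤ M := by
  have hW := hX.comm (h.nB hD) (hD.trans hX.norm)
  have nW : D ≤ N[⁅X, D⁆] := right_le_norm_comm X D
  have c1 : (Nat.card D).Coprime (Nat.card ↥⁅X, D⁆) := h.copB hD hW.le
  have h1 : ⁅X, D⁆ ⊓ C[D] ≤ ⁅⁅X, D⁆, ⁅X, D⁆⁆ :=
    (coprime_der1_sdprod (Sdp.of_coprime nW c1.symm) c1.symm hW.sol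
      ((coprime_commGid (hD.trans hX.norm) (h.copB hD hX.le)).ge.trans (comm_le_der le_sup_left le_sup_right))).2
  refine (le_of_sup_der_of_nil hW.nil (Y := ⁅X, D⁆ ⊓ M) inf_le_left (h.gen' hW.le hW.norm (fun B b => ?_)
    (((inf_le_inf_left _ (cent_anti hD)).trans h1).trans le_sup_right))).trans inf_le_right
  by_cases e : B = D
  · exact ((h.st_le hW.norm b).trans (e ▸ h1)).trans le_sup_right
  · exact (le_inf ((h.st_le hW.norm b).trans inf_le_left) ((commutator_mono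
      (inf_le_inf_right _ (comm_le_left (hD.trans hX.norm))) le_rfl).trans (hM B b e))).trans le_sup_left

theorem gen_star (hX : IG A K p X) {M : Subgroup G} (hM : ∀ B, Ln A r B → ⁅X ⊓ C[B], A⁆ ≤ M) : ⁅X, A⁆ ≤ M :=
  h.gen_comm hX le_rfl fun B b _ => hM B b

theorem exists_st (hX : IG A K p X) {M : Subgroup G} (hM : ¬ ⁅X, A⁆ ≤ M) :
    ∃ B, Ln A r B ∧ ¬ ⁅X ⊓ C[B], A⁆ ≤ M := by
  by_contra hc
  push Not at hc
  exact hM (h.gen_star hX hc)

/-- rank one: `[C_X(B), A] ≤ O_p(C_K(B))` -/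
theorem st_le_core (hX : IG A K p X) (b : Ln A r B) : ⁅X ⊓ C[B], A⁆ ≤ pCoreOf p (K ⊓ C[B]) := by
  obtain ⟨P, hP⟩ := h.exists_IS hX.hp
  obtain ⟨D, d, hD, -⟩ := h.exists_ln B B B
  have hY := h.st_ig hP.ig b
  have hle := h.st_le hP.norm b
  refine (commutator_mono (inf_le_inf_right _ (h.le_syl hP hX)) le_rfl).trans
    (CL.Loc.t3_le_pCoreOf (h.prime d) hX.hp (h.solc B b) (d.le.trans (h.nB_inf h.norm b)) (h.copB d.le inf_le_left)
      hY.pg (hle.trans (inf_le_inf_right _ hP.syl.le)) ?_ (hY.pg.to_le (comm_le_right ?_)) ?_)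
  · rw [h.comm_eq b d hD.symm (hle.trans inf_le_right), h.st_st hP.syl.le hP.norm b]
  · rw [inf_assoc, h.cent_inf b d hD.symm]
    exact le_norm_comm (le_norm_inf (h.cent_norm hP) (inf_le_right.trans (le_norm_cent
      (le_norm_of_le_cent (cent_anti b.le))))) (le_norm_of_le_cent inf_le_right)
  · refine (ne_or_eq p 2).imp_right fun e => eq_bot_iff.2 (le_trans (le_inf inf_le_left ?_) (h.two_cent (e ▸ hY)).le)
    rw [← h.cent_inf b d hD.symm]
    exact inf_le_inf_right _ (hle.trans inf_le_right)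

theorem f1 (hX : IG A K p X) (hY : IG A K q Y) (hne : p ≠ q) (b : Ln A r B) :
    ⁅X ⊓ C[B], A⁆ ≤ C[⁅Y ⊓ C[B], A⁆] :=
  cent_le_cent_mono (h.st_le_core hX b) (h.st_le_core hY b) (le_cent_of_coprime
    ((pCoreOf_le q _).trans (le_normalizer_pCoreOf p _)) ((pCoreOf_le p _).trans (le_normalizer_pCoreOf q _))
    (coprime_card_of_isPGroup_ne hX.hp hY.hp hne (pCoreOf_isPGroup p _) (pCoreOf_isPGroup q _)))

/-- `Y = [Y, A] ≤ C(B)` centralises `V` once it centralises `[C_V(B'), A]` for some `B' ≠ B` -/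
theorem f4 (hY : IG A K q Y) (hV : IG A K p V) (hne : p ≠ q) (hn : Y ≤ N[V]) (b : Ln A r B) (b' : Ln A r B')
    (hB : B ≠ B') (h1 : Y ≤ C[B]) (h2 : ⁅Y, A⁆ = Y) (h3 : ⁅V ⊓ C[B'], A⁆ ≤ C[Y]) : Y ≤ C[V] := by
  refine CL.Loc.t3core (h.prime b') (b'.le.trans hY.norm) (b'.le.trans hV.norm) hn hY.sol hV.sol
    (h.copB b'.le hY.le) (h.copB b'.le hV.le) (hY.cop hV hne.symm) ((h.comm_eq b b' hB h1).trans h2) ?_ ?_
  · exact (h.dec (inf_le_left.trans hV.le) (h.nB_inf hV.norm b')).ge.trans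
      (sup_le h3 ((inf_le_inf_right _ inf_le_left).trans (h.star hY hV hne hn)))
  · by_cases e : q = 2
    · refine Or.inr (le_trans (le_trans (le_inf inf_le_left ?_) (h.two_cent (e ▸ hY)).le) bot_le)
      rw [← h.cent_inf b b' hB]
      exact inf_le_inf_right _ h1
    · exact Or.inl (CL.Loc.odd_card_of_isPGroup hY.hp e hY.pg)

end Hyp2

end CL.Row
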