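/-
Unique invariant Sylow subgroups, rank two: solvable invariant subgroups.
-/
import Cfsg.Agent.Fgs.RowDefs

set_option autoImplicit false

open Subgroup Cfsg CL.Odd CL.Grp CL.Fgs
open scoped commutatorElement Pointwise

namespace CL.Row

universe u

variable {G : Type u} [Group G] [Finite G] {A B B' K L N X Y V P Q S D J : Subgroup G} {r p q s t : ℕ} {π : Set ℕ}

omit [Finite G] in
theorem three (h1 : ⁅Y, V⁆ ≤ C[X]) (h2 : ⁅V, X⁆ ≤ C[Y]) : ⁅X, Y⁆ ≤ C[V] :=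
  comm_eq_bot_iff.1 (commutator_commutator_eq_bot_of_rotate (comm_eq_bot_iff.2 h1) (comm_eq_bot_iff.2 h2))

omit [Finite G] in
theorem three' (h1 : V ≤ C[Y]) (h2 : ⁅V, X⁆ ≤ C[Y]) : ⁅X, Y⁆ ≤ C[V] :=
  three (by rw [comm_eq_bot_iff'.2 h1]; exact bot_le) h2

theorem exists_min (hX : Group.IsNilpotent X) (hD : D ≤ X) (hJ : X ⊔ J ≤ N[D]) (hJX : J ≤ N[X]) (hc : ¬ D ≤ C[A]) :
    ∃ V, V ≤ D ∧ X ⊔ J ≤ N[V] ∧ ¬ V ≤ C[A] ∧ ⁅V, X⁆ ≤ C[A] := by
  obtain ⟨V, -, hV⟩ := exists_minimal_le_of_wellFoundedLT (fun V => V ≤ D ∧ X ⊔ J ≤ N[V] ∧ ¬ V ≤ C[A]) D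
    ⟨le_rfl, hJ, hc⟩
  obtain ⟨h1, h2, h3⟩ := hV.1
  refine ⟨V, h1, h2, h3, by_contra fun e => ?_⟩
  have hlt := comm_lt_of_nil hX (h1.trans hD) (le_sup_left.trans h2) fun e => h3 (e.le.trans bot_le)
  exact hlt.not_ge (hV.2 ⟨hlt.le.trans h1, le_norm_comm h2 (sup_le (le_norm_self X) hJX), e⟩ hlt.le)

omit [Finite G] in
theorem Permutes.sup (h1 : Permutes P X) (h2 : Permutes P Y) : Permutes P (X ⊔ Y) := by
  have key : ∀ y ∈ X ⊔ Y, ∀ a ∈ P, ∃ a' ∈ P, ∃ y' ∈ X ⊔ Y, y * a = a' * y' := fun y hy => by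
    rw [sup_eq_closure] at hy
    induction hy using closure_induction'' with
    | one => exact fun a ha => ⟨a, ha, 1, one_mem _, by simp⟩
    | mem y hy =>
      intro a ha
      rcases hy with hy | hy
      · obtain ⟨b, hb, c, hc, e⟩ := h1 _ (mul_mem (mem_sup_right hy) (mem_sup_left ha))
        exact ⟨b, hb, c, mem_sup_left hc, e⟩
      · obtain ⟨b, hb, c, hc, e⟩ := h2 _ (mul_mem (mem_sup_right hy) (mem_sup_left ha))
        exact ⟨b, hb, c, mem_sup_right hc, e⟩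
    | inv_mem y hy =>
      intro a ha
      rcases hy with hy | hy
      · obtain ⟨b, hb, c, hc, e⟩ := h1 _ (mul_mem (mem_sup_right (inv_mem hy)) (mem_sup_left ha))
        exact ⟨b, hb, c, mem_sup_left hc, e⟩
      · obtain ⟨b, hb, c, hc, e⟩ := h2 _ (mul_mem (mem_sup_right (inv_mem hy)) (mem_sup_left ha))
        exact ⟨b, hb, c, mem_sup_right hc, e⟩
    | mul x y _ _ ihx ihy =>
      intro a ha
      obtain ⟨b, hb, c, hc, e⟩ := ihy a ha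
      obtain ⟨b', hb', c', hc', e'⟩ := ihx b hb
      exact ⟨b', hb', c' * c, mul_mem hc' hc, by rw [mul_assoc, e, ← mul_assoc, e', mul_assoc]⟩
  intro x hx
  rw [sup_eq_closure] at hx
  induction hx using closure_induction'' with
  | one => exact ⟨1, one_mem _, 1, one_mem _, by simp⟩
  | mem y hy =>
    rcases hy with hy | hy
    · exact ⟨y, hy, 1, one_mem _, by simp⟩
    · exact ⟨1, one_mem _, y, hy, by simp⟩
  | inv_mem y hy =>
    rcases hy with hy | hy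
    · exact ⟨y⁻¹, inv_mem hy, 1, one_mem _, by simp⟩
    · exact ⟨1, one_mem _, y⁻¹, inv_mem hy, by simp⟩
  | mul x y _ _ ihx ihy =>
    obtain ⟨a, ha, b, hb, rfl⟩ := ihx
    obtain ⟨c, hc, d, hd, rfl⟩ := ihy
    obtain ⟨c', hc', b', hb', e⟩ := key b hb c hc
    exact ⟨a * c', mul_mem ha hc', b' * d, mul_mem hb' hd, by
      rw [mul_assoc, ← mul_assoc b, e]; simp only [mul_assoc]⟩

theorem core_le (hq : q.Prime) (mem : ∀ s, s ∈ π ↔ s = p ∨ s = q) (hX : IsPiSubgroup π X) :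
    piCoreOf {p}ᶜ X ≤ pCoreOf q X := by
  have := Fact.mk hq
  refine le_pCoreOf (piCoreOf_le _ X) (le_normalizer_piCoreOf _ X) (isPiSubgroup_singleton_iff.1 fun s hs hd => ?_)
  exact ((mem s).1 (hX s hs (hd.trans (card_dvd_of_le (piCoreOf_le _ X))))).resolve_left
    (piCoreOf_isPiSubgroup _ X s hs hd)

theorem Hyp.le_sup (h : Hyp A K r) (mem : ∀ s, s ∈ π ↔ s = p ∨ s = q) (hP : IS A K p P) (hQ : IS A K q Q)
    (hX : X ≤ K) (hn : A ≤ N[X]) (hπ : IsPiSubgroup π X) : X ≤ (X ⊓ P) ⊔ (X ⊓ Q) := le_of_sylow_le fun s hs hd => by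
  rcases (mem s).1 (hπ s hs hd) with rfl | rfl
  · exact ⟨_, (h.syl_inf hP hX hn).syl, le_sup_left⟩
  · exact ⟨_, (h.syl_inf hQ hX hn).syl, le_sup_right⟩

namespace Hyp2

variable (h : Hyp2 A K r)
include h

theorem exists_z (hX : IG A K p X) (hc : ¬ X ≤ C[A]) : ∃ B V, Ln A r B ∧ IG A K p V ∧ V ≤ X ∧ V ≠ ⊥ ∧
    ⁅V, A⁆ = V ∧ V ≤ C[B] ∧ ⁅X, B⁆ ≤ C[V] := by
  obtain ⟨V, h1, h2, h3, h4⟩ := exists_min hX.nil le_rfl (sup_le (le_norm_self X) hX.norm) hX.norm hc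
  have hV := hX.of_le h1 (le_sup_right.trans h2)
  obtain ⟨B, b, hB⟩ := h.exists_st hV (M := ⊥) fun e => h3 (comm_eq_bot_iff.1 (eq_bot_iff.2 e))
  have h5 := h.st_le hV.norm b
  exact ⟨B, _, b, h.st_ig hV b, h5.trans (inf_le_left.trans h1), fun e => hB e.le, h.st_st hV.le hV.norm b,
    h5.trans inf_le_right, three' (h5.trans inf_le_right)
      ((commutator_mono (h5.trans inf_le_left) le_rfl).trans (h4.trans (cent_anti b.le)))⟩

/-- a subgroup `Y = [Y, A]` acting non-trivially on `V` -/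
theorem exists_act (hY : IG A K q Y) (hV : IG A K p V) (hne : p ≠ q) (hn : Y ≤ N[V]) (e : ⁅Y, A⁆ = Y)
    (hc : ¬ Y ≤ C[V]) : ∃ B, Ln A r B ∧ ¬ ⁅Y ⊓ C[B], A⁆ ≤ C[V] ∧
      ∀ B', Ln A r B' → B' ≠ B → ¬ ⁅V ⊓ C[B'], A⁆ ≤ C[⁅Y ⊓ C[B], A⁆] := by
  obtain ⟨B, b, hB⟩ := h.exists_st hY (M := C[V]) (by rwa [e])
  have h1 := h.st_le hY.norm b
  exact ⟨B, b, hB, fun B' b' hB' e' => hB (h.f4 (h.st_ig hY b) hV hne ((h1.trans inf_le_left).trans hn) b b'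
    hB'.symm (h1.trans inf_le_right) (h.st_st hY.le hY.norm b) e')⟩

theorem pp (tl : TL.{u}) (hL : L ≤ K) (hn : A ≤ N[L]) (hs : Group.IsSolvable L) (hX : IG A K t X) (ht : t ≠ 2)
    (hS : IG A K s S) (hne : s ≠ t) (hXL : X ≤ L) (hSL : S ≤ L) (hSX : S ≤ N[X]) (e : ⁅S, A⁆ = S) :
    ⁅X, S⁆ ≤ pCoreOf t L := by
  have nO : L ≤ N[pCoreOf t L] := le_normalizer_pCoreOf t L
  have nA : A ≤ N[pCoreOf t L] := hn.trans (normalizer_le_normalizer_pCoreOf t L)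
  have k := (h.sub hL hn).quo (pCoreOf_le t L) nO nA
  refine CL.Loc.le_pCoreOf_of_cent_fit2 hX.hp hs (hX.pg.to_le (comm_le_left hSX)) ((comm_le_left hSX).trans hXL) ?_
  rw [CL.Loc.quo_fit2, quo_comm (hXL.trans nO) (hSL.trans nO)]
  refine le_cent_fitting_of_pCore fun p hp h0 => tl _ _ _ _ _ _ r s t p k ((hS.mono hSL).quo _) ((hX.mono hXL).quo _)
    (IG.core hp le_rfl k.norm) ht hne ?_ (quo_le_norm _ hSX) ((quo_mono _ hSL).trans (le_normalizer_pCoreOf p _))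
    ((quo_mono _ hXL).trans (le_normalizer_pCoreOf p _)) (by rw [← quo_comm (hSL.trans nO) nA, e])
  rintro rfl
  exact h0 (by rw [← quo_pCoreOf (pCoreOf_normalIn p L) (pCoreOf_isPGroup p L), quo_self])

theorem core_star (tl : TL.{u}) (mem : ∀ s, s ∈ π ↔ s = p ∨ s = q) (hs : Group.IsSolvable K)
    (hπ : IsPiSubgroup π K) (hp : p.Prime) (h2 : p ≠ 2) (hne : p ≠ q) (hQ : IS A K q Q) (h0 : pCoreOf p K = ⊥) :
    K ≤ N[⁅Q, A⁆] := by
  have := Fact.mk hp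
  obtain ⟨P, hP⟩ := h.exists_IS hp
  have hO : IG A K q (pCoreOf q K) := IG.core hQ.hp le_rfl h.norm
  have nO : K ≤ N[pCoreOf q K] := le_normalizer_pCoreOf q K
  have hOQ := h.le_syl hQ hO
  have hF : CL.Loc.fit2 q K ≤ K := CL.Loc.fit2_le q K
  have nF : A ≤ N[CL.Loc.fit2 q K] := CL.Loc.le_norm_fit2 h.norm
  have s1 := h.syl_inf hP hF nF
  have e1 : CL.Loc.fit2 q K ≤ pCoreOf q K ⊔ (CL.Loc.fit2 q K ⊓ P) := by
    refine (h.le_sup mem hP hQ hF nF (isPiSubgroup_of_le hπ hF)).trans (sup_le le_sup_right (le_trans ?_ le_sup_left))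
    exact (quo_eq_bot_iff ((inf_le_left.trans hF).trans nO)).1 (CL.Loc.eq_bot_of_le_quo_fit2 hQ.hp
      (isPGroup_quo (hQ.syl.isPGroup.to_le inf_le_right) _) (quo_mono _ inf_le_left))
  set P₁ := CL.Loc.fit2 q K ⊓ P
  have hP₁ : IG A K p P₁ := s1.ig.mono (s1.syl.le.trans hF)
  have e2 : K ≤ pCoreOf q K ⊔ (K ⊓ N[P₁]) :=
    (sylow_frattini_sup s1.syl hF (CL.Loc.le_norm_fit2 (le_norm_self K))).ge.trans (sup_le (e1.trans
      (sup_le_sup_left (le_inf hP₁.le (le_norm_self _)) _)) le_sup_right)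
  have e3 : Q = pCoreOf q K ⊔ (Q ⊓ (K ⊓ N[P₁])) := by
    rw [← inf_sup_dedekind (Or.inl (inf_le_left.trans nO)) hOQ, inf_eq_left.2 (hQ.syl.le.trans e2)]
  have hU := hQ.ig.inf (le_norm_inf h.norm (le_norm_norm hP₁.norm))
  have hS := hU.star
  have e4 : ⁅Q ⊓ (K ⊓ N[P₁]), A⁆ ≤ pCoreOf q K := by
    refine CL.Loc.le_pCoreOf_of_cent_fit2 hQ.hp hs hS.pg hS.le (cent_symm ((quo_mono _ e1).trans ?_))
    rw [quo_sup_left (hP₁.le.trans nO)]
    exact quo_le_cent _ (comm_eq_bot_iff.1 (eq_bot_iff.2 ((h.pp tl le_rfl h.norm hs hP₁ h2 hS hne.symm hP₁.le hS.le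
      ((comm_le_left hU.norm).trans (inf_le_right.trans inf_le_right)) (h.star_star hU.le hU.norm)).trans h0.le)))
  have e5 : ⁅Q, A⁆ ≤ pCoreOf q K := by
    rw [e3]
    exact comm_sup_left_le (sup_le (le_norm_self _) (hU.le.trans nO)) (comm_le_left hO.norm) e4
  refine (h.le_sup mem hP hQ le_rfl h.norm hπ).trans (sup_le (le_norm_of_comm_le ?_)
    (inf_le_right.trans (left_le_norm_comm Q A)))
  refine (commutator_mono e5 inf_le_right).trans ((h.comm_star hP.ig hO hne.symm (hP.syl.le.trans nO)).ge.trans ?_)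
  exact commutator_mono ((comm_le_left (hP.syl.le.trans nO)).trans hOQ) le_rfl

/-- `O_p(L) [Q, A]` is normal in an invariant `{p, q}`-group, `p` odd -/
theorem norm_sup_star (tl : TL.{u}) (mem : ∀ s, s ∈ π ↔ s = p ∨ s = q) (hs : Group.IsSolvable K)
    (hπ : IsPiSubgroup π K) (hp : p.Prime) (h2 : p ≠ 2) (hne : p ≠ q) (hQ : IS A K q Q) :
    K ≤ N[pCoreOf p K ⊔ ⁅Q, A⁆] := by
  have nO : K ≤ N[pCoreOf p K] := le_normalizer_pCoreOf p K
  have nA : A ≤ N[pCoreOf p K] := h.norm.trans (normalizer_le_normalizer_pCoreOf p K)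
  refine le_norm_sup_of_quo nO (hQ.ig.star.le.trans nO) ?_
  rw [quo_comm (hQ.syl.le.trans nO) nA]
  exact (h.quo (pCoreOf_le p K) nO nA).core_star tl mem (sol_quo hs _) (isPiSubgroup_quo hπ _) hp h2 hne
    ⟨hQ.hp, sylow_quo hQ.hp hQ.syl nO, quo_le_norm _ hQ.norm⟩
    (by rw [← quo_pCoreOf (pCoreOf_normalIn p K) (pCoreOf_isPGroup p K), quo_self])

theorem le_sup_norm_star (tl : TL.{u}) (mem : ∀ s, s ∈ π ↔ s = p ∨ s = q) (hs : Group.IsSolvable K)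
    (hπ : IsPiSubgroup π K) (hp : p.Prime) (h2 : p ≠ 2) (hne : p ≠ q) (hQ : IS A K q Q) :
    K ≤ pCoreOf p K ⊔ (K ⊓ N[⁅Q, A⁆]) := by
  have := Fact.mk hp
  have := Fact.mk hQ.hp
  have hE := hQ.ig.star
  have hO : IG A K p (pCoreOf p K) := IG.core hp le_rfl h.norm
  have sd := Sdp.of_coprime (hE.le.trans (le_normalizer_pCoreOf p K)) (hO.cop hE hne)
  exact (sylow_frattini_sup (hall_sylow (sd.hall_right (isPiSubgroup_of_isPGroup hO.pg hne)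
    (isPiSubgroup_singleton_iff.2 hE.pg))) (sup_le hO.le hE.le)
    (h.norm_sup_star tl mem hs hπ hp h2 hne hQ)).ge.trans
      (sup_le (sup_le_sup_left (le_inf hE.le (le_norm_self _)) _) le_sup_right)

end Hyp2

end CL.Row
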