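/-
Unique invariant Sylow subgroups, rank two: maximal invariant `{p, q}`-subgroups.
-/
import Cfsg.Agent.Fgs.RowL
import Cfsg.Agent.Odd.BGBNormal

set_option autoImplicit false

open Subgroup Cfsg CL.Odd CL.Grp CL.Fgs
open scoped commutatorElement Pointwise

namespace CL.Row

universe u

variable {G : Type u} [Group G] [Finite G] {A B B' K L M H N N₁ N₂ X Y V P Q T : Subgroup G} {r p q : ℕ}
  {π : Set ℕ}

/-- an invariant `π`-subgroup -/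
structure PR (A K : Subgroup G) (π : Set ℕ) (X : Subgroup G) : Prop where
  le : X ≤ K
  norm : A ≤ N[X]
  pi : IsPiSubgroup π X

/-- a non-trivial invariant normal `p`-subgroup of `M` -/
structure NC (A : Subgroup G) (p : ℕ) (M N : Subgroup G) : Prop where
  le : N ≤ pCoreOf p M
  nM : M ≤ N[N]
  nA : A ≤ N[N]
  ne : N ≠ ⊥

/-- invariant Sylow subgroups `P`, `Q` that do not generate a `{p, q}`-group -/
structure Pair (A K : Subgroup G) (r p q : ℕ) (π : Set ℕ) (P Q : Subgroup G) : Prop extends Min2 A K r where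
  ne : p ≠ q
  mem : ∀ s, s ∈ π ↔ s = p ∨ s = q
  sP : IS A K p P
  sQ : IS A K q Q
  np : ¬ IsPiSubgroup π (P ⊔ Q)

omit [Finite G] in
theorem PR.of_le (h : PR A K π X) (hY : Y ≤ X) (hn : A ≤ N[Y]) : PR A K π Y :=
  ⟨hY.trans h.le, hn, isPiSubgroup_of_le h.pi hY⟩

omit [Finite G] in
theorem PR.sup (hX : PR A K π X) (hY : PR A K π Y) (hn : Y ≤ N[X]) : PR A K π (X ⊔ Y) :=
  ⟨sup_le hX.le hY.le, le_norm_sup hX.norm hY.norm, isPiSubgroup_sup' hX.pi hY.pi hn⟩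

theorem PR.exists_max (h : PR A K π X) : ∃ H, X ≤ H ∧ Maximal (PR A K π) H := Finite.exists_le_maximal h

omit [Finite G] in
theorem NC.core (hn : A ≤ N[M]) (h0 : pCoreOf p M ≠ ⊥) : NC A p M (pCoreOf p M) :=
  ⟨le_rfl, le_normalizer_pCoreOf p M, hn.trans (normalizer_le_normalizer_pCoreOf p M), h0⟩

theorem NC.center (hp : p.Prime) (h : NC A p M N) : NC A p M Z[N] :=
  ⟨inf_le_left.trans h.le, h.nM.trans (norm_le_norm_center N), h.nA.trans (norm_le_norm_center N),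
    center_ne_bot_of_nil (nil_of_isPGroup hp ((pCoreOf_isPGroup p M).to_le h.le)) h.ne⟩

omit [Finite G] in
theorem NC.le' (h : NC A p M N) : N ≤ M := h.le.trans (pCoreOf_le p M)

omit [Finite G] in
theorem NC.core_ne (h : NC A p M N) : pCoreOf p M ≠ ⊥ := fun e => h.ne (eq_bot_iff.2 (h.le.trans e.le))

theorem core_cent (hp : p.Prime) (hq : q.Prime) (hne : p ≠ q) (X : Subgroup G) : pCoreOf p X ≤ C[pCoreOf q X] :=
  le_cent_of_coprime ((pCoreOf_le q X).trans (le_normalizer_pCoreOf p X))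
    ((pCoreOf_le p X).trans (le_normalizer_pCoreOf q X))
    (coprime_card_of_isPGroup_ne hp hq hne (pCoreOf_isPGroup p X) (pCoreOf_isPGroup q X))

omit [Finite G] in
theorem Min.norm_lt (h : Min A K r) (hT : T ≤ K) (h0 : T ≠ ⊥) (hs : Group.IsSolvable T) : K ⊓ N[T] < K :=
  lt_of_le_of_ne inf_le_left fun e => (h.simp T hT (inf_eq_left.1 e)).elim h0 fun e' => h.nsol (e' ▸ hs)

namespace Pair

variable (h : Pair A K r p q π P Q)
include h

omit [Finite G] in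
theorem symm : Pair A K r q p π Q P :=
  ⟨h.toMin2, h.ne.symm, fun s => (h.mem s).trans or_comm, h.sQ, h.sP, sup_comm P Q ▸ h.np⟩

omit [Finite G] in
theorem hp : p.Prime := h.sP.hp

omit [Finite G] in
theorem hq : q.Prime := h.sQ.hp

theorem prp (hX : IG A K p X) : PR A K π X :=
  have := Fact.mk h.hp
  ⟨hX.le, hX.norm, isPiSubgroup_of_isPGroup hX.pg ((h.mem p).2 (Or.inl rfl))⟩

theorem prq (hX : IG A K q X) : PR A K π X := h.symm.prp hX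

theorem leP (hX : IG A K p X) : X ≤ P := h.le_syl h.sP hX

theorem leQ (hX : IG A K q X) : X ≤ Q := h.le_syl h.sQ hX

omit [Finite G] in
theorem igO (hX : PR A K π X) : IG A K p (pCoreOf p X) := IG.core h.hp hX.le hX.norm

omit [Finite G] in
theorem igN (hX : PR A K π X) (n : NC A p X N) : IG A K p N := (h.igO hX).of_le n.le n.nA

theorem cc (X : Subgroup G) : pCoreOf p X ≤ C[pCoreOf q X] := core_cent h.hp h.hq h.ne X

omit [Finite G] in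
theorem not_both (hX : PR A K π X) (h1 : P ≤ X) (h2 : Q ≤ X) : False :=
  h.np (isPiSubgroup_of_le hX.pi (sup_le h1 h2))

omit [Finite G] in
theorem solX (hX : PR A K π X) : Group.IsSolvable X :=
  h.sol X (lt_of_le_of_ne hX.le fun e => h.not_both hX (e ▸ h.sP.syl.le) (e ▸ h.sQ.syl.le)) hX.norm

theorem le_sup' (hX : PR A K π X) : X ≤ (X ⊓ P) ⊔ (X ⊓ Q) := h.le_sup h.mem h.sP h.sQ hX.le hX.norm hX.pi

theorem inf_le_hall (hN : N ≤ K) (hn : A ≤ N[N]) (hH : IsPiHallOf π H N) (hA : A ≤ N[H]) : N ⊓ P ≤ H := by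
  have := Fact.mk h.hp
  have h1 := sylow_of_hall (h.syl_inf h.sP (hH.1.trans hN) hA).syl hH ((h.mem p).2 (Or.inl rfl))
  exact (h1.eq_of_le (h.sP.syl.isPGroup.to_le inf_le_right) (inf_le_inf_right _ hH.1) inf_le_left).le.trans
    inf_le_left

theorem sup_of_norm (hT : PR A K π T) (h0 : T ≠ ⊥) (hX : PR A K π X) (hY : PR A K π Y) (h1 : X ≤ N[T])
    (h2 : Y ≤ N[T]) : PR A K π (X ⊔ Y) := by
  have hlt := h.toMin.norm_lt hT.le h0 (h.solX hT)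
  have hn : A ≤ N[K ⊓ N[T]] := le_norm_inf h.norm (le_norm_norm hT.norm)
  obtain ⟨H, hH, hA⟩ := coprime_Hall_exists π hn (h.copX hlt.le) (h.sol _ hlt hn)
  have key : ∀ X, PR A K π X → X ≤ N[T] → X ≤ H := fun X hX h1 => (h.le_sup' hX).trans (sup_le
    ((inf_le_inf_right _ (le_inf hX.le h1)).trans (h.inf_le_hall hlt.le hn hH hA))
    ((inf_le_inf_right _ (le_inf hX.le h1)).trans (h.symm.inf_le_hall hlt.le hn hH hA)))
  exact ⟨sup_le hX.le hY.le, le_norm_sup hX.norm hY.norm,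
    isPiSubgroup_of_le hH.2.1 (sup_le (key X hX h1) (key Y hY h2))⟩

theorem mstar (hH : Maximal (PR A K π) H) (hT : T ≤ H) (hn : H ≤ N[T]) (hA : A ≤ N[T]) (h0 : T ≠ ⊥)
    (hX : PR A K π X) (h1 : X ≤ N[T]) : X ≤ H :=
  le_sup_right.trans (hH.2 (h.sup_of_norm (hH.1.of_le hT hA) h0 hH.1 hX hn h1) le_sup_left)

theorem nstar {s : ℕ} (hH : Maximal (PR A K π) H) (n : NC A s H N) (hX : PR A K π X) (h1 : X ≤ N[N]) : X ≤ H :=
  h.mstar hH n.le' n.nM n.nA n.ne hX h1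

theorem le_core (hH : Maximal (PR A K π) H) (n : NC A q H N) (hL : PR A K π L) (hZ : N ≤ L)
    (hT : T ≤ pCoreOf p H) (hn : H ≤ N[T]) (hTL : T ≤ L) : T ≤ pCoreOf p L := by
  have := Fact.mk h.hp
  have h1 : L ⊓ N[N] ≤ H :=
    h.nstar hH n (hL.of_le inf_le_left (le_norm_inf hL.norm (le_norm_norm n.nA))) inf_le_right
  exact le_trans (le_piCoreOf (le_inf hTL ((hT.trans (pCoreOf_le p H)).trans n.nM)) (h1.trans hn)
    (isPiSubgroup_of_isPGroup ((pCoreOf_isPGroup p H).to_le hT) h.ne))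
    ((p'core_norm_pgroup h.hq (h.solX hL) ((pCoreOf_isPGroup q H).to_le n.le) hZ).trans
      (core_le h.hp h.symm.mem hL.pi))

theorem core_le_max (hH : Maximal (PR A K π) H) (n : NC A p H N) (hL : PR A K π L) (hZ : N ≤ pCoreOf p L) :
    pCoreOf q L ≤ H :=
  h.nstar hH n (h.prq (h.symm.igO hL)) (le_norm_of_le_cent ((h.symm.cc L).trans (cent_anti hZ)))

/-- Bender's uniqueness lemma -/
theorem bu (hH : Maximal (PR A K π) H) (n₁ : NC A p H N₁) (n₂ : NC A q H N₂) (hX : PR A K π X)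
    (z1 : N₁ ≤ X) (z2 : N₂ ≤ X) : X ≤ H := by
  obtain ⟨L, hXL, hL⟩ := hX.exists_max
  replace z1 := z1.trans hXL
  replace z2 := z2.trans hXL
  have b1 := h.le_core hH n₂ hL.1 z2 n₁.le n₁.nM z1
  have b1' := h.symm.le_core hH n₁ hL.1 z1 n₂.le n₂.nM z2
  have b2 := h.core_le_max hH n₁ hL.1 b1
  have b2' := h.symm.core_le_max hH n₂ hL.1 b1'
  have m1 : NC A p L (pCoreOf p L) := NC.core hL.1.norm fun e => n₁.ne (eq_bot_iff.2 (b1.trans e.le))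
  have m2 : NC A q L (pCoreOf q L) := NC.core hL.1.norm fun e => n₂.ne (eq_bot_iff.2 (b1'.trans e.le))
  have b3 := h.le_core hL m2 hH.1 b2 le_rfl m1.nM b2'
  have b4 := h.core_le_max hL m1 hH.1 b3
  have b5 := h.symm.le_core hH n₁ hL.1 z1 le_rfl (le_normalizer_pCoreOf q H) b4
  have b6 := h.symm.le_core hL m1 hH.1 b2' le_rfl m2.nM b2
  exact hXL.trans (h.nstar hH (NC.core hH.1.norm n₂.core_ne) hL.1 (le_antisymm b5 b6 ▸ m2.nM))

theorem bu_norm (hH : Maximal (PR A K π) H) (n₁ : NC A p H N₁) (n₂ : NC A q H N₂) (hT : PR A K π T) (h0 : T ≠ ⊥)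
    (z1 : N₁ ≤ N[T]) (z2 : N₂ ≤ N[T]) (hX : PR A K π X) (h1 : X ≤ N[T]) : X ≤ H :=
  le_sup_right.trans (h.bu hH n₁ n₂ (h.sup_of_norm hT h0 (hH.1.of_le (sup_le n₁.le' n₂.le')
    (le_norm_sup n₁.nA n₂.nA)) hX (sup_le z1 z2) h1) (le_sup_left.trans le_sup_left)
    (le_sup_right.trans le_sup_left))

theorem bu_core (hH : Maximal (PR A K π) H) (h2 : pCoreOf q H ≠ ⊥) (hT : T ≤ pCoreOf p H) (hn : A ≤ N[T])
    (h0 : T ≠ ⊥) (hX : PR A K π X) (h1 : X ≤ N[T]) : X ≤ H :=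
  h.bu_norm hH ((NC.core hH.1.norm fun e => h0 (eq_bot_iff.2 (hT.trans e.le))).center h.hp) (NC.core hH.1.norm h2)
    (hH.1.of_le (hT.trans (pCoreOf_le p H)) hn) h0 (le_norm_of_le_cent (inf_le_right.trans (cent_anti hT)))
    (le_norm_of_le_cent ((h.symm.cc H).trans (cent_anti hT))) hX h1

theorem perm (hX : PR A K π X) (h1 : P ≤ X) : Permutes P (X ⊓ Q) := by
  have := Fact.mk h.hp
  have := Fact.mk h.hq
  refine (IsProd.of_hall (π := {p}) (sylow_hall (h.sP.syl.of_le h1 hX.le))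
    (Hall.congr (sylow_hall (h.syl_inf h.sQ hX.le hX.norm).syl) fun s hs hd => ?_)).permutes
  rcases (h.mem s).1 (hX.pi s hs hd) with rfl | rfl
  · simp [h.ne]
  · simp [h.ne.symm]

/-- `P` lies in a unique maximal invariant `{p, q}`-subgroup -/
theorem maxP (hH : Maximal (PR A K π) H) (h1 : P ≤ H) (hX : PR A K π X) (h2 : P ≤ X) : X ≤ H := by
  have hY := (h.sQ.ig.inf' hH.1.norm)
  have hZ := (h.sQ.ig.inf' hX.norm)
  have hS : IG A K q ((H ⊓ Q) ⊔ (X ⊓ Q)) :=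
    h.sQ.ig.of_le (sup_le inf_le_right inf_le_right) (le_norm_sup hY.norm hZ.norm)
  have k : PR A K π (P ⊔ ((H ⊓ Q) ⊔ (X ⊓ Q))) := ⟨sup_le h.sP.syl.le hS.le, le_norm_sup h.sP.norm hS.norm,
    (Permutes.sup (h.perm hH.1 h1) (h.perm hX h2)).isProd.pi (h.prp h.sP.ig).pi (h.prq hS).pi⟩
  exact ((h.le_sup' hX).trans (sup_le_sup inf_le_right le_sup_right)).trans
    (hH.2 k ((h.le_sup' hH.1).trans (sup_le_sup inf_le_right le_sup_left)))

theorem normP (hH : Maximal (PR A K π) H) (h1 : P ≤ H) (hT : PR A K π T) (h0 : T ≠ ⊥) (h2 : P ≤ N[T])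
    (hX : PR A K π X) (h3 : X ≤ N[T]) : X ≤ H :=
  le_sup_right.trans (h.maxP hH h1 (h.sup_of_norm hT h0 (h.prp h.sP.ig) hX h2 h3) le_sup_left)

theorem centP (hH : Maximal (PR A K π) H) (h1 : P ≤ H) : Q ⊓ C[A] ≤ H :=
  le_sup_right.trans (h.maxP hH h1 ((h.prp h.sP.ig).sup (h.prq (h.sQ.ig.inf (h.nC le_rfl)))
    ((inf_le_inf_right _ h.sQ.syl.le).trans (h.cent_norm h.sP))) le_sup_left)

omit [Finite G] in
theorem igE (hL : PR A K π L) : IG A K q ⁅L ⊓ Q, A⁆ := (h.sQ.ig.inf' hL.norm).star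

omit [Finite G] in
theorem E_le (hL : PR A K π L) : ⁅L ⊓ Q, A⁆ ≤ L := (comm_le_left (h.sQ.ig.inf' hL.norm).norm).trans inf_le_left

theorem E_star (hL : PR A K π L) : ⁅⁅L ⊓ Q, A⁆, A⁆ = ⁅L ⊓ Q, A⁆ :=
  h.star_star (h.sQ.ig.inf' hL.norm).le (h.sQ.ig.inf' hL.norm).norm

theorem le_E (hY : IG A K q Y) (hYL : Y ≤ L) (e : ⁅Y, A⁆ = Y) : Y ≤ ⁅L ⊓ Q, A⁆ :=
  e.ge.trans (commutator_mono (le_inf hYL (h.leQ hY)) le_rfl)

omit [Finite G] in
theorem W_le (hL : PR A K π L) : ⁅pCoreOf p L, ⁅L ⊓ Q, A⁆⁆ ≤ pCoreOf p L :=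
  comm_le_left ((h.E_le hL).trans (le_normalizer_pCoreOf p L))

omit [Finite G] in
theorem igW (hL : PR A K π L) : IG A K p ⁅pCoreOf p L, ⁅L ⊓ Q, A⁆⁆ :=
  (h.igO hL).comm (h.igE hL).norm ((h.E_le hL).trans (le_normalizer_pCoreOf p L))

/-- a maximal `{p, q}`-subgroup normalising `[Q_L, A] ≠ 1` contains `Q` -/
theorem lemF (h2 : p ≠ 2) (sr : ∀ B, Ln A r B → ¬ Q ≤ C[B]) (hL : Maximal (PR A K π) L) (h0 : ⁅L ⊓ Q, A⁆ ≠ ⊥)
    (hn : L ≤ N[⁅L ⊓ Q, A⁆]) : Q ≤ L := by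
  have hQ := h.sQ.ig
  have hU := hQ.inf' hL.1.norm
  have hE := h.igE hL.1
  have fin : ∀ T, T ≤ L → L ≤ N[T] → N[L ⊓ Q] ≤ N[T] → T ≠ ⊥ → Q ≤ L := fun T h1 h2 h3 h4 =>
    inf_eq_right.1 (eq_of_inf_norm_le_of_nil hQ.nil inf_le_right (le_inf (h.mstar hL h1 h2 (hU.norm.trans h3) h4
      (h.prq (hQ.inf (le_norm_norm hU.norm))) (inf_le_right.trans h3)) inf_le_left))
  by_cases e : q = 2
  · subst e
    rw [h.two_star hU] at h0 hn
    exact fin _ inf_le_left hn le_rfl h0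
  by_cases e' : pCoreOf p L = ⊥
  · have ho : Odd (Nat.card L) := by
      refine Nat.not_even_iff_odd.1 fun hev => ?_
      rcases (h.mem 2).1 (hL.1.pi 2 Nat.prime_two hev.two_dvd) with e2 | e2
      · exact h2 e2.symm
      · exact e e2.symm
    have k := BG6_2.normal (G := G) h.hq (h.solX hL.1) ho (h.syl_inf h.sQ hL.1.le hL.1.norm).syl
      (eq_bot_iff.2 ((core_le h.hp h.symm.mem hL.1.pi).trans e'.le))
    exact fin _ k.1 k.2 (normalizer_le_normalizer_center_puigOf _) (center_puigOf_ne_bot hU.nil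
      fun e => h0 (eq_bot_iff.2 ((comm_le_left hU.norm).trans e.le)))
  have hEO : ⁅L ⊓ Q, A⁆ ≤ pCoreOf q L := have := Fact.mk h.hq; le_pCoreOf (h.E_le hL.1) hn hE.pg
  have k1 : ∀ X Y, IG A K q X → X ≤ ⁅L ⊓ Q, A⁆ → X ≠ ⊥ → IG A K q Y → Y ≤ N[X] → Y ≤ L :=
    fun X Y hX h1 h3 hY h4 => h.symm.bu_core hL e' (h1.trans hEO) hX.norm h3 (h.prq hY) h4
  obtain ⟨B₀, b₀, -⟩ := h.exists_ln ⊥ ⊥ ⊥
  obtain ⟨B, V, b, hV, -, V0, eV, -, hc⟩ := h.exists_z hQ fun e => sr B₀ b₀ (e.trans (cent_anti b₀.le))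
  have k2 : ¬ ⁅L ⊓ Q, B⁆ ≤ ⊥ := fun e => by
    have e1 : L ⊓ Q ≤ C[B] := comm_eq_bot_iff.1 (eq_bot_iff.2 e)
    refine sr B b (cent_symm (coprime_nil_faithful_cent_stab (b.le.trans hQ.norm) (h.copB b.le hQ.le) hQ.nil
      (le_trans (le_inf ?_ inf_le_left) e1)))
    have e2 : ⁅L ⊓ Q, A⁆ ≤ Q ⊓ C[B] := (comm_le_left hU.norm).trans (le_inf inf_le_right e1)
    exact k1 _ _ hE le_rfl h0 (hQ.inf (le_norm_cent (h.nB_inf hQ.norm b)))
      (le_norm_of_le_cent (inf_le_right.trans (cent_anti e2)))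
  have k3 : V ≤ L := by
    by_contra hVL
    refine k2 (h.gen_comm hU b.le fun B' b' hB' => le_of_eq (by_contra fun e => hVL ?_))
    exact k1 _ _ (h.st_ig hU b') (commutator_mono inf_le_left le_rfl) e hV (le_norm_of_le_cent (cent_symm
      (((h.st_le_comm b' b hB').trans (commutator_mono inf_le_right le_rfl)).trans hc)))
  have hW := hQ.comm (h.nB b.le) (b.le.trans hQ.norm)
  have k4 : ⁅Q, B⁆ ≤ L := k1 _ _ hV (h.le_E hV k3 eV) V0 hW (le_norm_of_le_cent hc)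
  refine k1 _ _ hW ?_ (fun e => sr B b (comm_eq_bot_iff.1 e)) hQ (left_le_norm_comm Q B)
  exact (coprime_commGid (b.le.trans hQ.norm) (h.copB b.le hQ.le)).ge.trans
    (commutator_mono (le_inf k4 (h.leQ hW)) b.le)

section TL

variable (tl : TL.{u}) (h2 : p ≠ 2)
include tl h2

theorem le_sup_norm (hL : PR A K π L) : L ≤ pCoreOf p L ⊔ (L ⊓ N[⁅L ⊓ Q, A⁆]) :=
  (h.sub hL.le hL.norm).le_sup_norm_star tl h.mem (h.solX hL) hL.pi h.hp h2 h.ne (h.syl_inf h.sQ hL.le hL.norm)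

theorem norm_W (hL : PR A K π L) : L ≤ N[⁅pCoreOf p L, ⁅L ⊓ Q, A⁆⁆] :=
  (h.le_sup_norm tl h2 hL).trans (sup_le (left_le_norm_comm _ _)
    (le_norm_comm (inf_le_left.trans (le_normalizer_pCoreOf p L)) inf_le_right))

theorem ncW (hL : PR A K π L) (h0 : ⁅pCoreOf p L, ⁅L ⊓ Q, A⁆⁆ ≠ ⊥) : NC A p L ⁅pCoreOf p L, ⁅L ⊓ Q, A⁆⁆ :=
  ⟨h.W_le hL, h.norm_W tl h2 hL, (h.igW hL).norm, h0⟩

theorem pair (hL : PR A K π L) (hV : IG A K p V) (hY : IG A K q Y) (hVL : V ≤ L) (hYL : Y ≤ L) (hn : Y ≤ N[V])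
    (e : ⁅Y, A⁆ = Y) : ⁅V, Y⁆ ≤ ⁅pCoreOf p L, ⁅L ⊓ Q, A⁆⁆ :=
  (coprime_commGid hn (hY.cop hV h.ne.symm)).ge.trans (commutator_mono
    (h.pp tl hL.le hL.norm (h.solX hL) hV h2 hY h.ne.symm hVL hYL hn e) (h.le_E hY hYL e))

theorem cent_le_core (hL : PR A K π L) : ⁅L ⊓ Q, A⁆ ⊓ C[pCoreOf p L] ≤ pCoreOf q L :=
  have := Fact.mk h.hq
  le_pCoreOf (inf_le_left.trans (h.E_le hL)) ((h.le_sup_norm tl h2 hL).trans (sup_le
    (le_norm_of_le_cent (cent_symm inf_le_right))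
    (le_norm_inf inf_le_right (le_norm_cent (inf_le_left.trans (le_normalizer_pCoreOf p L))))))
    ((h.igE hL).pg.to_le inf_le_left)

theorem le_of_W_bot (sr : ∀ B, Ln A r B → ¬ Q ≤ C[B]) (hL : Maximal (PR A K π) L) (h0 : ⁅L ⊓ Q, A⁆ ≠ ⊥)
    (e : ⁅pCoreOf p L, ⁅L ⊓ Q, A⁆⁆ = ⊥) : Q ≤ L :=
  h.lemF h2 sr hL h0 ((h.le_sup_norm tl h2 hL.1).trans
    (sup_le (le_norm_of_le_cent (comm_eq_bot_iff.1 e)) inf_le_right))

end TL

end Pair

end CL.Row
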