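/-
Unique invariant Sylow subgroups, rank two: a non-trivial action forces the Sylow subgroups to permute.
-/
import Cfsg.Agent.Fgs.RowP

set_option autoImplicit false

open Subgroup Cfsg CL.Odd CL.Grp CL.Fgs
open scoped commutatorElement Pointwise

namespace CL.Row

universe u

variable {G : Type u} [Group G] [Finite G] {A B B' K L M H N N₁ N₂ X Y V P Q T : Subgroup G} {r p q : ℕ}
  {π : Set ℕ}

omit [Finite G] in
theorem ne_bot_of_not_le (h : ¬ X ≤ Y) : X ≠ ⊥ := fun e => h (e.le.trans bot_le)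

namespace Pair

variable (h : Pair A K r p q π P Q)
include h

theorem dich (hM : Maximal (PR A K π) M) (h0 : pCoreOf q M ≠ ⊥) (hY : IG A K q Y) (hYM : Y ≤ M) (e : ⁅Y, A⁆ = Y)
    (hc : ¬ Y ≤ C[pCoreOf p M]) : ⁅Q, A⁆ ≤ M ∨ ∃ B, Ln A r B ∧ ⁅Q, B⁆ ≤ C[pCoreOf p M] := by
  have hD := h.igO hM.1
  have hQ := h.sQ.ig
  have k2 : ∀ B, Ln A r B → ⁅pCoreOf p M ⊓ C[B], A⁆ ≠ ⊥ → ⁅Q ⊓ C[B], A⁆ ≤ M := fun B b h1 =>
    h.bu_core hM h0 ((h.st_le hD.norm b).trans inf_le_left) (h.st_ig hD b).norm h1 (h.prq (h.st_ig hQ b))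
      (le_norm_of_le_cent (h.f1 hQ hD h.ne.symm b))
  obtain ⟨B, b, -, hB⟩ := h.exists_act hY hD h.ne (hYM.trans (le_normalizer_pCoreOf p M)) e hc
  have k3 : ∀ B', Ln A r B' → B' ≠ B → ⁅Q ⊓ C[B'], A⁆ ≤ M := fun B' b' h1 =>
    k2 B' b' (ne_bot_of_not_le (hB B' b' h1))
  by_cases e1 : ⁅pCoreOf p M ⊓ C[B], A⁆ = ⊥
  · refine Or.inr ⟨B, b, h.gen_comm hQ b.le fun B' b' h1 => ?_⟩
    exact h.f4 (h.st_ig hQ b') hD h.ne ((k3 B' b' h1).trans (le_normalizer_pCoreOf p M)) b' b h1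
      ((h.st_le hQ.norm b').trans inf_le_right) (h.st_st hQ.le hQ.norm b') (e1.le.trans bot_le)
  · refine Or.inl (h.gen_star hQ fun B' b' => ?_)
    by_cases h1 : B' = B
    · exact h1 ▸ k2 B b e1
    · exact k3 B' b' h1

variable (tl : TL.{u}) (h2 : p ≠ 2) (sr : ∀ B, Ln A r B → ¬ Q ≤ C[B])
include tl h2 sr

theorem stepA (hM : Maximal (PR A K π) M) (hW : ⁅pCoreOf p M, ⁅M ⊓ Q, A⁆⁆ ≠ ⊥) (h0 : pCoreOf q M ≠ ⊥) :
    Q ≤ M := by
  have hD := h.igO hM.1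
  have hQ := h.sQ.ig
  have hU := hQ.inf' hM.1.norm
  have nW := h.ncW tl h2 hM.1 hW
  have n1 : NC A p M (pCoreOf p M) := NC.core hM.1.norm nW.core_ne
  have n2 : NC A q M (pCoreOf q M) := NC.core hM.1.norm h0
  have hO : pCoreOf q M ≤ Q := h.leQ (h.symm.igO hM.1)
  rcases h.dich hM h0 (h.igE hM.1) (h.E_le hM.1) (h.E_star hM.1) (fun e => hW (comm_eq_bot_iff'.2 e)) with
    e | ⟨B, b, e⟩
  · have hN := hQ.inf (le_norm_norm hU.norm)
    refine inf_eq_right.1 (eq_of_inf_norm_le_of_nil hQ.nil inf_le_right (le_inf ((h.dec hN.le hN.norm).ge.trans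
      (sup_le ((commutator_mono inf_le_left le_rfl).trans e)
        (h.nstar hM nW (h.prq (hN.inf (h.nC le_rfl))) fun c hc => mem_norm_of_cj_le ?_))) inf_le_left))
    have hc' : c ∈ K ⊓ C[A] := ⟨hQ.le hc.1.1, hc.2⟩
    have hD' := Hyp.cj_ig hD hc'
    have nD' : M ⊓ Q ≤ N[cj c • pCoreOf p M] := by
      rw [← cj_normalizer, ← cj_eq_self hc.1.2]
      exact cj_mono c (inf_le_left.trans n1.nM)
    have hS : IG A K p (pCoreOf p M ⊔ cj c • pCoreOf p M) :=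
      h.sP.ig.of_le (sup_le (h.leP hD) (h.leP hD')) (le_norm_sup hD.norm hD'.norm)
    have k : cj c • pCoreOf p M ≤ M := (le_sup_right.trans le_sup_left).trans
      (h.bu hM n1 n2 ((h.prp hS).sup (h.prq (h.symm.igO hM.1))
        (le_norm_sup (n2.le'.trans n1.nM) ((le_inf n2.le' hO).trans nD'))) (le_sup_left.trans le_sup_left)
        le_sup_right)
    rw [cj_commutator, cj_commutator, cj_eq_self hc.1.2, cj_eq_self_of_mem_cent hc.2]
    exact h.pair tl h2 hM.1 hD' (h.igE hM.1) k (h.E_le hM.1) ((comm_le_left hU.norm).trans nD') (h.E_star hM.1)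
  · exact h.bu_norm hM n1 n2 (h.prq (hQ.comm (h.nB b.le) (b.le.trans hQ.norm)))
      (fun e => sr B b (comm_eq_bot_iff.1 e)) (le_norm_of_le_cent (cent_symm e))
      (hO.trans (left_le_norm_comm Q B)) (h.prq hQ) (left_le_norm_comm Q B)

theorem stepC (hH : Maximal (PR A K π) H) (hP : P ≤ H) (hM : Maximal (PR A K π) M) (hQM : Q ≤ M)
    (hW : ⁅pCoreOf p M, ⁅M ⊓ Q, A⁆⁆ ≠ ⊥) (hs : M ≤ pCoreOf q M ⊔ (M ⊓ H)) : False := by
  have hD := h.igO hM.1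
  have hF := h.symm.igO hM.1
  have hQ := h.sQ.ig
  have hPP := h.sP.ig
  have hY := h.igE hH.1
  have eY := h.E_star hH.1
  have hWH := h.igW hH.1
  have nF : ¬ pCoreOf q M ≤ H := fun e => h.not_both hH.1 hP (hQM.trans (hs.trans (sup_le e inf_le_right)))
  have F0 := ne_bot_of_not_le nF
  have n2 : NC A q M (pCoreOf q M) := NC.core hM.1.norm F0
  have nW := h.ncW tl h2 hM.1 hW
  set Y := ⁅H ⊓ Q, A⁆ with hYdef
  have hYM : Y ≤ M := (h.leQ hY).trans hQM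
  have hYH : Y ≤ H := h.E_le hH.1
  have eW : ⁅pCoreOf p M, ⁅M ⊓ Q, A⁆⁆ = ⁅pCoreOf p M, Y⁆ := by
    refine le_antisymm ?_ (commutator_mono le_rfl (h.le_E hY hYM eY))
    have e1 : Q = pCoreOf q M ⊔ (Q ⊓ (M ⊓ H)) := by
      rw [← inf_sup_dedekind (Or.inl (inf_le_left.trans n2.nM)) (h.leQ hF), inf_eq_left.2 (hQM.trans hs)]
    have e2 : ⁅M ⊓ Q, A⁆ ≤ Y ⊔ pCoreOf q M := by
      have e3 : Q ⊓ (M ⊓ H) ≤ H ⊓ Q := le_inf (inf_le_right.trans inf_le_right) inf_le_left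
      rw [inf_eq_right.2 hQM, e1]
      refine comm_sup_left_le (sup_le (le_norm_of_le le_sup_right |>.trans' le_rfl) ?_)
        ((comm_le_left hF.norm).trans le_sup_right) ((commutator_mono e3 le_rfl).trans le_sup_left)
      exact le_norm_sup (e3.trans (left_le_norm_comm _ _)) ((inf_le_right.trans inf_le_left).trans n2.nM)
    refine (commutator_mono le_rfl e2).trans (comm_sup_cent_right (h.symm.cc M) (le_norm_of_le_cent
      ((h.symm.cc M).trans (cent_anti (comm_le_left (hYM.trans (le_normalizer_pCoreOf p M))))))).le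
  rw [eW] at hW nW
  have hWM := h.igN hM.1 nW
  have nWY : Y ≤ N[⁅pCoreOf p M, Y⁆] := right_le_norm_comm _ _
  have eWM : ⁅⁅pCoreOf p M, Y⁆, Y⁆ = ⁅pCoreOf p M, Y⁆ :=
    coprime_commGid (hYM.trans (le_normalizer_pCoreOf p M)) (hY.cop hD h.ne.symm)
  have sWM : ⁅⁅pCoreOf p M, Y⁆, A⁆ = ⁅pCoreOf p M, Y⁆ :=
    h.comm_star hY hD h.ne (hYM.trans (le_normalizer_pCoreOf p M))
  have w1 : ⁅pCoreOf p M, Y⁆ ≤ ⁅pCoreOf p H, Y⁆ :=
    h.pair tl h2 hH.1 hD hY ((h.leP hD).trans hP) hYH (hYM.trans (le_normalizer_pCoreOf p M)) eY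
  have nWH := h.ncW tl h2 hH.1 fun e => hW (eq_bot_iff.2 (w1.trans e.le))
  have pr : ∀ V, IG A K p V → V ≤ M → Y ≤ N[V] → ⁅V, Y⁆ ≤ ⁅pCoreOf p M, Y⁆ := fun V hV h1 h3 =>
    eW ▸ h.pair tl h2 hM.1 hV hY h1 hYM h3 eY
  have w2 : ¬ ⁅pCoreOf p H, Y⁆ ≤ M := fun e => by
    refine h.not_both hM.1 (hP.trans (h.bu_core hM F0 ?_ nWH.nA nWH.ne hH.1 nWH.nM)) hQM
    exact (coprime_commGid (hYH.trans (le_normalizer_pCoreOf p H)) (hY.cop (h.igO hH.1) h.ne.symm)).ge.trans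
      ((pr _ hWH e (right_le_norm_comm _ _)).trans nW.le)
  have c1 : ⁅M ⊓ P, A⁆ ≤ C[pCoreOf q M] := by
    by_contra hc
    rcases h.symm.dich hM nW.core_ne (h.symm.igE hM.1) (h.symm.E_le hM.1) (h.symm.E_star hM.1) hc with e | ⟨B, b, e⟩
    · exact w2 ((h.comm_star hY (h.igO hH.1) h.ne (hYH.trans (le_normalizer_pCoreOf p H))).ge.trans
        ((commutator_mono (h.leP hWH) le_rfl).trans e))
    · refine nF (h.normP hH hP (h.prp (hPP.comm (h.nB b.le) (b.le.trans hPP.norm))) (fun e0 => ?_)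
        (left_le_norm_comm P B) (h.prq hF) (le_norm_of_le_cent (cent_symm e)))
      obtain ⟨B₁, -, -, hB⟩ := h.exists_act hY hWM h.ne nWY eY fun e => hW (eWM.symm.trans (comm_eq_bot_iff'.2 e))
      obtain ⟨B', b', h1, h3, -⟩ := h.exists_ln B B₁ B
      exact hB B' b' h3 (((h.st_le_comm b' b h1).trans ((commutator_mono (h.leP hWM) le_rfl).trans e0.le)).trans
        bot_le)
  set W := ⁅pCoreOf p H, Y⁆
  have nYW : Y ≤ N[W] := right_le_norm_comm _ _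
  have hD0 : IG A K p (W ⊓ M) := hWH.inf hM.1.norm
  have nY0 : Y ≤ N[W ⊓ M] := le_norm_inf nYW (le_norm_of_le hYM)
  have hD1 : IG A K p (W ⊓ N[W ⊓ M]) := hWH.inf (le_norm_norm hD0.norm)
  have nY1 : Y ≤ N[W ⊓ N[W ⊓ M]] := le_norm_inf nYW (le_norm_norm nY0)
  have l01 := lt_inf_norm_of_nil hWH.nil (lt_of_le_of_ne (inf_le_left : W ⊓ M ≤ W) fun e => w2 (inf_eq_left.1 e))
  have w0 : ⁅pCoreOf p M, Y⁆ ≤ W ⊓ M := le_inf w1 nW.le'
  have e0 : ⁅W ⊓ M, Y⁆ = ⁅pCoreOf p M, Y⁆ :=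
    le_antisymm (pr _ hD0 inf_le_right nY0) (eWM.ge.trans (commutator_mono w0 le_rfl))
  have hD2 := hD1.comm hY.norm nY1
  have d2 : ¬ ⁅W ⊓ N[W ⊓ M], Y⁆ ≤ M := fun e => by
    refine l01.not_ge (le_inf inf_le_left ((coprime_cent_prod nY1 (hY.cop hD1 h.ne.symm) (Or.inl hY.sol)).ge.trans
      (sup_le e (h.nstar hM nW (h.prp (hD1.inf (le_norm_cent hY.norm))) ?_))))
    rw [← e0]
    exact le_norm_comm (inf_le_left.trans inf_le_right) (le_norm_of_le_cent inf_le_right)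
  obtain ⟨V, v1, v2, v3, v4⟩ := exists_min (A := A) (J := A ⊔ Y) hD1.nil l01.le
    (sup_le inf_le_right (sup_le hD0.norm nY0)) (sup_le hD1.norm nY1) fun e => hW
      (sWM.symm.trans (comm_eq_bot_iff.2 (w0.trans e)))
  have hV : IG A K p V := hD0.of_le v1 ((le_sup_left.trans le_sup_right).trans v2)
  have nYV : Y ≤ N[V] := (le_sup_right.trans le_sup_right).trans v2
  by_cases e : V ≤ C[Y]
  · have v5 : ⁅W ⊓ N[W ⊓ M], Y⁆ ≤ C[⁅V, A⁆] := (three' e ((le_inf ((comm_le_left (le_sup_left.trans v2)).trans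
      (v1.trans inf_le_left)) v4).trans (h.star hY hWH h.ne nYW))).trans (cent_anti (comm_le_left hV.norm))
    refine d2 (h.bu_norm hM nW n2 (h.prp hV.star) (fun e => v3 (comm_eq_bot_iff.1 e)) (le_norm_of_le_cent ?_)
      (le_norm_of_le_cent (cent_symm (le_trans ?_ c1))) (h.prp hD2) (le_norm_of_le_cent v5))
    · exact (e0.ge.trans (commutator_mono l01.le le_rfl)).trans v5
    · exact commutator_mono (le_inf (v1.trans inf_le_right) (h.leP hV)) le_rfl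
  · have hU := hV.comm hY.norm nYV
    obtain ⟨B₁, -, -, hB⟩ := h.exists_act hY hU h.ne (right_le_norm_comm _ _) eY fun e' =>
      e (comm_eq_bot_iff.1 ((coprime_commGid nYV (hY.cop hV h.ne.symm)).symm.trans (comm_eq_bot_iff'.2 e')))
    refine d2 ((h.comm_star hY hD1 h.ne nY1).ge.trans ((commutator_mono (comm_le_left nY1) le_rfl).trans
      (h.gen_star hD1 fun B b => ?_)))
    obtain ⟨B', b', h1, h3, -⟩ := h.exists_ln B B₁ B
    have h4 := h.st_le hU.norm b'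
    refine (h.st_le_comm b b' h1.symm).trans (h.bu_core hM F0 ((h4.trans inf_le_left).trans
      ((pr V hV (v1.trans inf_le_right) nYV).trans nW.le)) (h.st_ig hU b').norm (ne_bot_of_not_le (hB B' b' h3))
      (h.prp (hD1.comm (h.nB b'.le) (b'.le.trans hD1.norm))) (le_norm_of_le_cent (three' (h4.trans inf_le_right) ?_)))
    exact (commutator_mono ((h4.trans inf_le_left).trans (comm_le_left nYV)) le_rfl).trans
      (v4.trans (cent_anti b'.le))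

theorem stepD (hH : Maximal (PR A K π) H) (hP : P ≤ H) (hW : ⁅pCoreOf p H, ⁅H ⊓ Q, A⁆⁆ ≠ ⊥)
    (hu : ∀ M, Maximal (PR A K π) M → ⁅pCoreOf p M, ⁅M ⊓ Q, A⁆⁆ ≠ ⊥ → M = H) : False := by
  have hD := h.igO hH.1
  have hQ := h.sQ.ig
  have hU := hQ.inf' hH.1.norm
  have key : ∀ B, Ln A r B → ¬ ⁅H ⊓ Q ⊓ C[B], A⁆ ≤ C[pCoreOf p H] → ∀ B', Ln A r B' → B' ≠ B →
      ⁅Q ⊓ C[B'], A⁆ ≤ H := fun B b hB B' b' h1 => by
    have hY := h.st_ig hU b
    have y1 := h.st_le hU.norm b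
    have nY : ⁅H ⊓ Q ⊓ C[B], A⁆ ≤ N[pCoreOf p H] :=
      (y1.trans (inf_le_left.trans inf_le_left)).trans (le_normalizer_pCoreOf p H)
    have hX := h.st_ig hD b'
    have hS := h.st_ig hQ b'
    obtain ⟨L, hl, hL⟩ := ((h.prp hX).sup (h.prq hS) (le_norm_of_le_cent (h.f1 hQ hD h.ne.symm b'))).exists_max
    by_cases e : ⁅pCoreOf p L, ⁅L ⊓ Q, A⁆⁆ = ⊥
    · by_contra hc
      have e1 := h.le_E hS (le_sup_right.trans hl) (h.st_st hQ.le hQ.norm b')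
      have e2 := h.le_of_W_bot tl h2 sr hL (fun e => hc (e1.trans (e.le.trans bot_le))) e
      have e3 : ⁅H ⊓ Q ⊓ C[B], A⁆ ≤ pCoreOf q L := by
        have e4 := h.le_E hY ((h.leQ hY).trans e2) (h.st_st hU.le hU.norm b)
        exact (le_inf e4 (e4.trans (comm_eq_bot_iff'.1 e))).trans (h.cent_le_core tl h2 hL.1)
      refine hB (h.f4 hY hD h.ne nY b b' h1.symm (y1.trans inf_le_right) (h.st_st hU.le hU.norm b)
        (comm_eq_bot_iff.1 (eq_bot_iff.2 (le_trans (le_inf ?_ ?_)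
          (inf_eq_bot_of_coprime_card (hD.cop (h.symm.igO hL.1) h.ne)).le))))
      · exact (commutator_mono ((h.st_le hD.norm b').trans inf_le_left) le_rfl).trans (comm_le_left nY)
      · exact (commutator_mono le_rfl e3).trans
          (comm_le_right ((le_sup_left.trans hl).trans (le_normalizer_pCoreOf q L)))
    · exact hu L hL e ▸ le_sup_right.trans hl
  have h0 : pCoreOf q H = ⊥ := by_contra fun e => h.not_both hH.1 hP (h.stepA tl h2 sr hH hW e)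
  obtain ⟨B, b, hB⟩ := h.exists_st hU (M := C[pCoreOf p H]) fun e => hW (comm_eq_bot_iff'.2 e)
  obtain ⟨B', b', h1, h3⟩ : ∃ B', Ln A r B' ∧ B' ≠ B ∧ ¬ ⁅Q ⊓ C[B'], A⁆ ≤ ⊥ := by
    by_contra hc
    push Not at hc
    exact sr B b (comm_eq_bot_iff.1 (eq_bot_iff.2 (h.gen_comm hQ b.le hc)))
  have hB' : ¬ ⁅H ⊓ Q ⊓ C[B'], A⁆ ≤ C[pCoreOf p H] := fun e => by
    have e1 : ⁅Q ⊓ C[B'], A⁆ ≤ ⁅H ⊓ Q ⊓ C[B'], A⁆ := (h.st_st hQ.le hQ.norm b').ge.trans (commutator_mono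
      (inf_assoc H Q _ ▸ le_inf (key B b hB B' b' h1) (h.st_le hQ.norm b')) le_rfl)
    exact h3 (e1.trans ((le_inf (commutator_mono inf_le_left le_rfl) e).trans
      ((h.cent_le_core tl h2 hH.1).trans h0.le)))
  refine h.not_both hH.1 hP (h.gen' hQ.le hQ.norm (fun D d => ?_) (h.centP hH hP))
  by_cases e : D = B
  · exact key B' b' hB' D d (e ▸ h1.symm)
  · exact key B b hB D d e

theorem stepB (tf : TF.{u}) (hH : Maximal (PR A K π) H) (hP : P ≤ H) (hM : Maximal (PR A K π) M)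
    (hW : ⁅pCoreOf p M, ⁅M ⊓ Q, A⁆⁆ ≠ ⊥) : M = H := by
  by_contra hne
  obtain ⟨M, ⟨hM, hW, hne⟩, hmax⟩ := Set.exists_max_image
    {M | Maximal (PR A K π) M ∧ ⁅pCoreOf p M, ⁅M ⊓ Q, A⁆⁆ ≠ ⊥ ∧ M ≠ H} (fun M => Nat.card ↥(M ⊓ P))
    (Set.toFinite _) ⟨M, hM, hW, hne⟩
  have hD := h.igO hM.1
  have hPP := h.sP.ig
  have hU := hPP.inf' hM.1.norm
  have nle : ¬ M ≤ H := fun e => hne (le_antisymm e (hM.2 hH.1 e))
  have hDU : pCoreOf p M ≤ M ⊓ P := le_inf (pCoreOf_le p M) (h.leP hD)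
  have hlt := lt_inf_norm_of_nil hPP.nil (lt_of_le_of_ne (inf_le_right : M ⊓ P ≤ P)
    fun e => nle (h.maxP hH hP hM.1 (inf_eq_right.1 e)))
  have key : ∀ X, X ≤ M ⊓ P → X ≠ ⊥ → N[M ⊓ P] ≤ N[X] → M ⊓ N[X] ≤ pCoreOf q M ⊔ (M ⊓ H) := fun X x1 x2 x3 => by
    have hX := hU.of_le x1 (hU.norm.trans x3)
    have hN : PR A K π (M ⊓ N[X]) := hM.1.of_le inf_le_left (le_norm_inf hM.1.norm (le_norm_norm hX.norm))
    have hR := h.sQ.ig.inf' hN.norm
    have hS := h.igE hN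
    have s1 : ⁅M ⊓ N[X] ⊓ Q, A⁆ ≤ M := (h.E_le hN).trans inf_le_left
    refine (h.le_sup' hN).trans (sup_le ((inf_le_inf inf_le_left hP).trans le_sup_right)
      ((h.dec hR.le hR.norm).ge.trans (sup_le ?_ (le_trans (le_inf ((inf_le_left.trans inf_le_left).trans inf_le_left)
        ((inf_le_inf_right _ inf_le_right).trans (h.centP hH hP))) le_sup_right))))
    by_cases e : ⁅M ⊓ N[X] ⊓ Q, A⁆ ≤ C[pCoreOf p M]
    · exact ((le_inf (h.le_E hS s1 (h.E_star hN)) e).trans (h.cent_le_core tl h2 hM.1)).trans le_sup_left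
    obtain ⟨L, hl, hL⟩ := (h.sup_of_norm (h.prp hX) x2 hN (h.prp (hPP.inf (le_norm_norm hU.norm))) inf_le_right
      (inf_le_right.trans x3)).exists_max
    have l1 : M ⊓ N[X] ≤ L := le_sup_left.trans hl
    have eL : L = H := by
      by_contra e1
      refine (card_lt_card_of_lt (hlt.trans_le (le_inf (le_sup_right.trans hl) inf_le_left))).not_ge
        (hmax L ⟨hL, fun e2 => e (comm_eq_bot_iff'.1 (eq_bot_iff.2 (le_trans ?_ e2.le))), e1⟩)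
      exact h.pair tl h2 hL.1 hD hS ((le_inf (pCoreOf_le p M) (hDU.trans ((le_norm_self _).trans x3))).trans l1)
        ((h.E_le hN).trans l1) (s1.trans (le_normalizer_pCoreOf p M)) (h.E_star hN)
    exact (le_inf s1 (eL ▸ (h.E_le hN).trans l1)).trans le_sup_right
  obtain ⟨X, Y, x1, x2, x3, y1, y2, y3, e⟩ := tf G A M (M ⊓ P) r p (h.toHyp.sub hM.1.le hM.1.norm) (h.solX hM.1)
    (h.syl_inf h.sP hM.1.le hM.1.norm) h2 fun e => hW (eq_bot_iff.2 ((h.W_le hM.1).trans (hDU.trans e.le)))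
  have hs : M ≤ pCoreOf q M ⊔ (M ⊓ H) := e.trans (sup_le (sup_le
    ((core_le h.hq h.mem hM.1.pi).trans le_sup_left) (key X x1 x2 x3)) (key Y y1 y2 y3))
  exact h.stepC tl h2 sr hH hP hM (h.stepA tl h2 sr hM hW fun e0 =>
    nle (hs.trans (sup_le (e0.le.trans bot_le) inf_le_right))) hW hs

theorem W_bot (tf : TF.{u}) (hM : Maximal (PR A K π) M) : ⁅pCoreOf p M, ⁅M ⊓ Q, A⁆⁆ = ⊥ := by
  by_contra hW
  obtain ⟨H, hP, hH⟩ := (h.prp h.sP.ig).exists_max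
  exact h.stepD tl h2 sr hH hP (h.stepB tl h2 sr tf hH hP hM hW ▸ hW) fun M => h.stepB tl h2 sr tf hH hP

/-- every maximal `{p, q}`-subgroup `L` with `[Q_L, A] ≠ 1` contains `Q` -/
theorem le_max (tf : TF.{u}) (hM : Maximal (PR A K π) M) (hY : IG A K q Y) (hYM : Y ≤ M) (e : ⁅Y, A⁆ = Y)
    (h0 : Y ≠ ⊥) : Q ≤ M :=
  h.le_of_W_bot tl h2 sr hM (fun e' => h0 (eq_bot_iff.2 ((h.le_E hY hYM e).trans e'.le))) (h.W_bot tl h2 sr tf hM)

theorem no_act (tf : TF.{u}) (hY : IG A K q Y) (hV : IG A K p V) (hn : Y ≤ N[V]) (e : ⁅Y, A⁆ = Y) : Y ≤ C[V] := by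
  obtain ⟨M, hl, hM⟩ := ((h.prp hV).sup (h.prq hY) hn).exists_max
  exact comm_eq_bot_iff'.1 (eq_bot_iff.2 ((h.pair tl h2 hM.1 hV hY (le_sup_left.trans hl) (le_sup_right.trans hl)
    hn e).trans (h.W_bot tl h2 sr tf hM).le))

end Pair

end CL.Row
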