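/-
Unique invariant Sylow subgroups, rank two: the end of the proof.
-/
import Cfsg.Agent.Fgs.RowQ
import Cfsg.Agent.Grp.HallConverse

set_option autoImplicit false

open Subgroup Cfsg CL.Odd CL.Grp CL.Fgs
open scoped commutatorElement Pointwise

namespace CL.Row

universe u

variable {G : Type u} [Group G] [Finite G] {A B B' K L M H N X Y V P Q R S T W : Subgroup G} {r p q : ℕ}
  {π : Set ℕ}

namespace Pair

variable (h : Pair A K r p q π P Q) (tl : TL.{u}) (tf : TF.{u}) (h2 : p ≠ 2)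
include h tl tf h2

theorem thmE (h3 : q ≠ 2) (b : Ln A r B) (rich : ∀ B', Ln A r B' → B' ≠ B → ⁅Q ⊓ C[B'], A⁆ ≠ ⊥) : P ≤ C[B] := by
  have hP := h.sP.ig
  have hQ := h.sQ.ig
  have sr : ∀ D, Ln A r D → ¬ Q ≤ C[D] := fun D d e => by
    obtain ⟨B', b', h1, h4, -⟩ := h.exists_ln B D D
    exact rich B' b' h1 (eq_bot_iff.2 ((h.st_le_comm b' d h4).trans (comm_eq_bot_iff.2 e).le))
  by_contra hc
  by_cases e : ∃ D, Ln A r D ∧ P ≤ C[D]
  · obtain ⟨D, d, e⟩ := e
    have h1 := h.f1 hQ hP h.ne.symm d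
    rw [inf_eq_left.2 e] at h1
    obtain ⟨L, hl, hL⟩ := (h.sup_of_norm (h.prp hP.star) (fun e => hc ((comm_eq_bot_iff.1 e).trans (cent_anti b.le)))
      (h.prp hP) (h.prq (h.st_ig hQ d)) (left_le_norm_comm P A) (le_norm_of_le_cent h1)).exists_max
    exact h.not_both hL.1 (le_sup_left.trans hl) (h.le_max tl h2 sr tf hL (h.st_ig hQ d) (le_sup_right.trans hl)
      (h.st_st hQ.le hQ.norm d) (rich D d fun e' => hc (e' ▸ e)))
  · push Not at e
    obtain ⟨D, d, h1, h4⟩ : ∃ D, Ln A r D ∧ D ≠ B ∧ ¬ ⁅P ⊓ C[D], A⁆ ≤ ⊥ := by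
      by_contra hc'
      push Not at hc'
      exact hc (comm_eq_bot_iff.1 (eq_bot_iff.2 (h.gen_comm hP b.le hc')))
    obtain ⟨L, hl, hL⟩ := ((h.prp (h.st_ig hP d)).sup (h.prq (h.st_ig hQ d))
      (le_norm_of_le_cent (h.f1 hQ hP h.ne.symm d))).exists_max
    exact h.not_both hL.1 (h.symm.le_max tl h3 e tf hL (h.st_ig hP d) (le_sup_left.trans hl)
      (h.st_st hP.le hP.norm d) (ne_bot_of_not_le h4)) (h.le_max tl h2 sr tf hL (h.st_ig hQ d)
      (le_sup_right.trans hl) (h.st_st hQ.le hQ.norm d) (rich D d h1))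

end Pair

namespace Pair

variable (h : Pair A K r p 2 π P T) (tl : TL.{u}) (tf : TF.{u}) (sr : ∀ B, Ln A r B → ¬ T ≤ C[B])
include h tl tf sr

theorem lemG (srP : ∀ B, Ln A r B → ¬ P ≤ C[B]) (b : Ln A r B) (t0 : T ⊓ C[B] ≠ ⊥) : ⁅P ⊓ C[B], A⁆ = ⊥ := by
  by_contra p0
  have hP := h.sP.ig
  have hT := h.sQ.ig
  obtain ⟨M, hTM, hM⟩ := (h.prq hT).exists_max
  have k : ∀ X S Y, IG A K p X → X ≠ ⊥ → IG A K 2 S → S ≠ ⊥ → S ≤ C[X] → IG A K p Y → Y ≤ N[X] → Y ≤ M :=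
    fun X S Y hX X0 hS S0 h1 hY h3 => by
      obtain ⟨L, hl, hL⟩ := (h.sup_of_norm (h.prp hX) X0 (h.prq hS) (h.prp hY) (le_norm_of_le_cent h1) h3).exists_max
      exact (le_sup_right.trans hl).trans (h.symm.maxP hM hTM hL.1
        (h.le_max tl h.ne sr tf hL hS (le_sup_left.trans hl) (h.two_star hS) S0))
  have nT : M ≤ N[T] := by
    have h1 := h.le_sup_norm tl h.ne hM.1
    have h3 := h.W_bot tl h.ne sr tf hM
    rw [inf_eq_right.2 hTM, h.two_star hT] at h1 h3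
    exact h1.trans (sup_le (le_norm_of_le_cent (comm_eq_bot_iff.1 h3)) inf_le_right)
  have igT : ∀ D, Ln A r D → IG A K 2 (T ⊓ C[D]) := fun D d => hT.inf (h.nC d.le)
  have f1 : ∀ D, Ln A r D → T ⊓ C[D] ≤ C[⁅P ⊓ C[D], A⁆] := fun D d =>
    (h.two_star (igT D d)).ge.trans (h.f1 hT hP h.ne.symm d)
  have kk : ∀ D, Ln A r D → T ⊓ C[D] ≠ ⊥ → ⁅P ⊓ C[D], A⁆ ≤ M := fun D d h1 => by
    by_cases e : ⁅P ⊓ C[D], A⁆ = ⊥
    · exact e.le.trans bot_le
    · exact k _ _ _ (h.st_ig hP d) e (igT D d) h1 (f1 D d) (h.st_ig hP d) (le_norm_self _)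
  obtain ⟨D, V, d, hV, v1, V0, eV, v2, v3⟩ := h.exists_z hP fun e => srP B b (e.trans (cent_anti b.le))
  have hU := hP.comm (h.nB d.le) (d.le.trans hP.norm)
  refine h.not_both hM.1 ?_ hTM
  by_cases e : T ⊓ C[D] = ⊥
  · have T0 : T ≠ ⊥ := ne_bot_of_not_le (sr B b)
    have v4 : V ≤ M := k _ _ _ (h.st_ig hP b) p0 (igT B b) t0 (f1 B b) hV
      (le_norm_of_le_cent (cent_symm ((h.st_le_comm b d fun e' => t0 (e' ▸ e)).trans v3)))
    have u1 : ⁅P, D⁆ ≤ M := by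
      by_cases e' : V ≤ C[T]
      · exact k _ _ _ hV V0 hT T0 (cent_symm e') hU (le_norm_of_le_cent v3)
      · refine h.gen_comm hP d.le fun B' b' h1 => kk B' b' fun e1 => e' ?_
        exact h.f4 hV hT h.ne.symm (v4.trans nT) d b' h1.symm v2 eV
          (((h.st_le hT.norm b').trans e1.le).trans bot_le)
    have u2 := CL.Loc.fpf_comm_le_cent (h.prime d) (d.le.trans hU.norm) (d.le.trans hT.norm) (u1.trans nT) hU.sol
      hT.sol (h.copB d.le hU.le) (h.copB d.le hT.le) (hU.cop hT h.ne) e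
      (Or.inl (CL.Loc.odd_card_of_isPGroup h.hp h.ne hU.pg))
    rw [coprime_commGid (d.le.trans hP.norm) (h.copB d.le hP.le)] at u2
    exact k _ _ _ hU (fun e => srP D d (comm_eq_bot_iff.1 e)) hT T0 (cent_symm u2) hP (left_le_norm_comm P D)
  · have u1 : ⁅P, D⁆ ≤ M := k _ _ _ hV V0 (igT D d) e ((f1 D d).trans (cent_anti
      (eV.ge.trans (commutator_mono (le_inf v1 v2) le_rfl)))) hU (le_norm_of_le_cent v3)
    refine h.gen' hP.le hP.norm (fun B' b' => ?_) (h.symm.centP hM hTM)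
    by_cases h1 : B' = D
    · exact h1 ▸ kk D d e
    · exact (h.st_le_comm b' d h1).trans u1

/-- `T` meets no solvable invariant overgroup of `P` -/
theorem inf_eq_bot (hN : N ≤ K) (hn : A ≤ N[N]) (hs : Group.IsSolvable N) (hP : P ≤ N) : N ⊓ T = ⊥ := by
  by_contra h0
  obtain ⟨H, hH, hA⟩ := coprime_Hall_exists π hn (h.copX hN) hs
  obtain ⟨L, hl, hL⟩ := (PR.mk (hH.1.trans hN) hA hH.2.1).exists_max
  have hS := h.sQ.ig.inf' hn
  exact h.not_both hL.1 (((le_inf hP le_rfl).trans (h.inf_le_hall hN hn hH hA)).trans hl)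
    (h.le_max tl h.ne sr tf hL hS ((h.symm.inf_le_hall hN hn hH hA).trans hl) (h.two_star hS) h0)

end Pair

/-- the invariant Sylow `p`- and `q`-subgroups generate a `{p, q}`-group -/
def Good (A K : Subgroup G) (p q : ℕ) : Prop :=
  ∀ P Q, IS A K p P → IS A K q Q → IsPiSubgroup {p, q} (P ⊔ Q)

omit [Finite G] in
theorem Good.symm (h : Good A K p q) : Good A K q p := fun P Q hP hQ => by
  rw [Set.pair_comm, sup_comm]; exact h Q P hQ hP

theorem Hyp.is_eq (h : Hyp A K r) (hP : IS A K p P) (hQ : IS A K p Q) : P = Q :=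
  le_antisymm (h.le_syl hQ hP.ig) (h.le_syl hP hQ.ig)

theorem Min2.pair (h : Min2 A K r) (hne : p ≠ q) (hP : IS A K p P) (hQ : IS A K q Q) (hg : ¬ Good A K p q) :
    Pair A K r p q {p, q} P Q :=
  ⟨h, hne, fun _ => Iff.rfl, hP, hQ, fun e => hg fun _ _ a b => h.is_eq hP a ▸ h.is_eq hQ b ▸ e⟩

theorem Good.prod (g : Good A K p q) (hne : p ≠ q) (hP : IS A K p P) (hQ : IS A K q Q) : IsProd P Q (P ⊔ Q) := by
  have := Fact.mk hP.hp
  have := Fact.mk hQ.hp
  have hle : P ⊔ Q ≤ K := sup_le hP.syl.le hQ.syl.le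
  refine IsProd.of_hall (π := {p}) (sylow_hall (hP.syl.of_le le_sup_left hle))
    (Hall.congr (sylow_hall (hQ.syl.of_le le_sup_right hle)) fun s hs hd => ?_)
  rcases g P Q hP hQ s hs hd with rfl | rfl
  · simp [hne]
  · simp [hne.symm]

theorem Hyp.sol_of_good (h : Hyp A K r) (H : ∀ p q, p.Prime → q.Prime → p ≠ q → Good A K p q) :
    Group.IsSolvable K := by
  choose S hS using fun p : Nat.Primes => h.exists_IS p.2
  refine isSolvable_of_sylowSystem (fun p => have := Fact.mk p.2; (hS p).syl.toSylow) fun p r => ?_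
  have k2 : ∀ p r : Nat.Primes, (((S p).subgroupOf K : Subgroup K) : Set K) * ((S r).subgroupOf K : Subgroup K) ⊆
      (((S r).subgroupOf K : Subgroup K) : Set K) * ((S p).subgroupOf K : Subgroup K) := fun p r => by
    by_cases e : p = r
    · rw [e]
    rintro _ ⟨x, hx, y, hy, rfl⟩
    have e' : (p : ℕ) ≠ r := fun e' => e (Subtype.ext e')
    obtain ⟨b, hb, a, ha, e'⟩ := ((H p r p.2 r.2 e').prod e' (hS p) (hS r)).exists_mul'
      (mul_mem (mem_sup_left hx) (mem_sup_right hy))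
    exact ⟨⟨b, (hS r).syl.le hb⟩, hb, ⟨a, (hS p).syl.le ha⟩, ha, Subtype.ext e'.symm⟩
  exact (k2 p r).antisymm (k2 r p)

theorem good_of_not_dvd (hd : ¬ p ∣ Nat.card K) : Good A K p q := fun P Q hP hQ => by
  have := Fact.mk hP.hp
  have := Fact.mk hQ.hp
  rw [(sylow_eq_bot_iff hP.syl).2 hd, bot_sup_eq]
  exact isPiSubgroup_of_isPGroup hQ.syl.isPGroup (Or.inr rfl)

theorem sol_of_pair (hp : p.Prime) (hq : q.Prime) (h : IsPiSubgroup {p, q} X) : Group.IsSolvable X :=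
  isSolvable_of_forall_prime_eq_or hp hq X h

theorem fact_eq (hp : p.Prime) (h : IsSylowIn p P H) :
    (Nat.card H).factorization p = (Nat.card P).factorization p := by
  have := Fact.mk hp
  rw [h.card_eq_pow, Nat.factorization_pow, Finsupp.smul_apply, hp.factorization_self, smul_eq_mul, mul_one]

/-- a subgroup containing `[S, B]` for all invariant Sylow subgroups `S` contains `[K, B]` -/
theorem Hyp.comm_le_of_syl (h : Hyp A K r) (hB : B ≤ A) (hM : M ≤ K) (hn : A ≤ N[M])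
    (H : ∀ s S, IS A K s S → ⁅S, B⁆ ≤ M) : ⁅K, B⁆ ≤ M := by
  have nC : A ≤ N[K ⊓ C[B]] := le_norm_inf h.norm (h.nC hB)
  have pr : IsProd M (K ⊓ C[B]) K := by
    refine IsProd.of_card hM inf_le_left (le_of_eq (Nat.eq_of_factorization_eq
      (mul_pos Nat.card_pos Nat.card_pos).ne' (mul_pos Nat.card_pos Nat.card_pos).ne' fun s => ?_))
    by_cases hs : s.Prime
    · obtain ⟨S, hS⟩ := h.exists_IS hs
      have p1 : IsProd (M ⊓ S) (K ⊓ C[B] ⊓ S) S := by
        refine (IsProd.of_norm (coprime_cent_prod (hB.trans hS.norm) (h.copB hB hS.syl.le)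
          (Or.inl (sol_of_le h.solA hB))) (inf_le_left.trans (left_le_norm_comm S B))).mono
          (le_inf (H s S hS) (comm_le_left (hB.trans hS.norm)))
          (le_inf (inf_le_inf_right _ hS.syl.le) inf_le_left) inf_le_right inf_le_right
      have p2 := congrArg (fun n => n.factorization s) p1.card
      rw [← inf_inf_distrib_right] at p2
      simp only [Nat.factorization_mul Nat.card_pos.ne' Nat.card_pos.ne', Finsupp.add_apply] at p2 ⊢
      rwa [fact_eq hs hS.syl, fact_eq hs (h.syl_inf hS hM hn).syl, fact_eq hs (h.syl_inf hS inf_le_left nC).syl,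
        fact_eq hs (h.syl_inf hS (inf_le_left.trans hM) (le_norm_inf hn nC)).syl]
    · simp [Nat.factorization_eq_zero_of_not_prime _ hs]
  refine commutator_le.2 fun x hx b hb => ?_
  obtain ⟨m, hm, c, hc, rfl⟩ := pr.exists_mul hx
  have e : ⁅m * c, b⁆ = m * (b * m⁻¹ * b⁻¹) := by
    rw [commutatorElement_def, mul_assoc m c, ← mem_cent.1 hc.2 b hb]; group
  rw [e]
  exact mul_mem hm (conj_mem_of_norm (hn (hB hb)) (inv_mem hm))

/-- the invariant Sylow `3`- and `2`-subgroups `R`, `T` permute, and `W = [O_3(RT), T]` -/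
structure Last (A K : Subgroup G) (r : ℕ) (R T W : Subgroup G) : Prop extends Min2 A K r where
  tl : TL.{u}
  tf : TF.{u}
  sR : IS A K 3 R
  sT : IS A K 2 T
  sr : ∀ B, Ln A r B → ¬ T ≤ C[B]
  good : Good A K 3 2
  eq : W = ⁅pCoreOf 3 (R ⊔ T), T⁆
  ne : W ≠ ⊥

namespace Last

variable (h : Last A K r R T W)
include h

omit [Finite G] in
theorem le : R ⊔ T ≤ K := sup_le h.sR.syl.le h.sT.syl.le

omit [Finite G] in
theorem nL : A ≤ N[R ⊔ T] := le_norm_sup h.sR.norm h.sT.norm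

omit [Finite G] in
theorem igO : IG A K 3 (pCoreOf 3 (R ⊔ T)) := IG.core Nat.prime_three h.le h.nL

omit [Finite G] in
theorem nO : T ≤ N[pCoreOf 3 (R ⊔ T)] := le_sup_right.trans (le_normalizer_pCoreOf 3 _)

omit [Finite G] in
theorem igW : IG A K 3 W := h.eq ▸ h.igO.comm h.sT.norm h.nO

omit [Finite G] in
theorem nT : T ≤ N[W] := h.eq ▸ right_le_norm_comm _ _

theorem comm : ⁅W, T⁆ = W := h.eq ▸ coprime_commGid h.nO (h.sT.ig.cop h.igO (by decide))

theorem starW : ⁅W, A⁆ = W := h.eq ▸ h.comm_star h.sT.ig h.igO (by decide) h.nO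

theorem split (hp : p.Prime) (h2 : p ≠ 2) (hP : IS A K p P) (g : Good A K p 2) :
    P ⊔ T ≤ pCoreOf p (P ⊔ T) ⊔ ((P ⊔ T) ⊓ N[T]) := by
  have hle : P ⊔ T ≤ K := sup_le hP.syl.le h.sT.syl.le
  have k := (h.sub hle (le_norm_sup hP.norm h.sT.norm)).le_sup_norm_star h.tl (fun _ => Iff.rfl)
    (sol_of_pair hp Nat.prime_two (g P T hP h.sT)) (g P T hP h.sT) hp h2 h2
    ⟨Nat.prime_two, h.sT.syl.of_le le_sup_right hle, h.sT.norm⟩
  rwa [h.two_star h.sT.ig] at k

theorem norm_of : R ⊔ T ≤ N[W ⊔ T] ∧ R ⊔ T ≤ N[W] := by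
  have k := h.split Nat.prime_three (by decide) h.sR h.good
  have k2 : R ⊔ T ≤ N[W] := k.trans (h.eq ▸ sup_le (left_le_norm_comm _ _)
    (le_norm_comm (inf_le_left.trans (le_normalizer_pCoreOf 3 _)) inf_le_right))
  refine ⟨k.trans (sup_le ((coprime_cent_prod h.nO (h.sT.ig.cop h.igO (by decide)) (Or.inl h.sT.ig.sol)).ge.trans
    (sup_le (h.eq ▸ le_norm_of_le le_sup_left) ?_)) (le_norm_sup (inf_le_left.trans k2) inf_le_right)), k2⟩
  exact le_norm_sup ((inf_le_left.trans (pCoreOf_le 3 _)).trans k2) (le_norm_of_le_cent inf_le_right)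

theorem nW : R ⊔ T ≤ N[W] := h.norm_of.2

theorem nWT : R ⊔ T ≤ N[W ⊔ T] := h.norm_of.1

theorem case_good (h2 : p ≠ 2) (h3 : p ≠ 3) (hP : IS A K p P) (g3 : Good A K p 3) (g2 : Good A K p 2) :
    P ≤ N[W] := by
  have hJ : P ⊔ (R ⊔ T) ≤ K := sup_le hP.syl.le h.le
  have nJ : A ≤ N[P ⊔ (R ⊔ T)] := le_norm_sup hP.norm h.nL
  have hs : Group.IsSolvable ↥(P ⊔ (R ⊔ T)) := by
    refine h.sol _ (lt_of_le_of_ne hJ fun e => h.nsol (h.sol_of_good fun s t hs ht hne => ?_)) nJ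
    have pr := (Permutes.sup (g3.prod h3 hP h.sR).permutes (g2.prod h2 hP h.sT).permutes).isProd
    have k : ∀ s, s.Prime → s ∣ Nat.card K → s = p ∨ s = 3 ∨ s = 2 := fun s hs hd =>
      (pr.dvd_or_dvd hs (e ▸ hd)).imp (fun hd => have := Fact.mk hP.hp
        isPiSubgroup_singleton_iff.2 hP.syl.isPGroup s hs hd) (h.good R T h.sR h.sT s hs)
    by_cases e1 : s ∣ Nat.card K
    swap
    · exact good_of_not_dvd e1
    by_cases e2 : t ∣ Nat.card K
    swap
    · exact (good_of_not_dvd e2).symm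
    rcases k s hs e1 with rfl | rfl | rfl <;> rcases k t ht e2 with rfl | rfl | rfl <;>
      first | exact absurd rfl hne | assumption | exact h.good | exact h.good.symm | exact g3.symm | exact g2.symm
  have := Fact.mk Nat.prime_three
  have hTJ : T ≤ P ⊔ (R ⊔ T) := le_sup_right.trans le_sup_right
  have hO : IG A K 3 (pCoreOf 3 (P ⊔ (R ⊔ T))) := IG.core Nat.prime_three hJ nJ
  have w1 : W ≤ pCoreOf 3 (P ⊔ (R ⊔ T)) := h.comm.ge.trans (h.pp h.tl hJ nJ hs h.igW (by decide) h.sT.ig (by decide)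
    ((h.le_syl h.sR h.igW).trans (le_sup_left.trans le_sup_right)) hTJ h.nT (h.two_star h.sT.ig))
  have w2 : ⁅pCoreOf 3 (P ⊔ (R ⊔ T)), T⁆ = W := le_antisymm (h.eq ▸ commutator_mono (le_pCoreOf
    ((h.le_syl h.sR hO).trans le_sup_left) (le_sup_right.trans (le_normalizer_pCoreOf 3 _)) hO.pg) le_rfl)
    (h.comm.ge.trans (commutator_mono w1 le_rfl))
  have l1 : P ⊔ T ≤ P ⊔ (R ⊔ T) := sup_le_sup_left le_sup_right P
  have w3 : (P ⊔ T) ⊓ N[T] ≤ N[W] :=
    w2 ▸ le_norm_comm ((inf_le_left.trans l1).trans (le_normalizer_pCoreOf 3 _)) inf_le_right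
  have hD : IG A K p (pCoreOf p (P ⊔ T)) := IG.core hP.hp (l1.trans hJ) (le_norm_sup hP.norm h.sT.norm)
  have nD : T ≤ N[pCoreOf p (P ⊔ T)] := le_sup_right.trans (le_normalizer_pCoreOf p _)
  refine (le_sup_left.trans (h.split hP.hp h2 hP g2)).trans (sup_le ((coprime_cent_prod nD
    (h.sT.ig.cop hD h2.symm) (Or.inl h.sT.ig.sol)).ge.trans (sup_le ?_
      ((inf_le_inf (pCoreOf_le p _) (cent_le_norm T)).trans w3))) w3)
  exact le_norm_of_le_cent ((h.pp h.tl hJ nJ hs hD h2 h.sT.ig h2.symm ((pCoreOf_le p _).trans l1) hTJ nD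
    (h.two_star h.sT.ig)).trans ((core_cent hP.hp Nat.prime_three h3 _).trans (cent_anti w1)))

theorem case_bad (h2 : p ≠ 2) (h3 : p ≠ 3) (hP : IS A K p P) (g3 : Good A K p 3) : Good A K p 2 := by
  by_contra g2
  have k := h.toMin2.pair h2 hP h.sT g2
  have hle : P ⊔ R ≤ K := sup_le hP.syl.le h.sR.syl.le
  have nL : A ≤ N[P ⊔ R] := le_norm_sup hP.norm h.sR.norm
  have hD : IG A K p (pCoreOf p (P ⊔ R)) := IG.core hP.hp hle nL
  have hE := h.sR.ig.star
  have eR : ⁅R, A⁆ ≤ R := comm_le_left h.sR.norm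
  by_cases e : ⁅R, A⁆ ≤ C[pCoreOf p (P ⊔ R)]
  swap
  · obtain ⟨B, b, -, hB⟩ := h.exists_act hE hD h3 ((eR.trans le_sup_right).trans (le_normalizer_pCoreOf p _))
      (h.star_star h.sR.syl.le h.sR.norm) e
    have rich : ∀ B', Ln A r B' → B' ≠ B → ¬ ⁅P ⊓ C[B'], A⁆ ≤ ⊥ := fun B' b' h1 e' => hB B' b' h1
      (((commutator_mono (inf_le_inf_right _ (h.le_syl hP hD)) le_rfl).trans e').trans bot_le)
    refine h.sr B b (comm_eq_bot_iff.1 (eq_bot_iff.2 (h.gen_comm h.sT.ig b.le fun B' b' h1 => ?_)))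
    by_contra hc
    refine rich B' b' h1 (k.lemG h.tl h.tf h.sr (fun D d e' => ?_) b'
      fun e' => hc ((h.st_le h.sT.norm b').trans e'.le)).le
    obtain ⟨D', d', h4, h5, -⟩ := h.exists_ln B D D
    exact rich D' d' h4 ((h.st_le_comm d' d h5).trans (comm_eq_bot_iff.2 e').le)
  have nP : P ≤ N[⁅R, A⁆] := le_sup_left.trans (((h.sub hle nL).le_sup_norm_star h.tl (fun _ => Iff.rfl)
    (sol_of_pair hP.hp Nat.prime_three (g3 P R hP h.sR)) (g3 P R hP h.sR) hP.hp h2 h3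
    ⟨Nat.prime_three, h.sR.syl.of_le le_sup_right hle, h.sR.norm⟩).trans
    (sup_le (le_norm_of_le_cent (cent_symm e)) inf_le_right))
  have wR : W ≤ R := h.le_syl h.sR h.igW
  have wE : W ≤ ⁅R, A⁆ := h.starW.ge.trans (commutator_mono wR le_rfl)
  have rt : R ⊓ T = ⊥ := inf_eq_bot_of_coprime_card (h.sR.ig.cop h.sT.ig (by decide))
  have hJ : W ⊔ T ⊔ ⁅R, A⁆ ≤ R ⊔ T := sup_le (sup_le_sup_right wR T) (eR.trans le_sup_left)
  have nJ : A ≤ N[W ⊔ T ⊔ ⁅R, A⁆] := le_norm_sup (le_norm_sup h.igW.norm h.sT.norm) hE.norm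
  have e1 : (W ⊔ T ⊔ ⁅R, A⁆) ⊓ R = ⁅R, A⁆ := by
    rw [inf_comm, inf_sup_dedekind' (Or.inl ((eR.trans le_sup_left).trans h.nWT)) eR,
      inf_sup_dedekind (Or.inl h.nT) wR, rt, sup_bot_eq, sup_eq_right.2 wE]
  have hπ := isPiSubgroup_of_le (h.good R T h.sR h.sT) hJ
  set J := W ⊔ T ⊔ ⁅R, A⁆
  have hJK : J ≤ K := hJ.trans h.le
  have key : ∀ X, X ≤ ⁅R, A⁆ → X ≠ ⊥ → N[⁅R, A⁆] ≤ N[X] → J ⊓ N[X] ≤ J ⊓ R := fun X x1 x2 x3 => by
    have nX : A ≤ N[X] := hE.norm.trans x3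
    have nN : A ≤ N[K ⊓ N[X]] := le_norm_inf h.norm (le_norm_norm nX)
    have k1 := k.inf_eq_bot h.tl h.tf h.sr inf_le_left nN (h.sol _ (h.toMin.norm_lt (x1.trans hE.le) x2
      (sol_of_le hE.sol x1)) nN) (le_inf hP.syl.le (nP.trans x3))
    refine (h.le_sup (π := {3, 2}) (fun _ => Iff.rfl) h.sR h.sT (inf_le_left.trans hJK)
      (le_norm_inf nJ (le_norm_norm nX)) (isPiSubgroup_of_le hπ inf_le_left)).trans
      (sup_le (inf_le_inf_right _ inf_le_left) ?_)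
    exact ((inf_le_inf_right _ (inf_le_inf_right _ hJK)).trans k1.le).trans bot_le
  obtain ⟨X, Y, x1, x2, x3, y1, y2, y3, e2⟩ := h.tf G A J ⁅R, A⁆ r 3 (h.toHyp.sub hJK nJ)
    (sol_of_pair Nat.prime_three Nat.prime_two hπ) (e1 ▸ h.syl_inf h.sR hJK nJ) (by decide)
    fun e => h.ne (eq_bot_iff.2 (wE.trans e.le))
  have e3 : J ≤ pCoreOf 2 J ⊔ (J ⊓ R) := e2.trans (sup_le (sup_le
    ((core_le Nat.prime_two (fun _ => Iff.rfl) hπ).trans le_sup_left) ((key X x1 x2 x3).trans le_sup_right))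
    ((key Y y1 y2 y3).trans le_sup_right))
  have hO : pCoreOf 2 J ≤ T := h.le_syl h.sT (IG.core Nat.prime_two hJK nJ)
  have e4 : T ≤ pCoreOf 2 J := by
    have e5 : T ⊓ (J ⊓ R) ≤ ⊥ := (le_inf (inf_le_right.trans inf_le_right) inf_le_left).trans rt.le
    refine (le_inf le_rfl ((le_sup_right.trans le_sup_left).trans e3)).trans ?_
    rw [inf_sup_dedekind (Or.inl (inf_le_left.trans (le_normalizer_pCoreOf 2 J))) hO]
    exact sup_le le_rfl (e5.trans bot_le)
  refine h.ne (eq_bot_iff.2 ((le_inf wR (h.comm.ge.trans ((commutator_mono le_rfl e4).trans ((comm_le_right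
    ((le_sup_left.trans le_sup_left).trans (le_normalizer_pCoreOf 2 J))).trans hO)))).trans rt.le))

theorem false : False := by
  obtain ⟨B, b, -, hB⟩ := h.exists_act h.sT.ig h.igW (by decide) h.nT (h.two_star h.sT.ig)
    fun e => h.ne (h.comm.symm.trans (comm_eq_bot_iff'.2 e))
  have hM := h.toMin.norm_lt h.igW.le h.ne h.igW.sol
  have k := h.comm_le_of_syl b.le hM.le (le_norm_inf h.norm (le_norm_norm h.igW.norm)) fun s S hS => by
    have hc := comm_le_left (b.le.trans hS.norm)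
    refine le_inf (hc.trans hS.syl.le) ?_
    by_cases e2 : s = 2
    · subst e2
      exact hc.trans (h.is_eq h.sT hS ▸ h.nT)
    by_cases e3 : s = 3
    · subst e3
      exact hc.trans (h.is_eq h.sR hS ▸ le_sup_left.trans h.nW)
    by_cases g : Good A K s 3
    · exact hc.trans (h.case_good e2 e3 hS g (h.case_bad e2 e3 hS g))
    · rw [comm_eq_bot_iff.2 ((h.toMin2.pair e3 hS h.sR g).thmE h.tl h.tf e2 (by decide) b fun B' b' h1 e => hB B' b' h1
        (((commutator_mono (inf_le_inf_right _ (h.le_syl h.sR h.igW)) le_rfl).trans e.le).trans bot_le))]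
      exact bot_le
  rcases h.simp _ (comm_le_left (b.le.trans h.norm)) (left_le_norm_comm K B) with e | e
  · exact h.sr B b (h.sT.syl.le.trans (comm_eq_bot_iff.1 e))
  · exact hM.not_ge (e.ge.trans k)

end Last

theorem rk2_of (tl : TL.{u}) (tf : TF.{u}) (f2 : F2.{u}) (f3 : F3.{u}) : Rk2.{u} := fun G _ _ A K r h => by
  obtain ⟨T, hT⟩ := h.exists_IS Nat.prime_two
  obtain ⟨R, hR⟩ := h.exists_IS Nat.prime_three
  obtain ⟨Y, V, hY, hV, hn, hc⟩ := f3 G A K r h.toMin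
  have sr : ∀ B, Ln A r B → ¬ T ≤ C[B] := fun B => f2 G A K T B r h hT
  have g : Good A K 3 2 := by_contra fun g =>
    hc ((h.pair (by decide) hR hT g).no_act tl (by decide) sr tf hY hV hn (h.two_star hY))
  refine Last.false ⟨h, tl, tf, hR, hT, sr, g, rfl, fun e => hc (comm_eq_bot_iff'.1 (eq_bot_iff.2 (le_trans ?_ e.le)))⟩
  exact (coprime_commGid hn (hY.cop hV (by decide))).ge.trans (commutator_mono (h.pp tl
    (sup_le hR.syl.le hT.syl.le) (le_norm_sup hR.norm hT.norm) (sol_of_pair Nat.prime_three Nat.prime_two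
      (g R T hR hT)) hV (by decide) hY (by decide) ((h.le_syl hR hV).trans le_sup_left)
    ((h.le_syl hT hY).trans le_sup_right) hn (h.two_star hY)) (h.le_syl hT hY))

end CL.Row
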