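/-
An elementary abelian group acting coprimely with unique invariant Sylow subgroups and fixed points of odd order:
reduction to a simple group and an acting group of rank two, and the passage from automorphism groups.
-/
import Cfsg.Agent.Fgs.RowDefs
import Cfsg.Agent.Fgs.MinAct
import Cfsg.Agent.Loc.SigThm
import Cfsg.Agent.Loc.SigGen
import Cfsg.Agent.Odd.FT

set_option autoImplicit false

open Subgroup Cfsg CL.Odd CL.Grp CL.Fgs
open scoped commutatorElement Pointwise

namespace CL.Row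

universe u

variable {G : Type u} [Group G] [Finite G] {A K S X : Subgroup G} {r p : ℕ}

/-- the join of the `A`-conjugates of `X` -/
def rdHat (A X : Subgroup G) : Subgroup G := ⨆ a : A, cj (a : G) • X

omit [Finite G] in
theorem rd_cj_le {a : G} (ha : a ∈ A) : cj a • X ≤ rdHat A X := le_iSup (fun a : A => cj (a : G) • X) ⟨a, ha⟩

omit [Finite G] in
theorem rd_le : X ≤ rdHat A X := (cj_one X).ge.trans (rd_cj_le (one_mem A))

theorem rd_norm : A ≤ N[rdHat A X] := fun _ hb =>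
  mem_norm_of_cj_le (cj_le_iff_le_cj_inv.2 (iSup_le fun a => cj_le_iff_le_cj_inv.1 (by
    rw [← cj_mul]; exact rd_cj_le (mul_mem hb a.2))))

omit [Finite G] in
theorem rd_cent (hn : A ≤ N[K]) (hS : MinNormal S K) (hSK : S ≤ K) {a : G} (ha : a ∈ A) (h : a ∉ N[S]) :
    cj a • S ≤ C[S] := by
  have h1 := minNormal_cj hS a
  rw [cj_eq_self (hn ha)] at h1
  have h2 : cj a • S ≤ K := cj_le_of_mem_norm hSK (hn ha)
  refine le_cent_of_inf_eq_bot (hSK.trans h1.norm) (h2.trans hS.norm)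
    ((h1.le_or_inf_eq_bot hS.norm).resolve_left fun e => h ?_)
  exact cj_eq_self_iff.1 (hS.eq_of_le e h1.norm h1.ne_bot)

omit [Finite G] in
/-- two conjugates of an invariant subgroup of `S` coincide or commute -/
theorem rd_pair (hn : A ≤ N[K]) (hS : MinNormal S K) (hSK : S ≤ K) (hX : X ≤ S) (hD : A ⊓ N[S] ≤ N[X]) {a b : G}
    (ha : a ∈ A) (hb : b ∈ A) : cj a • X = cj b • X ∨ cj a • X ≤ C[cj b • X] := by
  have e : cj a • X = cj b • cj (b⁻¹ * a) • X := by rw [← cj_mul, mul_inv_cancel_left]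
  have hc := mul_mem (inv_mem hb) ha
  by_cases h : b⁻¹ * a ∈ N[S]
  · exact Or.inl (by rw [e, cj_eq_self (hD ⟨hc, h⟩)])
  · refine Or.inr ?_
    rw [e, ← cj_centralizer]
    exact cj_mono b ((cj_mono _ hX).trans ((rd_cent hn hS hSK hc h).trans (cent_anti hX)))

theorem rd_ig (hn : A ≤ N[K]) (hS : MinNormal S K) (hSK : S ≤ K) (hX : IG (A ⊓ N[S]) S p X) :
    IG A K p (rdHat A X) := by
  refine ⟨hX.hp, iSup_le fun a => cj_le_of_mem_norm (hX.le.trans hSK) (hn a.2), rd_norm,
    (pCoreOf_isPGroup p (rdHat A X)).to_le (iSup_le fun a => le_pCoreOf (rd_cj_le a.2) (iSup_le fun b => ?_)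
      (isPGroup_cj.2 hX.pg))⟩
  rcases rd_pair hn hS hSK hX.le hX.norm b.2 a.2 with e | e
  · rw [e]; exact le_norm_self _
  · exact e.trans (cent_le_norm _)

/-- the hypothesis passes to a minimal normal subgroup with trivial centre -/
theorem Hyp.rd_min (h : Hyp A K r) (hS : MinNormal S K) (hSK : S ≤ K) (hZ : S ⊓ C[S] = ⊥) :
    Hyp (A ⊓ N[S]) S r := by
  classical
  refine ⟨h.hr, CL.Loc.ea_mono h.el inf_le_left, inf_le_right, h.copB inf_le_left hSK, fun p X Y hX hY =>
    (h.uniq p _ _ (rd_ig h.norm hS hSK hX) (rd_ig h.norm hS hSK hY)).to_le (sup_le_sup rd_le rd_le), ?_⟩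
  by_contra ho
  have := Fact.mk Nat.prime_two
  obtain ⟨⟨t, htS, htD⟩, ht⟩ := exists_prime_orderOf_dvd_card' (G := ↥(S ⊓ C[A ⊓ N[S]])) 2
    (Nat.not_odd_iff_even.1 ho).two_dvd
  replace ht : orderOf t = 2 := (Subgroup.orderOf_mk _ _).symm.trans ht
  have hX : IG (A ⊓ N[S]) S 2 (zpowers t) := ⟨Nat.prime_two, zpowers_le.2 htS,
    le_norm_of_le_cent (cent_symm (zpowers_le.2 htD)), IsPGroup.of_card (n := 1) (by rw [Nat.card_zpowers, ht, pow_one])⟩
  have hE := rd_ig h.norm hS hSK hX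
  set E := rdHat A (zpowers t) with hEd
  have hab : E ≤ C[E] := iSup_le fun a => cent_symm (iSup_le fun b => by
    rcases rd_pair h.norm hS hSK hX.le hX.norm b.2 a.2 with e | e
    · rw [e, cj_zpowers]; exact abelian_iff.1 inferInstance
    · exact e)
  have := abelian_iff.2 hab
  let _ : CommGroup E := { (inferInstance : Group E) with mul_comm := fun a b => mul_comm' a b }
  have := Fintype.ofFinite A
  let f : A → E := fun a => ⟨a * t * a⁻¹, rd_cj_le a.2 (mem_cj_iff_exists.2 ⟨t, mem_zpowers t, rfl⟩)⟩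
  have h1 : ∏ a, f a = 1 := by
    refine Subtype.ext (mem_bot.1 ((h.two_cent hE).le ⟨(∏ a, f a).2, mem_centralizer_iff.2 fun b hb => ?_⟩))
    have h2 : E.normalizerMonoidHom ⟨b, hE.norm hb⟩ (∏ a, f a) = ∏ a, f a := by
      rw [map_prod, ← Equiv.prod_comp (Equiv.mulLeft (⟨b, hb⟩ : A)) f]
      exact Finset.prod_congr rfl fun a _ => Subtype.ext (by simp [f, mul_assoc])
    exact mul_inv_eq_iff_eq_mul.1 (congrArg Subtype.val h2)
  rw [← Finset.prod_filter_mul_prod_filter_not Finset.univ fun a : A => (a : G) ∈ N[S]] at h1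
  have h3 : ∏ a ∈ Finset.univ.filter fun a : A => ¬ (a : G) ∈ N[S], f a ∈ C[S].subgroupOf E := Subgroup.prod_mem _ fun a ha =>
    rd_cent h.norm hS hSK a.2 (Finset.mem_filter.1 ha).2 (mem_cj_iff_exists.2 ⟨t, htS, rfl⟩)
  rw [Finset.prod_congr rfl (g := fun _ => f 1) fun a ha => Subtype.ext (by
    simp [f, mem_centralizer_iff.1 htD a ⟨a.2, (Finset.mem_filter.1 ha).2⟩]), Finset.prod_const] at h1
  have h4 : (Finset.univ.filter fun a : A => (a : G) ∈ N[S]).card = Nat.card ↥(A ⊓ N[S]) := by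
    rw [← Fintype.card_subtype, ← Nat.card_eq_fintype_card, inf_comm, ← card_subgroupOf_eq]
    rfl
  have h5 : t ^ Nat.card ↥(A ⊓ N[S]) ∈ C[S] := by
    have h6 := inv_mem h3
    rw [← eq_inv_of_mul_eq_one_left h1, h4] at h6
    simpa [f, mem_subgroupOf] using h6
  have h7 := orderOf_dvd_of_pow_eq_one (mem_bot.1 (hZ.le ⟨pow_mem htS _, h5⟩))
  rw [ht] at h7
  exact absurd (Nat.eq_one_of_dvd_coprimes (h.copB inf_le_left hSK) h7 (ht ▸ S.orderOf_dvd_natCard htS)) (by decide)

/-- an element of `A` centralising `K` can be dropped -/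
theorem Hyp.rd_drop (h : Hyp A K r) {a : G} (ha : a ∈ A) (h1 : a ≠ 1) (hc : K ≤ C1[a]) :
    ∃ B, B < A ∧ Hyp B K r := by
  have := Fact.mk h.hr
  obtain ⟨B, h2, h3, h4⟩ := CL.Loc.ea_exists_compl h.el (zpowers_le.2 ha)
  have h5 : K ≤ C[zpowers a] := by rwa [centralizer_zpowers]
  have key : ∀ p X, IG B K p X → IG A K p X := fun p X hX => ⟨hX.hp, hX.le,
    h4.ge.trans (sup_le hX.norm (le_norm_of_le_cent (cent_symm (hX.le.trans h5)))), hX.pg⟩
  refine ⟨B, lt_of_le_of_ne h2 fun e => h1 (mem_bot.1 (h3.le ⟨e ▸ ha, mem_zpowers a⟩)), h.hr,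
    CL.Loc.ea_mono h.el h2, h2.trans h.norm, h.copB h2 le_rfl,
    fun p X Y hX hY => h.uniq p X Y (key p X hX) (key p Y hY), odd_of_le h.odd ?_⟩
  rw [← h4, cent_sup]
  exact le_inf inf_le_left (le_inf inf_le_right (inf_le_left.trans h5))

theorem red : Red.{u} := by
  intro f3 rk2 G _ _ A K r h
  induction hn : Nat.card A + Nat.card K using Nat.strong_induction_on generalizing G with
  | _ n ih =>
  by_contra hs
  have := Fact.mk h.hr
  have hsub : ∀ N : Subgroup G, N < K → A ≤ N[N] → Group.IsSolvable N := fun N hN hA =>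
    ih _ (hn ▸ Nat.add_lt_add_left (card_lt_card_of_lt hN) _) G A N (h.sub hN.le hA) rfl
  have hinv : ∀ N : Subgroup G, N ≤ K → K ≤ N[N] → A ≤ N[N] → N = ⊥ ∨ N = K := fun N h1 h2 h3 => by
    by_contra hc
    push Not at hc
    refine hs (sol_of_quo h2 (hsub N (lt_of_le_of_ne h1 hc.2) h3) (ih _ ?_ _ _ _ (h.quo h1 h2 h3) rfl))
    have e := card_mul_card_quo (N := N) (H := K) ⟨h1, h2⟩
    have h4 : 1 < Nat.card N := (one_lt_card_iff_ne_bot N).2 hc.1
    have h5 : 0 < Nat.card (quo N K) := Nat.card_pos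
    have h6 := Nat.le_of_dvd Nat.card_pos (card_quo_dvd N A)
    rw [← hn, ← e]
    nlinarith
  have hF : fittingOf K = ⊥ := (hinv _ (fittingOf_le K) (le_normalizer_fittingOf K)
    (h.norm.trans (normalizer_le_normalizer_fittingOf K))).resolve_right
      fun e => hs (e ▸ sol_of_nil (fittingOf_isNilpotent K))
  have hsimp : ∀ N : Subgroup G, N ≤ K → K ≤ N[N] → N = ⊥ ∨ N = K := fun N h1 h2 => by
    by_contra hc
    push Not at hc
    obtain ⟨S, hS, hSN⟩ := exists_minNormal_le h2 hc.1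
    have hSK := hSN.trans h1
    have h3 : ¬ Group.IsSolvable S := fun e =>
      hS.ne_bot (eq_bot_iff.2 (((minnormal_solvable_Fitting_center hS hSK e).trans inf_le_left).trans hF.le))
    refine h3 (ih _ ?_ G _ S (h.rd_min hS hSK ((hS.le_or_inf_eq_bot (le_norm_cent hS.norm)).resolve_left
      fun e => h3 (sol_of_abelian (abelian_iff.2 e)))) rfl)
    exact hn ▸ Nat.add_lt_add_of_le_of_lt (card_le_of_le inf_le_left)
      (card_lt_card_of_lt (hSN.trans_lt (lt_of_le_of_ne h1 hc.2)))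
  have hm : Min A K r := ⟨h, hs, hsub, hsimp⟩
  have hc1 : ∀ a ∈ A, a ≠ 1 → Group.IsSolvable ↥(K ⊓ C1[a]) := fun a ha h1 => by
    refine hsub _ (lt_of_le_of_ne inf_le_left fun e => ?_)
      (le_norm_inf h.norm (le_norm_c1_of_le_c1 (le_c1_iff.2 (abelian_iff.1 h.abA ha))))
    obtain ⟨B, h2, h3⟩ := h.rd_drop ha h1 (inf_eq_left.1 e)
    exact hs (ih _ (hn ▸ Nat.add_lt_add_right (card_lt_card_of_lt h2) _) G B K h3 rfl)
  have hev : 2 ∣ Nat.card K := (Nat.not_odd_iff_even.1 fun e => hs (feit_thompson e)).two_dvd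
  obtain ⟨k, hk⟩ := IsPGroup.iff_card.1 (CL.Loc.ea_isPGroup h.el)
  have hk0 : k ≠ 0 := by
    rintro rfl
    have h1 := h.odd
    rw [card_eq_one.1 (hk.trans (pow_zero r)), cent_bot, inf_top_eq] at h1
    exact hs (feit_thompson h1)
  have hrK : ¬ r ∣ Nat.card K := fun e =>
    h.hr.ne_one (Nat.eq_one_of_dvd_coprimes h.cop (hk ▸ dvd_pow_self r hk0) e)
  rcases (by omega : k = 1 ∨ k = 2 ∨ 3 ≤ k) with rfl | rfl | e
  · obtain ⟨Y, V, hY, hV, h1, h2⟩ := f3 G A K r hm
    exact h2 (CL.Loc.t3core (by rw [hk, pow_one]; exact h.hr) hY.norm hV.norm h1 hY.sol hV.sol (h.copX hY.le)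
      (h.copX hV.le) (hY.cop hV (by decide)) (h.two_star hY) (h.star hY hV (by decide) h1)
      (Or.inr ((h.two_cent hY).le.trans bot_le)))
  · refine rk2 G A K r ⟨⟨h, hk, fun e => hrK (e ▸ hev), fun B b => ?_⟩, hs, hsub, hsimp⟩
    obtain ⟨⟨a, ha⟩, h1⟩ := (ne_bot_iff_exists_ne_one (H := B)).1 fun e =>
      h.hr.ne_one (by rw [← b.card, e]; exact card_bot)
    exact sol_of_le (hc1 a (b.le ha) fun e => h1 (Subtype.ext e)) (inf_le_inf_left _ (cent_le_c1 ha))
  · exact hs (CL.Loc.sol_of_rank_three h.hr h.el (hk ▸ Nat.pow_le_pow_right h.hr.pos e) h.norm hrK hc1)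

theorem s1917_of (h : Thm.{u}) {G : Type u} [Group G] [Finite G] (A : Subgroup (MulAut G)) {r : ℕ} [Fact r.Prime]
    (hA : Cfsg.IsElementaryAbelian r A) (hcop : (Nat.card A).Coprime (Nat.card G))
    (huniq : ∀ p : ℕ, p.Prime → p ∣ Nat.card G →
      ∃! P : Sylow p G, ∀ φ ∈ A, (P : Subgroup G).map (MulEquiv.toMonoidHom φ) = P)
    (hodd : Odd (Nat.card {g : G // ∀ φ ∈ A, φ g = g})) :
    Group.IsSolvable G := by
  have hi := sdInl_injective (A := A) (K := G)
  have he : IsElementaryAbelian r (sdInr A G).range := by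
    have h1 := CL.Loc.ea_map (CL.Loc.ea_subgroupOf hA A) (sdInr A G)
    rwa [subgroupOf_self, ← MonoidHom.range_eq_map] at h1
  have hc : (Nat.card (sdInr A G).range).Coprime (Nat.card (sdInl A G).range) := by
    rwa [card_range_sdInr, card_range_sdInl]
  have key : Hyp (sdInr A G).range (sdInl A G).range r := by
    refine ⟨Fact.out, he, range_sdInr_le_normalizer, hc, fun p X Y hX hY => ?_, ?_⟩
    · have := Fact.mk hX.hp
      by_cases e : X = ⊥
      · rw [e, bot_sup_eq]; exact hY.pg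
      obtain ⟨P, -, hP⟩ := huniq p hX.hp (card_range_sdInl (A := A) (K := G) ▸
        (dvd_card_of_isPGroup_ne_bot hX.pg e).trans (card_dvd_of_le hX.le))
      have k : ∀ X, IG (sdInr A G).range (sdInl A G).range p X → X ≤ (P : Subgroup G).map (sdInl A G) := by
        intro X hX
        obtain ⟨S, h1, h2, h3⟩ := coprime_Sylow_subset hX.hp range_sdInr_le_normalizer hc
          (Or.inl (sol_of_abelian he.1)) hX.pg hX.le hX.norm
        have h4 : (S.comap (sdInl A G)).map (sdInl A G) = S := map_comap_eq_self h1.le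
        let Q : Sylow p G := ⟨S.comap (sdInl A G), h1.isPGroup.comap_of_injective _ hi, fun {T} hT hle =>
          map_injective hi (h4.trans (h1.eq_of_le (hT.map _) (h4.ge.trans (map_mono hle)) (map_le_range _ _)).symm).symm⟩
        have h5 : Q = P := hP Q fun φ hφ => Subgroup.eq_of_le_of_card_ge (by
          rintro _ ⟨x, hx, rfl⟩
          exact (range_sdInr_le_normalizer_iff _).1 (h4.symm ▸ h2) ⟨φ, hφ⟩ x hx)
          (card_map_of_injective φ.injective).ge
        exact h3.trans (h4.ge.trans (map_mono (congrArg Sylow.toSubgroup h5).le))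
      exact (P.isPGroup'.map _).to_le (sup_le (k X hX) (k Y hY))
    · rw [MonoidHom.range_eq_map (sdInl A G), ← map_sdInl_inf_fixedPoints, card_map_sdInl, top_inf_eq]
      convert hodd using 1
      exact Nat.card_congr (Equiv.subtypeEquivRight fun g => ⟨fun e φ hφ => e ⟨φ, hφ⟩, fun e φ => e φ φ.2⟩)
  have := h _ _ _ _ key
  exact Group.isSolvable_of_surjective (f := (MonoidHom.ofInjective hi).symm.toMonoidHom) (MulEquiv.surjective _)

end CL.Row
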