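/-
Thompson factorization for odd primes under an elementary abelian operator group with odd fixed points.
-/
import Cfsg.Agent.Fgs.RowDefs
import Cfsg.Agent.S0621

set_option autoImplicit false

open Subgroup Cfsg CL.Odd CL.Grp CL.Fgs
open scoped commutatorElement Pointwise

namespace CL.Row

universe u

variable {G : Type u} [Group G] [Finite G] {A K P : Subgroup G} {r p : ℕ}

theorem Hyp.exists_prime (h : Hyp A K r) : ∃ q : ℕ, q.Prime ∧ IsElementaryAbelian q A ∧ ¬ q ∣ Nat.card K := by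
  by_cases e : A = ⊥
  · obtain ⟨q, h1, h2⟩ := Nat.exists_infinite_primes (Nat.card K + 1)
    refine ⟨q, h2, ⟨h.abA, fun a ha => by rw [e, mem_bot] at ha; rw [ha, one_pow]⟩, fun h3 => ?_⟩
    have := Nat.le_of_dvd Nat.card_pos h3
    omega
  · obtain ⟨a, ha, h1⟩ := ne_bot_iff.1 e
    have := Fact.mk h.hr
    have h2 : r ∣ Nat.card A := orderOf_eq_prime (h.el.2 a ha) h1 ▸ orderOf_dvd_card_of_mem ha
    exact ⟨r, h.hr, h.el, (Nat.Prime.coprime_iff_not_dvd h.hr).1 (h.cop.coprime_dvd_left h2)⟩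

theorem two_dvd_card_sl_three : 2 ∣ Nat.card (Matrix.SpecialLinearGroup (Fin 2) (ZMod 3)) := by
  let M : Matrix.SpecialLinearGroup (Fin 2) (ZMod 3) := ⟨!![-1, 0; 0, -1], by decide⟩
  have h : orderOf M = 2 := orderOf_eq_prime (by decide) fun e =>
    absurd (congrArg (fun N : Matrix.SpecialLinearGroup (Fin 2) (ZMod 3) => N.1 0 0) e) (by decide)
  exact h.symm.dvd.trans (_root_.orderOf_dvd_natCard M)

theorem Hyp.factorizable [Fact p.Prime] (h : Hyp A K r) (hs : Group.IsSolvable K) (hp : p ≠ 2) :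
    IsThompsonFactorizable p K := by
  have hN := piCoreOf_normalIn {p}ᶜ K
  have hA : A ≤ N[piCoreOf {p}ᶜ K] := h.norm.trans (normalizer_le_normalizer_piCoreOf _ _)
  have hq := h.quo hN.le hN.norm hA
  rw [CL.Loc.isThompsonFactorizable_iff_of_coprime_ker (quoHom_surjective hN.norm) (by
    rw [ker_quoHom, piCoreOf_compl_eq_pPrimeCoreOf, ← comap_subtype, comap_map_eq_self_of_injective
      (subtype_injective K)]
    exact pPrimeCore_coprime p K)]
  by_contra hc
  obtain ⟨q, hq1, hq2, hq3⟩ := hq.exists_prime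
  have := Fact.mk hq1
  have h0 := (piCoreOf_compl_eq_pPrimeCoreOf (p := p) _).symm.trans (piCoreOf_quo_piCoreOf {p}ᶜ K)
  rw [map_eq_bot_iff_of_injective _ (subtype_injective _)] at h0
  obtain ⟨h1, W, D, -, hD, -, -, -, hn, ⟨e⟩⟩ := Cfsg.Agent.S0621.result _ _ hq.norm hq2 hq3
    (CL.Loc.isPSolvable_of_isSolvable (sol_quo hs _)) h0 hc
  obtain rfl : p = 3 := h1.resolve_left hp
  exact (odd_of_le hq.odd hD).not_two_dvd_nat
    ((two_dvd_card_sl_three.trans (Nat.card_congr e.toEquiv).symm.dvd).trans (card_quotient_dvd_card _))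

theorem tf : TF.{u} := by
  intro G _ _ A K P r p h hs hP hp h0
  have := Fact.mk hP.hp
  have hd : ∀ {X : Subgroup G}, X ≤ P → X ≠ ⊥ → p ∣ Nat.card X := fun hX h1 =>
    (hP.syl.isPGroup.to_le hX).card_eq_or_dvd.resolve_left fun e => h1 (card_eq_one.1 e)
  refine ⟨thompsonSubgroupOf p P, omegaOne p Z[P], CL.Loc.thompsonSubgroupOf_le P,
    CL.Loc.thompsonSubgroupOf_ne_bot (hd le_rfl h0), CL.Loc.normalizer_le_normalizer_thompsonSubgroupOf P,
    CL.Loc.omegaOne_center_le P, CL.Loc.omegaOne_ne_bot (hd inf_le_left (center_ne_bot_of_nil hP.ig.nil h0)),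
    norm_le_norm_omega_center p P, fun g hg => ?_⟩
  obtain ⟨x, hx, c, hc, n, hn, e⟩ := h.factorizable hs hp hP.syl.toSylow ⟨g, hg⟩
  have e' : g = x * c * n := congrArg Subtype.val e
  have hk := CL.Loc.inf_ker_eq_bot_of_injective (hP.syl.toSylow : Subgroup K) (subtype_injective K)
  have h1 := le_normalizer_map K.subtype (mem_map_of_mem _ (cent_le_norm _ hc))
  have h2 := le_normalizer_map K.subtype (mem_map_of_mem _ hn)
  rw [CL.Loc.map_omegaOne_center hk, hP.syl.map_toSylow] at h1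
  rw [CL.Loc.map_thompsonSubgroupOf hk, hP.syl.map_toSylow] at h2
  rw [e']
  refine mul_mem (mul_mem (mem_sup_left (mem_sup_left ?_)) (mem_sup_right ⟨c.2, h1⟩))
    (mem_sup_left (mem_sup_right ⟨n.2, h2⟩))
  rw [piCoreOf_compl_eq_pPrimeCoreOf]
  exact mem_map_of_mem _ hx

end CL.Row
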