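/-
The tower lemma for an operator group of rank two: `S = [S, A]` over `Q` over `V`.
-/
import Cfsg.Agent.Fgs.RowDefs
import Cfsg.Agent.Loc.Chief

set_option autoImplicit false

open Subgroup Cfsg CL.Odd CL.Grp CL.Fgs
open scoped commutatorElement Pointwise

namespace CL.Row

universe u

variable {G : Type u} [Group G] [Finite G] {A B B₁ B' K N S Q V U : Subgroup G} {r s q p : ℕ}

/-- a tower whose top is centralised by `B₁` -/
structure TW (A K S Q V B₁ : Subgroup G) (r s q p : ℕ) : Prop extends Hyp2 A K r where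
  hS : IG A K s S
  hQ : IG A K q Q
  hV : IG A K p V
  sq : s ≠ q
  pq : p ≠ q
  SQ : S ≤ N[Q]
  SV : S ≤ N[V]
  QV : Q ≤ N[V]
  st : ⁅S, A⁆ = S
  ln : Ln A r B₁
  SB : S ≤ C[B₁]

theorem tw_card_quo_lt (hQ : Q ≤ N[N]) (h : N ⊓ Q ≠ ⊥) : Nat.card (quo N Q) < Nat.card Q := by
  have e := card_inf_mul_card_quo hQ
  have h4 : 1 < Nat.card ↥(N ⊓ Q) := (one_lt_card_iff_ne_bot _).2 h
  have h5 : 0 < Nat.card (quo N Q) := Nat.card_pos
  nlinarith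

namespace TW

variable (h : TW A K S Q V B₁ r s q p)
include h

theorem quo (hN : N ≤ V ⊔ Q) (h1 : V ≤ N[N]) (h2 : Q ≤ N[N]) (h3 : S ≤ N[N]) (h4 : A ≤ N[N]) :
    TW (quo N A) (quo N (V ⊔ Q ⊔ S)) (quo N S) (quo N Q) (quo N V) (quo N B₁) r s q p := by
  have k := h.toHyp2.sub (sup_le (sup_le h.hV.le h.hQ.le) h.hS.le)
    (le_norm_sup (le_norm_sup h.hV.norm h.hQ.norm) h.hS.norm)
  have hN' := hN.trans (le_sup_left : V ⊔ Q ≤ V ⊔ Q ⊔ S)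
  exact ⟨k.quo hN' (sup_le (sup_le h1 h2) h3) h4, (h.hS.mono le_sup_right).quo N,
    (h.hQ.mono (le_sup_right.trans le_sup_left)).quo N, (h.hV.mono (le_sup_left.trans le_sup_left)).quo N,
    h.sq, h.pq, quo_le_norm N h.SQ, quo_le_norm N h.SV, quo_le_norm N h.QV, by rw [← quo_comm h3 h4, h.st],
    k.ln_quo hN' h4 h.ln, quo_le_cent N h.SB⟩

omit [Finite G] in
theorem subQ (hN : N ≤ Q) (h3 : S ≤ N[N]) (h4 : A ≤ N[N]) : TW A K S N V B₁ r s q p :=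
  ⟨h.toHyp2, h.hS, h.hQ.of_le hN h4, h.hV, h.sq, h.pq, h3, h.SV, hN.trans h.QV, h.st, h.ln, h.SB⟩

omit [Finite G] in
theorem subV (hN : N ≤ V) (h2 : Q ≤ N[N]) (h3 : S ≤ N[N]) (h4 : A ≤ N[N]) : TW A K S Q N B₁ r s q p :=
  ⟨h.toHyp2, h.hS, h.hQ, h.hV.of_le hN h4, h.sq, h.pq, h.SQ, h3, h2, h.st, h.ln, h.SB⟩

omit [Finite G] in
theorem yle (b : Ln A r B) : ⁅Q ⊓ C[B], A⁆ ≤ Q := (h.st_le h.hQ.norm b).trans inf_le_left

theorem key (hU : IG A K p U) (hn : Q ≤ N[U]) (b : Ln A r B) (b' : Ln A r B') (hne : B ≠ B')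
    (hc : ¬ ⁅Q ⊓ C[B], A⁆ ≤ C[U]) : U ⊓ C[⁅Q ⊓ C[B'], A⁆] ≠ ⊥ := fun e =>
  hc (h.f4 (h.st_ig h.hQ b) hU h.pq ((h.yle b).trans hn) b b' hne ((h.st_le h.hQ.norm b).trans inf_le_right)
    (h.st_st h.hQ.le h.hQ.norm b) ((le_trans (le_inf ((h.st_le hU.norm b').trans inf_le_left)
      (h.f1 hU h.hQ h.pq b')) e.le).trans bot_le))

theorem y_ne (hc : ¬ S ≤ C[Q]) (b : Ln A r B) (hne : B₁ ≠ B) : ⁅Q ⊓ C[B], A⁆ ≠ ⊥ := fun e =>
  hc (h.f4 h.hS h.hQ h.sq.symm h.SQ h.ln b hne h.SB h.st (e.le.trans bot_le))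

theorem cent_le_der (e : ⁅Q, S⁆ = Q) : Q ⊓ C[S] ≤ ⁅Q, Q⁆ :=
  have c := h.hQ.cop h.hS h.sq.symm
  (coprime_der1_sdprod (Sdp.of_coprime h.SQ c) c h.hQ.sol (e.ge.trans (comm_le_der le_sup_left le_sup_right))).2

variable (hQ : ∀ N : Subgroup G, N < Q → S ≤ N[N] → A ≤ N[N] → N ≤ C[S])
  (hV : ∀ N : Subgroup G, N ≤ V → Q ≤ N[N] → S ≤ N[N] → A ≤ N[N] → N ≠ ⊥ → N = V)
  (hf : Q ⊓ C[V] = ⊥) (e : ⁅Q, S⁆ = Q) (h0 : Q ≠ ⊥)
include hQ hV hf e h0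

theorem abQ : Q ≤ C[Q] := by
  have hc : ¬ S ≤ C[Q] := fun k => h0 (e.symm.trans (comm_eq_bot_iff'.2 k))
  have h5 : ∀ B, Ln A r B → V ⊓ C[⁅Q ⊓ C[B], A⁆] ≠ ⊥ := fun B b => by
    obtain ⟨D, d, k1, k2, -⟩ := h.exists_ln B B₁ B
    exact h.key h.hV h.QV d b k1 fun k => h.y_ne hc d k2.symm (eq_bot_iff.2 ((le_inf (h.yle d) k).trans hf.le))
  have nA : A ≤ N[⁅Q, Q⁆] := h.hQ.norm.trans (norm_le_norm_der Q)
  have h6 : ⁅Q, Q⁆ ≤ C[S] := hQ _ (der_lt_of_solvable h.hQ.sol h0) (h.SQ.trans (norm_le_norm_der Q)) nA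
  have h7 : Q ≤ C[⁅Q, Q⁆] := e.ge.trans ((commutator_mono le_rfl (cent_symm h6)).trans
    (comm_le_right (le_norm_cent (left_le_norm_comm Q Q))))
  have h8 : ∀ B, Ln A r B → ⁅Q ⊓ C[B], A⁆ ⊓ ⁅Q, Q⁆ = ⊥ := fun B b => by
    have k := hV (V ⊓ C[⁅Q ⊓ C[B], A⁆ ⊓ ⁅Q, Q⁆]) inf_le_left
      (le_norm_inf h.QV (le_norm_cent (le_norm_of_le_cent (h7.trans (cent_anti inf_le_right)))))
      (le_norm_inf h.SV (le_norm_cent (le_norm_of_le_cent ((cent_symm h6).trans (cent_anti inf_le_right)))))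
      (le_norm_inf h.hV.norm (le_norm_cent (le_norm_inf (h.st_ig h.hQ b).norm nA)))
      fun k => h5 B b (eq_bot_iff.2 ((inf_le_inf_left _ (cent_anti inf_le_left)).trans k.le))
    exact eq_bot_iff.2 ((le_inf (inf_le_right.trans (der_le Q)) (cent_symm (k.ge.trans inf_le_right))).trans hf.le)
  have h9 : ⁅⁅Q, Q⁆, A⁆ ≤ ⊥ := h.gen_star (h.hQ.of_le (der_le Q) nA) fun B b =>
    (le_inf (commutator_mono (inf_le_inf_right _ (der_le Q)) le_rfl) ((h.st_le nA b).trans inf_le_left)).trans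
      (h8 B b).le
  have h10 : Q ⊓ C[A] ≤ C[Q] := ((le_inf inf_le_left (h.star h.hS h.hQ h.sq.symm h.SQ)).trans
    (h.cent_le_der e)).trans (cent_symm h7)
  have h11 : ∀ B, Ln A r B → ∀ D, Ln A r D → ⁅Q ⊓ C[B], A⁆ ≤ C[⁅Q ⊓ C[D], A⁆] := fun B b D d => by
    by_cases k : B = D
    · subst k
      exact comm_eq_bot_iff.1 (eq_bot_iff.2 ((le_inf (der_le _) (der_mono (h.yle b))).trans (h8 B b).le))
    · refine le_trans ?_ (cent_anti (h.st_le h.hQ.norm d))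
      rw [← h.comm_eq b d k inf_le_right, ← comm_eq_bot_iff]
      refine commutator_commutator_eq_bot_of_rotate ?_ (eq_bot_iff.2 (le_trans (commutator_mono
        (commutator_mono inf_le_left inf_le_left) d.le) h9))
      rw [comm_eq_bot_iff'.2 inf_le_right, commutator_bot_left]
  exact h.gen' h.hQ.le h.hQ.norm (fun B b => cent_symm (h.gen' h.hQ.le h.hQ.norm (fun D d => h11 D d B b)
    (h10.trans (cent_anti (h.yle b))))) h10

theorem false (ab : IsMulCommutative V) (hv : V ⊓ C[Q] = ⊥) : False := by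
  have hc : ¬ S ≤ C[Q] := fun k => h0 (e.symm.trans (comm_eq_bot_iff'.2 k))
  have hab := h.abQ hQ hV hf e h0
  have h1 : Q ⊓ C[S] ≤ ⊥ := (h.cent_le_der e).trans (comm_eq_bot_iff.2 hab).le
  have h2 : ⁅Q ⊓ C[B₁], A⁆ ≤ ⊥ := by
    have k := h.f1 h.hQ h.hS h.sq.symm h.ln
    rw [inf_eq_left.2 h.SB, h.st] at k
    exact (le_inf (h.yle h.ln) k).trans h1
  have h3 : Q ⊓ C[A] ≤ ⊥ := (le_inf inf_le_left (h.star h.hS h.hQ h.sq.symm h.SQ)).trans h1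
  let P : Subgroup G → Prop := fun N => N ≤ Q ∧ B₁ ≤ N[N] ∧ V ⊓ C[N] ≠ ⊥
  have h4 : ∀ N, P N → ¬ Q ≤ N := fun N hN k => hN.2.2 (eq_bot_iff.2 ((inf_le_inf_left _ (cent_anti k)).trans hv.le))
  have h5 : ∀ N, Maximal P N → ∃ B, Ln A r B ∧ B ≠ B₁ ∧ ⁅Q, B⁆ ≤ N := fun N hN => by
    have k1 : ∀ B, Ln A r B → ¬ ⁅Q ⊓ C[B], A⁆ ≤ N → V ⊓ C[N] ⊓ C[⁅Q ⊓ C[B], A⁆] = ⊥ := fun B b k => by
      by_contra k2
      refine k (le_sup_right.trans (hN.2 (y := N ⊔ ⁅Q ⊓ C[B], A⁆) ⟨sup_le hN.1.1 (h.yle b),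
        le_norm_sup hN.1.2.1 (h.ln.le.trans (h.st_ig h.hQ b).norm), ?_⟩ le_sup_left))
      rwa [cent_sup, ← inf_assoc]
    obtain ⟨B, b, hB⟩ : ∃ B, Ln A r B ∧ ¬ ⁅Q ⊓ C[B], A⁆ ≤ N := by
      by_contra k
      push Not at k
      exact h4 N hN.1 (h.gen' h.hQ.le h.hQ.norm k (h3.trans bot_le))
    refine ⟨B, b, fun k => hB (k ▸ h2.trans bot_le), h.gen_comm h.hQ b.le fun D d hD => ?_⟩
    by_contra k
    have hY := h.st_ig h.hQ d
    have nY := (h.yle d).trans h.QV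
    have k2 : V ⊓ C[N] ≤ ⁅V, ⁅Q ⊓ C[D], A⁆⁆ := by
      have k3 := coprime_cent_prod (A := ⁅Q ⊓ C[D], A⁆) (K := V ⊓ C[N]) (le_norm_inf nY (le_norm_cent
        (le_norm_of_le_cent ((h.yle d).trans (hab.trans (cent_anti hN.1.1))))))
        (coprime_of_le_right (hY.cop h.hV h.pq.symm) inf_le_left) (Or.inl hY.sol)
      rw [k1 D d k, sup_bot_eq] at k3
      exact k3.ge.trans (commutator_mono inf_le_left le_rfl)
    refine h.key (h.hV.comm hY.norm nY) (le_norm_comm h.QV (le_norm_of_le_cent (hab.trans (cent_anti (h.yle d)))))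
      b d hD.symm (fun k3 => hN.1.2.2 ?_) (coprime_abel_cent_TI nY (hY.cop h.hV h.pq.symm) ab)
    exact eq_bot_iff.2 ((le_inf le_rfl (k2.trans (cent_symm k3))).trans (k1 B b hB).le)
  have h6 : ∀ N, Maximal P N → A ≤ N[N] := fun N hN => by
    obtain ⟨B, b, k1, k2⟩ := h5 N hN
    rw [← h.sup_eq b h.ln k1]
    exact sup_le (le_norm_of_comm_le ((commutator_mono hN.1.1 le_rfl).trans k2)) hN.1.2.1
  have h7 : ∀ x ∈ S, ∀ N, P N → P (cj x • N) := fun x hx N hN => by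
    refine ⟨cj_le_of_mem_norm hN.1 (h.SQ hx), ?_, ?_⟩
    · rw [← cj_normalizer, ← cj_eq_self_of_mem_cent (h.SB hx)]
      exact cj_mono x hN.2.1
    · rw [← cj_centralizer, ← cj_eq_self (h.SV hx), ← cj_inf, Ne, cj_eq_bot]
      exact hN.2.2
  have h8 : ∀ x ∈ S, ∀ N, Maximal P N → Maximal P (cj x • N) := fun x hx N hN =>
    ⟨h7 x hx N hN.1, fun M hM k => cj_le_iff_le_cj_inv.1 (hN.2 (h7 _ (inv_mem hx) M hM)
      (cj_le_iff_le_cj_inv.1 k)) |>.trans (by rw [inv_inv])⟩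
  have hV0 : V ≠ ⊥ := fun k => h0 (by rw [k, cent_bot, inf_top_eq] at hf; exact hf)
  obtain ⟨N, -, hN⟩ := Finite.exists_le_maximal (p := P) (a := ⊥)
    ⟨bot_le, by rw [norm_bot]; exact le_top, by rwa [cent_bot, inf_top_eq]⟩
  have h9 : S ≤ N[N] := h.st.ge.trans (commutator_le.2 fun x hx a ha => by
    rw [← cj_eq_self_iff, commutatorElement_def, cj_mul, cj_mul, cj_mul, cj_eq_self (inv_mem (h6 N hN ha)),
      cj_eq_self (h6 _ (h8 _ (inv_mem hx) N hN) ha), cj_cj_inv])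
  have h10 := hQ N (lt_of_le_of_ne hN.1.1 fun k => h4 N hN.1 k.ge) h9 (h6 N hN)
  obtain ⟨B, b, -, k2⟩ := h5 N hN
  obtain ⟨D, d, k3, k4, -⟩ := h.exists_ln B B₁ B
  exact h.y_ne hc d k4.symm (eq_bot_iff.2 (((h.st_le_comm d b k3).trans k2).trans
    ((le_inf hN.1.1 h10).trans h1)))

omit hQ hV hf e h0 in
theorem main : ⁅Q, S⁆ ≤ C[V] := by
  induction hn : Nat.card Q * Nat.card V using Nat.strong_induction_on generalizing G with
  | _ n ih =>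
  subst hn
  have pQ : 0 < Nat.card Q := Nat.card_pos
  have pV : 0 < Nat.card V := Nat.card_pos
  have hT := h.hQ.comm h.hS.norm h.SQ
  have TQ : ⁅Q, S⁆ ≤ Q := comm_le_left h.SQ
  have TV := TQ.trans h.QV
  have red : ∀ N : Subgroup G, N ≤ V ⊔ Q → V ≤ N[N] → Q ≤ N[N] → S ≤ N[N] → A ≤ N[N] → N ⊓ Q ≠ ⊥ ∨ N ⊓ V ≠ ⊥ →
      ⁅⁅Q, S⁆, V⁆ ≤ N := fun N hN h1 h2 h3 h4 h5 => by
    have l1 := Nat.le_of_dvd pQ (card_quo_dvd N Q)
    have l2 := Nat.le_of_dvd pV (card_quo_dvd N V)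
    have k := ih _ (h5.elim (fun k => Nat.mul_lt_mul_of_lt_of_le (tw_card_quo_lt h2 k) l2 pV)
      fun k => Nat.mul_lt_mul_of_le_of_lt l1 (tw_card_quo_lt h1 k) pQ) (h.quo hN h1 h2 h3 h4) rfl
    rwa [← quo_comm h2 h3, quo_le_cent_iff (TQ.trans h2) h1] at k
  by_cases hf : Q ⊓ C[V] = ⊥
  swap
  · have k := red (Q ⊓ C[V]) (inf_le_left.trans le_sup_right) (le_norm_of_le_cent (cent_symm inf_le_right))
      (le_norm_inf (le_norm_self Q) (le_norm_cent h.QV)) (le_norm_inf h.SQ (le_norm_cent h.SV))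
      (le_norm_inf h.hQ.norm (le_norm_cent h.hV.norm)) (Or.inl (by rwa [inf_eq_left.2 inf_le_left]))
    exact comm_eq_bot_iff.1 (eq_bot_iff.2 ((le_inf (comm_le_right TV) (k.trans inf_le_left)).trans
      (inf_eq_bot_of_coprime_card (h.hV.cop h.hQ h.pq)).le))
  by_cases ab : ⁅V, V⁆ = ⊥
  swap
  · have k := red ⁅V, V⁆ ((der_le V).trans le_sup_left) (left_le_norm_comm V V) (h.QV.trans (norm_le_norm_der V))
      (h.SV.trans (norm_le_norm_der V)) (h.hV.norm.trans (norm_le_norm_der V))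
      (Or.inr (by rwa [inf_eq_left.2 (der_le V)]))
    refine cent_symm ((le_of_sup_der_of_nil h.hV.nil (Y := V ⊓ C[⁅Q, S⁆]) inf_le_left ?_).trans inf_le_right)
    refine (coprime_cent_prod TV (hT.cop h.hV h.pq.symm) (Or.inl hT.sol)).ge.trans (sup_le ?_ le_sup_left)
    rw [commutator_comm]
    exact k.trans le_sup_right
  have hQ : ∀ N : Subgroup G, N < Q → S ≤ N[N] → A ≤ N[N] → N ≤ C[S] := fun N h1 h2 h3 =>
    comm_eq_bot_iff.1 (eq_bot_iff.2 ((le_inf ((comm_le_left h2).trans h1.le) (ih _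
      (Nat.mul_lt_mul_of_lt_of_le (card_lt_card_of_lt h1) le_rfl pV) (h.subQ h1.le h2 h3) rfl)).trans hf.le))
  by_cases e : ⁅Q, S⁆ = Q
  swap
  · have k := hQ _ (lt_of_le_of_ne TQ e) (right_le_norm_comm Q S) hT.norm
    rw [← comm_eq_bot_iff, coprime_commGid h.SQ (h.hS.cop h.hQ h.sq)] at k
    exact k.le.trans bot_le
  have hV : ∀ N : Subgroup G, N < V → Q ≤ N[N] → S ≤ N[N] → A ≤ N[N] → N ≤ C[Q] := fun N h1 h2 h3 h4 =>
    cent_symm (e.ge.trans (ih _ (Nat.mul_lt_mul_of_le_of_lt le_rfl (card_lt_card_of_lt h1) pQ)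
      (h.subV h1.le h2 h3 h4) rfl))
  have c := h.hQ.cop h.hV h.pq.symm
  by_cases e2 : ⁅V, Q⁆ = V
  swap
  · exact TQ.trans (coprime_cent_of_cent_comm h.QV c (hV _ (lt_of_le_of_ne (comm_le_left h.QV) e2)
      (right_le_norm_comm V Q) (le_norm_comm h.SV h.SQ) (le_norm_comm h.hV.norm h.hQ.norm)))
  have hv := coprime_abel_cent_TI h.QV c (abelian_iff_der.2 ab)
  rw [e2] at hv
  by_cases h0 : Q = ⊥
  · exact TQ.trans (h0.le.trans bot_le)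
  refine (h.false hQ (fun N h1 h2 h3 h4 h5 => ?_) hf e h0 (abelian_iff_der.2 ab) hv).elim
  by_contra k
  exact h5 (eq_bot_iff.2 ((le_inf h1 (hV N (lt_of_le_of_ne h1 k) h2 h3 h4)).trans hv.le))

end TW

theorem tl : TL.{u} := by
  intro G _ _ A K S Q V r s q p h hS hQ hV _ sq pq SQ SV QV st
  have nC : S ≤ N[Q ⊓ C[V]] := le_norm_inf SQ (le_norm_cent SV)
  have k : S ≤ CL.Loc.commStab Q (Q ⊓ C[V]) := st.ge.trans (h.gen_star hS fun B b => by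
    have hle := (h.st_le hS.norm b).trans inf_le_left
    have t : TW A K ⁅S ⊓ C[B], A⁆ Q V B r s q p := ⟨h, h.st_ig hS b, hQ, hV, sq, pq, hle.trans SQ, hle.trans SV, QV,
      h.st_st hS.le hS.norm b, b, (h.st_le hS.norm b).trans inf_le_right⟩
    exact CL.Loc.le_commStab.2 ⟨hle.trans nC, by
      rw [commutator_comm]; exact le_inf (comm_le_left (hle.trans SQ)) t.main⟩)
  rw [commutator_comm]
  exact (CL.Loc.le_commStab.1 k).2.trans inf_le_right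

end CL.Row
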