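/-
`2`-groups of sectional rank at most `2` are metacyclic; commuting normal subgroups in sectional rank at most `4`.
-/
import Cfsg.Agent.Fgs.SecRank
import Cfsg.Agent.Fgs.EqConj

set_option autoImplicit false

open Subgroup Cfsg CL.Grp CL.Odd
open scoped commutatorElement Pointwise

namespace CL.Fgs

variable {G : Type*} [Group G]

theorem isMetacyclic_of_commutator_le {g h : G} (hs : zpowers g ⊔ zpowers h = ⊤) (hc : commutator G ≤ zpowers g) :
    IsMetacyclic G := by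
  haveI : (zpowers g).Normal := normal_of_commutator_mem fun x _ y => hc (comm_mem_commutator x y)
  refine ⟨zpowers g, this, inferInstance, isCyclic_iff_exists_zpowers_eq_top.2 ⟨(h : G ⧸ zpowers g), ?_⟩⟩
  have h1 := congrArg (Subgroup.map (QuotientGroup.mk' (zpowers g))) hs
  rwa [Subgroup.map_sup, QuotientGroup.map_mk'_self, bot_sup_eq, MonoidHom.map_zpowers,
    map_top_of_surjective _ (QuotientGroup.mk'_surjective _)] at h1

theorem exists_sup_zpowers_eq_top [Finite G] {p : ℕ} [hp : Fact p.Prime] (hG : IsPGroup p G)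
    (h : (frattini G).index ≤ p ^ 2) {g : G} (hg : g ∉ frattini G) : ∃ h : G, zpowers g ⊔ zpowers h = ⊤ := by
  by_cases h1 : zpowers g ⊔ frattini G = ⊤
  · exact ⟨1, by rw [frattini_nongenerating h1, top_sup_eq]⟩
  obtain ⟨x, -, hx⟩ := SetLike.exists_of_lt (lt_top_iff_ne_top.2 h1)
  refine ⟨x, frattini_nongenerating ?_⟩
  have h2 : frattini G < zpowers g ⊔ frattini G :=
    lt_of_le_of_ne le_sup_right fun e => hg (e ▸ mem_sup_left (mem_zpowers g))
  have h3 : zpowers g ⊔ frattini G < zpowers g ⊔ zpowers x ⊔ frattini G :=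
    lt_of_le_of_ne (sup_le_sup_right le_sup_left _) fun e => hx (e ▸ mem_sup_left (mem_sup_right (mem_zpowers x)))
  have h4 := (Nat.mul_dvd_mul_left p (mul_index_dvd_index_of_lt hG h3)).trans (mul_index_dvd_index_of_lt hG h2)
  have h5 := (Nat.le_of_dvd (Nat.pos_of_ne_zero FiniteIndex.index_ne_zero) h4).trans h
  rw [← mul_assoc, ← sq] at h5
  have h6 := Nat.pos_of_ne_zero (FiniteIndex.index_ne_zero (H := zpowers g ⊔ zpowers x ⊔ frattini G))
  have h7 := pow_pos hp.out.pos 2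
  exact index_eq_one.1 (by nlinarith)

theorem isMetacyclic_of_card_commutator [Finite G] (hG : IsPGroup 2 G) (hr : SectionalPRankLE 2 2 G)
    (h2 : Nat.card (commutator G) = 2) : IsMetacyclic G := by
  obtain ⟨⟨c, hc⟩, hco⟩ := exists_prime_orderOf_dvd_card' (G := commutator G) 2 (h2 ▸ dvd_rfl)
  rw [Subgroup.orderOf_mk] at hco
  have hc1 : c ≠ 1 := Grp.ne_one_of_orderOf_prime Nat.prime_two hco
  have hc2 : c ^ 2 = 1 := hco ▸ pow_orderOf_eq_one c
  have hD : commutator G = zpowers c :=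
    (eq_of_le_of_card_ge (zpowers_le_of_mem hc) (by rw [Nat.card_zpowers, hco, h2])).symm
  have hZ : commutator G ≤ center G := le_center_of_normal_card_prime hG _ h2
  have hmem : ∀ x ∈ commutator G, x = 1 ∨ x = c := by
    classical
    intro x hx
    rw [hD, mem_zpowers_iff_mem_range_orderOf, hco] at hx
    obtain ⟨i, hi, rfl⟩ := Finset.mem_image.1 hx
    have : i = 0 ∨ i = 1 := by have := Finset.mem_range.1 hi; omega
    rcases this with rfl | rfl <;> simp
  have hex : ∃ u : G, c ∈ zpowers (u ^ 2) := by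
    by_contra hu
    push Not at hu
    have hnc : ¬ IsCyclic (⊤ : Subgroup (Abelianization G)) := fun h => by
      rw [topEquiv.isCyclic] at h
      have h1 := MonoidHom.isMulCommutative_of_isCyclic_of_ker_le_center (Abelianization.of : G →* _)
        (by rw [Abelianization.ker_of]; exact hZ)
      have : commutator G = ⊥ := eq_bot_iff.2 (commutator_le.2 fun x _ y _ =>
        mem_bot.2 (commutatorElement_eq_one_iff_mul_comm.2 (h1.is_comm.comm x y)))
      exact hc1 (mem_bot.1 (this ▸ hc))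
    have hsurj : Function.Surjective (Abelianization.of : G →* _) := QuotientGroup.mk'_surjective _
    haveI : Finite (Abelianization G) := Finite.of_surjective _ hsurj
    have h1 := sq_le_card_omegaOne_of_not_isCyclic ((hG.of_surjective _ hsurj).to_subgroup ⊤) inferInstance hnc
    set E := (omegaOne 2 (⊤ : Subgroup (Abelianization G))).comap Abelianization.of with hE
    have hsq : ∀ x ∈ E, x ^ 2 = 1 := by
      intro x hx
      have h3 := ((CL.Loc.mem_omegaOne_iff (fun a _ b _ => mul_comm b a)).1 hx).2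
      rw [← map_pow, ← MonoidHom.mem_ker, Abelianization.ker_of] at h3
      exact (hmem _ h3).resolve_right fun h => hu x (h ▸ mem_zpowers _)
    haveI := isMulCommutative_of_sq_eq_one hsq
    have h3 := secRank_iff.1 hr E ⊥ ⟨bot_le, fun x hx y hy => mem_bot.2
      (commutatorElement_eq_one_iff_mul_comm.2 (setLike_mul_comm hx hy)), fun x hx => mem_bot.2 (hsq x hx)⟩
    have h4 : commutator G ≤ E := Abelianization.ker_of G ▸ ker_le_comap _ _
    rw [relIndex_bot_left, card_eq_relIndex_mul_card h4, h2, ← Abelianization.ker_of, relIndex_ker, hE,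
      map_comap_eq_self_of_surjective hsurj] at h3
    omega
  haveI : Nonempty {u : G // c ∈ zpowers (u ^ 2)} := ⟨⟨_, hex.choose_spec⟩⟩
  obtain ⟨⟨g, hg⟩, hmax⟩ := Finite.exists_max fun u : {u : G // c ∈ zpowers (u ^ 2)} => orderOf u.1
  have hgF : g ∉ frattini G := by
    intro hgF
    have h1 : frattini G ≤ (powMonoidHom 2 : Abelianization G →* _).range.comap Abelianization.of :=
      (frattini_le_iff_pGroup hG).2 ⟨Abelianization.ker_of G ▸ ker_le_comap _ _,
        fun x => ⟨Abelianization.of x, (map_pow _ x 2).symm⟩⟩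
    obtain ⟨⟨v⟩, hv⟩ := h1 hgF
    have h3 : (v ^ 2)⁻¹ * g ∈ commutator G := QuotientGroup.eq.1 hv
    have h4 : g ^ 2 = (v ^ 2) ^ 2 := by
      rcases hmem _ h3 with h | h
      · rw [inv_mul_eq_one.1 h]
      · rw [inv_mul_eq_iff_eq_mul.1 h, (commute_of_mem_center (hZ hc) _).mul_pow, hc2, mul_one]
    have h5 : orderOf v ≤ orderOf g :=
      hmax ⟨v, zpowers_le_of_mem (pow_mem (mem_zpowers _) 2) (h4 ▸ hg)⟩
    obtain ⟨i, hi⟩ := IsPGroup.iff_orderOf.1 hG g
    obtain ⟨j, hj⟩ := IsPGroup.iff_orderOf.1 hG v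
    have hi2 : 2 ≤ i := by
      by_contra h
      have : g ^ 2 = 1 := orderOf_dvd_iff_pow_eq_one.1 (hi ▸ (pow_dvd_pow 2 (by omega)).trans (pow_one 2).dvd)
      rw [this, zpowers_one_eq_bot] at hg
      exact hc1 hg
    rw [hi, hj, Nat.pow_le_pow_iff_right one_lt_two] at h5
    obtain ⟨m, rfl⟩ := Nat.exists_eq_add_of_le' hi2
    have h6 : g ^ 2 ^ (m + 1) = 1 := by
      rw [pow_succ', pow_mul, h4, ← pow_mul, ← pow_mul, ← orderOf_dvd_iff_pow_eq_one, hj]
      exact (pow_dvd_pow 2 h5).trans (Dvd.intro 1 (by ring))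
    have := (Nat.pow_dvd_pow_iff_le_right one_lt_two).1 (hi ▸ orderOf_dvd_of_pow_eq_one h6)
    omega
  obtain ⟨h, hh⟩ := exists_sup_zpowers_eq_top hG (index_frattini_le_of_secRank hG hr) hgF
  exact isMetacyclic_of_commutator_le hh
    (hD ▸ zpowers_le_of_mem (zpowers_le_of_mem (pow_mem (mem_zpowers g) 2) hg))

theorem isMetacyclic_of_secRank_two.{u} (n : ℕ) : ∀ (G : Type u) [Group G] [Finite G], Nat.card G = n →
    IsPGroup 2 G → SectionalPRankLE 2 2 G → IsMetacyclic G := by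
  induction n using Nat.strong_induction_on with
  | _ n ih =>
  intro G _ _ hn hG hr
  by_cases h1 : commutator G = ⊥
  · by_cases hF : frattini G = ⊤
    · have : (⊥ : Subgroup G) = ⊤ := frattini_nongenerating (by rw [hF, sup_top_eq])
      exact isMetacyclic_of_commutator_le (g := 1) (h := 1) (by simpa using this) (h1 ▸ bot_le)
    · obtain ⟨g, -, hg⟩ := SetLike.exists_of_lt (lt_top_iff_ne_top.2 hF)
      obtain ⟨h, hh⟩ := exists_sup_zpowers_eq_top hG (index_frattini_le_of_secRank hG hr) hg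
      exact isMetacyclic_of_commutator_le hh (h1 ▸ bot_le)
  by_cases h2 : Nat.card (commutator G) = 2
  · exact isMetacyclic_of_card_commutator hG hr h2
  obtain ⟨r, hrD, hro, hrZ⟩ := exists_orderOf_eq_mem_center_of_normal hG _ h1
  have hr2 : r ^ 2 = 1 := hro ▸ pow_orderOf_eq_one r
  haveI : (zpowers r).Normal := normal_of_commutator_mem fun x hx g => by
    rw [commutatorElement_eq_one_iff_mul_comm.2 (mem_center_iff.1 (zpowers_le_of_mem hrZ hx) g).symm]
    exact one_mem _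
  have hsurj := QuotientGroup.mk'_surjective (zpowers r)
  obtain ⟨N', hN'n, hN', hQ⟩ := ih (Nat.card (G ⧸ zpowers r)) (by
      rw [← hn, card_eq_card_quotient_mul_card_subgroup (zpowers r), Nat.card_zpowers, hro]
      have := Nat.card_pos (α := G ⧸ zpowers r)
      omega) (G ⧸ zpowers r) rfl (hG.to_quotient _) (secRank_of_surjective hr _ hsurj)
  obtain ⟨⟨a⟩, rfl⟩ := cyclic_iff.1 hN'
  obtain ⟨⟨⟨b⟩⟩, hb⟩ := hQ.exists_generator
  set N := (zpowers (a : G ⧸ zpowers r)).comap (QuotientGroup.mk' (zpowers r)) with hN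
  haveI : N.Normal := hN'n.comap _
  have hNe : ∀ x ∈ N, ∃ i : ℤ, ∃ y ∈ zpowers r, x = a ^ i * y := by
    intro x hx
    obtain ⟨i, hi⟩ := mem_zpowers_iff.1 hx
    exact ⟨i, (a ^ i)⁻¹ * x, QuotientGroup.eq.1 hi, by group⟩
  have hA : IsMulCommutative N := abelian_iff_comm.2 fun x hx y hy => by
    obtain ⟨i, u, hu, rfl⟩ := hNe x hx
    obtain ⟨j, v, hv, rfl⟩ := hNe y hy
    have hu' := fun g => commute_of_mem_center (zpowers_le_of_mem hrZ hu) g
    have hv' := fun g => commute_of_mem_center (zpowers_le_of_mem hrZ hv) g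
    exact ((Commute.zpow_zpow_self a i j).mul_right (hv' _)).mul_left (hu' _).symm
  have hgen : N ⊔ zpowers b = ⊤ := eq_top_iff.2 fun x _ => by
    obtain ⟨i, hi⟩ := mem_zpowers_iff.1 (hb ((x : G ⧸ zpowers r) : _ ⧸ zpowers (a : G ⧸ zpowers r)))
    have h3 : (b ^ i)⁻¹ * x ∈ N :=
      (QuotientGroup.eq.1 hi : ((b : G ⧸ zpowers r) ^ i)⁻¹ * (x : G ⧸ zpowers r) ∈ zpowers (a : G ⧸ zpowers r))
    rw [sup_comm]
    simpa using mul_mem_sup (zpow_mem_zpowers b i) h3
  have haN : a ∈ N := mem_zpowers _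
  have hD : commutator G ≤ zpowers (commHom N hA b ⟨a, haN⟩) := by
    rw [← commHom_range N hA b hgen]
    rintro _ ⟨⟨x, hx⟩, rfl⟩
    obtain ⟨i, y, hy, rfl⟩ := hNe x hx
    have hyN : y ∈ N := QuotientGroup.ker_mk' (zpowers r) ▸ ker_le_comap _ _ <| hy
    have h3 : (⟨a ^ i * y, hx⟩ : N) = ⟨a, haN⟩ ^ i * ⟨y, hyN⟩ := rfl
    have h4 : commHom N hA b ⟨y, hyN⟩ = 1 := by
      rw [commHom_apply, mem_center_iff.1 (zpowers_le_of_mem hrZ hy) b]; simp
    rw [h3, map_mul, map_zpow, h4, mul_one]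
    exact zpow_mem_zpowers _ i
  set g := commHom N hA b ⟨a, haN⟩ with hg
  have hgN : g ∈ N := N.mul_mem ((inferInstance : N.Normal).conj_mem a haN b) (N.inv_mem haN)
  obtain ⟨s, y, hy, hgs⟩ := hNe g hgN
  obtain ⟨i, hi⟩ := mem_zpowers_iff.1 (hD hrD)
  have hra : r ∈ zpowers a := by
    rcases Int.even_or_odd' i with ⟨j, rfl | rfl⟩
    · have hy2 : y ^ 2 = 1 := orderOf_dvd_iff_pow_eq_one.1
        (hro ▸ Nat.card_zpowers r ▸ Subgroup.orderOf_dvd_natCard _ hy)
      rw [← hi, zpow_mul, zpow_ofNat, hgs, (commute_of_mem_center (zpowers_le_of_mem hrZ hy) _).mul_pow, hy2,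
        mul_one]
      exact zpow_mem (pow_mem (zpow_mem_zpowers a s) 2) j
    · exfalso
      obtain ⟨m, hm⟩ := IsPGroup.iff_orderOf.1 hG g
      have h3 := zpowers_zpow_mul_of_odd hm 1 (u := 2 * j + 1) ⟨j, rfl⟩
      rw [one_mul, hi, zpow_one] at h3
      exact h2 (by rw [le_antisymm (h3 ▸ hD) (zpowers_le_of_mem hrD), Nat.card_zpowers, hro])
  have hNa : N ≤ zpowers a := fun x hx => by
    obtain ⟨i, y, hy, rfl⟩ := hNe x hx
    exact mul_mem (zpow_mem_zpowers a i) (zpowers_le_of_mem hra hy)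
  exact isMetacyclic_of_commutator_le (h := b) (eq_top_iff.2 (hgen ▸ sup_le_sup_right hNa _))
    (hD.trans (zpowers_le_of_mem (hNa hgN)))

/-- `Z(P) = {1, z}` with `z ≠ 1`. -/
structure ZTwo (P : Subgroup G) (z : G) : Prop where
  ne : z ≠ 1
  mem : z ∈ Z[P]
  eq : ∀ y ∈ Z[P], y = 1 ∨ y = z

theorem exists_zTwo {P : Subgroup G} (h : Nat.card (center P) = 2) : ∃ z, ZTwo P z := by
  rw [← card_map_of_injective P.subtype_injective, center_map_subtype] at h
  obtain ⟨z, hz, hz'⟩ := (Nat.card_eq_two_iff' (1 : ↥Z[P])).1 h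
  refine ⟨z, fun e => hz (Subtype.ext e), z.2, fun y hy => or_iff_not_imp_left.2 fun h1 => ?_⟩
  exact congrArg Subtype.val (hz' ⟨y, hy⟩ fun e => h1 (congrArg Subtype.val e))

namespace ZTwo

variable {P Q T : Subgroup G} {z w g : G}

theorem conj (h : ZTwo P z) (g : G) : ZTwo (cj g • P) (g * z * g⁻¹) := by
  refine ⟨fun e => h.ne (conj_eq_one_iff'.1 e), ?_, fun y hy => ?_⟩
  · rw [← cj_centralizer, ← cj_inf, conj_mem_cj]; exact h.mem
  · rw [← cj_centralizer, ← cj_inf, mem_cj] at hy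
    rcases h.eq _ hy with e | e
    · left; rw [← conj_eq_one_iff' (g := g⁻¹), inv_inv, e]
    · right; rw [← e]; group

theorem fix (h : ZTwo P z) (hg : g ∈ N[P]) : g * z * g⁻¹ = z :=
  (h.eq _ (conj_mem_of_norm (norm_le_norm_center P hg) h.mem)).resolve_left fun e => h.ne (conj_eq_one_iff'.1 e)

theorem cent (h : ZTwo P z) : N[P] ≤ C[Z[P]] := fun g hg y hy => by
  rcases h.eq y hy with rfl | rfl
  · simp
  · exact (mul_inv_eq_iff_eq_mul.1 (h.fix hg)).symm

theorem mem_der (h : ZTwo P z) (hP : Group.IsNilpotent P) (hna : ¬ IsMulCommutative P) : z ∈ ⁅P, P⁆ := by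
  obtain ⟨y, hy, hy1⟩ := CL.Odd.ne_bot_iff.1 (inf_center_ne_bot_of_nil hP (der_le P) (left_le_norm_comm P P)
    fun e => hna (abelian_iff_der.2 e))
  exact (h.eq y ⟨der_le P hy.1, hy.2⟩).resolve_left hy1 ▸ hy.1

theorem inf_eq_bot (h : ZTwo P z) (h' : ZTwo Q w) (hne : z ≠ w) (hT : Group.IsNilpotent T) (hP : P ⊴ T)
    (hQ : Q ⊴ T) : P ⊓ Q = ⊥ := by
  by_contra e
  obtain ⟨y, hy, hy1⟩ := CL.Odd.ne_bot_iff.1 (inf_center_ne_bot_of_nil hT (hP.inf hQ).1 (hP.inf hQ).2 e)
  exact hne (((h.eq y ⟨hy.1.1, cent_anti hP.1 hy.2⟩).resolve_left hy1).symm.trans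
    ((h'.eq y ⟨hy.1.2, cent_anti hQ.1 hy.2⟩).resolve_left hy1))

theorem center_le_frattiniOf [Finite G] {p : ℕ} [hp : Fact p.Prime] (h : ZTwo P z) (hP : IsPGroup p P)
    (hna : ¬ IsMulCommutative P) : Z[P] ≤ frattiniOf P := fun y hy => by
  rcases h.eq y hy with rfl | rfl
  · exact one_mem _
  · exact commutator_le.2 (eaSec_frattiniOf hP).2.1 (h.mem_der hP.isNilpotent hna)

theorem cent_sup_le [Finite G] (hG : IsPGroup 2 G) (hr : SectionalPRankLE 2 4 G) (h : ZTwo P z) (h' : ZTwo Q w)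
    (hP : ¬ IsMulCommutative P) (hQ : ¬ IsMulCommutative Q) (hc : Q ≤ C[P]) (hi : P ⊓ Q = ⊥) :
    C[P ⊔ Q] ≤ P ⊔ Q := by
  intro x hx
  by_contra hx'
  obtain ⟨m, hm⟩ := hG x
  obtain ⟨j, hc1, hc2⟩ := exists_pow_notMem_pow_prime_mem (hm ▸ one_mem (P ⊔ Q)) hx'
  have hc0 : x ^ 2 ^ j ∈ C[P ⊔ Q] := pow_mem hx _
  generalize x ^ 2 ^ j = c at hc0 hc1 hc2
  have hs := (eaSec_frattiniOf (hG.to_subgroup P)).sup (eaSec_frattiniOf (hG.to_subgroup Q)) hc
  have hZ : Z[P ⊔ Q] ≤ frattiniOf P ⊔ frattiniOf Q := (Cp.of_sup hc).center ▸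
    sup_le_sup (h.center_le_frattiniOf (hG.to_subgroup P) hP) (h'.center_le_frattiniOf (hG.to_subgroup Q) hQ)
  have hs' : EASec 2 (zpowers c) (zpowers (c ^ 2)) := by
    refine ⟨zpowers_le_of_mem (pow_mem (mem_zpowers c) 2), fun x hx y hy => ?_, fun x hx => ?_⟩
    · rw [commutatorElement_eq_one_iff_mul_comm.2 (setLike_mul_comm hx hy)]; exact one_mem _
    · obtain ⟨i, rfl⟩ := mem_zpowers_iff.1 hx
      rw [← zpow_natCast (c ^ i), ← zpow_mul, mul_comm, zpow_mul, zpow_natCast]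
      exact zpow_mem_zpowers _ i
  have h1 := secRank_iff.1 hr _ _ (hs.sup hs' (zpowers_le_of_mem hc0))
  rw [sup_eq_left.2 (zpowers_le_of_mem (hZ ⟨hc2, pow_mem hc0 2⟩)),
    ← relIndex_mul_relIndex _ (P ⊔ Q) _ hs.1 le_sup_left,
    relIndex_sup_sup (eaSec_frattiniOf (hG.to_subgroup P)).1 (eaSec_frattiniOf (hG.to_subgroup Q)).1 hc hi] at h1
  have h2 := sq_le_relIndex_frattiniOf (hG.to_subgroup P) fun _ => hP inferInstance
  have h3 := sq_le_relIndex_frattiniOf (hG.to_subgroup Q) fun _ => hQ inferInstance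
  have h4 := Nat.le_of_dvd (Nat.pos_of_ne_zero FiniteIndex.index_ne_zero)
    (dvd_relIndex_of_not_le hG (H := P ⊔ Q) (K := P ⊔ Q ⊔ zpowers c) fun e => hc1 (e (mem_sup_right (mem_zpowers c))))
  exact absurd ((Nat.mul_le_mul (Nat.mul_le_mul h2 h3) h4).trans h1) (by norm_num)

end ZTwo

end CL.Fgs
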