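/-
The chain argument of Tutte, Sims and Glauberman for a subgroup `P` meeting `P ^ g` in a normal
subgroup of prime index.
-/
import Cfsg.Agent.Even.Amb
import Cfsg.Agent.Grp.Cores
import Cfsg.Agent.Grp.PGroupBasic

set_option autoImplicit false
set_option linter.unusedSectionVars false

namespace CL.SimsCh

open Cfsg Subgroup CL.Even CL.Grp
open scoped Pointwise commutatorElement

variable {G : Type*} [Group G] [Finite G] {p t m : ℕ} {T : ℤ → ℤ → Subgroup G}

/-- `T i j` plays the part of `⟨x_i, …, x_j⟩`. -/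
structure Chain (p t m : ℕ) (T : ℤ → ℤ → Subgroup G) : Prop where
  prime : p.Prime
  mono : ∀ {i j i' j' : ℤ}, i' ≤ i → j ≤ j' → T i j ≤ T i' j'
  inf : ∀ {i j i' j' : ℤ}, j' - i ≤ t → T i j ⊓ T i' j' ≤ T i' j
  card : ∀ (i j : ℤ) (k : ℕ), j - i + 1 = k → k ≤ t → Nat.card (T i j) = p ^ k * m
  shift : ∀ i j k : ℤ, T i i ≤ 𝒞(T j j) → T (i + k) (i + k) ≤ 𝒞(T (j + k) (j + k))

namespace Chain

theorem rev (h : Chain p t m T) : Chain p t m fun i j => T (-j) (-i) where
  prime := h.prime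
  mono h1 h2 := h.mono (by omega) (by omega)
  inf h1 := (inf_comm _ _).le.trans (h.inf (by omega))
  card i j k h1 h2 := h.card _ _ k (by omega) h2
  shift i j k h1 := by
    have := h.shift _ _ (-k) h1
    rwa [← neg_add, ← neg_add] at this

theorem relIndex_eq (h : Chain p t m T) {i j i' j' : ℤ} {k : ℕ} (h1 : i' ≤ i) (h2 : j ≤ j')
    (e : j - i + 1 = k) (e' : j' - i' + 1 = (k + 1 : ℕ)) (hk : k + 1 ≤ t) :
    (T i j).relIndex (T i' j') = p := by
  have c := card_mul_relIndex (h.mono h1 h2)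
  have c0 := Nat.card_pos (α := T i j)
  rw [h.card i' j' _ e' hk, pow_succ, mul_right_comm, ← h.card i j k e (by omega)] at c
  exact Nat.eq_of_mul_eq_mul_left c0 c

theorem gen_aux (h : Chain p t m T) {C : Subgroup G} (k : ℕ) : ∀ {i j : ℤ}, j - i = k → k < t →
    (∀ n, i ≤ n → n ≤ j → T n n ≤ C) → T i j ≤ C := by
  induction k with
  | zero =>
    intro i j e _ hC
    obtain rfl : j = i := by omega
    exact hC j le_rfl le_rfl
  | succ k ih =>
    intro i j e hk hC
    have a1 : T i (j - 1) ≤ C := ih (by omega) (by omega) fun n h1 h2 => hC n h1 (by omega)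
    have a2 : T (i + 1) j ≤ C := ih (by omega) (by omega) fun n h1 h2 => hC n (by omega) h2
    have r := h.relIndex_eq (i := i) (j := j - 1) (i' := i) (j' := j) (k := k + 1) le_rfl (by omega)
      (by omega) (by omega) (by omega)
    rcases eq_or_eq_of_relIndex_prime (le_sup_left : T i (j - 1) ≤ T i (j - 1) ⊔ T (i + 1) j)
      (sup_le (h.mono le_rfl (by omega)) (h.mono (by omega) le_rfl)) (r ▸ h.prime) with e1 | e1
    · exfalso
      have b : T (i + 1) j ≤ T (i + 1) (j - 1) :=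
        (le_inf (le_sup_right.trans e1.le) le_rfl).trans (h.inf (by omega))
      have r' := h.relIndex_eq (i := i + 1) (j := j - 1) (i' := i + 1) (j' := j) (k := k) le_rfl
        (by omega) (by omega) (by omega) (by omega)
      exact h.prime.ne_one (r'.symm.trans (relIndex_eq_one.2 b))
    · exact e1.ge.trans (sup_le a1 a2)

variable (h : Chain p t 1 T)
include h

theorem bot {i j : ℤ} (hij : j < i) : T i j = ⊥ := by
  have := h.card i (i - 1) 0 (by omega) (Nat.zero_le _)
  exact eq_bot_iff.2 ((h.mono (j' := i - 1) le_rfl (by omega)).trans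
    (card_eq_one.1 (by simpa using this)).le)

theorem gen {C : Subgroup G} {i j : ℤ} (hij : j - i < t) (hC : ∀ n, i ≤ n → n ≤ j → T n n ≤ C) :
    T i j ≤ C := by
  by_cases e : j < i
  · rw [h.bot e]; exact bot_le
  · exact h.gen_aux (j - i).toNat (by omega) (by omega) hC

theorem card' (i j : ℤ) (k : ℕ) (e : j - i + 1 = k) (hk : k ≤ t) : Nat.card (T i j) = p ^ k := by
  rw [h.card i j k e hk, mul_one]

theorem le_norm {i j i' j' : ℤ} (h1 : i' ≤ i) (h2 : j ≤ j') (e : j' - i' = j - i + 1)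
    (hk : j' - i' < t) : T i' j' ≤ 𝒩(T i j) := by
  by_cases e0 : j < i
  · rw [h.bot e0]; exact (normalizer_eq_top ⊥).ge.trans' le_top
  have r := h.relIndex_eq (k := (j - i + 1).toNat) h1 h2 (by omega) (by omega) (by omega)
  refine (normal_subgroupOf_iff_le_normalizer (h.mono h1 h2)).1
    (normal_of_index_eq_minFac_card ?_)
  rw [h.card' i' j' ((j - i + 1).toNat + 1) (by omega) (by omega),
    h.prime.pow_minFac (by omega)]
  exact r

theorem comm_mem {i j : ℤ} (hij : i < j) (hk : j - i < t) {a b : G} (ha : a ∈ T i i)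
    (hb : b ∈ T j j) : ⁅a, b⁆ ∈ T (i + 1) (j - 1) := by
  have a1 : a ∈ T i (j - 1) := h.mono le_rfl (by omega) ha
  have b1 : b ∈ T (i + 1) j := h.mono (by omega) le_rfl hb
  refine h.inf (i := i) (j' := j) (by omega) ⟨?_, ?_⟩
  · have := conj_mem (h.le_norm (i := i) (j := j - 1) le_rfl (by omega) (by omega) hk
      (h.mono (by omega) le_rfl b1)) (inv_mem a1)
    simpa [commutatorElement_def, mul_assoc] using mul_mem a1 this
  · have := conj_mem (h.le_norm (i := i + 1) (j := j) (by omega) le_rfl (by omega) hk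
      (h.mono le_rfl (by omega) a1)) b1
    exact Subgroup.mul_mem _ this (Subgroup.inv_mem _ b1)

theorem self_comm (ht : 1 ≤ t) (i : ℤ) : T i i ≤ 𝒞(T i i) := by
  haveI := Fact.mk h.prime
  haveI := isCyclic_of_prime_card ((h.card' i i 1 (by omega) ht).trans (pow_one p))
  exact fun x hx y hy => congrArg Subtype.val (IsCyclic.commGroup.mul_comm (⟨y, hy⟩ : T i i) ⟨x, hx⟩)

theorem le_of_not_mem {i j : ℤ} (hij : i ≤ j) (hk : j - i < t) {w : G} (hw : w ∈ T i j)
    (hw' : w ∉ T (i + 1) j) {C : Subgroup G} (h1 : w ∈ C) (h2 : T (i + 1) j ≤ C) : T i j ≤ C := by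
  have r := h.relIndex_eq (i := i + 1) (j := j) (i' := i) (j' := j) (k := (j - i).toNat) (by omega)
    le_rfl (by omega) (by omega) (by omega)
  rcases eq_or_eq_of_relIndex_prime (K := C ⊓ T i j) (le_inf h2 (h.mono (by omega) le_rfl))
    inf_le_right (r ▸ h.prime) with e | e
  · exact absurd (e.le ⟨h1, hw⟩) hw'
  · exact e.ge.trans inf_le_left

variable {u : ℕ} (hu : ∀ d : ℕ, d < u → T 0 0 ≤ 𝒞(T d d))
include hu

theorem near {i j : ℤ} (h1 : j - i < u) (h2 : i - j < u) : T i i ≤ 𝒞(T j j) := by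
  rcases le_total i j with e | e
  · have := h.shift _ _ i (hu (j - i).toNat (by omega))
    rwa [zero_add, show ((j - i).toNat : ℤ) + i = j by omega] at this
  · have := h.shift _ _ j (hu (i - j).toNat (by omega))
    rw [zero_add, show ((i - j).toNat : ℤ) + j = i by omega] at this
    exact le_centralizer_iff.1 this

theorem near' {i j i' j' : ℤ} (e : j - i < t) (e' : j' - i' < t) (h1 : j' - i < u)
    (h2 : j - i' < u) : T i j ≤ 𝒞(T i' j') :=
  h.gen e fun _ _ _ => le_centralizer_iff.1 (h.gen e' fun _ _ _ => h.near hu (by omega) (by omega))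

theorem hu_rev : ∀ d : ℕ, d < u → T (-0) (-0) ≤ 𝒞(T (-d) (-d)) := fun _ _ =>
  h.near hu (by omega) (by omega)

variable (hn : ¬ T 0 0 ≤ 𝒞(T u u))
include hn

omit hu in
theorem far (i : ℤ) : ¬ T i i ≤ 𝒞(T (i + u) (i + u)) := fun e => hn (by
  have := h.shift _ _ (-i) e
  rwa [add_neg_cancel, show i + u + -i = u by omega] at this)

theorem key_left (hut : u < t) {i : ℤ} {a b : G} (ha : a ∈ T i i) (hb : b ∈ T (i + u) (i + u))
    (k : ℕ) (hk : k + u < t) : ⁅a, b⁆ ∈ T (i + 1 + k) (i + u - 1) := by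
  have hu0 : 0 < u := Nat.pos_of_ne_zero fun e => hn (by
    subst e; exact h.self_comm (by omega) 0)
  have hw := h.comm_mem (by omega) (by omega) ha hb
  induction k with
  | zero => simpa using hw
  | succ k ih =>
    replace ih := ih (by omega)
    by_contra hc
    by_cases e0 : i + u - 1 < i + 1 + k
    · rw [h.bot e0, mem_bot] at ih
      exact hc (ih ▸ one_mem _)
    refine h.far hn (i + 1 + k) ((h.mono le_rfl (by omega)).trans (h.le_of_not_mem (j := i + u - 1)
      (by omega) (by omega) ih (by rwa [Nat.cast_succ, ← add_assoc] at hc) ?_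
      (h.near' hu (by omega) (by omega) (by omega) (by omega))))
    intro c hc'
    have hy := h.comm_mem (j := i + 1 + k + u) (by omega) (by omega) ha hc'
    have e1 : ⁅a, c⁆ * b = b * ⁅a, c⁆ :=
      (h.near' hu (i' := i + u) (j' := i + u) (by omega) (by omega) (by omega) (by omega) hy b hb).symm
    have e2 : ⁅a, b⁆ * ⁅a, c⁆ = ⁅a, c⁆ * ⁅a, b⁆ :=
      h.near' hu (by omega) (by omega) (by omega) (by omega) hy _ ih
    have e3 : c * b = b * c := h.near hu (by omega) (by omega) hb c hc'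
    have e4 : a * c = ⁅a, c⁆ * c * a := by simp [commutatorElement_def]
    generalize ⁅a, c⁆ = y at e1 e2 e4
    have e5 : c * a * c⁻¹ = y⁻¹ * a := by
      rw [eq_inv_mul_iff_mul_eq, ← mul_assoc, ← mul_assoc, ← e4, mul_inv_cancel_right]
    have e6 : c * b * c⁻¹ = b := by rw [e3, mul_inv_cancel_right]
    have e7 : c * ⁅a, b⁆ * c⁻¹ = ⁅a, b⁆ :=
      calc c * ⁅a, b⁆ * c⁻¹ = ⁅c * a * c⁻¹, c * b * c⁻¹⁆ := conjugate_commutatorElement a b c
        _ = y⁻¹ * ⁅a, b⁆ * (b * y) * b⁻¹ := by rw [e5, e6]; simp only [commutatorElement_def]; group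
        _ = y⁻¹ * (⁅a, b⁆ * y) := by rw [← e1]; group
        _ = _ := by rw [e2]; group
    exact mul_inv_eq_iff_eq_mul.1 e7

theorem key (hut : u < t) {i : ℤ} {a b : G} (ha : a ∈ T i i) (hb : b ∈ T (i + u) (i + u)) :
    ⁅a, b⁆ ∈ T (i + t - u) (i + 2 * u - t) := by
  have h1 := h.key_left hu hn hut ha hb (t - u - 1) (by omega)
  have h2 := h.rev.key_left (h.hu_rev hu) (u := u) (fun e => h.far hn (-u) (by
    rw [neg_add_cancel]; exact le_centralizer_iff.1 e)) hut (i := -(i + u)) (a := b) (b := a)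
    (by simpa using hb) (by simpa using ha) (t - u - 1) (by omega)
  rw [← commutatorElement_inv, inv_mem_iff] at h2
  exact h.mono (by omega) (by omega) (h.inf (by omega) ⟨h2, h1⟩)

theorem two_mul_le (hut : u < t) : 2 * t ≤ 3 * u := by
  by_contra hc
  refine hn fun a ha b hb => ?_
  have := h.key hu hn hut (i := 0) ha (by simpa using hb)
  rw [h.bot (by omega), mem_bot, commutatorElement_eq_one_iff_mul_comm] at this
  exact this.symm

end Chain

theorem exists_u (t : ℕ) (T : ℤ → ℤ → Subgroup G) :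
    ∃ u : ℕ, u ≤ t ∧ (∀ d : ℕ, d < u → T 0 0 ≤ 𝒞(T d d)) ∧ (u < t → ¬ T 0 0 ≤ 𝒞(T u u)) := by
  classical
  have he : ∃ u : ℕ, u = t ∨ ¬ T 0 0 ≤ 𝒞(T u u) := ⟨t, Or.inl rfl⟩
  refine ⟨Nat.find he, Nat.find_le (Or.inl rfl), fun d hd => ?_, fun hl => ?_⟩
  · exact not_not.1 (not_or.1 (Nat.find_min he hd)).2
  · exact (Nat.find_spec he).resolve_left hl.ne

/-! ### the chain of a pair `P`, `g` -/

/-- The intersection of the conjugates `P ^ (g ^ n)` for `a ≤ n < b`. -/
def seg (P : Subgroup G) (g : G) (a b : ℤ) : Subgroup G :=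
  ⨅ n : ℤ, ⨅ _ : a ≤ n, ⨅ _ : n < b, cj (g ^ n)⁻¹ P

variable {P : Subgroup G} {g : G}

omit [Finite G] in
theorem mem_seg {a b : ℤ} {x : G} :
    x ∈ seg P g a b ↔ ∀ n : ℤ, a ≤ n → n < b → g ^ n * x * (g ^ n)⁻¹ ∈ P := by
  simp only [seg, mem_iInf, mem_cj, inv_inv]

omit [Finite G] in
theorem cj_seg (a b k : ℤ) : cj (g ^ k)⁻¹ (seg P g a b) = seg P g (a + k) (b + k) := by
  ext x
  rw [mem_cj, inv_inv, mem_seg, mem_seg]
  refine ⟨fun h n h1 h2 => ?_, fun h n h1 h2 => ?_⟩
  · have := h (n - k) (by omega) (by omega)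
    rwa [show g ^ (n - k) * (g ^ k * x * (g ^ k)⁻¹) * (g ^ (n - k))⁻¹ = g ^ n * x * (g ^ n)⁻¹ by
      group] at this
  · have := h (n + k) (by omega) (by omega)
    rwa [show g ^ (n + k) * x * (g ^ (n + k))⁻¹ = g ^ n * (g ^ k * x * (g ^ k)⁻¹) * (g ^ n)⁻¹ by
      group] at this

omit [Finite G] in
theorem seg_single (a : ℤ) : seg P g a (a + 1) = cj (g ^ a)⁻¹ P := by
  ext x
  rw [mem_cj, inv_inv, mem_seg]
  exact ⟨fun h => h a le_rfl (by omega), fun h n h1 h2 => by rwa [show n = a by omega]⟩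

omit [Finite G] in
theorem seg_mono {a b a' b' : ℤ} (h1 : a' ≤ a) (h2 : b ≤ b') : seg P g a' b' ≤ seg P g a b :=
  fun _ hx => mem_seg.2 fun n _ _ => mem_seg.1 hx n (by omega) (by omega)

omit [Finite G] in
theorem seg_inf {a b a' b' : ℤ} (h : a' ≤ b) : seg P g a b ⊓ seg P g a' b' ≤ seg P g a b' :=
  fun _ hx => mem_seg.2 fun n h1 h2 => by
    by_cases e : n < b
    · exact mem_seg.1 hx.1 n h1 e
    · exact mem_seg.1 hx.2 n (by omega) h2

omit [Finite G] in
theorem card_seg (a b : ℤ) (l : ℕ) (e : b - a = l) :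
    Nat.card (seg P g a b) = Nat.card (seg P g 0 l) := by
  rw [← card_cj (g ^ a)⁻¹ (seg P g 0 l), cj_seg, zero_add, show l + a = b by omega]

theorem exists_chain (hp : p.Prime) (hN : cj g⁻¹ P ≤ 𝒩(P ⊓ cj g⁻¹ P))
    (hidx : (P ⊓ cj g⁻¹ P).relIndex (cj g⁻¹ P) = p)
    (h1 : ∀ Q : Subgroup G, Q ≤ P → P ≤ 𝒩(Q) → g ∈ 𝒩(Q) → Q = ⊥) :
    ∃ t : ℕ, 1 ≤ t ∧ Chain p t 1 fun i j => seg P g (j - t) i := by
  classical
  have e01 : seg P g 0 1 = P := by
    have := seg_single (P := P) (g := g) 0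
    rwa [zpow_zero, inv_one, cj_one, zero_add] at this
  have e12 : seg P g 1 2 = cj g⁻¹ P := by simpa using seg_single (P := P) (g := g) 1
  have e02 : seg P g 0 2 = P ⊓ cj g⁻¹ P := by
    rw [← e12]
    nth_rewrite 2 [← e01]
    exact le_antisymm (le_inf (seg_mono le_rfl (by omega)) (seg_mono (by omega) le_rfl))
      (seg_inf le_rfl)
  rw [← e02, ← e12] at hN hidx
  have hs : ∀ b : ℤ, 2 ≤ b → seg P g 0 b = seg P g 0 2 ⊓ seg P g 1 b := fun b hb =>
    le_antisymm (le_inf (seg_mono le_rfl hb) (seg_mono (by omega) le_rfl)) (seg_inf (by omega))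
  have hn : ∀ b : ℤ, 2 ≤ b → seg P g 1 b ≤ 𝒩(seg P g 0 b) := fun b hb => by
    rw [hs b hb]
    exact le_norm_inf ((seg_mono le_rfl hb).trans hN) le_normalizer
  set c : ℕ → ℕ := fun l => Nat.card (seg P g 0 l) with hc
  have cpos : ∀ l, 0 < c l := fun l => Nat.card_pos
  have hd : ∀ l : ℕ, c (l + 1) = c (l + 2) ∨ c (l + 1) = p * c (l + 2) := fun l => by
    have a1 := card_mul_relIndex (seg_mono (P := P) (g := g) (a := 1) (a' := 0) (b := (l + 2 : ℕ))
      (by omega) le_rfl)
    rw [card_seg 1 _ (l + 1) (by omega)] at a1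
    have a2 : (seg P g 0 (l + 2 : ℕ)).relIndex (seg P g 1 (l + 2 : ℕ)) ∣ p := by
      rw [hs _ (by omega), inf_relIndex_right, ← hidx]
      haveI := (normal_subgroupOf_iff_le_normalizer
        (seg_mono (P := P) (g := g) (a := 1) (a' := 0) (b := 2) (by omega) le_rfl)).2 hN
      have a3 : seg P g 1 (l + 2 : ℕ) ≤ seg P g 1 2 := seg_mono le_rfl (by omega)
      rw [← relIndex_subgroupOf a3]
      exact relIndex_dvd_index_of_normal _ _
    rcases (Nat.dvd_prime hp).1 a2 with e | e <;> rw [e] at a1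
    · exact Or.inl (by rw [mul_one] at a1; exact a1.symm)
    · exact Or.inr (by rw [mul_comm]; exact a1.symm)
  have he : ∃ l : ℕ, c (l + 1) = c (l + 2) := by
    by_contra hne
    have : ∀ l : ℕ, l + c (l + 1) ≤ c 1 := fun l => by
      induction l with
      | zero => simp
      | succ l ih =>
        have a1 := (hd l).resolve_left fun e => hne ⟨l, e⟩
        have a2 := cpos (l + 2)
        have a3 := hp.two_le
        have : c (l + 2) + 1 ≤ c (l + 1) := by nlinarith
        show l + 1 + c (l + 2) ≤ c 1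
        omega
    have a1 := this (c 1)
    have a2 := cpos (c 1 + 1)
    omega
  obtain ⟨t, ht, hmin⟩ : ∃ t : ℕ, c (t + 1) = c (t + 2) ∧ ∀ l < t, c (l + 1) = p * c (l + 2) :=
    ⟨Nat.find he, Nat.find_spec he, fun l hl => (hd l).resolve_left (Nat.find_min he hl)⟩
  have ht1 : 1 ≤ t := Nat.pos_of_ne_zero fun e => by
    subst e
    have a1 := card_mul_relIndex (seg_mono (P := P) (g := g) (a := 1) (a' := 0) (b := 2)
      (by omega) le_rfl)
    rw [hidx, card_seg 1 2 1 (by omega), card_seg 0 2 2 (by omega)] at a1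
    have a2 : c 2 * p = c 2 := a1.trans ht
    exact hp.ne_one (Nat.eq_of_mul_eq_mul_left (cpos 2) (a2.trans (mul_one _).symm))
  have hk : ∀ k l : ℕ, k + l = t → c (l + 1) = p ^ k * c (t + 1) := fun k => by
    induction k with
    | zero => intro l e; rw [← e]; simp
    | succ k ih =>
      intro l e
      rw [hmin l (by omega), ih (l + 1) (by omega), pow_succ]
      ring
  have ch : Chain p t (c (t + 1)) fun i j => seg P g (j - t) i :=
    { prime := hp
      mono := fun h1 h2 => seg_mono (by omega) h1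
      inf := fun h1 => seg_inf (by omega)
      card := fun i j k h1 h2 => by
        rw [card_seg _ _ (t - k + 1) (by omega), ← hk k (t - k) (by omega)]
      shift := fun i j k h1 => by
        have := cj_mono (g ^ k)⁻¹ h1
        rw [cj_cent, cj_seg, cj_seg] at this
        simpa only [sub_add_eq_add_sub] using this }
  have s1 : seg P g 1 (t + 2) = seg P g 0 (t + 1) := by
    have a1 : seg P g 0 (t + 2) = seg P g 1 (t + 2) := eq_of_le_of_card_ge
      (seg_mono (by omega) le_rfl) (by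
        rw [card_seg 1 _ (t + 1) (by omega), card_seg 0 (t + 2) (t + 2) (by omega)]; exact ht.le)
    exact eq_of_le_of_card_ge (a1.ge.trans (seg_mono le_rfl (by omega))) (by
      rw [card_seg 1 _ (t + 1) (by omega), card_seg 0 (t + 1) (t + 1) (by omega)])
  have hg : g ∈ 𝒩(seg P g 0 (t + 1)) := by
    have := cj_seg (P := P) (g := g) 0 (t + 1) 1
    rw [zero_add, add_assoc, one_add_one_eq_two, s1, zpow_one] at this
    exact inv_mem_iff.1 (cj_eq_iff_mem.1 this)
  have hall : ∀ k : ℤ, seg P g k (t + 1 + k) = seg P g 0 (t + 1) := fun k => by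
    have := cj_seg (P := P) (g := g) 0 (t + 1) k
    rw [zero_add, cj_eq (inv_mem (zpow_mem hg k))] at this
    exact this.symm
  have hb : seg P g 0 (t + 1) = ⊥ := by
    refine h1 _ ((seg_mono le_rfl (by omega)).trans e01.le) ?_ hg
    have := ch.gen_aux (C := 𝒩(seg P g 0 (t + 1))) (t - 1) (i := 1) (j := t) (by omega) (by omega)
      fun n _ _ => by
        have a1 := cj_mono (g ^ (n - t - 1))⁻¹ (hn (t + 1) (by omega))
        rw [cj_norm, cj_seg, cj_seg, zero_add, hall, show 1 + (n - t - 1) = n - t by omega,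
          show (t : ℤ) + 1 + (n - t - 1) = n by omega] at a1
        exact a1
    rwa [sub_self, e01] at this
  have : c (t + 1) = 1 := by
    show Nat.card (seg P g 0 ((t + 1 : ℕ) : ℤ)) = 1
    rw [Nat.cast_succ, hb, card_bot]
  exact ⟨t, ht1, this ▸ ch⟩

omit [Finite G] in
theorem seg_eq_cj (t : ℕ) (i : ℤ) : seg P g (i + t - t) (i + 1) = cj (g ^ i)⁻¹ P := by
  rw [add_sub_cancel_right, seg_single]

/-- An element in the middle of a long commuting stretch is central. -/
theorem Chain.two_mul_le_add (h : Chain p t 1 T) {u n : ℕ} (ht : 1 ≤ t) (hut : u ≤ t)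
    (hu : ∀ d : ℕ, d < u → T 0 0 ≤ 𝒞(T d d)) {K : Subgroup G}
    (hK : ∀ C : Subgroup G, (∀ i : ℕ, i ≤ n → T (i + 1) (i + t) ≤ C) → K ≤ C)
    (h2 : T 1 t ⊓ 𝒞(K) = ⊥) : 2 * u ≤ t + n := by
  by_contra hc
  have a1 : T u u ≤ T 1 t ⊓ 𝒞(K) := le_inf (h.mono (by omega) (by omega))
    (le_centralizer_iff.1 (hK _ fun i hi => h.near' hu (by omega) (by omega) (by omega) (by omega)))
  have a2 := h.card' u u 1 (by omega) ht
  rw [h2, le_bot_iff] at a1
  rw [a1, card_bot, pow_one] at a2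
  exact h.prime.ne_one a2.symm

end CL.SimsCh
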