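/-
Groups `K` with `K / O₂(K)` dihedral of twice odd order.
-/
import Cfsg.Agent.Fgs.SimsChain
import Cfsg.Agent.Grp.CoresPi
import Cfsg.Agent.Even.S4Rec
import Cfsg.Agent.Inv.AutTwo

set_option autoImplicit false
set_option linter.unusedSectionVars false

namespace CL.SimsCh

open Cfsg Subgroup CL.Even CL.Grp DihedralGroup
open scoped Pointwise commutatorElement

theorem odd_of_pCore_dihedral {n : ℕ} (hn : 2 ≤ n) (h : pCore 2 (DihedralGroup n) = ⊥) : Odd n := by
  by_contra he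
  obtain ⟨m, rfl⟩ := Nat.not_odd_iff_even.1 he
  have h2 : (m : ZMod (m + m)) + m = 0 := by rw [← Nat.cast_add, ZMod.natCast_self]
  have hc : ∀ x, x * r (m : ZMod (m + m)) = r m * x := by
    rintro (i | i)
    · simp [add_comm]
    · rw [sr_mul_r, r_mul_sr, sub_eq_add_neg, neg_eq_of_add_eq_zero_left h2]
  have hN : (zpowers (r (m : ZMod (m + m)))).Normal := ⟨fun x hx g => by
    obtain ⟨k, rfl⟩ := hx
    have : Commute g (r (m : ZMod (m + m))) := hc g
    simp only [(this.zpow_right k).eq, mul_inv_cancel_right]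
    exact ⟨k, rfl⟩⟩
  have := le_pCore_of (p := 2) hN (isPGroup_zpowers (k := 1) (by
    rw [pow_one, pow_two, r_mul_r, h2, r_zero])) (mem_zpowers _)
  rw [h, mem_bot, one_def, r.injEq, ZMod.natCast_eq_zero_iff] at this
  have := Nat.le_of_dvd (by omega) this
  omega

variable {K : Type*} [Group K] [Finite K] {n : ℕ} {φ : K →* DihedralGroup n} {Q : Subgroup K}

/-- The standing hypotheses. -/
structure Dih (φ : K →* DihedralGroup n) (Q : Subgroup K) : Prop where
  surj : Function.Surjective φ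
  ker : φ.ker = Q
  two : IsPGroup 2 Q
  odd : Odd n

/-- The preimage of the rotations. -/
def rot (φ : K →* DihedralGroup n) : Subgroup K where
  carrier := {x | ∃ m, φ x = r m}
  mul_mem' := by
    rintro a b ⟨i, hi⟩ ⟨j, hj⟩
    exact ⟨_, by rw [map_mul, hi, hj, r_mul_r]⟩
  one_mem' := ⟨0, map_one φ⟩
  inv_mem' := by
    rintro a ⟨i, hi⟩
    exact ⟨_, by rw [map_inv, hi, inv_r]⟩

theorem not_mem_rot {x : K} : x ∉ rot φ ↔ ∃ i, φ x = sr i := by
  refine ⟨fun h => ?_, ?_⟩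
  · rcases e : φ x with i | i
    · exact absurd ⟨i, e⟩ h
    · exact ⟨i, rfl⟩
  · rintro ⟨i, hi⟩ ⟨j, hj⟩
    cases hi.symm.trans hj

theorem mul_mem_rot {a b : K} (ha : a ∉ rot φ) (hb : b ∉ rot φ) : a * b ∈ rot φ := by
  obtain ⟨i, hi⟩ := not_mem_rot.1 ha
  obtain ⟨j, hj⟩ := not_mem_rot.1 hb
  exact ⟨_, by rw [map_mul, hi, hj, sr_mul_sr]⟩

namespace Dih

variable (h : Dih φ Q)
include h

theorem mem {x : K} : x ∈ Q ↔ φ x = 1 := by rw [← h.ker, MonoidHom.mem_ker]

theorem normal : Q.Normal := h.ker ▸ inferInstance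

theorem le_rot : Q ≤ rot φ := fun _ hx => ⟨0, h.mem.1 hx⟩

theorem pow_mem {x : K} (hx : x ∈ rot φ) : x ^ n ∈ Q := by
  obtain ⟨i, hi⟩ := hx
  rw [h.mem, map_pow, hi, r_pow, ZMod.natCast_self, mul_zero, r_zero]

theorem mem_of_pow {N : Subgroup K} (hN : Q ≤ N) {x : K} (hx : x ∈ rot φ) {k : ℕ}
    (hk : x ^ 2 ^ k ∈ N) : x ∈ N := by
  have hc : (2 ^ k).Coprime n := (Nat.coprime_two_left.2 h.odd).pow_left k
  have e := Nat.gcd_eq_gcd_ab (2 ^ k) n
  rw [hc.gcd_eq_one] at e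
  have : x = (x ^ 2 ^ k) ^ (Nat.gcdA (2 ^ k) n) * (x ^ n) ^ (Nat.gcdB (2 ^ k) n) := by
    rw [← zpow_natCast, ← zpow_natCast x n, ← zpow_mul, ← zpow_mul, ← zpow_add, ← e]; simp
  rw [this]
  exact N.mul_mem (N.zpow_mem hk _) (N.zpow_mem (hN (h.pow_mem hx)) _)

theorem index_rot : (rot φ).index = 2 := by
  obtain ⟨a, ha⟩ := h.surj (sr 0)
  have ha' : a ∉ rot φ := not_mem_rot.2 ⟨0, ha⟩
  refine index_eq_two_iff.2 ⟨a, fun b => ?_⟩
  by_cases hb : b ∈ rot φ
  · exact Or.inr ⟨hb, fun e => ha' (by simpa using (rot φ).mul_mem ((rot φ).inv_mem hb) e)⟩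
  · exact Or.inl ⟨mul_mem_rot hb ha', hb⟩

theorem eq_top {N : Subgroup K} (hQ : Q ≤ N) {i : ZMod n} (h1 : ∃ x ∈ N, φ x = sr i)
    (h2 : ∃ x ∈ N, φ x = sr (i + 2)) : N = ⊤ := by
  obtain ⟨a, ha, ea⟩ := h1
  obtain ⟨b, hb, eb⟩ := h2
  obtain ⟨m, hm⟩ := h.odd
  haveI : NeZero n := ⟨by omega⟩
  have h2 : (2 : ZMod n) * ((m + 1 : ℕ) : ZMod n) = 1 := by
    have : ((2 * m + 1 : ℕ) : ZMod n) = 0 := by rw [← hm, ZMod.natCast_self]
    push_cast at this ⊢
    linear_combination this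
  have hr : ∀ j : ZMod n, r j ∈ N.map φ := fun j => ⟨(a * b) ^ ((m + 1) * j.val),
    N.pow_mem (N.mul_mem ha hb) _, by
      rw [map_pow, map_mul, ea, eb, sr_mul_sr, r_pow, add_sub_cancel_left, Nat.cast_mul,
        ← mul_assoc, h2, one_mul, ZMod.natCast_zmod_val]⟩
  have : N.map φ = ⊤ := eq_top_iff.2 fun x _ => by
    rcases x with j | j
    · exact hr j
    · have := (N.map φ).mul_mem ⟨a, ha, ea⟩ (hr (j - i))
      rwa [sr_mul_r, add_sub_cancel] at this
  rw [← comap_map_eq_self (h.ker.le.trans hQ), this, comap_top]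

theorem eq_top_of_normal {N : Subgroup K} (hN : N.Normal) (hQ : Q ≤ N) (hr : ¬ N ≤ rot φ) :
    N = ⊤ := by
  obtain ⟨a, ha, ha'⟩ := SetLike.not_le_iff_exists.1 hr
  obtain ⟨i, hi⟩ := not_mem_rot.1 ha'
  obtain ⟨c, hc⟩ := h.surj (r 1)
  refine h.eq_top hQ ⟨a, ha, hi⟩ ⟨_, hN.conj_mem' a ha c, ?_⟩
  rw [map_mul, map_mul, map_inv, hi, hc, inv_r, r_mul_sr, sr_mul_r]
  congr 1
  ring

theorem rot_inf_cent_le : rot φ ⊓ 𝒞(Q) ≤ oddCore K ⊔ Q := by
  haveI := h.normal
  have hcomm : ∀ a ∈ rot φ ⊓ 𝒞(Q), ∀ b ∈ rot φ ⊓ 𝒞(Q), a * b = b * a := fun a ha b hb => by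
    haveI : NeZero n := ⟨h.odd.pos.ne'⟩
    let f : ↥(rot φ ⊓ 𝒞(Q)) →* zpowers (r (1 : ZMod n)) :=
      (φ.comp (rot φ ⊓ 𝒞(Q)).subtype).codRestrict _ fun x => by
        obtain ⟨i, hi⟩ := x.2.1
        exact ⟨i.val, by simp [hi]⟩
    exact congrArg Subtype.val (commutative_of_cyclic_center_quotient f (fun x hx =>
      mem_center_iff.2 fun y => Subtype.ext
        (y.2.2 x (h.mem.2 (congrArg Subtype.val hx))).symm) ⟨a, ha⟩ ⟨b, hb⟩)
  let O : Subgroup K :=
    { carrier := {x | x ∈ rot φ ⊓ 𝒞(Q) ∧ x ^ n = 1}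
      mul_mem' := fun {a b} ha hb => ⟨mul_mem ha.1 hb.1, by
        rw [(show Commute a b from hcomm a ha.1 b hb.1).mul_pow, ha.2, hb.2, one_mul]⟩
      one_mem' := ⟨one_mem _, one_pow _⟩
      inv_mem' := fun {a} ha => ⟨inv_mem ha.1, by rw [inv_pow, ha.2, inv_one]⟩ }
  haveI : (rot φ).Normal := normal_of_index_eq_two h.index_rot
  haveI : O.Normal := ⟨fun x hx g => ⟨(inferInstance : (rot φ ⊓ 𝒞(Q)).Normal).conj_mem x hx.1 g, by
    rw [conj_pow, hx.2, mul_one, mul_inv_cancel]⟩⟩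
  have hO : O ≤ oddCore K := le_pPrimeCore_of_not_dvd fun hd => by
    obtain ⟨x, hx⟩ := exists_prime_orderOf_dvd_card' 2 hd
    have : orderOf (x : K) ∣ n := orderOf_dvd_of_pow_eq_one x.2.2
    rw [orderOf_coe, hx] at this
    exact (Nat.not_even_iff_odd.2 h.odd) (even_iff_two_dvd.2 this)
  intro x hx
  obtain ⟨k, hk⟩ := h.two ⟨_, h.pow_mem hx.1⟩
  refine h.mem_of_pow le_sup_right hx.1 (k := k) (mem_sup_left (hO ⟨Subgroup.pow_mem _ hx _, ?_⟩))
  rw [← pow_mul, mul_comm, pow_mul]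
  exact congrArg Subtype.val hk

theorem sylow {P : Subgroup K} (hn : 2 ≤ n) (hP : IsPGroup 2 P) (hi : ¬ 2 ∣ P.index) :
    Q ≤ P ∧ P ⊔ rot φ = ⊤ ∧ Q.relIndex P = 2 ∧ ∃ c : K, P ⊓ cj c⁻¹ P = Q ∧ P ⊔ cj c⁻¹ P = ⊤ := by
  haveI := h.normal
  have hQP : Q ≤ P := h.two.le_sylow_of_normal (hP.toSylow hi)
  have hr : ¬ P ≤ rot φ := fun e => hi (h.index_rot ▸ index_dvd_of_le e)
  obtain ⟨a, ha, ha'⟩ := SetLike.not_le_iff_exists.1 hr
  obtain ⟨i, hia⟩ := not_mem_rot.1 ha'
  have h1 : ∀ x ∈ P, x ∈ rot φ → x ∈ Q := fun x hx hx' => by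
    obtain ⟨k, hk⟩ := hP ⟨x, hx⟩
    exact h.mem_of_pow le_rfl hx' (k := k) (by
      rw [show x ^ 2 ^ k = 1 from congrArg Subtype.val hk]; exact one_mem _)
  have h2 : ∀ x ∈ P, x ∉ rot φ → φ x = sr i := fun x hx hx' => by
    have := h.mem.1 (h1 _ (P.mul_mem ha hx) (mul_mem_rot ha' hx'))
    rw [map_mul, hia, mul_eq_one_iff_inv_eq, inv_sr] at this
    exact this.symm
  obtain ⟨c, hc⟩ := h.surj (r 1)
  have hcj : ∀ x, φ x = sr i → φ (c⁻¹ * x * c) = sr (i + 2) := fun x hx => by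
    rw [map_mul, map_mul, map_inv, hx, hc, inv_r, r_mul_sr, sr_mul_r]
    congr 1
    ring
  refine ⟨hQP, ?_, ?_, c, ?_, ?_⟩
  · rcases eq_or_eq_of_relIndex_prime (le_sup_right : rot φ ≤ P ⊔ rot φ) le_top
      (by rw [relIndex_top_right, h.index_rot]; exact Nat.prime_two) with e | e
    · exact absurd (le_sup_left.trans e.le) hr
    · exact e
  · refine relIndex_eq_two_iff.2 ⟨a, ha, fun b hb => ?_⟩
    by_cases hb' : b ∈ rot φ
    · exact Or.inr ⟨h1 b hb hb', fun e => ha' (by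
        simpa using (rot φ).mul_mem ((rot φ).inv_mem hb') (h.le_rot e))⟩
    · exact Or.inl ⟨h1 _ (P.mul_mem hb ha) (mul_mem_rot hb' ha'), fun e => hb' (h.le_rot e)⟩
  · refine le_antisymm (fun x hx => h1 x hx.1 ?_) (le_inf hQP ?_)
    · by_contra hx'
      obtain ⟨y, hy, rfl⟩ := hx.2
      have e1 := h2 _ hx.1 hx'
      have hy' : y ∉ rot φ := fun e => hx' ((normal_of_index_eq_two h.index_rot).conj_mem y e _)
      have e2 := hcj y (h2 y hy hy')
      have e3 : sr (i + 2) = sr i := e2.symm.trans (by simpa using e1)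
      rw [sr.injEq, add_eq_left] at e3
      have e4 : ((2 : ℕ) : ZMod n) = 0 := by exact_mod_cast e3
      have := Nat.le_of_dvd two_pos ((ZMod.natCast_eq_zero_iff _ _).1 e4)
      obtain rfl : n = 2 := by omega
      exact absurd h.odd (by decide)
    · rw [← cj_eq (H := Q) (g := c⁻¹) (le_normalizer_of_normal (mem_top _))]
      exact cj_mono _ hQP
  · exact h.eq_top (hQP.trans le_sup_left) ⟨a, mem_sup_left ha, hia⟩
      ⟨_, mem_sup_right (by simpa using conj_mem_cj c⁻¹ ha), hcj a hia⟩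

theorem disjoint {P : Subgroup K} (hP : IsPGroup 2 P) : P ⊓ oddCore K = ⊥ := by
  obtain ⟨k, hk⟩ := hP.exists_card_eq
  exact inf_eq_bot_of_coprime (hk ▸ (pPrimeCore_coprime 2 K).symm.pow_left k)

theorem four {P : Subgroup K} (hP : IsPGroup 2 P) (hs : P ⊔ rot φ = ⊤) (hQP : Q ≤ P)
    (hc : ⊤ ≤ 𝒞(Q)) (h4 : IsKleinFour P) :
    Nonempty (K ⧸ oddCore K ≃* Multiplicative (ZMod 2) × Multiplicative (ZMod 2)) := by
  let f := (QuotientGroup.mk' (oddCore K)).comp P.subtype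
  have hf : Function.Bijective f := by
    refine ⟨(injective_iff_map_eq_one f).2 fun x hx => Subtype.ext ?_, ?_⟩
    · exact (h.disjoint hP).le ⟨x.2, (QuotientGroup.eq_one_iff _).1 hx⟩
    · rw [← MonoidHom.range_eq_top, MonoidHom.range_comp, range_subtype, eq_top_iff,
        ← map_top_of_surjective _ (QuotientGroup.mk'_surjective (oddCore K)), ← hs, Subgroup.map_sup]
      refine sup_le le_rfl ((map_mono ((le_inf le_rfl (le_top.trans hc)).trans
        h.rot_inf_cent_le)).trans ?_)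
      rw [Subgroup.map_sup, (Subgroup.map_eq_bot_iff _).2 (by rw [QuotientGroup.ker_mk'])]
      exact sup_le bot_le (map_mono hQP)
  obtain ⟨e⟩ := IsKleinFour.nonempty_mulEquiv (G₁ := P) (G₂ := Multiplicative (ZMod 2 × ZMod 2))
  exact ⟨(MulEquiv.ofBijective f hf).symm.trans (e.trans (MulEquiv.prodMultiplicative _ _))⟩

theorem big (h2 : ∀ q ∈ Q, q * q = 1) {Y : Subgroup K} (hY : Y ≤ Q) (hYc : ⊤ ≤ 𝒞(Y))
    (hc : Nat.card Q = 4 * Nat.card Y) (h8 : Nat.card Y = 1 ∨ Nat.card Y = 2) {a b q : K}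
    (ha : a ∉ Q) (hb : b ∉ Q) (ha2 : a * a = 1) (hb2 : b * b = 1) (hq : q ∈ Q)
    (haq : q * a = a * q) (hbq : q * b ≠ b * q) :
    Nonempty (K ⧸ oddCore K ≃* Equiv.Perm (Fin 4)) ∨
      Nonempty (K ⧸ oddCore K ≃* Equiv.Perm (Fin 4) × Multiplicative (ZMod 2)) := by
  haveI := h.normal
  have hcomm : ∀ x ∈ Q, ∀ y ∈ Q, x * y = y * x := fun x hx y hy => by
    have e := h2 _ (Q.mul_mem hx hy)
    rw [← inv_eq_of_mul_eq_one_left e, mul_inv_rev, inv_eq_of_mul_eq_one_left (h2 x hx),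
      inv_eq_of_mul_eq_one_left (h2 y hy)]
  have hQC : Q ≤ 𝒞(Q) := fun x hx y hy => hcomm y hy x hx
  have hinv : ∀ x, x ∉ Q → x * x = 1 → x ∉ rot φ := fun x hx hx2 e =>
    hx (h.mem_of_pow le_rfl e (k := 1) (by rw [pow_one, pow_two, hx2]; exact one_mem _))
  have hR : ¬ rot φ ≤ 𝒞(Q) := fun e => hbq (by
    have := e (mul_mem_rot (hinv a ha ha2) (hinv b hb hb2)) q hq
    rw [← mul_assoc, haq, mul_assoc, mul_assoc] at this
    exact mul_left_cancel this)
  haveI hYn : Y.Normal := normalizer_eq_top_iff.1 (eq_top_iff.2 (hYc.trans (cent_le_norm _)))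
  -- the action on `Q / Y`
  set W := Q.map (QuotientGroup.mk' Y) with hW
  haveI : W.Normal := Normal.map inferInstance _ (QuotientGroup.mk'_surjective Y)
  have hW4 : Nat.card W = 4 := by
    have := card_eq_card_inf_ker_mul_card_map (QuotientGroup.mk' Y) Q
    rw [QuotientGroup.ker_mk', inf_eq_left.2 hY, hc, mul_comm] at this
    exact (Nat.eq_of_mul_eq_mul_left Nat.card_pos this).symm
  haveI : IsKleinFour W := ⟨hW4, by
    haveI : Nontrivial W := Finite.one_lt_card_iff_nontrivial.1 (by omega)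
    refine (Monoid.exponent_eq_prime_iff Nat.prime_two).2 fun w hw => orderOf_eq_prime ?_ hw
    obtain ⟨_, x, hx, rfl⟩ := w
    exact Subtype.ext (by
      show (QuotientGroup.mk' Y x) ^ 2 = 1
      rw [← map_pow, pow_two, h2 x hx, map_one])⟩
  have i1 := CL.Inv.relIndex_centralizer_dvd_card_mulAut W
  rw [CL.Inv.card_mulAut_kleinFour, normalizer_eq_top, relIndex_top_right,
    ← index_comap_of_surjective _ (QuotientGroup.mk'_surjective Y)] at i1
  set C := (centralizer (W : Set (K ⧸ Y))).comap (QuotientGroup.mk' Y) with hC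
  have hCC : 𝒞(Q) ≤ C := fun x hx => by
    rintro _ ⟨y, hy, rfl⟩
    rw [← map_mul, ← map_mul, hx y hy]
  have hC1 : rot φ ⊓ C ≤ 𝒞(Q) := fun x hx => h.mem_of_pow hQC hx.1 (k := 1) fun y hy => by
    have e := hx.2 _ ⟨y, hy, rfl⟩
    rw [← map_mul, ← map_mul, QuotientGroup.mk'_apply, QuotientGroup.mk'_apply, QuotientGroup.eq] at e
    have e1 := hYc (mem_top x) _ e
    have e2 := h2 _ (hY e)
    have e3 := hYc (mem_top y) _ e
    generalize hz : (y * x)⁻¹ * (x * y) = z at e1 e2 e3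
    have e4 : x * y = y * x * z := by rw [← hz]; group
    calc y * x ^ 2 ^ 1 = y * x * (z * z) * x := by rw [e2]; simp [pow_two, mul_assoc]
      _ = x * y * (z * x) := by rw [e4]; group
      _ = x * (y * x * z) := by rw [e1]; group
      _ = _ := by rw [← e4]; simp [pow_two, mul_assoc]
  have hC2 : C ≤ rot φ := by
    by_contra e
    exact hR ((le_inf le_rfl (le_top.trans (h.eq_top_of_normal inferInstance (hQC.trans hCC) e).ge)).trans
      hC1)
  have hC3 : C = 𝒞(Q) := le_antisymm ((le_inf hC2 le_rfl).trans hC1) hCC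
  rw [hC3] at i1 hC2
  have i2 := relIndex_mul_index hC2
  rw [h.index_rot] at i2
  have i3 : (𝒞(Q) : Subgroup K).index = 6 := by
    have e : (𝒞(Q) : Subgroup K).relIndex (rot φ) ≠ 1 := fun e => hR (relIndex_eq_one.1 e)
    rw [← i2] at i1 ⊢
    revert i1 e
    generalize (𝒞(Q) : Subgroup K).relIndex (rot φ) = d
    intro i1 e
    have := Nat.le_of_dvd (by decide) i1
    have : d ≤ 3 := by omega
    interval_cases d <;> omega
  have hd := h.disjoint h.two
  have hOC : oddCore K ≤ 𝒞(Q) := commutator_eq_bot_iff'.1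
    (eq_bot_iff.2 ((commutator_le_inf _ _).trans hd.le))
  have hC4 : 𝒞(Q) = oddCore K ⊔ Q :=
    le_antisymm ((le_inf hC2 le_rfl).trans h.rot_inf_cent_le) (sup_le hOC hQC)
  set π := QuotientGroup.mk' (oddCore K) with hπ
  have hπs : Function.Surjective π := QuotientGroup.mk'_surjective _
  have hcard : ∀ X : Subgroup K, X ≤ Q → Nat.card (X.map π) = Nat.card X := fun X hX => by
    have := card_eq_card_inf_ker_mul_card_map π X
    rw [QuotientGroup.ker_mk', inf_comm,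
      eq_bot_iff.2 ((inf_le_inf_right _ hX).trans hd.le), card_bot,
      one_mul] at this
    exact this.symm
  have hcm : (Q.map π).comap π = 𝒞(Q) := by
    rw [comap_map_eq, QuotientGroup.ker_mk', sup_comm, hC4]
  have i4 : Nat.card (K ⧸ oddCore K) = 6 * Nat.card Q := by
    rw [← (Q.map π).index_mul_card, ← index_comap_of_surjective _ hπs, hcm, i3, hcard Q le_rfl]
  haveI : (Q.map π).Normal := Normal.map inferInstance _ hπs
  have j1 : IsMulCommutative (Q.map π) := ⟨⟨by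
    rintro ⟨_, x, hx, rfl⟩ ⟨_, y, hy, rfl⟩
    exact Subtype.ext (by show π x * π y = π y * π x; rw [← map_mul, hcomm x hx y hy, map_mul])⟩⟩
  have j2 : centralizer (Q.map π : Set (K ⧸ oddCore K)) ≤ Q.map π := fun x hx => by
    obtain ⟨x, rfl⟩ := hπs x
    refine hcm.ge fun y hy => ?_
    have e := hx _ ⟨y, hy, rfl⟩
    rw [← map_mul, ← map_mul, hπ, QuotientGroup.mk'_apply, QuotientGroup.mk'_apply,
      QuotientGroup.eq] at e
    have e1 : (y * x)⁻¹ * (x * y) ∈ Q := by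
      have := Q.mul_mem (h.normal.conj_mem' _ (Q.inv_mem hy) x) hy
      simpa [mul_assoc] using this
    exact inv_mul_eq_one.1 (hd.le ⟨e1, e⟩)
  have j3 : ∀ N : Subgroup (K ⧸ oddCore K), N.Normal → IsPGroup 2 N → N ≤ Q.map π := fun N hN hN2 => by
    have k1 : IsPGroup 2 ↥(N ⊔ Q.map π) := hN2.to_sup_of_normal_right (h.two.map π)
    have k2 : (N ⊔ Q.map π).comap π ≤ rot φ := by
      by_contra e
      have e1 := h.eq_top_of_normal inferInstance ((le_comap_map π Q).trans (comap_mono le_sup_right)) e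
      have e2 : N ⊔ Q.map π = ⊤ := by
        rw [← map_comap_eq_self_of_surjective hπs (N ⊔ Q.map π), e1, map_top_of_surjective _ hπs]
      obtain ⟨k, hk⟩ := k1.exists_card_eq
      rw [e2, card_top, i4] at hk
      have : 3 ∣ 2 ^ k := hk ▸ Dvd.intro (2 * Nat.card Q) (by ring)
      exact absurd (Nat.prime_three.dvd_of_dvd_pow this) (by decide)
    intro x hx
    obtain ⟨x, rfl⟩ := hπs x
    obtain ⟨k, hk⟩ := hN2 ⟨_, hx⟩
    refine hcm.ge (h.mem_of_pow hQC (k2 (mem_sup_left hx)) (k := k) (hOC ?_))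
    exact (QuotientGroup.eq_one_iff _).1 (congrArg Subtype.val hk)
  rcases h8 with e | e
  · exact Or.inl (CL.Am.nonempty_equiv_S4 j1 (h.two.map π) j2 j3 (by omega)
      (by rw [hcard Q le_rfl]; omega))
  · obtain ⟨f⟩ := CL.Am.nonempty_equiv_C2_S4 (Y := Y.map π) j1 (h.two.map π) j2 j3 (map_mono hY)
      (fun x _ => by
        obtain ⟨x, rfl⟩ := hπs x
        rintro _ ⟨y, hy, rfl⟩
        rw [← map_mul, hYc (mem_top x) y hy, map_mul]) (by omega) (by rw [hcard Q le_rfl]; omega)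
      (by rw [hcard Y hY, e]) (a := π a) (fun e => hinv a ha ha2 (hC2 (hcm.le e)))
      (by rw [← map_mul, ha2, map_one])
    exact Or.inr ⟨f.trans MulEquiv.prodComm⟩

end Dih

namespace Chain

variable {G : Type*} [Group G] [Finite G] {t u : ℕ} {T : ℤ → ℤ → Subgroup G}
  (h : Chain 2 t 1 T) (ht : 1 ≤ t)
include h ht

theorem sq_self {i : ℤ} {x : G} (hx : x ∈ T i i) : x * x = 1 := by
  have := pow_card_eq_one' (x := (⟨x, hx⟩ : T i i))
  rw [h.card' i i 1 (by omega) ht, pow_one, pow_two] at this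
  exact congrArg Subtype.val this

theorem exists_gen (i : ℤ) : ∃ x ∈ T i i, x ≠ 1 ∧ ∀ C : Subgroup G, x ∈ C → T i i ≤ C := by
  have h0 : T i i ≠ ⊥ := fun e => by
    have := h.card' i i 1 (by omega) ht
    rw [e, card_bot] at this
    omega
  obtain ⟨x, hx⟩ := ne_bot_iff_exists_ne_one.1 h0
  have hx' : (x : G) ≠ 1 := fun e => hx (Subtype.ext e)
  refine ⟨x, x.2, hx', fun C hC => h.le_of_not_mem le_rfl (by omega) x.2 ?_ hC ?_⟩ <;>
    rw [h.bot (by omega)]
  · exact hx'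
  · exact bot_le

variable (hu : ∀ d : ℕ, d < u → T 0 0 ≤ 𝒞(T d d))
include hu

theorem sq_near {i j : ℤ} (h1 : j - i < u) (hut : u ≤ t) {x : G} (hx : x ∈ T i j) : x * x = 1 := by
  have hc := h.near' hu (i := i) (j := j) (i' := i) (j' := j) (by omega) (by omega) h1 h1
  let C : Subgroup G :=
    { carrier := {x | x ∈ T i j ∧ x * x = 1}
      mul_mem' := fun {a b} ha hb => ⟨mul_mem ha.1 hb.1, by
        rw [mul_assoc, ← mul_assoc b, hc ha.1 b hb.1, mul_assoc, hb.2, mul_one, ha.2]⟩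
      one_mem' := ⟨one_mem _, one_mul _⟩
      inv_mem' := fun {a} ha => ⟨inv_mem ha.1, by rw [← mul_inv_rev, ha.2, inv_one]⟩ }
  exact (h.gen (C := C) (by omega) (fun n h1 h2 y hy => ⟨h.mono h1 h2 hy, h.sq_self ht hy⟩) hx).2

end Chain

section Six

variable {G : Type*} [Group G] [Finite G] {T : ℤ → ℤ → Subgroup G} (h : Chain 2 6 1 T)
  (hu : ∀ d : ℕ, d < 4 → T 0 0 ≤ 𝒞(T d d)) (hn : ¬ T 0 0 ≤ 𝒞(T (4 : ℕ) (4 : ℕ)))
include h hu hn

theorem six_left {i : ℤ} {a b : G} (ha : a ∈ T i i) (hb : b ∈ T (i + 5) (i + 5)) :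
    ⁅a, b⁆ ∈ T (i + 2) (i + 4) := by
  have hw := h.comm_mem (by omega) (by omega) ha hb
  by_contra hc
  have e1 := h.sq_near (by omega) hu (by omega) (by omega) hw
  have e2 := h.sq_self (by omega) hb
  have e3 : T (i + 1) (i + 5 - 1) ≤ centralizer {b} := h.le_of_not_mem (by omega) (by omega) hw
    (fun e => hc (h.mono (by omega) (by omega) e)) (by
      rw [mem_centralizer_singleton_iff]
      have e4 := inv_eq_of_mul_eq_one_left e1
      have e5 := inv_eq_of_mul_eq_one_left e2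
      calc ⁅a, b⁆ * b = (b * b) * a * b⁻¹ * a⁻¹ := by
            rw [e2, e5]; simp [commutatorElement_def]
        _ = b * ⁅a, b⁆⁻¹ := by simp [commutatorElement_def, mul_assoc]
        _ = _ := by rw [e4])
    fun y hy => mem_centralizer_singleton_iff.2
      (h.near' hu (i' := i + 5) (j' := i + 5) (by omega) (by omega) (by omega) (by omega) hy b hb).symm
  have hb1 : b ≠ 1 := fun e => hc (by rw [e, commutatorElement_one_right]; exact one_mem _)
  refine h.far hn (i + 1) (le_centralizer_iff.1 ((h.mono (by omega) (by omega)).trans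
    (h.le_of_not_mem (j := i + 5) le_rfl (by omega) hb (by rw [h.bot (by omega)]; exact hb1)
      (fun y hy => mem_centralizer_singleton_iff.1 (e3 (h.mono le_rfl (by omega) hy)))
      (by rw [h.bot (by omega)]; exact bot_le))))

theorem six_comm {i j : ℤ} (hij : i ≤ j) (h5 : j - i ≤ 5) {a b : G} (ha : a ∈ T i i)
    (hb : b ∈ T j j) : ⁅a, b⁆ ∈ T (i + 2) (j - 2) := by
  by_cases e : j - i < 4
  · rw [commutatorElement_eq_one_iff_mul_comm.2 (h.near hu (by omega) (by omega) hb a ha)]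
    exact one_mem _
  by_cases e' : j - i = 4
  · exact h.mono (by omega) (by omega) (h.key hu hn (by omega) ha
      (h.mono (by omega) (by omega) hb))
  obtain rfl : j = i + 5 := by omega
  have h1 := six_left h hu hn ha hb
  have h2 := six_left h.rev (h.hu_rev hu) (fun e => h.far hn (-(4 : ℕ)) (by
    rw [neg_add_cancel]; exact le_centralizer_iff.1 e)) (i := -(i + 5)) (a := b) (b := a)
    (by simpa using hb) (by simpa using ha)
  rw [← commutatorElement_inv, inv_mem_iff] at h2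
  exact h.mono (by omega) (by omega) (h.inf (by omega) ⟨h2, h1⟩)

theorem six_norm {i : ℤ} (h1 : 1 ≤ i) (h8 : i ≤ 8) : T i i ≤ 𝒩(T 3 6) := fun a ha =>
  mem_norm_of_cj_le (cj_le_iff.2 (h.gen (by omega) fun k h3 h6 b hb => by
    rw [mem_cj, inv_inv]
    have : ⁅a, b⁆ ∈ T 3 6 := by
      rcases le_total i k with e | e
      · exact h.mono (by omega) (by omega) (six_comm h hu hn e (by omega) ha hb)
      · rw [← commutatorElement_inv, inv_mem_iff]
        exact h.mono (by omega) (by omega) (six_comm h hu hn e (by omega) hb ha)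
    simpa [commutatorElement_def] using mul_mem this (h.mono h3 h6 hb)))

end Six

theorem glauberman {G : Type*} [Group G] [Finite G] {H P : Subgroup G} (hO : pCore 2 ↥H ≠ ⊥) {n : ℕ}
    (hn : 2 ≤ n) (e : ↥H ⧸ pCore 2 ↥H ≃* DihedralGroup n) (hPH : P ≤ H) (hP : IsPGroup 2 P)
    (hPs : ¬ 2 ∣ P.relIndex H) {y : G} (hy2 : y ^ 2 ∈ P ⊔ 𝒞(P)) (hyN : y ∈ 𝒩(P))
    (hyQ : ∀ Q : Subgroup G, Q ≤ P → H ≤ 𝒩(Q) → y ∈ 𝒩(Q) → Q = ⊥) :
    (Nat.card P = 4 ∨ Nat.card P = 8 ∨ Nat.card P = 16) ∧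
    (Nonempty (↥H ⧸ oddCore ↥H ≃* Multiplicative (ZMod 2) × Multiplicative (ZMod 2)) ∨
     Nonempty (↥H ⧸ oddCore ↥H ≃* Equiv.Perm (Fin 4)) ∨
     Nonempty (↥H ⧸ oddCore ↥H ≃* Equiv.Perm (Fin 4) × Multiplicative (ZMod 2))) := by
  have hD : Dih (e.toMonoidHom.comp (QuotientGroup.mk' _)) (pCore 2 H) :=
    ⟨e.surjective.comp (QuotientGroup.mk'_surjective _), by ext x; simp, pCore_isP,
      odd_of_pCore_dihedral hn (pCore_eq_bot_of_equiv e (pCore_quotient_pCore 2 H))⟩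
  have hP' : IsPGroup 2 (P.subgroupOf H) := hP.comap_subtype
  obtain ⟨a1, a2, a3, c, a4, a5⟩ := hD.sylow hn hP' hPs
  have hm : (P.subgroupOf H).map H.subtype = P := map_subgroupOf_eq_of_le hPH
  have hmc : (cj c⁻¹ (P.subgroupOf H)).map H.subtype = cj (c : G)⁻¹ P := by
    nth_rewrite 2 [← hm]
    rw [map_map, map_map]
    rfl
  have b4 := congrArg (Subgroup.map H.subtype) a4
  have b5 := congrArg (Subgroup.map H.subtype) a5
  rw [map_inf _ _ _ H.subtype_injective, hm, hmc, core_def] at b4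
  rw [Subgroup.map_sup, hm, hmc, ← MonoidHom.range_eq_map, range_subtype] at b5
  have b3 : (pCoreOf 2 H).relIndex P = 2 := by
    rwa [← relIndex_map_map_of_injective _ _ H.subtype_injective, hm, core_def] at a3
  set g := y * c with hg
  have e1 : cj g⁻¹ P = cj (c : G)⁻¹ P := by rw [hg, mul_inv_rev, cj_mul, cj_eq (inv_mem hyN)]
  rw [← e1] at b4 b5
  have hQn : H ≤ 𝒩(pCoreOf 2 H) := self_le_norm_core H
  obtain ⟨t, ht, h⟩ := exists_chain (P := P) (g := g) Nat.prime_two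
    (b4 ▸ (le_sup_right.trans b5.le).trans hQn) (by
      rw [b4, e1, ← cj_eq (inv_mem (hQn c.2)), relIndex_map_map_of_injective _ _
        (MulAut.conj (c : G)⁻¹).injective, b3]) fun N h1 h2 h3 => by
      have : H ≤ 𝒩(N) := b5.ge.trans (sup_le h2 (by
        rw [← cj_eq (inv_mem h3), ← cj_norm]; exact cj_mono _ h2))
      exact hyQ N h1 this (by simpa [hg] using mul_mem h3 (inv_mem (this c.2)))
  have hZ : ∀ N : Subgroup G, N ≤ P → H ≤ 𝒩(N) → cj g⁻¹ H ≤ 𝒩(N) → N = ⊥ := fun N h1 h2 h3 => by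
    have c1 : cj g N ≤ P := cj_le_iff.2 ((le_core (h1.trans hPH) (hP.to_le h1) h2).trans
      (b4.ge.trans inf_le_right))
    have c2 : H ≤ 𝒩(cj g N) := by rw [← cj_norm]; exact le_cj_iff.2 h3
    have c3 : H ≤ 𝒩(cj y⁻¹ (cj g N)) := by
      rw [← cj_mul, hg, inv_mul_cancel_left, cj_eq (h2 c.2)]; exact h2
    have c4 : cj y (cj y (cj g N)) = cj g N := by
      rw [← cj_mul, ← pow_two]
      exact cj_eq (sup_le (hPH.trans c2) ((cent_mono c1).trans (cent_le_norm _)) hy2)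
    rw [← c4, cj_inv_cj] at c3
    have := hyQ (cj g N ⊔ cj y (cj g N)) (sup_le c1 (cj_le_of_le c1 hyN)) (le_norm_sup c2 c3)
      (cj_eq_iff_mem.1 (by rw [cj_sup, c4, sup_comm]))
    exact cj_eq_bot.1 (le_bot_iff.1 (le_sup_left.trans this.le))
  set T : ℤ → ℤ → Subgroup G := fun i j => seg P g (j - t) i with hT
  have t0 : T 1 t = P := by
    have := seg_eq_cj (P := P) (g := g) t 0
    rwa [zpow_zero, inv_one, cj_one, zero_add, zero_add] at this
  have t1 : T 2 (t + 1) = cj g⁻¹ P := by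
    simpa [hT, add_comm] using seg_eq_cj (P := P) (g := g) t 1
  have t2 : T 3 (t + 2) = cj g⁻¹ (cj g⁻¹ P) := by
    rw [← cj_mul, ← mul_inv_rev, ← zpow_two]
    simpa [hT, add_comm] using seg_eq_cj (P := P) (g := g) t 2
  have hK : ∀ C : Subgroup G, (∀ i : ℤ, 1 ≤ i → i ≤ t + 2 → T i i ≤ C) → H ⊔ cj g⁻¹ H ≤ C :=
    fun C hC => by
      rw [← b5, cj_sup, ← t2, ← t1, ← t0]
      refine sup_le (sup_le ?_ ?_) (sup_le ?_ ?_) <;>
        exact h.gen (by omega) fun i _ _ => hC i (by omega) (by omega)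
  have hH : ∀ C : Subgroup G, (∀ i : ℤ, 1 ≤ i → i ≤ t + 1 → T i i ≤ C) → H ≤ C := fun C hC => by
    rw [← b5, ← t1, ← t0]
    refine sup_le ?_ ?_ <;> exact h.gen (by omega) fun i _ _ => hC i (by omega) (by omega)
  have hQ : pCoreOf 2 H = T 2 t := by
    rw [← b4, ← t1, ← t0]
    exact le_antisymm (h.inf (by omega)) (le_inf (h.mono (by omega) le_rfl) (h.mono le_rfl (by omega)))
  have hmem : ∀ x : H, x ∈ pCore 2 H ↔ (x : G) ∈ T 2 t := fun x => by
    rw [← hQ, ← subgroupOf_core, mem_subgroupOf]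
  obtain ⟨u, hut, hu, hn'⟩ := exists_u t T
  have f1 := h.two_mul_le_add (n := 2) ht hut hu (K := H ⊔ cj g⁻¹ H) (fun C hC => hK C fun i h1 h2 => by
      by_cases e : i ≤ t
      · exact (h.mono (by omega) (by omega)).trans (hC 0 (by omega))
      by_cases e' : i = t + 1
      · exact (h.mono (by omega) (by omega)).trans (hC 1 (by omega))
      · exact (h.mono (by omega) (by omega)).trans (hC 2 (by omega)))
    (hZ _ (inf_le_left.trans t0.le)
      (le_sup_left.trans ((le_centralizer_iff.1 inf_le_right).trans (cent_le_norm _)))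
      (le_sup_right.trans ((le_centralizer_iff.1 inf_le_right).trans (cent_le_norm _))))
  have f2 : 2 ≤ t := by
    by_contra hc
    exact hO (core_eq_bot_iff.1 (hQ.trans (h.bot (by omega))))
  have cP := h.card' 1 t t (by omega) le_rfl
  rw [t0] at cP
  have cQ : Nat.card (pCore 2 H) = 2 ^ (t - 1) := by
    rw [← card_map_subtype, core_def, hQ, h.card' 2 t (t - 1) (by omega) (by omega)]
  by_cases h2 : t = 2
  · have hu2 : u = 2 := by
      by_contra hc
      have := h.two_mul_le hu (hn' (by omega)) (by omega)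
      omega
    subst h2 hu2
    refine ⟨Or.inl cP, Or.inl (hD.four hP' a2 a1 (fun x _ q hq => Subtype.ext ?_) ⟨?_, ?_⟩)⟩
    · exact hH 𝒞(T 2 2) (fun i _ _ => h.near hu (by omega) (by omega)) x.2 _ ((hmem q).1 hq)
    · rw [card_subgroupOf_of_le hPH, cP]; rfl
    · haveI : Nontrivial (P.subgroupOf H) := Finite.one_lt_card_iff_nontrivial.1 (by
        rw [card_subgroupOf_of_le hPH, cP]; decide)
      refine (Monoid.exponent_eq_prime_iff Nat.prime_two).2 fun w hw => orderOf_eq_prime ?_ hw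
      rw [pow_two]
      exact Subtype.ext (Subtype.ext (h.sq_near ht hu (i := 1) (j := (2 : ℕ)) (by omega) le_rfl
        (t0.ge w.2)))
  have hl : u < t := by omega
  have f3 := h.two_mul_le hu (hn' hl) hl
  have f6 : t ≠ 6 := by
    rintro rfl
    obtain rfl : u = 4 := by omega
    have k1 := hK _ fun i h1 h2 => six_norm h hu (hn' hl) h1 (by omega)
    have k2 : T 3 6 = ⊥ := hZ _ ((h.mono (by omega) le_rfl).trans t0.le) (le_sup_left.trans k1)
      (le_sup_right.trans k1)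
    have k3 := h.card' 3 6 4 (by omega) (by omega)
    rw [k2, card_bot] at k3
    omega
  have f4 : u + 1 = t ∧ (t = 3 ∨ t = 4) := by omega
  have hTH : ∀ i : ℤ, 1 ≤ i → i ≤ t + 1 → T i i ≤ H := fun i h1 h2 => by
    rw [← b5, ← t1, ← t0]
    by_cases e : i ≤ t
    · exact (h.mono h1 e).trans le_sup_left
    · exact (h.mono (by omega) h2).trans le_sup_right
  obtain ⟨a, ha, ha1, -⟩ := h.exists_gen ht 1
  obtain ⟨b, hb, hb1, hbg⟩ := h.exists_gen ht (t + 1)
  obtain ⟨q, hq, -, hqg⟩ := h.exists_gen ht 2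
  refine ⟨by rcases f4.2 with e | e <;> simp [cP, e], Or.inr (hD.big
    (fun x hx => Subtype.ext (h.sq_near ht hu (by omega) hut ((hmem x).1 hx)))
    (Y := (T 3 (t - 1)).subgroupOf H) (fun x hx => (hmem x).2 (h.mono (by omega) (by omega) hx))
    (fun x _ z hz => Subtype.ext (hH 𝒞(T 3 (t - 1)) (fun i _ _ => le_centralizer_iff.1
      (h.gen (by omega) fun _ _ _ => h.near hu (by omega) (by omega))) x.2 _ hz)) ?_ ?_
    (a := ⟨a, hTH 1 le_rfl (by omega) ha⟩) (b := ⟨b, hTH _ (by omega) le_rfl hb⟩)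
    (q := ⟨q, hTH 2 (by omega) (by omega) hq⟩) (fun e => ha1 ?_) (fun e => hb1 ?_)
    (Subtype.ext (h.sq_self ht ha)) (Subtype.ext (h.sq_self ht hb))
    ((hmem _).2 (h.mono le_rfl (by omega) hq))
    (Subtype.ext (h.near hu (by omega) (by omega) ha q hq)) fun e => ?_)⟩
  · rw [cQ, card_subgroupOf_of_le (h.gen (by omega) fun i _ _ => hTH i (by omega) (by omega)),
      h.card' 3 _ (t - 3) (by omega) (by omega)]
    rcases f4.2 with e | e <;> simp [e]
  · rw [card_subgroupOf_of_le (h.gen (by omega) fun i _ _ => hTH i (by omega) (by omega)),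
      h.card' 3 _ (t - 3) (by omega) (by omega)]
    rcases f4.2 with e | e <;> simp [e]
  · exact (h.bot (i := 2) (j := 1) (by omega)).le (h.inf (by omega) ⟨ha, (hmem _).1 e⟩)
  · exact (h.bot (i := t + 1) (j := t) (by omega)).le (h.inf (by omega) ⟨(hmem _).1 e, hb⟩)
  · refine h.far (hn' hl) 2 (le_centralizer_iff.1 ((h.mono (by omega) (by omega)).trans
      (hbg _ fun z hz => ?_)))
    exact mem_centralizer_singleton_iff.1 (hqg _
      (mem_centralizer_singleton_iff.2 (congrArg Subtype.val e)) hz)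

end CL.SimsCh
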