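/-
Families of invariant subgroups closed under commutators: nilpotency of bounded class (Acciarri-Shumyatsky), the
Lie ring part.
-/
import Cfsg.Agent.Fgs.LieNil
import Cfsg.Agent.Fgs.LieGroup
import Cfsg.Agent.Loc.SigGen

set_option autoImplicit false
set_option linter.style.haveILetI false
open Subgroup Cfsg CL.Grp CL.Loc
open scoped commutatorElement

namespace CL.Fgs.Lie

universe u

variable {X : Type u} [Group X]

/-- the Lie ring of the lower central series of a subgroup -/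
structure LieData (N : Subgroup X) {L : Type u} [LieRing L] (ι : ℕ → X → L) : Prop where
  mul : ∀ i, ∀ x ∈ N.lowerCentralSeries i, ∀ y ∈ N.lowerCentralSeries i, ι i (x * y) = ι i x + ι i y
  zero : ∀ i, ∀ x ∈ N.lowerCentralSeries i, ι i x = 0 ↔ x ∈ N.lowerCentralSeries (i + 1)
  ind : ∀ P : L → Prop, P 0 → (∀ i, ∀ x ∈ N.lowerCentralSeries i, P (ι i x)) → (∀ a b, P a → P b → P (a + b)) →
    ∀ a, P a
  br : ∀ i j, ∀ x ∈ N.lowerCentralSeries i, ∀ y ∈ N.lowerCentralSeries j,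
    ⁅x, y⁆ ∈ N.lowerCentralSeries (i + j + 1) ∧ ⁅ι i x, ι j y⁆ = ι (i + j + 1) ⁅x, y⁆
  aut : ∀ g ∈ normalizer (N : Set X), ∃ φ : L →+ L, (∀ a b, φ ⁅a, b⁆ = ⁅φ a, φ b⁆) ∧
    ∀ i, ∀ x ∈ N.lowerCentralSeries i, φ (ι i x) = ι i (g * x * g⁻¹)

theorem le_normalizer_lcs {A N : Subgroup X} (h : A ≤ normalizer (N : Set X)) (i : ℕ) :
    A ≤ normalizer (N.lowerCentralSeries i : Set X) := by
  induction i with
  | zero => exact h
  | succ i ih => exact le_normalizer_commutator' ih h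

theorem conj_mem_of_norm {H : Subgroup X} {g x : X} (hg : g ∈ normalizer (H : Set X)) (hx : x ∈ H) : g * x * g⁻¹ ∈ H :=
  (mem_normalizer_iff.1 hg x).1 hx

theorem lcs_le (N : Subgroup X) (i : ℕ) : N.lowerCentralSeries i ≤ N := N.lowerCentralSeries_antitone (Nat.zero_le i)

theorem exists_lieData (N : Subgroup X) : ∃ (L : Type u) (_ : LieRing L) (ι : ℕ → X → L), LieData N ι := by
  classical
  have h := isFilt_lcs N
  obtain ⟨L, _, ι, hmul, hz, hind, hlift, hbr⟩ := h.exists_lieRing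
  have hm : ∀ i (x : N), x ∈ (⊤ : Subgroup N).lowerCentralSeries i ↔ (x : X) ∈ N.lowerCentralSeries i := fun i x => by
    rw [← top_subtype_lowerCentralSeries N]
    exact (mem_map_iff_mem N.subtype_injective).symm
  let κ : ℕ → X → L := fun i x => if hx : x ∈ N then ι i ⟨x, hx⟩ else 0
  have hκ : ∀ i (x : N), κ i x = ι i x := fun i x => dif_pos x.2
  have lift : ∀ {i x}, x ∈ N.lowerCentralSeries i → ∃ y ∈ (⊤ : Subgroup N).lowerCentralSeries i, (y : X) = x :=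
    fun {i x} hx => ⟨⟨x, lcs_le N i hx⟩, (hm i _).2 hx, rfl⟩
  refine ⟨L, inferInstance, κ, fun i x hx' y hy' => ?_, fun i x hx' => ?_, fun P h0 h1 h2 => ?_,
    fun i j x hx' y hy' => ?_, fun g hg => ?_⟩
  · obtain ⟨x, hx, rfl⟩ := lift hx'
    obtain ⟨y, hy, rfl⟩ := lift hy'
    rw [← coe_mul, hκ, hκ, hκ, hmul i x hx y hy]
  · obtain ⟨x, hx, rfl⟩ := lift hx'
    rw [hκ, hz i x hx, hm]
  · exact hind P h0 (fun i x hx => hκ i x ▸ h1 i x ((hm i x).1 hx)) h2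
  · obtain ⟨x, hx, rfl⟩ := lift hx'
    obtain ⟨y, hy, rfl⟩ := lift hy'
    refine ⟨(hm _ ⁅x, y⁆).1 (h.comm_mem hx hy), ?_⟩
    rw [hκ, hκ, hbr i j x hx y hy]
    exact (hκ _ ⁅x, y⁆).symm
  · let α : N →* N := (N.normalizerMonoidHom ⟨g, hg⟩).toMonoidHom
    have hα : ∀ i, ∀ x ∈ (⊤ : Subgroup N).lowerCentralSeries i, α x ∈ (⊤ : Subgroup N).lowerCentralSeries i :=
      fun i x hx => (hm i _).2 (conj_mem_of_norm (le_normalizer_lcs le_rfl i hg) ((hm i x).1 hx))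
    obtain ⟨φ, hφ⟩ := hlift L (fun i x => ι i (α x))
      (fun i x y => by rw [coe_mul, map_mul, hmul _ _ (hα _ _ x.2) _ (hα _ _ y.2)])
      (fun i x hx => (hz _ _ (hα _ _ x.2)).2 (hα _ _ hx))
    have hφ' : ∀ i, ∀ x ∈ (⊤ : Subgroup N).lowerCentralSeries i, φ (ι i x) = ι i (α x) := fun i x hx => hφ i ⟨x, hx⟩
    refine ⟨φ, fun a b => ?_, fun i x hx' => ?_⟩
    · refine hind (fun a => φ ⁅a, b⁆ = ⁅φ a, φ b⁆) (by simp) (fun i x hx => ?_)
        (fun a a' h1 h2 => by rw [add_lie, map_add, map_add, add_lie, h1, h2]) a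
      refine hind (fun b => φ ⁅ι i x, b⁆ = ⁅φ (ι i x), φ b⁆) (by simp) (fun j y hy => ?_)
        (fun a a' h1 h2 => by rw [lie_add, map_add, map_add, lie_add, h1, h2]) b
      rw [hbr _ _ _ hx _ hy, hφ' _ _ (h.comm_mem hx hy), hφ' _ _ hx, hφ' _ _ hy, hbr _ _ _ (hα _ _ hx) _ (hα _ _ hy),
        map_commutatorElement]
    · obtain ⟨x, hx, rfl⟩ := lift hx'
      rw [hκ, hφ' i x hx]
      exact (hκ i (α x)).symm

/-- a family of invariant subgroups generating `N`, closed under commutators, and covered by at most `T` subgroups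
acting nilpotently on the centralisers of the big subgroups of `A` -/
structure SpSys (p : ℕ) (A N : Subgroup X) (𝓗 : Set (Subgroup X)) (𝓦 : Finset (Subgroup X)) (m : ℕ) : Prop where
  ea : IsElementaryAbelian p A
  cop : ¬ p ∣ Nat.card N
  norm : A ≤ normalizer (N : Set X)
  gen : sSup 𝓗 = N
  inv : ∀ H ∈ 𝓗, A ≤ normalizer (H : Set X)
  clo : ∀ H ∈ 𝓗, ∀ H' ∈ 𝓗, ∀ B ≤ A, Nat.card A ≤ p * Nat.card B → ∃ J ∈ 𝓗, ⁅H, H'⁆ ⊓ centralizer (B : Set X) ≤ J
  cov : ∀ H ∈ 𝓗, ∃ W ∈ 𝓦, H ≤ W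
  nil : ∀ W ∈ 𝓦, ∀ B ≤ A, Nat.card A ≤ p * Nat.card B → (fun U => ⁅U, W⁆)^[m] (N ⊓ centralizer (B : Set X)) = ⊥

namespace LieData

variable {N : Subgroup X} {L : Type u} [LieRing L] {ι : ℕ → X → L} (h : LieData N ι)
include h

theorem one (i : ℕ) : ι i 1 = 0 := (h.zero i 1 (one_mem _)).2 (one_mem _)

theorem inv {i : ℕ} {x : X} (hx : x ∈ N.lowerCentralSeries i) : ι i x⁻¹ = -ι i x := by
  rw [eq_neg_iff_add_eq_zero, ← h.mul _ _ (inv_mem hx) _ hx, inv_mul_cancel, h.one]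

theorem pow {i : ℕ} {x : X} (hx : x ∈ N.lowerCentralSeries i) (k : ℕ) : ι i (x ^ k) = k • ι i x := by
  induction k with
  | zero => simp [h.one]
  | succ k ih => rw [pow_succ, h.mul _ _ (pow_mem hx k) _ hx, ih, succ_nsmul]

/-- the elements of the `i`-th term whose image lies in `D` -/
def pre (i : ℕ) (D : AddSubgroup L) : Subgroup X where
  carrier := {x | x ∈ N.lowerCentralSeries i ∧ ι i x ∈ D}
  one_mem' := ⟨one_mem _, by rw [h.one]; exact zero_mem _⟩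
  mul_mem' := fun ha hb => ⟨mul_mem ha.1 hb.1, by rw [h.mul _ _ ha.1 _ hb.1]; exact add_mem ha.2 hb.2⟩
  inv_mem' := fun ha => ⟨inv_mem ha.1, by rw [h.inv ha.1]; exact neg_mem ha.2⟩

theorem card_nsmul (a : L) : Nat.card N • a = 0 :=
  h.ind (fun a => Nat.card N • a = 0) (smul_zero _) (fun i x hx => by
    rw [← h.pow hx, show x ^ Nat.card N = 1 from
      congrArg Subtype.val (pow_card_eq_one' (x := (⟨x, lcs_le N i hx⟩ : N))), h.one])
    (fun a b ha hb => by rw [smul_add, ha, hb, add_zero]) a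

theorem asc_of_iter (W : Subgroup X) (t : ℕ) : ∀ U : Subgroup X, (fun U => ⁅U, W⁆)^[t] U = ⊥ → ∀ i, ∀ x ∈ U,
    x ∈ N.lowerCentralSeries i → ι i x ∈ asc ⊥ {v | ∃ j, ∃ y ∈ W, y ∈ N.lowerCentralSeries j ∧ ι j y = v} t := by
  induction t with
  | zero =>
    intro U hU i x hx _
    rw [show U = ⊥ from hU, mem_bot] at hx
    rw [hx, h.one]
    exact zero_mem _
  | succ t ih =>
    rintro U hU i x hx hi _ ⟨j, y, hy, hj, rfl⟩
    rw [(h.br i j x hi y hj).2]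
    exact ih _ hU _ _ (commutator_mem_commutator hx hy) (h.br i j x hi y hj).1

theorem lcs_le_of_asc {B : ℕ} (hB : asc ⊥ (Set.univ : Set L) B = ⊤) :
    N.lowerCentralSeries B ≤ N.lowerCentralSeries (B + 1) := by
  have key : ∀ i t, i + t = B → N.lowerCentralSeries i ≤ h.pre i (asc ⊥ Set.univ t) := fun i => by
    induction i with
    | zero => exact fun t e x hx => ⟨hx, by rw [← e, zero_add] at hB; rw [hB]; trivial⟩
    | succ i ih =>
      intro t e
      rw [Subgroup.lowerCentralSeries_succ, commutator_le]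
      intro x hx y hy
      exact ⟨(h.br i 0 x hx y hy).1, (h.br i 0 x hx y hy).2 ▸ (ih (t + 1) (by omega) hx).2 _ trivial⟩
  exact fun x hx => (h.zero B x hx).1 (key B 0 rfl hx).2

variable [Finite X] {p : ℕ} [hp : Fact p.Prime] {A : Subgroup X} {𝓗 : Set (Subgroup X)} {𝓦 : Finset (Subgroup X)}
  {m : ℕ} (hs : SpSys p A N 𝓗 𝓦 m)
include hs

theorem split {J : Subgroup X} (hJ : A ≤ normalizer (J : Set X)) {D Z : AddSubgroup L} {i : ℕ}
    (hD : ∀ a ∈ A, ∀ x ∈ N.lowerCentralSeries i, ι i x ∈ D → ι i (a * x * a⁻¹) ∈ D)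
    (hZ : ∀ B ≤ A, Nat.card A ≤ p * Nat.card B → ∀ y ∈ J ⊓ centralizer (B : Set X), y ∈ N.lowerCentralSeries i →
      ι i y ∈ D → ι i y ∈ Z) {x : X} (hx : x ∈ J) (hi : x ∈ N.lowerCentralSeries i) (hx' : ι i x ∈ D) : ι i x ∈ Z := by
  have h1 : A ≤ normalizer (h.pre i D : Set X) := fun a ha => mem_normalizer_fintype fun y hy =>
    ⟨conj_mem_of_norm (le_normalizer_lcs hs.norm i ha) hy.1, hD a ha y hy.1 hy.2⟩
  exact (le_of_forall_big (K := J ⊓ h.pre i D) (M := h.pre i Z) hs.ea (le_normalizer_inf' hJ h1)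
    (fun e => hs.cop (e.trans (card_dvd_of_le fun y hy => lcs_le N i hy.2.1)))
    (fun B hB hc y hy => ⟨hy.1.2.1, hZ B hB hc y ⟨hy.1.1, hy.2⟩ hy.1.2.1 hy.1.2.2⟩) ⟨hx, hi, hx'⟩).2

theorem asc_cover {W : Subgroup X} (hW : W ∈ 𝓦) :
    asc ⊥ {v | ∃ j, ∃ y ∈ W, y ∈ N.lowerCentralSeries j ∧ ι j y = v} m = ⊤ :=
  top_le_iff.1 fun a _ => h.ind (· ∈ _) (zero_mem _) (fun i x hx => h.split hs (D := ⊤) hs.norm (fun _ _ _ _ _ => trivial)
    (fun B hB hc y hy hi _ => h.asc_of_iter W m _ (hs.nil W hW B hB hc) i y hy hi) (lcs_le N i hx) hx trivial)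
    (fun _ _ => add_mem) a

omit h hs [Finite X] hp in
/-- the span of the images of the members of the family that lie in `D` -/
def spn (N : Subgroup X) (ι : ℕ → X → L) (𝓗 : Set (Subgroup X)) (D : AddSubgroup L) : AddSubgroup L :=
  AddSubgroup.closure {v | v ∈ D ∧ ∃ H ∈ 𝓗, ∃ i, ∃ x ∈ H, x ∈ N.lowerCentralSeries i ∧ ι i x = v}

theorem lie_mem_spn {D D' : AddSubgroup L} (hDD : ∀ u ∈ D, ∀ w ∈ D, ⁅u, w⁆ ∈ D')
    (hD : ∀ i, ∀ a ∈ A, ∀ x ∈ N.lowerCentralSeries i, ι i x ∈ D' → ι i (a * x * a⁻¹) ∈ D') :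
    ∀ u ∈ spn N ι 𝓗 D, ∀ w ∈ spn N ι 𝓗 D, ⁅u, w⁆ ∈ spn N ι 𝓗 D' := by
  intro u hu w hw
  induction hu using AddSubgroup.closure_induction with
  | zero => rw [zero_lie]; exact zero_mem _
  | add a b _ _ ha hb => rw [add_lie]; exact add_mem ha hb
  | neg a _ ha => rw [neg_lie]; exact neg_mem ha
  | mem u hu =>
  induction hw using AddSubgroup.closure_induction with
  | zero => rw [lie_zero]; exact zero_mem _
  | add a b _ _ ha hb => rw [lie_add]; exact add_mem ha hb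
  | neg a _ ha => rw [lie_neg]; exact neg_mem ha
  | mem w hw =>
  obtain ⟨hu, H, hH, i, x, hx, hi, rfl⟩ := hu
  obtain ⟨hw, H', hH', j, y, hy, hj, rfl⟩ := hw
  have h1 := hDD _ hu _ hw
  rw [(h.br i j x hi y hj).2] at h1 ⊢
  refine h.split hs (le_normalizer_commutator' (hs.inv H hH) (hs.inv H' hH')) (hD _) (fun B hB hc z hz hz' hz'' => ?_)
    (commutator_mem_commutator hx hy) (h.br i j x hi y hj).1 h1
  obtain ⟨J, hJ, e⟩ := hs.clo H hH H' hH' B hB hc
  exact AddSubgroup.subset_closure ⟨hz'', J, hJ, _, z, e hz, hz', rfl⟩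

theorem spn_top : spn N ι 𝓗 ⊤ = ⊤ := by
  have key : ∀ i, N.lowerCentralSeries i ≤ h.pre i (spn N ι 𝓗 ⊤) := by
    have h0 : N ≤ h.pre 0 (spn N ι 𝓗 ⊤) := hs.gen.ge.trans (sSup_le fun H hH x hx =>
      have hx' : x ∈ N := hs.gen.le (le_sSup hH hx)
      ⟨hx', AddSubgroup.subset_closure ⟨trivial, H, hH, 0, x, hx, hx', rfl⟩⟩)
    intro i
    induction i with
    | zero => exact h0
    | succ i ih =>
      rw [Subgroup.lowerCentralSeries_succ, commutator_le]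
      intro x hx y hy
      exact ⟨(h.br i 0 x hx y hy).1, (h.br i 0 x hx y hy).2 ▸
        h.lie_mem_spn hs (D' := ⊤) (fun _ _ _ _ => trivial) (fun _ _ _ _ _ _ => trivial) _ (ih hx).2 _ (h0 hy).2⟩
  exact top_le_iff.1 fun a _ => h.ind (· ∈ _) (zero_mem _) (fun i x hx => (key i hx).2) (fun _ _ => add_mem) a

theorem asc_spn (D : ℕ → AddSubgroup L) (h1 : ∀ s, ∀ u ∈ D s, ∀ w ∈ D s, ⁅u, w⁆ ∈ D (s + 1)) (h2 : ∀ s, D (s + 1) ≤ D s)
    (h3 : ∀ s i, ∀ a ∈ A, ∀ x ∈ N.lowerCentralSeries i, ι i x ∈ D s → ι i (a * x * a⁻¹) ∈ D s) {r : ℕ} (h4 : D r = ⊥) :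
    asc ⊥ (spn N ι 𝓗 (D 0) : Set L) ((𝓦.card * m + 1) ^ r) = ⊤ := by
  classical
  have := asc_of_chain (Finset.univ : Finset 𝓦)
    (fun W => {v | ∃ j, ∃ y ∈ W.1, y ∈ N.lowerCentralSeries j ∧ ι j y = v}) (fun W => h.asc_cover hs W.2) r
    (fun s => spn N ι 𝓗 (D s)) (fun s => h.lie_mem_spn hs (h1 s) (h3 _))
    (fun s => AddSubgroup.closure_mono fun v hv => ⟨h2 s hv.1, hv.2⟩) (fun s => AddSubgroup.closure_mono fun v hv => ?_)
    (le_bot_iff.1 ((AddSubgroup.closure_le _).2 fun v hv => h4 ▸ hv.1))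
  · simpa using this
  obtain ⟨H, hH, i, x, hx, hi, e⟩ := hv.2
  obtain ⟨W, hW, e'⟩ := hs.cov H hH
  exact Set.mem_biUnion (Finset.mem_univ (⟨W, hW⟩ : 𝓦)) ⟨⟨i, x, e' hx, hi, e⟩, AddSubgroup.subset_closure hv⟩

end LieData

/-- the bound for the class -/
def spBound (p T m r : ℕ) : ℕ := (T * m + 1) ^ ksf ((T * m + 1) ^ r) p

theorem SpSys.lcs_le [Finite X] {p : ℕ} [hp : Fact p.Prime] {A N : Subgroup X} {𝓗 : Set (Subgroup X)}
    {𝓦 : Finset (Subgroup X)} {m : ℕ} (hs : SpSys p A N 𝓗 𝓦 m) {a : X} (ha : a ∈ A) {r : ℕ}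
    (hr : (fun U => ⁅U, U⁆)^[r] (N ⊓ centralizer {a}) = ⊥) :
    N.lowerCentralSeries (spBound p 𝓦.card m r) ≤ N.lowerCentralSeries (spBound p 𝓦.card m r + 1) := by
  obtain ⟨L, _, ι, h⟩ := exists_lieData N
  obtain ⟨φ, hφ, hφι⟩ := h.aut a (hs.norm ha)
  have hn : ∀ i, ∀ b ∈ A, ∀ x ∈ N.lowerCentralSeries i, b * x * b⁻¹ ∈ N.lowerCentralSeries i :=
    fun i b hb x hx => conj_mem_of_norm (le_normalizer_lcs hs.norm i hb) hx
  have hφi : ∀ (j i : ℕ), ∀ x ∈ N.lowerCentralSeries i, φ^[j] (ι i x) = ι i (a ^ j * x * (a ^ j)⁻¹) := by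
    intro j i x hx
    induction j with
    | zero => simp
    | succ j ih =>
      rw [Function.iterate_succ_apply', ih, hφι i _ (hn i _ (pow_mem ha j) x hx)]
      congr 1
      group
  have hφp : ∀ v, φ^[p] v = v := h.ind _ (iterate_map_zero φ p)
    (fun i x hx => by rw [hφi p i x hx, ea_pow hs.ea ha]; simp) (fun a b h1 h2 => by rw [iterate_map_add, h1, h2])
  let c : ℕ → Subgroup X := fun s => (fun U => ⁅U, U⁆)^[s] (N ⊓ centralizer {a})
  have hc : ∀ s, c (s + 1) = ⁅c s, c s⁆ := fun s => Function.iterate_succ_apply' _ _ _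
  have hcA : ∀ s, A ≤ normalizer (c s : Set X) := fun s => by
    induction s with
    | zero =>
      refine le_normalizer_inf' hs.norm ?_
      rw [← centralizer_zpowers_eq]
      exact le_normalizer_centralizer' (ea_le_normalizer_of_le hs.ea le_rfl (zpowers_le.2 ha))
    | succ s ih => rw [hc]; exact le_normalizer_commutator' ih ih
  let D : ℕ → AddSubgroup L := fun s =>
    AddSubgroup.closure {v | ∃ j, ∃ y ∈ c s, y ∈ N.lowerCentralSeries j ∧ ι j y = v}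
  have h1 := h.asc_spn hs D (fun s u hu w hw => ?_) (fun s => AddSubgroup.closure_mono ?_) (fun s i b hb x hx hx' => ?_)
    (r := r) (le_bot_iff.1 ((AddSubgroup.closure_le _).2 ?_))
  rotate_left
  · induction hu using AddSubgroup.closure_induction with
    | zero => rw [zero_lie]; exact zero_mem _
    | add a b _ _ ha hb => rw [add_lie]; exact add_mem ha hb
    | neg a _ ha => rw [neg_lie]; exact neg_mem ha
    | mem u hu =>
    induction hw using AddSubgroup.closure_induction with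
    | zero => rw [lie_zero]; exact zero_mem _
    | add a b _ _ ha hb => rw [lie_add]; exact add_mem ha hb
    | neg a _ ha => rw [lie_neg]; exact neg_mem ha
    | mem w hw =>
    obtain ⟨i, x, hx, hi, rfl⟩ := hu
    obtain ⟨j, y, hy, hj, rfl⟩ := hw
    rw [(h.br i j x hi y hj).2]
    exact AddSubgroup.subset_closure ⟨_, _, hc s ▸ commutator_mem_commutator hx hy, (h.br i j x hi y hj).1, rfl⟩
  · rintro _ ⟨j, y, hy, hj, rfl⟩
    exact ⟨j, y, commutator_le_self _ (hc s ▸ hy), hj, rfl⟩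
  · obtain ⟨ψ, -, hψ⟩ := h.aut b (hs.norm hb)
    rw [← hψ i x hx]
    refine (AddSubgroup.closure_le ((D s).comap ψ)).2 ?_ hx'
    rintro _ ⟨j, y, hy, hj, rfl⟩
    exact AddSubgroup.subset_closure ⟨j, _, conj_mem_of_norm (hcA s hb) hy, hn j b hb y hj, (hψ j y hj).symm⟩
  · rintro _ ⟨j, y, hy, hj, rfl⟩
    rw [show c r = ⊥ from hr, mem_bot] at hy
    rw [hy, h.one]
    exact zero_mem _
  obtain ⟨τ, hτ⟩ : ∃ τ : L →+ L, ∀ v, τ v = ∑ j ∈ Finset.range p, φ^[j] v :=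
    ⟨AddMonoidHom.mk' (fun v => ∑ j ∈ Finset.range p, φ^[j] v) fun a b => by
      simp only [iterate_map_add, Finset.sum_add_distrib], fun _ => rfl⟩
  have hτφ : ∀ k v, τ (φ^[k] v) = τ v := fun k v => by
    induction k with
    | zero => rfl
    | succ k ih =>
      rw [← ih, Function.iterate_succ_apply', hτ, hτ]
      have := Finset.sum_range_succ (fun j => φ^[j] (φ^[k] v)) p
      rw [Finset.sum_range_succ', hφp] at this
      exact add_right_cancel this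
  have h2 : dser L (ksf ((𝓦.card * m + 1) ^ r) p) = ⊥ := by
    refine dser_eq_bot_of_aut hp.out φ hφ hφp (hp.out.coprime_iff_not_dvd.2 hs.cop) h.card_nsmul (fun v => ?_) h1
    rw [← hτ]
    refine (AddSubgroup.closure_le ((LieData.spn N ι 𝓗 (D 0)).comap τ)).2 ?_ (h.spn_top hs ▸ AddSubgroup.mem_top v)
    rintro _ ⟨-, H, hH, i, x, hx, hi, rfl⟩
    have hJ : zpowers a ≤ normalizer ((H ⊓ N.lowerCentralSeries i : Subgroup X) : Set X) :=
      (zpowers_le.2 ha).trans (le_normalizer_inf' (hs.inv H hH) (le_normalizer_lcs hs.norm i))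
    have hcop : (Nat.card (zpowers a)).Coprime (Nat.card ↥(H ⊓ N.lowerCentralSeries i)) :=
      coprime_card_of_ea (ea_zpowers (ea_pow hs.ea ha)) fun e =>
        hs.cop (e.trans (card_dvd_of_le (inf_le_right.trans (CL.Fgs.Lie.lcs_le N i))))
    suffices hh : H ⊓ N.lowerCentralSeries i ≤ h.pre i ((LieData.spn N ι 𝓗 (D 0)).comap τ) from (hh ⟨hx, hi⟩).2
    rw [← commutator_sup_centralizer_eq hJ hcop (Or.inl inferInstance)]
    refine sup_le ?_ ?_
    · rw [commutator_le]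
      intro y hy b hb
      obtain ⟨k, rfl⟩ := (mem_powers_iff_mem_zpowers.2 hb)
      have e := hn i _ (pow_mem ha k) _ (inv_mem hy.2)
      simp only [commutatorElement_def, mul_assoc y]
      refine ⟨mul_mem hy.2 e, ?_⟩
      rw [AddSubgroup.mem_comap, h.mul i y hy.2 _ e, ← hφi k i _ (inv_mem hy.2), map_add, hτφ, h.inv hy.2, map_neg,
        add_neg_cancel]
      exact zero_mem _
    · rintro y ⟨hy, hy'⟩
      refine ⟨hy.2, ?_⟩
      rw [AddSubgroup.mem_comap, hτ]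
      refine sum_mem fun j _ => ?_
      rw [hφi j i y hy.2, hy' _ (pow_mem (mem_zpowers a) j), mul_inv_cancel_right]
      exact AddSubgroup.subset_closure ⟨AddSubgroup.subset_closure
        ⟨i, y, ⟨CL.Fgs.Lie.lcs_le N i hy.2, centralizer_zpowers_eq a ▸ hy'⟩, hy.2, rfl⟩, H, hH, i, y, hy.1, hy.2, rfl⟩
  have h3 := h.asc_spn hs (dser L) (fun s u hu w hw => lie_mem_dser hu hw) dser_succ_le (fun s i b hb x hx hx' => by
    obtain ⟨ψ, hψ, hψ'⟩ := h.aut b (hs.norm hb)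
    rw [← hψ' i x hx]
    exact map_mem_dser ψ hψ s _ hx') h2
  rw [show dser L 0 = ⊤ from rfl, h.spn_top hs] at h3
  exact h.lcs_le_of_asc h3

end CL.Fgs.Lie
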