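/-
Special subgroups for a coprime action of an elementary abelian group (Acciarri-Shumyatsky): nilpotency of bounded
class of terms of the derived and the lower central series.
-/
import Cfsg.Agent.Fgs.SpecLie
import Cfsg.Agent.Grp.Fitting
import Cfsg.Agent.Grp.Subnormal
import Cfsg.Agent.S3757

set_option autoImplicit false
set_option linter.style.haveILetI false
open Subgroup Cfsg CL.Grp
open CL.Loc (le_of_forall_big ea_le_normalizer_of_le ne_bot_of_pow_le)
open scoped commutatorElement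

namespace CL.Fgs.Lie

universe u

section Nilp

theorem isNilpotent_of_abelian {Γ : Type*} [Group Γ] [Finite Γ] {V : Subgroup Γ} [V.Normal] (hV : ⁅V, V⁆ = ⊥) {n : ℕ}
    (hn : (⊤ : Subgroup Γ).lowerCentralSeries n ≤ V) {𝓗 : Set (Subgroup Γ)} (gen : ⊤ ≤ sSup 𝓗) {m : ℕ}
    (h : ∀ H ∈ 𝓗, ∀ M : Subgroup Γ, (∀ U ≤ V, (fun U => ⁅U, H⁆)^[m] U = ⊥ → U ≤ M) → V ≤ M) : Group.IsNilpotent Γ := by
  have hc : ∀ x ∈ V, ∀ y ∈ V, x * y = y * x := fun x hx y hy =>
    (commutator_eq_bot_iff_le_centralizer.1 hV hx y hy).symm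
  have hm : ∀ x ∈ V, ∀ y, ⁅x, y⁆ ∈ V := fun x hx y => commutator_le_left V ⊤ (commutator_mem_commutator hx trivial)
  haveI : Group.IsNilpotent (Γ ⧸ V) := Subgroup.nilpotent_iff_lowerCentralSeries.2 ⟨n, by
    rw [← map_top_of_surjective _ (QuotientGroup.mk'_surjective V), ← map_lowerCentralSeries, Subgroup.map_eq_bot_iff,
      QuotientGroup.ker_mk']
    exact hn⟩
  refine Group.isNilpotent_top.1 (isNilpotent_of_le_fittingSubgroup (gen.trans (sSup_le fun H hH => ?_)))
  refine le_sup_left.trans (le_fittingSubgroup_of_isSubnormal (H := H ⊔ V) ?_ ?_)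
  · have := (isSubnormal_of_isNilpotent (H.map (QuotientGroup.mk' V))).comap (QuotientGroup.mk' V)
    rwa [comap_map_eq, QuotientGroup.ker_mk'] at this
  let Z : ℕ → Subgroup Γ := fun t => Nat.rec ⊥ (fun _ Y =>
    { carrier := {x | x ∈ V ∧ ∀ y ∈ H, ⁅x, y⁆ ∈ Y}
      one_mem' := ⟨one_mem _, fun y _ => by simp⟩
      mul_mem' := fun {a b} ha hb => ⟨mul_mem ha.1 hb.1, fun y hy => by
        rw [commutatorElement_mul_left_eq_conj_mul, hc a ha.1 _ (hm b hb.1 y), mul_inv_cancel_right]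
        exact mul_mem (hb.2 y hy) (ha.2 y hy)⟩
      inv_mem' := fun {a} ha => ⟨inv_mem ha.1, fun y hy => by
        have : ⁅a⁻¹, y⁆ = a⁻¹ * ⁅a, y⁆⁻¹ * a := by simp only [commutatorElement_def]; group
        rw [this, hc _ (inv_mem ha.1) _ (inv_mem (hm a ha.1 y)), inv_mul_cancel_right]
        exact inv_mem (ha.2 y hy)⟩ }) t
  have h1 : ∀ t, ∀ U ≤ V, (fun U => ⁅U, H⁆)^[t] U = ⊥ → U ≤ Z t := fun t => by
    induction t with
    | zero => exact fun U _ e => e.le
    | succ t ih =>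
      exact fun U hU e x hx => ⟨hU hx, fun y hy => ih _ ((commutator_mono hU le_rfl).trans (commutator_le_left V H)) e
        (commutator_mem_commutator hx hy)⟩
  have h2 : ∀ t s, t + s = m → (H ⊔ V).lowerCentralSeries (n + t) ≤ Z s := fun t => by
    induction t with
    | zero =>
      rintro s rfl
      rw [zero_add] at h
      exact ((lowerCentralSeries_mono n le_top).trans hn).trans (h H hH _ (h1 s))
    | succ t ih =>
      intro s e
      rw [← add_assoc, Subgroup.lowerCentralSeries_succ, commutator_le]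
      intro x hx y hy
      obtain ⟨a, ha, v, hv, rfl⟩ := mem_sup_of_normal_right.1 hy
      have := ih (s + 1) (by omega) hx
      rw [commutatorElement_mul_right_eq_mul_conj, commutatorElement_eq_one_iff_mul_comm.2 (hc x this.1 v hv), mul_one,
        mul_inv_cancel_right]
      exact this.2 a ha
  exact (isNilpotent_iff_lowerCentralSeries _).2 ⟨n + m, le_bot_iff.1 (h2 m 0 rfl)⟩

variable {X : Type u} [Group X]

theorem iter_comm_mono {U U' H H' : Subgroup X} (h : U ≤ U') (h' : H ≤ H') (t : ℕ) :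
    (fun U => ⁅U, H⁆)^[t] U ≤ (fun U => ⁅U, H'⁆)^[t] U' := by
  induction t with
  | zero => exact h
  | succ t ih => simp only [Function.iterate_succ_apply']; exact commutator_mono ih h'

theorem map_iter_comm {Y : Type*} [Group Y] (f : X →* Y) (U H : Subgroup X) (t : ℕ) :
    ((fun U => ⁅U, H⁆)^[t] U).map f = (fun U => ⁅U, H.map f⁆)^[t] (U.map f) := by
  induction t with
  | zero => rfl
  | succ t ih => simp only [Function.iterate_succ_apply', map_commutator, ih]

theorem SpSys.isNilpotent [Finite X] {p : ℕ} [hp : Fact p.Prime] {A N : Subgroup X} {𝓗 : Set (Subgroup X)}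
    {𝓦 : Finset (Subgroup X)} {m : ℕ} (hs : SpSys p A N 𝓗 𝓦 m) (hN : Group.IsSolvable N) : Group.IsNilpotent N := by
  obtain ⟨n, hn⟩ : ∃ n, ∀ k, n ≤ k → (⊤ : Subgroup N).lowerCentralSeries n = (⊤ : Subgroup N).lowerCentralSeries k :=
    WellFoundedLT.antitone_chain_condition (Subgroup.lowerCentralSeries_antitone _)
  set R := (⊤ : Subgroup N).lowerCentralSeries n with hR
  have hRN : R.map N.subtype = N.lowerCentralSeries n := top_subtype_lowerCentralSeries N n
  let f := QuotientGroup.mk' ⁅R, R⁆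
  have hf : Function.Surjective f := QuotientGroup.mk'_surjective _
  haveI : (R.map f).Normal := Normal.map inferInstance f hf
  have hle : ∀ H ∈ 𝓗, H ≤ N := fun H hH => hs.gen ▸ le_sSup hH
  have h1 : Group.IsNilpotent (N ⧸ ⁅R, R⁆) := by
    refine isNilpotent_of_abelian (V := R.map f) (n := n) (𝓗 := (fun H => (H.subgroupOf N).map f) '' 𝓗) (m := m)
      (by rw [← map_commutator, Subgroup.map_eq_bot_iff, QuotientGroup.ker_mk'])
      (by rw [← map_top_of_surjective _ hf, ← map_lowerCentralSeries]) ?_ ?_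
    · rw [← map_top_of_surjective _ hf, map_le_iff_le_comap, ← map_subtype_le_map_subtype, ← MonoidHom.range_eq_map,
        range_subtype]
      refine hs.gen.ge.trans (sSup_le fun H hH => ?_)
      rw [← inf_eq_left.2 (hle H hH), ← subgroupOf_map_subtype]
      exact map_mono (map_le_iff_le_comap.1 (le_sSup ⟨H, hH, rfl⟩))
    · rintro _ ⟨H, hH, rfl⟩ M hM
      obtain ⟨W, hW, e⟩ := hs.cov H hH
      rw [map_le_iff_le_comap, ← map_subtype_le_map_subtype, hRN]
      refine le_of_forall_big hs.ea (le_normalizer_lcs hs.norm n) (fun e => hs.cop (e.trans (card_dvd_of_le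
        (CL.Fgs.Lie.lcs_le N n)))) fun B hB hc => ?_
      rw [← inf_eq_left.2 (inf_le_left.trans (CL.Fgs.Lie.lcs_le N n)), ← subgroupOf_map_subtype]
      refine map_mono (map_le_iff_le_comap.1 (hM _ (map_mono ?_) ?_))
      · rw [← map_subtype_le_map_subtype, hRN, subgroupOf_map_subtype]
        exact inf_le_left.trans inf_le_left
      · rw [← map_iter_comm, Subgroup.map_eq_bot_iff]
        refine le_trans (((map_eq_bot_iff_of_injective _ N.subtype_injective).1 (le_bot_iff.1 ?_)).le) bot_le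
        rw [map_iter_comm, ← hs.nil W hW B hB hc, subgroupOf_map_subtype, subgroupOf_map_subtype]
        exact iter_comm_mono (le_inf inf_le_right (inf_le_left.trans inf_le_right)) (inf_le_left.trans e) m
  obtain ⟨k, hk⟩ := Subgroup.nilpotent_iff_lowerCentralSeries.1 h1
  rw [← map_top_of_surjective _ hf, ← map_lowerCentralSeries, Subgroup.map_eq_bot_iff, QuotientGroup.ker_mk'] at hk
  refine Subgroup.nilpotent_iff_lowerCentralSeries.2 ⟨n, by_contra fun h0 => ?_⟩
  refine (Group.IsSolvable.commutator_lt_of_ne_bot h0).not_ge ?_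
  exact ((hn (max n k) (le_max_left _ _)).le.trans (Subgroup.lowerCentralSeries_antitone _ (le_max_right _ _))).trans hk

theorem lcs_eq_bot_of_le {N : Subgroup X} (hN : Group.IsNilpotent N) {B : ℕ}
    (h : N.lowerCentralSeries B ≤ N.lowerCentralSeries (B + 1)) : N.lowerCentralSeries B = ⊥ := by
  have key : ∀ t, N.lowerCentralSeries B ≤ N.lowerCentralSeries (B + t) := fun t => by
    induction t with
    | zero => exact le_rfl
    | succ t ih => exact h.trans (commutator_mono ih le_rfl)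
  obtain ⟨n, hn⟩ := (isNilpotent_iff_lowerCentralSeries _).1 hN
  exact le_bot_iff.1 ((key n).trans (hn ▸ N.lowerCentralSeries_antitone (Nat.le_add_left n B)))

end Nilp

section Special

variable {X : Type u} [Group X] (p : ℕ) (A K : Subgroup X)

/-- the centralisers of the big subgroups -/
def sp0 : Set (Subgroup X) := {H | ∃ B ≤ A, Nat.card A ≤ p * Nat.card B ∧ H = K ⊓ centralizer (B : Set X)}

/-- the family of commutators of two families -/
def spStep (𝓤 𝓥 : Set (Subgroup X)) : Set (Subgroup X) :=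
  {H | ∃ J ∈ 𝓤, ∃ J' ∈ 𝓥, ∃ B ≤ A, Nat.card A ≤ p * Nat.card B ∧ H = ⁅J, J'⁆ ⊓ centralizer (B : Set X)}

/-- refinement of families -/
def Refi (𝓤 𝓥 : Set (Subgroup X)) : Prop := ∀ H ∈ 𝓤, ∃ J ∈ 𝓥, H ≤ J

/-- a family of special subgroups for the verbal subgroup `val` of weight `n` -/
structure Fam (n : ℕ) (val : Subgroup X → Subgroup X) (𝓤 : Set (Subgroup X)) : Prop where
  mono : Monotone val
  le : ∀ Y, ⁅Y, val Y⁆ ≤ val Y ∧ val Y ≤ Y
  inv : ∀ H ∈ 𝓤, A ≤ normalizer (H : Set X)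
  gen : sSup 𝓤 = val K
  cov : ∀ H ∈ 𝓤, ∃ B ≤ A, Nat.card A ≤ p ^ n * Nat.card B ∧ H ≤ val (K ⊓ centralizer (B : Set X))

variable {p A K}

theorem Refi.trans {𝓤 𝓥 𝓦 : Set (Subgroup X)} (h : Refi 𝓤 𝓥) (h' : Refi 𝓥 𝓦) : Refi 𝓤 𝓦 := fun H hH =>
  let ⟨J, hJ, e⟩ := h H hH
  let ⟨J', hJ', e'⟩ := h' J hJ
  ⟨J', hJ', e.trans e'⟩

theorem Refi.refl (𝓤 : Set (Subgroup X)) : Refi 𝓤 𝓤 := fun H hH => ⟨H, hH, le_rfl⟩

theorem Refi.step {𝓤 𝓥 𝓤' 𝓥' : Set (Subgroup X)} (h : Refi 𝓤 𝓤') (h' : Refi 𝓥 𝓥') :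
    Refi (spStep p A 𝓤 𝓥) (spStep p A 𝓤' 𝓥') := by
  rintro _ ⟨J, hJ, J', hJ', B, hB, hc, rfl⟩
  obtain ⟨I, hI, e⟩ := h J hJ
  obtain ⟨I', hI', e'⟩ := h' J' hJ'
  exact ⟨_, ⟨I, hI, I', hI', B, hB, hc, rfl⟩, inf_le_inf_right _ (commutator_mono e e')⟩

theorem refi_step_zero : Refi (spStep p A (sp0 p A K) (sp0 p A K)) (sp0 p A K) := by
  rintro _ ⟨_, ⟨B₁, -, -, rfl⟩, _, ⟨B₂, -, -, rfl⟩, B, hB, hc, rfl⟩
  exact ⟨_, ⟨B, hB, hc, rfl⟩, inf_le_inf_right _ ((commutator_mono inf_le_left inf_le_left).trans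
    (commutator_le_self K))⟩

theorem commutator_sSup_le {𝓤 𝓥 : Set (Subgroup X)} {W : Subgroup X} (hU : sSup 𝓤 ≤ normalizer (W : Set X))
    (hV : sSup 𝓥 ≤ normalizer (W : Set X)) (h : ∀ J ∈ 𝓤, ∀ J' ∈ 𝓥, ⁅J, J'⁆ ≤ W) : ⁅sSup 𝓤, sSup 𝓥⁆ ≤ W := by
  have key : ∀ {𝓢 : Set (Subgroup X)} {T : Subgroup X}, sSup 𝓢 ≤ normalizer (W : Set X) → (∀ J ∈ 𝓢, ⁅J, T⁆ ≤ W) →
      ⁅sSup 𝓢, T⁆ ≤ W := fun {𝓢 T} h1 h2 => by
    let M : Subgroup X :=
      { carrier := {x | x ∈ normalizer (W : Set X) ∧ ∀ y ∈ T, ⁅x, y⁆ ∈ W}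
        one_mem' := ⟨one_mem _, fun y _ => by simp⟩
        mul_mem' := fun {a b} ha hb => ⟨mul_mem ha.1 hb.1, fun y hy => by
          rw [commutatorElement_mul_left_eq_conj_mul]
          exact mul_mem (conj_mem_of_norm ha.1 (hb.2 y hy)) (ha.2 y hy)⟩
        inv_mem' := fun {a} ha => ⟨inv_mem ha.1, fun y hy => by
          have : ⁅a⁻¹, y⁆ = a⁻¹ * ⁅a, y⁆⁻¹ * a⁻¹⁻¹ := by simp only [commutatorElement_def]; group
          rw [this]
          exact conj_mem_of_norm (inv_mem ha.1) (inv_mem (ha.2 y hy))⟩ }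
    have : sSup 𝓢 ≤ M := sSup_le fun J hJ x hx =>
      ⟨h1 (le_sSup hJ hx), fun y hy => h2 J hJ (commutator_mem_commutator hx hy)⟩
    exact commutator_le.2 fun x hx y hy => (this hx).2 y hy
  refine key hU fun J hJ => ?_
  rw [commutator_comm]
  exact key hV fun J' hJ' => commutator_comm J J' ▸ h J hJ J' hJ'

variable [Finite X] [hp : Fact p.Prime]

omit hp in
theorem card_le_inf {B B' : Subgroup X} (hB : B ≤ A) (hB' : B' ≤ A) {x y : ℕ} (h : Nat.card A ≤ x * Nat.card B)
    (h' : Nat.card A ≤ y * Nat.card B') : Nat.card A ≤ x * y * Nat.card ↥(B ⊓ B') := by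
  have key : ∀ {B : Subgroup X} {x : ℕ}, B ≤ A → Nat.card A ≤ x * Nat.card B → B.relIndex A ≤ x := fun hB h =>
    Nat.le_of_mul_le_mul_left (by rwa [card_mul_relIndex hB, mul_comm]) Nat.card_pos
  rw [← card_mul_relIndex (inf_le_left.trans hB : B ⊓ B' ≤ A), mul_comm]
  exact Nat.mul_le_mul_right _ (relIndex_inf_le.trans (Nat.mul_le_mul (key hB h) (key hB' h')))

variable (hA : IsElementaryAbelian p A) (hAK : A ≤ normalizer (K : Set X)) (hK : ¬ p ∣ Nat.card K)
include hA hAK hK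

theorem fam_zero : Fam p A K 1 id (sp0 p A K) where
  mono := monotone_id
  le := fun Y => ⟨commutator_le_self Y, le_rfl⟩
  inv := by
    rintro _ ⟨B, hB, -, rfl⟩
    exact le_normalizer_inf' hAK (le_normalizer_centralizer' (ea_le_normalizer_of_le hA le_rfl hB))
  gen := le_antisymm (sSup_le (by rintro _ ⟨B, -, -, rfl⟩; exact inf_le_left))
    (le_of_forall_big hA hAK hK fun B hB hc => le_sSup ⟨B, hB, hc, rfl⟩)
  cov := by
    rintro _ ⟨B, hB, hc, rfl⟩
    exact ⟨B, hB, by rwa [pow_one], le_rfl⟩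

omit hAK in
theorem Fam.step {n n' : ℕ} {val val' : Subgroup X → Subgroup X} {𝓤 𝓥 : Set (Subgroup X)} (h : Fam p A K n val 𝓤)
    (h' : Fam p A K n' val' 𝓥) (hle : val K ≤ val' K) (hr : Refi (spStep p A 𝓤 𝓥) 𝓤) :
    Fam p A K (n + n') (fun Y => ⁅val Y, val' Y⁆) (spStep p A 𝓤 𝓥) where
  mono := fun _ _ e => commutator_mono (h.mono e) (h'.mono e)
  le := fun Y => by
    refine ⟨?_, (commutator_mono (h.le Y).2 (h'.le Y).2).trans (commutator_le_self Y)⟩
    rw [← le_normalizer_iff_commutator_le_right]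
    exact le_normalizer_commutator' (le_normalizer_iff_commutator_le_right.2 (h.le Y).1)
      (le_normalizer_iff_commutator_le_right.2 (h'.le Y).1)
  inv := by
    rintro _ ⟨J, hJ, J', hJ', B, hB, -, rfl⟩
    exact le_normalizer_inf' (le_normalizer_commutator' (h.inv J hJ) (h'.inv J' hJ'))
      (le_normalizer_centralizer' (ea_le_normalizer_of_le hA le_rfl hB))
  gen := by
    have h1 : ∀ J ∈ 𝓤, ∀ J' ∈ 𝓥, ⁅J, J'⁆ ≤ sSup (spStep p A 𝓤 𝓥) := fun J hJ J' hJ' =>
      le_of_forall_big hA (le_normalizer_commutator' (h.inv J hJ) (h'.inv J' hJ'))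
        (fun e => hK (e.trans (card_dvd_of_le ((commutator_mono (((le_sSup hJ).trans h.gen.le).trans (h.le K).2)
          (((le_sSup hJ').trans h'.gen.le).trans (h'.le K).2)).trans (commutator_le_self K)))))
        fun B hB hc => le_sSup ⟨J, hJ, J', hJ', B, hB, hc, rfl⟩
    have h2 : sSup 𝓥 ≤ normalizer ((sSup (spStep p A 𝓤 𝓥) : Subgroup X) : Set X) := sSup_le fun J' hJ' y hy => by
      refine mem_normalizer_fintype fun x hx => ?_
      refine (sSup_le (a := (sSup (spStep p A 𝓤 𝓥)).comap (MulAut.conj y).toMonoidHom) fun H hH z hz => ?_) hx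
      obtain ⟨J, hJ, e⟩ := hr H hH
      have : y * z * y⁻¹ = ⁅z, y⁆⁻¹ * z := by simp only [commutatorElement_def]; group
      change y * z * y⁻¹ ∈ sSup (spStep p A 𝓤 𝓥)
      rw [this]
      exact mul_mem (inv_mem (h1 J hJ J' hJ' (commutator_mem_commutator (e hz) hy))) (le_sSup hH hz)
    refine le_antisymm (sSup_le ?_) ?_
    · rintro _ ⟨J, hJ, J', hJ', B, -, -, rfl⟩
      exact inf_le_left.trans (commutator_mono ((le_sSup hJ).trans h.gen.le) ((le_sSup hJ').trans h'.gen.le))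
    · rw [← h.gen, ← h'.gen]
      exact commutator_sSup_le ((h.gen.le.trans (hle.trans h'.gen.ge)).trans h2) h2 h1
  cov := by
    rintro _ ⟨J, hJ, J', hJ', B, -, -, rfl⟩
    obtain ⟨B₁, h1, h2, h3⟩ := h.cov J hJ
    obtain ⟨B₂, h4, h5, h6⟩ := h'.cov J' hJ'
    exact ⟨B₁ ⊓ B₂, inf_le_left.trans h1, pow_add p n n' ▸ card_le_inf h1 h4 h2 h5, inf_le_left.trans (commutator_mono
      (h3.trans (h.mono (inf_le_inf_left _ (centralizer_le inf_le_left))))
      (h6.trans (h'.mono (inf_le_inf_left _ (centralizer_le inf_le_right)))))⟩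

theorem exists_fam_derived (d : ℕ) : ∃ 𝓤, Fam p A K (2 ^ d) (fun Y => (fun U => ⁅U, U⁆)^[d] Y) 𝓤 ∧
    Refi (spStep p A 𝓤 𝓤) 𝓤 := by
  induction d with
  | zero => exact ⟨_, fam_zero hA hAK hK, refi_step_zero⟩
  | succ d ih =>
    obtain ⟨𝓤, h, hr⟩ := ih
    refine ⟨_, ?_, hr.step hr⟩
    simpa only [Function.iterate_succ_apply', pow_succ, mul_two] using h.step hA hK h le_rfl hr

theorem exists_fam_lcs (i : ℕ) : ∃ 𝓤, Fam p A K (i + 1) (fun Y => Y.lowerCentralSeries i) 𝓤 ∧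
    Refi (spStep p A 𝓤 𝓤) 𝓤 := by
  suffices h : ∃ 𝓤, Fam p A K (i + 1) (fun Y => Y.lowerCentralSeries i) 𝓤 ∧ Refi (spStep p A 𝓤 (sp0 p A K)) 𝓤 ∧
      Refi 𝓤 (sp0 p A K) from
    let ⟨𝓤, h, h1, h2⟩ := h; ⟨𝓤, h, ((Refi.refl _).step h2).trans h1⟩
  induction i with
  | zero => exact ⟨_, fam_zero hA hAK hK, refi_step_zero, Refi.refl _⟩
  | succ i ih =>
    obtain ⟨𝓤, h, h1, h2⟩ := ih
    exact ⟨_, h.step hA hK (fam_zero hA hAK hK) (h.le K).2 h1, h1.step (Refi.refl _), h1.trans h2⟩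

theorem Fam.lcs_eq_bot {n k c r : ℕ} {val : Subgroup X → Subgroup X} {𝓤 : Set (Subgroup X)} (h : Fam p A K n val 𝓤)
    (hr : Refi (spStep p A 𝓤 𝓤) 𝓤) (hk : Nat.card A = p ^ k) (hn : n + 2 ≤ k) (h3 : 3 ≤ k)
    (hc : ∀ a ∈ A, a ≠ 1 → (val (K ⊓ centralizer {a})).lowerCentralSeries c = ⊥ ∧
      (fun U => ⁅U, U⁆)^[r] (K ⊓ centralizer {a}) = ⊥) :
    ∃ T ≤ 2 ^ p ^ k, (val K).lowerCentralSeries (spBound p T (c + 1) r) = ⊥ := by
  classical
  let 𝓑 : Finset (Subgroup X) := (Set.toFinite {B | B ≤ A ∧ Nat.card A ≤ p ^ n * Nat.card B}).toFinset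
  have hs : SpSys p A (val K) 𝓤 (𝓑.image fun B : Subgroup X => val (K ⊓ centralizer (B : Set X))) (c + 1) :=
    { ea := hA
      cop := fun e => hK (e.trans (card_dvd_of_le (h.le K).2))
      norm := h.gen ▸ fun a ha => mem_normalizer_fintype fun x hx =>
        (sSup_le (a := (sSup 𝓤).comap (MulAut.conj a).toMonoidHom) fun H hH z hz =>
          le_sSup hH (conj_mem_of_norm (h.inv H hH ha) hz)) hx
      gen := h.gen
      inv := h.inv
      clo := fun H hH H' hH' B hB hc => hr _ ⟨H, hH, H', hH', B, hB, hc, rfl⟩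
      cov := fun H hH => let ⟨B, h1, h2, h3⟩ := h.cov H hH
        ⟨_, Finset.mem_image_of_mem _ ((Set.Finite.mem_toFinset _).2 ⟨h1, h2⟩), h3⟩
      nil := fun W hW B hB hB' => by
        obtain ⟨B₀, h0, rfl⟩ := Finset.mem_image.1 hW
        obtain ⟨h1, h2⟩ := (Set.Finite.mem_toFinset _).1 h0
        have h4 := card_le_inf h1 hB h2 hB'
        obtain ⟨a, ha, a1⟩ := (B₀ ⊓ B).bot_or_exists_ne_one.resolve_left fun e => by
          rw [e, card_bot, mul_one, hk, ← pow_succ, Nat.pow_le_pow_iff_right hp.out.one_lt] at h4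
          omega
        have h5 : ∀ {B : Subgroup X}, a ∈ B → K ⊓ centralizer (B : Set X) ≤ K ⊓ centralizer {a} := fun hB =>
          inf_le_inf_left _ (centralizer_le (Set.singleton_subset_iff.2 hB))
        refine le_bot_iff.1 ((iter_comm_mono ((inf_le_inf_right _ (h.le K).2).trans (h5 ha.2)) (h.mono (h5 ha.1))
          _).trans ?_)
        rw [Function.iterate_succ_apply, ← (hc a (h1 ha.1) a1).1]
        refine (iter_comm_mono (h.le _).1 le_rfl c).trans (le_of_eq ?_)
        clear hc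
        induction c with
        | zero => rfl
        | succ c ih => rw [Function.iterate_succ_apply', ih, Subgroup.lowerCentralSeries_succ] }
  have hder : ∀ (t : ℕ) (Y : Subgroup X), (derivedSeries Y t).map Y.subtype = (fun U => ⁅U, U⁆)^[t] Y := fun t Y => by
    induction t with
    | zero => rw [derivedSeries_zero, ← MonoidHom.range_eq_map, range_subtype]; rfl
    | succ t ih => rw [derivedSeries_succ, map_commutator, ih, Function.iterate_succ_apply']
  have hsol : Group.IsSolvable K := Cfsg.Agent.S3757.result A K hA (hk ▸ Nat.pow_le_pow_right hp.out.pos h3) hAK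
    (hp.out.coprime_iff_not_dvd.2 hK).symm fun a ha a1 => ⟨r, (map_eq_bot_iff_of_injective _ (subtype_injective _)).1
      ((hder r _).trans (hc a ha a1).2)⟩
  obtain ⟨a, ha, a1⟩ := A.bot_or_exists_ne_one.resolve_left (ne_bot_of_pow_le (p := p) (k := k) (by omega) hk.ge)
  refine ⟨_, ?_, lcs_eq_bot_of_le (hs.isNilpotent (Group.isSolvable_of_isSolvable_injective
    (inclusion_injective (h.le K).2))) (hs.lcs_le ha (r := r) (le_bot_iff.1 ?_))⟩
  · refine Finset.card_image_le.trans ?_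
    letI := Fintype.ofFinite A
    rw [← hk, Nat.card_eq_fintype_card, ← Fintype.card_set, ← Finset.card_univ]
    refine Finset.card_le_card_of_injOn (fun B => (B.subgroupOf A : Set A)) (fun _ _ => Finset.mem_univ _)
      fun B hB B' hB' e => ?_
    have h1 := ((Set.Finite.mem_toFinset _).1 hB).1
    have h2 := ((Set.Finite.mem_toFinset _).1 hB').1
    have := subgroupOf_inj.1 (SetLike.coe_injective e)
    rwa [inf_eq_left.2 h1, inf_eq_left.2 h2] at this
  · rw [← (hc a ha a1).2]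
    exact Monotone.iterate (fun _ _ e => commutator_mono e e) r (inf_le_inf_right _ (h.le K).2)

end Special

theorem iter_der_add_eq_bot {Y : Type*} [Group Y] {S V : Subgroup Y} {d c : ℕ} (h : (fun U => ⁅U, U⁆)^[d] S ≤ V)
    (hc : V.lowerCentralSeries c = ⊥) : (fun U => ⁅U, U⁆)^[c + d] S = ⊥ := by
  have key : ∀ t, (fun U => ⁅U, U⁆)^[t + d] S ≤ V.lowerCentralSeries t := fun t => by
    induction t with
    | zero => rwa [zero_add]
    | succ t ih =>
      rw [add_right_comm, Function.iterate_succ_apply']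
      exact commutator_mono ih (ih.trans (lcs_le V t))
  exact le_bot_iff.1 (hc ▸ key c)

theorem derivedSeries_eq_iter (Y : Type*) [Group Y] (d : ℕ) : derivedSeries Y d = (fun U => ⁅U, U⁆)^[d] ⊤ := by
  induction d with
  | zero => rfl
  | succ d ih => rw [derivedSeries_succ, ih, Function.iterate_succ_apply']

theorem exists_bound {p k n d : ℕ} (c : ℕ) (hp : p.Prime) (h3 : 3 ≤ k) (hn : n + 2 ≤ k)
    (val : ∀ (Y : Type) [Group Y], Subgroup Y → Subgroup Y)
    (hmap : ∀ (Y Y' : Type) [Group Y] [Group Y'] (f : Y →* Y') (S : Subgroup Y), (val Y S).map f = val Y' (S.map f))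
    (hd : ∀ (Y : Type) [Group Y] (S : Subgroup Y), (fun U => ⁅U, U⁆)^[d] S ≤ val Y S)
    (hfam : ∀ (X : Type) [Group X] [Finite X] (A K : Subgroup X), IsElementaryAbelian p A →
      A ≤ normalizer (K : Set X) → ¬ p ∣ Nat.card K → ∃ 𝓤, Fam p A K n (val X) 𝓤 ∧ Refi (spStep p A 𝓤 𝓤) 𝓤) :
    ∃ B : ℕ, ∀ (G : Type) [Group G] [Finite G], (Nat.card G).Coprime p →
      ∀ A : Subgroup (MulAut G), IsElementaryAbelian p A → Nat.card A = p ^ k →
        (∀ a ∈ A, a ≠ 1 → (val ((a : MulAut G).toMonoidHom.eqLocus (MonoidHom.id G)) ⊤).lowerCentralSeries c = ⊥) →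
        (val G ⊤).lowerCentralSeries B = ⊥ := by
  haveI := Fact.mk hp
  refine ⟨(Finset.range (2 ^ p ^ k + 1)).sup fun T => spBound p T (c + 1) (c + d), fun G _ _ hG A hA hk h => ?_⟩
  let X := G ⋊[A.subtype] A
  haveI : Finite X := Finite.of_equiv _ SemidirectProduct.equivProd.symm
  let i : G →* X := SemidirectProduct.inl
  let j : A →* X := SemidirectProduct.inr
  have hi : Function.Injective i := SemidirectProduct.inl_injective
  have hj : Function.Injective j := SemidirectProduct.inr_injective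
  have hA' : IsElementaryAbelian p j.range := by
    rw [MonoidHom.range_eq_map]
    refine CL.Loc.ea_map ?_ j
    rw [← subgroupOf_self]
    exact CL.Loc.ea_subgroupOf hA A
  have hn' : j.range ≤ normalizer (i.range : Set X) := by
    rw [show i.range = SemidirectProduct.rightHom.ker from SemidirectProduct.range_inl_eq_ker_rightHom, normalizer_eq_top]
    exact le_top
  have hK : ¬ p ∣ Nat.card i.range := by
    rw [← Nat.card_congr (MonoidHom.ofInjective hi).toEquiv]
    exact hp.coprime_iff_not_dvd.1 hG.symm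
  obtain ⟨𝓤, h1, h2⟩ := hfam X j.range i.range hA' hn' hK
  obtain ⟨T, hT, e⟩ := h1.lcs_eq_bot hA' hn' hK h2 (k := k) (c := c) (r := c + d)
    (by rw [← Nat.card_congr (MonoidHom.ofInjective hj).toEquiv, hk]) hn h3 (by
      rintro _ ⟨a, rfl⟩ a1
      have e1 : i.range ⊓ centralizer {j a} = (⊤ : Subgroup ((a : MulAut G).toMonoidHom.eqLocus (MonoidHom.id G))).map
          (i.comp (Subgroup.subtype _)) := by
        have key : ∀ g : G, i g ∈ centralizer {j a} ↔ (a : MulAut G) g = g := fun g => by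
          rw [mem_centralizer_singleton_iff, eq_comm, ← mul_inv_eq_iff_eq_mul, ← map_inv]
          exact (SemidirectProduct.inl_aut (φ := A.subtype) a g).symm ▸ hi.eq_iff
        ext x
        constructor
        · rintro ⟨⟨g, rfl⟩, hg⟩
          exact ⟨⟨g, (key g).1 hg⟩, trivial, rfl⟩
        · rintro ⟨g, -, rfl⟩
          exact ⟨⟨g, rfl⟩, (key g).2 g.2⟩
      have e2 : (val X (i.range ⊓ centralizer {j a})).lowerCentralSeries c = ⊥ := by
        rw [e1, ← hmap, ← map_lowerCentralSeries, h a a.2 fun e => a1 (by rw [show a = 1 from Subtype.ext e, map_one]),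
          Subgroup.map_bot]
      exact ⟨e2, iter_der_add_eq_bot (hd X _) e2⟩)
  rw [MonoidHom.range_eq_map, ← hmap, ← map_lowerCentralSeries, map_eq_bot_iff_of_injective _ hi] at e
  exact le_bot_iff.1 (e ▸ Subgroup.lowerCentralSeries_antitone _
    (Finset.le_sup (f := fun T => spBound p T (c + 1) (c + d)) (Finset.mem_range.2 (Nat.lt_succ_of_le hT))))

end CL.Fgs.Lie
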