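/-
The three-closure of a solvable permutation group: definitions and the statements of the steps.
-/
import Cfsg.Agent.Fgs.HKX16
import Cfsg.Agent.Fgs.HKDim

set_option autoImplicit false
set_option linter.style.haveILetI false

open Subgroup CL.Odd CL.Grp CL.SL.Vc
open scoped commutatorElement

namespace CL.SL.Tc

universe u

section Defs

variable (G Z Ω : Type*) [Group G] [Group Z] [MulAction G Ω] [MulAction Z Ω]

/-- every element of `Z` agrees with an element of `G` on each triple -/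
def E3 : Prop := ∀ (z : Z) (a b c : Ω), ∃ g : G, g • a = z • a ∧ g • b = z • b ∧ g • c = z • c

/-- every element of `Z` agrees with an element of `G` on each pair -/
def E2 : Prop := ∀ (z : Z) (a b : Ω), ∃ g : G, g • a = z • a ∧ g • b = z • b

/-- `Z` acts trivially -/
def Tr : Prop := ∀ (z : Z) (a : Ω), z • a = a

/-- there is no proper invariant equivalence relation -/
def Prim : Prop := ∀ r : Setoid Ω, (∀ (g : G) (a b : Ω), r a b → r (g • a) (g • b)) → r = ⊥ ∨ r = ⊤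

end Defs

/-- `h` maps every triangle to a `G`-equivalent triangle -/
def T3 (G : Type*) {V : Type*} [Group G] [AddCommGroup V] [DistribMulAction G V] (h : V → V) : Prop :=
  ∀ a b c : V, ∃ g : G, h b - h a = g • (b - a) ∧ h c - h a = g • (c - a)

/-- `G` contains every solvable subgroup that it normalises -/
def MaxS {H : Type*} [Group H] (G : Subgroup H) : Prop :=
  ∀ S : Subgroup H, Group.IsSolvable S → G ≤ N[S] → S ≤ G

section Perfect

variable {Z K Ω : Type*} [Group Z] [Group K] (hZ : Group.IsPerfect Z)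
include hZ

theorem hom_eq_one (hK : Group.IsSolvable K) (f : Z →* K) (z : Z) : f z = 1 := by
  haveI := Group.IsPerfect.range (f := f)
  by_contra h
  haveI : Nontrivial f.range := ⟨⟨⟨f z, z, rfl⟩, 1, fun e => h (congrArg Subtype.val e)⟩⟩
  exact Group.IsPerfect.not_isSolvable (G := f.range) inferInstance

theorem tr_of_card_le_four [MulAction Z Ω] [Finite Ω] (h : Nat.card Ω ≤ 4) : Tr Z Ω := fun z a =>
  DFunLike.congr_fun (hom_eq_one hZ (CL.Known.isSolvable_perm_of_card_le_four h) (MulAction.toPermHom Z Ω) z) a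

/-- a function `f` on a perfect group with `f (a b) = f a + f b` in an abelian group vanishes -/
theorem add_eq_zero {A : Type*} [AddCommGroup A] (f : Z → A) (hf : ∀ a b, f (a * b) = f a + f b) (z : Z) : f z = 0 :=
  hom_eq_one hZ (K := Multiplicative A) inferInstance (MonoidHom.mk' (fun z => Multiplicative.ofAdd (f z)) hf) z

end Perfect

/-- a finite group without non-trivial perfect subgroups is solvable -/
theorem solv_of_perfect {H : Type*} [Group H] [Finite H] (J : Subgroup H)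
    (h : ∀ Z ≤ J, Group.IsPerfect Z → Z = ⊥) : Group.IsSolvable J := by
  obtain ⟨_, ⟨k, rfl⟩, hk⟩ := WellFounded.has_min (wellFounded_lt (α := Subgroup H)) (Set.range (dr J)) ⟨_, 0, rfl⟩
  have h0 := h _ (dr_le J k) (isPerfect_iff.2 (eq_of_le_of_not_lt (commutator_le_self _) (hk _ ⟨k + 1, rfl⟩)))
  refine ⟨⟨k, eq_bot_iff.2 fun x hx => ?_⟩⟩
  have := mem_dr_map (K := J) J.subtype (fun g _ => g.2) (dr_top (G := J) k ▸ hx)
  rw [h0] at this
  exact Subtype.ext this

/-- the theorem for permutation groups of degree `n` -/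
def PThm (n : ℕ) : Prop := ∀ (G Z Ω : Type u) [Group G] [Finite G] [Group Z] [Finite Ω] [MulAction G Ω] [MulAction Z Ω],
  Nat.card Ω = n → Group.IsSolvable G → Group.IsPerfect Z → E3 G Z Ω → Tr Z Ω

/-- the theorem for linear groups on `n` vectors -/
def LThm (n : ℕ) : Prop := ∀ (G Z V : Type u) [Group G] [Finite G] [Group Z] [AddCommGroup V] [Finite V]
  [DistribMulAction G V] [DistribMulAction Z V],
  Nat.card V = n → Group.IsSolvable G → Irr G V → Group.IsPerfect Z → E2 G Z V → Tr Z V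

/-- (ADDR) additivity in characteristic two -/
def AddR : Prop := ∀ (G V R : Type u) [Group G] [AddCommGroup V] [Finite V] [DistribMulAction G V] [CommRing R]
  [Module R V] [MulSemiringAction G R], (∀ (g : G) (r : R) (v : V), g • r • v = (g • r) • g • v) →
    (∀ r : R, (∀ v : V, r • v = 0) → r = 0) → (∀ r : R, r + r = 0) → (∃ n : ℕ, 0 < n ∧ ∀ r : R, r ^ (n + 1) = r) →
      (∃ a b : R, a * b = 1 ∧ a ≠ 1) → Irr G V → ∀ h : V → V, T3 G h → h 0 = 0 → ∀ a b, h (a + b) = h a + h b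

/-- (ADD) additivity -/
def AddThm : Prop := ∀ (G V : Type u) [Group G] [Finite G] [AddCommGroup V] [Finite V] [DistribMulAction G V],
  Group.IsSolvable G → Irr G V → ∀ h : V → V, T3 G h → h 0 = 0 → ∀ a b, h (a + b) = h a + h b

/-- (AFF) a solvable primitive group is affine -/
def AffThm2 : Prop := ∀ (G Ω : Type u) [Group G] [Finite G] [Finite Ω] [MulAction G Ω], Group.IsSolvable G →
  Prim G Ω → ¬ Tr G Ω → ∃ (A : Type u) (_ : AddCommGroup A) (_ : DistribMulAction G A) (e : Ω ≃ A), Irr G A ∧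
    ∀ (g : G) (a b : Ω), e (g • a) - e (g • b) = g • (e a - e b)

/-- (P) the induction step for permutation groups -/
def PStep : Prop := AddThm.{u} → AffThm2.{u} → ∀ n : ℕ, (∀ m < n, PThm.{u} m) → LThm.{u} n → PThm.{u} n

/-- (IMP) the imprimitive linear case -/
def ImpThm : Prop := ∀ (G Z V : Type u) [Group G] [Finite G] [Group Z] [AddCommGroup V] [Finite V]
  [DistribMulAction G V] [DistribMulAction Z V] (L : Subgroup G) (π : V →+ V) (Y : AddSubgroup V),
  (∀ m < Nat.card V, PThm.{u} m) → (∀ m < Nat.card V, LThm.{u} m) → Group.IsSolvable G → Imp L π Y →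
    Group.IsPerfect Z → E2 G Z V → Tr Z V

/-- (INV) a solvable group normalises a non-trivial solvable subgroup of every non-trivial group that it normalises -/
def InvThm : Prop := ∀ (H : Type u) [Group H] [Finite H] (G C : Subgroup H), Group.IsSolvable G → G ≤ N[C] → C ≠ ⊥ →
  ∃ S ≤ C, S ≠ ⊥ ∧ Group.IsSolvable S ∧ G ≤ N[S]

/-- (UN) `U` is normalised -/
def UnThm : Prop := ∀ (G Z V : Type u) [Group G] [Finite G] [Group Z] [AddCommGroup V] [Finite V]
  [DistribMulAction G V] [DistribMulAction Z V] (p : ℕ) (U E : Subgroup G), Setup V p U E → E2 G Z V →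
    ∀ (z : Z), ∀ u ∈ U, ∃ u' ∈ U, ∀ v : V, z • u • v = u' • z • v

/-- (J) a perfect group that preserves the orbits of `E` -/
def JThm : Prop := ∀ (G Z V : Type u) [Group G] [Finite G] [Group Z] [AddCommGroup V] [Finite V]
  [DistribMulAction G V] [DistribMulAction Z V] (p : ℕ) (U E : Subgroup G), Setup V p U E → Irr G V →
    Group.IsPerfect Z → (∀ (z : Z) (v : V), ∃ e ∈ E, z • v = e • v) →
      (∀ (z : Z), ∀ u ∈ U, ∀ v : V, z • u • v = u • z • v) → Tr Z V

/-- (EN) `E` is normal -/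
def EnThm : Prop := ∀ (H : Type u) [Group H] [Finite H] (G J : Subgroup H) (U E : Subgroup G), GS U E →
  (U.map G.subtype).Normal → J.Normal → J ≤ G → E.map G.subtype ≤ J → (E.map G.subtype).Normal

/-- (SETH) the set-up passes to the overgroup -/
def SetH : Prop := InvThm.{u} → UnThm.{u} → JThm.{u} → EnThm.{u} →
  ∀ (H V : Type u) [Group H] [Finite H] [AddCommGroup V] [Finite V] [DistribMulAction H V] (G : Subgroup H) (p : ℕ)
    (U E : Subgroup G), Faith H V → Group.IsSolvable G → MaxS G → Irr G V → E2 G H V → Setup V p U E →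
      Setup V p (U.map G.subtype) (E.map G.subtype)

section Prime

variable {H : Type u} [Group H] {U E : Subgroup H}

/-- the elements of `E` of order dividing `r` modulo `U` -/
def Ep (h : GS U E) (r : ℕ) : Subgroup H where
  carrier := {a | a ∈ E ∧ a ^ r ∈ U}
  one_mem' := ⟨E.one_mem, by simp⟩
  mul_mem' := fun {a b} ha hb => ⟨E.mul_mem ha.1 hb.1, by
    rw [h.mul_pow ha.1 hb.1]; exact mul_mem (mul_mem ha.2 hb.2) (pow_mem (h.comm _ hb.1 _ ha.1) _)⟩
  inv_mem' := fun ha => ⟨E.inv_mem ha.1, by rw [inv_pow]; exact U.inv_mem ha.2⟩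

theorem Ep_normal (h : GS U E) (r : ℕ) : (Ep h r).Normal :=
  ⟨fun a ha g => ⟨h.nE.conj_mem a ha.1 g, by rw [conj_pow]; exact h.nU.conj_mem _ ha.2 g⟩⟩

theorem U_le_Ep (h : GS U E) (r : ℕ) : U ≤ Ep h r := fun _ hu => ⟨h.le hu, pow_mem hu r⟩

theorem dl_mem_Ep (h : GS U E) {r : ℕ} (g : H) {a : H} (ha : a ∈ Ep h r) : dl g a ∈ Ep h r :=
  mul_mem (inv_mem ha) ((Ep_normal h r).conj_mem a ha g)

/-- the kernel of the action on the `r`-part of `E / U` -/
def Kp (h : GS U E) (r : ℕ) : Subgroup H where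
  carrier := {x | ∀ a ∈ Ep h r, dl x a ∈ U}
  one_mem' := fun a _ => by simp [dl]
  mul_mem' := fun {x y} hx hy a ha => by
    rw [show dl (x * y) a = dl x a * (x * dl y a * x⁻¹) by simp only [dl]; group]
    exact mul_mem (hx a ha) (h.nU.conj_mem _ (hy a ha) x)
  inv_mem' := fun {x} hx a ha => by
    rw [show dl x⁻¹ a = x⁻¹ * (dl x a)⁻¹ * x⁻¹⁻¹ by simp only [dl]; group]
    exact h.nU.conj_mem _ (inv_mem (hx a ha)) _

theorem Kp_normal (h : GS U E) (r : ℕ) : (Kp h r).Normal := ⟨fun x hx g a ha => by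
  rw [show dl (g * x * g⁻¹) a = g * dl x (g⁻¹ * a * g⁻¹⁻¹) * g⁻¹ by simp only [dl]; group]
  exact h.nU.conj_mem _ (hx _ ((Ep_normal h r).conj_mem a ha _)) g⟩

/-- `X` is the `r`-part of `E / C_E(D)`, written additively, with the action of `B` -/
structure XS (h : GS U E) (r : ℕ) (D B : Subgroup H) (X : Type u) [AddCommGroup X] [DistribMulAction B X]
    (ν : H → X) : Prop where
  mul : ∀ a ∈ Ep h r, ∀ b ∈ Ep h r, ν (a * b) = ν a + ν b
  zero : ∀ a ∈ Ep h r, ν a = 0 ↔ a ∈ C[D]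
  surj : ∀ w, ∃ a ∈ Ep h r, ν a = w
  smul : ∀ g : B, ∀ a ∈ Ep h r, g • ν a = ν (g * a * (g : H)⁻¹)

end Prime

section Sets

variable {X : Type u} [AddCommGroup X]

/-- a quadratic map -/
def Quad {A : Type*} [AddCommGroup A] (δ : X → A) : Prop :=
  ∀ a b c, δ (a + b + c) + δ a + δ b + δ c = δ (a + b) + δ (a + c) + δ (b + c)

theorem Quad.zero {A : Type*} [AddCommGroup A] {δ : X → A} (h : Quad δ) : δ 0 = 0 := by
  simpa using h 0 0 0

theorem Quad.cube {A : Type*} [AddCommGroup A] {δ : X → A} (h : Quad δ) (x a b c : X) :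
    δ (x + a + b + c) + δ (x + a) + δ (x + b) + δ (x + c) = δ (x + a + b) + δ (x + a + c) + δ (x + b + c) + δ x := by
  linear_combination (norm := abel) h (x + a) b c - h x b c

/-- a quadratic map that vanishes on `S` vanishes on `W` -/
def DetOn (W : AddSubgroup X) (S : Set X) : Prop :=
  ∀ (A : Type u) [AddCommGroup A] (δ : X → A), Quad δ → (∀ s ∈ S, δ s = 0) → ∀ w ∈ W, δ w = 0

/-- a group that stabilises `S` induces on `W` a group of order dividing `m` -/
def StOn (W : AddSubgroup X) (S : Set X) (m : ℕ) : Prop :=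
  ∀ (Γ : Type u) [Group Γ] [DistribMulAction Γ X], (∀ γ : Γ, ∀ s ∈ S, γ • s ∈ S) →
    (fixingSubgroup Γ (W : Set X)).index ∣ m

/-- the invariant of the recursive construction -/
structure Gs (W : AddSubgroup X) (S : Set X) (m : ℕ) : Prop where
  sub : S ⊆ W
  zero : 0 ∉ S
  rob : ∀ p : X, AddSubgroup.closure (S \ {p}) = W
  cs : AddSubgroup.closure ((W : Set X) \ S) = W
  det : DetOn W S
  five : 5 ≤ Nat.card W
  tri : ∃ a ∈ W, ∃ b ∈ W, ∃ c ∈ W, a ≠ 0 ∧ b ≠ 0 ∧ c ≠ 0 ∧ a + b ≠ 0 ∧ a + c ≠ 0 ∧ b + c ≠ 0 ∧ a + b + c ≠ 0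
  st : StOn W S m

variable (X)

/-- a determining set whose stabiliser has order dividing `m` -/
def Nice (m : ℕ) : Prop := ∃ S : Set X, 0 ∉ S ∧ DetOn ⊤ S ∧ StOn ⊤ S m

/-- a set whose stabiliser is a `2`-group -/
def Flag : Prop := ∃ S : Set X, 0 ∉ S ∧ ∃ k : ℕ, ∀ (Γ : Type u) [Group Γ] [DistribMulAction Γ X],
  (∀ γ : Γ, ∀ s ∈ S, γ • s ∈ S) → ∀ (γ : Γ) (x : X), γ ^ 2 ^ k • x = x

end Sets

theorem fix_top {Γ X : Type*} [Group Γ] [AddCommGroup X] [DistribMulAction Γ X] :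
    fixingSubgroup Γ ((⊤ : AddSubgroup X) : Set X) = Kr Γ X := by
  ext g
  rw [mem_fixingSubgroup_iff, mem_Kr]
  exact ⟨fun h w => h w trivial, fun h w _ => h w⟩

/-- (REC) the recursion -/
def RecThm : Prop := ∀ (X : Type u) [AddCommGroup X] [Finite X] (W : AddSubgroup X) (S : Set X) (m : ℕ),
  Gs W S m → Nice X m

/-- (SET4) the base of the recursion for the prime two -/
def Set4 : Prop := ∀ (X : Type u) [AddCommGroup X] [Finite X], (∀ x : X, 2 • x = 0) → 16 ≤ Nat.card X →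
  ∃ (W : AddSubgroup X) (S : Set X), Gs W S 12

/-- (SETO) odd primes -/
def SetO : Prop := RecThm.{u} → ∀ (X : Type u) [AddCommGroup X] [Finite X] (r : ℕ), r.Prime → r ≠ 2 →
  (∀ x : X, r • x = 0) → Nice X 2

/-- (SET2) the prime two -/
def Set2 : Prop := ∀ (X : Type u) [AddCommGroup X] [Finite X], (∀ x : X, 2 • x = 0) →
  Flag X ∧ (Nat.card X ≤ 4 → Nice X 6) ∧
    (Nat.card X = 8 → (∀ c : X, c ≠ 0 → DetOn ⊤ ({0, c}ᶜ : Set X)) ∧ ∃ S : Set X, 0 ∉ S ∧ StOn ⊤ S 6)

/-- (GL3) the group of order 168 does not occur -/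
def Gl3Thm : Prop := ∀ (B X : Type u) [Group B] [Finite B] [AddCommGroup X] [DistribMulAction B X], Nat.card X = 8 →
  (∀ x : X, 2 • x = 0) → ∀ G : Subgroup B, Group.IsSolvable G → (G ⊔ Kr B X).index ∣ 6 →
    ∃ c : X, c ≠ 0 ∧ ¬ 8 ∣ (Kr B X).relIndex (MulAction.stabilizer B c)

/-- (CFX) the section `X` exists -/
def CfX : Prop := ∀ (H : Type u) [Group H] [Finite H] (U E D B : Subgroup H) (h : GS U E) (r : ℕ), D ≤ E → B ≤ N[D] →
  ∃ (X : Type u) (_ : AddCommGroup X) (_ : Finite X) (_ : DistribMulAction B X) (ν : H → X), XS h r D B X ν ∧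
    ∀ x : X, r • x = 0

/-- (CFG) the kernel of the action on `X` -/
def CfG : Prop := ∀ (H : Type u) [Group H] [Finite H] (U E D B : Subgroup H) (h : GS U E) (r : ℕ) (X : Type u)
  [AddCommGroup X] [DistribMulAction B X] (ν : H → X), r.Prime → XS h r D B X ν → D ≤ E → D ≤ C[D] → D ⊓ U = ⊥ →
    (∀ b ∈ B, ∀ q ∈ E ⊓ C[D], dl b q ∈ D) →
      (∀ b : B, (b : H) ∈ Kp h r → b ∈ Kr B X) ∧ (r = 2 → ∀ b ∈ Kr B X, (b : H) ^ 4 ∈ Kp h r) ∧
        ∀ S : Set X, DetOn ⊤ S → ∀ b ∈ Kr B X, (∀ y ∈ S, ∃ a ∈ Ep h r, ν a = y ∧ dl (b : H) a ∈ D) → (b : H) ∈ Kp h r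

/-- (CFV) the stabiliser of a pair of vectors -/
def CfV : Prop := ∀ (H V : Type u) [Group H] [Finite H] [AddCommGroup V] [DistribMulAction H V] (p : ℕ)
  (G U E D B : Subgroup H) (h : Setup V p U E) (ξ : V) (τ : H) (r : ℕ) (X : Type u) [AddCommGroup X] [Finite X]
  [DistribMulAction B X] (ν : H → X), XS h.toGS r D B X ν → Mx E D ξ → τ ∈ E ⊓ C[D] →
    (∀ x : H, x ∈ B ↔ x • ξ = ξ ∧ x • τ • ξ = τ • ξ) → E2 G H V → ∀ S : Set X, 0 ∉ S →
      ∃ P : Subgroup B, (∀ x ∈ P, ∀ s ∈ S, x • s ∈ S) ∧ (∀ z : H, ∃ g ∈ G, ∃ x ∈ P, z = g * x) ∧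
        ∀ x ∈ P, ∀ y ∈ S, x • y = y → ∃ a ∈ Ep h.toGS r, ν a = y ∧ dl (x : H) a ∈ D

end CL.SL.Tc
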