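/-
The three-closure of a solvable permutation group: additivity.
-/
import Cfsg.Agent.Fgs.TcDefs

set_option autoImplicit false
set_option linter.style.haveILetI false

open Subgroup CL.Odd CL.Grp CL.SL.Vc
open scoped commutatorElement IsMulCommutative

namespace CL.SL.Tc

universe u

namespace AddAux

theorem add_pow_two_pow {R : Type*} [CommRing R] (h2 : ∀ r : R, r + r = 0) (x y : R) :
    ∀ k : ℕ, (x + y) ^ 2 ^ k = x ^ 2 ^ k + y ^ 2 ^ k
  | 0 => by simp
  | k + 1 => by
    rw [pow_succ, pow_mul, pow_mul, pow_mul, add_pow_two_pow h2 x y k]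
    linear_combination h2 (x ^ 2 ^ k * y ^ 2 ^ k)

variable {G V : Type u} [Group G] [AddCommGroup V] [DistribMulAction G V] {h : V → V}

theorem odd (hT : T3 G h) (h0 : h 0 = 0) {k : ℕ} (hp : ∀ v : V, (2 * k + 1) • v = 0) (a c : V) :
    h (a + c) = h a + h c := by
  have key : ∀ a x, h (a + x + x) + h a = h (a + x) + h (a + x) := fun a x => by
    obtain ⟨g, h1, h2⟩ := hT a (a + x) (a + x + x)
    rw [show a + x + x - a = (a + x - a) + (a + x - a) by abel, smul_add, ← h1] at h2
    linear_combination (norm := abel) h2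
  obtain ⟨x, rfl⟩ : ∃ x, c = a + x + x :=
    ⟨(k + 1) • (c - a), by
      rw [add_assoc, ← add_smul, show k + 1 + (k + 1) = 2 * k + 1 + 1 by ring, succ_nsmul, hp]; abel⟩
  have h1 := key 0 (a + x)
  rw [h0, zero_add, add_zero] at h1
  rw [add_comm (h a), key, ← h1]
  congr 1
  abel

/-- conjugation of endomorphisms -/
def cE (g : G) : AddMonoid.End V →+* AddMonoid.End V where
  toFun x := DistribMulAction.toAddMonoidEnd G V g * x * DistribMulAction.toAddMonoidEnd G V g⁻¹
  map_one' := by rw [mul_one, ← map_mul, mul_inv_cancel, map_one]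
  map_mul' x y := by
    ext v
    change g • x (y (g⁻¹ • v)) = g • x (g⁻¹ • g • y (g⁻¹ • v))
    rw [inv_smul_smul]
  map_zero' := by rw [mul_zero, zero_mul]
  map_add' x y := by rw [mul_add, add_mul]

theorem two (hR : AddR.{u}) [Finite G] [Finite V] (hi : Irr G V) (hf : Faith G V) (hd : 2 ∣ Nat.card V)
    (hp : ∀ v : V, 2 • v = 0) (A : Subgroup G) [hA : A.Normal] [IsMulCommutative A] (h1 : A ≠ ⊥) (hT : T3 G h)
    (h0 : h 0 = 0) (a b : V) : h (a + b) = h a + h b := by
  have hc : Nat.Coprime 2 (Nat.card A) :=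
    (Nat.Prime.coprime_iff_not_dvd Nat.prime_two).2 (not_dvd_card_of_abelian hi hf Nat.prime_two hd A)
  let ρ := DistribMulAction.toAddMonoidEnd G V
  let R := Subring.closure (ρ '' A)
  haveI : IsMulCommutative R := Subring.isMulCommutative_closure (by
    rintro _ ⟨x, hx, rfl⟩ _ ⟨y, hy, rfl⟩
    rw [← map_mul, ← map_mul, setLike_mul_comm hx hy])
  have hcj : ∀ (g : G) (r : R), cE g (r : AddMonoid.End V) ∈ R := fun g r =>
    (Subring.closure_le (t := R.comap (cE g))).2 (by
      rintro _ ⟨x, hx, rfl⟩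
      exact Subring.subset_closure ⟨_, hA.conj_mem x hx g, by rw [map_mul, map_mul]; rfl⟩) r.2
  letI : MulSemiringAction G R :=
    { smul := fun g r => ⟨cE g r, hcj g r⟩
      one_smul := fun r => Subtype.ext (by
        change ρ 1 * r * ρ 1⁻¹ = r
        rw [inv_one, map_one, mul_one, one_mul])
      mul_smul := fun g g' r => Subtype.ext (by
        change ρ (g * g') * r * ρ (g * g')⁻¹ = ρ g * (ρ g' * r * ρ g'⁻¹) * ρ g⁻¹
        simp only [mul_inv_rev, map_mul, mul_assoc])
      smul_zero := fun g => Subtype.ext (cE g).map_zero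
      smul_add := fun g x y => Subtype.ext ((cE g).map_add _ _)
      smul_one := fun g => Subtype.ext (cE g).map_one
      smul_mul := fun g x y => Subtype.ext ((cE g).map_mul _ _) }
  have h2 : ∀ r : R, r + r = 0 := fun r => Subtype.ext (AddMonoidHom.ext fun v => (two_nsmul _).symm.trans (hp _))
  have hq : ∀ r : R, r ^ 2 ^ Nat.totient (Nat.card A) = r := by
    rintro ⟨r, hr⟩
    induction hr using Subring.closure_induction with
    | mem x hx =>
      obtain ⟨x, hx, rfl⟩ := hx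
      refine Subtype.ext ?_
      change ρ x ^ _ = ρ x
      rw [← map_pow]
      congr 1
      have := (pow_eq_pow_iff_modEq (x := (⟨x, hx⟩ : A))).2
        ((Nat.ModEq.pow_totient hc).of_dvd (orderOf_dvd_natCard _))
      simpa using congrArg Subtype.val this
    | zero => exact zero_pow (M₀ := R) (by positivity)
    | one => exact one_pow (M := R) _
    | add x y hx hy e1 e2 => exact (add_pow_two_pow h2 ⟨x, hx⟩ ⟨y, hy⟩ _).trans (by rw [e1, e2]; rfl)
    | neg x hx e =>
      have : (⟨-x, neg_mem hx⟩ : R) = ⟨x, hx⟩ := neg_eq_of_add_eq_zero_left (h2 ⟨x, hx⟩)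
      rwa [this]
    | mul x y hx hy e1 e2 => exact (mul_pow (⟨x, hx⟩ : R) ⟨y, hy⟩ _).trans (by rw [e1, e2]; rfl)
  obtain ⟨⟨x, hx⟩, hx1⟩ := ne_bot_iff_exists_ne_one.1 h1
  refine hR G V R (fun g r v => ?_) (fun r hr => Subtype.ext (AddMonoidHom.ext hr)) h2
    ⟨2 ^ Nat.totient (Nat.card A) - 1, Nat.sub_pos_of_lt (Nat.one_lt_two_pow (Nat.totient_pos.2 Nat.card_pos).ne'),
      fun r => by rw [Nat.sub_add_cancel Nat.one_le_two_pow, hq]⟩
    ⟨⟨ρ x, Subring.subset_closure ⟨x, hx, rfl⟩⟩, ⟨ρ x⁻¹, Subring.subset_closure ⟨_, inv_mem hx, rfl⟩⟩, Subtype.ext ?_,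
      fun e => hx1 (Subtype.ext (hf x fun v => DFunLike.congr_fun (congrArg Subtype.val e) v))⟩ hi h hT h0 a b
  · change g • r.1 v = g • r.1 (g⁻¹ • g • v)
    rw [inv_smul_smul]
  · change ρ x * ρ x⁻¹ = 1
    rw [← map_mul, mul_inv_cancel, map_one]

end AddAux

theorem addThm (hR : AddR.{u}) : AddThm.{u} := by
  intro G V _ _ _ _ _ hs hi h hT h0 a b
  rcases subsingleton_or_nontrivial V with _ | _
  · exact Subsingleton.elim _ _
  obtain ⟨p, hp, hd, hV⟩ := hi.exists_prime
  rcases hp.eq_two_or_odd' with rfl | ⟨k, rfl⟩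
  swap
  · exact AddAux.odd hT h0 hV a b
  obtain ⟨G', _, _, _, f, -, h2, h3, h4⟩ := exists_faith (V := V) hs
  have hT' : T3 G' h := fun a b c => let ⟨g, e1, e2⟩ := hT a b c; ⟨f g, by rw [h2, e1], by rw [h2, e2]⟩
  rcases subsingleton_or_nontrivial G' with _ | _
  · obtain ⟨g, e1, -⟩ := hT' a (a + b) 0
    obtain ⟨g', e2, -⟩ := hT' 0 b 0
    rw [Subsingleton.elim g 1, one_smul, add_sub_cancel_left] at e1
    rw [Subsingleton.elim g' 1, one_smul, h0, sub_zero, sub_zero] at e2
    rw [e2]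
    exact (sub_eq_iff_eq_add'.1 e1)
  obtain ⟨A, hA⟩ := exists_isMinNormal G'
  haveI := hA.normal
  haveI : IsMulCommutative A := hA.isMulCommutative_of_isSolvable inferInstance
  exact AddAux.two hR (CL.SL.HK.irr_of_hom h2 hi) h4 hd hV A hA.ne_bot hT' h0 a b

end CL.SL.Tc
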