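/-
The three-closure of a solvable permutation group: additivity in characteristic two (job TCL-ADDR, helper52).
-/
import Cfsg.Agent.Fgs.TcDefs

set_option autoImplicit false
set_option linter.style.haveILetI false

namespace CL.SL.Tc

universe u

namespace AR

section Ring

variable {R : Type*} [CommRing R]

/-- minimal idempotents -/
def Mn (f : R) : Prop := f * f = f ∧ f ≠ 0 ∧ ∀ e : R, e * e = e → e * f = e → e = 0 ∨ e = f

theorem Mn.smul {G : Type*} [Group G] [MulSemiringAction G R] {f : R} (h : Mn f) (g : G) : Mn (g • f) :=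
  ⟨by rw [← smul_mul', h.1], fun e => h.2.1 ((smul_eq_zero_iff_eq g).1 e), fun e h1 h2 =>
    (h.2.2 (g⁻¹ • e) (by rw [← smul_mul', h1]) (by rw [← inv_smul_smul g f, ← smul_mul', h2])).imp
      (smul_eq_zero_iff_eq _).1 inv_smul_eq_iff.1⟩

theorem Mn.eq_or {f l : R} (h : Mn f) (h' : Mn l) : f = l ∨ l * f = 0 := by
  have e : l * f * (l * f) = l * f := by rw [mul_mul_mul_comm, h.1, h'.1]
  rcases h.2.2 _ e (by rw [mul_assoc, h.1]) with h1 | h1
  · exact .inr h1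
  · exact (h'.2.2 _ e (by rw [mul_right_comm, h'.1])).symm.imp_left (h1.symm.trans ·)

theorem Mn.field (hn : ∃ n : ℕ, 0 < n ∧ ∀ r : R, r ^ (n + 1) = r) {f r : R} (h : Mn f) (hr : r * f ≠ 0) :
    ∃ s, s * r * f = f := by
  obtain ⟨n, h0, hn⟩ := hn
  obtain ⟨m, rfl⟩ : ∃ m, n = m + 1 := ⟨n - 1, by omega⟩
  refine ⟨(r * f) ^ m, ?_⟩
  rw [mul_assoc, ← pow_succ]
  refine (h.2.2 _ ?_ ?_).resolve_left fun e => hr (by rw [← hn (r * f), pow_succ, e, zero_mul])
  · rw [← pow_add, show m + 1 + (m + 1) = m + (m + 1 + 1) by ring, pow_add, hn, pow_succ]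
  · rw [pow_succ, mul_assoc, mul_assoc, h.1]

theorem exists_mn [Finite R] [Nontrivial R] : ∃ f : R, Mn f := by
  obtain ⟨f, ⟨h1, h2⟩, h3⟩ := Set.exists_min_image {f : R | f * f = f ∧ f ≠ 0} (fun f => {r | r * f = r}.ncard)
    (Set.toFinite _) ⟨1, by simp⟩
  refine ⟨f, h1, h2, fun e he hf => or_iff_not_imp_left.2 fun h0 => ?_⟩
  have := Set.eq_of_subset_of_ncard_le (s := {r | r * e = r}) (t := {r | r * f = r})
    (fun r (hr : r * e = r) => show r * f = r by rw [← hr, mul_assoc, hf]) (h3 e ⟨he, h0⟩)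
  have h4 : f * e = f := this.ge h1
  rw [← hf, mul_comm, h4]

/-- the map `μ ↦ μ ^ 2 + μ` on the field `k R` has a range of index two -/
theorem Mn.index [Finite R] (h2 : ∀ r : R, r + r = 0) {k : R} (h : Mn k) :
    (∃ μ0, ∀ μ, μ0 * k ≠ (μ * μ + μ) * k) ∧ ∀ x y, (∃ μ, (x + y) * k = (μ * μ + μ) * k) ↔
      ((∃ μ, x * k = (μ * μ + μ) * k) ↔ ∃ μ, y * k = (μ * μ + μ) * k) := by
  let A : AddSubgroup R :=
    { carrier := {r | r * k = r}
      zero_mem' := zero_mul k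
      add_mem' := fun {a b} (ha : a * k = a) (hb : b * k = b) => show (a + b) * k = _ by rw [add_mul, ha, hb]
      neg_mem' := fun {a} (ha : a * k = a) => show -a * k = _ by rw [neg_mul, ha] }
  have mk : ∀ r, r * k ∈ A := fun r => show r * k * k = _ by rw [mul_assoc, h.1]
  let φ : A →+ A := AddMonoidHom.mk' (fun μ => ⟨μ * μ + μ, show (μ.1 * μ + μ) * k = _ by
      rw [add_mul, mul_assoc, show μ.1 * k = μ from μ.2]⟩) fun a b => Subtype.ext (by
    change (a.1 + b) * (a + b) + (a + b) = a * a + a + (b * b + b)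
    linear_combination h2 (a.1 * b))
  have hk : Nat.card φ.ker = 2 := by
    refine Nat.card_eq_two_iff.2 ⟨0, ⟨⟨k, h.1⟩, Subtype.ext (show k * k + k = 0 by rw [h.1, h2])⟩,
      fun e => h.2.1 (congrArg (fun x : φ.ker => x.1.1) e).symm, Set.eq_univ_of_forall fun ⟨⟨μ, hμ⟩, e⟩ => ?_⟩
    have e' : μ * μ + μ = 0 := congrArg Subtype.val e
    rcases h.2.2 μ (by linear_combination e' - h2 μ) hμ with rfl | rfl
    exacts [.inl rfl, .inr rfl]
  have hi : φ.range.index = 2 := by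
    have e1 := φ.ker.card_mul_index
    rw [AddSubgroup.index_ker, hk, ← φ.range.card_mul_index, mul_comm] at e1
    exact (Nat.eq_of_mul_eq_mul_left Nat.card_pos e1).symm
  have hr : ∀ x, (∃ μ, x * k = (μ * μ + μ) * k) ↔ (⟨x * k, mk x⟩ : A) ∈ φ.range := fun x =>
    ⟨fun ⟨μ, e⟩ => ⟨⟨μ * k, mk μ⟩, Subtype.ext (show μ * k * (μ * k) + μ * k = x * k by
        rw [e, mul_mul_mul_comm, h.1, add_mul])⟩,
      fun ⟨μ, e⟩ => ⟨μ, by rw [← show μ.1 * μ + μ = x * k from congrArg Subtype.val e]; exact (φ μ).2.symm⟩⟩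
  refine ⟨?_, fun x y => ?_⟩
  · by_contra! hc
    have : φ.range = ⊤ := eq_top_iff.2 fun x _ => by
      have := (hr x).1 (hc x)
      rwa [show (⟨x * k, mk x⟩ : A) = x from Subtype.ext x.2] at this
    rw [this, AddSubgroup.index_top] at hi
    omega
  · rw [hr, hr, hr, ← AddSubgroup.add_mem_iff_of_index_two hi]
    exact iff_of_eq (congrArg (· ∈ φ.range) (Subtype.ext (add_mul _ _ _)))

variable {V : Type*} [AddCommGroup V] [Module R V]

theorem Mn.same {k l : R} (h : Mn k) (h' : Mn l) {x : V} (e : k • x = x) (e' : l • x ≠ 0) : k = l :=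
  (h.eq_or h').resolve_right fun e0 => e' (by rw [← e, smul_smul, e0, zero_smul])

variable (hn : ∃ n : ℕ, 0 < n ∧ ∀ r : R, r ^ (n + 1) = r) {f r : R} {v : V} (h : Mn f) (e : f • v = v)
include hn h e

theorem Mn.vec (hr : r • v ≠ 0) : ∃ s : R, s • r • v = v := by
  obtain ⟨s, hs⟩ := h.field hn (r := r) fun e0 => hr (by rw [← e, smul_smul, e0, zero_smul])
  exact ⟨s, by rw [← e, smul_smul, smul_smul, hs]⟩

theorem Mn.cancel (hv : v ≠ 0) (hr : r • v = 0) : r * f = 0 := by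
  by_contra h0
  obtain ⟨s, hs⟩ := h.field hn h0
  exact hv (by rw [← e, ← hs, mul_right_comm, mul_smul, hr, smul_zero])

theorem Mn.tr (hv : v ≠ 0) (x : R) : (∃ μ : R, x • v = (μ * μ + μ) • v) ↔ ∃ μ, x * f = (μ * μ + μ) * f :=
  exists_congr fun μ => ⟨fun e1 => by rw [← sub_eq_zero, ← sub_mul]; exact h.cancel hn e hv (by rw [sub_smul, e1, sub_self]),
    fun e1 => by rw [← e, smul_smul, smul_smul, e1]⟩

end Ring

/-- the hypotheses -/
structure Hy (G V R : Type*) [Group G] [AddCommGroup V] [DistribMulAction G V] [CommRing R]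
    [Module R V] [MulSemiringAction G R] : Prop where
  c : ∀ (g : G) (r : R) (v : V), g • r • v = (g • r) • g • v
  f : ∀ r : R, (∀ v : V, r • v = 0) → r = 0
  two : ∀ r : R, r + r = 0
  n : ∃ n : ℕ, 0 < n ∧ ∀ r : R, r ^ (n + 1) = r
  un : ∃ a b : R, a * b = 1 ∧ a ≠ 1
  irr : Irr G V

namespace Hy

variable {G V R : Type*} [Group G] [AddCommGroup V] [DistribMulAction G V] [CommRing R]
  [Module R V] [MulSemiringAction G R] (H : Hy G V R)
include H

theorem vv (v : V) : v + v = 0 := by rw [← one_smul R v, ← add_smul, H.two, zero_smul]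

theorem c' (g : G) (r : R) (v : V) : r • g • v = g • (g⁻¹ • r) • v := by rw [H.c, smul_inv_smul]

theorem fin [Finite V] : Finite R := Finite.of_injective (fun (r : R) (v : V) => r • v) fun a b e =>
  sub_eq_zero.1 (H.f _ fun v => by rw [sub_smul, sub_eq_zero]; exact congrFun e v)

theorem clos {f : R} (h : Mn f) : AddSubgroup.closure {v : V | ∃ g : G, (g • f) • v = v} = ⊤ := by
  refine (H.irr _ fun g v hv => ?_).resolve_left fun e => h.2.1 (H.f _ fun v => ?_)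
  · induction hv using AddSubgroup.closure_induction with
    | mem x hx => exact AddSubgroup.subset_closure (hx.elim fun g' e => ⟨g * g', by rw [mul_smul, ← H.c, e]⟩)
    | zero => simp
    | add x y _ _ hx hy => rw [smul_add]; exact add_mem hx hy
    | neg x _ hx => rw [smul_neg]; exact neg_mem hx
  · exact AddSubgroup.mem_bot.1 (e ▸ AddSubgroup.subset_closure ⟨1, by rw [one_smul, smul_smul, h.1]⟩)

theorem kappa {f : R} (h : Mn f) : ∃ κ : R, κ * f ≠ 0 ∧ (1 - κ) * f ≠ 0 := by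
  obtain ⟨a, b, ab, a1⟩ := H.un
  by_contra! hc
  refine a1 (sub_eq_zero.1 (H.f _ fun v => ?_)).symm
  have hv : v ∈ AddSubgroup.closure {v : V | ∃ g : G, (g • f) • v = v} := H.clos h ▸ AddSubgroup.mem_top v
  induction hv using AddSubgroup.closure_induction with
  | mem x hx =>
    obtain ⟨g, e⟩ := hx
    have := congrArg (g • ·) (hc (g⁻¹ • a) fun e0 => h.2.1 (by
      rw [← one_mul f, ← smul_one g⁻¹, ← ab, smul_mul', mul_right_comm, e0, zero_mul]))
    simp only [smul_mul', smul_sub, smul_one, smul_inv_smul, smul_zero] at this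
    rw [← e, smul_smul, this, zero_smul]
  | zero => simp
  | add x y _ _ hx hy => rw [smul_add, hx, hy, add_zero]
  | neg x _ hx => rw [smul_neg, hx, neg_zero]

variable {h : V → V} (t : T3 G h)
include t

theorem T (a b c : V) : (∃ r : R, c - a = r • (b - a)) ↔ ∃ r : R, h c - h a = r • (h b - h a) := by
  obtain ⟨g, e1, e2⟩ := t a b c
  rw [e1, e2]
  exact ⟨fun ⟨r, e⟩ => ⟨g • r, by rw [e, H.c]⟩, fun ⟨r, e⟩ => ⟨g⁻¹ • r, by rwa [H.c', smul_left_cancel_iff] at e⟩⟩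

omit H in
theorem surj [Finite V] : Function.Surjective h := Finite.surjective_of_injective fun a b e => by
  obtain ⟨g, e1, -⟩ := t a b b
  rw [e, sub_self, eq_comm, smul_eq_zero_iff_eq, sub_eq_zero] at e1
  exact e1.symm

variable (h0 : h 0 = 0)
include h0

omit H in
theorem t0 (a b : V) : ∃ g : G, h a = g • a ∧ h b = g • b := by simpa [h0] using t 0 a b

theorem T0 (b c : V) : (∃ r : R, c = r • b) ↔ ∃ r : R, h c = r • h b := by simpa [h0] using H.T t 0 b c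

theorem T2 (d x : V) : (∃ μ : R, x = (μ * μ + μ) • d) ↔ ∃ μ : R, h x = (μ * μ + μ) • h d := by
  obtain ⟨g, e1, e2⟩ := t0 t h0 d x
  rw [e1, e2]
  exact ⟨fun ⟨r, e⟩ => ⟨g • r, by rw [e, H.c, smul_add, smul_mul']⟩,
    fun ⟨r, e⟩ => ⟨g⁻¹ • r, by rwa [H.c', smul_left_cancel_iff, smul_add, smul_mul'] at e⟩⟩

theorem keyA {f l : R} (hl : Mn l) (fl : l * f = 0) {v w : V} (ev : f • v = v) (ew : l • w = w)
    (w0 : w ≠ 0) : h (v + w) = h v + h w := by
  obtain ⟨g, e1, e2⟩ := t0 t h0 v w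
  obtain ⟨g1, a1, a2⟩ := t0 t h0 (v + w) v
  obtain ⟨g2, b1, b2⟩ := t0 t h0 (v + w) w
  have lv : ∀ g : G, (g • l) • g • v = 0 := fun g => by rw [← H.c, ← ev, smul_smul, fl, zero_smul, smul_zero]
  have lw : ∀ g : G, (g • l) • g • w = g • w := fun g => by rw [← H.c, ew]
  have hw : g • w ≠ 0 := fun e => w0 ((smul_eq_zero_iff_eq g).1 e)
  have k2 : g2 • l = g • l := (hl.smul g2).same (hl.smul g) (lw g2) (by rwa [← b2, e2, lw])
  have k : (g • l) • g1 • w = g • w := by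
    have := congrArg ((g • l) • ·) (a1.symm.trans b1)
    simp only [smul_add] at this
    rwa [← a2, ← b2, e1, e2, lv, lw, ← k2, lv, zero_add, zero_add, k2] at this
  have k1 : g1 • l = g • l := (hl.smul g1).same (hl.smul g) (lw g1) (by rwa [k])
  rw [a1, smul_add, ← a2, e2, ← k, ← k1, lw]

theorem halfB [Finite V] {f : R} (hf : Mn f) {v w : V} (ev : f • v = v) (ew : f • w = w) (w0 : w ≠ 0)
    (hv : ¬ ∃ r : R, v = r • w) : ∃ β : R, h (v + w) = h v + β • h w := by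
  have v0 : v ≠ 0 := fun e => hv ⟨0, by rw [e, zero_smul]⟩
  obtain ⟨κ, k1, k2⟩ := H.kappa hf
  obtain ⟨s, hs⟩ := hf.vec H.n ev (r := 1 - κ) fun e => k2 (hf.cancel H.n ev v0 e)
  obtain ⟨s', hs'⟩ := hf.vec H.n ew (r := κ) fun e => k1 (hf.cancel H.n ew w0 e)
  obtain ⟨r, e⟩ := (H.T t (s • v) (s' • w) (v + w)).1 ⟨κ, by
    linear_combination (norm := module) - hs - hs'⟩
  obtain ⟨r1, e1⟩ := (H.T0 t h0 v (s • v)).1 ⟨s, rfl⟩
  obtain ⟨r2, e2⟩ := (H.T0 t h0 w (s' • w)).1 ⟨s', rfl⟩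
  have e3 : h (v + w) - h v = (r1 - r * r1 - 1) • h v + (r * r2) • h w := by
    rw [e1, e2] at e
    linear_combination (norm := module) e
  by_cases hα : (r1 - r * r1 - 1) • h v = 0
  · exact ⟨r * r2, by rw [hα, zero_add] at e3; exact sub_eq_iff_eq_add'.1 e3⟩
  obtain ⟨g, g1, -⟩ := t0 t h0 v v
  obtain ⟨ρ, hρ⟩ := (hf.smul g).vec H.n (v := h v) (by rw [g1, ← H.c, ev]) hα
  obtain ⟨x, hx⟩ := surj t (h v + ρ • (h (v + w) - h v))
  obtain ⟨a, ha⟩ := (H.T t v (v + w) x).2 ⟨ρ, by rw [hx, add_sub_cancel_left]⟩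
  obtain ⟨b, hb⟩ := (H.T0 t h0 w x).2 ⟨ρ * (r * r2), by rw [hx, e3, smul_add, hρ, ← add_assoc, H.vv, zero_add, smul_smul]⟩
  exact (hv ⟨b - a, by linear_combination (norm := module) hb - ha⟩).elim

theorem keyC [Finite V] {f : R} (hf : Mn f) {v w : V} (ev : f • v = v) (hw : ∃ r : R, w = r • v) :
    h (v + w) = h v + h w := by
  haveI := H.fin
  by_contra hc
  obtain ⟨ρ, rfl⟩ := hw
  obtain ⟨g, g1, -⟩ := t0 t h0 v v
  have hk := hf.smul g
  have ek : (g • f) • h v = h v := by rw [g1, ← H.c, ev]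
  obtain ⟨r1, e1⟩ := (H.T0 t h0 v (v + ρ • v)).1 ⟨1 + ρ, by rw [add_smul, one_smul]⟩
  obtain ⟨r2, e2⟩ := (H.T0 t h0 v (ρ • v)).1 ⟨ρ, rfl⟩
  set s := h (v + ρ • v) + (h v + h (ρ • v)) with hs
  have s0 : s ≠ 0 := fun e => hc (by rw [← add_zero (h (v + _)), ← H.vv (h v + h (ρ • v)), ← add_assoc, ← hs, e, zero_add])
  have es : s = (r1 + 1 + r2) • h v := by rw [hs, e1, e2]; module
  obtain ⟨μ0, hμ⟩ := (hk.index H.two).1
  obtain ⟨ν, hν⟩ := hk.field H.n (r := μ0) fun e => hμ 0 (by simpa using e)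
  obtain ⟨d, hd⟩ := surj t (ν • s)
  have ed : μ0 • h d = s := by
    rw [hd, es, ← ek, smul_smul, smul_smul, smul_smul, mul_comm μ0, mul_right_comm, hν, mul_comm, smul_smul]
  have d0' : h d ≠ 0 := fun e => s0 (by rw [← ed, e, smul_zero])
  have kd : (g • f) • h d = h d := by rw [hd, es, smul_comm, smul_comm (g • f), ek]
  obtain ⟨r, hr⟩ := (H.T0 t h0 v d).2 ⟨ν * (r1 + 1 + r2), by rw [hd, es, smul_smul]⟩
  have d0 : d ≠ 0 := fun e => d0' (by rw [e, h0])
  have fd : f • d = d := by rw [hr, smul_comm, ev]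
  obtain ⟨σ, hσ⟩ := hf.vec H.n ev (hr ▸ d0)
  rw [← hr] at hσ
  have two : ∀ {k : R} {d x y : V}, Mn k → k • d = d → d ≠ 0 → (∃ r : R, x = r • d) → (∃ r : R, y = r • d) →
      ((∃ μ : R, x + y = (μ * μ + μ) • d) ↔ ((∃ μ : R, x = (μ * μ + μ) • d) ↔ ∃ μ : R, y = (μ * μ + μ) • d)) := by
    rintro k d _ _ hk e d0 ⟨x, rfl⟩ ⟨y, rfl⟩
    rw [← add_smul, hk.tr H.n e d0, hk.tr H.n e d0, hk.tr H.n e d0, (hk.index H.two).2]
  have m1 : ∃ r : R, v = r • d := ⟨σ, hσ.symm⟩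
  have m2 : ∃ r : R, ρ • v = r • d := ⟨ρ * σ, by rw [mul_smul, hσ]⟩
  have m3 : ∃ r : R, v + ρ • v = r • d := ⟨σ + ρ * σ, by rw [add_smul, mul_smul, hσ]⟩
  obtain ⟨a, ha⟩ := (H.T0 t h0 _ _).1 m1
  obtain ⟨b, hb⟩ := (H.T0 t h0 _ _).1 m2
  have := (two hk kd d0' ((H.T0 t h0 _ _).1 m3) ⟨a + b, by rw [add_smul, ← ha, ← hb]⟩).2 (by
    rw [two hk kd d0' ⟨a, ha⟩ ⟨b, hb⟩, ← H.T2 t h0, ← H.T2 t h0, ← H.T2 t h0, two hf fd d0 m1 m2])
  rw [← hs, ← ed, hk.tr H.n kd d0'] at this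
  exact this.elim hμ

theorem key [Finite V] {f l : R} (hf : Mn f) (hl : Mn l) {v w : V} (ev : f • v = v) (ew : l • w = w) :
    h (v + w) = h v + h w := by
  by_cases v0 : v = 0
  · simp [v0, h0]
  by_cases w0 : w = 0
  · simp [w0, h0]
  rcases hf.eq_or hl with rfl | e
  swap
  · exact H.keyA t h0 hl e ev ew w0
  by_cases h1 : ∃ r : R, w = r • v
  · exact H.keyC t h0 hf ev h1
  by_cases h2 : ∃ r : R, v = r • w
  · rw [add_comm, H.keyC t h0 hf ew h2, add_comm]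
  obtain ⟨β, hβ⟩ := H.halfB t h0 hf ev ew w0 h2
  obtain ⟨α, hα⟩ := H.halfB t h0 hf ew ev v0 h1
  have e : (1 - α) • h v = (1 - β) • h w := by
    rw [add_comm, hβ] at hα
    linear_combination (norm := module) hα
  by_cases h3 : (1 - α) • h v = 0
  · rw [sub_smul, sub_eq_zero, one_smul] at h3
    rw [add_comm, hα, ← h3, add_comm]
  obtain ⟨g, g1, -⟩ := t0 t h0 v v
  obtain ⟨ρ, hρ⟩ := (hf.smul g).vec H.n (v := h v) (by rw [g1, ← H.c, ev]) h3
  exact (h2 ((H.T0 t h0 w v).2 ⟨ρ * (1 - β), by rw [mul_smul, ← e, hρ]⟩)).elim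

end Hy

end AR

open AR in
theorem addR : AddR.{u} := fun G V R _ _ _ _ _ _ _ h1 h2 h3 h4 h5 h6 h t h0 a b => by
  have H : Hy G V R := ⟨h1, h2, h3, h4, h5, h6⟩
  cases subsingleton_or_nontrivial V
  · exact Subsingleton.elim _ _
  haveI := H.fin
  haveI := Module.nontrivial R V
  obtain ⟨f, hf⟩ := exists_mn (R := R)
  have hm : ∀ v, v ∈ AddSubgroup.closure {v : V | ∃ g : G, (g • f) • v = v} := fun v =>
    H.clos hf ▸ AddSubgroup.mem_top v
  have ng : ∀ v : V, -v = v := fun v => neg_eq_of_add_eq_zero_left (H.vv v)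
  have k1 : ∀ v : V, (∃ g : G, (g • f) • v = v) → ∀ w a, h (a + w + v) - h (a + w) = h (a + v) - h a := by
    rintro v ⟨g, hg⟩ w
    induction hm w using AddSubgroup.closure_induction with
    | mem x hx =>
      obtain ⟨g', hg'⟩ := hx
      intro a
      have := H.key (h := fun x => h (a + x) - h a) (fun x y z => by simpa using t (a + x) (a + y) (a + z))
        (by simp) (hf.smul g') (hf.smul g) hg' hg
      rw [add_assoc]
      linear_combination (norm := abel) this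
    | zero => simp
    | add x y _ _ hx hy => intro a; rw [← add_assoc, hy, hx]
    | neg x _ hx => rwa [ng]
  induction hm b using AddSubgroup.closure_induction generalizing a with
  | mem x hx =>
    have := k1 x hx a 0
    rw [zero_add, zero_add, h0, sub_zero] at this
    exact sub_eq_iff_eq_add'.1 this
  | zero => simp [h0]
  | add x y _ _ hx hy => rw [← add_assoc, hy, hx, hy, add_assoc]
  | neg x _ hx => rw [ng, hx]

end CL.SL.Tc
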