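/-
The three-closure of a solvable permutation group: a solvable primitive group is affine.
-/
import Cfsg.Agent.Fgs.TcDefs

set_option autoImplicit false
set_option linter.style.haveILetI false

open Subgroup CL.Odd CL.Grp CL.SL.Vc
open scoped commutatorElement IsMulCommutative

namespace CL.SL.Tc

universe u

theorem affThm2 : AffThm2.{u} := by
  intro G Ω _ _ _ _ hs hp ht
  let f := (MulAction.toPermHom G Ω).rangeRestrict
  have hf : Function.Surjective f := MonoidHom.rangeRestrict_surjective _
  obtain ⟨z, hz⟩ := not_forall.1 ht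
  obtain ⟨ω, hω⟩ := not_forall.1 hz
  haveI : Nontrivial (MulAction.toPermHom G Ω).range :=
    ⟨⟨f z, 1, fun e => hω (DFunLike.congr_fun (congrArg Subtype.val e) ω)⟩⟩
  haveI := Group.isSolvable_of_surjective hf
  obtain ⟨W, hW⟩ := exists_isMinNormal (MulAction.toPermHom G Ω).range
  haveI := hW.normal
  haveI : IsMulCommutative W := hW.isMulCommutative_of_isSolvable inferInstance
  letI : DistribMulAction G (Additive W) :=
    { smul := fun g w => Additive.ofMul (MulAut.conjNormal (f g) w.toMul)
      one_smul := fun w => by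
        change Additive.ofMul (MulAut.conjNormal (f 1) w.toMul) = w
        simp
      mul_smul := fun a b w => by
        change Additive.ofMul (MulAut.conjNormal (f (a * b)) w.toMul) =
          Additive.ofMul (MulAut.conjNormal (f a) (MulAut.conjNormal (f b) w.toMul))
        simp
      smul_zero := fun _ => congrArg Additive.ofMul (map_one _)
      smul_add := fun _ x y => congrArg Additive.ofMul (map_mul _ x.toMul y.toMul) }
  have hc : ∀ (g : G) (w : W) (b : Ω), MulAut.conjNormal (f g) w • g • b = g • w • b := fun g w b => by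
    change (f g * w * (f g)⁻¹) • f g • b = f g • (w : (MulAction.toPermHom G Ω).range) • b
    rw [mul_smul, inv_smul_smul, mul_smul]
  have htr : ∀ a b : Ω, ∃ w : W, w • b = a := by
    rcases hp (MulAction.orbitRel W Ω) (by rintro g _ b ⟨w, rfl⟩; exact ⟨_, hc g w b⟩) with h | h
    · refine (hW.ne_bot (eq_bot_iff.2 fun w hw => Subtype.ext (Equiv.ext fun a => ?_))).elim
      exact Setoid.le_def.1 h.le (⟨⟨w, hw⟩, rfl⟩ : MulAction.orbitRel W Ω _ a)
    · exact fun a b => (Setoid.le_def.1 h.ge trivial : MulAction.orbitRel W Ω a b)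
  have hb : Function.Bijective fun w : Additive W => w.toMul • ω := ⟨fun v w e => by
    refine (Subtype.ext (Subtype.ext (Equiv.ext fun a => ?_)) : v.toMul = w.toMul)
    obtain ⟨t, rfl⟩ := htr a ω
    change v.toMul • t • ω = w.toMul • t • ω
    rw [← mul_smul, mul_comm, mul_smul, show v.toMul • ω = w.toMul • ω from e, ← mul_smul, mul_comm, mul_smul],
    fun a => let ⟨w, e⟩ := htr a ω; ⟨Additive.ofMul w, e⟩⟩
  let e := (Equiv.ofBijective _ hb).symm
  have he : ∀ (w : W) (b : Ω), e (w • b) - e b = Additive.ofMul w := fun w b => by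
    obtain ⟨t, rfl⟩ := e.symm.surjective b
    rw [sub_eq_iff_eq_add, ← e.eq_symm_apply, e.apply_symm_apply]
    exact (mul_smul w t.toMul ω).symm
  choose σ hσ using hf
  refine ⟨Additive W, inferInstance, inferInstance, e, fun U hU => ?_, fun g a b => ?_⟩
  · haveI : (U.toSubgroup'.map W.subtype).Normal := ⟨by
      rintro _ ⟨w, hw, rfl⟩ q
      exact ⟨_, hU (σ q) (Additive.ofMul w) hw, (congrArg (fun r : (MulAction.toPermHom G Ω).range => r * w * r⁻¹) (hσ q) :)⟩⟩
    by_cases h0 : U.toSubgroup'.map W.subtype = ⊥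
    · refine Or.inl (eq_bot_iff.2 fun w hw => ?_)
      have : (w.toMul : (MulAction.toPermHom G Ω).range) ∈ U.toSubgroup'.map W.subtype := ⟨w.toMul, hw, rfl⟩
      rw [h0, Subgroup.mem_bot] at this
      exact congrArg Additive.ofMul (Subtype.ext this : w.toMul = 1)
    · refine Or.inr (eq_top_iff.2 fun w _ => ?_)
      obtain ⟨w', hw', e⟩ : (w.toMul : (MulAction.toPermHom G Ω).range) ∈ U.toSubgroup'.map W.subtype := by
        rw [hW.eq_of_le h0 (map_subtype_le _)]; exact w.toMul.2
      have : w' = w.toMul := Subtype.ext e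
      subst this
      exact hw'
  · obtain ⟨w, rfl⟩ := htr a b
    rw [← hc, he, he]
    rfl

end CL.SL.Tc
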