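/-
The three-closure of a solvable permutation group: the kernel of the action on the section `X`.
-/
import Cfsg.Agent.Fgs.TcDefs

set_option autoImplicit false
set_option linter.style.haveILetI false

open Subgroup CL.Odd CL.Grp CL.SL.Vc
open scoped commutatorElement

namespace CL.SL.Tc

universe u

theorem cfG : CfG.{u} := by
  intro H _ _ U E D B h r X _ _ ν hr xs hD hDD hDU pin
  haveI := h.nU
  have hUQ : U ≤ C[D] := fun u hu => mem_centralizer_iff.2 fun d hd => (h.cent u hu d (hD hd)).symm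
  have sm : ∀ (b : B), ∀ a ∈ Ep h r, b • ν a = ν a + ν (dl (b : H) a) := fun b a ha => by
    rw [xs.smul b a ha, conj_eq_dl, xs.mul _ ha _ (dl_mem_Ep h _ ha)]
  have k1 : ∀ b ∈ Kr B X, ∀ a ∈ Ep h r, dl (b : H) a ∈ C[D] := fun b hb a ha =>
    (xs.zero _ (dl_mem_Ep h _ ha)).1 (left_eq_add.1 ((mem_Kr.1 hb _).symm.trans (sm b a ha)))
  have k2 : ∀ b : B, ∀ u ∈ U, dl (b : H) u = 1 := fun b u hu =>
    eq_one_of_inf hDU (pin b b.2 u ⟨h.le hu, hUQ hu⟩) (mul_mem (inv_mem hu) (h.nU.conj_mem u hu b))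
  have part : ∀ d ∈ Ep h r, (∀ a ∈ Ep h r, ⁅d, a⁆ = 1) → d ∈ U := fun d hd hc => by
    by_contra hn
    obtain ⟨t, ht, h1, h2⟩ := h.exists_partner hr hd.1 hn hd.2
    exact h2 (hc t ⟨ht, h1⟩)
  have k3 : ∀ b ∈ Kr B X, ∀ x ∈ D, x ∈ Ep h r → dl (b : H) x = 1 := fun b hb x hx hx' => by
    have h1 := pin b b.2 x ⟨hD hx, hDD hx⟩
    refine eq_one_of_inf hDU h1 (part _ (dl_mem_Ep h _ hx') fun a ha => ?_)
    have h2 : ⁅(b : H) * x * (b : H)⁻¹, (b : H) * a * (b : H)⁻¹⁆ = b * ⁅x, a⁆ * (b : H)⁻¹ := by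
      simp only [commutatorElement_def]; group
    have h3 := h.dl_mem (b : H) ha.1
    rw [conj_eq_dl, conj_eq_dl, conj_eq_dl, k2 b _ (h.comm x (hD hx) a ha.1), mul_one,
      h.comm_mul_right (E.mul_mem (hD hx) (hD h1)) ha.1 h3,
      comm_iff.2 (mem_centralizer_iff.1 (k1 b hb a ha) _ (D.mul_mem hx h1)), mul_one,
      h.comm_mul_left (hD hx) (hD h1) ha.1] at h2
    exact mul_eq_left.1 h2
  have sec : ∀ a ∈ Ep h r, ∀ c ∈ Ep h r, ν a = ν c → ∃ q ∈ Ep h r, q ∈ C[D] ∧ c = a * q := fun a ha c hc e => by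
    have hq := mul_mem (inv_mem ha) hc
    refine ⟨_, hq, (xs.zero _ hq).1 ?_, by simp⟩
    have := xs.mul _ ha _ hq
    rwa [mul_inv_cancel_left, ← e, left_eq_add] at this
  refine ⟨fun b hb => mem_Kr.2 fun w => ?_, fun h2 b hb a ha => ?_, fun S hS b hb H1 => ?_⟩
  · obtain ⟨a, ha, rfl⟩ := xs.surj w
    rw [sm b a ha, (xs.zero _ (dl_mem_Ep h _ ha)).2 (hUQ (hb a ha)), add_zero]
  · subst h2
    have hq := dl_mem_Ep h (b : H) ha
    have hx := pin b b.2 _ ⟨hq.1, k1 b hb a ha⟩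
    have hx' := dl_mem_Ep h (b : H) hq
    have e1 := conj_eq_dl (b : H) a
    have e2 := conj_eq_dl (b : H) (dl (b : H) a)
    have e3 := comm_of_dl (k3 b hb _ hx hx')
    have e4 := comm_of_dl (k2 b _ hq.2)
    generalize dl (b : H) (dl (b : H) a) = x at *
    generalize dl (b : H) a = q at *
    have e5 : (b : H) ^ 2 * a * ((b : H) ^ 2)⁻¹ = a * (q ^ 2 * x) := by
      calc _ = b * (b * a * (b : H)⁻¹) * (b : H)⁻¹ := by simp only [sq, mul_inv_rev, mul_assoc]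
        _ = b * (a * q) * (b : H)⁻¹ := by rw [e1]
        _ = b * a * (b : H)⁻¹ * (b * q * (b : H)⁻¹) := by group
        _ = _ := by rw [e1, e2]; simp only [sq, mul_assoc]
    have e6 : (b : H) ^ 2 * (q ^ 2 * x) * ((b : H) ^ 2)⁻¹ = q ^ 2 * x := by
      rw [((Commute.mul_right e4 e3).pow_left 2).eq, mul_inv_cancel_right]
    have e7 : dl ((b : H) ^ 4) a = q ^ 2 * (x * q ^ 2) * x := by
      calc _ = a⁻¹ * (b ^ 2 * (b ^ 2 * a * ((b : H) ^ 2)⁻¹) * ((b : H) ^ 2)⁻¹) := by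
            rw [show 4 = 2 + 2 from rfl, pow_add]; simp only [dl, mul_inv_rev, mul_assoc]
        _ = a⁻¹ * (b ^ 2 * (a * (q ^ 2 * x)) * ((b : H) ^ 2)⁻¹) := by rw [e5]
        _ = a⁻¹ * (b ^ 2 * a * ((b : H) ^ 2)⁻¹ * (b ^ 2 * (q ^ 2 * x) * ((b : H) ^ 2)⁻¹)) := by
            simp only [mul_assoc, inv_mul_cancel_left]
        _ = _ := by rw [e5, e6]; simp only [mul_assoc, inv_mul_cancel_left]
    rw [e7, ← h.cent _ hq.2 x hx'.1, mul_assoc, mul_assoc, ← sq]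
    exact mul_mem hq.2 (mul_mem hq.2 hx'.2)
  have hT : D ⊔ U ≤ E := sup_le hD h.le
  have mulT : ∀ a ∈ Ep h r, ∀ c ∈ Ep h r, dl (b : H) a ∈ D ⊔ U → dl (b : H) c ∈ D ⊔ U → dl (b : H) (a * c) ∈ D ⊔ U :=
    fun a _ c hc h1 h2 => dl_mul (b : H) a c ▸ mul_mem (h.normal_in' le_sup_right hT hc.1 h1) h2
  let Y : AddSubgroup X :=
    { carrier := {y | ∃ a ∈ Ep h r, ν a = y ∧ dl (b : H) a ∈ D ⊔ U}
      zero_mem' := ⟨1, one_mem _, (xs.zero 1 (one_mem _)).2 (one_mem _), by simp [dl]⟩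
      add_mem' := by
        rintro _ _ ⟨a, ha, rfl, h1⟩ ⟨c, hc, rfl, h2⟩
        exact ⟨a * c, mul_mem ha hc, xs.mul a ha c hc, mulT a ha c hc h1 h2⟩
      neg_mem' := by
        rintro _ ⟨a, ha, rfl, h1⟩
        refine ⟨a⁻¹, inv_mem ha, eq_neg_of_add_eq_zero_left ?_,
          dl_inv (b : H) a ▸ h.normal_in le_sup_right hT ha.1 (inv_mem h1)⟩
        rw [← xs.mul _ (inv_mem ha) _ ha, inv_mul_cancel, (xs.zero 1 (one_mem _)).2 (one_mem _)] }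
  have k4 : ∀ a ∈ Ep h r, dl (b : H) a ∈ D ⊔ U := fun a ha => by
    obtain ⟨c, hc, e, h1⟩ : ν a ∈ Y := (QuotientAddGroup.eq_zero_iff _).1 (hS (X ⧸ Y) (QuotientAddGroup.mk' Y)
      (fun x y z => by simp only [map_add]; abel) (fun s hs => (QuotientAddGroup.eq_zero_iff s).2
        ((H1 s hs).imp fun a ha => ⟨ha.1, ha.2.1, mem_sup_left ha.2.2⟩)) _ trivial)
    obtain ⟨q, hq, h2, rfl⟩ := sec c hc a ha e
    exact mulT c hc q hq h1 (mem_sup_left (pin b b.2 q ⟨hq.1, h2⟩))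
  have k5 : ∀ a, ∃ u : U, a ∈ Ep h r → ∃ d ∈ D, d * u = dl (b : H) a := fun a => by
    by_cases ha : a ∈ Ep h r
    · obtain ⟨d, hd, u, hu, e⟩ := (mem_sup_of_le_normalizer le_normalizer_of_normal).1 (k4 a ha)
      exact ⟨⟨u, hu⟩, fun _ => ⟨d, hd, e⟩⟩
    · exact ⟨1, fun h => (ha h).elim⟩
  choose δ hδ using k5
  have uq : ∀ a ∈ Ep h r, ∀ d ∈ D, ∀ u : U, d * u = dl (b : H) a → δ a = u := fun a ha d hd u e => by
    obtain ⟨d', hd', e'⟩ := hδ a ha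
    have h1 : d⁻¹ * d' = u * (δ a : H)⁻¹ := by rw [eq_mul_inv_iff_mul_eq, mul_assoc, e', ← e, inv_mul_cancel_left]
    have := eq_one_of_inf hDU (mul_mem (inv_mem hd) hd') (h1 ▸ mul_mem u.2 (inv_mem (δ a).2))
    exact Subtype.ext (mul_inv_eq_one.1 (h1 ▸ this)).symm
  have k6 : ∀ a c, ∃ u : U, a ∈ Ep h r → c ∈ Ep h r → u = ⁅c⁻¹, dl (b : H) a⁆ := fun a c => by
    by_cases ha : a ∈ Ep h r ∧ c ∈ Ep h r
    · exact ⟨⟨_, h.comm _ (inv_mem ha.2.1) _ (h.dl_mem _ ha.1.1)⟩, fun _ _ => rfl⟩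
    · exact ⟨1, fun h1 h2 => (ha ⟨h1, h2⟩).elim⟩
  choose β hβ using k6
  have dm : ∀ a ∈ Ep h r, ∀ c ∈ Ep h r, dl (b : H) (a * c) = β a c * dl (b : H) a * dl (b : H) c := fun a ha c hc => by
    rw [dl_mul, hβ a c ha hc]; simp [commutatorElement_def]
  have mδ : ∀ a ∈ Ep h r, ∀ c ∈ Ep h r, δ (a * c) = β a c * δ a * δ c := fun a ha c hc => by
    obtain ⟨d, hd, e⟩ := hδ a ha
    obtain ⟨d', hd', e'⟩ := hδ c hc
    refine uq _ (mul_mem ha hc) (d * d') (mul_mem hd hd') _ ?_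
    rw [dm a ha c hc, ← e, ← e', coe_mul, coe_mul, ← mul_assoc (β a c : H), h.cent _ (β a c).2 d (hD hd), mul_assoc d,
      mul_assoc d, mul_assoc d, ← mul_assoc (_ * _) d', h.cent _ (mul_mem (β a c).2 (δ a).2) d' (hD hd'), mul_assoc d']
  have mβ : ∀ a ∈ Ep h r, ∀ a' ∈ Ep h r, ∀ c ∈ Ep h r, β (a * a') c = β a c * β a' c := fun a ha a' ha' c hc => by
    have h1 := h.dl_mem (b : H) ha.1
    refine Subtype.ext ?_
    rw [coe_mul, hβ _ c (mul_mem ha ha') hc, hβ a c ha hc, hβ a' c ha' hc, dm a ha a' ha',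
      h.comm_mul_right (inv_mem hc.1) (mul_mem (h.le (β a a').2) h1) (h.dl_mem _ ha'.1),
      h.comm_mul_right (inv_mem hc.1) (h.le (β a a').2) h1, h.comm_U_right (inv_mem hc.1) (β a a').2, one_mul]
  have wd : ∀ a ∈ Ep h r, ∀ c ∈ Ep h r, ν a = ν c → δ c = δ a := fun a ha c hc e => by
    obtain ⟨q, hq, h2, rfl⟩ := sec a ha c hc e
    obtain ⟨d, hd, e1⟩ := hδ a ha
    have : β a q = 1 := Subtype.ext ((hβ a q ha hq).trans (comm_iff.2 (e1 ▸ Commute.mul_right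
      (mem_centralizer_iff.1 (inv_mem h2) d hd).symm (h.cent _ (δ a).2 _ (inv_mem hq.1)).symm)))
    rw [mδ a ha q hq, this, uq q hq _ (pin b b.2 q ⟨hq.1, h2⟩) 1 (mul_one _), one_mul, mul_one]
  choose σ h1 h2 using xs.surj
  haveI := h.cyc
  letI : CommGroup U := IsCyclic.commGroup
  have k7 := hS (Additive U) (fun y => Additive.ofMul (δ (σ y))) (fun x y z => by
    have e : ∀ x y, δ (σ (x + y)) = δ (σ x * σ y) := fun x y =>
      wd _ (mul_mem (h1 x) (h1 y)) _ (h1 _) (by rw [xs.mul _ (h1 x) _ (h1 y), h2, h2, h2])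
    have e' : δ (σ (x + y + z)) = δ (σ x * σ y * σ z) := wd _ (mul_mem (mul_mem (h1 x) (h1 y)) (h1 z)) _ (h1 _)
      (by rw [xs.mul _ (mul_mem (h1 x) (h1 y)) _ (h1 z), xs.mul _ (h1 x) _ (h1 y), h2, h2, h2, h2])
    simp only [e', e x y, e x z, e y z, mδ _ (mul_mem (h1 x) (h1 y)) _ (h1 z), mβ _ (h1 x) _ (h1 y) _ (h1 z),
      mδ _ (h1 x) _ (h1 z), mδ _ (h1 y) _ (h1 z), ofMul_mul]
    abel) fun s hs => by
      obtain ⟨a, ha, e, h3⟩ := H1 s hs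
      rw [wd a ha _ (h1 s) (e.trans (h2 s).symm), uq a ha _ h3 1 (mul_one _)]
      rfl
  have k8 : ∀ a ∈ Ep h r, δ a = 1 := fun a ha => (wd _ (h1 (ν a)) a ha (h2 _)).trans (k7 (ν a) trivial)
  intro a ha
  refine part _ (dl_mem_Ep h _ ha) fun c hc => ?_
  have := mδ a ha _ (inv_mem hc)
  rw [k8 _ (mul_mem ha (inv_mem hc)), k8 a ha, k8 _ (inv_mem hc), mul_one, mul_one] at this
  have h3 := hβ a _ ha (inv_mem hc)
  rw [← this, inv_inv] at h3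
  exact comm_iff.2 (comm_iff.1 h3.symm).symm

end CL.SL.Tc
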