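/-
The three-closure of a solvable group: the section `X` and the stabiliser of a pair of vectors.
-/
import Cfsg.Agent.Fgs.TcDefs

set_option autoImplicit false
set_option linter.style.haveILetI false

open Subgroup CL.Odd CL.Grp CL.SL.Vc
open scoped commutatorElement

namespace CL.SL.Tc

universe u

theorem cfX : CfX.{u} := by
  classical
  intro H _ _ U E D B h r hD hB
  have hF := Ep_normal h r
  have hU : U ≤ C[D] := fun u hu => mem_centralizer_iff.2 fun a ha => (h.cent u hu a (hD ha)).symm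
  haveI hn : ((C[D]).subgroupOf (Ep h r)).Normal := ⟨fun x hx y => by
    have : (y : H) * x * (y : H)⁻¹ = ⁅(y : H), (x : H)⁆ * x := by simp [commutatorElement_def]
    rw [mem_subgroupOf] at hx ⊢
    exact (show ((y * x * y⁻¹ : Ep h r) : H) = _ from this) ▸ mul_mem (hU (h.comm _ y.2.1 _ x.2.1)) hx⟩
  letI : CommGroup (Ep h r ⧸ (C[D]).subgroupOf (Ep h r)) := { (inferInstance : Group _) with
    mul_comm := fun x y => by
      obtain ⟨x, rfl⟩ := QuotientGroup.mk_surjective x
      obtain ⟨y, rfl⟩ := QuotientGroup.mk_surjective y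
      rw [← QuotientGroup.mk_mul, ← QuotientGroup.mk_mul, QuotientGroup.eq, mem_subgroupOf]
      have : (((x * y)⁻¹ * (y * x) : Ep h r) : H) = ⁅(y : H)⁻¹, (x : H)⁻¹⁆ := by
        simp [commutatorElement_def, mul_assoc]
      exact this ▸ hU (h.comm _ (E.inv_mem y.2.1) _ (E.inv_mem x.2.1)) }
  let φ : B → (Ep h r ⧸ (C[D]).subgroupOf (Ep h r) →* Ep h r ⧸ (C[D]).subgroupOf (Ep h r)) := fun g =>
    QuotientGroup.map _ _ (MulAut.conjNormal (g : H) : MulAut (Ep h r)).toMonoidHom fun x hx =>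
      (conj_mem_cent (hB g.2)).2 hx
  letI : DistribMulAction B (Additive (Ep h r ⧸ (C[D]).subgroupOf (Ep h r))) :=
    { smul := fun g w => Additive.ofMul (φ g w.toMul)
      one_smul := fun w => by
        obtain ⟨x, hx⟩ := QuotientGroup.mk_surjective w.toMul
        change Additive.ofMul (φ 1 w.toMul) = Additive.ofMul w.toMul
        rw [← hx]; simp [φ]
      mul_smul := fun a b w => by
        obtain ⟨x, hx⟩ := QuotientGroup.mk_surjective w.toMul
        change Additive.ofMul (φ (a * b) w.toMul) = Additive.ofMul (φ a (φ b w.toMul))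
        rw [← hx]; simp [φ]
      smul_zero := fun g => congrArg Additive.ofMul (map_one _)
      smul_add := fun g x y => congrArg Additive.ofMul (map_mul _ x.toMul y.toMul) }
  refine ⟨Additive (Ep h r ⧸ (C[D]).subgroupOf (Ep h r)), inferInstance, inferInstance, inferInstance,
    fun a => if ha : a ∈ Ep h r then Additive.ofMul (QuotientGroup.mk ⟨a, ha⟩) else 0,
    ⟨fun a ha b hb => ?_, fun a ha => ?_, fun w => ?_, fun g a ha => ?_⟩, fun w => ?_⟩
  · rw [dif_pos ha, dif_pos hb, dif_pos ((Ep h r).mul_mem ha hb)]; rfl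
  · rw [dif_pos ha]; exact QuotientGroup.eq_one_iff (⟨a, ha⟩ : Ep h r)
  · obtain ⟨x, hx⟩ := QuotientGroup.mk_surjective w.toMul
    exact ⟨x, x.2, by rw [dif_pos x.2]; exact congrArg Additive.ofMul hx⟩
  · rw [dif_pos ha, dif_pos (hF.conj_mem a ha g)]; rfl
  · obtain ⟨x, hx⟩ := QuotientGroup.mk_surjective w.toMul
    refine Additive.toMul.injective ?_
    rw [toMul_nsmul, ← hx, ← QuotientGroup.mk_pow]
    exact (QuotientGroup.eq_one_iff _).2 (hU x.2.2)

theorem cfV : CfV.{u} := by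
  classical
  intro H V _ _ _ _ p G U E D B h ξ τ r X _ _ _ ν s m hτ hB h2 S hS
  letI := Fintype.ofFinite S
  choose a ha hν using s.surj
  have hF := Ep_normal h.toGS r
  have hτ2 : τ ∈ C[D] := hτ.2
  have key : ∀ x ∈ Ep h.toGS r, ∀ y ∈ Ep h.toGS r, x⁻¹ * y ∈ C[D] → ν x = ν y := fun x hx y hy e => by
    have := s.mul x hx _ (mul_mem (inv_mem hx) hy)
    rw [mul_inv_cancel_left, (s.zero _ (mul_mem (inv_mem hx) hy)).2 e, add_zero] at this
    exact this.symm
  have hne : ∀ y : S, a y ∉ C[D] := fun y e => hS (by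
    have := (s.zero _ (ha y)).2 e
    rw [hν] at this
    exact this ▸ y.2)
  let t : Option S → H := fun i => i.elim τ fun y => a y
  have ht : ∀ i, t i ∈ E := fun i => by
    cases i with
    | none => exact hτ.1
    | some y => exact (ha y).1
  have inj : ∀ i j, (t i)⁻¹ * t j ∈ C[D] → i = j := fun i j e => by
    cases i with
    | none =>
      cases j with
      | none => rfl
      | some y => exact (hne y ((mul_mem_cancel_left (inv_mem hτ2)).1 e)).elim
    | some x =>
      cases j with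
      | none => exact (hne x (inv_mem_iff.1 ((mul_mem_cancel_right hτ2).1 e))).elim
      | some y =>
        have := key _ (ha x) _ (ha y) e
        rw [hν, hν] at this
        exact congrArg some (Subtype.ext this)
  have fix : ∀ x : H, x • ξ = ξ → x • ∑ i, t i • ξ = ∑ i, t i • ξ → ∀ i,
      ∃ j, (x * t i * x⁻¹)⁻¹ * t j ∈ C[D] ∧ x • t i • ξ = t j • ξ := fun x e1 e2 i =>
    h.fix_conj m.le ht (fun i => m.fx.blk _) inj (m.norm h.nE e1) e2 i (smul_ne _ m.ne)
  have fixB : ∀ x : H, x • ξ = ξ → x • ∑ i, t i • ξ = ∑ i, t i • ξ → x ∈ B := fun x e1 e2 => by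
    obtain ⟨j, e3, e4⟩ := fix x e1 e2 none
    cases j with
    | none => exact (hB x).2 ⟨e1, e4⟩
    | some y =>
      exact (hne y ((mul_mem_cancel_left (inv_mem ((conj_mem_cent (m.norm h.nE e1)).2 hτ2))).1 e3)).elim
  have fixS : ∀ x : B, (x : H) • ∑ i, t i • ξ = ∑ i, t i • ξ → ∀ y : S,
      ∃ y' : S, x • (y : X) = y' ∧ (x : H) • a y • ξ = a y' • ξ := fun x e2 y => by
    have e1 := ((hB x).1 x.2).1
    obtain ⟨j, e3, e4⟩ := fix x e1 e2 (some y)
    cases j with
    | none =>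
      exact (hne y ((conj_mem_cent (m.norm h.nE e1)).1 (inv_mem_iff.1 ((mul_mem_cancel_right hτ2).1 e3)))).elim
    | some y' =>
      refine ⟨y', ?_, e4⟩
      have := key _ (hF.conj_mem _ (ha y) x) _ (ha y') e3
      rwa [← s.smul x _ (ha y), hν, hν] at this
  refine ⟨(MulAction.stabilizer H (∑ i, t i • ξ)).subgroupOf B, fun x hx y hy => ?_, fun z => ?_, fun x hx y hy e => ?_⟩
  · obtain ⟨y', e, -⟩ := fixS x hx ⟨y, hy⟩
    exact e ▸ y'.2
  · obtain ⟨g, e1, e2⟩ := h2 z ξ (∑ i, t i • ξ)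
    have k1 : ((g : H)⁻¹ * z) • ξ = ξ := by rw [mul_smul, ← e1]; exact inv_smul_smul (g : H) ξ
    have k2 : ((g : H)⁻¹ * z) • ∑ i, t i • ξ = ∑ i, t i • ξ := by rw [mul_smul, ← e2]; exact inv_smul_smul (g : H) _
    exact ⟨g, g.2, ⟨_, fixB _ k1 k2⟩, k2, (mul_inv_cancel_left _ _).symm⟩
  · obtain ⟨y', e1, e2⟩ := fixS x hx ⟨y, hy⟩
    obtain rfl : y' = ⟨y, hy⟩ := Subtype.ext (e1.symm.trans e)
    exact ⟨a y, ha y, hν y, m.mem (h.dl_mem _ (ha y).1) (dl_smul ((hB x).1 x.2).1 e2)⟩

end CL.SL.Tc
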