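/-
The three-closure of a solvable permutation group: the subgroup `E` is normal in the overgroup.
-/
import Cfsg.Agent.Fgs.TcDefs

set_option autoImplicit false
set_option linter.style.haveILetI false

open Subgroup CL.Odd CL.Grp CL.SL.Vc
open scoped commutatorElement

namespace CL.SL.Tc

universe u

theorem enThm : EnThm.{u} := fun H _ _ G J U E h hU hJ hJG hEJ => by
  obtain ⟨N, _, _, _, ν, s⟩ := exists_sec h
  set A : H → Subgroup G := fun x => ((E.map G.subtype).comap (MulAut.conj x⁻¹).toMonoidHom).subgroupOf G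
  have mA : ∀ (x : H) (y : G), y ∈ A x ↔ x⁻¹ * y * x⁻¹⁻¹ ∈ E.map G.subtype := fun x y => Iff.rfl
  have aJ : ∀ x, ∀ y ∈ A x, (y : H) ∈ J := fun x y hy => by
    simpa [mul_assoc] using hJ.conj_mem _ (hEJ ((mA x y).1 hy)) x
  have aC : ∀ x, ∀ y ∈ A x, y ∈ C[U] := fun x y hy u hu => by
    obtain ⟨a, ha, e1⟩ := (mA x y).1 hy
    obtain ⟨v, hv, e2⟩ := hU.conj_mem _ (mem_map_of_mem G.subtype hu) x⁻¹
    have e3 := congrArg G.subtype (h.cent v hv a ha)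
    rw [map_mul, map_mul, e1, e2] at e3
    exact Subtype.ext ((MulAut.conj x⁻¹).injective (by simpa [mul_assoc] using e3))
  have aN : ∀ x (j : G), (j : H) ∈ J → ∀ y ∈ A x, j * y * j⁻¹ ∈ A x := fun x j hj y hy => by
    obtain ⟨a, ha, e1⟩ := (mA x y).1 hy
    refine (mA x _).2 ⟨_, h.nE.conj_mem a ha ⟨_, hJG (hJ.conj_mem _ hj x⁻¹)⟩, ?_⟩
    rw [map_mul, map_mul, map_inv, e1]
    simp [mul_assoc]
  have aG : ∀ x (g : G), ∀ y ∈ A x, g⁻¹ * y * g ∈ A ((g : H)⁻¹ * x) := fun x g y hy =>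
    (mA _ _).2 (by simpa [mul_assoc] using (mA x y).1 hy)
  have aU : ∀ x, ∀ y ∈ A x, ∀ z ∈ A x, ⁅y, z⁆ ∈ U := fun x y hy z hz => by
    obtain ⟨a, ha, e1⟩ := (mA x y).1 hy
    obtain ⟨b, hb, e2⟩ := (mA x z).1 hz
    obtain ⟨v, hv, e3⟩ := hU.conj_mem _ (mem_map_of_mem G.subtype (h.comm a ha b hb)) x
    rw [map_commutatorElement, e1, e2] at e3
    refine (Subtype.ext ?_ : v = ⁅y, z⁆) ▸ hv
    simpa [commutatorElement_def, mul_assoc] using e3
  let F : AddSubgroup N :=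
    { carrier := {w | ∀ x, ∀ y ∈ A x, y • w = w}
      zero_mem' := fun _ _ _ => smul_zero _
      add_mem' := fun ha hb x y hy => by rw [smul_add, ha x y hy, hb x y hy]
      neg_mem' := fun ha x y hy => by rw [smul_neg, ha x y hy] }
  obtain ⟨W, iW, w1, w2⟩ := s.cr h F fun g w hw x y hy => by
    have := hw _ _ (aG x g y hy)
    rwa [mul_smul, mul_smul, inv_smul_eq_iff] at this
  have hW : W = ⊥ := by
    by_contra hW
    obtain ⟨Y, hY, ⟨y1, y2⟩, mY⟩ := Finite.exists_le_minimal (a := W)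
      (p := fun Y : AddSubgroup N => Y ≠ ⊥ ∧ ∀ j : G, (j : H) ∈ J → ∀ w ∈ Y, j • w ∈ Y) ⟨hW, fun j _ => iW j⟩
    refine y1 (eq_bot_iff.2 (w1 ▸ le_inf (fun w hw x => ?_) hY))
    let Z : AddSubgroup N :=
      { carrier := {w | w ∈ Y ∧ ∀ y ∈ A x, y • w = w}
        zero_mem' := ⟨zero_mem _, fun _ _ => smul_zero _⟩
        add_mem' := fun ha hb => ⟨add_mem ha.1 hb.1, fun y hy => by rw [smul_add, ha.2 y hy, hb.2 y hy]⟩
        neg_mem' := fun ha => ⟨neg_mem ha.1, fun y hy => by rw [smul_neg, ha.2 y hy]⟩ }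
    refine (mY (y := Z) ⟨fun e => ?_, fun j hj v hv => ⟨y2 j hj v hv.1, fun y hy => ?_⟩⟩ (fun v hv => hv.1) hw).2
    · obtain ⟨⟨v, hv⟩, v0⟩ := (AddSubgroup.ne_bot_iff_exists_ne_zero).1 y1
      obtain ⟨b, hb, rfl⟩ := s.surj v
      have z0 : ∀ t ∈ Z, t = 0 := fun t ht => AddSubgroup.mem_bot.1 (e ▸ ht)
      refine v0 (Subtype.ext (z0 _ ⟨hv, fun y hy => sub_eq_zero.1 (z0 _ ⟨sub_mem (y2 y (aJ x y hy) _ hv) hv,
        fun z hz => sub_eq_zero.1 ?_⟩)⟩))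
      have d1 : dl y b ∈ E := mul_mem (inv_mem hb) (h.nE.conj_mem b hb y)
      have d2 : dl y b ∈ A x := by
        rw [show dl y b = b⁻¹ * y * b⁻¹⁻¹ * y⁻¹ by simp only [dl]; group]
        exact mul_mem (aN x _ (inv_mem (hEJ (mem_map_of_mem G.subtype hb))) y hy) (inv_mem hy)
      rw [← s.dl y h.nE hb, ← s.dl z h.nE d1]
      refine (s.zero _ (mul_mem (inv_mem d1) (h.nE.conj_mem _ d1 z))).2 ?_
      rw [show (dl y b)⁻¹ * (z * dl y b * z⁻¹) = ⁅(dl y b)⁻¹, z⁆ by simp only [commutatorElement_def]; group]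
      exact aU x _ (inv_mem d2) z hz
    · have := hv.2 _ (aN x j⁻¹ (inv_mem hj) y hy)
      rwa [inv_inv, mul_smul, mul_smul, inv_smul_eq_iff] at this
  rw [hW, sup_bot_eq] at w2
  refine ⟨fun a ha x => ?_⟩
  have hy : (⟨x * a * x⁻¹, hJG (hJ.conj_mem a (hEJ ha) x)⟩ : G) ∈ A x := (mA _ _).2 (by simpa [mul_assoc] using ha)
  exact mem_map_of_mem G.subtype
    (s.ker_le h ⟨mem_Kr.2 fun w => (w2 ▸ AddSubgroup.mem_top w : w ∈ F) x _ hy, aC x _ hy⟩)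

end CL.SL.Tc
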