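/-
The three-closure of a solvable permutation group: the group of order 168 does not occur.
-/
import Cfsg.Agent.Fgs.TcDefs
import Cfsg.Agent.Fgs.ClassBasic
import Cfsg.Agent.Grp.SZConj

set_option autoImplicit false
set_option linter.style.haveILetI false

open Subgroup CL.Odd CL.Grp CL.SL.Vc MulAction
open scoped commutatorElement Pointwise

namespace CL.SL.Tc

universe u

namespace Gl3

variable {M X : Type*} [Group M] [AddCommGroup X] [DistribMulAction M X]

theorem eq_top (hX : Nat.card X = 8) {W : AddSubgroup X} (h : 4 < Nat.card W) : W = ⊤ := by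
  haveI : Finite X := Nat.finite_of_card_ne_zero (by omega)
  have h1 : Nat.card W ∣ 8 := hX ▸ W.card_addSubgroup_dvd_card
  have h2 := Nat.le_of_dvd (by norm_num) h1
  refine AddSubgroup.eq_top_of_card_eq W ?_
  rw [hX]
  interval_cases Nat.card W <;> omega

theorem ncard_orbit (A : Subgroup M) (c : X) :
    (orbit A c).ncard = (stabilizer M c).relIndex A := (index_stabilizer A c).symm

theorem ncard_ne (hX : Nat.card X = 8) : ({0}ᶜ : Set X).ncard = 7 := by
  haveI : Finite X := Nat.finite_of_card_ne_zero (by omega)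
  rw [Set.ncard_compl, Set.ncard_singleton, hX]

theorem trans (hX : Nat.card X = 8) {A : Subgroup M} {c : X} (hc : c ≠ 0)
    (h : (stabilizer M c).relIndex A = 7) {d : X} (hd : d ≠ 0) : ∃ a ∈ A, a • c = d := by
  haveI : Finite X := Nat.finite_of_card_ne_zero (by omega)
  have h1 : orbit A c = {0}ᶜ := Set.eq_of_subset_of_ncard_le
    (by rintro _ ⟨a, rfl⟩ e; exact hc ((smul_eq_zero_iff_eq a).1 e))
    (by rw [ncard_ne hX, ncard_orbit, h])
  obtain ⟨a, ha⟩ : d ∈ orbit A c := h1 ▸ hd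
  exact ⟨a, a.2, ha⟩

theorem index_eq (hX : Nat.card X = 8) {c : X} (hc : c ≠ 0) (h : ∀ d ≠ 0, ∃ a : M, a • c = d) :
    (stabilizer M c).index = 7 := by
  rw [index_stabilizer, ← ncard_ne hX]
  congr 1
  exact Set.Subset.antisymm (by rintro _ ⟨a, rfl⟩ e; exact hc ((smul_eq_zero_iff_eq a).1 e)) h

theorem card_le (hX : Nat.card X = 8) (hf : Faith M X) {T : Subgroup M} {c d : X} (hc : c ≠ 0)
    (hd : d ≠ 0) (hcd : c ≠ d) (h1 : c ∈ fixV X T) (h2 : d ∈ fixV X T) : Nat.card T ≤ 4 := by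
  haveI : Finite X := Nat.finite_of_card_ne_zero (by omega)
  have h3 : 3 ≤ (fixV X T : Set X).ncard := by
    rw [← Set.ncard_eq_three.2 ⟨0, c, d, hc.symm, hd.symm, hcd, rfl⟩]
    exact Set.ncard_le_ncard (by rintro x (rfl | rfl | rfl); exacts [zero_mem _, h1, h2])
  have h4 : 4 ≤ (fixV X T : Set X).ncard := by
    have : Nat.card (fixV X T) ∣ 8 := hX ▸ (fixV X T).card_addSubgroup_dvd_card
    change (fixV X T : Set X).ncard ∣ 8 at this
    rcases h3.eq_or_lt with e | e
    · rw [← e] at this; omega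
    · exact e
  by_cases e : fixV X T = ⊤
  · rw [(eq_bot_iff_forall T).2 fun t ht => hf t fun v => (e ▸ AddSubgroup.mem_top v : v ∈ fixV X T) t ht,
      card_bot]
    norm_num
  obtain ⟨v, -, hv⟩ := SetLike.exists_of_lt (lt_top_iff_ne_top.2 e)
  have h5 : stabilizer M v ⊓ T = ⊥ := (eq_bot_iff_forall _).2 fun t ht => hf t fun w => by
    have h6 : fixV X T < fixV X (stabilizer M v ⊓ T) :=
      lt_of_le_of_ne (fun x hx s hs => hx s hs.2) fun e' => hv (e' ▸ fun s hs => hs.1)
    have h7 := eq_top hX (h4.trans_lt (Set.ncard_lt_ncard h6))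
    exact (h7 ▸ AddSubgroup.mem_top w : w ∈ fixV X (stabilizer M v ⊓ T)) t ht
  rw [← relIndex_bot_left, ← h5, inf_relIndex_right, ← ncard_orbit]
  refine (Set.ncard_le_ncard (t := (fixV X T : Set X)ᶜ) ?_).trans (by rw [Set.ncard_compl, hX]; omega)
  rintro _ ⟨a, rfl⟩ ha
  have h8 : (a : M) • v = v := smul_left_cancel (a : M) (ha a a.2)
  exact hv (h8 ▸ ha)

theorem not_dvd [Finite M] (hX : Nat.card X = 8) (hf : Faith M X) (hs : Group.IsSolvable M) :
    ¬ 28 ∣ Nat.card M := fun h => by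
  haveI : Fact (Nat.Prime 7) := ⟨by norm_num⟩
  obtain ⟨g, hg⟩ := exists_prime_orderOf_dvd_card' (G := M) 7 (Dvd.dvd.trans (by norm_num) h)
  have g1 : g ≠ 1 := by rintro rfl; simp at hg
  obtain ⟨c, hc⟩ := not_forall.1 (mt (hf g) g1)
  have c0 : c ≠ 0 := by rintro rfl; exact hc (smul_zero g)
  have h1 : ∀ d ≠ 0, ∃ a : M, a • c = d := fun d hd => by
    obtain ⟨a, -, ha⟩ := trans hX c0 (A := zpowers g) (((Nat.dvd_prime Fact.out).1 (by
      rw [← hg, ← Nat.card_zpowers]; exact relIndex_dvd_card _ _)).resolve_left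
        fun e => hc (relIndex_eq_one.1 e (mem_zpowers g))) hd
    exact ⟨a, ha⟩
  have h2 := index_eq hX c0 h1
  haveI : Nontrivial M := ⟨g, 1, g1⟩
  obtain ⟨A, hA, -, hA1, hA2⟩ := exists_abelian_normal_le_of_isSolvable (⊤ : Subgroup M) top_ne_bot
  have h3 : (stabilizer M c).relIndex A = 7 :=
    ((Nat.dvd_prime Fact.out).1 (h2 ▸ CL.Fgs.relIndex_dvd_index_of_normal _ A)).resolve_left fun e =>
      hA1 ((eq_bot_iff_forall _).2 fun a ha => hf a fun d => by
        by_cases hd : d = 0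
        · rw [hd, smul_zero]
        obtain ⟨b, rfl⟩ := h1 d hd
        have h4 : (b⁻¹ * a * b⁻¹⁻¹) • c = c := relIndex_eq_one.1 e (hA.conj_mem a ha b⁻¹)
        rw [inv_inv, mul_smul, mul_smul, inv_smul_eq_iff] at h4
        exact h4)
  have h4 : ∀ s ∈ stabilizer M c, (∀ a ∈ A, s * a = a * s) → s = 1 := fun s hs h5 => hf s fun d => by
    by_cases hd : d = 0
    · rw [hd, smul_zero]
    obtain ⟨a, ha, rfl⟩ := trans hX c0 h3 hd
    rw [← mul_smul, h5 a ha, mul_smul, mem_stabilizer_iff.1 hs]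
  have h5 : Nat.card A = 7 := by
    rw [← relIndex_bot_left, ← h3, ← inf_relIndex_right (stabilizer M c),
      (eq_bot_iff_forall (stabilizer M c ⊓ A)).2 fun s hs => h4 s hs.1 fun a ha =>
        congrArg Subtype.val (hA2.is_comm.comm (⟨s, hs.2⟩ : A) ⟨a, ha⟩)]
  haveI := isCyclic_of_prime_card h5
  have h6 := card_dvd_of_injective ((MulAut.conjNormal (H := A)).comp (stabilizer M c).subtype)
    ((injective_iff_map_eq_one _).2 fun s hs => Subtype.ext (h4 s s.2 fun a ha =>
      mul_inv_eq_iff_eq_mul.1 (by simpa using congrArg Subtype.val (DFunLike.congr_fun hs ⟨a, ha⟩))))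
  rw [IsCyclic.card_mulAut, h5, Nat.totient_prime Fact.out] at h6
  rw [← (stabilizer M c).card_mul_index, h2] at h
  have h7 : 4 ∣ Nat.card (stabilizer M c) := by omega
  exact absurd (h7.trans h6) (by norm_num)

theorem dvd_card [Finite M] (hX : Nat.card X = 8) (hf : Faith M X)
    (h : ∀ c : X, c ≠ 0 → 8 ∣ Nat.card (stabilizer M c)) : 56 ∣ Nat.card M := by
  haveI : Finite X := Nat.finite_of_card_ne_zero (by omega)
  obtain ⟨P⟩ : Nonempty (Sylow 2 M) := inferInstance
  obtain ⟨c, hc, c0⟩ := P.isPGroup'.exists_fixed_point_of_prime_dvd_card_of_fixed_point X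
    (by rw [hX]; norm_num) (a := 0) fun g => smul_zero g
  have h1 := index_eq (M := M) hX c0.symm fun d hd => by
    obtain ⟨T, hT⟩ := Sylow.exists_subgroup_card_pow_prime 2 (n := 3) (h d hd)
    have hT' : Nat.card (T.map (stabilizer M d).subtype) = 2 ^ 3 := by rw [card_subtype, hT]
    obtain ⟨g, hg⟩ := exists_conj_le_sylow P (IsPGroup.of_card hT')
    refine ⟨g⁻¹, ?_⟩
    by_contra e
    have := card_le hX hf (T := T.map (stabilizer M d).subtype)
      (mt (smul_eq_zero_iff_eq g⁻¹).1 c0.symm) hd e (fun t ht => by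
        have h2 : (g * t * g⁻¹) • c = c := hc ⟨_, (conj_smul_le_iff _ _ _).1 hg t ht⟩
        rw [eq_inv_smul_iff, ← mul_smul, ← mul_smul, h2]) (by rintro _ ⟨t, -, rfl⟩; exact t.2)
    omega
  rw [← (stabilizer M c).card_mul_index, h1]
  exact Nat.mul_dvd_mul_right (h c c0.symm) 7

end Gl3

theorem gl3Thm : Gl3Thm.{u} := fun B X _ _ _ _ hX _ G hG hi => by
  by_contra hn
  push Not at hn
  letI := rangeAct B X
  have hs := (toPermHom B X).rangeRestrict_surjective
  set f := (toPermHom B X).rangeRestrict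
  haveI : Finite (toPermHom B X).range := Finite.of_surjective _ hs
  have hk : f.ker = Kr B X := MonoidHom.ker_rangeRestrict _
  have hf : Faith (toPermHom B X).range X := fun _ hg => Subtype.ext (Equiv.ext hg)
  have h1 := Gl3.dvd_card hX hf fun c hc => (hn c hc).trans (by
    rw [← hk, relIndex_ker]
    exact card_dvd_of_le (by rintro _ ⟨b, hb, rfl⟩; exact hb))
  refine Gl3.not_dvd (M := G.map f) hX (fun g hg => Subtype.ext (hf g hg))
    (Group.isSolvable_of_surjective (f.subgroupMap_surjective G)) ?_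
  rw [← (G.map f).card_mul_index, index_map, hk, MonoidHom.range_eq_top.2 hs, index_top, mul_one] at h1
  have h2 := h1.trans (Nat.mul_dvd_mul_left _ hi)
  omega

end CL.SL.Tc
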