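/-
The three-closure of a solvable permutation group: the imprimitive linear case.
-/
import Cfsg.Agent.Fgs.TcDefs

set_option autoImplicit false
set_option linter.style.haveILetI false

open Subgroup CL.Odd CL.Grp CL.SL.Vc
open scoped commutatorElement

namespace CL.SL.Tc

universe u

namespace ImpJ

variable {G V : Type*} [Group G] [AddCommGroup V] [DistribMulAction G V] {L : Subgroup G} {π : V →+ V}
  {Y : AddSubgroup V}

/-- `v` lies in the block `q` -/
def Bk (Y : AddSubgroup V) (q : G ⧸ L) (v : V) : Prop := q.out⁻¹ • v ∈ Y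

variable (I : Imp L π Y)
include I

theorem bk_iff (g : G) (v : V) : Bk Y (g : G ⧸ L) v ↔ g⁻¹ • v ∈ Y := by
  obtain ⟨l, hl⟩ := QuotientGroup.mk_out_eq_mul L g
  rw [Bk, hl, mul_inv_rev, mul_smul]
  exact ⟨fun h => by simpa [Subgroup.smul_def] using I.inv l _ h, fun h => I.inv l⁻¹ _ h⟩

theorem bk_smul (g : G) {q : G ⧸ L} {v : V} (h : Bk Y q v) : Bk Y (g • q) (g • v) := by
  obtain ⟨k, rfl⟩ := QuotientGroup.mk_surjective q
  rw [MulAction.Quotient.smul_mk, bk_iff I, smul_eq_mul, mul_inv_rev, mul_smul, inv_smul_smul]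
  exact (bk_iff I k v).1 h

theorem p_ne {q q' : G ⧸ L} {v : V} (h : Bk Y q' v) (hq : q ≠ q') : π (q.out⁻¹ • v) = 0 := by
  have := I.h0 (q.out⁻¹ * q'.out) (fun e => hq (by
    rw [← q.out_eq', ← q'.out_eq']; exact QuotientGroup.eq.2 e)) _ h
  rwa [mul_smul, smul_inv_smul] at this

theorem uniq {q q' : G ⧸ L} {v : V} (h : Bk Y q v) (h' : Bk Y q' v) (h0 : v ≠ 0) : q = q' := by
  by_contra e
  exact h0 ((smul_eq_zero_iff_eq _).1 ((I.h1 _ h).symm.trans (p_ne I h' e)))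

theorem two {a a' b b' : G ⧸ L} {x x' y y' : V} (e : x + x' = y + y') (h : Bk Y a x) (h' : Bk Y a' x')
    (k : Bk Y b y) (k' : Bk Y b' y') (h0 : x ≠ 0) (ha : a ≠ a') : a = b ∨ a = b' := by
  by_contra! hn
  have := congrArg (fun v => π (a.out⁻¹ • v)) e
  simp only [smul_add, map_add] at this
  rw [I.h1 _ h, p_ne I h' ha, p_ne I k hn.1, p_ne I k' hn.2, add_zero, add_zero] at this
  exact h0 ((smul_eq_zero_iff_eq _).1 this)

end ImpJ

open ImpJ in
theorem impThm : ImpThm.{u} := by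
  intro G Z V _ _ _ _ _ _ _ L π Y hP hL hs I hZ hE
  obtain ⟨⟨y0, hy0⟩, y1⟩ := (AddSubgroup.ne_bot_iff_exists_ne_zero.1 I.ne)
  have y2 : y0 ≠ 0 := fun e => y1 (Subtype.ext e)
  obtain ⟨y, hy, y0'⟩ : ∃ y : G ⧸ L → V, (∀ q, Bk Y q (y q)) ∧ ∀ q, y q ≠ 0 :=
    ⟨fun q => q.out • y0, fun q => by rwa [Bk, inv_smul_smul], fun q => (smul_ne_zero_iff_ne _).2 y2⟩
  have zy : ∀ (z : Z) q, z • y q ≠ 0 := fun z q => (smul_ne_zero_iff_ne _).2 (y0' q)
  have gy : ∀ (z : G) q, z • y q ≠ 0 := fun z q => (smul_ne_zero_iff_ne _).2 (y0' q)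
  have ex : ∀ (z : Z) (q : G ⧸ L), ∃ q' : G ⧸ L, ∀ v, Bk Y q v → Bk Y q' (z • v) := fun z q => by
    obtain ⟨g, h1, -⟩ := hE z (y q) (y q)
    refine ⟨g • q, fun v hv => ?_⟩
    obtain ⟨g', h2, h3⟩ := hE z (y q) v
    rw [uniq I (q := g • q) (q' := g' • q) (h1 ▸ bk_smul I g (hy q)) (h2 ▸ bk_smul I g' (hy q)) (zy z q), ← h3]
    exact bk_smul I g' hv
  choose σ hσ using ex
  letI : MulAction Z (G ⧸ L) :=
    { smul := σ
      one_smul := fun q => uniq I (hσ 1 q _ (hy q)) (by rw [one_smul]; exact hy q) (zy 1 q)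
      mul_smul := fun a b q => uniq I (hσ (a * b) q _ (hy q))
        (by rw [mul_smul]; exact hσ a _ _ (hσ b q _ (hy q))) (zy _ q) }
  have hz : ∀ (z : Z) q, Bk Y (z • q) (z • y q) := fun z q => hσ z q _ (hy q)
  have hg : ∀ (z : G) q, Bk Y (z • q) (z • y q) := fun z q => bk_smul I z (hy q)
  have k2 : ∀ (z : Z) (a b : G ⧸ L), ∃ g : G, g • a = z • a ∧ g • b = z • b := fun z a b =>
    let ⟨g, h1, h2⟩ := hE z (y a) (y b)
    ⟨g, uniq I (hg g a) (h1 ▸ hz z a) (gy g a), uniq I (hg g b) (h2 ▸ hz z b) (gy g b)⟩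
  have tr := hP _ I.card_lt.2 G Z (G ⧸ L) rfl hs hZ fun z a b c => by
    by_cases ab : a = b
    · exact (k2 z a c).imp fun g h => ⟨h.1, ab ▸ h.1, h.2⟩
    by_cases ac : a = c
    · exact (k2 z a b).imp fun g h => ⟨h.1, h.2, ac ▸ h.1⟩
    by_cases bc : b = c
    · exact (k2 z a b).imp fun g h => ⟨h.1, h.2, bc ▸ h.2⟩
    obtain ⟨g, h1, h2⟩ := hE z (y a + y c) (y b + y c)
    simp only [smul_add] at h1 h2
    have ne : ∀ {a c : G ⧸ L}, a ≠ c → g • a ≠ g • c := fun h e => h (smul_left_cancel g e)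
    have e3 : g • c = z • c := by
      rcases two I ((add_comm _ _).trans h1) (hg g c) (hg g a) (hz z a) (hz z c) (gy g c) (ne ac).symm with e | e
      · exact (two I ((add_comm _ _).trans h2) (hg g c) (hg g b) (hz z b) (hz z c) (gy g c) (ne bc).symm).resolve_left
          fun e' => ab (smul_left_cancel z (e.symm.trans e'))
      · exact e
    exact ⟨g, (two I h1 (hg g a) (hg g c) (hz z a) (hz z c) (gy g a) (ne ac)).resolve_right (e3 ▸ ne ac),
      (two I h2 (hg g b) (hg g c) (hz z b) (hz z c) (gy g b) (ne bc)).resolve_right (e3 ▸ ne bc), e3⟩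
  have fix : ∀ (g0 : G) (z : Z), ∀ w ∈ Y, z • g0 • w = g0 • w := fun g0 => by
    have hm : ∀ (z : Z) (w : Y), g0⁻¹ • z • g0 • (w : V) ∈ Y := fun z w => (bk_iff I g0 _).1 (by
      have := hσ z g0 _ ((bk_iff I g0 (g0 • (w : V))).2 (by rw [inv_smul_smul]; exact w.2))
      rwa [show σ z g0 = g0 from tr z g0] at this)
    letI := subAct I.inv
    letI : DistribMulAction Z Y :=
      { smul := fun z w => ⟨_, hm z w⟩
        one_smul := fun w => Subtype.ext (show g0⁻¹ • (1 : Z) • g0 • (w : V) = w by rw [one_smul, inv_smul_smul])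
        mul_smul := fun a b w => Subtype.ext (show g0⁻¹ • (a * b) • g0 • (w : V) =
          g0⁻¹ • a • g0 • g0⁻¹ • b • g0 • (w : V) by rw [mul_smul, smul_inv_smul])
        smul_zero := fun a => Subtype.ext (show g0⁻¹ • a • g0 • (0 : V) = 0 by simp)
        smul_add := fun a w w' => Subtype.ext (show g0⁻¹ • a • g0 • ((w : V) + w') =
          g0⁻¹ • a • g0 • (w : V) + g0⁻¹ • a • g0 • (w' : V) by simp only [smul_add]) }
    have t2 := hL _ I.card_lt.1 L Z Y rfl inferInstance I.irr' hZ fun z w w' => by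
      obtain ⟨g, h1, h2⟩ := hE z (g0 • (w : V)) (g0 • (w' : V))
      have k : ∀ w : Y, g • g0 • (w : V) = z • g0 • (w : V) →
          (g0⁻¹ * g * g0) • (w : V) = g0⁻¹ • z • g0 • (w : V) := fun w h => by rw [mul_smul, mul_smul, h]
      by_cases hl : g0⁻¹ * g * g0 ∈ L
      · exact ⟨⟨_, hl⟩, Subtype.ext (k w h1), Subtype.ext (k w' h2)⟩
      · have k0 : ∀ w : Y, g • g0 • (w : V) = z • g0 • (w : V) → w = 0 := fun w h => Subtype.ext
          ((smul_eq_zero_iff_eq _).1 ((I.h1 _ ((k w h).symm ▸ hm z w)).symm.trans (I.h0 _ hl _ w.2)))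
        rw [k0 w h1, k0 w' h2]
        exact ⟨1, by simp, by simp⟩
    exact fun z w hw => inv_smul_eq_iff.1 (congrArg Subtype.val (t2 z ⟨w, hw⟩))
  intro z v
  let T : AddSubgroup V :=
    { carrier := {w | ∀ g : G, z • g • w = g • w}
      zero_mem' := fun g => by simp
      add_mem' := fun ha hb g => by rw [smul_add, smul_add, ha, hb]
      neg_mem' := fun ha g => by rw [smul_neg, smul_neg, ha] }
  have hT := (I.irr T fun g w hw g' => by rw [← mul_smul g', hw]).resolve_left fun h' =>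
    I.ne (eq_bot_iff.2 (h' ▸ fun w hw g => fix g z w hw))
  simpa using (hT ▸ AddSubgroup.mem_top v : v ∈ T) 1

end CL.SL.Tc
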