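/-
A solvable group normalises a non-trivial solvable subgroup of every non-trivial group that it normalises.
-/
import Cfsg.Agent.Fgs.TcDefs
import Cfsg.Agent.Even.Amb2
import Cfsg.Agent.Grp.Coprime2

set_option autoImplicit false

open Subgroup CL.Grp CL.Even
open scoped commutatorElement

namespace CL.SL.Tc

universe u

theorem invThm : InvThm.{u} := by
  intro H _ _ G C hG hC hne
  obtain ⟨M, ⟨hMC, hM1, hM⟩, hmin⟩ := (wellFounded_lt (α := Subgroup H)).has_min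
    {M | M ≤ C ∧ M ≠ ⊥ ∧ G ≤ 𝒩(M)} ⟨C, le_rfl, hne, hC⟩
  by_cases h0 : G ≤ 𝒞(M)
  · obtain ⟨⟨m, hm⟩, hm1⟩ := ne_bot_iff_exists_ne_one.1 hM1
    exact ⟨zpowers m, (zpowers_le.2 hm).trans hMC, fun e => hm1 (Subtype.ext (zpowers_eq_bot.1 e)), inferInstance,
      h0.trans ((cent_mono (zpowers_le.2 hm)).trans (cent_le_norm _))⟩
  obtain ⟨A, ⟨hAG, hA, hAM⟩, hminA⟩ := (wellFounded_lt (α := Subgroup H)).has_min
    {A | A ≤ G ∧ G ≤ 𝒩(A) ∧ ¬ A ≤ 𝒞(M)} ⟨G, le_rfl, le_normalizer, h0⟩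
  have hA' : ⁅A, A⁆ ≤ A := commutator_le_of_le_norm le_normalizer
  have h1 : ⁅A, A⁆ ≤ 𝒞(M) := by_contra fun e => hminA _ ⟨hA'.trans hAG, le_norm_commutator hA hA, e⟩ (by
    have := Group.IsSolvable.commutator_lt_of_ne_bot (H := A.subgroupOf G) fun e' =>
      hAM ((le_inf le_rfl hAG).trans ((disjoint_iff.1 (subgroupOf_eq_bot.1 e')).le.trans bot_le))
    rwa [← map_lt_map_iff_of_injective G.subtype_injective, map_commutator, map_subgroupOf_eq_of_le hAG] at this)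
  obtain ⟨q, hq, Q, hQ, hQM⟩ : ∃ q, ∃ _ : Fact q.Prime, ∃ Q, IsSylowIn q Q A ∧ ¬ Q ≤ 𝒞(M) := by
    by_contra! e
    exact hAM (le_of_forall_exists_isSylowIn_le fun p hp _ =>
      haveI := Fact.mk hp
      (exists_isSylowIn p A).imp fun S hS => ⟨hS, e p this S hS⟩)
  have h2 : ⁅A, A⁆ ⊔ Q = A := (sup_le hA' hQ.le).eq_of_not_lt (hminA _ ⟨(sup_le hA' hQ.le).trans hAG, fun g hg => by
    obtain ⟨n, hn, e⟩ := hQ.frattini hA hg
    have h3 : A ≤ 𝒩(⁅A, A⁆ ⊔ Q) :=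
      le_norm_of_commutator_le ((commutator_mono (sup_le hA' hQ.le) le_rfl).trans le_sup_left)
    refine (mul_mem_cancel_left (h3 hn)).1 (le_norm_sup (zpowers_le.2 ?_) (zpowers_le.2 e) (mem_zpowers _))
    exact le_norm_commutator hA hA (mul_mem (hAG hn) hg), fun e => hQM (le_sup_right.trans e)⟩)
  have QM : Q ≤ 𝒩(M) := hQ.le.trans (hAG.trans hM)
  have h3 : M ⊓ 𝒞(Q) = ⊥ := by
    have e : M ⊓ 𝒞(Q) = M ⊓ 𝒞(A) := le_antisymm
      (le_inf inf_le_left (by rw [← h2, cent_sup]; exact inf_le_inf_right _ (le_centralizer_iff.1 h1)))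
      (inf_le_inf_left _ (cent_mono hQ.le))
    rw [e]
    exact by_contra fun e' => hmin _ ⟨inf_le_left.trans hMC, e', le_norm_inf hM (le_norm_cent hA)⟩
      (inf_lt_left.2 fun e'' => hAM (le_centralizer_iff.1 e''))
  have h4 : (Nat.card Q).Coprime (Nat.card M) := by
    obtain ⟨T, hT, hle⟩ := exists_isSylowIn_ge hQ.isPGroup (le_sup_left : Q ≤ Q ⊔ M)
    have h5 := hT.inf_of_normalized le_sup_right (sup_le QM le_normalizer)
    have h6 : T ⊓ M = ⊥ := by_contra fun e => inf_cent_ne_bot h5.isPGroup hQ.isPGroup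
      (le_norm_inf (hle.trans le_normalizer) QM) e (eq_bot_iff.2 (h3 ▸ inf_le_inf_right _ inf_le_right))
    obtain ⟨k, hk⟩ := hQ.isPGroup.exists_card_eq
    rw [hk]
    refine Nat.Coprime.pow_left _ ((Nat.Prime.coprime_iff_not_dvd hq.out).2 ?_)
    simpa [h6] using h5.not_dvd
  have sQ : Group.IsSolvable Q := haveI := hQ.isPGroup.isNilpotent; inferInstance
  obtain ⟨r, hr, hd⟩ := Nat.exists_prime_and_dvd (fun e => hM1 (card_eq_one.1 e))
  haveI := Fact.mk hr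
  obtain ⟨P, hP, hQP⟩ := exists_isSylowIn_le_normalizer r QM h4 (Or.inl sQ)
  have hAP : A ≤ 𝒩(P) := h2 ▸ sup_le (h1.trans ((cent_mono hP.le).trans (cent_le_norm _))) hQP
  refine ⟨P, hP.le.trans hMC, fun e => hP.not_dvd (by simpa [e] using hd),
    haveI := hP.isPGroup.isNilpotent; inferInstance, fun g hg => ?_⟩
  obtain ⟨c, hc, e⟩ := hP.exists_centralizer_conj_eq QM h4 (Or.inl sQ) (syl_cj_of_mem_norm hP (hM hg)) hQP
    (hQ.le.trans (by rw [← cj_norm, ← cj_eq (hA hg)]; exact cj_mono g hAP))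
  rw [h3, mem_bot] at hc
  rw [← cj_eq_iff_mem, ← e, hc, map_one, one_smul]

end CL.SL.Tc
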