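/-
The three-closure of a solvable permutation group: a perfect group that preserves the orbits of `E`.
-/
import Cfsg.Agent.Fgs.TcDefs

set_option autoImplicit false
set_option linter.style.haveILetI false

open Subgroup CL.Odd CL.Grp CL.SL.Vc
open scoped commutatorElement Pointwise

namespace CL.SL.Tc

universe u

namespace J

/-- a perfect group that preserves differences up to sign is trivial -/
theorem tr_of_pm {Z X : Type*} [Group Z] [AddCommGroup X] [MulAction Z X] (hZ : Group.IsPerfect Z)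
    (h : ∀ (z : Z) (x y : X), z • x - z • y = x - y ∨ z • x - z • y = y - x) : Tr Z X := by
  have h1 : ∀ z : Z, (∀ x y : X, z • x - z • y = x - y) ∨ ∀ x y : X, z • x - z • y = y - x := fun z => by
    have : (∀ x : X, z • x - z • 0 = x - 0) ∨ ∀ x : X, z • x - z • 0 = 0 - x := by
      by_contra hc
      push Not at hc
      obtain ⟨⟨t, ht⟩, s, hs⟩ := hc
      have a1 := (h z t 0).resolve_left ht
      have a2 := (h z s 0).resolve_right hs
      rcases h z s t with a | a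
      · exact ht (by linear_combination (norm := abel) a2 - a)
      · exact hs (by linear_combination (norm := abel) a1 + a)
    exact this.imp (fun e x y => by linear_combination (norm := abel) e x - e y)
      fun e x y => by linear_combination (norm := abel) e x - e y
  let T : Subgroup Z :=
    { carrier := {z | ∀ x y : X, z • x - z • y = x - y}
      one_mem' := fun x y => by rw [one_smul, one_smul]
      mul_mem' := fun ha hb x y => by rw [mul_smul, mul_smul, ha, hb]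
      inv_mem' := fun {a} ha x y => by rw [← ha, smul_inv_smul, smul_inv_smul] }
  have h2 : ∀ z : Z, z * z ∈ T := fun z x y => by
    rw [mul_smul, mul_smul]
    rcases h1 z with e | e <;> rw [e, e]
  have h3 : ∀ z : Z, z ∈ T := fun z => (commutator_le (H₁ := ⊤) (H₂ := ⊤) (H₃ := T)).2 (fun a _ b _ => by
    rw [show ⁅a, b⁆ = a * a * (a⁻¹ * b * (a⁻¹ * b)) * (b⁻¹ * b⁻¹) by rw [commutatorElement_def]; group]
    exact mul_mem (mul_mem (h2 _) (h2 _)) (h2 _)) Group.IsPerfect.mem_commutator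
  have h4 := add_eq_zero hZ (fun z : Z => z • (0 : X)) fun a b => by
    rw [mul_smul]
    linear_combination (norm := abel) h3 a (b • 0) 0
  intro z x
  have h5 : z • (0 : X) = 0 := h4 z
  linear_combination (norm := abel) h3 z x 0 + h5

variable {G : Type u} [Group G]

/-- an abelian section, written additively -/
theorem exists_ab [Finite G] (A B : Subgroup G) (h : ∀ a ∈ B, ∀ b ∈ B, ⁅a, b⁆ ∈ A) :
    ∃ (X : Type u) (_ : AddCommGroup X) (_ : Finite X) (ν : G → X), (∀ a ∈ B, ∀ b ∈ B, ν (a * b) = ν a + ν b) ∧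
      (∀ a ∈ B, ∀ b ∈ B, ν a = ν b ↔ a⁻¹ * b ∈ A) ∧ (∀ w, ∃ a ∈ B, ν a = w) ∧ Nat.card X = A.relIndex B := by
  classical
  haveI : (A.subgroupOf B).Normal := ⟨fun x hx y => by
    have : ((y * x * y⁻¹ : B) : G) = ⁅(y : G), (x : G)⁆ * x := by simp [commutatorElement_def]
    rw [mem_subgroupOf, this]
    exact mul_mem (h _ y.2 _ x.2) hx⟩
  letI : CommGroup (B ⧸ A.subgroupOf B) := { (inferInstance : Group _) with
    mul_comm := fun x y => by
      obtain ⟨x, rfl⟩ := QuotientGroup.mk_surjective x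
      obtain ⟨y, rfl⟩ := QuotientGroup.mk_surjective y
      rw [← QuotientGroup.mk_mul, ← QuotientGroup.mk_mul, QuotientGroup.eq, mem_subgroupOf]
      have : (((x * y)⁻¹ * (y * x) : B) : G) = ⁅(y : G)⁻¹, (x : G)⁻¹⁆ := by simp [commutatorElement_def, mul_assoc]
      exact this ▸ h _ (B.inv_mem y.2) _ (B.inv_mem x.2) }
  refine ⟨Additive (B ⧸ A.subgroupOf B), inferInstance, inferInstance,
    fun a => if ha : a ∈ B then Additive.ofMul (QuotientGroup.mk ⟨a, ha⟩) else 0, fun a ha b hb => ?_,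
    fun a ha b hb => ?_, fun w => ?_, rfl⟩
  · simp only [dif_pos ha, dif_pos hb, dif_pos (B.mul_mem ha hb)]; rfl
  · simp only [dif_pos ha, dif_pos hb]
    exact QuotientGroup.eq (a := (⟨a, ha⟩ : B)) (b := ⟨b, hb⟩)
  · obtain ⟨x, hx⟩ := QuotientGroup.mk_surjective w.toMul
    exact ⟨x, x.2, by simp only [dif_pos x.2]; exact congrArg Additive.ofMul hx⟩

variable {Z V : Type*} [Group Z] [AddCommGroup V] [DistribMulAction G V] [DistribMulAction Z V]

/-- the induced action on a quotient of an orbit -/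
theorem exists_act {X : Type*} {B : Subgroup G} {ν : G → X} {ξ : V} (hs : ∀ w, ∃ a ∈ B, ν a = w)
    (h1 : ∀ (z : Z), ∀ s ∈ B, ∃ t ∈ B, z • s • ξ = t • ξ)
    (h2 : ∀ (z : Z), ∀ s ∈ B, ∀ s' ∈ B, ∀ t ∈ B, ∀ t' ∈ B, z • s • ξ = s' • ξ → z • t • ξ = t' • ξ → ν s = ν t →
      ν s' = ν t') :
    ∃ _ : MulAction Z X, ∀ (z : Z), ∀ s ∈ B, ∀ t ∈ B, z • s • ξ = t • ξ → z • ν s = ν t := by
  choose σ σ1 σ2 using hs
  choose π π1 π2 using h1
  have key : ∀ (z : Z), ∀ s ∈ B, ∀ t ∈ B, z • s • ξ = t • ξ → ν (π z (σ (ν s)) (σ1 _)) = ν t :=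
    fun z s hs t ht e => h2 z _ (σ1 _) _ (π1 _ _ _) s hs t ht (π2 _ _ _) e (σ2 _)
  refine ⟨{ smul := fun z x => ν (π z (σ x) (σ1 x)), one_smul := fun x => ?one, mul_smul := fun a b x => ?mul }, key⟩
  case one =>
    have := key 1 _ (σ1 x) _ (σ1 x) (one_smul _ _)
    rwa [σ2] at this
  case mul =>
    have := key (a * b) _ (σ1 x) _ (π1 a _ (π1 b _ (σ1 x))) (by rw [mul_smul, π2 b _ (σ1 x), π2])
    rw [σ2] at this
    exact this.trans (key a _ (π1 b _ (σ1 x)) _ (π1 _ _ _) (π2 _ _ _)).symm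

variable {p : ℕ} {U E D : Subgroup G} {ξ : V}

theorem mx_conj (m : Mx E D ξ) (hE : E.Normal) (g : G) : Mx E (MulAut.conj g • D) (g • ξ) := by
  refine ⟨smul_ne g m.ne, (conj_smul_le_iff _ _ _).2 fun d hd => hE.conj_mem _ (m.le hd) g, fun d hd => ?_,
    fun η h1 h2 t ht e => (mem_conj_smul_iff _ _ _).2 (m.max (g⁻¹ • η) (smul_ne _ h1) (fun d hd => ?_) _
      (hE.conj_mem' _ ht g) (by rw [mul_smul, mul_smul, smul_inv_smul, e]))⟩
  · have := m.fx _ ((mem_conj_smul_iff _ _ _).1 hd)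
    rwa [mul_smul, mul_smul, inv_smul_eq_iff] at this
  · have := h2 _ (conj_mem_conj_smul g hd)
    rwa [mul_smul, mul_smul, smul_eq_iff_eq_inv_smul] at this

theorem inj2 {s t : G} (h : s⁻¹ * t ∉ C[D]) (i j : Fin 2) (hc : (![s, t] i)⁻¹ * ![s, t] j ∈ C[D]) : i = j := by
  fin_cases i <;> fin_cases j
  · rfl
  · exact absurd hc h
  · exact absurd (by simpa using inv_mem hc) h
  · rfl

variable [Finite G] (h : Setup V p U E) (m : Mx E D ξ) (hO : ∀ (z : Z) (v : V), ∃ e ∈ E, z • v = e • v)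
include h m hO

theorem f1 (z : Z) {s s' t t' : G} (hs' : s' ∈ E) (ht' : t' ∈ E) (e1 : z • s • ξ = s' • ξ)
    (e2 : z • t • ξ = t' • ξ) (hs : s ∈ E) (hc : s⁻¹ * t ∈ C[D]) : s'⁻¹ * t' ∈ C[D] := by
  by_contra hn
  obtain ⟨e, he, e3⟩ := hO z (s • ξ + t • ξ)
  have h1 : In D s (s • ξ + t • ξ) := by
    rw [In, smul_add]; exact Fx.add (m.fx.blk s) ((m.fx.blk t).of hc)
  have key := fun i => h.rep_unique (ι := Fin 2) (κ := Unit) m.le (t := ![s', t']) (η := fun i => ![s', t'] i • ξ)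
    (t' := fun _ => e * s) (η' := fun _ => e • (s • ξ + t • ξ)) (fun i => by fin_cases i; exacts [hs', ht'])
    (fun i => m.fx.blk _) (inj2 hn) (fun _ => mul_mem he hs) (fun _ => h1.smul e) (fun _ _ _ => rfl)
    (by simp [← e3, e1, e2]) i (smul_ne _ m.ne)
  obtain ⟨_, a, -⟩ := key 0
  obtain ⟨_, b, -⟩ := key 1
  exact hn (by simpa [mul_assoc] using mul_mem a (inv_mem b))

theorem f2 (z : Z) {s s' t t' : G} (hs' : s' ∈ E) (ht' : t' ∈ E) (e1 : z • s • ξ = s' • ξ)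
    (e2 : z • t • ξ = t' • ξ) (hs : s ∈ E) (ht : t ∈ E) (hc : s⁻¹ * t ∉ C[D]) :
    ∃ e ∈ E, s'⁻¹ * (e * s) ∈ C[D] ∧ t'⁻¹ * (e * t) ∈ C[D] ∨ s'⁻¹ * (e * t) ∈ C[D] ∧ t'⁻¹ * (e * s) ∈ C[D] := by
  have hn : s'⁻¹ * t' ∉ C[D] := fun hn =>
    hc (f1 h m hO z⁻¹ hs ht (inv_smul_eq_iff.2 e1.symm) (inv_smul_eq_iff.2 e2.symm) hs' hn)
  obtain ⟨e, he, e3⟩ := hO z (s • ξ + t • ξ)
  have key := fun i => h.rep_unique (ι := Fin 2) (κ := Fin 2) m.le (t := ![s', t']) (η := fun i => ![s', t'] i • ξ)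
    (t' := ![e * s, e * t]) (η' := fun i => ![e * s, e * t] i • ξ) (fun i => by fin_cases i; exacts [hs', ht'])
    (fun i => m.fx.blk _) (inj2 hn) (fun i => by fin_cases i; exacts [mul_mem he hs, mul_mem he ht])
    (fun i => m.fx.blk _) (inj2 (by simpa [mul_assoc] using hc))
    (by simp [← e1, ← e2, mul_smul, ← smul_add, e3]) i (smul_ne _ m.ne)
  obtain ⟨i, a, -⟩ := key 0
  obtain ⟨j, b, -⟩ := key 1
  refine ⟨e, he, ?_⟩
  fin_cases i <;> fin_cases j
  · exact absurd (by simpa [mul_assoc] using mul_mem a (inv_mem b)) hn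
  · exact Or.inl ⟨a, b⟩
  · exact Or.inr ⟨a, b⟩
  · exact absurd (by simpa [mul_assoc] using mul_mem a (inv_mem b)) hn

omit [Finite G] h m in
theorem ex (z : Z) {s : G} (hs : s ∈ E) : ∃ t ∈ E, z • s • ξ = t • ξ :=
  let ⟨e, he, e1⟩ := hO z (s • ξ)
  ⟨e * s, mul_mem he hs, by rw [e1, mul_smul]⟩

theorem cent (hZ : Group.IsPerfect Z) (z : Z) {s t : G} (hs : s ∈ E) (ht : t ∈ E) (e : z • s • ξ = t • ξ) :
    s⁻¹ * t ∈ C[D] := by
  obtain ⟨X, _, _, ν, n1, n2, n3, -⟩ := exists_ab C[D] E fun a ha b hb => (h.U_le_cent m.le (h.comm a ha b hb)).2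
  obtain ⟨_, k⟩ := exists_act (Z := Z) (ξ := ξ) n3 (fun z s hs => ex hO z hs)
    fun z s hs s' hs' t ht t' ht' e1 e2 e => (n2 _ hs' _ ht').2 (f1 h m hO z hs' ht' e1 e2 hs ((n2 _ hs _ ht).1 e))
  refine (n2 _ hs _ ht).1 ((tr_of_pm hZ (fun z x y => ?_) z _).symm.trans (k z s hs t ht e))
  obtain ⟨s, hs, rfl⟩ := n3 x
  obtain ⟨t, ht, rfl⟩ := n3 y
  by_cases hc : s⁻¹ * t ∈ C[D]
  · rw [(n2 _ hs _ ht).2 hc, sub_self, sub_self]; exact Or.inl rfl
  obtain ⟨s', hs', e1⟩ := ex hO z hs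
  obtain ⟨t', ht', e2⟩ := ex hO z ht
  obtain ⟨e, he, a⟩ := f2 h m hO z hs' ht' e1 e2 hs ht hc
  rw [← n2 _ hs' _ (mul_mem he hs), ← n2 _ ht' _ (mul_mem he ht), ← n2 _ hs' _ (mul_mem he ht),
    ← n2 _ ht' _ (mul_mem he hs), n1 _ he _ hs, n1 _ he _ ht] at a
  rw [k z s hs s' hs' e1, k z t ht t' ht' e2]
  exact a.imp (fun a => by rw [a.1, a.2]; abel) fun a => by rw [a.1, a.2]; abel

theorem fix (hZ : Group.IsPerfect Z) (hU : ∀ (z : Z), ∀ u ∈ U, ∀ v : V, z • u • v = u • z • v) (z : Z) :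
    z • ξ = ξ := by
  obtain ⟨X, _, _, ν, n1, n2, n3, n4⟩ := exists_ab (D ⊔ U) (E ⊓ C[D]) fun a ha b hb =>
    mem_sup_right (h.comm a ha.1 b hb.1)
  have h1 : ∀ (z : Z), ∀ s ∈ E ⊓ C[D], ∃ t ∈ E ⊓ C[D], z • s • ξ = t • ξ := fun z s hs =>
    let ⟨t, ht, e⟩ := ex hO z hs.1
    ⟨t, ⟨ht, (C[D].mul_mem_cancel_left (inv_mem hs.2)).1 (cent h m hO hZ z hs.1 ht e)⟩, e⟩
  obtain ⟨_, k⟩ := exists_act (Z := Z) (ξ := ξ) n3 h1 fun z s hs s' hs' t ht t' ht' e1 e2 e => by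
    obtain ⟨d, hd, u, hu, e3⟩ := h.mem_sup_iff.1 ((n2 _ hs _ ht).1 e)
    have e4 : t • ξ = u • s • ξ := by
      rw [← mul_inv_cancel_left s t, ← e3, mul_smul, mul_smul, ← h.smul_U hu (m.le hd), m.fx d hd, h.smul_U hu hs.1]
    rw [e4, hU z u hu, e1, h.smul_U hu hs'.1] at e2
    have h2 := m.mem (mul_mem (inv_mem (mul_mem hs'.1 (h.le hu))) ht'.1) (by
      rw [mul_smul, ← e2, ← mul_smul s', inv_smul_smul])
    refine (n2 _ hs' _ ht').2 ?_
    rw [show s'⁻¹ * t' = u * ((s' * u)⁻¹ * t') by group]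
    exact mul_mem (mem_sup_right hu) (mem_sup_left h2)
  have h2 : ∀ z : Z, ∃ u : U, z • ξ = (u : G) • ξ := fun z => by
    obtain ⟨t, ht, e⟩ := h1 z 1 (one_mem _)
    have := (tr_of_card_le_four hZ (by have := relIndex_Q h m; omega) z _).symm.trans (k z 1 (one_mem _) t ht e)
    obtain ⟨d, hd, u, hu, e3⟩ := h.mem_sup_iff.1 ((n2 _ (one_mem _) _ ht).1 this)
    rw [inv_one, one_mul] at e3
    rw [one_smul, ← e3, mul_smul, ← h.smul_U hu (m.le hd), m.fx d hd] at e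
    exact ⟨⟨u, hu⟩, e⟩
  choose f hf using h2
  have hc : ∀ a b : U, a * b = b * a := fun a b => Subtype.ext (h.cent _ a.2 _ (h.le b.2))
  have := hom_eq_one hZ (Group.isSolvable_of_comm hc) (MonoidHom.mk' f fun a b => (inv_mul_eq_one.1 (Subtype.ext
    (h.eq_one ((f a * f b)⁻¹ * f (a * b)).2 m.ne (by
      rw [coe_mul, mul_smul, ← hf, mul_smul, hf b, hU a _ (f b).2, hf a, ← mul_smul (f b : G), ← coe_mul, hc, coe_inv,
        inv_smul_smul])))).symm) z
  rw [hf, show f z = 1 from this, coe_one, one_smul]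

end J

theorem jThm : JThm.{u} := by
  intro G Z V _ _ _ _ _ _ _ p U E h hi hZ hO hU z v
  obtain h0 | h0 := subsingleton_or_nontrivial V
  · exact Subsingleton.elim _ _
  obtain ⟨D, ξ, m⟩ := exists_mx (V := V) E
  let Y : AddSubgroup V :=
    { carrier := {v | ∀ g : G, z • g • v = g • v}
      zero_mem' := fun g => by rw [smul_zero, smul_zero]
      add_mem' := fun ha hb g => by rw [smul_add, smul_add, ha, hb]
      neg_mem' := fun ha g => by rw [smul_neg, smul_neg, ha] }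
  have hY := (hi Y fun g v hv k => by rw [← mul_smul k]; exact hv _).resolve_left fun e =>
    m.ne (AddSubgroup.mem_bot.1 (e ▸ (fun g => J.fix h (J.mx_conj m h.nE g) hO hZ hU z : ξ ∈ Y)))
  simpa using (hY ▸ AddSubgroup.mem_top v : v ∈ Y) 1

end CL.SL.Tc
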