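/-
The three-closure of a solvable permutation group: the assembly.
-/
import Cfsg.Agent.Fgs.TcDefs

set_option autoImplicit false
set_option linter.style.haveILetI false

open Subgroup CL.Odd CL.Grp CL.SL.Vc
open scoped commutatorElement

namespace CL.SL.Tc

universe u

theorem index_eq_relIndex {H : Type*} [Group H] {L P : Subgroup H} (h : ∀ z : H, ∃ g ∈ L, ∃ x ∈ P, z = g * x) :
    L.index = L.relIndex P := by
  haveI : MulAction.IsPretransitive P (H ⧸ L) := MulAction.isPretransitive_iff_base ((1 : H) : H ⧸ L) |>.2 fun q => by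
    obtain ⟨z, rfl⟩ := QuotientGroup.mk_surjective q
    obtain ⟨g, hg, x, hx, e⟩ := h z⁻¹
    refine ⟨⟨x, hx⟩⁻¹, QuotientGroup.eq.2 ?_⟩
    rw [← inv_inv z, e]
    simpa using hg
  rw [index_eq_card, ← MulAction.index_stabilizer_of_transitive P ((1 : H) : H ⧸ L), relIndex]
  congr 1
  ext x
  rw [mem_subgroupOf, MulAction.mem_stabilizer_iff, eq_comm]
  exact QuotientGroup.eq.trans (by simp)

theorem relIndex_dvd_of_le {H : Type*} [Group H] (K : Subgroup H) [K.Normal] {P Q : Subgroup H} (h : P ≤ Q) :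
    K.relIndex P ∣ K.relIndex Q := by
  rw [← relIndex_subgroupOf h]
  exact relIndex_dvd_index_of_normal _ _

theorem StOn.dvd {B X : Type u} [Group B] [AddCommGroup X] [DistribMulAction B X] {S : Set X} {m : ℕ}
    (h : StOn ⊤ S m) {P : Subgroup B} (hP : ∀ x ∈ P, ∀ s ∈ S, x • s ∈ S) : (Kr B X).relIndex P ∣ m := by
  have := h P fun x => hP x x.2
  rwa [fix_top] at this

theorem num (hR : RecThm.{u}) (h4 : Set4.{u}) (hO : SetO.{u}) (h2 : Set2.{u}) (h3 : Gl3Thm.{u}) {H : Type u} [Group H]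
    [Finite H] {G K B : Subgroup H} [K.Normal] (hG : Group.IsSolvable G) {X : Type u} [AddCommGroup X] [Finite X]
    [DistribMulAction B X] {r : ℕ} (hr : r.Prime) (hX : ∀ x : X, r • x = 0)
    (c2 : r = 2 → ∀ b ∈ Kr B X, (b : H) ^ 4 ∈ K)
    (c3 : ∀ S : Set X, 0 ∉ S → ∃ P : Subgroup B, (∀ x ∈ P, ∀ s ∈ S, x • s ∈ S) ∧
      (∀ z : H, ∃ g ∈ G, ∃ x ∈ P, z = g * x) ∧ (DetOn ⊤ S → ∀ x ∈ P, x ∈ Kr B X → (x : H) ∈ K)) :
    (G ⊔ K).index ≤ 4 := by
  have k1 : ∀ P : Subgroup B, (∀ z : H, ∃ g ∈ G, ∃ x ∈ P, z = g * x) →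
      (G ⊔ K).index ∣ (K.subgroupOf B).relIndex P := fun P hP => by
    rw [index_eq_relIndex (P := P.map B.subtype) fun z => by
      obtain ⟨g, hg, x, hx, e⟩ := hP z
      exact ⟨g, mem_sup_left hg, x, mem_map_of_mem _ hx, e⟩, subgroupOf, relIndex_comap]
    exact relIndex_dvd_of_le_left _ le_sup_right
  have k2 : ∀ S : Set X, 0 ∉ S → DetOn ⊤ S → ∃ P : Subgroup B, (∀ x ∈ P, ∀ s ∈ S, x • s ∈ S) ∧
      (G ⊔ K).index ∣ (Kr B X).relIndex P := fun S h0 hS => by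
    obtain ⟨P, p1, p2, p3⟩ := c3 S h0
    refine ⟨P, p1, (k1 P p2).trans ?_⟩
    rw [← inf_relIndex_right (Kr B X)]
    exact relIndex_dvd_of_le_left _ fun x hx => p3 hS x hx.2 hx.1
  have k3 : ∀ m, Nice X m → (G ⊔ K).index ∣ m := by
    rintro m ⟨S, h0, hS, hm⟩
    obtain ⟨P, p1, p2⟩ := k2 S h0 hS
    exact p2.trans (hm.dvd p1)
  by_cases hr2 : r = 2
  swap
  · exact (Nat.le_of_dvd two_pos (k3 2 (hO hR X r hr hr2 hX))).trans (by norm_num)
  subst hr2
  obtain ⟨⟨S, h0, k, hk⟩, a2, a3⟩ := h2 X hX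
  obtain ⟨j, hj⟩ : ∃ j, (G ⊔ K).index = 2 ^ j := by
    obtain ⟨P, p1, p2, -⟩ := c3 S h0
    have : IsPGroup 2 (P ⧸ (K.subgroupOf B).subgroupOf P) := fun q => by
      obtain ⟨x, rfl⟩ := QuotientGroup.mk_surjective q
      refine ⟨k + 2, ?_⟩
      rw [← QuotientGroup.mk_pow, QuotientGroup.eq_one_iff, pow_add, pow_mul]
      exact c2 rfl ((x : B) ^ 2 ^ k) (mem_Kr.2 (hk P (fun x => p1 x x.2) x))
    obtain ⟨l, hl⟩ := this.exists_card_eq
    obtain ⟨j, -, e⟩ := (Nat.dvd_prime_pow Nat.prime_two).1 (hl ▸ k1 P p2 : (G ⊔ K).index ∣ 2 ^ l)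
    exact ⟨j, e⟩
  by_contra hn
  have h8 : 8 ∣ (G ⊔ K).index := by
    rw [hj] at hn ⊢
    refine pow_dvd_pow 2 (show 3 ≤ j from ?_)
    by_contra h
    interval_cases j <;> omega
  obtain ⟨l, hl⟩ := (show IsPGroup 2 (Multiplicative X) from fun x => ⟨1, hX x.toAdd⟩).exists_card_eq
  replace hl : Nat.card X = 2 ^ l := hl
  obtain h | rfl | h := lt_trichotomy l 3
  · have := h8.trans (k3 6 (a2 (hl ▸ Nat.pow_le_pow_right two_pos (Nat.le_of_lt_succ h))))
    omega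
  · obtain ⟨b1, S, h0, hS⟩ := a3 hl
    obtain ⟨P, p1, p2, -⟩ := c3 S h0
    obtain ⟨c, hc, h⟩ := h3 B X hl hX (G.subgroupOf B) (isSolvable_subgroupOf G B) (by
      rw [index_eq_relIndex (P := P) fun z => by
        obtain ⟨g, hg, x, hx, e⟩ := p2 z
        refine ⟨z * x⁻¹, mem_sup_left (mem_subgroupOf.2 ?_), x, hx, by simp⟩
        simpa [e] using hg]
      exact (relIndex_dvd_of_le_left _ le_sup_right).trans (hS.dvd p1))
    obtain ⟨P, q1, q2⟩ := k2 {0, c}ᶜ (by simp) (b1 c hc)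
    refine h ((h8.trans q2).trans (relIndex_dvd_of_le _ fun x hx => ?_))
    by_contra h1
    have := q1 _ (inv_mem hx) (x • c) (by simpa using ⟨smul_ne x hc, h1⟩)
    simp at this
  · obtain ⟨W, S, hS⟩ := h4 X hX (hl ▸ Nat.pow_le_pow_right two_pos h)
    have := h8.trans (k3 12 (hR X W S 12 hS))
    omega

theorem stepB (hR : RecThm.{u}) (h4 : Set4.{u}) (hO : SetO.{u}) (h2 : Set2.{u}) (h3 : Gl3Thm.{u}) (hX : CfX.{u})
    (hC : CfG.{u}) (hV : CfV.{u}) {H V : Type u} [Group H] [Finite H] [AddCommGroup V] [Nontrivial V]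
    [DistribMulAction H V] {p : ℕ} {G U E : Subgroup H} (h : Setup V p U E) (hG : Group.IsSolvable G) (e2 : E2 G H V)
    {Z : Subgroup H} (hZ : Group.IsPerfect Z) : Z = ⊥ := by
  obtain ⟨D, ξ, m⟩ := exists_mx (V := V) E
  obtain ⟨ξ, m, τ, hτ, pin⟩ := h.pin m
  let B : Subgroup H := MulAction.stabilizer H ξ ⊓ MulAction.stabilizer H (τ • ξ)
  have k1 : ∀ r : ℕ, r.Prime → Z ≤ Kp h.toGS r := fun r hr z hz => by
    haveI := Kp_normal h.toGS r
    obtain ⟨X, _, _, _, ν, xs, hx⟩ := hX H U E D B h.toGS r m.le fun b hb => m.norm h.nE hb.1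
    obtain ⟨-, c2, c3⟩ := hC H U E D B h.toGS r X ν hr xs m.le (h.le_cent m) (h.disj m)
      fun b hb q hq => (pin b hb.1 hb.2 hq).2
    have hn := num hR h4 hO h2 h3 hG hr hx c2 fun S h0 => by
      obtain ⟨P, p1, p2, p3⟩ := hV H V p G U E D B h ξ τ r X ν xs m hτ (fun _ => Iff.rfl) e2 S h0
      exact ⟨P, p1, p2, fun hS x hx hk => c3 S hS x hk fun y hy => p3 x hx y hy (mem_Kr.1 hk y)⟩
    have h1 : ∀ z : Z, QuotientGroup.mk' (Kp h.toGS r) z ∈ G.map (QuotientGroup.mk' (Kp h.toGS r)) := fun z => by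
      have : (z : H) ∈ MulAction.stabilizer H ((1 : H) : H ⧸ (G ⊔ Kp h.toGS r)) :=
        MulAction.mem_stabilizer_iff.2 (tr_of_card_le_four hZ hn z ((1 : H) : H ⧸ (G ⊔ Kp h.toGS r)))
      rw [MulAction.stabilizer_quotient] at this
      have := mem_map_of_mem (QuotientGroup.mk' (Kp h.toGS r)) this
      rwa [Subgroup.map_sup, QuotientGroup.map_mk'_self, sup_bot_eq] at this
    exact (QuotientGroup.eq_one_iff z).1 (congrArg Subtype.val (hom_eq_one hZ
      (Group.isSolvable_of_surjective ((QuotientGroup.mk' (Kp h.toGS r)).subgroupMap_surjective G))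
      (((QuotientGroup.mk' (Kp h.toGS r)).comp Z.subtype).codRestrict _ h1) ⟨z, hz⟩))
  have e : ⁅Z, Z⁆ = Z := isPerfect_iff.1 hZ
  have k2 : Z ≤ E := fun z hz => by
    let T : Subgroup H :=
      { carrier := {a | dl z a ∈ U}
        one_mem' := by simp [dl]
        mul_mem' := fun {a b} ha hb => by
          rw [Set.mem_ofPred_eq, dl_mul]
          exact mul_mem (by simpa using h.nU.conj_mem _ ha b⁻¹) hb
        inv_mem' := fun {a} ha => by
          rw [Set.mem_ofPred_eq, dl_inv]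
          exact h.nU.conj_mem _ (inv_mem ha) a }
    refine h.mem_E_of_dl (fun a ha => ?_) fun u hu => dl_of_comm (mem_centralizer_iff.1
      (dr_one_le h.toGS (commutator_mono le_top le_top (e.ge hz))) u hu).symm
    have := h.pow_mem_of_primes (T := T) le_rfl (fun u hu => mul_mem (inv_mem hu) (h.nU.conj_mem u hu z))
      one_ne_zero (fun r hr _ t ht htr => k1 r hr hz t ⟨ht, htr⟩) ha
    rwa [pow_one] at this
  have := dr_two_bot h.toGS (H := Z) (k := 0) k2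
  rwa [dr_succ, dr_succ, dr_zero, e, e] at this

/-- the primitive linear case -/
def PrimL : Prop := ∀ (H V : Type u) [Group H] [Finite H] [AddCommGroup V] [Finite V] [Nontrivial V]
  [DistribMulAction H V] (G : Subgroup H) (p : ℕ) (U E : Subgroup G), Faith H V → Group.IsSolvable G → MaxS G →
    Irr G V → E2 G H V → Setup V p U E → ∀ Z : Subgroup H, Group.IsPerfect Z → Z = ⊥

theorem lStep (h1 : PrimL.{u}) (h2 : ImpThm.{u}) (n : ℕ) (hP : ∀ m < n, PThm.{u} m) (hL : ∀ m < n, LThm.{u} m) :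
    LThm.{u} n := by
  rintro G Z V _ _ _ _ _ _ _ rfl hG hi hZ e2
  obtain h0 | h0 := subsingleton_or_nontrivial V
  · exact fun _ _ => Subsingleton.elim _ _
  haveI : Finite (V ≃ₗ[ℤ] V) := Finite.of_injective (fun f : V ≃ₗ[ℤ] V => (f : V → V)) DFunLike.coe_injective
  let H : Subgroup (V ≃ₗ[ℤ] V) :=
    { carrier := {f | ∀ v w : V, ∃ g : G, g • v = f • v ∧ g • w = f • w}
      one_mem' := fun v w => ⟨1, by simp⟩
      mul_mem' := fun {a b} ha hb v w => by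
        obtain ⟨g, e1, e2⟩ := hb v w
        obtain ⟨k, e3, e4⟩ := ha (b • v) (b • w)
        exact ⟨k * g, by rw [mul_smul, mul_smul, e1, e3], by rw [mul_smul, mul_smul, e2, e4]⟩
      inv_mem' := fun {a} ha v w => by
        obtain ⟨g, e1, e2⟩ := ha (a⁻¹ • v) (a⁻¹ • w)
        rw [smul_inv_smul] at e1 e2
        exact ⟨g⁻¹, inv_smul_eq_iff.2 e1.symm, inv_smul_eq_iff.2 e2.symm⟩ }
  let φ : G →* H := (DistribMulAction.toModuleAut ℤ V).codRestrict H fun g v w => ⟨g, rfl, rfl⟩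
  let ψ : Z →* H := (DistribMulAction.toModuleAut ℤ V).codRestrict H e2
  obtain ⟨M, hM, hs, hm⟩ := Finite.exists_le_maximal (a := φ.range) (p := fun M : Subgroup H => Group.IsSolvable M)
    (Group.isSolvable_of_surjective φ.rangeRestrict_surjective)
  have hf : Faith H V := fun g hg => Subtype.ext (LinearEquiv.ext hg)
  have e3 : E2 M H V := fun z v w => (z.2 v w).elim fun g hg => ⟨⟨φ g, hM ⟨g, rfl⟩⟩, hg⟩
  have hi' : Irr M V := fun Y hY => hi Y fun g => hY ⟨φ g, hM ⟨g, rfl⟩⟩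
  obtain ⟨p, U, E, h⟩ | ⟨L, π, Y, I⟩ := HK.irr_cases' hs hi' fun g hg => Subtype.ext (hf g hg)
  · have := h1 H V M p U E hf hs (fun S hS hn => le_sup_left.trans (hm (sol_sup hS hs hn) le_sup_right))
      hi' e3 h ψ.range (Group.IsPerfect.range ψ)
    intro z v
    have h3 : ψ z = 1 := mem_bot.1 (this ▸ ⟨z, rfl⟩)
    exact (show z • v = ψ z • v from rfl).trans (by rw [h3, one_smul])
  · exact h2 M Z V L π Y hP hL hs I hZ fun z => e3 (ψ z)

theorem pThm_of (h0 : ∀ n : ℕ, (∀ m < n, PThm.{u} m) → LThm.{u} n → PThm.{u} n) (h1 : PrimL.{u}) (h2 : ImpThm.{u})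
    (n : ℕ) : PThm.{u} n := by
  suffices H : PThm.{u} n ∧ LThm.{u} n from H.1
  induction n using Nat.strong_induction_on with
  | _ n ih =>
    have := lStep h1 h2 n (fun m hm => (ih m hm).1) fun m hm => (ih m hm).2
    exact ⟨h0 n (fun m hm => (ih m hm).1) this, this⟩

theorem final (h : ∀ n, PThm.{u} n) {Ω : Type u} [Finite Ω] (G : Subgroup (Equiv.Perm Ω)) (hG : Group.IsSolvable G)
    (H : Subgroup (Equiv.Perm Ω)) (hH : ∀ h ∈ H, ∀ a b c : Ω, ∃ g ∈ G, g a = h a ∧ g b = h b ∧ g c = h c) :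
    Group.IsSolvable H :=
  solv_of_perfect H fun Z hZ hp => eq_bot_iff.2 fun z hz => Equiv.ext (h _ G Z Ω rfl hG hp
    (fun z a b c => (hH z (hZ z.2) a b c).elim fun g hg => ⟨⟨g, hg.1⟩, hg.2⟩) ⟨z, hz⟩)

end CL.SL.Tc
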