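/-
The three-closure of a solvable permutation group: the induction step for permutation groups.
-/
import Cfsg.Agent.Fgs.TcDefs

set_option autoImplicit false
set_option linter.style.haveILetI false

open Subgroup CL.Odd CL.Grp CL.SL.Vc
open scoped commutatorElement

namespace CL.SL.Tc

universe u

namespace PJ

variable {G Z Ω : Type u} [Group G] [Group Z] [MulAction G Ω] [MulAction Z Ω]

/-- the action on the classes of an invariant equivalence relation -/
@[reducible] def qAct (r : Setoid Ω) (h : ∀ (g : G) (a b : Ω), r a b → r (g • a) (g • b)) : MulAction G (Quotient r) where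
  smul g := Quotient.map' (g • ·) (h g)
  one_smul x := Quotient.inductionOn' x fun a => congrArg Quotient.mk'' (one_smul G a)
  mul_smul g g' x := Quotient.inductionOn' x fun a => congrArg Quotient.mk'' (mul_smul g g' a)

/-- the stabiliser of a class -/
def cSt (r : Setoid Ω) (h : ∀ (g : G) (a b : Ω), r a b → r (g • a) (g • b)) (a : Ω) : Subgroup G where
  carrier := {g | r (g • a) a}
  one_mem' := by rw [Set.mem_ofPred_eq, one_smul]
  mul_mem' {g g'} hg hg' := by rw [Set.mem_ofPred_eq, mul_smul]; exact r.trans' (h g _ _ hg') hg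
  inv_mem' {g} hg := r.symm' (by simpa using h g⁻¹ _ _ hg)

/-- the action on a class -/
@[reducible] def cAct {K : Type u} [Group K] [MulAction K Ω] (r : Setoid Ω) (a : Ω) (h : ∀ (k : K) (b : Ω), r b a → r (k • b) a) :
    MulAction K {b // r b a} where
  smul k b := ⟨k • b.1, h k _ b.2⟩
  one_smul b := Subtype.ext (one_smul K b.1)
  mul_smul k k' b := Subtype.ext (mul_smul k k' b.1)

theorem imprim [Finite G] [Finite Ω] (ih : ∀ m < Nat.card Ω, PThm.{u} m) (hG : Group.IsSolvable G)
    (hZ : Group.IsPerfect Z) (E : E3 G Z Ω) (r : Setoid Ω) (h : ∀ (g : G) (a b : Ω), r a b → r (g • a) (g • b))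
    (h0 : r ≠ ⊥) (h1 : r ≠ ⊤) : Tr Z Ω := by
  have hz : ∀ (z : Z) (a b : Ω), r a b → r (z • a) (z • b) := fun z a b hab => by
    obtain ⟨g, e1, e2, -⟩ := E z a b b
    rw [← e1, ← e2]; exact h g a b hab
  have k1 : ∀ (z : Z) (a : Ω), r (z • a) a := fun z a => by
    letI := qAct r h
    letI := qAct r hz
    have hlt : Nat.card (Quotient r) < Nat.card Ω := by
      refine lt_of_le_of_ne (Nat.card_le_card_of_surjective _ Quotient.mk''_surjective) fun e => h0 ?_
      have := ((Quotient.mk''_surjective (s₁ := r)).bijective_of_nat_card_le e.ge).1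
      exact eq_bot_iff.2 fun a b hab => this (Quotient.sound' hab)
    refine Quotient.exact' (ih _ hlt G Z (Quotient r) rfl hG hZ (fun z x y w => ?_) z (Quotient.mk'' a))
    induction x using Quotient.inductionOn' with | _ x
    induction y using Quotient.inductionOn' with | _ y
    induction w using Quotient.inductionOn' with | _ w
    obtain ⟨g, e1, e2, e3⟩ := E z x y w
    exact ⟨g, congrArg Quotient.mk'' e1, congrArg Quotient.mk'' e2, congrArg Quotient.mk'' e3⟩
  intro z a
  letI := cAct (K := Z) r a fun k b hb => r.trans' (k1 k b) hb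
  letI := cAct (K := cSt r h a) r a fun k b hb => r.trans' (h k _ _ hb) k.2
  have hlt : Nat.card {b // r b a} < Nat.card Ω := by
    refine lt_of_le_of_ne (Nat.card_le_card_of_injective _ Subtype.val_injective) fun e => h1 ?_
    have := ((Subtype.val_injective (p := fun b => r b a)).bijective_of_nat_card_le e.ge).2
    refine eq_top_iff.2 fun b c _ => ?_
    obtain ⟨b, rfl⟩ := this b
    obtain ⟨c, rfl⟩ := this c
    exact r.trans' b.2 (r.symm' c.2)
  refine congrArg Subtype.val (ih _ hlt (cSt r h a) Z {b // r b a} rfl inferInstance hZ (fun z x y w => ?_) z ⟨a, r.refl' a⟩)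
  obtain ⟨g, e1, e2, e3⟩ := E z x y w
  exact ⟨⟨g, r.trans' (h g _ _ (r.symm' x.2)) (e1 ▸ r.trans' (k1 z x) x.2)⟩, Subtype.ext e1, Subtype.ext e2,
    Subtype.ext e3⟩

theorem affine [Finite G] [Finite Ω] (hA : AddThm.{u}) (hL : LThm.{u} (Nat.card Ω)) (hG : Group.IsSolvable G)
    (hZ : Group.IsPerfect Z) (E : E3 G Z Ω) {A : Type u} [AddCommGroup A] [DistribMulAction G A] (e : Ω ≃ A)
    (hI : Irr G A) (he : ∀ (g : G) (a b : Ω), e (g • a) - e (g • b) = g • (e a - e b)) : Tr Z Ω := by
  haveI : Finite A := Finite.of_equiv Ω e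
  let f : Z → A → A := fun z x => e (z • e.symm x) - e (z • e.symm 0)
  have f0 : ∀ z, f z 0 = 0 := fun z => sub_self _
  have fa : ∀ z a b, f z (a + b) = f z a + f z b := fun z => hA G A hG hI (f z) (fun a b c => by
    obtain ⟨g, e1, e2, e3⟩ := E z (e.symm a) (e.symm b) (e.symm c)
    exact ⟨g, by simp only [f, sub_sub_sub_cancel_right, ← e1, ← e2, he, e.apply_symm_apply],
      by simp only [f, sub_sub_sub_cancel_right, ← e1, ← e3, he, e.apply_symm_apply]⟩) (f0 z)
  have st : ∀ (z : Z) (a b : Ω), e (z • a) - e (z • b) = f z (e a - e b) := fun z a b => by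
    have := fa z (e a - e b) (e b)
    rw [sub_add_cancel] at this
    rw [eq_sub_of_add_eq this.symm]
    simp only [f, e.symm_apply_apply, sub_sub_sub_cancel_right]
  letI : DistribMulAction Z A :=
    { smul := f
      one_smul := fun x => by change f 1 x = x; simp [f]
      mul_smul := fun z z' x => by
        change f (z * z') x = f z (f z' x)
        exact (by simp only [f, mul_smul] : _ = _).trans (st z (z' • e.symm x) (z' • e.symm 0))
      smul_zero := f0
      smul_add := fa }
  have k := hL G Z A (Nat.card_congr e).symm hG hI hZ fun z v w => by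
    obtain ⟨g, e1, e2, e3⟩ := E z (e.symm 0) (e.symm v) (e.symm w)
    refine ⟨g, ?_, ?_⟩
    · change _ = f z v
      simp only [f, ← e1, ← e2, he, e.apply_symm_apply, sub_zero]
    · change _ = f z w
      simp only [f, ← e1, ← e3, he, e.apply_symm_apply, sub_zero]
  have k' : ∀ (z : Z) (a b : Ω), e (z • a) - e (z • b) = e a - e b := fun z a b => (st z a b).trans (k z _)
  intro z a
  have := add_eq_zero hZ (fun z : Z => e (z • e.symm 0)) (fun z z' => by
    have := k' z (z' • e.symm 0) (e.symm 0)
    rw [e.apply_symm_apply, sub_zero, sub_eq_iff_eq_add'] at this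
    rw [mul_smul, this]) z
  have h2 := k' z a (e.symm 0)
  rw [this, e.apply_symm_apply, sub_zero, sub_zero] at h2
  exact e.injective h2

end PJ

theorem pStep : PStep.{u} := by
  rintro hA hF n ih hL G Z Ω _ _ _ _ _ _ rfl hG hZ E
  by_cases hp : Prim G Ω
  · by_cases ht : Tr G Ω
    · intro z a
      obtain ⟨g, e, -⟩ := E z a a a
      rw [← e, ht]
    · obtain ⟨A, _, _, e, hI, he⟩ := hF G Ω hG hp ht
      exact PJ.affine hA hL hG hZ E e hI he
  · simp only [Prim, not_forall, not_or] at hp
    obtain ⟨r, h, h0, h1⟩ := hp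
    exact PJ.imprim ih hG hZ E r h h0 h1

end CL.SL.Tc
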