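/-
The three-closure of a solvable permutation group: rigid determining subsets (job TCL-REC, helper52).
-/
import Cfsg.Agent.Fgs.TcDefs

set_option autoImplicit false
set_option linter.style.haveILetI false

namespace CL.SL.Tc

universe u

namespace Rec

open AddSubgroup

variable {X : Type u} [AddCommGroup X]

/-- the hypotheses of the step lemma -/
structure Pre (W : AddSubgroup X) (S : Set X) (e : X) : Prop where
  sub : S ⊆ W
  zero : 0 ∉ S
  gen : closure S = W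
  cs : closure ((W : Set X) \ S) = W
  five : 5 ≤ Nat.card W
  tri : ∃ a ∈ W, ∃ b ∈ W, ∃ c ∈ W, a ≠ 0 ∧ b ≠ 0 ∧ c ≠ 0 ∧ a + b ≠ 0 ∧ a + c ≠ 0 ∧ b + c ≠ 0 ∧ a + b + c ≠ 0
  ne : e ∉ W

/-- the larger subgroup and its subset -/
def W1 (S : Set X) (e : X) : AddSubgroup X := closure (insert e S)
def S1 (S : Set X) (e : X) : Set X := (W1 S e : Set X) \ insert 0 (insert e S)

theorem fix_closure {Γ : Type*} [Group Γ] [DistribMulAction Γ X] {T : Set X} {γ : Γ} (h : ∀ t ∈ T, γ • t = t) :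
    ∀ x ∈ closure T, γ • x = x := fun x hx => by
  induction hx using closure_induction with
  | mem x hx => exact h x hx
  | zero => simp
  | add x y _ _ hx hy => rw [smul_add, hx, hy]
  | neg x _ hx => rw [smul_neg, hx]

theorem map_closure' {Γ : Type*} [Group Γ] [DistribMulAction Γ X] {T : Set X} {W : AddSubgroup X} {γ : Γ}
    (h : ∀ t ∈ T, γ • t ∈ W) : ∀ x ∈ closure T, γ • x ∈ W := fun x hx => by
  induction hx using closure_induction with
  | mem x hx => exact h x hx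
  | zero => simp
  | add x y _ _ hx hy => rw [smul_add]; exact add_mem hx hy
  | neg x _ hx => rw [smul_neg]; exact neg_mem hx

namespace Pre

variable {W : AddSubgroup X} {S : Set X} {e : X} (h : Pre W S e)
include h

theorem le : W ≤ W1 S e := h.gen.ge.trans (closure_mono (Set.subset_insert _ _))
omit h in
theorem em : e ∈ W1 S e := subset_closure (Set.mem_insert _ _)

theorem out {x : X} (h1 : x ∈ W1 S e) (h2 : x ∉ W) (h3 : x ≠ e) : x ∈ S1 S e := ⟨h1, by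
  rintro (rfl | rfl | h4)
  exacts [h2 (zero_mem _), h3 rfl, h2 (h.sub h4)]⟩

theorem add {w : X} (hw : w ∈ W) (h0 : w ≠ 0) : e + w ∈ S1 S e :=
  h.out (add_mem em (h.le hw)) (fun h1 => h.ne ((add_mem_cancel_right hw).1 h1)) fun e1 => h0 (add_eq_left.1 e1)

theorem det : DetOn (W1 S e) (S1 S e) := fun A _ δ q h0 => by
  have he : δ e = 0 := by
    obtain ⟨a, ha, b, hb, c, hc, h1, h2, h3, h4, h5, h6, h7⟩ := h.tri
    have := q.cube e a b c
    simp only [add_assoc e] at this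
    rw [h0 _ (h.add (add_mem (add_mem ha hb) hc) h7), h0 _ (h.add ha h1), h0 _ (h.add hb h2), h0 _ (h.add hc h3),
      h0 _ (h.add (add_mem ha hb) h4), h0 _ (h.add (add_mem ha hc) h5), h0 _ (h.add (add_mem hb hc) h6)] at this
    simpa using this.symm
  have h1 : ∀ w ∈ W, δ (e + w) = 0 := fun w hw => by
    by_cases w0 : w = 0
    · rw [w0, add_zero, he]
    · exact h0 _ (h.add hw w0)
  have h2 : ∀ w ∈ W, ∀ w' ∈ W, δ (w + w') = δ w + δ w' := fun w hw w' hw' => by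
    have := q e w w'
    rw [add_assoc e, h1 _ (add_mem hw hw'), he, h1 w hw, h1 w' hw'] at this
    simpa using this.symm
  have h3 : ∀ w ∈ closure ((W : Set X) \ S), δ w = 0 := fun w hw => by
    induction hw using closure_induction with
    | mem x hx =>
      by_cases x0 : x = 0
      · rw [x0, q.zero]
      · refine h0 x ⟨h.le hx.1, ?_⟩
        rintro (rfl | rfl | h4)
        exacts [x0 rfl, h.ne hx.1, hx.2 h4]
    | zero => exact q.zero
    | add x y hx hy ex ey => rw [h2 x (h.cs.le hx) y (h.cs.le hy), ex, ey, add_zero]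
    | neg x hx ex =>
      have := h2 x (h.cs.le hx) _ (neg_mem (h.cs.le hx))
      rwa [add_neg_cancel, q.zero, ex, zero_add, eq_comm] at this
  intro w hw
  by_cases h4 : w ∈ W
  · exact h3 w (h.cs.ge h4)
  by_cases h5 : w = e
  · rw [h5, he]
  · exact h0 w (h.out hw h4 h5)

theorem rob (p : X) : closure (S1 S e \ {p}) = W1 S e := by
  classical
  have ch : ∀ w ∈ W, ∃ w1 ∈ W, e + w1 ∈ closure (S1 S e \ {p}) ∧ e + (w + w1) ∈ closure (S1 S e \ {p}) := fun w hw => by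
    obtain ⟨w1, h1, h2⟩ : ∃ w1 ∈ W, w1 ∉ ({0, p - e, -w, p - e - w} : Finset X) := by
      by_contra! hc
      have := Set.ncard_le_ncard (s := (W : Set X)) (t := (({0, p - e, -w, p - e - w} : Finset X) : Set X)) hc
      rw [Set.ncard_coe_finset, ← Nat.card_coe_set_eq] at this
      exact absurd ((h.five.trans this).trans Finset.card_le_four) (by omega)
    simp only [Finset.mem_insert, Finset.mem_singleton, not_or] at h2
    exact ⟨w1, h1, subset_closure ⟨h.add h1 h2.1, fun e1 => h2.2.1 (eq_sub_of_add_eq' e1)⟩,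
      subset_closure ⟨h.add (add_mem hw h1) fun e1 => h2.2.2.1 (eq_neg_of_add_eq_zero_right e1),
        fun e1 => h2.2.2.2 (eq_sub_of_add_eq' (eq_sub_of_add_eq' e1))⟩⟩
  have hW : W ≤ closure (S1 S e \ {p}) := fun w hw => by
    obtain ⟨w1, -, h1, h2⟩ := ch w hw
    simpa using sub_mem h2 h1
  refine le_antisymm ((closure_le _).2 fun x hx => hx.1.1) ((closure_le _).2 ?_)
  rintro x (rfl | hx)
  · obtain ⟨w1, h0, h1, -⟩ := ch 0 (zero_mem _)
    simpa using sub_mem h1 (hW h0)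
  · exact hW (h.sub hx)

theorem nm {t : X} (ht : t ∈ insert e S) : t ≠ 0 := by
  rintro rfl
  rcases ht with e1 | e1
  exacts [h.ne (e1 ▸ zero_mem _), h.zero e1]

theorem gs [Finite X] {m : ℕ} (st : StOn (W1 S e) (S1 S e) m) : Gs (W1 S e) (S1 S e) m where
  sub := fun _ hx => hx.1
  zero := fun h0 => h0.2 (.inl rfl)
  rob := h.rob
  cs := le_antisymm ((closure_le _).2 fun _ hx => hx.1)
    (closure_mono fun _ hx => ⟨subset_closure hx, fun h1 => h1.2 (.inr hx)⟩)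
  det := h.det
  five := h.five.trans (card_le_of_le h.le)
  tri := let ⟨a, ha, b, hb, c, hc, h1⟩ := h.tri; ⟨a, h.le ha, b, h.le hb, c, h.le hc, h1⟩
  st := st

theorem stab {Γ : Type*} [Group Γ] [DistribMulAction Γ X] (hs : ∀ γ : Γ, ∀ s ∈ S1 S e, γ • s ∈ S1 S e) (γ : Γ)
    {t : X} (ht : t ∈ insert e S) : γ • t ∈ insert e S := by
  by_contra hn
  have h1 : γ • t ∈ W1 S e := map_closure' (fun s h1 => (hs γ s h1.1).1) t ((h.rob 0).ge (subset_closure ht))
  have := hs γ⁻¹ _ ⟨h1, fun h2 => h2.elim (fun e1 => h.nm ht ((smul_eq_zero_iff_eq γ).1 e1)) hn⟩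
  rw [inv_smul_smul] at this
  exact this.2 (.inr ht)

theorem st [Finite X] {m : ℕ} (rob : ∀ p : X, closure (S \ {p}) = W) (st : StOn W S m) : StOn (W1 S e) (S1 S e) m :=
  fun Γ _ _ hs => by
  have he : ∀ γ : Γ, γ • e = e := fun γ => (h.stab hs γ (.inl rfl)).resolve_right fun hp => by
    have k : ∀ t ∈ insert e S, t ≠ γ • e → γ⁻¹ • t ∈ W := fun t ht hne =>
      h.sub ((h.stab hs γ⁻¹ ht).resolve_left fun e1 => hne (inv_smul_eq_iff.1 e1))
    have h1 : Set.MapsTo (γ⁻¹ • ·) (W : Set X) W := fun x hx =>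
      map_closure' (fun t ht => k t (.inr ht.1) ht.2) x ((rob (γ • e)).ge hx)
    obtain ⟨w, hw, e1⟩ := (((Set.toFinite _).injOn_iff_bijOn_of_mapsTo h1).1
      (MulAction.injective γ⁻¹).injOn).surjOn (k e (.inl rfl) fun e1 => h.ne (e1 ▸ h.sub hp))
    exact h.ne (MulAction.injective γ⁻¹ e1 ▸ hw)
  have : fixingSubgroup Γ (W1 S e : Set X) = fixingSubgroup Γ (W : Set X) := by
    ext γ
    rw [mem_fixingSubgroup_iff, mem_fixingSubgroup_iff]
    refine ⟨fun h1 x hx => h1 x (h.le hx), fun h1 => fix_closure ?_⟩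
    rintro t (rfl | ht)
    exacts [he γ, h1 t (h.sub ht)]
  rw [this]
  exact st Γ fun γ s h1 => (h.stab hs γ (.inr h1)).resolve_left fun e1 =>
    h.ne (((eq_inv_smul_iff.2 e1).trans (he γ⁻¹)) ▸ h.sub h1)

end Pre

/-- the model -/
abbrev V4 : Type := Fin 4 → ZMod 2
def W0 : AddSubgroup V4 where
  carrier := {v | v 3 = 0}
  zero_mem' := rfl
  add_mem' := fun {a b} (ha : a 3 = 0) (hb : b 3 = 0) => show a 3 + b 3 = 0 by rw [ha, hb, add_zero]
  neg_mem' := fun {a} (ha : a 3 = 0) => show -a 3 = 0 by rw [ha, neg_zero]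
def S0 : Finset V4 := {![1, 0, 0, 0], ![0, 1, 0, 0], ![1, 1, 0, 0], ![0, 0, 1, 0]}
def T0 : Finset V4 := insert ![0, 0, 0, 1] S0

theorem c_sub : (∀ v ∈ S0, v 3 = 0) ∧ 0 ∉ S0 := by decide +kernel
theorem c_gen : ∀ v : V4, v 3 = 0 → ∃ x ∈ S0, ∃ y ∈ S0, ∃ z ∈ S0, v = x + y + z := by decide +kernel
theorem c_cs : ∀ v : V4, v 3 = 0 → ∃ x : V4, (x 3 = 0 ∧ x ∉ S0) ∧ ∃ y : V4, (y 3 = 0 ∧ y ∉ S0) ∧
    ∃ z : V4, (z 3 = 0 ∧ z ∉ S0) ∧ v = x + y + z := by decide +kernel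
theorem c_card : Fintype.card {v : V4 // v 3 = 0} = 8 := by decide +kernel
theorem c_L : (Finset.univ.filter fun t : V4 => t ∈ T0 ∧ ∃ t' ∈ T0, t + t' ∈ T0).card = 3 ∧
    (Finset.univ.filter fun t : V4 => t ∈ T0 ∧ ¬ ∃ t' ∈ T0, t + t' ∈ T0).card = 2 := by decide +kernel

theorem exists_hom [Finite X] (h2 : ∀ x : X, 2 • x = 0) (hc : 16 ≤ Nat.card X) :
    ∃ φ : V4 →+ X, Function.Injective φ := by
  letI := AddCommGroup.zmodModule h2
  obtain ⟨f, hf⟩ := exists_linearIndependent_of_le_finrank (R := ZMod 2) (M := X) (n := 4) (by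
    rw [Module.natCard_eq_pow_finrank (K := ZMod 2), Nat.card_zmod] at hc
    exact (Nat.pow_le_pow_iff_right one_lt_two).1 (show 2 ^ 4 ≤ _ from hc))
  exact ⟨(Fintype.linearCombination (ZMod 2) f).toAddMonoidHom, hf.fintypeLinearCombination_injective⟩

end Rec

open Rec AddSubgroup

theorem recThm : RecThm.{u} := fun X _ _ W S m h => by
  obtain ⟨W, ⟨S, h⟩, hm⟩ := (wellFounded_gt (α := AddSubgroup X)).has_min {W | ∃ S, Gs W S m} ⟨W, S, h⟩
  obtain rfl : W = ⊤ := eq_top_iff.2 fun e _ => by_contra fun he => by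
    have p : Pre W S e := ⟨h.sub, h.zero, by rw [← h.rob 0, Set.sdiff_singleton_eq_self h.zero], h.cs, h.five, h.tri, he⟩
    exact hm _ ⟨_, p.gs (p.st h.rob h.st)⟩ (lt_of_le_of_ne p.le fun e1 => he (e1 ▸ Pre.em))
  exact ⟨S, h.zero, h.det, h.st⟩

theorem set4 : Set4.{u} := fun X _ _ h2 hc => by
  obtain ⟨φ, hφ⟩ := exists_hom h2 hc
  have h0 : ∀ v, φ v = 0 ↔ v = 0 := fun v => map_eq_zero_iff φ hφ
  have p : Pre (W0.map φ) (φ '' S0) (φ ![0, 0, 0, 1]) := by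
    refine ⟨?_, ?_, ?_, ?_, ?_, ⟨φ ![1, 0, 0, 0], mem_map_of_mem _ rfl, φ ![0, 1, 0, 0], mem_map_of_mem _ rfl,
      φ ![0, 0, 1, 0], mem_map_of_mem _ rfl, ?_⟩, fun e => absurd ((mem_map_iff_mem hφ).1 e) (by decide : ¬ (1 : ZMod 2) = 0)⟩
    · rintro _ ⟨v, hv, rfl⟩
      exact mem_map_of_mem _ (c_sub.1 v hv)
    · rintro ⟨v, hv, e⟩
      exact c_sub.2 ((h0 v).1 e ▸ hv)
    · rw [← AddMonoidHom.map_closure]
      refine congrArg _ (le_antisymm ((closure_le _).2 c_sub.1) fun v hv => ?_)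
      obtain ⟨x, hx, y, hy, z, hz, rfl⟩ := c_gen v hv
      exact add_mem (add_mem (subset_closure hx) (subset_closure hy)) (subset_closure hz)
    · rw [coe_map, ← Set.image_sdiff hφ, ← AddMonoidHom.map_closure]
      refine congrArg _ (le_antisymm ((closure_le _).2 fun _ hx => hx.1) fun v hv => ?_)
      obtain ⟨x, hx, y, hy, z, hz, rfl⟩ := c_cs v hv
      exact add_mem (add_mem (subset_closure hx) (subset_closure hy)) (subset_closure hz)
    · rw [← Nat.card_congr (W0.equivMapOfInjective φ hφ).toEquiv]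
      exact (show 5 ≤ 8 by omega).trans_eq (c_card.symm.trans Nat.card_eq_fintype_card.symm)
    · simp only [← map_add, Ne, h0]
      decide
  refine ⟨_, _, p.gs fun Γ _ _ hs => ?_⟩
  have hT : insert (φ ![0, 0, 0, 1]) (φ '' S0) = φ '' T0 := by rw [T0, Finset.coe_insert, Set.image_insert_eq]
  have st : ∀ γ : Γ, ∀ t ∈ φ '' T0, γ • t ∈ φ '' T0 := fun γ t ht => hT ▸ p.stab hs γ (hT ▸ ht)
  have sP : ∀ (γ : Γ) (t : X), (∃ t' ∈ φ '' T0, t + t' ∈ φ '' T0) → ∃ t' ∈ φ '' T0, γ • t + t' ∈ φ '' T0 :=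
    fun γ t ⟨t', h1, h2⟩ => ⟨_, st γ _ h1, smul_add γ t t' ▸ st γ _ h2⟩
  let L : SubMulAction Γ X := ⟨{t | t ∈ φ '' T0 ∧ ∃ t' ∈ φ '' T0, t + t' ∈ φ '' T0},
    fun γ t ht => ⟨st γ t ht.1, sP γ t ht.2⟩⟩
  let C : SubMulAction Γ X := ⟨{t | t ∈ φ '' T0 ∧ ¬ ∃ t' ∈ φ '' T0, t + t' ∈ φ '' T0},
    fun γ t ht => ⟨st γ t ht.1, fun h1 => ht.2 (inv_smul_smul γ t ▸ sP γ⁻¹ _ h1)⟩⟩
  have hP : ∀ v, (∃ t' ∈ φ '' T0, φ v + t' ∈ φ '' T0) ↔ ∃ t' ∈ T0, v + t' ∈ T0 := fun v => by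
    simp only [Set.exists_mem_image, ← map_add, hφ.mem_set_image, Finset.mem_coe]
  have cL : Nat.card L = 3 := by
    rw [← c_L.1, ← Set.ncard_coe_finset, ← Set.ncard_image_of_injective _ hφ]
    refine congrArg Set.ncard (Set.ext fun x => ⟨?_, ?_⟩)
    · rintro ⟨⟨v, hv, rfl⟩, h1⟩
      exact ⟨v, Finset.mem_filter.2 ⟨Finset.mem_univ _, hv, (hP v).1 h1⟩, rfl⟩
    · rintro ⟨v, hv, rfl⟩
      exact ⟨⟨v, (Finset.mem_filter.1 hv).2.1, rfl⟩, (hP v).2 (Finset.mem_filter.1 hv).2.2⟩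
  have cC : Nat.card C = 2 := by
    rw [← c_L.2, ← Set.ncard_coe_finset, ← Set.ncard_image_of_injective _ hφ]
    refine congrArg Set.ncard (Set.ext fun x => ⟨?_, ?_⟩)
    · rintro ⟨⟨v, hv, rfl⟩, h1⟩
      exact ⟨v, Finset.mem_filter.2 ⟨Finset.mem_univ _, hv, mt (hP v).2 h1⟩, rfl⟩
    · rintro ⟨v, hv, rfl⟩
      exact ⟨⟨v, (Finset.mem_filter.1 hv).2.1, rfl⟩, mt (hP v).1 (Finset.mem_filter.1 hv).2.2⟩
  have hk : fixingSubgroup Γ (W1 (φ '' S0) (φ ![0, 0, 0, 1]) : Set X) =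
      ((MulAction.toPermHom Γ L).prod (MulAction.toPermHom Γ C)).ker := by
    ext γ
    rw [mem_fixingSubgroup_iff, MonoidHom.mem_ker, W1, hT]
    refine ⟨fun h1 => Prod.ext (Equiv.ext fun x => Subtype.ext (h1 _ (subset_closure x.2.1)))
      (Equiv.ext fun x => Subtype.ext (h1 _ (subset_closure x.2.1))), fun h1 => fix_closure fun t ht => ?_⟩
    by_cases h3 : ∃ t' ∈ φ '' T0, t + t' ∈ φ '' T0
    · exact congrArg Subtype.val (DFunLike.congr_fun (congrArg Prod.fst h1) ⟨t, ht, h3⟩)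
    · exact congrArg Subtype.val (DFunLike.congr_fun (congrArg Prod.snd h1) ⟨t, ht, h3⟩)
  rw [hk, Subgroup.index_ker]
  refine (Subgroup.card_subgroup_dvd_card _).trans (dvd_of_eq ?_)
  rw [Nat.card_prod, Nat.card_perm, Nat.card_perm, cL, cC]; rfl

end CL.SL.Tc
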