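/-
The three-closure of a solvable permutation group: subsets of elementary abelian `2`-groups.
-/
import Cfsg.Agent.Fgs.TcDefs

set_option autoImplicit false

open Subgroup CL.Odd CL.Grp CL.SL.Vc
open scoped commutatorElement

namespace CL.SL.Tc

universe u

namespace Set2J

variable {X : Type u} [AddCommGroup X]

theorem smul_closure {Γ : Type*} [Group Γ] [DistribMulAction Γ X] {S : Set X} (h : ∀ γ : Γ, ∀ s ∈ S, γ • s ∈ S)
    (γ : Γ) {x : X} (hx : x ∈ AddSubgroup.closure S) : γ • x ∈ AddSubgroup.closure S := by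
  induction hx using AddSubgroup.closure_induction with
  | mem x hx => exact AddSubgroup.subset_closure (h γ x hx)
  | zero => rw [smul_zero]; exact zero_mem _
  | add x y _ _ h1 h2 => rw [smul_add]; exact add_mem h1 h2
  | neg x _ h1 => rw [smul_neg]; exact neg_mem h1

/-- the invariant -/
def I (W : AddSubgroup X) : Prop := ∃ (S : Set X) (k : ℕ), 0 ∉ S ∧ AddSubgroup.closure S = W ∧
  ∀ (Γ : Type u) [Group Γ] [DistribMulAction Γ X], (∀ γ : Γ, ∀ s ∈ S, γ • s ∈ S) → ∀ γ : Γ, ∀ x ∈ W, γ ^ 2 ^ k • x = x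

theorem step (h2 : ∀ x : X, x + x = 0) {W : AddSubgroup X} (h : I W) {e : X} (he : e ∉ W) :
    ∃ W', I W' ∧ W ≤ W' ∧ e ∈ W' := by
  obtain ⟨S, k, h0, hS, hΓ⟩ := h
  have ee : ∀ x, x + e + e = x := fun x => by rw [add_assoc, h2, add_zero]
  let W' : AddSubgroup X :=
    { carrier := {x | x ∈ W ∨ x + e ∈ W}
      zero_mem' := .inl W.zero_mem
      add_mem' := by
        rintro a b (ha | ha) (hb | hb)
        · exact .inl (W.add_mem ha hb)
        · exact .inr (add_assoc a b e ▸ W.add_mem ha hb)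
        · exact .inr (add_right_comm a e b ▸ W.add_mem ha hb)
        · exact .inl (by simpa only [add_add_add_comm a e b e, h2, add_zero] using W.add_mem ha hb)
      neg_mem' := fun {a} ha => (neg_eq_of_add_eq_zero_left (h2 a)).symm ▸ ha }
  have hSW : ∀ s ∈ S, s ∈ W := fun s hs => hS ▸ AddSubgroup.subset_closure hs
  have hc : AddSubgroup.closure {x | x ∈ W' ∧ x ∉ S ∧ x ≠ 0} = W' := by
    refine le_antisymm ((AddSubgroup.closure_le _).2 fun x hx => hx.1) fun x hx => ?_
    have key : ∀ x, x + e ∈ W → x ∈ AddSubgroup.closure {x | x ∈ W' ∧ x ∉ S ∧ x ≠ 0} := fun x hx => by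
      have : x ∉ W := fun h => he (by simpa using W.sub_mem hx h)
      exact AddSubgroup.subset_closure ⟨.inr hx, fun h => this (hSW x h), fun h => this (h ▸ W.zero_mem)⟩
    rcases hx with hx | hx
    · exact ee x ▸ add_mem (key (x + e) ((ee x).symm ▸ hx)) (key e ((h2 e).symm ▸ W.zero_mem))
    · exact key x hx
  refine ⟨W', ⟨_, k + 1, fun h => h.2.2 rfl, hc, fun Γ _ _ h γ x hx => ?_⟩, fun x hx => .inl hx,
    .inr ((h2 e).symm ▸ W.zero_mem)⟩
  have h3 : ∀ γ : Γ, ∀ x ∈ W', γ • x ∈ W' := fun γ x hx => hc ▸ smul_closure h γ (hc.symm ▸ hx)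
  have h4 := hΓ Γ (fun γ s hs => by
    by_contra h5
    exact (h γ⁻¹ _ ⟨h3 γ s (.inl (hSW s hs)), h5, fun e => h0 ((smul_eq_zero_iff_eq γ).1 e ▸ hs)⟩).2.1
      (by rwa [inv_smul_smul])) γ
  rw [pow_succ, pow_mul, sq, mul_smul]
  generalize γ ^ 2 ^ k = σ at h4
  have h5 : σ • σ • e = e := by
    rcases h3 σ e (.inr ((h2 e).symm ▸ W.zero_mem)) with h6 | h6
    · exact (he (smul_left_cancel σ (h4 _ h6) ▸ h6)).elim
    · have := h4 _ h6
      rwa [smul_add, add_comm, add_right_inj] at this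
  rcases hx with hx | hx
  · rw [h4 x hx, h4 x hx]
  · have : σ • σ • (x + e) = x + e := by rw [h4 _ hx, h4 _ hx]
    rwa [smul_add, smul_add, h5, add_left_inj] at this

theorem flag [Finite X] (h2 : ∀ x : X, x + x = 0) : Flag X := by
  obtain ⟨W, -, hW⟩ := exists_maximal_ge_of_wellFoundedGT (I (X := X)) ⊥
    ⟨∅, 0, Set.notMem_empty _, AddSubgroup.closure_empty, fun _ _ _ _ _ x hx => by
      rw [AddSubgroup.mem_bot.1 hx, smul_zero]⟩
  obtain ⟨S, k, h0, -, h⟩ := id hW.1
  refine ⟨S, h0, k, fun Γ _ _ hΓ γ x => h Γ hΓ γ x (by_contra fun hx => ?_)⟩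
  obtain ⟨W', h3, h4, h5⟩ := step h2 hW.1 hx
  exact hx (hW.2 h3 h4 h5)

theorem exists_ab [Finite X] (h8 : Nat.card X = 8) (c : X) :
    ∃ a b : X, a ≠ 0 ∧ a ≠ c ∧ b ≠ 0 ∧ b ≠ c ∧ b ≠ a ∧ b ≠ a + c := by
  classical
  have := Fintype.ofFinite X
  have key : ∀ s : Finset X, s.card ≤ 4 → ∃ x, x ∉ s := fun s hs => by
    by_contra! h
    rw [Finset.eq_univ_of_forall h, Finset.card_univ, ← Nat.card_eq_fintype_card] at hs
    omega
  obtain ⟨a, ha⟩ := key {0, c} (Finset.card_le_two.trans (by norm_num))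
  obtain ⟨b, hb⟩ := key {0, c, a, a + c} Finset.card_le_four
  simp only [Finset.mem_insert, Finset.mem_singleton, not_or] at ha hb
  exact ⟨a, b, ha.1, ha.2, hb⟩

end Set2J

open Set2J in
theorem set2 : Set2.{u} := by
  intro X _ _ h
  have h2 : ∀ x : X, x + x = 0 := fun x => (two_nsmul x).symm.trans (h x)
  have h3 : ∀ {x y : X}, x ≠ y → x + y ≠ 0 := fun {x y} e e' => e (add_right_cancel (e'.trans (h2 y).symm))
  refine ⟨flag h2, fun h4 => ⟨{0}ᶜ, fun e => e rfl, fun A _ δ hδ h0 w _ => ?_, fun Γ _ _ _ => ?_⟩,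
    fun h8 => ⟨fun c hc A _ δ hδ h0 w _ => ?_, ?_⟩⟩
  · by_cases e : w = 0
    exacts [e ▸ hδ.zero, h0 w e]
  · rw [fix_top]
    exact HK.index_Kr_dvd.trans (Nat.factorial_dvd_factorial (n := 3) (by omega))
  · have k : ∀ x, x ≠ 0 → x ≠ c → δ x = 0 := fun x e e' => h0 x (by simp [e, e'])
    by_cases e : w = 0
    · exact e ▸ hδ.zero
    by_cases e' : w = c
    swap
    · exact k w e e'
    obtain ⟨a, b, a0, ac, b0, bc, ba, bac⟩ := exists_ab h8 c
    have h5 : a + b ≠ c := fun e => bac (by rw [← e, ← add_assoc, h2, zero_add])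
    have := hδ a b c
    rw [k a a0 ac, k b b0 bc, k _ (h3 ba.symm) h5, k _ (h3 ac) (by simpa using a0), k _ (h3 bc) (by simpa using b0),
      k _ (h3 h5) (by simpa using h3 ba.symm)] at this
    simpa [e'] using this
  · have : Nontrivial X := Finite.one_lt_card_iff_nontrivial.1 (by omega)
    obtain ⟨c, hc⟩ := exists_ne (0 : X)
    obtain ⟨a, b, a0, ac, b0, bc, ba, bac⟩ := exists_ab h8 c
    refine ⟨{a, b, c}, by simp [a0.symm, b0.symm, hc.symm], fun Γ _ _ hΓ => ?_⟩
    have h5 : AddSubgroup.closure ({a, b, c} : Set X) = ⊤ := by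
      set T := AddSubgroup.closure ({a, b, c} : Set X)
      have ha : a ∈ T := AddSubgroup.subset_closure (by simp)
      have hb : b ∈ T := AddSubgroup.subset_closure (by simp)
      have hc' : c ∈ T := AddSubgroup.subset_closure (by simp)
      have h6 : ({b, a + c, a, c, 0} : Set X).ncard ≤ Nat.card T := Set.ncard_le_ncard (s := _) (t := (T : Set X)) (by
        rintro _ (rfl | rfl | rfl | rfl | rfl)
        exacts [hb, add_mem ha hc', ha, hc', zero_mem _])
      rw [Set.ncard_insert_of_notMem (by simp [b0, bc, ba, bac]), Set.ncard_insert_of_notMem (by simp [hc, a0, h3 ac]),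
        Set.ncard_insert_of_notMem (by simp [a0, ac]), Set.ncard_pair hc] at h6
      have h7 := h8 ▸ T.card_addSubgroup_dvd_card
      have h9 := Nat.le_of_dvd (by norm_num) h7
      refine AddSubgroup.eq_top_of_card_eq T (h8 ▸ ?_)
      generalize Nat.card T = n at *
      interval_cases n <;> simp_all
    let S : SubMulAction Γ X := ⟨{a, b, c}, fun γ {s} hs => hΓ γ s hs⟩
    have h6 : (MulAction.toPermHom Γ S).ker ≤ Kr Γ X := fun γ hγ => mem_Kr.2 fun x => by
      induction (h5 ▸ AddSubgroup.mem_top x : x ∈ AddSubgroup.closure ({a, b, c} : Set X))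
        using AddSubgroup.closure_induction with
      | mem x hx => exact congrArg Subtype.val (DFunLike.congr_fun (MonoidHom.mem_ker.1 hγ) ⟨x, hx⟩)
      | zero => exact smul_zero _
      | add x y _ _ h1 h2 => rw [smul_add, h1, h2]
      | neg x _ h1 => rw [smul_neg, h1]
    rw [fix_top]
    refine (index_dvd_of_le h6).trans ?_
    rw [index_ker]
    refine (card_subgroup_dvd_card _).trans ?_
    rw [Nat.card_perm]
    exact Nat.factorial_dvd_factorial (n := 3) (Set.ncard_eq_three.2 ⟨a, b, c, ba.symm, ac, bc, rfl⟩).le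

end CL.SL.Tc
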