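/-
The three-closure of a solvable permutation group: the set-up passes to the overgroup.
-/
import Cfsg.Agent.Fgs.TcDefs

set_option autoImplicit false
set_option linter.style.haveILetI false

open Subgroup CL.Odd CL.Grp CL.SL.Vc
open scoped commutatorElement

namespace CL.SL.Tc

universe u

namespace SetHAux

variable {H V : Type u} [Group H] [AddCommGroup V] [DistribMulAction H V] {G : Subgroup H}

/-- the elements that preserve the orbits of `E` -/
def J (V : Type u) [AddCommGroup V] [DistribMulAction H V] (E : Subgroup G) : Subgroup H where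
  carrier := {y | ∀ v : V, ∃ e ∈ E, y • v = e • v}
  one_mem' := fun v => ⟨1, one_mem _, by simp⟩
  mul_mem' := fun {a b} ha hb v => by
    obtain ⟨e, he, h1⟩ := hb v
    obtain ⟨e', he', h2⟩ := ha (e • v)
    exact ⟨e' * e, mul_mem he' he, by rw [mul_smul, mul_smul, h1, h2]⟩
  inv_mem' := fun {a} ha v => by
    obtain ⟨e, he, h1⟩ := ha (a⁻¹ • v)
    exact ⟨e⁻¹, inv_mem he, by rw [eq_inv_smul_iff, ← h1, smul_inv_smul]⟩

theorem J_normal {E : Subgroup G} (hE : E.Normal) (h : E2 G H V) : (J V E).Normal := ⟨fun y hy x v => by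
  obtain ⟨e, he, h1⟩ := hy (x⁻¹ • v)
  obtain ⟨g, h2, h3⟩ := h x (x⁻¹ • v) (e • x⁻¹ • v)
  rw [smul_inv_smul] at h2
  refine ⟨g * e * g⁻¹, hE.conj_mem e he g, ?_⟩
  rw [mul_smul, mul_smul, h1, ← h3, mul_smul, mul_smul, inv_smul_eq_iff.2 h2.symm]⟩

theorem solv_comap [Finite H] {U : Subgroup H} [U.Normal] (hU : IsCyclic U) {S : Subgroup (H ⧸ U)}
    (hS : Group.IsSolvable S) : Group.IsSolvable (S.comap (QuotientGroup.mk' U)) := by
  have hle : U ≤ S.comap (QuotientGroup.mk' U) := fun u hu => by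
    rw [mem_comap, (QuotientGroup.eq_one_iff (N := U) u).2 hu |> fun e => show QuotientGroup.mk' U u = 1 from e]
    exact one_mem _
  letI := hU.commGroup
  exact Group.isSolvable_of_ker_le_range (inclusion hle) ((QuotientGroup.mk' U).subgroupComap S) fun x hx =>
    ⟨⟨x, (QuotientGroup.eq_one_iff _).1 (congrArg Subtype.val hx)⟩, rfl⟩

end SetHAux

open SetHAux in
theorem setH : SetH.{u} := by
  intro inv un jt en H V _ _ _ _ _ G p U E hf hs hm hi h2 h
  have nU : (U.map G.subtype).Normal := ⟨by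
    rintro _ ⟨u, hu, rfl⟩ z
    obtain ⟨u', hu', e⟩ := un G H V p U E h h2 z u hu
    refine ⟨u', hu', (inv_mul_eq_one.1 (hf _ fun v => ?_))⟩
    rw [mul_smul, mul_smul, mul_smul, inv_smul_eq_iff]
    exact (e _).trans (by rw [smul_inv_smul]; rfl)⟩
  have cU : IsCyclic (U.map G.subtype) :=
    haveI := h.cyc; isCyclic_of_surjective _ (U.equivMapOfInjective _ G.subtype_injective).surjective
  have nJ := J_normal h.nE h2
  have sJ : Group.IsSolvable (J V E) := solv_of_perfect _ fun Z hZ hp => eq_bot_iff.2 fun z hz =>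
    hf z (jt G Z V p U E h hi hp (fun z => hZ z.2) (fun z u hu v => by
      have : (z : H) ∈ C[U.map G.subtype] := commutator_le_centralizer_of_isCyclic _
        (commutator_mono le_top le_top ((isPerfect_iff.1 hp).ge z.2))
      change (z : H) • (u : H) • v = (u : H) • (z : H) • v
      rw [← mul_smul, ← mul_smul, this u ⟨u, hu, rfl⟩]) ⟨z, hz⟩)
  have nE := en H G (J V E) U E h.toGS nU nJ (hm _ sJ le_normalizer_of_normal) (by
    rintro _ ⟨e, he, rfl⟩ v
    exact ⟨e, he, rfl⟩)
  have cent : ∀ u ∈ U.map G.subtype, ∀ a ∈ E.map G.subtype, u * a = a * u := by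
    rintro _ ⟨u, hu, rfl⟩ _ ⟨a, ha, rfl⟩
    exact congrArg Subtype.val (h.cent u hu a ha)
  refine ⟨⟨nU, nE, map_mono h.le, cU, ?_, cent, fun g hg => ?_, fun A hA h3 h4 h5 a ha => ?_⟩, h.hp, h.pv, ?_, ?_⟩
  · rintro _ ⟨a, ha, rfl⟩ _ ⟨b, hb, rfl⟩
    exact ⟨_, h.comm a ha b hb, map_commutatorElement _ a b⟩
  · by_contra hgU
    have hUC : U.map G.subtype ≤ C[E.map G.subtype] := fun u hu a ha => (cent u hu a ha).symm
    haveI := Normal.map (inferInstance : (C[E.map G.subtype]).Normal) _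
      (QuotientGroup.mk'_surjective (U.map G.subtype))
    obtain ⟨S, s1, s2, s3, s4⟩ := inv (H ⧸ U.map G.subtype) (G.map (QuotientGroup.mk' _))
      ((C[E.map G.subtype]).map (QuotientGroup.mk' _))
      (Group.isSolvable_of_surjective ((QuotientGroup.mk' _).subgroupMap_surjective G)) le_normalizer_of_normal
      fun h0 => hgU ((QuotientGroup.eq_one_iff g).1 (mem_bot.1 (h0 ▸ mem_map_of_mem (QuotientGroup.mk' _)
        (mem_centralizer_iff.2 fun a ha => (hg a ha).symm))))
    have s5 := hm _ (solv_comap cU s3) ((map_le_iff_le_comap.1 s4).trans (le_normalizer_comap _))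
    have s6 := comap_mono (f := QuotientGroup.mk' (U.map G.subtype)) s1
    rw [comap_map_eq, QuotientGroup.ker_mk', sup_eq_left.2 hUC] at s6
    refine s2 (eq_bot_iff.2 fun s hs => ?_)
    obtain ⟨s, rfl⟩ := QuotientGroup.mk'_surjective _ s
    exact (QuotientGroup.eq_one_iff s).2 ⟨⟨s, s5 hs⟩, h.self _ fun a ha =>
      Subtype.ext (s6 hs a ⟨a, ha, rfl⟩).symm, rfl⟩
  · obtain ⟨b, -, rfl⟩ := h4 ha
    refine mem_map_of_mem _ (h.abn (A.comap G.subtype) (hA.comap _) (map_le_iff_le_comap.1 h3) (fun x hx => ?_)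
      (fun x hx y hy => Subtype.ext (h5 _ hx _ hy)) ha)
    obtain ⟨y, hy, e⟩ := h4 hx
    exact Subtype.ext e ▸ hy
  · rw [card_map_of_injective G.subtype_injective]; exact h.cop
  · rintro _ ⟨u, hu, rfl⟩ v hv
    exact (h.fpf u hu v hv).imp_left fun e => congrArg Subtype.val e

end CL.SL.Tc
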