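/-
The three-closure of a solvable permutation group: rigid determining sets for odd primes.
-/
import Cfsg.Agent.Fgs.TcDefs

set_option autoImplicit false

open Subgroup CL.Odd CL.Grp CL.SL.Vc
open scoped commutatorElement

namespace CL.SL.Tc

universe u

variable {X : Type u} [AddCommGroup X] [Finite X] {x e f : X}

theorem detOn_zm (x : X) : DetOn (AddSubgroup.zmultiples x) {x, x + x} := fun A _ δ h h0 w hw => by
  obtain ⟨k, rfl⟩ := mem_multiples_iff_mem_zmultiples.2 hw
  have h1 := h0 x (.inl rfl)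
  have h2 := h0 (x + x) (.inr rfl)
  induction k using Nat.twoStepInduction with
  | zero => simpa using h.zero
  | one => simpa using h1
  | more k i1 i2 =>
    have := h x x (k • x)
    rw [← succ_nsmul', add_assoc x x, ← succ_nsmul', ← succ_nsmul'] at this
    simpa [h1, h2, i1 (AddSubgroup.nsmul_mem_zmultiples x k), i2 (AddSubgroup.nsmul_mem_zmultiples x (k + 1))] using this

omit [Finite X] in
theorem index_dvd_two {Γ : Type u} [Group Γ] [DistribMulAction Γ X] {W : AddSubgroup X} (he : e ∈ W)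
    (h1 : ∀ γ : Γ, γ • e = e ∨ γ • e = f) (h2 : ∀ γ : Γ, γ • e = e → ∀ w ∈ W, γ • w = w) :
    (fixingSubgroup Γ (W : Set X)).index ∣ 2 := by
  have e1 : ∀ γ : Γ, γ ∈ fixingSubgroup Γ (W : Set X) ↔ γ • e = e := fun γ =>
    (mem_fixingSubgroup_iff Γ).trans ⟨fun h => h e he, h2 γ⟩
  simp only [index_dvd_two_iff, e1]
  by_cases h : ∀ γ : Γ, γ • e = e
  · exact ⟨1, fun b => .inr (h b)⟩
  obtain ⟨a, ha⟩ := not_forall.1 h
  refine ⟨a, fun b => or_iff_not_imp_right.2 fun hb => ?_⟩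
  rw [mul_smul, (h1 a).resolve_left ha, ← (h1 b⁻¹).resolve_left (by rwa [inv_smul_eq_iff, eq_comm]), smul_inv_smul]

omit [Finite X] in
theorem stOn_zm (x : X) : StOn (AddSubgroup.zmultiples x) {x, x + x} 2 := fun _ _ _ h =>
  index_dvd_two (AddSubgroup.mem_zmultiples x) (fun γ => h γ x (.inl rfl)) (by
    rintro γ hγ _ ⟨k, rfl⟩
    exact (smul_comm γ k x).trans (congrArg (k • ·) hγ))

theorem gs_zm {r : ℕ} (hr : r.Prime) (h5 : 5 ≤ r) (h : ∀ x : X, r • x = 0) (hx : x ≠ 0) :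
    Gs (AddSubgroup.zmultiples x) {x, x + x} 2 := by
  have := Fact.mk hr
  have hc : ∀ {y : X}, y ≠ 0 → Nat.card (AddSubgroup.zmultiples y) = r := fun hy => by
    rw [Nat.card_zmultiples, addOrderOf_eq_prime (h _) hy]
  have m := AddSubgroup.mem_zmultiples x
  have gen : ∀ {T : Set X} {s : X}, T ⊆ AddSubgroup.zmultiples x → s ∈ T → s ≠ 0 →
      AddSubgroup.closure T = AddSubgroup.zmultiples x := fun hT hs h0 =>
    le_antisymm ((AddSubgroup.closure_le _).2 hT) ((AddSubgroup.eq_of_le_of_card_ge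
      (AddSubgroup.zmultiples_le.2 (hT hs)) (by rw [hc hx, hc h0])).ge.trans
        (AddSubgroup.zmultiples_le.2 (AddSubgroup.subset_closure hs)))
  have ne : ∀ k, 0 < k → k < 5 → k • x ≠ 0 := fun k h1 h2 =>
    nsmul_ne_zero_of_lt_addOrderOf h1.ne' (by rw [addOrderOf_eq_prime (h _) hx]; omega)
  have n2 : x + x ≠ 0 := two_nsmul x ▸ ne 2 (by norm_num) (by norm_num)
  have n3 : x + x + x ≠ 0 := three'_nsmul x ▸ ne 3 (by norm_num) (by norm_num)
  have sub : ({x, x + x} : Set X) ⊆ AddSubgroup.zmultiples x := by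
    rintro _ (rfl | rfl)
    exacts [m, add_mem m m]
  refine ⟨sub, by simp [hx.symm, n2.symm], fun p => ?_, gen Set.sdiff_subset (s := x + x + x)
    ⟨add_mem (add_mem m m) m, by simp [hx, n2]⟩ n3, detOn_zm x, hc hx ▸ h5,
    ⟨x, m, x, m, x, m, hx, hx, hx, n2, n2, n2, n3⟩, stOn_zm x⟩
  by_cases hp : x = p
  · exact gen (Set.sdiff_subset.trans sub) (s := x + x) ⟨.inr rfl, by simp [← hp, hx]⟩ n2
  · exact gen (Set.sdiff_subset.trans sub) ⟨.inl rfl, hp⟩ hx

theorem gs_nine (h : ∀ x : X, 3 • x = 0) (he : e ≠ 0) (hf : f ∉ AddSubgroup.zmultiples e) :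
    Gs (AddSubgroup.closure {e, f}) ((AddSubgroup.closure {e, f} : Set X) \ {0, e, f}) 2 := by
  have := Fact.mk Nat.prime_three
  have ho := addOrderOf_eq_prime (h e) he
  have ne : ∀ i j : ℤ, ¬ (3 ∣ i ∧ 3 ∣ j) → i • e + j • f ≠ 0 := fun i j hn h0 => by
    have h1 : j • f ∈ AddSubgroup.zmultiples e :=
      eq_neg_of_add_eq_zero_right h0 ▸ neg_mem (AddSubgroup.zsmul_mem_zmultiples e i)
    have h3 : ∀ k : ℤ, (3 * k) • f = 0 := fun k => by rw [mul_smul]; exact_mod_cast h _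
    have h2 : 3 ∣ j := by
      by_contra hj
      obtain ⟨k, hk⟩ : ∃ k, j * j = 3 * k + 1 := ⟨j * j / 3, by
        have : j % 3 = 1 ∨ j % 3 = 2 := by omega
        have := Int.mul_emod j j 3
        rcases ‹_ ∨ _› with h | h <;> rw [h] at this <;> omega⟩
      have := zsmul_mem h1 j
      rw [← mul_smul, hk, add_smul, h3, zero_add, one_smul] at this
      exact hf this
    obtain ⟨k, rfl⟩ := h2
    rw [h3, add_zero, ← addOrderOf_dvd_iff_zsmul_eq_zero, ho] at h0
    exact hn ⟨h0, dvd_mul_right _ _⟩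
  set W := AddSubgroup.closure {e, f}
  have me : e ∈ W := AddSubgroup.subset_closure (.inl rfl)
  have mf : f ∈ W := AddSubgroup.subset_closure (.inr rfl)
  have m : ∀ (i j : ℤ) (y : X), ¬ (3 ∣ i ∧ 3 ∣ j) ∧ ¬ (3 ∣ i - 1 ∧ 3 ∣ j) ∧ ¬ (3 ∣ i ∧ 3 ∣ j - 1) → y = i • e + j • f →
      y ∈ (W : Set X) \ {0, e, f} := by
    rintro i j _ ⟨h1, h2, h3⟩ rfl
    refine ⟨add_mem (zsmul_mem me i) (zsmul_mem mf j), ?_⟩
    rintro (h0 | h0 | h0)
    exacts [ne _ _ h1 h0, ne _ _ h2 (by linear_combination (norm := module) h0),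
      ne _ _ h3 (by linear_combination (norm := module) Set.mem_singleton_iff.1 h0)]
  have m1 := m (-1) 0 (-e) (by decide) (by module)
  have m2 := m 0 (-1) (-f) (by decide) (by module)
  have m3 := m 1 1 (e + f) (by decide) (by module)
  have m4 := m (-1) (-1) (-e + -f) (by decide) (by module)
  have ef : e ≠ f := fun h0 => hf (h0 ▸ AddSubgroup.mem_zmultiples e)
  have f0 : f ≠ 0 := fun h0 => hf (h0 ▸ zero_mem _)
  have gen : ∀ {T : Set X}, T ⊆ W → e ∈ AddSubgroup.closure T → f ∈ AddSubgroup.closure T → AddSubgroup.closure T = W :=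
    fun hT h1 h2 => le_antisymm ((AddSubgroup.closure_le _).2 hT) ((AddSubgroup.closure_le _).2 (by
      rintro _ (rfl | rfl)
      exacts [h1, h2]))
  have rob : ∀ p : X, AddSubgroup.closure (((W : Set X) \ {0, e, f}) \ {p}) = W := fun p => by
    have c : ∀ {y : X}, y ∈ (W : Set X) \ {0, e, f} → y ≠ p → y ∈ AddSubgroup.closure (((W : Set X) \ {0, e, f}) \ {p}) :=
      fun h1 h2 => AddSubgroup.subset_closure ⟨h1, h2⟩
    have s : ((W : Set X) \ {0, e, f}) \ {p} ⊆ W := Set.sdiff_subset.trans Set.sdiff_subset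
    by_cases h1 : -e = p
    · have h2 := neg_mem_iff.1 (c m2 fun h0 => ef (neg_injective (h1.trans h0.symm)))
      exact gen s ((add_mem_cancel_right h2).1 (c m3 fun h0 => ne 2 1 (by decide)
        (by linear_combination (norm := module) h0 - h1))) h2
    have h2 := neg_mem_iff.1 (c m1 h1)
    by_cases h3 : -f = p
    · exact gen s h2 ((add_mem_cancel_left h2).1 (c m3 fun h0 => ne 1 2 (by decide)
        (by linear_combination (norm := module) h0 - h3)))
    · exact gen s h2 (neg_mem_iff.1 (c m2 h3))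
  have two : ∀ y : X, -y + -y = y := fun y => by linear_combination (norm := module) -h y
  refine ⟨Set.sdiff_subset, by simp, rob, gen Set.sdiff_subset (AddSubgroup.subset_closure ⟨me, by simp⟩)
    (AddSubgroup.subset_closure ⟨mf, by simp⟩), fun A _ δ hδ h0 w hw => ?_, ?_,
    ⟨e, me, e, me, f, mf, he, he, f0, fun h0 => ne 2 0 (by decide) (by linear_combination (norm := module) h0),
      fun h0 => m3.2 (.inl h0), fun h0 => m3.2 (.inl h0),
      fun h0 => ne 2 1 (by decide) (by linear_combination (norm := module) h0)⟩, fun Γ _ _ hΓ => ?_⟩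
  · by_contra hn
    rcases (by_contra fun h1 => hn (h0 w ⟨hw, h1⟩) : w ∈ ({0, e, f} : Set X)) with rfl | rfl | rfl
    · exact hn hδ.zero
    · have := hδ (-w) (-w) (-f)
      rw [h0 _ m1, h0 _ m2, h0 _ m4, h0 _ (m (-2) (-1) _ (by decide) (by module)), two] at this
      exact hn (by simpa using this.symm)
    · have := hδ (-w) (-w) (-e)
      rw [h0 _ m1, h0 _ m2, add_comm (-w) (-e), h0 _ m4, h0 _ (m (-1) (-2) _ (by decide) (by module)), two] at this
      exact hn (by simpa using this.symm)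
  · have h1 : AddSubgroup.zmultiples e ≤ W := AddSubgroup.zmultiples_le.2 me
    have h2 := AddSubgroup.card_dvd_of_le h1
    have h3 : ¬ Nat.card W ≤ Nat.card (AddSubgroup.zmultiples e) := fun h4 =>
      hf ((AddSubgroup.eq_of_le_of_card_ge h1 h4).ge mf)
    rw [Nat.card_zmultiples, ho] at h2 h3
    omega
  · have h1 : ∀ (γ : Γ) {y : X}, y ∈ W → y ≠ 0 → y ∉ (W : Set X) \ {0, e, f} → γ • y = e ∨ γ • y = f := fun γ y hy h2 h3 => by
      have h4 : γ • y ∈ W := ((AddSubgroup.closure_le (W.comap (DistribSMul.toAddMonoidHom X γ))).2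
        fun s hs => (hΓ γ s hs.1).1) ((rob 0).ge hy)
      exact (by_contra fun h5 => h3 (inv_smul_smul γ y ▸ hΓ γ⁻¹ _ ⟨h4, h5⟩) : γ • y ∈ ({0, e, f} : Set X)).resolve_left
        ((smul_ne_zero_iff_ne γ).2 h2)
    refine index_dvd_two me (fun γ => h1 γ me he (by simp)) fun γ hγ w hw => ?_
    refine ((AddSubgroup.closure_le ((DistribSMul.toAddMonoidHom X γ).eqLocus (AddMonoidHom.id X))).2 ?_) hw
    rintro _ (rfl | rfl)
    exacts [hγ, (h1 γ mf f0 (by simp)).resolve_left fun h2 => ef (MulAction.injective γ (hγ.trans h2.symm))]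

theorem setO : SetO.{u} := by
  intro hR X _ _ r hr h2 h
  cases subsingleton_or_nontrivial X
  · exact ⟨∅, by simp, fun A _ δ hδ _ w _ => Subsingleton.elim 0 w ▸ hδ.zero, fun Γ _ _ _ => by
      rw [(eq_top_iff' _).2 fun γ => (mem_fixingSubgroup_iff Γ).2 fun _ _ => Subsingleton.elim _ _, index_top]
      exact one_dvd _⟩
  obtain ⟨x, hx⟩ := exists_ne (0 : X)
  by_cases h5 : 5 ≤ r
  · exact hR X _ _ _ (gs_zm hr h5 h hx)
  obtain rfl : r = 3 := by
    have := hr.two_le
    have : r ≠ 4 := by rintro rfl; norm_num at hr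
    omega
  by_cases hW : AddSubgroup.zmultiples x = ⊤
  · refine ⟨{x, x + x}, ?_, hW ▸ detOn_zm x, hW ▸ stOn_zm x⟩
    rintro (h0 | h0)
    exacts [hx h0.symm, hx (by linear_combination (norm := module) h x + Set.mem_singleton_iff.1 h0)]
  obtain ⟨f, hf⟩ := not_forall.1 (mt (AddSubgroup.eq_top_iff' _).2 hW)
  exact hR X _ _ _ (gs_nine h hx hf)

end CL.SL.Tc
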