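/-
The three-closure of a solvable permutation group: the cyclic normal subgroup is normalised.
-/
import Cfsg.Agent.Fgs.TcDefs

set_option autoImplicit false
set_option linter.style.haveILetI false

open Subgroup CL.Odd CL.Grp CL.SL.Vc
open scoped commutatorElement

namespace CL.SL.Tc

universe u

namespace Un

/-- the partition lemma -/
theorem part {V ι : Type*} [AddCommGroup V] [Finite V] [Finite ι] (W : ι → AddSubgroup V) (hc : ∀ v, ∃ i, v ∈ W i)
    (hd : ∀ i j, W i = W j ∨ ∀ v ∈ W i, v ∈ W j → v = 0) (ht : ∀ i, W i ≠ ⊤) :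
    Nat.card V + Nat.card ι ≤ Nat.card ι * Nat.card ι := by
  haveI := Fintype.ofFinite ι
  choose f hf using hc
  have k : ∀ i, Nat.card (W i) + 1 ≤ Nat.card ι := fun i => by
    obtain ⟨x, -, hx⟩ := SetLike.exists_of_lt (ht i).lt_top
    have n : ∀ w : W i, W i ≠ W (f (x + w)) := fun w e => hx ((add_mem_cancel_right w.2).1 (e.ge (hf _)))
    refine (Finite.card_option (α := W i)).symm.trans_le (Nat.card_le_card_of_injective
      (fun o : Option (W i) => o.elim i fun w => f (x + w)) ?_)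
    rintro (_ | w) (_ | w') e
    · rfl
    · exact absurd (congrArg W e) (n w')
    · exact absurd (congrArg W e.symm) (n w)
    · refine congrArg some (Subtype.ext (sub_eq_zero.1 ((hd _ _).resolve_left (n w) _ (sub_mem w.2 w'.2) ?_)))
      simpa using sub_mem (hf (x + w)) ((congrArg W e).ge (hf (x + w')))
  have := Nat.card_le_card_of_surjective (fun s : Σ i, W i => (s.2 : V)) fun v => ⟨⟨f v, v, hf v⟩, rfl⟩
  have h2 := Finset.sum_le_sum fun i (_ : i ∈ Finset.univ) => k i
  rw [Nat.card_sigma] at this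
  simp only [Finset.sum_add_distrib, Finset.sum_const, Finset.card_univ, smul_eq_mul, mul_one,
    ← Nat.card_eq_fintype_card] at h2
  omega

theorem sq_lt (n : ℕ) : n * n < 2 ^ n + n := by
  induction n with
  | zero => simp
  | succ n ih =>
    have : 2 * n ≤ 2 ^ n := by
      rcases n with _ | n
      · simp
      · have := Nat.lt_two_pow_self (n := n); rw [pow_succ]; omega
    rw [pow_succ]; nlinarith

end Un

theorem unThm : UnThm.{u} := by
  intro G Z V _ _ _ _ _ _ _ p U E h h2 z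
  rcases subsingleton_or_nontrivial V with hV | hV
  · exact fun u _ => ⟨1, one_mem _, fun v => Subsingleton.elim _ _⟩
  haveI := Fact.mk h.hp
  obtain ⟨n, hn⟩ : ∃ n, Nat.card V = p ^ n :=
    IsPGroup.exists_card_eq (G := Multiplicative V) fun v => ⟨1, by rw [pow_one]; exact h.pv v.toAdd⟩
  obtain ⟨b, b1, b2, -⟩ := HK.dim G V p n U E h hn (Nat.pos_of_ne_zero fun e => by
    rw [e, pow_zero] at hn; exact Finite.one_lt_card.ne' hn)
  have b3 : b ≤ n := (Nat.pow_le_pow_iff_left two_ne_zero).1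
    ((Nat.le_mul_of_pos_right _ (Nat.pos_of_ne_zero FiniteIndex.index_ne_zero)).trans b2)
  obtain ⟨⟨u0, h0⟩, hu⟩ := h.cyc.exists_monoid_generator
  let W : G ⧸ C[U] → AddSubgroup V := fun q =>
    { carrier := {v | z • u0 • z⁻¹ • v = (q.out * u0 * q.out⁻¹) • v}
      zero_mem' := by simp
      add_mem' := fun {a b} (ha : _ = _) (hb : _ = _) => show _ = _ by simp only [smul_add, ha, hb]
      neg_mem' := fun {a} (ha : _ = _) => show _ = _ by simp only [smul_neg, ha] }
  have cU : ∀ g, g * u0 * g⁻¹ ∈ U := h.nU.conj_mem _ h0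
  obtain ⟨q, hq⟩ : ∃ q, W q = ⊤ := by
    by_contra! ht
    have := Un.part W (fun v => ?_) (fun i j => ?_) ht
    · have k := Un.sq_lt n
      have k2 : 2 ^ n ≤ p ^ n := Nat.pow_le_pow_left h.hp.two_le n
      have k3 : Nat.card (G ⧸ C[U]) ≤ n := b1.trans b3
      obtain ⟨d, rfl⟩ := Nat.exists_eq_add_of_le k3
      have := Nat.card_pos (α := G ⧸ C[U])
      nlinarith
    · obtain ⟨g, g1, g2⟩ := h2 z (z⁻¹ • v) (u0 • z⁻¹ • v)
      obtain ⟨c, hc⟩ := QuotientGroup.mk_out_eq_mul C[U] g
      refine ⟨g, show _ = _ from ?_⟩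
      rw [hc, mul_assoc g, ← c.2 u0 h0, mul_inv_rev, ← mul_assoc g, mul_assoc (g * u0), mul_inv_cancel_left, ← g2,
        mul_smul, mul_smul, ← smul_inv_smul z v, ← g1, inv_smul_smul, g1, inv_smul_smul]
    · by_cases e : i.out * u0 * i.out⁻¹ = j.out * u0 * j.out⁻¹
      · exact .inl (AddSubgroup.ext fun v => show _ = _ ↔ _ = _ by rw [e])
      · exact .inr fun v (hi : _ = _) (hj : _ = _) => (h.fpf _ (mul_mem (inv_mem (cU i.out)) (cU j.out)) v (by
          rw [mul_smul, ← hj, hi, inv_smul_smul])).resolve_left (mt inv_mul_eq_one.1 e)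
  intro u hu'
  obtain ⟨k, hk⟩ := hu ⟨u, hu'⟩
  obtain rfl : u0 ^ k = u := congrArg Subtype.val hk
  refine ⟨_, pow_mem (cU q.out) k, fun v => ?_⟩
  clear hk hu'
  induction k with
  | zero => simp
  | succ k ih =>
    have : _ = _ := hq.ge (AddSubgroup.mem_top (z • u0 ^ k • v))
    rw [pow_succ', pow_succ', mul_smul, mul_smul, ← ih, ← this, inv_smul_smul]

end CL.SL.Tc
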