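import Cfsg.Agent.Base

/-! An element of order three acting as a 3-cycle, normalising a `3'`-group (for S4415). -/

set_option autoImplicit false
open scoped commutatorElement

namespace CL.Tho3

variable {G : Type*} [Group G]

theorem mem_of_pow_mem {H : Subgroup G} {t : G} {n m : ℕ} (hn : t ^ n ∈ H) (hm : t ^ m = 1)
    (hc : Nat.Coprime n m) : t ∈ H := by
  have h1 : (orderOf t).Coprime n := Nat.Coprime.coprime_dvd_left (orderOf_dvd_of_pow_eq_one hm) hc.symm
  obtain ⟨k, hk⟩ := exists_pow_eq_self_of_coprime h1.symm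
  rw [← hk]; exact H.pow_mem hn k

/-- The group data: `G = R⟨b⟩` with `R` a normal `3'`-subgroup and `b³ = 1`. -/
structure GS (G : Type*) [Group G] where
  R : Subgroup G
  nR : R.Normal
  cop : Nat.Coprime 3 (Nat.card R)
  b : G
  b3 : b * b * b = 1
  dec : ∀ γ : G, ∃ g ∈ R, ∃ i : ℕ, γ = g * b ^ i

namespace GS
variable (D : GS G)

theorem mem_of_cube {H : Subgroup G} {h : G} (hh : h ∈ D.R) (h3 : h * h * h ∈ H) : h ∈ H := by
  refine mem_of_pow_mem (n := 3) (m := Nat.card D.R) (by rw [pow_succ, sq]; exact h3) ?_ D.cop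
  exact congrArg Subtype.val (pow_card_eq_one' (x := (⟨h, hh⟩ : D.R)))

theorem eq_one_of_cube {h : G} (hh : h ∈ D.R) (h3 : h * h * h = 1) : h = 1 :=
  (Subgroup.mem_bot).mp (D.mem_of_cube hh (H := ⊥) (by simpa using h3))

theorem binv : D.b⁻¹ = D.b * D.b := by
  rw [inv_eq_iff_mul_eq_one, ← mul_assoc, D.b3]

/-- conjugates of `b` -/
def IsC (β : G) : Prop := ∃ γ : G, β = γ * D.b * γ⁻¹

theorem isC_b : D.IsC D.b := ⟨1, by simp⟩

variable {D}

theorem IsC.conj {β : G} (h : D.IsC β) (γ : G) : D.IsC (γ * β * γ⁻¹) := by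
  obtain ⟨δ, rfl⟩ := h
  exact ⟨γ * δ, by group⟩

theorem IsC.eq {β : G} (h : D.IsC β) : ∃ r ∈ D.R, β = r * D.b := by
  obtain ⟨γ, rfl⟩ := h
  obtain ⟨g, hg, i, rfl⟩ := D.dec γ
  refine ⟨g * (D.b * g⁻¹ * D.b⁻¹), D.R.mul_mem hg (D.nR.conj_mem _ (D.R.inv_mem hg) _), ?_⟩
  have : D.b ^ i * D.b = D.b * D.b ^ i := by rw [← pow_succ, pow_succ']
  rw [mul_assoc g, this]; group

theorem IsC.cube {β : G} (h : D.IsC β) : β * β * β = 1 := by
  obtain ⟨γ, rfl⟩ := h
  have : γ * D.b * γ⁻¹ * (γ * D.b * γ⁻¹) * (γ * D.b * γ⁻¹) = γ * (D.b * D.b * D.b) * γ⁻¹ := by group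
  rw [this, D.b3]; simp

theorem IsC.inv {β : G} (h : D.IsC β) : β⁻¹ = β * β := by
  rw [inv_eq_iff_mul_eq_one, ← mul_assoc, h.cube]

section act
variable {X : Type*} [MulAction G X]

theorem fix_of_cube {h : G} (hh : h ∈ D.R) {x : X} (h3 : h • h • h • x = x) : h • x = x :=
  D.mem_of_cube (H := MulAction.stabilizer G x) hh (by
    rw [MulAction.mem_stabilizer_iff, mul_smul, mul_smul]; exact h3)

theorem IsC.smul3 {β : G} (h : D.IsC β) (x : X) : β • β • β • x = x := by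
  rw [← mul_smul, ← mul_smul, h.cube, one_smul]

/-- `b` acts on the invariant set `Λ` as a 3-cycle through `ω`. -/
structure Tri (D : GS G) (Λ : Set X) (ω : X) : Prop where
  inv : ∀ (g : G), ∀ x ∈ Λ, g • x ∈ Λ
  mem : ω ∈ Λ
  mv : D.b • ω ≠ ω
  tri : ∀ x ∈ Λ, D.b • x ≠ x → x = ω ∨ x = D.b • ω ∨ x = D.b • D.b • ω

variable {Λ : Set X} {ω : X}

theorem IsC.mv1 {β : G} {x : X} (hx : β • x ≠ x) : β • β • x ≠ β • x := fun e =>
  hx (smul_left_cancel β e)

theorem IsC.mv2 {β : G} (h : D.IsC β) {x : X} (hx : β • x ≠ x) : β • β • x ≠ x := fun e => by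
  have := h.smul3 x
  rw [e] at this; exact hx this

theorem IsC.mv3 {β : G} (h : D.IsC β) {x : X} (hx : β • x ≠ x) : β • β • β • x ≠ β • β • x := by
  rw [h.smul3]; exact (h.mv2 hx).symm

theorem Tri.tri' (T : D.Tri Λ ω) {β : G} (h : D.IsC β) {x y : X} (hx : x ∈ Λ) (hy : y ∈ Λ)
    (mx : β • x ≠ x) (my : β • y ≠ y) : y = x ∨ y = β • x ∨ y = β • β • x := by
  obtain ⟨γ, rfl⟩ := h
  have key : ∀ z : X, (γ * D.b * γ⁻¹) • z ≠ z → D.b • γ⁻¹ • z ≠ γ⁻¹ • z := fun z hz e => hz (by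
    rw [mul_smul, mul_smul, e, smul_inv_smul])
  have h3 := D.isC_b.smul3 ω
  have hx' := T.tri _ (T.inv γ⁻¹ x hx) (key x mx)
  have hy' := T.tri _ (T.inv γ⁻¹ y hy) (key y my)
  simp only [inv_smul_eq_iff] at hx' hy'
  simp only [mul_smul]
  rcases hx' with rfl | rfl | rfl <;> rcases hy' with rfl | rfl | rfl <;> simp [h3]

theorem Tri.clA (T : D.Tri Λ ω) {β β' : G} (h : D.IsC β) (h' : D.IsC β') {x : X} (hx : x ∈ Λ)
    (mx : β' • x ≠ x) (f1 : β • β' • x = β' • x) (f2 : β • β' • β' • x = β' • β' • x) : False := by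
  obtain ⟨r, hr, er⟩ := h.eq
  obtain ⟨r', hr', er'⟩ := h'.eq
  have s3 := h.smul3 x
  have s3' := h'.smul3 x
  by_cases hb : β • x = x
  · have hm : β⁻¹ * β' ∈ D.R := by
      have := D.nR.conj_mem _ (D.R.mul_mem (D.R.inv_mem hr) hr') D.b⁻¹
      rw [er, er']; convert this using 1; group
    have := fix_of_cube hm (x := x) (by simp only [h.inv, mul_smul, f1, f2, s3', hb])
    simp only [h.inv, mul_smul, f1] at this
    exact mx this
  · have hm : ⁅β, β'⁆ ∈ D.R := by
      have := D.R.mul_mem (D.R.mul_mem hr (D.nR.conj_mem _ (D.R.mul_mem hr' (D.R.inv_mem hr)) D.b))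
        (D.R.inv_mem hr')
      rw [er, er', commutatorElement_def]; convert this using 1; group
    have g1 : β' • β • x = β • x := by
      by_contra hc
      rcases T.tri' h' hx (T.inv β x hx) mx hc with e | e | e
      · exact hb e
      · exact IsC.mv1 hb (by rw [e, f1])
      · exact IsC.mv1 hb (by rw [e, f2])
    have g2 : β' • β • β • x = β • β • x := by
      by_contra hc
      rcases T.tri' h' hx (T.inv β _ (T.inv β x hx)) mx hc with e | e | e
      · exact h.mv2 hb e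
      · exact h.mv3 hb (by rw [e, f1])
      · exact h.mv3 hb (by rw [e, f2])
    have := fix_of_cube hm (x := x) (by
      simp only [commutatorElement_def, h.inv, h'.inv, mul_smul, f1, f2, s3, s3', g1, g2])
    simp only [commutatorElement_def, h.inv, h'.inv, mul_smul, f1, f2, s3, s3', g1, g2] at this
    exact hb this

/-- a point moved by a conjugate and fixed by `b` -/
theorem Tri.mv_of_fix (T : D.Tri Λ ω) {β : G} (h : D.IsC β) {u : X} (hu : u ∈ Λ)
    (fu : D.b • u = u) (mu : β • u ≠ u) :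
    D.b • β • u ≠ β • u ∧ D.b • β • β • u ≠ β • β • u := by
  have s3 := h.smul3 u
  constructor
  · intro e
    exact T.clA D.isC_b h (T.inv β _ (T.inv β u hu)) (h.mv3 mu) (by rw [s3, fu]) (by rw [s3, e])
  · intro e
    exact T.clA D.isC_b h (T.inv β u hu) (IsC.mv1 mu) e (by rw [s3, fu])

theorem Tri.fix_unique (T : D.Tri Λ ω) (htr : ∀ x ∈ Λ, ∃ γ : G, x = γ • ω) {u u' : X}
    (hu : u ∈ Λ) (hu' : u' ∈ Λ) (fu : D.b • u = u) (fu' : D.b • u' = u') : u = u' := by
  have key : ∀ x ∈ Λ, ∃ β, D.IsC β ∧ β • x ≠ x := fun x hx => by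
    obtain ⟨γ, rfl⟩ := htr x hx
    refine ⟨_, ⟨γ, rfl⟩, fun e => T.mv ?_⟩
    rw [mul_smul, mul_smul, inv_smul_smul] at e
    exact smul_left_cancel γ e
  obtain ⟨β, h, mu⟩ := key u hu
  obtain ⟨β', h', mu'⟩ := key u' hu'
  obtain ⟨m1, m2⟩ := T.mv_of_fix h hu fu mu
  obtain ⟨-, m2'⟩ := T.mv_of_fix h' hu' fu' mu'
  by_contra hne
  have fβ : β • u' = u' := by
    by_contra hc
    rcases T.tri' h hu hu' mu hc with e | e | e
    · exact hne e.symm
    · exact m1 (by rw [← e, fu'])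
    · exact m2 (by rw [← e, fu'])
  set y := β' • β' • u' with hy
  have hyΛ : y ∈ Λ := T.inv _ _ (T.inv _ _ hu')
  have main : ∀ c : G, c • u' = u' → β • c • y = c • y → False := fun c hc e => by
    refine T.clA h (h'.conj c) (x := c • β' • u') (T.inv _ _ (T.inv _ _ hu')) ?_ ?_ ?_
    · simp only [mul_smul, inv_smul_smul]
      exact fun e => IsC.mv1 mu' (smul_left_cancel c e)
    · simp only [mul_smul, inv_smul_smul]; exact e
    · simp only [mul_smul, inv_smul_smul]; rw [h'.smul3, hc, fβ]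
  have hb := D.isC_b
  have t0 : y = β • u ∨ y = β • β • u := by
    rcases T.tri' h hu hyΛ mu (fun e => main 1 (one_smul _ _) (by simpa using e)) with e | e
    · exact absurd (by rw [e, fu]) m2'
    · exact e
  have t1 : D.b • y = β • u ∨ D.b • y = β • β • u := by
    rcases T.tri' h hu (T.inv _ _ hyΛ) mu (fun e => main D.b fu' e) with e | e
    · exact absurd (by rw [e, fu]) (IsC.mv1 m2')
    · exact e
  have t2 : D.b • D.b • y = β • u ∨ D.b • D.b • y = β • β • u := by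
    rcases T.tri' h hu (T.inv _ _ (T.inv _ _ hyΛ)) mu
      (fun e => main (D.b * D.b) (by rw [mul_smul, fu', fu']) (by simpa [mul_smul] using e)) with e | e
    · exact absurd (by rw [e, fu]) (hb.mv3 m2')
    · exact e
  have d1 := m2'
  have d2 := hb.mv2 m2'
  have d3 := IsC.mv1 m2'
  rcases t0 with e0 | e0 <;> rcases t1 with e1 | e1 <;> rcases t2 with e2 | e2 <;>
    first
    | exact d1 (e1.trans e0.symm)
    | exact d2 (e2.trans e0.symm)
    | exact d3 (e2.trans e1.symm)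

theorem Tri.triv (T : D.Tri Λ ω) {g : G} (hg : g ∈ D.R)
    (hf : ∀ x ∈ Λ, D.b • x = x → g • x = x) : ∀ x ∈ Λ, g • x = x := by
  have hb := D.isC_b
  have mvg : ∀ x ∈ Λ, D.b • x ≠ x → g • x = ω ∨ g • x = D.b • ω ∨ g • x = D.b • D.b • ω :=
    fun x hx mx => T.tri _ (T.inv g x hx) fun e => by
      have := smul_left_cancel g (hf _ (T.inv g x hx) e)
      rw [this] at e; exact mx e
  have s3 := hb.smul3 ω
  have d1 := T.mv
  have d2 := hb.mv2 T.mv
  have d3 := IsC.mv1 T.mv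
  have hm : g * (D.b * g * D.b⁻¹) ∈ D.R := D.R.mul_mem hg (D.nR.conj_mem _ hg _)
  have c1 := fix_of_cube hg (x := ω)
  have c2 := fix_of_cube hm (x := ω)
  simp only [D.binv, mul_smul] at c2
  have key : g • ω = ω ∧ g • D.b • ω = D.b • ω ∧ g • D.b • D.b • ω = D.b • D.b • ω := by
    rcases mvg _ T.mem d1 with e0 | e0 | e0 <;>
    rcases mvg _ (T.inv _ _ T.mem) d3 with e1 | e1 | e1 <;>
    rcases mvg _ (T.inv _ _ (T.inv _ _ T.mem)) (hb.mv3 d1) with e2 | e2 | e2 <;>
    first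
    | exact ⟨e0, e1, e2⟩
    | exact absurd (smul_left_cancel g (e1.trans e0.symm)) d1
    | exact absurd (smul_left_cancel g (e2.trans e0.symm)) d2
    | exact absurd (smul_left_cancel g (e2.trans e1.symm)) d3
    | (exfalso; simp only [e0, e1, e2, s3, forall_const] at c1 c2
       first | exact d1 c1 | exact d2 c1 | exact d1 c2 | exact d2 c2)
  intro x hx
  by_cases mx : D.b • x = x
  · exact hf x hx mx
  · rcases T.tri x hx mx with rfl | rfl | rfl
    exacts [key.1, key.2.1, key.2.2]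

end act
end GS
end CL.Tho3
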