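import Cfsg.Agent.Fgs.ThoA

/-! The frame of a four-group on an `F₃`-module where `b - 1` has rank two (for S4415). -/

set_option autoImplicit false
set_option linter.unusedSimpArgs false
open scoped commutatorElement

namespace CL.Tho3

abbrev k3 := ZMod 3

theorem k3_cases (a : k3) : a = 0 ∨ a = 1 ∨ a = -1 := by revert a; decide

variable {G : Type*} [Group G] {E : Type*} [AddCommGroup E] [Module k3 E]

theorem three_smul (v : E) : v + v + v = 0 := by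
  have h : (1 + 1 + 1 : k3) = 0 := by decide
  calc v + v + v = (1 + 1 + 1 : k3) • v := by simp only [add_smul, one_smul]
    _ = 0 := by rw [h, zero_smul]

theorem eq_zero_of_neg {v : E} (h : v = -v) : v = 0 := by
  have := three_smul v
  rw [add_assoc, add_comm v v, show v + v = 0 from add_eq_zero_iff_eq_neg.mpr h, add_zero] at this
  exact this

/-- The module data. -/
structure MS (G E : Type*) [Group G] [AddCommGroup E] [Module k3 E] extends GS G where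
  ρ : Representation k3 G E
  faith : ∀ g, (∀ v, ρ g v = v) → g = 1
  comm : ∀ M : Subgroup G, M.Normal → (∀ r ∈ R, ⁅r, b⁆ ∈ M) → R ≤ M
  rk : ∀ u1 u2 u3 : E, ∃ a1 a2 a3 : k3, ¬ (a1 = 0 ∧ a2 = 0 ∧ a3 = 0) ∧
    ρ b (a1 • u1 + a2 • u2 + a3 • u3) = a1 • u1 + a2 • u2 + a3 • u3

namespace MS
variable (D : MS G E)

theorem mul_app (g h : G) (v : E) : D.ρ (g * h) v = D.ρ g (D.ρ h v) := by
  rw [map_mul]; rfl

theorem one_app (v : E) : D.ρ 1 v = v := by rw [map_one]; rfl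

theorem inv_app (g : G) (v : E) : D.ρ g⁻¹ (D.ρ g v) = v := by
  rw [← mul_app, inv_mul_cancel, one_app]

theorem app_inv (g : G) (v : E) : D.ρ g (D.ρ g⁻¹ v) = v := by
  rw [← mul_app, mul_inv_cancel, one_app]

theorem inj (g : G) {v w : E} (h : D.ρ g v = D.ρ g w) : v = w := by
  rw [← D.inv_app g v, h, inv_app]

theorem app_ne (g : G) {v : E} (h : v ≠ 0) : D.ρ g v ≠ 0 := fun e =>
  h (D.inj g (by rw [e, map_zero]))

theorem b3_app (v : E) : D.ρ D.b (D.ρ D.b (D.ρ D.b v)) = v := by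
  rw [← mul_app, ← mul_app, D.b3, one_app]

theorem gen (K : Subgroup G) (hK : K.Normal) (hb : D.b ∈ K) (g : G) : g ∈ K := by
  have h : D.R ≤ K := D.comm K hK fun r _ => by
    rw [commutatorElement_def]; exact K.mul_mem (hK.conj_mem _ hb r) (K.inv_mem hb)
  obtain ⟨r, hr, i, rfl⟩ := D.dec g
  exact K.mul_mem (h hr) (K.pow_mem hb i)

/-- conjugation by `b` -/
def cj (x : G) : G := D.b * x * D.b⁻¹

theorem cj_mul (x y : G) : D.cj (x * y) = D.cj x * D.cj y := by simp only [cj]; group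

theorem cj3 (x : G) : D.cj (D.cj (D.cj x)) = x := by
  have : D.cj (D.cj (D.cj x)) = (D.b * D.b * D.b) * x * (D.b * D.b * D.b)⁻¹ := by simp only [cj]; group
  rw [this, D.b3]; simp

theorem cj_inj {x y : G} (h : D.cj x = D.cj y) : x = y := by simpa [cj] using h

@[simp] theorem cj_one : D.cj 1 = 1 := by simp [cj]

theorem cj_app (x : G) (v : E) : D.ρ (D.cj x) (D.ρ D.b v) = D.ρ D.b (D.ρ x v) := by
  simp only [cj, mul_app, inv_app]

theorem cj_eq_iff {x : G} : D.cj x = x ↔ Commute x D.b := by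
  rw [cj, mul_inv_eq_iff_eq_mul, Commute, SemiconjBy, eq_comm]

/-- `q` generates under `b` a four-group on which `b` acts nontrivially -/
structure Four (q : G) : Prop where
  ne : q ≠ 1
  sq : q * q = 1
  prod : q * D.cj q * D.cj (D.cj q) = 1

variable {D}

theorem Four.sq2 {q : G} (h : D.Four q) : D.cj q * D.cj q = 1 := by rw [← cj_mul, h.sq, cj_one]
theorem Four.sq3 {q : G} (h : D.Four q) : D.cj (D.cj q) * D.cj (D.cj q) = 1 := by
  rw [← cj_mul, h.sq2, cj_one]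
theorem Four.m12 {q : G} (h : D.Four q) : q * D.cj q = D.cj (D.cj q) := by
  have := h.prod
  rw [← h.sq3] at this; exact mul_right_cancel this
theorem Four.m23 {q : G} (h : D.Four q) : D.cj q * D.cj (D.cj q) = q := by
  have := congrArg D.cj h.m12
  rwa [cj_mul, cj3] at this
theorem Four.m31 {q : G} (h : D.Four q) : D.cj (D.cj q) * q = D.cj q := by
  have := congrArg D.cj h.m23
  rwa [cj_mul, cj3] at this
theorem Four.m13 {q : G} (h : D.Four q) : q * D.cj (D.cj q) = D.cj q := by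
  rw [← h.m12, ← mul_assoc, h.sq, one_mul]
theorem Four.m21 {q : G} (h : D.Four q) : D.cj q * q = D.cj (D.cj q) := by
  have := congrArg D.cj h.m13
  rwa [cj_mul, cj3] at this
theorem Four.m32 {q : G} (h : D.Four q) : D.cj (D.cj q) * D.cj q = q := by
  have := congrArg D.cj h.m21
  rwa [cj_mul, cj3] at this
theorem Four.next {q : G} (h : D.Four q) : D.Four (D.cj q) :=
  ⟨fun e => h.ne (D.cj_inj (by rw [e, cj_one])), h.sq2, by rw [cj3, h.m23, h.sq]⟩
theorem Four.ne12 {q : G} (h : D.Four q) : D.cj q ≠ q := fun e => by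
  have := h.prod
  rw [e, e, h.sq, one_mul] at this; exact h.ne this
theorem Four.inv {q : G} (h : D.Four q) : q⁻¹ = q := inv_eq_of_mul_eq_one_right h.sq

/-- the frame -/
structure Fr (D : MS G E) (q : G) (e : E) : Prop where
  four : D.Four q
  ne : e ≠ 0
  h11 : D.ρ q e = e
  h21 : D.ρ (D.cj q) e = -e
  eig : ∀ v, D.ρ q v = v → D.ρ (D.cj q) v = -v → ∃ a : k3, v = a • e
  fix : ∀ v, D.ρ q v = v → D.ρ (D.cj q) v = v → D.ρ D.b v = v

/-- sign relations -/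
theorem signs {q : G} (h : D.Four q) {e : E} (h11 : D.ρ q e = e) (h21 : D.ρ (D.cj q) e = -e) :
    D.ρ q (D.ρ D.b e) = -D.ρ D.b e ∧ D.ρ q (D.ρ D.b (D.ρ D.b e)) = -D.ρ D.b (D.ρ D.b e) ∧
    D.ρ (D.cj q) (D.ρ D.b e) = D.ρ D.b e ∧
    D.ρ (D.cj q) (D.ρ D.b (D.ρ D.b e)) = -D.ρ D.b (D.ρ D.b e) := by
  have h31 : D.ρ (D.cj (D.cj q)) e = -e := by rw [← h.m12, mul_app, h21, map_neg, h11]
  have h12 : D.ρ q (D.ρ D.b e) = -D.ρ D.b e := by
    conv_lhs => rw [← D.cj3 q]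
    rw [cj_app, h31, map_neg]
  refine ⟨h12, ?_, by rw [cj_app, h11], by rw [cj_app, h12, map_neg]⟩
  conv_lhs => rw [← D.cj3 q]
  rw [cj_app, cj_app, h21, map_neg, map_neg]

theorem indep {q : G} {x0 x1 x2 x3 : E} (a0 : D.ρ q x0 = x0) (a1 : D.ρ q x1 = x1)
    (a2 : D.ρ q x2 = -x2) (a3 : D.ρ q x3 = -x3) (b0 : D.ρ (D.cj q) x0 = x0)
    (b1 : D.ρ (D.cj q) x1 = -x1) (b2 : D.ρ (D.cj q) x2 = x2) (b3 : D.ρ (D.cj q) x3 = -x3)
    (h : x0 + x1 + x2 + x3 = 0) : x0 = 0 ∧ x1 = 0 ∧ x2 = 0 ∧ x3 = 0 := by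
  have h1 := congrArg (D.ρ q) h
  simp only [map_add, map_zero, a0, a1, a2, a3] at h1
  have h2 : x0 + x1 = 0 := eq_zero_of_neg (by linear_combination (norm := module) h + h1)
  have h3 : x2 + x3 = 0 := by linear_combination (norm := module) h - h2
  have h4 := congrArg (D.ρ (D.cj q)) h2
  have h5 := congrArg (D.ρ (D.cj q)) h3
  simp only [map_add, map_zero, b0, b1, b2, b3] at h4 h5
  have e0 : x0 = 0 := eq_zero_of_neg (by linear_combination (norm := module) h2 + h4)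
  have e2 : x2 = 0 := eq_zero_of_neg (by linear_combination (norm := module) h3 + h5)
  exact ⟨e0, by simpa [e0] using h2, e2, by simpa [e2] using h3⟩

theorem Four.split {q : G} (h : D.Four q) (v : E) : ∃ x0 x1 x2 x3 : E, v = x0 + x1 + x2 + x3 ∧
    (D.ρ q x0 = x0 ∧ D.ρ (D.cj q) x0 = x0) ∧ (D.ρ q x1 = x1 ∧ D.ρ (D.cj q) x1 = -x1) ∧
    (D.ρ q x2 = -x2 ∧ D.ρ (D.cj q) x2 = x2) ∧ (D.ρ q x3 = -x3 ∧ D.ρ (D.cj q) x3 = -x3) ∧
    x1 = v + D.ρ q v - D.ρ (D.cj q) v - D.ρ (D.cj (D.cj q)) v ∧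
    x2 = v - D.ρ q v + D.ρ (D.cj q) v - D.ρ (D.cj (D.cj q)) v ∧
    x3 = v - D.ρ q v - D.ρ (D.cj q) v + D.ρ (D.cj (D.cj q)) v := by
  have t := three_smul v
  refine ⟨v + D.ρ q v + D.ρ (D.cj q) v + D.ρ (D.cj (D.cj q)) v, _, _, _, ?_, ⟨?_, ?_⟩, ⟨?_, ?_⟩,
    ⟨?_, ?_⟩, ⟨?_, ?_⟩, rfl, rfl, rfl⟩
  · linear_combination (norm := module) -t
  all_goals
    simp only [map_add, map_sub, ← mul_app, h.sq, h.sq2, h.m12, h.m13, h.m21, h.m23, one_app]
    abel

theorem Four.exists_fr {q : G} (h : D.Four q) : ∃ e, D.Fr q e := by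
  have hex : ∃ e : E, e ≠ 0 ∧ D.ρ q e = e ∧ D.ρ (D.cj q) e = -e := by
    by_contra hc
    push Not at hc
    have z1 : ∀ x, D.ρ q x = x → D.ρ (D.cj q) x = -x → x = 0 := fun x a b => by
      by_contra hx; exact hc x hx a b
    refine h.ne (D.faith q fun v => ?_)
    obtain ⟨x0, x1, x2, x3, rfl, ⟨a0, -⟩, ⟨a1, b1⟩, ⟨a2, b2⟩, ⟨a3, b3⟩, -⟩ := h.split v
    have e2 : x2 = 0 := by
      have c : D.ρ (D.cj (D.cj q)) x2 = -x2 := by rw [← h.m12, mul_app, b2, a2]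
      have := z1 (D.ρ D.b (D.ρ D.b x2)) (by
        conv_lhs => rw [← D.cj3 q]
        rw [cj_app, cj_app, b2]) (by
        rw [cj_app]; conv_lhs => rw [← D.cj3 q]
        rw [cj_app, c, map_neg, map_neg])
      exact D.inj _ (D.inj _ (by rw [this, map_zero, map_zero]))
    have e3 : x3 = 0 := by
      have c : D.ρ (D.cj (D.cj q)) x3 = x3 := by rw [← h.m12, mul_app, b3, map_neg, a3, neg_neg]
      have := z1 (D.ρ D.b x3) (by
        conv_lhs => rw [← D.cj3 q]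
        rw [cj_app, c]) (by rw [cj_app, a3, map_neg])
      exact D.inj _ (by rw [this, map_zero])
    rw [e2, e3, add_zero, add_zero, map_add, a0, a1]
  obtain ⟨e, he, h11, h21⟩ := hex
  obtain ⟨h12, h13, h22, h23⟩ := signs h h11 h21
  refine ⟨e, h, he, h11, h21, fun v a b => ?_, fun v a b => ?_⟩
  · obtain ⟨a1, a2, a3, hne, hf⟩ := D.rk e v (D.ρ D.b e)
    obtain ⟨g12, -, g22, -⟩ := signs h a b
    simp only [map_add, map_smul] at hf
    have := indep (D := D) (q := q) (x0 := 0) (x1 := -(a1 • e + a2 • v))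
      (x2 := a1 • D.ρ D.b e + a2 • D.ρ D.b v - a3 • D.ρ D.b e) (x3 := a3 • D.ρ D.b (D.ρ D.b e))
      (by simp) (by simp [h11, a]) (by simp [h12, g12]; abel) (by simp [h13]) (by simp)
      (by simp [h21, b]; abel) (by simp [h22, g22]) (by simp [h23])
      (by linear_combination (norm := module) hf)
    obtain ⟨-, c1, -, c3⟩ := this
    have e3 : a3 = 0 := (smul_eq_zero.mp c3).resolve_right (D.app_ne _ (D.app_ne _ he))
    have c1' : a2 • v = -(a1 • e) := by linear_combination (norm := module) -c1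
    have e2 : a2 ≠ 0 := fun e2 => by
      rw [e2, zero_smul, eq_comm, neg_eq_zero] at c1'
      exact hne ⟨(smul_eq_zero.mp c1').resolve_right he, e2, e3⟩
    rcases k3_cases a2 with r | r | r
    · exact absurd r e2
    · exact ⟨-a1, by rw [neg_smul, ← c1', r, one_smul]⟩
    · exact ⟨a1, by rw [r, neg_smul, one_smul] at c1'; exact neg_injective c1'⟩
  · obtain ⟨a1, a2, a3, hne, hf⟩ := D.rk e (D.ρ D.b e) v
    have c : D.ρ (D.cj (D.cj q)) v = v := by rw [← h.m12, mul_app, b, a]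
    have g1 : D.ρ q (D.ρ D.b v) = D.ρ D.b v := by
      conv_lhs => rw [← D.cj3 q]
      rw [cj_app, c]
    have g2 : D.ρ (D.cj q) (D.ρ D.b v) = D.ρ D.b v := by rw [cj_app, a]
    simp only [map_add, map_smul] at hf
    have := indep (D := D) (q := q) (x0 := a3 • (D.ρ D.b v - v)) (x1 := -(a1 • e))
      (x2 := a1 • D.ρ D.b e - a2 • D.ρ D.b e) (x3 := a2 • D.ρ D.b (D.ρ D.b e))
      (by simp [g1, a]) (by simp [h11]) (by simp [h12]; abel) (by simp [h13]) (by simp [g2, b])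
      (by simp [h21]) (by simp [h22]) (by simp [h23])
      (by rw [smul_sub]; linear_combination (norm := module) hf)
    obtain ⟨c0, c1, -, c3⟩ := this
    have e2 : a2 = 0 := (smul_eq_zero.mp c3).resolve_right (D.app_ne _ (D.app_ne _ he))
    have e1 : a1 = 0 := (smul_eq_zero.mp (neg_eq_zero.mp c1)).resolve_right he
    exact sub_eq_zero.mp ((smul_eq_zero.mp c0).resolve_left fun e3 => hne ⟨e1, e2, e3⟩)

namespace Fr
variable {q : G} {e : E} (F : D.Fr q e)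
include F

theorem h12 : D.ρ q (D.ρ D.b e) = -D.ρ D.b e := (signs F.four F.h11 F.h21).1
theorem h13 : D.ρ q (D.ρ D.b (D.ρ D.b e)) = -D.ρ D.b (D.ρ D.b e) := (signs F.four F.h11 F.h21).2.1
theorem h22 : D.ρ (D.cj q) (D.ρ D.b e) = D.ρ D.b e := (signs F.four F.h11 F.h21).2.2.1
theorem h23 : D.ρ (D.cj q) (D.ρ D.b (D.ρ D.b e)) = -D.ρ D.b (D.ρ D.b e) :=
  (signs F.four F.h11 F.h21).2.2.2
theorem h31 : D.ρ (D.cj (D.cj q)) e = -e := by rw [← F.four.m12, mul_app, F.h21, map_neg, F.h11]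
theorem h32 : D.ρ (D.cj (D.cj q)) (D.ρ D.b e) = -D.ρ D.b e := by
  rw [← F.four.m12, mul_app, F.h22, F.h12]
theorem h33 : D.ρ (D.cj (D.cj q)) (D.ρ D.b (D.ρ D.b e)) = D.ρ D.b (D.ρ D.b e) := by
  rw [← F.four.m12, mul_app, F.h23, map_neg, F.h13, neg_neg]

theorem eig2 (v : E) (a : D.ρ q v = -v) (b : D.ρ (D.cj q) v = v) : ∃ c : k3, v = c • D.ρ D.b e := by
  have c : D.ρ (D.cj (D.cj q)) v = -v := by rw [← F.four.m12, mul_app, b, a]
  obtain ⟨s, hs⟩ := F.eig (D.ρ D.b (D.ρ D.b v)) (by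
    conv_lhs => rw [← D.cj3 q]
    rw [cj_app, cj_app, b]) (by
    rw [cj_app]; conv_lhs => rw [← D.cj3 q]
    rw [cj_app, c, map_neg, map_neg])
  exact ⟨s, by rw [← map_smul, ← hs, b3_app]⟩

theorem eig3 (v : E) (a : D.ρ q v = -v) (b : D.ρ (D.cj q) v = -v) :
    ∃ c : k3, v = c • D.ρ D.b (D.ρ D.b e) := by
  have c : D.ρ (D.cj (D.cj q)) v = v := by rw [← F.four.m12, mul_app, b, map_neg, a, neg_neg]
  obtain ⟨s, hs⟩ := F.eig (D.ρ D.b v) (by
    conv_lhs => rw [← D.cj3 q]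
    rw [cj_app, c]) (by rw [cj_app, a, map_neg])
  exact ⟨s, by rw [← map_smul, ← map_smul, ← hs, b3_app]⟩

theorem dec (v : E) : ∃ (x : E) (a1 a2 a3 : k3), D.ρ q x = x ∧ D.ρ (D.cj q) x = x ∧
    v = x + a1 • e + a2 • D.ρ D.b e + a3 • D.ρ D.b (D.ρ D.b e) ∧
    a1 • e = v + D.ρ q v - D.ρ (D.cj q) v - D.ρ (D.cj (D.cj q)) v ∧
    a2 • D.ρ D.b e = v - D.ρ q v + D.ρ (D.cj q) v - D.ρ (D.cj (D.cj q)) v ∧
    a3 • D.ρ D.b (D.ρ D.b e) = v - D.ρ q v - D.ρ (D.cj q) v + D.ρ (D.cj (D.cj q)) v := by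
  obtain ⟨x0, x1, x2, x3, hv, ⟨a0, b0⟩, ⟨a1, b1⟩, ⟨a2, b2⟩, ⟨a3, b3⟩, h⟩ := F.four.split v
  obtain ⟨c1, rfl⟩ := F.eig x1 a1 b1
  obtain ⟨c2, rfl⟩ := F.eig2 x2 a2 b2
  obtain ⟨c3, rfl⟩ := F.eig3 x3 a3 b3
  exact ⟨x0, c1, c2, c3, a0, b0, hv, h⟩

theorem ne12 : D.ρ D.b e ≠ e ∧ D.ρ D.b e ≠ -e := by
  constructor <;> intro h
  · have := F.h12; rw [h, F.h11] at this; exact F.ne (eq_zero_of_neg this)
  · have := F.h12; rw [h, map_neg, F.h11] at this; exact F.ne (eq_zero_of_neg (neg_injective this))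

theorem ext {s t : G} (h0 : ∀ v, D.ρ q v = v → D.ρ (D.cj q) v = v → D.ρ s v = D.ρ t v)
    (h1 : D.ρ s e = D.ρ t e) (h2 : D.ρ s (D.ρ D.b e) = D.ρ t (D.ρ D.b e))
    (h3 : D.ρ s (D.ρ D.b (D.ρ D.b e)) = D.ρ t (D.ρ D.b (D.ρ D.b e))) : s = t := by
  have := D.faith (t⁻¹ * s) fun v => by
    obtain ⟨x, a1, a2, a3, hx, hx', hv, -⟩ := F.dec v
    have : D.ρ s v = D.ρ t v := by rw [hv]; simp only [map_add, map_smul, h0 x hx hx', h1, h2, h3]
    rw [mul_app, this, inv_app]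
  rw [inv_mul_eq_one] at this; exact this.symm

omit F in
theorem pm {c : G} {v : E} (hv : v ≠ 0) (h : ∃ a : k3, D.ρ c v = a • v) :
    D.ρ c v = v ∨ D.ρ c v = -v := by
  obtain ⟨a, ha⟩ := h
  rcases k3_cases a with r | r | r
  · exact absurd (by rw [ha, r, zero_smul]) (D.app_ne c hv)
  · exact Or.inl (by rw [ha, r, one_smul])
  · exact Or.inr (by rw [ha, r, neg_smul, one_smul])

theorem diag {c : G} (c1 : Commute c q) (c2 : Commute c (D.cj q)) :
    (D.ρ c e = e ∨ D.ρ c e = -e) ∧ (D.ρ c (D.ρ D.b e) = D.ρ D.b e ∨ D.ρ c (D.ρ D.b e) = -D.ρ D.b e) ∧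
    (D.ρ c (D.ρ D.b (D.ρ D.b e)) = D.ρ D.b (D.ρ D.b e) ∨
      D.ρ c (D.ρ D.b (D.ρ D.b e)) = -D.ρ D.b (D.ρ D.b e)) := by
  have k1 : ∀ v, D.ρ q (D.ρ c v) = D.ρ c (D.ρ q v) := fun v => by rw [← mul_app, ← c1.eq, mul_app]
  have k2 : ∀ v, D.ρ (D.cj q) (D.ρ c v) = D.ρ c (D.ρ (D.cj q) v) := fun v => by
    rw [← mul_app, ← c2.eq, mul_app]
  refine ⟨pm F.ne (F.eig _ ?_ ?_), pm (D.app_ne _ F.ne) (F.eig2 _ ?_ ?_),
    pm (D.app_ne _ (D.app_ne _ F.ne)) (F.eig3 _ ?_ ?_)⟩ <;>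
  simp only [k1, k2, F.h11, F.h21, F.h12, F.h22, F.h13, F.h23, map_neg]

/-- `[C(Q), b] ≤ Q` -/
theorem comm_mem {c : G} (c1 : Commute c q) (c2 : Commute c (D.cj q)) :
    ⁅c, D.b⁆ = 1 ∨ ⁅c, D.b⁆ = q ∨ ⁅c, D.b⁆ = D.cj q ∨ ⁅c, D.b⁆ = D.cj (D.cj q) := by
  obtain ⟨d1, d2, d3⟩ := F.diag c1 c2
  have inv' : ∀ v w : E, D.ρ c v = w → D.ρ c⁻¹ w = v := fun v w h => by rw [← h, inv_app]
  have f0 : ∀ v, D.ρ q v = v → D.ρ (D.cj q) v = v → D.ρ ⁅c, D.b⁆ v = v := fun v a b => by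
    have hb := F.fix v a b
    have hb' : D.ρ D.b⁻¹ v = v := by conv_lhs => rw [← hb, inv_app]
    have := F.fix (D.ρ c⁻¹ v) (by rw [← mul_app, ← c1.inv_left.eq, mul_app, a])
      (by rw [← mul_app, ← c2.inv_left.eq, mul_app, b])
    simp only [commutatorElement_def, mul_app, hb', this, app_inv]
  have f3 : ∀ v, D.ρ q v = v → D.ρ (D.cj q) v = v → D.ρ (D.cj (D.cj q)) v = v := fun v a b => by
    rw [← F.four.m12, mul_app, b, a]
  have b1 : D.ρ D.b⁻¹ e = D.ρ D.b (D.ρ D.b e) := by rw [D.binv, mul_app]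
  have key : ∀ (s1 s2 s3 : k3), s1 * s1 = 1 → s2 * s2 = 1 → s3 * s3 = 1 → D.ρ c e = s1 • e →
      D.ρ c (D.ρ D.b e) = s2 • D.ρ D.b e → D.ρ c (D.ρ D.b (D.ρ D.b e)) = s3 • D.ρ D.b (D.ρ D.b e) →
      D.ρ ⁅c, D.b⁆ e = (s3 * s1) • e ∧ D.ρ ⁅c, D.b⁆ (D.ρ D.b e) = (s1 * s2) • D.ρ D.b e ∧
      D.ρ ⁅c, D.b⁆ (D.ρ D.b (D.ρ D.b e)) = (s2 * s3) • D.ρ D.b (D.ρ D.b e) := by
    intro s1 s2 s3 t1 t2 t3 e1 e2 e3
    have i : ∀ (s : k3) (v : E), s * s = 1 → D.ρ c v = s • v → D.ρ c⁻¹ v = s • v := fun s v t h =>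
      inv' _ _ (by rw [map_smul, h, smul_smul, t, one_smul])
    simp only [commutatorElement_def, mul_app, b1, inv_app, i _ _ t1 e1, i _ _ t2 e2, i _ _ t3 e3,
      map_smul, b3_app, e1, e2, e3, smul_smul, and_self]
  have fin : ∀ t : G, (∀ v, D.ρ q v = v → D.ρ (D.cj q) v = v → D.ρ t v = v) → ∀ (s1 s2 s3 : k3),
      (D.ρ ⁅c, D.b⁆ e = s1 • e ∧ D.ρ ⁅c, D.b⁆ (D.ρ D.b e) = s2 • D.ρ D.b e ∧
      D.ρ ⁅c, D.b⁆ (D.ρ D.b (D.ρ D.b e)) = s3 • D.ρ D.b (D.ρ D.b e)) → D.ρ t e = s1 • e →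
      D.ρ t (D.ρ D.b e) = s2 • D.ρ D.b e → D.ρ t (D.ρ D.b (D.ρ D.b e)) = s3 • D.ρ D.b (D.ρ D.b e) →
      ⁅c, D.b⁆ = t := fun t h0 s1 s2 s3 h a1 a2 a3 =>
    F.ext (fun v a b => by rw [f0 v a b, h0 v a b]) (by rw [h.1, a1]) (by rw [h.2.1, a2]) (by rw [h.2.2, a3])
  have sg : ∀ v : E, (D.ρ c v = v ∨ D.ρ c v = -v) → ∃ s : k3, (s = 1 ∨ s = -1) ∧ D.ρ c v = s • v :=
    fun v h => h.elim (fun h => ⟨1, Or.inl rfl, by simp [h]⟩) fun h => ⟨-1, Or.inr rfl, by simp [h]⟩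
  obtain ⟨s1, t1, e1⟩ := sg _ d1
  obtain ⟨s2, t2, e2⟩ := sg _ d2
  obtain ⟨s3, t3, e3⟩ := sg _ d3
  have k := key s1 s2 s3 (by rcases t1 with rfl | rfl <;> simp) (by rcases t2 with rfl | rfl <;> simp)
    (by rcases t3 with rfl | rfl <;> simp) e1 e2 e3
  rcases t1 with rfl | rfl <;> rcases t2 with rfl | rfl <;> rcases t3 with rfl | rfl <;>
  first
  | (refine Or.inl (fin 1 (fun v _ _ => D.one_app v) _ _ _ k ?_ ?_ ?_) <;> (simp; done))
  | (refine Or.inr (Or.inl (fin q (fun v a _ => a) _ _ _ k ?_ ?_ ?_)) <;>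
      (simp [F.h11, F.h12, F.h13]; done))
  | (refine Or.inr (Or.inr (Or.inl (fin _ (fun v _ a => a) _ _ _ k ?_ ?_ ?_))) <;>
      (simp [F.h21, F.h22, F.h23]; done))
  | (refine Or.inr (Or.inr (Or.inr (fin _ f3 _ _ _ k ?_ ?_ ?_))) <;> simp [F.h31, F.h32, F.h33])

/-- an invariant subspace containing `e` contains `[E, G]` -/
theorem sub_mem {W : Submodule k3 E} (hW : ∀ g, ∀ v ∈ W, D.ρ g v ∈ W) (he : e ∈ W) (g : G) (v : E) :
    D.ρ g v - v ∈ W := by
  let K : Subgroup G :=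
    { carrier := {g | ∀ v, D.ρ g v - v ∈ W}
      one_mem' := fun v => by simp
      mul_mem' := fun {a b} ha hb v => by
        have := W.add_mem (ha (D.ρ b v)) (hb v)
        rwa [sub_add_sub_cancel, ← mul_app] at this
      inv_mem' := fun {a} ha v => by
        have := W.neg_mem (ha (D.ρ a⁻¹ v))
        rwa [app_inv, neg_sub] at this }
  refine D.gen K ⟨fun n hn g v => ?_⟩ (fun v => ?_) g v
  · have := hW g _ (hn (D.ρ g⁻¹ v))
    rwa [map_sub, app_inv, ← mul_app, ← mul_app] at this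
  · obtain ⟨x, a1, a2, a3, hx, hx', hv, -⟩ := F.dec v
    have h2 := hW D.b _ he
    have h3 := hW D.b _ h2
    have : D.ρ D.b v - v = a1 • (D.ρ D.b e - e) + a2 • (D.ρ D.b (D.ρ D.b e) - D.ρ D.b e) +
        a3 • (e - D.ρ D.b (D.ρ D.b e)) := by
      rw [hv]; simp only [map_add, map_smul, F.fix x hx hx', b3_app]; module
    rw [this]
    exact W.add_mem (W.add_mem (W.smul_mem _ (W.sub_mem h2 he)) (W.smul_mem _ (W.sub_mem h3 h2)))
      (W.smul_mem _ (W.sub_mem he h3))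

omit F in
theorem unip {c : G} (hc : c ∈ D.R) (h : ∀ v, D.ρ c (D.ρ c v - v) = D.ρ c v - v) : c = 1 := by
  refine D.eq_one_of_cube hc (D.faith _ fun v => ?_)
  have h1 := h v
  have h2 := h (D.ρ c v)
  have t := three_smul (D.ρ c v - v)
  rw [map_sub] at h1 h2
  rw [mul_app, mul_app]
  linear_combination (norm := module) h2 + (2 : k3) • h1 + t

/-- an element of `R` fixing the orbit of `e` is trivial -/
theorem eq_one {c : G} (hc : c ∈ D.R) (h : ∀ γ, D.ρ c (D.ρ γ e) = D.ρ γ e) : c = 1 := by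
  let W : Submodule k3 E :=
    { carrier := {v | ∀ γ, D.ρ c (D.ρ γ v) = D.ρ γ v}
      zero_mem' := fun γ => by simp
      add_mem' := fun {a b} ha hb γ => by simp only [map_add, ha γ, hb γ]
      smul_mem' := fun a v hv γ => by simp only [map_smul, hv γ] }
  refine unip hc fun v => ?_
  have := F.sub_mem (W := W) (fun g v hv γ => by rw [← D.mul_app γ g]; exact hv _) h c v 1
  rwa [one_app] at this

/-- central elements of `R` act on the orbit of `e` as `-1` -/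
theorem cen_neg {z : G} (hz : z ∈ D.R) (hc : ∀ g, Commute z g) (h1 : z ≠ 1) (γ : G) :
    D.ρ z (D.ρ γ e) = -D.ρ γ e := by
  have k : ∀ γ, D.ρ z (D.ρ γ e) = D.ρ γ (D.ρ z e) := fun γ => by rw [← mul_app, (hc γ).eq, mul_app]
  rcases (F.diag (hc _) (hc _)).1 with h | h
  · exact absurd (F.eq_one hz fun γ => by rw [k, h]) h1
  · rw [k, h, map_neg]

theorem cen_uniq {z w : G} (hz : z ∈ D.R) (hc : ∀ g, Commute z g) (h1 : z ≠ 1)
    (hw : w ∈ D.R) (hc' : ∀ g, Commute w g) (h1' : w ≠ 1) : z = w := by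
  have := F.eq_one (D.R.mul_mem (D.R.inv_mem hw) hz) fun γ => by
    rw [mul_app, F.cen_neg hz hc h1, ← F.cen_neg hw hc' h1', inv_app]
  rw [inv_mul_eq_one] at this; exact this.symm

/-- the central involution is not a commutator in `C(b)` -/
theorem comm_ne {z x y : G} (hz : z ∈ D.R) (hc : ∀ g, Commute z g) (h1 : z ≠ 1)
    (hx : Commute x D.b) (hy : Commute y D.b) : ⁅x, y⁆ ≠ z := by
  intro hxy
  set s := e + D.ρ D.b e + D.ρ D.b (D.ρ D.b e) with hs
  have s0 : s ≠ 0 := fun h => F.ne (indep (D := D) (q := q) (x0 := 0) (by simp) F.h11 F.h12 F.h13 (by simp)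
    F.h21 F.h22 F.h23 (by rw [zero_add]; exact h)).2.1
  have key : ∀ c, Commute c D.b → ∃ a : k3, D.ρ c s = a • s := fun c hc => by
    obtain ⟨x, a1, a2, a3, hx, hx', hv, -⟩ := F.dec (D.ρ c e)
    have k : ∀ v, D.ρ c (D.ρ D.b v) = D.ρ D.b (D.ρ c v) := fun v => by rw [← mul_app, hc.eq, mul_app]
    refine ⟨a1 + a2 + a3, ?_⟩
    have t := three_smul x
    rw [hs]; simp only [map_add, k, hv, map_smul, F.fix x hx hx', b3_app]
    linear_combination (norm := module) t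
  obtain ⟨a, ha⟩ := key x hx
  obtain ⟨a', ha'⟩ := key y hy
  have hzs : D.ρ z s = -s := by
    have h0 := F.cen_neg hz hc h1 1
    have h2 := F.cen_neg hz hc h1 (D.b * D.b)
    rw [one_app] at h0; rw [mul_app] at h2
    rw [hs]; simp only [map_add, h0, F.cen_neg hz hc h1 D.b, h2]; abel
  have e1 : D.ρ (z * (y * x)) s = D.ρ (x * y) s := by rw [← hxy, commutatorElement_def]; congr 2; group
  have e2 : D.ρ (y * x) s = D.ρ (x * y) s := by
    simp only [mul_app, ha, ha', map_smul, smul_smul, mul_comm]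
  rw [← (hc _).symm.eq, mul_app, hzs, map_neg, e2] at e1
  exact D.app_ne _ s0 (eq_zero_of_neg e1.symm)

omit F in
/-- an element of prime order `r ≥ 5` acts trivially on an invariant space of dimension at most two -/
theorem small {t : G} {r : ℕ} (hr : r.Prime) (h5 : 5 ≤ r) (ht : t ^ r = 1) (u v : E)
    (hinv : ∀ a a' : k3, ∃ c c' : k3, D.ρ t (a • u + a' • v) = c • u + c' • v) (a a' : k3) :
    D.ρ t (a • u + a' • v) = a • u + a' • v := by
  by_contra hne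
  set w := a • u + a' • v with hw
  have hp : ∀ i : ℕ, ∃ c : k3 × k3, D.ρ (t ^ i) w = c.1 • u + c.2 • v := fun i => by
    induction i with
    | zero => exact ⟨(a, a'), by simp [hw]⟩
    | succ i ih =>
      obtain ⟨c, hc⟩ := ih
      obtain ⟨d, d', hd⟩ := hinv c.1 c.2
      exact ⟨(d, d'), by rw [pow_succ', mul_app, hc, hd]⟩
  choose f hf using hp
  let St : Subgroup G :=
    { carrier := {g | D.ρ g w = w}
      one_mem' := D.one_app w
      mul_mem' := fun {a b} ha hb => by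
        show D.ρ (a * b) w = w
        rw [mul_app, hb, ha]
      inv_mem' := fun {a} ha => by
        show D.ρ a⁻¹ w = w
        conv_lhs => rw [← ha]
        rw [inv_app] }
  have hw0 : w ≠ 0 := fun h => hne (by rw [h, map_zero])
  have k0 : ∀ d : ℕ, 0 < d → d < 5 → D.ρ (t ^ (2 * d)) w ≠ w := fun d h0 h1 h => hne
    (mem_of_pow_mem (H := St) (n := 2 * d) h ht (Nat.Coprime.mul_left
      ((Nat.coprime_primes Nat.prime_two hr).mpr (by omega))
      ((hr.coprime_iff_not_dvd.mpr (Nat.not_dvd_of_pos_of_lt h0 (by omega))).symm)))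
  have k1 : ∀ i j : ℕ, i < j → j < 5 → ∀ s : k3, s * s = 1 → D.ρ (t ^ j) w ≠ s • D.ρ (t ^ i) w :=
    fun i j hij hj s hs h => by
      obtain ⟨d, rfl⟩ := Nat.exists_eq_add_of_lt hij
      rw [add_assoc, pow_add, mul_app, ← map_smul] at h
      have h' := D.inj _ h
      exact k0 (d + 1) (by omega) (by omega) (by
        rw [two_mul, pow_add, mul_app, h', map_smul, h', smul_smul, hs, one_smul])
  let g : Fin 5 × Bool → k3 × k3 := fun x => if x.2 then f x.1 else -f x.1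
  have hg : ∀ x : Fin 5 × Bool, (g x).1 • u + (g x).2 • v = (if x.2 then (1 : k3) else -1) • D.ρ (t ^ x.1.1) w := by
    rintro ⟨i, _ | _⟩ <;> simp [g, hf, -map_pow, add_comm]
  have hinj : Function.Injective g := by
    rintro ⟨i, s⟩ ⟨j, s'⟩ h
    have h1 := hg (i, s)
    rw [h, hg] at h1
    have sq : ∀ s : Bool, (if s then (1 : k3) else -1) * (if s then (1 : k3) else -1) = 1 := by decide
    have mv : ∀ (s s' : Bool) (x y : E), (if s' then (1 : k3) else -1) • x = (if s then (1 : k3) else -1) • y →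
        x = ((if s' then (1 : k3) else -1) * (if s then (1 : k3) else -1)) • y := fun s s' x y h => by
      rw [← smul_smul, ← h, smul_smul, sq, one_smul]
    have sq' : ∀ s s' : Bool, ((if s' then (1 : k3) else -1) * (if s then (1 : k3) else -1)) *
      ((if s' then (1 : k3) else -1) * (if s then (1 : k3) else -1)) = 1 := by decide
    rcases lt_trichotomy i.1 j.1 with hl | hl | hl
    · exact absurd (mv _ _ _ _ h1) (k1 _ _ hl j.2 _ (sq' _ _))
    · obtain rfl : i = j := Fin.ext hl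
      have hn := D.app_ne (t ^ i.1) hw0
      cases s <;> cases s' <;> first | rfl | (exfalso; simp [-map_pow] at h1; first | exact hn (eq_zero_of_neg h1) | exact hn (eq_zero_of_neg h1.symm))
    · exact absurd (mv _ _ _ _ h1.symm) (k1 _ _ hl i.2 _ (sq' _ _))
  have := Fintype.card_le_of_injective g hinj
  simp at this

end Fr
end MS
end CL.Tho3
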