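import Cfsg.Agent.Fgs.ThoB
import Cfsg.Agent.Grp.ExtraBasic
import Cfsg.Agent.Grp.PGroupBasic

/-! The case of an abelian normal subgroup containing the four-group (for S4415). -/

set_option autoImplicit false
set_option linter.unusedSimpArgs false
open scoped commutatorElement
open Cfsg

namespace CL.Tho3
variable {G : Type*} [Group G] {E : Type*} [AddCommGroup E] [Module k3 E]
namespace MS
variable {D : MS G E}

theorem normal_of {M : Subgroup G} (h1 : ∀ g ∈ D.R, ∀ x ∈ M, g * x * g⁻¹ ∈ M)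
    (h2 : ∀ x ∈ M, D.cj x ∈ M) : M.Normal := ⟨fun x hx γ => by
  obtain ⟨g, hg, i, rfl⟩ := D.dec γ
  have : ∀ i : ℕ, D.b ^ i * x * (D.b ^ i)⁻¹ ∈ M := fun i => by
    induction i with
    | zero => simpa using hx
    | succ i ih => convert h2 _ ih using 1; rw [pow_succ', cj]; group
  convert h1 g hg _ (this i) using 1; group⟩

/-- the four-group -/
def Four.K {q : G} (h : D.Four q) : Subgroup G where
  carrier := {x | x = 1 ∨ x = q ∨ x = D.cj q ∨ x = D.cj (D.cj q)}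
  one_mem' := Or.inl rfl
  mul_mem' := by
    rintro _ _ (rfl | rfl | rfl | rfl) (rfl | rfl | rfl | rfl) <;>
    simp [h.sq, h.sq2, h.sq3, h.m12, h.m13, h.m21, h.m23, h.m31, h.m32]
  inv_mem' := by
    rintro _ (rfl | rfl | rfl | rfl) <;> simp [h.inv, h.next.inv, h.next.next.inv]

theorem Four.mem_K {q x : G} (h : D.Four q) :
    x ∈ h.K ↔ x = 1 ∨ x = q ∨ x = D.cj q ∨ x = D.cj (D.cj q) := Iff.rfl

theorem Four.cj_mem {q x : G} (h : D.Four q) (hx : x ∈ h.K) : D.cj x ∈ h.K := by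
  rcases hx with rfl | rfl | rfl | rfl <;> simp [h.mem_K, cj3]

theorem Four.sq_K {q x : G} (h : D.Four q) (hx : x ∈ h.K) : x * x = 1 := by
  rcases hx with rfl | rfl | rfl | rfl <;> simp [h.sq, h.sq2, h.sq3]

theorem Four.K_le {q : G} (h : D.Four q) {M : Subgroup G} (hM : M.Normal) (hq : q ∈ M) : h.K ≤ M := by
  have k : ∀ x ∈ M, D.cj x ∈ M := fun x hx => hM.conj_mem x hx _
  rintro _ (rfl | rfl | rfl | rfl)
  exacts [M.one_mem, hq, k _ hq, k _ (k _ hq)]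

theorem Four.of_mem {q x : G} (h : D.Four q) (hx : x ∈ h.K) (h1 : x ≠ 1) :
    ∃ h' : D.Four x, q ∈ h'.K := by
  rcases hx with rfl | rfl | rfl | rfl
  · exact absurd rfl h1
  · exact ⟨h, by simp [mem_K]⟩
  · exact ⟨h.next, by simp [mem_K, cj3]⟩
  · exact ⟨h.next.next, by simp [mem_K, cj3]⟩

theorem Four.card_K {q : G} (h : D.Four q) : Nat.card h.K = 4 := by
  classical
  have a1 := h.ne; have a2 := h.next.ne; have a3 := h.next.next.ne
  have b1 := h.ne12; have b2 := h.next.ne12; have b3 := h.next.next.ne12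
  rw [cj3] at b3
  rw [show Nat.card h.K = ({1, q, D.cj q, D.cj (D.cj q)} : Finset G).card from
    (Nat.card_congr (Equiv.subtypeEquivRight fun e => by simp [h.mem_K])).trans (Nat.card_eq_finsetCard _)]
  simp [Finset.card_insert_of_notMem, a1.symm, a2.symm, a3.symm, b1.symm, b2.symm, b3]

theorem comm_of_sq {M : Subgroup G} (h : ∀ x ∈ M, x * x = 1) {x y : G} (hx : x ∈ M) (hy : y ∈ M) :
    Commute x y := by
  have h1 := h _ (M.mul_mem hx hy)
  have : x * y = (x * y)⁻¹ := eq_inv_of_mul_eq_one_left h1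
  rw [mul_inv_rev, inv_eq_of_mul_eq_one_right (h x hx), inv_eq_of_mul_eq_one_right (h y hy)] at this
  exact this

theorem elem_of_sq {M : Subgroup G} (h : ∀ x ∈ M, x * x = 1) : IsElementaryAbelian 2 M :=
  ⟨⟨⟨fun a b => Subtype.ext (comm_of_sq h a.2 b.2)⟩⟩, fun a ha => by rw [sq, h a ha]⟩

/-- lines -/
def Ln (_ : MS G E) := Set E

instance : MulAction G D.Ln where
  smul g S := (D.ρ g '' S : Set E)
  one_smul S := (show ∀ S : Set E, D.ρ 1 '' S = S by simp) S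
  mul_smul g h S := (show ∀ S : Set E, D.ρ (g * h) '' S = D.ρ g '' (D.ρ h '' S) from fun S => by
    rw [Set.image_image]; simp) S

/-- the line through `v` -/
def ln (D : MS G E) (v : E) : D.Ln := ({v, -v} : Set E)

theorem smul_ln (g : G) (v : E) : g • D.ln v = D.ln (D.ρ g v) := by
  show D.ρ g '' {v, -v} = {D.ρ g v, -D.ρ g v}
  rw [Set.image_pair, map_neg]

theorem ln_eq {v w : E} : D.ln v = D.ln w ↔ v = w ∨ v = -w := by
  refine ⟨fun h => ?_, ?_⟩
  · have : v ∈ ({w, -w} : Set E) := (show ({v, -v} : Set E) = {w, -w} from h) ▸ Set.mem_insert _ _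
    simpa using this
  · rintro (rfl | rfl)
    · rfl
    · show ({-w, - -w} : Set E) = {w, -w}
      rw [neg_neg, Set.pair_comm]

/-- vectors -/
def Vc (_ : MS G E) := E

instance : MulAction G D.Vc where
  smul g v := (D.ρ g v : E)
  one_smul v := D.one_app v
  mul_smul g h v := D.mul_app g h v

/-- no element acts on an orbit as a transposition -/
theorem no_refl [Finite E] {c : G} {e w : E} (hw : w ≠ 0) (γ0 : G) (h0 : D.ρ γ0 e = w)
    (hc : D.ρ c w = -w) (h : ∀ γ, D.ρ γ e ≠ w → D.ρ γ e ≠ -w → D.ρ c (D.ρ γ e) = D.ρ γ e) : False := by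
  classical
  have : Finite D.Vc := inferInstanceAs (Finite E)
  let O := MulAction.orbit G (show D.Vc from e)
  have := Fintype.ofFinite O
  let f := Equiv.Perm.sign.comp (MulAction.toPermHom G O)
  have hb : D.b ∈ f.ker := by
    have h3 : f D.b * f D.b * f D.b = 1 := by rw [← map_mul, ← map_mul, D.b3, map_one]
    rcases Int.units_eq_one_or (f D.b) with h | h
    · exact h
    · rw [h] at h3; exact absurd h3 (by decide)
  have h1 : f c = 1 := D.gen f.ker inferInstance hb c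
  let a : O := ⟨w, γ0, h0⟩
  let a' : O := ⟨(-w : E), c * γ0, by
    show D.ρ (c * γ0) e = -w
    rw [mul_app, h0, hc]⟩
  have hne : a ≠ a' := fun h => hw (eq_zero_of_neg (congrArg Subtype.val h))
  have h2 : MulAction.toPermHom G O c = Equiv.swap a a' := by
    ext x
    by_cases x1 : x = a
    · rw [x1, Equiv.swap_apply_left]; exact hc
    by_cases x2 : x = a'
    · rw [x2, Equiv.swap_apply_right]
      show D.ρ c (-w) = w
      rw [map_neg, hc, neg_neg]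
    · rw [Equiv.swap_apply_of_ne_of_ne x1 x2]
      obtain ⟨_, γ, rfl⟩ := x
      exact h γ (fun h => x1 (Subtype.ext h)) fun h => x2 (Subtype.ext h)
  have h3 : f c = -1 := by
    show Equiv.Perm.sign (MulAction.toPermHom G O c) = -1
    rw [h2, Equiv.Perm.sign_swap hne]
  rw [h1] at h3; exact absurd h3 (by decide)

/-- the conclusion -/
def Concl (D : MS G E) : Prop :=
  (IsElementaryAbelian 2 D.R ∧ Nat.card D.R = 4) ∨ (IsExtraspecial 2 D.R ∧ Nat.card D.R = 32 ∧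
    ∃ A : Subgroup G, A ≤ D.R ∧ IsElementaryAbelian 2 A ∧ Nat.card A = 8)

theorem Fr.pat {q : G} {e : E} (F : D.Fr q e) {c : G} (d1 : D.ρ c e = e ∨ D.ρ c e = -e)
    (d2 : D.ρ c (D.ρ D.b e) = D.ρ D.b e ∨ D.ρ c (D.ρ D.b e) = -D.ρ D.b e)
    (d3 : D.ρ c (D.ρ D.b (D.ρ D.b e)) = D.ρ D.b (D.ρ D.b e) ∨
      D.ρ c (D.ρ D.b (D.ρ D.b e)) = -D.ρ D.b (D.ρ D.b e)) :
    ∃ κ ∈ F.four.K, ∃ s : k3, (s = 1 ∨ s = -1) ∧ D.ρ (c * κ) e = s • e ∧
      D.ρ (c * κ) (D.ρ D.b e) = s • D.ρ D.b e ∧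
      D.ρ (c * κ) (D.ρ D.b (D.ρ D.b e)) = s • D.ρ D.b (D.ρ D.b e) := by
  simp only [Four.mem_K, exists_eq_or_imp, exists_eq_left, mul_app, F.h11, F.h12, F.h13, F.h21, F.h22,
    F.h23, F.h31, F.h32, F.h33, map_neg, one_app, one_smul, neg_smul]
  rcases d1 with d1 | d1 <;> rcases d2 with d2 | d2 <;> rcases d3 with d3 | d3 <;> simp [d1, d2, d3]

theorem case1 [Finite G] [Finite E] {q : G} {e : E} (F : D.Fr q e) {A : Subgroup G} (hA : A.Normal)
    (hAR : A ≤ D.R) (hc : ∀ x ∈ A, ∀ y ∈ A, Commute x y) (hq : q ∈ A) : D.Concl := by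
  have nR := D.nR
  have hKA := F.four.K_le hA hq
  have hq2 : D.cj q ∈ A := hA.conj_mem _ hq _
  let Λ : Set D.Ln := {x | ∃ γ, x = D.ln (D.ρ γ e)}
  have Apm : ∀ a ∈ A, ∀ γ, D.ρ a (D.ρ γ e) = D.ρ γ e ∨ D.ρ a (D.ρ γ e) = -D.ρ γ e := fun a ha γ => by
    have h1 : γ⁻¹ * a * γ ∈ A := by simpa using hA.conj_mem a ha γ⁻¹
    have h2 : D.ρ a (D.ρ γ e) = D.ρ γ (D.ρ (γ⁻¹ * a * γ) e) := by
      rw [← mul_app, ← mul_app]; congr 2; group
    rcases (F.diag (hc _ h1 _ hq) (hc _ h1 _ hq2)).1 with h | h <;> rw [h2, h] <;> simp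
  have sg : ∀ {v w : E}, v ≠ 0 → (∃ a : k3, v = a • w) → D.ln v = D.ln w := fun {v w} hv ⟨a, ha⟩ => by
    rcases k3_cases a with r | r | r
    · exact absurd (by rw [ha, r, zero_smul]) hv
    · exact ln_eq.mpr (Or.inl (by rw [ha, r, one_smul]))
    · exact ln_eq.mpr (Or.inr (by rw [ha, r, neg_smul, one_smul]))
  have cls : ∀ γ, (D.ρ q (D.ρ γ e) = D.ρ γ e ∧ D.ρ (D.cj q) (D.ρ γ e) = D.ρ γ e) ∨
      D.ln (D.ρ γ e) = D.ln e ∨ D.ln (D.ρ γ e) = D.b • D.ln e ∨ D.ln (D.ρ γ e) = D.b • D.b • D.ln e := by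
    intro γ
    have hn := D.app_ne γ F.ne
    simp only [smul_ln]
    rcases Apm q hq γ with h1 | h1 <;> rcases Apm _ hq2 γ with h2 | h2
    · exact Or.inl ⟨h1, h2⟩
    · exact Or.inr (Or.inl (sg hn (F.eig _ h1 h2)))
    · exact Or.inr (Or.inr (Or.inl (sg hn (F.eig2 _ h1 h2))))
    · exact Or.inr (Or.inr (Or.inr (sg hn (F.eig3 _ h1 h2))))
  have T : D.Tri Λ (D.ln e) :=
    { inv := by rintro g _ ⟨γ, rfl⟩; exact ⟨g * γ, by rw [smul_ln, mul_app]⟩
      mem := ⟨1, by rw [one_app]⟩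
      mv := by rw [smul_ln, Ne, ln_eq, not_or]; exact F.ne12
      tri := by
        rintro _ ⟨γ, rfl⟩ h
        exact (cls γ).resolve_left fun h' => h (by rw [smul_ln, F.fix _ h'.1 h'.2]) }
  have htr : ∀ x ∈ Λ, ∃ γ : G, x = γ • D.ln e := by rintro _ ⟨γ, rfl⟩; exact ⟨γ, (smul_ln _ _).symm⟩
  let K0 : Subgroup G :=
    { carrier := {c | c ∈ D.R ∧ ∀ x ∈ Λ, c • x = x}
      one_mem' := ⟨D.R.one_mem, fun x _ => one_smul _ _⟩
      mul_mem' := fun {a b} ha hb => ⟨D.R.mul_mem ha.1 hb.1, fun x hx => by rw [mul_smul, hb.2 x hx, ha.2 x hx]⟩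
      inv_mem' := fun {a} ha => ⟨D.R.inv_mem ha.1, fun x hx => inv_smul_eq_iff.mpr (ha.2 x hx).symm⟩ }
  have nK : K0.Normal := ⟨fun c hc g => ⟨nR.conj_mem _ hc.1 g, fun x hx => by
    rw [mul_smul, mul_smul, hc.2 _ (T.inv _ x hx), smul_inv_smul]⟩⟩
  have Kpm : ∀ c ∈ K0, ∀ γ, D.ρ c (D.ρ γ e) = D.ρ γ e ∨ D.ρ c (D.ρ γ e) = -D.ρ γ e := fun c hc γ =>
    ln_eq.mp (by rw [← smul_ln]; exact hc.2 _ ⟨γ, rfl⟩)
  have hAK : A ≤ K0 := fun a ha => ⟨hAR ha, by
    rintro _ ⟨γ, rfl⟩; rw [smul_ln, ln_eq]; exact Apm a ha γ⟩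
  have Ksq : ∀ c ∈ K0, c * c = 1 := fun c hc => F.eq_one (D.R.mul_mem hc.1 hc.1) fun γ => by
    rcases Kpm c hc γ with h | h <;> simp [mul_app, h]
  have Kc : ∀ x ∈ K0, ∀ y ∈ K0, Commute x y := fun x hx y hy => comm_of_sq Ksq hx hy
  by_cases hu : ∃ u ∈ Λ, D.b • u = u
  swap
  · have hR : D.R ≤ K0 := fun g hg => ⟨hg, T.triv hg fun x hx h => absurd ⟨x, hx, h⟩ hu⟩
    have nK4 : F.four.K.Normal := normal_of (fun g hg x hx => by
      rw [(Kc _ (hR hg) _ (hAK (hKA hx))).eq, mul_inv_cancel_right]; exact hx) fun x hx => F.four.cj_mem hx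
    have : D.R = F.four.K := le_antisymm (D.comm _ nK4 fun r hr =>
      F.comm_mem (Kc _ (hR hr) _ (hAK hq)) (Kc _ (hR hr) _ (hAK hq2))) (hKA.trans hAR)
    exact Or.inl ⟨by rw [this]; exact elem_of_sq fun x hx => F.four.sq_K hx, by rw [this, F.four.card_K]⟩
  obtain ⟨_, ⟨γ0, rfl⟩, fu⟩ := hu
  set w := D.ρ γ0 e with hw
  have uΛ : D.ln w ∈ Λ := ⟨γ0, rfl⟩
  have hb := D.isC_b
  have w0 : D.ρ q w = w ∧ D.ρ (D.cj q) w = w := (cls γ0).resolve_right (by
    rintro (h | h | h) <;> rw [h] at fu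
    exacts [T.mv fu, GS.IsC.mv1 T.mv fu, hb.mv3 T.mv fu])
  have Kw : ∀ κ ∈ F.four.K, D.ρ κ w = w := by
    rintro _ (rfl | rfl | rfl | rfl)
    exacts [D.one_app w, w0.1, w0.2, by rw [← F.four.m12, mul_app, w0.2, w0.1]]
  have uniq : ∀ x ∈ Λ, D.b • x = x → x = D.ln w := fun x hx h => T.fix_unique htr hx uΛ h fu
  have stab : ∀ g ∈ D.R, g • D.ln w = D.ln w → g ∈ K0 := fun g hg h =>
    ⟨hg, T.triv hg fun x hx h' => by rw [uniq x hx h', h]⟩
  have allv : ∀ (c : G) (s : k3), D.ρ c e = s • e → D.ρ c (D.ρ D.b e) = s • D.ρ D.b e →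
      D.ρ c (D.ρ D.b (D.ρ D.b e)) = s • D.ρ D.b (D.ρ D.b e) → ∀ γ, D.ρ γ e ≠ w → D.ρ γ e ≠ -w →
      D.ρ c (D.ρ γ e) = s • D.ρ γ e := fun c s h1 h2 h3 γ n1 n2 => by
    have := T.tri _ ⟨γ, rfl⟩ fun h => (ln_eq.mp (uniq _ ⟨γ, rfl⟩ h)).elim n1 n2
    simp only [smul_ln, ln_eq] at this
    rcases this with (h | h) | (h | h) | (h | h) <;> simp [h, h1, h2, h3]
  have allw : ∀ (c : G) (s : k3), D.ρ c e = s • e → D.ρ c (D.ρ D.b e) = s • D.ρ D.b e →
      D.ρ c (D.ρ D.b (D.ρ D.b e)) = s • D.ρ D.b (D.ρ D.b e) → D.ρ c w = s • w →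
      ∀ γ, D.ρ c (D.ρ γ e) = s • D.ρ γ e := fun c s h1 h2 h3 h4 γ => by
    by_cases n1 : D.ρ γ e = w
    · rw [n1, h4]
    by_cases n2 : D.ρ γ e = -w
    · rw [n2, map_neg, h4, smul_neg]
    exact allv c s h1 h2 h3 γ n1 n2
  have fix3 : ∀ c ∈ K0, D.ρ c e = (1 : k3) • e → D.ρ c (D.ρ D.b e) = (1 : k3) • D.ρ D.b e →
      D.ρ c (D.ρ D.b (D.ρ D.b e)) = (1 : k3) • D.ρ D.b (D.ρ D.b e) → c = 1 := fun c hc h1 h2 h3 => by
    rcases Kpm c hc γ0 with h | h
    · exact F.eq_one hc.1 fun γ => by simpa using allw c 1 h1 h2 h3 (by simpa using h) γ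
    · exact (no_refl (D.app_ne γ0 F.ne) γ0 rfl h fun γ n1 n2 => by
        simpa using allv c 1 h1 h2 h3 γ n1 n2).elim
  have pat : ∀ c ∈ K0, ∃ κ ∈ F.four.K, ∃ s : k3, (s = 1 ∨ s = -1) ∧ D.ρ (c * κ) e = s • e ∧
      D.ρ (c * κ) (D.ρ D.b e) = s • D.ρ D.b e ∧
      D.ρ (c * κ) (D.ρ D.b (D.ρ D.b e)) = s • D.ρ D.b (D.ρ D.b e) := fun c hc =>
    F.pat (by simpa using Kpm c hc 1) (Kpm c hc _) (by simpa [mul_app] using Kpm c hc (D.b * D.b))
  have hq' : γ0 * D.cj q * γ0⁻¹ ∈ A := hA.conj_mem _ hq2 _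
  have hw0 : w ≠ 0 := D.app_ne γ0 F.ne
  obtain ⟨κ0, hκ0, s, hs, z1, z2, z3⟩ := pat _ (hAK hq')
  set z := γ0 * D.cj q * γ0⁻¹ * κ0 with hz
  have zK : z ∈ K0 := K0.mul_mem (hAK hq') (hAK (hKA hκ0))
  have zw : D.ρ z w = -w := by rw [hz, mul_app, Kw _ hκ0, hw, mul_app, mul_app, inv_app, F.h21, map_neg]
  have zne : z ≠ 1 := fun h => hw0 (eq_zero_of_neg (by rw [h, one_app] at zw; exact zw))
  obtain rfl : s = -1 := hs.resolve_left fun h => zne (fix3 z zK (h ▸ z1) (h ▸ z2) (h ▸ z3))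
  have zall : ∀ γ, D.ρ z (D.ρ γ e) = -D.ρ γ e := fun γ => by
    simpa using allw z (-1) z1 z2 z3 (by simpa using zw) γ
  have zc : ∀ g, Commute z g := fun g => by
    have := F.eq_one (D.R.mul_mem (D.R.inv_mem zK.1) (nR.conj_mem _ zK.1 g)) fun γ => by
      rw [mul_app, mul_app, mul_app, ← D.mul_app g⁻¹ γ, zall, map_neg, mul_app, app_inv, ← zall, inv_app]
    rw [inv_mul_eq_one, eq_mul_inv_iff_mul_eq] at this
    exact this
  have zz := Ksq z zK
  have Kmem : ∀ c ∈ K0, c ∈ F.four.K ∨ c * z ∈ F.four.K := fun c hc => by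
    obtain ⟨κ, hκ, s, rfl | rfl, h1, h2, h3⟩ := pat c hc
    · have := fix3 _ (K0.mul_mem hc (hAK (hKA hκ))) h1 h2 h3
      exact Or.inl (by rw [eq_inv_of_mul_eq_one_left this]; exact inv_mem hκ)
    · have := fix3 _ (K0.mul_mem (K0.mul_mem hc (hAK (hKA hκ))) zK) (by rw [D.mul_app _ z, z1, map_smul, h1]; simp)
        (by rw [D.mul_app _ z, z2, map_smul, h2]; simp) (by rw [D.mul_app _ z, z3, map_smul, h3]; simp)
      rw [mul_assoc, ← (zc κ).eq, ← mul_assoc] at this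
      exact Or.inr (by rw [eq_inv_of_mul_eq_one_left this]; exact inv_mem hκ)
  have zK4 : z ∉ F.four.K := fun h => hw0 (eq_zero_of_neg ((Kw z h).symm.trans zw))
  have cK : Nat.card K0 = 8 := by
    have h1 := (F.four.K.subgroupOf K0).card_mul_index
    rw [Nat.card_congr (Subgroup.subgroupOfEquivOfLe (hKA.trans hAK)).toEquiv, F.four.card_K,
      Subgroup.index_eq_two_iff.mpr ⟨⟨z, zK⟩, fun c => ?_⟩] at h1
    · exact h1.symm
    · by_cases h : (c : G) ∈ F.four.K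
      · exact Or.inr ⟨h, fun h' => zK4 ((Subgroup.mul_mem_cancel_left _ h).mp h')⟩
      · exact Or.inl ⟨(Kmem c c.2).resolve_left h, h⟩
  obtain ⟨r, hr, er⟩ := (GS.IsC.eq ⟨γ0, rfl⟩ : ∃ r ∈ D.R, γ0 * D.b * γ0⁻¹ = r * D.b)
  have ru : r • D.ln w ≠ D.ln w := fun h => T.mv (by
    rw [← fu, ← mul_smul, ← er, fu, hw, ← smul_ln, mul_smul, mul_smul, inv_smul_smul] at h
    exact smul_left_cancel γ0 h)
  have r3 : r * D.cj r * D.cj (D.cj r) = 1 := by
    have := GS.IsC.cube (D := D.toGS) ⟨γ0, rfl⟩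
    rw [er] at this
    have h2 : r * D.cj r * D.cj (D.cj r) * (D.b * D.b * D.b) = r * D.b * (r * D.b) * (r * D.b) := by
      simp only [cj]; group
    rwa [D.b3, mul_one, this] at h2
  set y := r • D.ln w with hy
  have yΛ : y ∈ Λ := T.inv _ _ uΛ
  have my : D.b • y ≠ y := fun h => ru (uniq y yΛ h)
  have cju : ∀ x : G, D.cj x • D.ln w = D.b • x • D.ln w := fun x => by
    rw [cj, mul_smul, mul_smul, inv_smul_eq_iff.mpr fu.symm]
  have cjR : ∀ x ∈ D.R, D.cj x ∈ D.R := fun x hx => nR.conj_mem x hx _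
  have four : ∀ x ∈ Λ, x = D.ln w ∨ x = r • D.ln w ∨ x = D.cj r • D.ln w ∨ x = D.cj (D.cj r) • D.ln w :=
    fun x hx => by
      rw [cju, cju, cju]
      exact or_iff_not_imp_left.mpr fun h => T.tri' hb yΛ hx my fun h' => h (uniq x hx h')
  have trR : ∀ x ∈ Λ, ∃ g ∈ D.R, x = g • D.ln w := fun x hx => by
    rcases four x hx with h | h | h | h
    exacts [⟨1, D.R.one_mem, by rw [h, one_smul]⟩, ⟨_, hr, h⟩, ⟨_, cjR _ hr, h⟩, ⟨_, cjR _ (cjR _ hr), h⟩]
  have cos : ∀ x ∈ D.R, ∃ g, (g = 1 ∨ g = r ∨ g = D.cj r ∨ g = D.cj (D.cj r)) ∧ ∃ a ∈ K0, x = g * a :=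
    fun x hx => by
      have k : ∀ g ∈ D.R, x • D.ln w = g • D.ln w → ∃ a ∈ K0, x = g * a := fun g hg h =>
        ⟨g⁻¹ * x, stab _ (D.R.mul_mem (D.R.inv_mem hg) hx) (by rw [mul_smul, h, inv_smul_smul]), by simp⟩
      rcases four _ (T.inv x _ uΛ) with h | h | h | h
      exacts [⟨1, by simp, k _ D.R.one_mem (by rw [h, one_smul])⟩, ⟨_, by simp, k _ hr h⟩,
        ⟨_, by simp, k _ (cjR _ hr) h⟩, ⟨_, by simp, k _ (cjR _ (cjR _ hr)) h⟩]
  have KR : K0 ≤ D.R := fun c hc => hc.1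
  have idx : (K0.subgroupOf D.R).index = 4 := by
    have h1 : K0.subgroupOf D.R = MulAction.stabilizer D.R (D.ln w) :=
      Subgroup.ext fun g => ⟨fun h => h.2 _ uΛ, fun h => stab g g.2 h⟩
    have h2 : MulAction.orbit D.R (D.ln w) = {D.ln w, y, D.b • y, D.b • D.b • y} := by
      ext x
      refine ⟨?_, fun h => ?_⟩
      · rintro ⟨g, rfl⟩
        have := four _ (T.inv g _ uΛ)
        rwa [cju, cju, cju] at this
      · have hx : x ∈ Λ := by
          rcases h with rfl | rfl | rfl | rfl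
          exacts [uΛ, yΛ, T.inv _ _ yΛ, T.inv _ _ (T.inv _ _ yΛ)]
        obtain ⟨g, hg, rfl⟩ := trR x hx
        exact ⟨⟨g, hg⟩, rfl⟩
    have n1 : D.ln w ≠ y := ru.symm
    have n2 : D.ln w ≠ D.b • y := fun h => GS.IsC.mv1 my (by rw [← h, fu])
    have n3 : D.ln w ≠ D.b • D.b • y := fun h => hb.mv3 my (by rw [← h, fu])
    rw [h1, MulAction.index_stabilizer, h2, Set.ncard_eq_four]
    exact ⟨_, _, _, _, n1, n2, n3, my.symm, (hb.mv2 my).symm, (GS.IsC.mv1 my).symm, rfl⟩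
  have cR : Nat.card D.R = 32 := by
    have h1 := (K0.subgroupOf D.R).card_mul_index
    rw [Nat.card_congr (Subgroup.subgroupOfEquivOfLe KR).toEquiv, cK, idx] at h1
    exact h1.symm
  have pR : IsPGroup 2 D.R := IsPGroup.of_card (n := 5) cR
  have cen : ∀ x ∈ D.R, (∀ g ∈ D.R, Commute x g) → x = 1 ∨ x = z := fun x hx hx' => by
    obtain ⟨d1, d2, d3⟩ := F.diag (hx' _ (hAR hq)) (hx' _ (hAR hq2))
    have xK : x ∈ K0 := stab x hx (uniq _ (T.inv _ _ uΛ) (by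
      by_contra hm
      rw [← ln_eq (D := D), ← smul_ln] at d1 d2 d3
      rw [← smul_ln] at d2
      rw [← smul_ln, ← smul_ln] at d3
      rcases T.tri _ (T.inv _ _ uΛ) hm with h | h | h
      · rw [smul_left_cancel x (h.trans d1.symm)] at fu; exact T.mv fu
      · rw [smul_left_cancel x (h.trans d2.symm)] at fu; exact GS.IsC.mv1 T.mv fu
      · rw [smul_left_cancel x (h.trans d3.symm)] at fu; exact hb.mv3 T.mv fu))
    have k : ∀ κ ∈ F.four.K, (∀ g ∈ D.R, Commute κ g) → κ = 1 := fun κ hκ h =>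
      F.eq_one (hAR (hKA hκ)) fun γ => by
        obtain ⟨g, hg, e1⟩ := trR _ ⟨γ, rfl⟩
        have e2 : D.ρ κ (D.ρ g w) = D.ρ g w := by rw [← mul_app, (h g hg).eq, mul_app, Kw κ hκ]
        rw [smul_ln, ln_eq] at e1
        rcases e1 with e1 | e1 <;> simp [e1, e2]
    rcases Kmem x xK with h | h
    · exact Or.inl (k x h hx')
    · refine Or.inr ?_
      rw [eq_inv_of_mul_eq_one_left (k _ h fun g hg => (hx' g hg).mul_left (zc g))]
      exact inv_eq_of_mul_eq_one_right zz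
  have prop : ∀ M : Subgroup G, M.Normal → M < K0 → ∀ m ∈ M, m = 1 ∨ m = z := fun M hM hlt m hm => by
    have k : ∀ κ ∈ F.four.K, κ * D.cj κ ∈ M → κ = 1 := fun κ hκ h => by
      by_contra h1
      obtain ⟨h', hq'⟩ := F.four.of_mem hκ h1
      rw [h'.m12] at h
      have a1 : κ ∈ M := by simpa [← cj.eq_1, cj3] using hM.conj_mem _ h D.b
      have a2 := F.four.K_le hM (h'.K_le hM a1 hq')
      have a3 : z ∈ M := M.mul_mem (hM.conj_mem _ (a2 (by simp [Four.mem_K])) _) (a2 hκ0)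
      exact hlt.not_ge fun c hc => (Kmem c hc).elim (fun h => a2 h) fun h =>
        (M.mul_mem_cancel_right a3).mp (a2 h)
    have hm' : m * D.cj m ∈ M := M.mul_mem hm (hM.conj_mem _ hm _)
    rcases Kmem m (hlt.le hm) with h | h
    · exact Or.inl (k m h hm')
    · refine Or.inr ?_
      rw [eq_inv_of_mul_eq_one_left (k _ h (by
        rw [cj_mul, D.cj_eq_iff.mpr (zc _), mul_assoc, ← mul_assoc z, (zc _).eq, mul_assoc, zz, mul_one]
        exact hm'))]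
      exact inv_eq_of_mul_eq_one_right zz
  have KRz : ∀ a ∈ K0, ∀ g ∈ D.R, ⁅a, g⁆ = 1 ∨ ⁅a, g⁆ = z := fun a ha g hg => by
    have : Group.IsNilpotent D.R := pR.isNilpotent
    have h1 := CL.Grp.commutator_top_lt (N := K0.subgroupOf D.R) fun h =>
      zne (congrArg Subtype.val ((Subgroup.eq_bot_iff_forall _).mp h ⟨z, zK.1⟩ zK))
    have h2 := (Subgroup.map_lt_map_iff_of_injective D.R.subtype_injective).mpr h1
    rw [Subgroup.map_commutator, Subgroup.map_subgroupOf_eq_of_le KR, ← MonoidHom.range_eq_map,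
      Subgroup.range_subtype] at h2
    exact prop _ inferInstance h2 _ (Subgroup.commutator_mem_commutator ha hg)
  have nZ : (Subgroup.zpowers z).Normal := ⟨fun n hn g => by
    obtain ⟨i, rfl⟩ := Subgroup.mem_zpowers_iff.mp hn
    rw [← ((zc g).zpow_left i).eq, mul_inv_cancel_right]; exact hn⟩
  let π := QuotientGroup.mk' (Subgroup.zpowers z)
  have πc : ∀ x y : G, Commute (π x) (π y) ↔ ⁅x, y⁆ ∈ Subgroup.zpowers z := fun x y => by
    rw [← commutatorElement_eq_one_iff_commute, ← map_commutatorElement]; exact QuotientGroup.eq_one_iff _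
  have πz : ∀ {x : G}, x = 1 ∨ x = z → x ∈ Subgroup.zpowers z := by
    rintro _ (rfl | rfl)
    exacts [Subgroup.one_mem _, Subgroup.mem_zpowers _]
  have c12 : Commute (π r) (π (D.cj r)) := by
    have nK' : (K0.subgroupOf D.R).Normal := inferInstance
    have h1 : IsMulCommutative (D.R ⧸ K0.subgroupOf D.R) :=
      IsPGroup.isMulCommutative_of_card_eq_prime_sq (p := 2) idx
    have h2 : ⁅r, D.cj r⁆ ∈ K0 := Subgroup.Normal.quotient_commutative_iff_commutator_le.mp h1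
      (Subgroup.commutator_mem_commutator (Subgroup.mem_top (⟨r, hr⟩ : D.R)) (Subgroup.mem_top ⟨_, cjR _ hr⟩))
    set c := ⁅r, D.cj r⁆ with hc
    have h3 : D.cj c = (D.cj r * r)⁻¹ * c * (D.cj r * r) := by
      have : D.cj c = ⁅D.cj r, D.cj (D.cj r)⁆ := by simp only [hc, cj, commutatorElement_def]; group
      rw [this, eq_inv_of_mul_eq_one_right r3, hc]; simp only [commutatorElement_def]; group
    have h4 : D.cj c = c * ⁅c⁻¹, (D.cj r * r)⁻¹⁆ := by rw [h3, commutatorElement_def]; group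
    have h5 : D.cj c = c := by
      rcases KRz _ (K0.inv_mem h2) _ (D.R.inv_mem (D.R.mul_mem (cjR _ hr) hr)) with h | h
      · rw [h4, h, mul_one]
      · rw [h] at h4
        have h6 := D.cj3 c
        have h7 := D.cj_eq_iff.mpr (zc D.b)
        rw [h4, cj_mul, h4, h7, mul_assoc, zz, mul_one, h4] at h6
        exact absurd (mul_eq_left.mp h6) zne
    have k : ∀ κ ∈ F.four.K, D.cj κ = κ → κ = 1 := fun κ hκ h => by
      by_contra h1
      obtain ⟨h', -⟩ := F.four.of_mem hκ h1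
      exact h'.ne12 h
    rw [πc]
    rcases Kmem c h2 with h | h
    · exact πz (Or.inl (k c h h5))
    · refine πz (Or.inr ?_)
      rw [← hc, eq_inv_of_mul_eq_one_left (k _ h (by rw [cj_mul, h5, D.cj_eq_iff.mpr (zc _)]))]
      exact inv_eq_of_mul_eq_one_right zz
  have πcj : ∀ {x y : G}, Commute (π x) (π y) → Commute (π (D.cj x)) (π (D.cj y)) := fun h => by
    simpa [cj] using h.map (MulAut.conj (π D.b))
  have c23 := πcj c12
  have c31 := πcj c23
  rw [cj3] at c31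
  have ab : ∀ x ∈ D.R, ∀ y ∈ D.R, Commute (π x) (π y) := fun x hx y hy => by
    have kk : ∀ a ∈ K0, ∀ g ∈ D.R, Commute (π a) (π g) := fun a ha g hg => (πc _ _).mpr (πz (KRz a ha g hg))
    obtain ⟨g, hg, a, ha, rfl⟩ := cos x hx
    obtain ⟨g', hg', a', ha', rfl⟩ := cos y hy
    rw [map_mul π g]
    refine Commute.mul_left ?_ (kk a ha _ hy)
    rw [map_mul]
    refine Commute.mul_right ?_ (kk a' ha' _ ((D.R.mul_mem_cancel_right (KR ha)).mp hx)).symm
    rcases hg with rfl | rfl | rfl | rfl <;> rcases hg' with rfl | rfl | rfl | rfl <;>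
    first | exact Commute.refl _ | exact c12 | exact c12.symm | exact c23 | exact c23.symm | exact c31 |
      exact c31.symm | simp
  have zcen : (⟨z, zK.1⟩ : D.R) ∈ Subgroup.center D.R :=
    Subgroup.mem_center_iff.mpr fun g => Subtype.ext (zc g).symm
  have cen' : ∀ x ∈ Subgroup.center D.R, (x : G) = 1 ∨ (x : G) = z := fun x hx => cen x x.2 fun g hg =>
    (congrArg Subtype.val (Subgroup.mem_center_iff.mp hx ⟨g, hg⟩)).symm
  refine Or.inr ⟨CL.Grp.isExtraspecial_of_center ?_ ?_ (fun h => ?_) pR, cR, K0, KR, elem_of_sq Ksq, cK⟩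
  · refine (Nat.card_eq_two_iff' 1).mpr ⟨⟨_, zcen⟩, fun h => zne (congrArg (fun x => (x.1 : G)) h), ?_⟩
    intro x hx
    exact Subtype.ext (Subtype.ext ((cen' x.1 x.2).resolve_left fun h => hx (Subtype.ext (Subtype.ext h))))
  · refine Subgroup.commutator_le.mpr fun x _ y _ => Subgroup.mem_center_iff.mpr fun g => Subtype.ext ?_
    obtain ⟨i, hi⟩ := Subgroup.mem_zpowers_iff.mp ((πc _ _).mp (ab x x.2 y y.2))
    have : ((⁅x, y⁆ : D.R) : G) = z ^ i := hi.symm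
    rw [Subgroup.coe_mul, Subgroup.coe_mul, this]; exact ((zc g).zpow_left i).symm
  · rcases cen q (hAR hq) fun g hg => congrArg Subtype.val (h.1.1 (⟨q, hAR hq⟩ : D.R) ⟨g, hg⟩) with h | h
    · exact F.four.ne h
    · exact zK4 (h ▸ Or.inr (Or.inl rfl))

end MS
end CL.Tho3
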