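import Cfsg.Agent.Fgs.ThoC

/-! Abelian normal subgroups not centralised by `b` (for S4415). -/

set_option autoImplicit false
set_option linter.unusedSimpArgs false
open scoped commutatorElement
open Cfsg

namespace CL.Tho3
variable {G : Type*} [Group G] {E : Type*} [AddCommGroup E] [Module k3 E]

theorem cen_iff {x : G} : x ∈ Subgroup.center G ↔ ∀ g, Commute x g := by
  rw [Subgroup.mem_center_iff]; exact forall_congr' fun g => eq_comm

namespace MS
variable {D : MS G E}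

theorem cen_of {M : Subgroup G} (hM : M.Normal) (h : ∀ x ∈ M, D.cj x = x) : M ≤ Subgroup.center G :=
  fun x hx => cen_iff.mpr fun g => D.gen (Subgroup.centralizer (M : Set G)) inferInstance
    (fun y hy => (D.cj_eq_iff.mp (h y hy)).eq) g x hx

theorem cj_cen {z : G} (h : z ∈ Subgroup.center G) : D.cj z = z := D.cj_eq_iff.mpr (cen_iff.mp h _)

theorem cj_inv (x : G) : D.cj x⁻¹ = (D.cj x)⁻¹ := by simp only [cj]; group

theorem cj_pow (x : G) (n : ℕ) : D.cj (x ^ n) = D.cj x ^ n := by simp only [cj, conj_pow]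

theorem cj_comm {x y : G} (h : Commute x y) : Commute (D.cj x) (D.cj y) := by
  rw [Commute, SemiconjBy, ← cj_mul, ← cj_mul, h.eq]

namespace Fr
variable {q : G} {e : E} (F : D.Fr q e)
include F

theorem cen_sq {z : G} (hz : z ∈ D.R) (hc : z ∈ Subgroup.center G) : z * z = 1 := by
  by_contra h
  have h1 : z ≠ 1 := fun e => h (by simp [e])
  exact h1 (mul_eq_left.mp (F.cen_uniq (D.R.mul_mem hz hz) (cen_iff.mp (mul_mem hc hc)) h hz
    (cen_iff.mp hc) h1))

theorem eig_neg3 (v : E) (h : D.ρ (D.cj (D.cj q)) v = -v) :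
    ∃ c c' : k3, v = c • e + c' • D.ρ D.b e := by
  obtain ⟨x, a1, a2, a3, hx, hx', hv, -⟩ := F.dec v
  have h3 : D.ρ (D.cj (D.cj q)) x = x := by rw [← F.four.m12, mul_app, hx', hx]
  rw [hv] at h
  simp only [map_add, map_smul, h3, F.h31, F.h32, F.h33] at h
  have : x + a3 • D.ρ D.b (D.ρ D.b e) = 0 := eq_zero_of_neg (by linear_combination (norm := module) h)
  exact ⟨a1, a2, by linear_combination (norm := module) hv + this⟩

theorem refl3 (w : E) (h : D.ρ (D.cj (D.cj q)) w = w) :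
    ∃ a : k3, D.ρ q w = w + a • D.ρ D.b (D.ρ D.b e) := by
  obtain ⟨x, a1, a2, a3, hx, hx', hv, -⟩ := F.dec w
  have h3 : D.ρ (D.cj (D.cj q)) x = x := by rw [← F.four.m12, mul_app, hx', hx]
  rw [hv] at h
  simp only [map_add, map_smul, h3, F.h31, F.h32, F.h33] at h
  have h4 : a1 • e + a2 • D.ρ D.b e = 0 := eq_zero_of_neg (by linear_combination (norm := module) -h)
  have h5 : w = x + a3 • D.ρ D.b (D.ρ D.b e) := by linear_combination (norm := module) hv + h4
  refine ⟨-2 * a3, ?_⟩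
  rw [h5, map_add, map_smul, hx, F.h13]; module

theorem odd_aux {N : Subgroup G} (hN : N.Normal) (hR : N ≤ D.R) {r : ℕ} (hr : r.Prime) (h5 : 5 ≤ r)
    (hp : ∀ x ∈ N, x ^ r = 1) {t : G} (ht : t ∈ N) (c3 : Commute t (D.cj (D.cj q))) : Commute t q := by
  set f := D.ρ D.b (D.ρ D.b e) with hf
  have c13 : Commute q (D.cj (D.cj q)) := F.four.m13.trans F.four.m31.symm
  have hu : t⁻¹ * q * t * q ∈ N := by
    have := N.mul_mem (N.inv_mem ht) (hN.conj_mem _ ht q)
    rwa [F.four.inv, ← mul_assoc, ← mul_assoc] at this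
  set u := t⁻¹ * q * t * q with hu'
  have cu : Commute u (D.cj (D.cj q)) := ((c3.inv_left.mul_left c13).mul_left c3).mul_left c13
  have k : ∀ s, Commute s (D.cj (D.cj q)) → ∀ v, D.ρ (D.cj (D.cj q)) (D.ρ s v) =
      D.ρ s (D.ρ (D.cj (D.cj q)) v) := fun s hs v => by rw [← mul_app, ← hs.eq, mul_app]
  have h1 := small hr h5 (hp u hu) e (D.ρ D.b e) fun a a' => F.eig_neg3 _ (by
    rw [k u cu]; simp only [map_add, map_smul, F.h31, F.h32, map_neg]; module)
  have h2 : ∀ w, D.ρ (D.cj (D.cj q)) w = w → ∃ a a' : k3, D.ρ u w = w + (a • f + a' • D.ρ t⁻¹ f) :=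
    fun w hw => by
      obtain ⟨a, ha⟩ := F.refl3 w hw
      obtain ⟨a', ha'⟩ := F.refl3 (D.ρ t (D.ρ q w)) (by rw [k t c3, k q c13, hw])
      refine ⟨a, a', ?_⟩
      rw [hu', mul_app, mul_app, mul_app, ha', map_add, inv_app, map_smul, ha, add_assoc]
  have h3 := small hr h5 (hp u hu) f (D.ρ t⁻¹ f) fun a a' => by
    obtain ⟨c, c', hc⟩ := h2 (a • f + a' • D.ρ t⁻¹ f) (by
      rw [map_add, map_smul, map_smul, k _ c3.inv_left, F.h33])
    exact ⟨a + c, a' + c', by rw [hc]; module⟩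
  have h4 : u = 1 := unip (hR hu) fun v => by
    obtain ⟨x, a1, a2, a3, hx, hx', hv, -⟩ := F.dec v
    obtain ⟨c, c', hc⟩ := h2 (x + a3 • f) (by
      rw [map_add, map_smul, F.h33, ← F.four.m12, mul_app, hx', hx])
    have : D.ρ u v - v = c • f + c' • D.ρ t⁻¹ f := by
      have e1 : v = (x + a3 • f) + (a1 • e + a2 • D.ρ D.b e) := by rw [hv]; module
      rw [e1, map_add, hc, h1]; module
    rw [this, h3]
  rw [hu', mul_eq_one_iff_eq_inv, F.four.inv, mul_assoc, inv_mul_eq_iff_eq_mul] at h4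
  exact h4.symm

/-- a normal elementary abelian subgroup of order prime to six is centralised by `b` -/
theorem odd {N : Subgroup G} (hN : N.Normal) (hR : N ≤ D.R) {r : ℕ} (hr : r.Prime) (h5 : 5 ≤ r)
    (hp : ∀ x ∈ N, x ^ r = 1) (hc : ∀ x ∈ N, ∀ y ∈ N, Commute x y) {x : G} (hx : x ∈ N) :
    D.cj x = x := by
  have h := F.four
  obtain ⟨e2, F2⟩ := h.next.exists_fr
  obtain ⟨e3, F3⟩ := h.next.next.exists_fr
  let C := Subgroup.centralizer ({q, D.cj q} : Set G)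
  have mC : ∀ {t}, t ∈ C ↔ Commute t q ∧ Commute t (D.cj q) := fun {t} => by
    simp only [C, Subgroup.mem_centralizer_iff, Set.mem_insert_iff, Set.mem_singleton_iff,
      forall_eq_or_imp, forall_eq]
    exact ⟨fun h => ⟨h.1.symm, h.2.symm⟩, fun h => ⟨h.1.symm, h.2.symm⟩⟩
  have k1 : ∀ t ∈ N, Commute t q → t ∈ C := fun t ht c =>
    mC.mpr ⟨c, F2.odd_aux hN hR hr h5 hp ht (by rwa [cj3])⟩
  have k2 : ∀ t ∈ N, Commute t (D.cj q) → t ∈ C := fun t ht c =>
    mC.mpr ⟨h.m23 ▸ c.mul_right (F3.odd_aux hN hR hr h5 hp ht (by rwa [cj3])), c⟩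
  have k3 : ∀ t ∈ N, Commute t (D.cj (D.cj q)) → t ∈ C := fun t ht c =>
    k1 t ht (F.odd_aux hN hR hr h5 hp ht c)
  have m : ∀ s : G, s * s = 1 → s * x * s ∈ N := fun s hs => by
    have := hN.conj_mem x hx s
    rwa [inv_eq_of_mul_eq_one_right hs] at this
  have a : ∀ s : G, s * s = 1 → ∀ y ∈ N, Commute (y * (s * y * s)) s := fun s hs y hy => by
    have h1 : s * y * s ∈ N := by
      have := hN.conj_mem y hy s
      rwa [inv_eq_of_mul_eq_one_right hs] at this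
    calc y * (s * y * s) * s = y * s * y * (s * s) := by group
      _ = (s * s) * y * s * y := by rw [hs]; group
      _ = s * ((s * y * s) * y) := by group
      _ = s * (y * (s * y * s)) := by rw [(hc _ h1 _ hy).eq]
  have a1 := k1 _ (N.mul_mem hx (m _ h.sq)) (a _ h.sq x hx)
  have a2 := k2 _ (N.mul_mem hx (m _ h.sq2)) (a _ h.sq2 x hx)
  have a3 := k3 _ (N.mul_mem hx (m _ h.sq3)) (a _ h.sq3 x hx)
  have n2 := N.mul_mem hx (m _ h.sq2)
  have a4 := k1 _ (N.mul_mem n2 (by simpa [h.inv] using hN.conj_mem _ n2 q)) (a _ h.sq _ n2)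
  have e1 : q * (x * (D.cj q * x * D.cj q)) * q = q * x * q * (D.cj (D.cj q) * x * D.cj (D.cj q)) := by
    calc _ = q * x * (q * q) * D.cj q * x * (D.cj q * q) := by rw [h.sq]; group
      _ = q * x * q * ((q * D.cj q) * x * (D.cj q * q)) := by group
      _ = _ := by rw [h.m12, h.m21]
  rw [C.mul_mem_cancel_left a2, e1] at a4
  have xx : x ^ 2 ∈ C := by
    have := C.mul_mem (C.mul_mem a1 a3) (C.inv_mem a4)
    have e2 : x * (q * x * q) * (x * (D.cj (D.cj q) * x * D.cj (D.cj q))) =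
        x ^ 2 * (q * x * q * (D.cj (D.cj q) * x * D.cj (D.cj q))) := by
      rw [mul_assoc x, ← mul_assoc (q * x * q), (hc _ (m _ h.sq) _ hx).eq, sq]; group
    rwa [e2, mul_inv_cancel_right] at this
  have cop : Nat.Coprime 2 r := (Nat.coprime_primes Nat.prime_two hr).mpr (by omega)
  have xC := mC.mp (mem_of_pow_mem xx (hp x hx) cop)
  have hK : ⁅x, D.b⁆ ∈ h.K := F.comm_mem xC.1 xC.2
  have hN' : ⁅x, D.b⁆ ∈ N := by
    rw [commutatorElement_def, mul_assoc, mul_assoc, ← mul_assoc D.b]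
    exact N.mul_mem hx (hN.conj_mem _ (N.inv_mem hx) _)
  have := mem_of_pow_mem (H := ⊥) (n := 2) (by rw [sq, h.sq_K hK]; exact one_mem _) (hp _ hN') cop
  exact D.cj_eq_iff.mpr (commutatorElement_eq_one_iff_commute.mp this)

theorem abelian [Finite G] [Finite E] {N : Subgroup G} (hN : N.Normal) (hR : N ≤ D.R)
    (hc : ∀ x ∈ N, ∀ y ∈ N, Commute x y) (h : ∃ x ∈ N, D.cj x ≠ x) : D.Concl := by
  classical
  have hex : ∃ n, ∃ x ∈ N, D.cj x ≠ x ∧ orderOf x = n := by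
    obtain ⟨x, hx, h⟩ := h; exact ⟨_, x, hx, h, rfl⟩
  obtain ⟨x, hx, h1, ho⟩ := Nat.find_spec hex
  have x1 : x ≠ 1 := fun e => h1 (by rw [e, cj_one])
  obtain ⟨r, hr, hd⟩ := Nat.exists_prime_and_dvd (mt orderOf_eq_one_iff.mp x1)
  have h2 : D.cj (x ^ r) = x ^ r := by
    by_contra hne
    refine Nat.find_min hex ?_ ⟨_, N.pow_mem hx r, hne, rfl⟩
    rw [← ho, orderOf_pow_of_dvd hr.ne_zero hd]
    exact Nat.div_lt_self (orderOf_pos x) hr.one_lt
  have hx' : D.cj x ∈ N := hN.conj_mem _ hx _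
  have hy : x⁻¹ * D.cj x ∈ N := N.mul_mem (N.inv_mem hx) hx'
  set y := x⁻¹ * D.cj x with hy'
  have y1 : y ≠ 1 := fun e => h1 (inv_mul_eq_one.mp e).symm
  have yr : y ^ r = 1 := by
    rw [hy', (hc _ hx _ hx').inv_left.mul_pow, ← cj_pow, h2, inv_pow, inv_mul_cancel]
  have y3 : y * D.cj y * D.cj (D.cj y) = 1 := by
    simp only [hy', cj_mul, cj_inv, cj3]; group
  by_cases r2 : r = 2
  · obtain ⟨e', F'⟩ := Four.exists_fr (D := D) ⟨y1, by rw [← sq, ← r2, yr], y3⟩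
    exact case1 F' hN hR hc hy
  have r3 : r ≠ 3 := fun e => y1 (D.eq_one_of_cube (hR hy) (by rw [← yr, e, pow_succ, sq]))
  have r4 : r ≠ 4 := fun e => by rw [e] at hr; exact absurd hr (by decide)
  have := hr.two_le
  let M : Subgroup G :=
    { carrier := {x | x ∈ N ∧ x ^ r = 1}
      one_mem' := ⟨N.one_mem, one_pow _⟩
      mul_mem' := fun {a b} ha hb => ⟨N.mul_mem ha.1 hb.1, by
        rw [(hc _ ha.1 _ hb.1).mul_pow, ha.2, hb.2, mul_one]⟩
      inv_mem' := fun {a} ha => ⟨N.inv_mem ha.1, by rw [inv_pow, ha.2, inv_one]⟩ }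
  have h3 := F.odd (N := M) ⟨fun n hn g => ⟨hN.conj_mem _ hn.1 g, by rw [conj_pow, hn.2]; simp⟩⟩
    (fun n hn => hR hn.1) hr (by omega) (fun n hn => hn.2) (fun a ha b hb => hc _ ha.1 _ hb.1) ⟨hy, yr⟩
  rw [h3, h3] at y3
  exact absurd (D.eq_one_of_cube (hR hy) y3) y1

end Fr
end MS
end CL.Tho3
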