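import Cfsg.Agent.Fgs.ThoD

/-! Nonabelian minimal noncentral normal subgroups and the structure of `R` (for S4415). -/

set_option autoImplicit false
set_option linter.unusedSimpArgs false
open scoped commutatorElement
open Cfsg

namespace CL.Tho3
variable {G : Type*} [Group G] {E : Type*} [AddCommGroup E] [Module k3 E]

theorem card_modEq_fix [Finite G] {g : G} {r : ℕ} (hr : r.Prime) (hg : g ^ r = 1) (S : Set G)
    (hS : ∀ x ∈ S, g * x * g⁻¹ ∈ S) : S.ncard ≡ {x | x ∈ S ∧ Commute g x}.ncard [MOD r] := by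
  classical
  have := Fintype.ofFinite S
  have : Fact r.Prime := ⟨hr⟩
  let f : Function.End S := fun x => ⟨g * x * g⁻¹, hS _ x.2⟩
  have h : ∀ (n : ℕ) (x : S), ((f ^ n) x : G) = g ^ n * x * (g ^ n)⁻¹ := fun n => by
    induction n with
    | zero => intro x; simp; rfl
    | succ n ih => intro x; rw [pow_succ']; show g * ((f ^ n) x : G) * g⁻¹ = _; rw [ih, pow_succ']; group
  have h1 := Equiv.Perm.card_fixedPoints_modEq (f := f) (p := r) (n := 1)
    (funext fun x => Subtype.ext (by rw [pow_one, h, hg]; simp; rfl))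
  rw [← Nat.card_eq_fintype_card, ← Nat.card_eq_fintype_card] at h1
  rw [← Nat.card_coe_set_eq, ← Nat.card_coe_set_eq]
  convert h1 using 1
  exact Nat.card_congr
    ⟨fun x => ⟨⟨x.1, x.2.1⟩, Subtype.ext (mul_inv_eq_iff_eq_mul.mpr x.2.2.eq)⟩,
      fun x => ⟨x.1.1, x.1.2, mul_inv_eq_iff_eq_mul.mp (congrArg Subtype.val x.2)⟩, fun _ => rfl, fun _ => rfl⟩

theorem arith {k c r T t : ℕ} (hk : k ≤ 4) (k3 : k ≠ 3) (hc : c ∣ 8 * k) (c2 : t + 2 ≤ c)
    (clt : c < 8 * k) (hr : r.Prime) (h5 : 5 ≤ r) (h1 : 8 * k ≡ c [MOD r]) (hT : 8 + T + T = 8 * k)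
    (h2 : T ≡ t [MOD r]) : False := by
  have h3 : r ≤ 8 * k - c := Nat.le_of_dvd (by omega) ((Nat.modEq_iff_dvd' clt.le).mp h1.symm)
  have h4 : c = 2 ∨ c = 4 ∨ c = 8 ∨ c = 16 := by
    have : c ∣ 32 := hc.trans (by interval_cases k <;> first | omega | norm_num)
    have : c < 32 := by omega
    interval_cases c <;> omega
  have h6 : r ≤ 30 := by omega
  unfold Nat.ModEq at h1 h2
  interval_cases r <;> first | omega | exact absurd hr (by norm_num)

/-- the quotient by the centre with the conjugation action -/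
def Cq (G : Type*) [Group G] := G ⧸ Subgroup.center G

/-- the class of an element -/
def cq (x : G) : Cq G := (QuotientGroup.mk x : G ⧸ Subgroup.center G)

instance : MulAction G (Cq G) where
  smul g x := ((g : G ⧸ Subgroup.center G) * (show G ⧸ Subgroup.center G from x) * (g : G ⧸ _)⁻¹ :
    G ⧸ Subgroup.center G)
  one_smul x := (show ∀ x : G ⧸ Subgroup.center G, ((1 : G) : G ⧸ _) * x * ((1 : G) : G ⧸ _)⁻¹ = x by simp) x
  mul_smul g h x := (show ∀ x : G ⧸ Subgroup.center G, ((g * h : G) : G ⧸ _) * x * ((g * h : G) : G ⧸ _)⁻¹ =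
    (g : G ⧸ _) * ((h : G ⧸ _) * x * (h : G ⧸ _)⁻¹) * (g : G ⧸ _)⁻¹ from fun x => by
      rw [QuotientGroup.mk_mul]; group) x

theorem smul_cq (g x : G) : g • cq x = cq (g * x * g⁻¹) := rfl

theorem cq_eq {x y : G} : cq x = cq y ↔ x * y⁻¹ ∈ Subgroup.center G := by
  rw [← div_eq_mul_inv]; exact QuotientGroup.eq_iff_div_mem

namespace MS
variable {D : MS G E}

theorem fix_of {w : G} (hw : w ∈ D.R) (h : D.cj w * w⁻¹ ∈ Subgroup.center G) : D.cj w = w := by
  have h1 : D.cj w * w⁻¹ ∈ D.R := D.R.mul_mem (D.nR.conj_mem _ hw _) (D.R.inv_mem hw)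
  have h2 : D.cj w = D.cj w * w⁻¹ * w := by simp
  generalize D.cj w * w⁻¹ = ζ at h h1 h2
  have h3 := D.cj3 w
  rw [h2, cj_mul, cj_cen h, h2, cj_mul, cj_mul, cj_cen h, h2, ← mul_assoc, ← mul_assoc, mul_eq_right] at h3
  rw [h2, D.eq_one_of_cube h1 h3, one_mul]

theorem Four.eq_one {q κ : G} (h : D.Four q) (hκ : κ ∈ h.K) (e : D.cj κ = κ) : κ = 1 := by
  by_contra h1
  obtain ⟨h', -⟩ := h.of_mem hκ h1
  exact h'.ne12 e

theorem fin [Finite G] [Finite E] {q : G} (h : D.Four q) (hq : q ∈ D.R)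
    (hc : ∀ g ∈ D.R, ⁅g, q⁆ ∈ Subgroup.center G) : D.Concl := by
  obtain ⟨e, F⟩ := h.exists_fr
  have st : ∀ κ, (∀ g ∈ D.R, ⁅g, κ⁆ ∈ Subgroup.center G) → ∀ g ∈ D.R, ⁅g, D.cj κ⁆ ∈ Subgroup.center G :=
    fun κ hκ g hg => by
      have := (inferInstance : (Subgroup.center G).Normal).conj_mem _ (hκ _ (D.nR.conj_mem g hg D.b⁻¹)) D.b
      convert this using 1
      simp only [commutatorElement_def, cj]; group
  have hK : ∀ κ ∈ h.K, ∀ g ∈ D.R, ⁅g, κ⁆ ∈ Subgroup.center G := by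
    rintro _ (rfl | rfl | rfl | rfl)
    exacts [fun g _ => by simp, hc, st _ hc, st _ (st _ hc)]
  have nA : (h.K ⊔ Subgroup.center G).Normal := normal_of (D := D) (fun g hg x hx => by
    obtain ⟨κ, hκ, ζ, hζ, rfl⟩ := Subgroup.mem_sup_of_normal_right.mp hx
    have : g * (κ * ζ) * g⁻¹ = ⁅g, κ⁆ * (κ * ζ) := by
      rw [mul_assoc, mul_assoc, (cen_iff.mp hζ _).eq, commutatorElement_def]; group
    rw [this]
    exact mul_mem (Subgroup.mem_sup_right (hK κ hκ g hg)) hx) fun x hx => by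
    obtain ⟨κ, hκ, ζ, hζ, rfl⟩ := Subgroup.mem_sup_of_normal_right.mp hx
    rw [cj_mul, cj_cen hζ]
    exact Subgroup.mul_mem_sup (h.cj_mem hκ) hζ
  have nR := D.nR
  refine case1 F (A := D.R ⊓ (h.K ⊔ Subgroup.center G)) inferInstance inf_le_left (fun x hx y hy => ?_)
    ⟨hq, Subgroup.mem_sup_left (by simp [Four.mem_K])⟩
  obtain ⟨κ, hκ, ζ, hζ, rfl⟩ := Subgroup.mem_sup_of_normal_right.mp hx.2
  obtain ⟨κ', hκ', ζ', hζ', rfl⟩ := Subgroup.mem_sup_of_normal_right.mp hy.2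
  exact ((comm_of_sq (fun x hx => h.sq_K hx) hκ hκ').mul_right (cen_iff.mp hζ' _).symm).mul_left
    (cen_iff.mp hζ _)

/-- a nonabelian minimal noncentral normal subgroup -/
structure NA (D : MS G E) (N : Subgroup G) (z : G) : Prop where
  nN : N.Normal
  le : N ≤ D.R
  min : ∀ M : Subgroup G, M.Normal → M < N → M ≤ Subgroup.center G
  zN : z ∈ N
  zc : z ∈ Subgroup.center G
  z1 : z ≠ 1
  zz : z * z = 1
  uq : ∀ w ∈ D.R, w ∈ Subgroup.center G → w = 1 ∨ w = z
  com : ∀ x ∈ N, ∀ y ∈ N, ⁅x, y⁆ ∈ Subgroup.center G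
  na : ∃ x ∈ N, ∃ y ∈ N, ¬ Commute x y
  cne : ∀ x y, Commute x D.b → Commute y D.b → ⁅x, y⁆ ≠ z

namespace NA
variable {N : Subgroup G} {z : G} (H : D.NA N z)
include H

theorem cjN {x : G} (hx : x ∈ N) : D.cj x ∈ N := H.nN.conj_mem _ hx _

theorem anti {a x : G} (ha : a ∈ D.R) (hx : x ∈ D.R) (h : ⁅a, x⁆ ∈ Subgroup.center G)
    (hn : ¬ Commute a x) : ⁅a, x⁆ = z :=
  (H.uq _ (by rw [commutatorElement_def]; exact mul_mem (mul_mem (mul_mem ha hx) (inv_mem ha)) (inv_mem hx))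
    h).resolve_left (mt commutatorElement_eq_one_iff_commute.mp hn)

theorem anti' {a x : G} (ha : a ∈ N) (hx : x ∈ N) (hn : ¬ Commute a x) : ⁅a, x⁆ = z :=
  H.anti (H.le ha) (H.le hx) (H.com _ ha _ hx) hn

theorem aa {a a' x : G} (h : ⁅a, x⁆ = z) (h' : ⁅a', x⁆ = z) : Commute (a * a') x := by
  have : ⁅a * a', x⁆ = a * ⁅a', x⁆ * a⁻¹ * ⁅a, x⁆ := by simp only [commutatorElement_def]; group
  rw [h, h', ← (cen_iff.mp H.zc a).eq, mul_inv_cancel_right, H.zz] at this
  exact commutatorElement_eq_one_iff_commute.mp this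

theorem sq_mul {x y : G} (h : ⁅x, y⁆ = z) : x * y * (x * y) = z * (x * x) * (y * y) := by
  have h1 : x * y = z * (y * x) := by rw [← h, commutatorElement_def]; group
  have h2 : y * x = z * (x * y) := by rw [h1, ← mul_assoc, H.zz, one_mul]
  calc _ = x * (y * x) * y := by group
    _ = x * z * (x * y) * y := by rw [h2]; group
    _ = _ := by rw [← (cen_iff.mp H.zc x).eq]; group

theorem ZN {x : G} (hx : x ∈ N) (h : ∀ y ∈ N, Commute x y) : x ∈ Subgroup.center G := by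
  have := H.nN
  refine H.min (N ⊓ Subgroup.centralizer (N : Set G)) inferInstance (inf_le_left.lt_of_ne fun e => ?_)
    ⟨hx, fun y hy => (h y hy).symm⟩
  obtain ⟨a, ha, b, hb, hab⟩ := H.na
  exact hab ((e.ge hb).2 a ha)

theorem sq {x : G} (hx : x ∈ N) : x * x ∈ Subgroup.center G := H.ZN (N.mul_mem hx hx) fun y hy => by
  by_cases h : Commute x y
  · exact h.mul_left h
  · exact H.aa (H.anti' hx hy h) (H.anti' hx hy h)

theorem tri_fix {n : G} (hn : n ∈ N) :
    D.cj (n * D.cj n * D.cj (D.cj n)) = n * D.cj n * D.cj (D.cj n) := by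
  have h1 := N.mul_mem (H.cjN hn) (H.cjN (H.cjN hn))
  refine fix_of (H.le (by rw [mul_assoc]; exact N.mul_mem hn h1)) ?_
  convert H.com _ h1 _ hn using 1
  simp only [cj_mul, cj3, commutatorElement_def]; group

theorem fixb {w : G} (hw : w ∈ N) (h : D.cj w = w) : w ∈ Subgroup.center G := H.ZN hw fun n hn => by
  by_contra hc
  have k : ∀ x, ¬ Commute x w → ¬ Commute (D.cj x) w := fun x hx e => hx (by
    have := cj_comm (D := D) (cj_comm (D := D) e)
    rwa [cj3, h, h] at this)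
  have h1 : ¬ Commute n w := fun e => hc e.symm
  have h2 := H.aa (H.anti' hn hw h1) (H.anti' (H.cjN hn) hw (k _ h1))
  refine H.cne _ _ (D.cj_eq_iff.mp (H.tri_fix hn)) (D.cj_eq_iff.mp h) (H.anti'
    (N.mul_mem (N.mul_mem hn (H.cjN hn)) (H.cjN (H.cjN hn))) hw fun e => k _ (k _ h1) ?_)
  simpa only [inv_mul_cancel_left] using h2.inv_left.mul_left e

theorem tri {n : G} (hn : n ∈ N) : n * D.cj n * D.cj (D.cj n) ∈ Subgroup.center G :=
  H.fixb (N.mul_mem (N.mul_mem hn (H.cjN hn)) (H.cjN (H.cjN hn))) (H.tri_fix hn)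

theorem fourOf {x : G} (hx : x ∈ D.R) (h1 : x * x = 1) (h2 : x * D.cj x * D.cj (D.cj x) ∈ Subgroup.center G)
    (h3 : x ∉ Subgroup.center G) : ∃ ζ, (ζ = 1 ∨ ζ = z) ∧ D.Four (x * ζ) := by
  have k : ∀ x ∈ D.R, D.cj x ∈ D.R := fun x hx => D.nR.conj_mem _ hx _
  have c := cen_iff.mp H.zc
  rcases H.uq _ (mul_mem (mul_mem hx (k _ hx)) (k _ (k _ hx))) h2 with h | h
  · exact ⟨1, Or.inl rfl, by simpa using fun e => h3 (by simp [e]), by simpa using h1, by simpa using h⟩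
  · refine ⟨z, Or.inr rfl, fun e => h3 ?_, ?_, ?_⟩
    · rw [eq_inv_of_mul_eq_one_left e]; exact inv_mem H.zc
    · rw [mul_assoc, ← mul_assoc z, (c x).eq, mul_assoc, H.zz, mul_one, h1]
    · simp only [cj_mul, cj_cen H.zc]
      calc _ = x * (z * D.cj x) * (z * D.cj (D.cj x)) * z := by group
        _ = x * D.cj x * (z * D.cj (D.cj x)) * z * z := by
          rw [(c (D.cj x)).eq, (c (D.cj (D.cj x))).eq, mul_assoc x, mul_assoc (D.cj x), ← mul_assoc z,
            (c (D.cj (D.cj x))).eq]; group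
        _ = x * D.cj x * D.cj (D.cj x) * z * (z * z) := by rw [(c _).eq]; group
        _ = 1 := by rw [h, H.zz, mul_one]

theorem plus [Finite G] [Finite E] {n : G} (hn : n ∈ N) (h1 : n * n = 1) (h3 : n ∉ Subgroup.center G) :
    D.Concl := by
  classical
  have nN := H.nN
  have nR := D.nR
  obtain ⟨ζ, hζ, h⟩ := H.fourOf (H.le hn) h1 (H.tri hn) h3
  have hq : n * ζ ∈ N := N.mul_mem hn (by rcases hζ with rfl | rfl; exacts [N.one_mem, H.zN])
  generalize n * ζ = q at h hq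
  obtain ⟨e, F⟩ := h.exists_fr
  have KN := h.K_le nN hq
  have hq2 := H.cjN hq
  have c := cen_iff.mp H.zc
  have Kc : ∀ x ∈ h.K, ∀ y ∈ h.K, Commute x y := fun x hx y hy => comm_of_sq (fun x hx => h.sq_K hx) hx hy
  have qK : q ∈ h.K := by simp [Four.mem_K]
  have qK2 : D.cj q ∈ h.K := h.cj_mem qK
  have CN : D.R ⊓ Subgroup.centralizer (N : Set G) ≤ Subgroup.center G := cen_of inferInstance fun x hx => by
    have h1 : ⁅x, D.b⁆ ∈ h.K := F.comm_mem (hx.2 q hq).symm (hx.2 _ hq2).symm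
    have h2 : ⁅x, D.b⁆ ∈ Subgroup.centralizer (N : Set G) := by
      rw [commutatorElement_def, mul_assoc, mul_assoc, ← mul_assoc D.b]
      exact mul_mem hx.2 (Subgroup.Normal.conj_mem inferInstance _ (inv_mem hx.2) _)
    exact D.cj_eq_iff.mpr (commutatorElement_eq_one_iff_commute.mp
      (h.eq_one h1 (cj_cen (H.ZN (KN h1) fun y hy => (h2 y hy).symm))))
  let A := N ⊓ Subgroup.centralizer ({q, D.cj q} : Set G)
  have mA : ∀ {t}, t ∈ A ↔ t ∈ N ∧ Commute t q ∧ Commute t (D.cj q) := fun {t} => by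
    simp only [A, Subgroup.mem_inf, Subgroup.mem_centralizer_iff, Set.mem_insert_iff, Set.mem_singleton_iff,
      forall_eq_or_imp, forall_eq]
    exact and_congr_right fun _ => ⟨fun h => ⟨h.1.symm, h.2.symm⟩, fun h => ⟨h.1.symm, h.2.symm⟩⟩
  have KA : h.K ≤ A := fun x hx => mA.mpr ⟨KN hx, Kc _ hx _ qK, Kc _ hx _ qK2⟩
  have zA : z ∈ A := mA.mpr ⟨H.zN, c _, c _⟩
  have Amem : ∀ x ∈ A, x ∈ h.K ∨ x * z ∈ h.K := fun x hx => by
    obtain ⟨h1, h2, h3⟩ := mA.mp hx
    have : ∃ κ ∈ h.K, ⁅κ, D.b⁆ = ⁅x, D.b⁆ := by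
      have e : ∀ κ ∈ h.K, ⁅κ, D.b⁆ = κ * D.cj κ := fun κ hκ => by
        rw [commutatorElement_def, inv_eq_of_mul_eq_one_right (h.sq_K hκ), cj]; group
      rcases F.comm_mem h2 h3 with h4 | h4 | h4 | h4 <;> rw [h4]
      exacts [⟨1, one_mem _, by simp⟩, ⟨_, qK2, by rw [e _ qK2, h.m23]⟩,
        ⟨_, h.cj_mem qK2, by rw [e _ (h.cj_mem qK2), cj3, h.m31]⟩, ⟨_, qK, by rw [e _ qK, h.m12]⟩]
    obtain ⟨κ, hκ, h4⟩ := this
    have h5 : D.cj (κ⁻¹ * x) = κ⁻¹ * x := by
      have : κ⁻¹ * x = κ⁻¹ * ⁅x, D.b⁆ * D.cj x := by rw [commutatorElement_def, cj]; group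
      conv_rhs => rw [this, ← h4, commutatorElement_def]
      simp only [cj]; group
    have h6 := N.mul_mem (N.inv_mem (KN hκ)) h1
    rcases H.uq _ (H.le h6) (H.fixb h6 h5) with h7 | h7
    · exact Or.inl (inv_mul_eq_one.mp h7 ▸ hκ)
    · exact Or.inr (by rw [inv_mul_eq_iff_eq_mul.mp h7, mul_assoc, H.zz, mul_one]; exact hκ)
  have zK : z ∉ h.K := fun hz => H.z1 (h.eq_one hz (cj_cen H.zc))
  have Asq : ∀ x ∈ A, x * x = 1 := fun x hx => (Amem x hx).elim h.sq_K fun h' => by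
    have := h.sq_K h'
    rwa [mul_assoc, ← mul_assoc z, (c x).eq, mul_assoc, H.zz, mul_one] at this
  have cA : Nat.card A = 8 := by
    have h1 := (h.K.subgroupOf A).card_mul_index
    rw [Nat.card_congr (Subgroup.subgroupOfEquivOfLe KA).toEquiv, h.card_K,
      Subgroup.index_eq_two_iff.mpr ⟨⟨z, zA⟩, fun x => ?_⟩] at h1
    · exact h1.symm
    · by_cases hx : (x : G) ∈ h.K
      · exact Or.inr ⟨hx, fun h' => zK ((Subgroup.mul_mem_cancel_left _ hx).mp h')⟩
      · exact Or.inl ⟨(Amem x x.2).resolve_left hx, hx⟩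
  have cN := (A.subgroupOf N).card_mul_index
  rw [Nat.card_congr (Subgroup.subgroupOfEquivOfLe (inf_le_left : A ≤ N)).toEquiv, cA] at cN
  have hk : (A.subgroupOf N).index ≤ 4 := by
    have k : ∀ x ∈ N, ∀ y ∈ N, ∀ s ∈ N, (Commute x s ↔ Commute y s) → Commute (x⁻¹ * y) s :=
      fun x hx y hy s hs hxy => by
        by_cases h' : Commute x s
        · exact h'.inv_left.mul_left (hxy.mp h')
        · exact H.aa (H.anti' (N.inv_mem hx) hs fun e => h' (by simpa using e))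
            (H.anti' hy hs (mt hxy.mpr h'))
    refine (Nat.card_le_card_of_injective (fun x : N ⧸ A.subgroupOf N =>
      (Commute (x.out : G) q, Commute (x.out : G) (D.cj q))) fun x y hxy => ?_).trans (by simp)
    rw [← x.out_eq', ← y.out_eq', QuotientGroup.eq]
    simp only [Prod.mk.injEq, eq_iff_iff] at hxy
    exact mA.mpr ⟨(x.out⁻¹ * y.out).2, k _ x.out.2 _ y.out.2 _ hq hxy.1, k _ x.out.2 _ y.out.2 _ hq2 hxy.2⟩
  have hk3 : (A.subgroupOf N).index ≠ 3 := fun e => by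
    have := Nat.Coprime.coprime_dvd_right (Subgroup.card_dvd_of_le H.le) D.cop
    rw [← cN, e] at this
    exact absurd this (by norm_num)
  let T : Set G := {x | x ∈ N ∧ x * x ≠ 1}
  let T' : Set G := {x | x ∈ N ∧ x * x = 1 ∧ x ∉ A}
  let σ : G → G := fun x => if Commute x q then x * D.cj q else x * q
  have σi : Function.Involutive σ := fun x => by
    by_cases hx : Commute x q
    · simp only [σ, if_pos hx, if_pos (hx.mul_left (Kc _ qK2 _ qK)), mul_assoc, h.sq2, mul_one]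
    · have : ¬ Commute (x * q) q := fun e => hx (by simpa using e.mul_left (Commute.refl q).inv_left)
      simp only [σ, if_neg hx, if_neg this, mul_assoc, h.sq, mul_one]
  have σm : ∀ x ∈ N, x ∉ A → σ x ∈ N ∧ σ x ∉ A ∧ σ x * σ x = z * (x * x) := fun x hx hx' => by
    by_cases h' : Commute x q
    · simp only [σ, if_pos h']
      exact ⟨N.mul_mem hx hq2, by rwa [A.mul_mem_cancel_right (KA qK2)], by
        rw [H.sq_mul (H.anti' hx hq2 fun e => hx' (mA.mpr ⟨hx, h', e⟩)), h.sq2, mul_one]⟩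
    · simp only [σ, if_neg h']
      exact ⟨N.mul_mem hx hq, by rwa [A.mul_mem_cancel_right (KA qK)], by
        rw [H.sq_mul (H.anti' hx hq h'), h.sq, mul_one]⟩
  have TT : T'.ncard = T.ncard := le_antisymm
    (Set.ncard_le_ncard_of_injOn σ (fun x hx => by
      obtain ⟨a, -, b⟩ := σm x hx.1 hx.2.2
      exact ⟨a, by rw [b, hx.2.1, mul_one]; exact H.z1⟩) σi.injective.injOn)
    (Set.ncard_le_ncard_of_injOn σ (fun x hx => by
      obtain ⟨a, a', b⟩ := σm x hx.1 fun e => hx.2 (Asq x e)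
      refine ⟨a, ?_, a'⟩
      rw [b, (H.uq _ (H.le (N.mul_mem hx.1 hx.1)) (H.sq hx.1)).resolve_left hx.2, H.zz]) σi.injective.injOn)
  have cT : 8 + T.ncard + T.ncard = 8 * (A.subgroupOf N).index := by
    have e1 : (N : Set G) = (A : Set G) ∪ T' ∪ T := by
      ext x
      simp only [T, T', Set.mem_union, Set.mem_ofPred_eq, SetLike.mem_coe]
      have : x ∈ A → x ∈ N := fun h => h.1
      tauto
    have e2 : Nat.card N = (N : Set G).ncard := (Nat.card_coe_set_eq _)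
    have e3 : (A : Set G).ncard = 8 := (Nat.card_coe_set_eq _).symm.trans cA
    rw [cN, e2, e1, Set.ncard_union_eq, Set.ncard_union_eq, e3, TT]
    · exact Set.disjoint_left.mpr fun x hx hx' => hx'.2.2 hx
    · exact Set.disjoint_left.mpr fun x hx hx' => hx'.2 (hx.elim (Asq x) fun h => h.2.1)
  have pR : IsPGroup 2 D.R := by
    refine IsPGroup.of_card (Nat.eq_prime_pow_of_unique_prime_dvd Nat.card_pos.ne' fun {r} hr hd => ?_)
    by_contra r2
    have r3 : r ≠ 3 := fun e => absurd (Nat.Coprime.coprime_dvd_right (e ▸ hd) D.cop) (by norm_num)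
    have r4 : r ≠ 4 := fun e => by rw [e] at hr; exact absurd hr (by decide)
    have := hr.two_le
    have : Fact r.Prime := ⟨hr⟩
    obtain ⟨g, hg⟩ := exists_prime_orderOf_dvd_card' r hd
    have g1 : (g : G) ^ r = 1 := by rw [← hg, ← Subgroup.coe_pow, pow_orderOf_eq_one]; rfl
    let C := N ⊓ Subgroup.centralizer ({(g : G)} : Set G)
    have mC : (C : Set G) = {x | x ∈ (N : Set G) ∧ Commute (g : G) x} := by
      ext x; simp [C, Subgroup.mem_centralizer_iff, Commute, SemiconjBy]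
    have m1 := card_modEq_fix hr g1 N fun x hx => nN.conj_mem _ hx _
    have m2 := card_modEq_fix hr g1 T fun x hx => ⟨nN.conj_mem _ hx.1 _, fun e => hx.2 (by simpa using e)⟩
    rw [← mC, ← Nat.card_coe_set_eq, ← Nat.card_coe_set_eq] at m1
    refine arith (c := Nat.card C) hk hk3 (cN ▸ Subgroup.card_dvd_of_le inf_le_left) ?_ ?_ hr (by omega)
      (cN ▸ m1) cT m2
    · have : insert 1 (insert z {x | x ∈ T ∧ Commute (g : G) x}) ⊆ (C : Set G) := by
        rw [mC]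
        rintro _ (rfl | rfl | hx)
        exacts [⟨N.one_mem, by simp⟩, ⟨H.zN, (c _).symm⟩, ⟨hx.1.1, hx.2⟩]
      have := Set.ncard_le_ncard this
      rwa [Set.ncard_insert_of_notMem (by simp [T, H.z1.symm]), Set.ncard_insert_of_notMem (by simp [T, H.zz]),
        ← Nat.card_coe_set_eq (C : Set G)] at this
    · rw [cN]
      refine lt_of_le_of_ne (Subgroup.card_le_of_le inf_le_left) fun e => ?_
      have e1 := Subgroup.eq_of_le_of_card_ge (inf_le_left : C ≤ N) e.ge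
      have e2 := CN ⟨g.2, fun y hy => ((e1.ge hy).2 g rfl).symm⟩
      have e3 : (g : G) ^ 2 = 1 := by rw [_root_.sq, F.cen_sq g.2 e2]
      have e4 : r ∣ 2 := by rw [← hg, ← Subgroup.orderOf_coe]; exact orderOf_dvd_of_pow_eq_one e3
      exact r2 ((Nat.prime_dvd_prime_iff_eq hr Nat.prime_two).mp e4)
  have : Group.IsNilpotent D.R := pR.isNilpotent
  have h1 := CL.Grp.commutator_top_lt (N := N.subgroupOf D.R) fun h =>
    H.z1 (congrArg Subtype.val ((Subgroup.eq_bot_iff_forall _).mp h ⟨z, H.le H.zN⟩ H.zN))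
  have h2 := (Subgroup.map_lt_map_iff_of_injective D.R.subtype_injective).mpr h1
  rw [Subgroup.map_commutator, Subgroup.map_subgroupOf_eq_of_le H.le, ← MonoidHom.range_eq_map,
    Subgroup.range_subtype, Subgroup.commutator_comm] at h2
  exact fin h (H.le hq) fun g hg => H.min _ inferInstance h2 (Subgroup.commutator_mem_commutator hg hq)

theorem quat {q : G} (h : D.Four q) (hq : q ∈ D.R) (hs : ∀ n ∈ N, n * n = 1 → n ∈ Subgroup.center G) :
    (∃ n ∈ N, ¬ Commute n (D.cj n) ∧ n * n = z ∧ ∀ g ∈ D.R, ⁅g, n⁆ ∈ Subgroup.center G) ∧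
      ∃ c ∈ D.R ⊓ Subgroup.centralizer (N : Set G), D.cj c ≠ c := by
  have nN := H.nN
  have nR := D.nR
  have c := cen_iff.mp H.zc
  have sz : ∀ n ∈ N, n ∉ Subgroup.center G → n * n = z := fun n hn h' =>
    (H.uq _ (H.le (N.mul_mem hn hn)) (H.sq hn)).resolve_left (mt (hs n hn) h')
  have nc : ∀ n ∈ N, ∀ m ∈ N, n ∉ Subgroup.center G → m ∉ Subgroup.center G → Commute n m → cq n = cq m :=
    fun n hn m hm h1 h2 h3 => cq_eq.mpr (hs _ (N.mul_mem hn (N.inv_mem hm)) (by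
      rw [h3.inv_right.symm.mul_mul_mul_comm, ← mul_inv_rev, sz n hn h1, sz m hm h2, mul_inv_cancel]))
  have mv : ∀ n ∈ N, n ∉ Subgroup.center G → cq (D.cj n) ≠ cq n := fun n hn h1 e =>
    h1 (H.fixb hn (fix_of (H.le hn) (cq_eq.mp e)))
  have cjc : ∀ n, n ∉ Subgroup.center G → D.cj n ∉ Subgroup.center G := fun n h1 e => h1 (by
    have := D.cj3 n
    rw [cj_cen e, cj_cen e] at this
    exact this ▸ e)
  obtain ⟨n, hn, m, -, hnm⟩ := H.na
  have n0 : n ∉ Subgroup.center G := fun e => hnm (cen_iff.mp e _)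
  have hn1 := H.cjN hn
  have hn2 := H.cjN hn1
  have a01 : ¬ Commute n (D.cj n) := fun e => mv n hn n0 (nc _ hn _ hn1 n0 (cjc _ n0) e).symm
  have tr : ∀ x ∈ N, x ∉ Subgroup.center G → cq x = cq n ∨ cq x = cq (D.cj n) ∨ cq x = cq (D.cj (D.cj n)) :=
    fun x hx x0 => by
      by_contra hc
      simp only [not_or] at hc
      have h1 := H.aa (H.anti' hn hx fun e => hc.1 (nc _ hn _ hx n0 x0 e).symm)
        (H.anti' hn1 hx fun e => hc.2.1 (nc _ hn1 _ hx (cjc _ n0) x0 e).symm)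
      refine hc.2.2 (nc _ hn2 _ hx (cjc _ (cjc _ n0)) x0 ?_).symm
      simpa only [inv_mul_cancel_left] using h1.inv_left.mul_left (cen_iff.mp (H.tri hn) x)
  have T : D.Tri {x | ∃ y ∈ N, y ∉ Subgroup.center G ∧ x = cq y} (cq n) :=
    { inv := by
        rintro g _ ⟨y, hy, y0, rfl⟩
        exact ⟨_, nN.conj_mem _ hy g, fun e => y0 (by
          simpa [mul_assoc] using Subgroup.Normal.conj_mem inferInstance _ e g⁻¹), rfl⟩
      mem := ⟨n, hn, n0, rfl⟩
      mv := mv n hn n0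
      tri := by rintro _ ⟨y, hy, y0, rfl⟩ -; exact tr y hy y0 }
  have RN : ∀ g ∈ D.R, ∀ y ∈ N, ⁅g, y⁆ ∈ Subgroup.center G := fun g hg y hy => by
    by_cases y0 : y ∈ Subgroup.center G
    · rw [commutatorElement_eq_one_iff_commute.mpr (cen_iff.mp y0 g).symm]; exact one_mem _
    · exact cq_eq.mp (T.triv hg (by rintro _ ⟨y, hy, y0, rfl⟩ e; exact absurd e (mv y hy y0)) _ ⟨y, hy, y0, rfl⟩)
  refine ⟨⟨n, hn, a01, sz n hn n0, fun g hg => RN g hg n hn⟩, ?_⟩
  by_contra hc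
  push Not at hc
  have CN := cen_of inferInstance hc
  have key : ∀ m ∈ N, Commute (q * m) n → Commute (q * m) (D.cj n) → False := fun m hm h1 h2 => by
    have h3 : Commute (q * m) (D.cj (D.cj n)) := by
      simpa only [inv_mul_cancel_left] using (h1.mul_right h2).inv_right.mul_right (cen_iff.mp (H.tri hn) _).symm
    have h4 : ∀ x y, cq x = cq y → Commute (q * m) y → Commute (q * m) x := fun x y e h' => by
      simpa using (cen_iff.mp (cq_eq.mp e) _).symm.mul_right h'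
    have h5 : q * m ∈ D.R := D.R.mul_mem hq (H.le hm)
    have h6 := CN ⟨h5, fun x hx => Commute.symm (by
      by_cases x0 : x ∈ Subgroup.center G
      · exact (cen_iff.mp x0 _).symm
      · rcases tr x hx x0 with e | e | e
        exacts [h4 _ _ e h1, h4 _ _ e h2, h4 _ _ e h3])⟩
    have h7 : q * m ∈ N := by rcases H.uq _ h5 h6 with e | e <;> rw [e]; exacts [N.one_mem, H.zN]
    exact h.ne12 (cj_cen (hs q ((N.mul_mem_cancel_right hm).mp h7) h.sq))
  have z01 := H.anti' hn hn1 a01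
  have z10 := H.anti' hn1 hn fun e => a01 e.symm
  by_cases b0 : Commute q n <;> by_cases b1 : Commute q (D.cj n)
  · exact key 1 N.one_mem (by simpa using b0) (by simpa using b1)
  · exact key n hn (b0.mul_left (Commute.refl _)) (H.aa (H.anti hq (H.le hn1) (RN _ hq _ hn1) b1) z01)
  · exact key _ hn1 (H.aa (H.anti hq (H.le hn) (RN _ hq _ hn) b0) z10) (b1.mul_left (Commute.refl _))
  · refine key _ (N.mul_mem hn hn1) ?_ ?_
    · have : ¬ Commute (q * n) n := fun e => b0 (by simpa using e.mul_left (Commute.refl n).inv_left)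
      rw [← mul_assoc]
      exact H.aa (H.anti (mul_mem hq (H.le hn)) (H.le hn) (RN _ (mul_mem hq (H.le hn)) _ hn) this) z10
    · rw [← mul_assoc]
      exact (H.aa (H.anti hq (H.le hn1) (RN _ hq _ hn1) b1) z01).mul_left (Commute.refl _)

end NA

theorem exists_na [Finite G] [Finite E] [Group.IsSolvable G] {q : G} {e : E} (F : D.Fr q e) {K : Subgroup G}
    (hK : K.Normal) (hR : K ≤ D.R) (h : ∃ x ∈ K, D.cj x ≠ x) : D.Concl ∨ ∃ N ≤ K, ∃ z, D.NA N z := by
  obtain ⟨N, ⟨nN, hle, hx⟩, hmin⟩ := WellFounded.has_min (wellFounded_lt (α := Subgroup G))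
    {M | M.Normal ∧ M ≤ K ∧ ∃ x ∈ M, D.cj x ≠ x} ⟨K, hK, le_rfl, h⟩
  have NR := hle.trans hR
  by_cases hc : ∀ x ∈ N, ∀ y ∈ N, Commute x y
  · exact Or.inl (F.abelian nN NR hc hx)
  push Not at hc
  have min : ∀ M : Subgroup G, M.Normal → M < N → M ≤ Subgroup.center G := fun M hM hlt =>
    cen_of hM fun x hx => by
      by_contra hne
      exact hmin M ⟨hM, hlt.le.trans hle, x, hx, hne⟩ hlt
  obtain ⟨x, hx, y, hy, hxy⟩ := hc
  have lt : ⁅N, N⁆ < N := Group.IsSolvable.commutator_lt_of_ne_bot fun e => hxy (by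
    rw [(Subgroup.eq_bot_iff_forall _).mp e x hx]; simp)
  have com : ∀ x ∈ N, ∀ y ∈ N, ⁅x, y⁆ ∈ Subgroup.center G := fun x hx y hy =>
    min _ inferInstance lt (Subgroup.commutator_mem_commutator hx hy)
  have zN := lt.le (Subgroup.commutator_mem_commutator hx hy)
  have z1 := mt commutatorElement_eq_one_iff_commute.mp hxy
  have zc := com x hx y hy
  exact Or.inr ⟨N, hle, _, nN, NR, min, zN, zc, z1, F.cen_sq (NR zN) zc, fun w hw hw' =>
    or_iff_not_imp_left.mpr fun h1 => F.cen_uniq hw (cen_iff.mp hw') h1 (NR zN) (cen_iff.mp zc) z1, com,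
    ⟨x, hx, y, hy, hxy⟩, fun a b ha hb => F.comm_ne (NR zN) (cen_iff.mp zc) z1 ha hb⟩

theorem main [Finite G] [Finite E] [Group.IsSolvable G] {q : G} (h : D.Four q) (hq : q ∈ D.R) :
    D.Concl := by
  obtain ⟨e, F⟩ := h.exists_fr
  have nR := D.nR
  obtain hc | ⟨N, -, z, H⟩ := exists_na F nR le_rfl ⟨q, hq, h.ne12⟩
  · exact hc
  have nN := H.nN
  by_contra hc
  have k : ∀ {N z}, D.NA N z → ∀ n ∈ N, n * n = 1 → n ∈ Subgroup.center G := fun H n hn h1 => by
    by_contra h2; exact hc (H.plus hn h1 h2)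
  obtain ⟨⟨n, hn, a, s, r⟩, hC⟩ := H.quat h hq (k H)
  obtain hc' | ⟨N', hle, z', H'⟩ := exists_na F inferInstance inf_le_left hC
  · exact hc hc'
  obtain ⟨⟨n', hn', -, s', r'⟩, -⟩ := H'.quat h hq (k H')
  obtain rfl : z' = z := (H.uq _ (H'.le H'.zN) H'.zc).resolve_left H'.z1
  have cm : ∀ x ∈ N, ∀ y ∈ N', Commute x y := fun x hx y hy => (hle hy).2 x hx
  have hR : n * n' ∈ D.R := mul_mem (H.le hn) (H'.le hn')
  obtain ⟨ζ, hζ, h4⟩ := H.fourOf hR (by rw [(cm _ hn _ hn').symm.mul_mul_mul_comm, s, s', H.zz]) (by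
    rw [cj_mul, cj_mul, (cm _ (H.cjN hn) _ hn').symm.mul_mul_mul_comm,
      (cm _ (H.cjN (H.cjN hn)) _ (N'.mul_mem hn' (H'.cjN hn'))).symm.mul_mul_mul_comm]
    exact mul_mem (H.tri hn) (H'.tri hn')) fun e => a (by
      simpa using (cen_iff.mp e (D.cj n)).mul_left (cm _ (H.cjN hn) _ hn').symm.inv_left)
  have hζ' : ζ ∈ D.R ∧ ζ ∈ Subgroup.center G := by
    rcases hζ with rfl | rfl
    exacts [⟨one_mem _, one_mem _⟩, ⟨H.le H.zN, H.zc⟩]
  refine hc (fin h4 (mul_mem hR hζ'.1) fun g hg => ?_)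
  have : ⁅g, n * n' * ζ⁆ = ⁅g, n⁆ * (n * (⁅g, n'⁆ * (n' * ⁅g, ζ⁆ * n'⁻¹)) * n⁻¹) := by
    simp only [commutatorElement_def]; group
  rw [this, commutatorElement_eq_one_iff_commute.mpr (cen_iff.mp hζ'.2 g).symm, mul_one, mul_inv_cancel,
    mul_one]
  exact mul_mem (r g hg) (Subgroup.Normal.conj_mem inferInstance _ (r' g hg) _)

end MS
end CL.Tho3
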