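import Cfsg.Agent.Fgs.ThoE
import Cfsg.Agent.Loc.PConstr

/-! The module structure and the reduction to the standard setting (for S4415). -/

set_option autoImplicit false
set_option linter.unusedSimpArgs false
open scoped commutatorElement
open Cfsg

namespace CL.Tho3
variable {G : Type*} [Group G] {E : Type*} [AddCommGroup E] [Module k3 E]

theorem MS.module [Finite G] {D : MS G E} {q : G} (h : D.Four q) (hq : q ∈ D.R) :
    ∃ F₀ F₁ : Submodule k3 E, F₀ ⊓ F₁ = ⊥ ∧ F₀ ⊔ F₁ = ⊤ ∧ (∀ r ∈ D.R, ∀ v ∈ F₁, D.ρ r v = v) ∧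
      (∀ g, ∀ v ∈ F₀, D.ρ g v ∈ F₀) ∧ (∀ g, (∀ v ∈ F₀, D.ρ g v = v) → g = 1) ∧
      ∀ N : Submodule k3 E, N ≤ F₀ → (∀ g, ∀ v ∈ N, D.ρ g v ∈ N) → N = ⊥ ∨ N = F₀ := by
  obtain ⟨e, F⟩ := h.exists_fr
  have nR := D.nR
  have := Fintype.ofFinite D.R
  let F₀ : Submodule k3 E := Submodule.span k3 {w | ∃ r ∈ D.R, ∃ v, w = D.ρ r v - v}
  let F₁ : Submodule k3 E :=
    { carrier := {v | ∀ r ∈ D.R, D.ρ r v = v}
      zero_mem' := fun r _ => map_zero _
      add_mem' := fun {a b} ha hb r hr => by rw [map_add, ha r hr, hb r hr]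
      smul_mem' := fun a v hv r hr => by rw [map_smul, hv r hr] }
  let L : E →ₗ[k3] E := ∑ r : D.R, D.ρ r
  have hL : ∀ v, L v = ∑ r : D.R, D.ρ r v := fun v => LinearMap.sum_apply _ _ _
  have hn : (Fintype.card D.R : k3) ≠ 0 := fun e => by
    rw [ZMod.natCast_eq_zero_iff, ← Nat.card_eq_fintype_card] at e
    exact absurd (Nat.Coprime.eq_one_of_dvd D.cop e) (by norm_num)
  have L0 : F₀ ≤ LinearMap.ker L := Submodule.span_le.mpr (by
    rintro _ ⟨r, hr, v, rfl⟩
    show L _ = 0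
    rw [map_sub, hL, hL, sub_eq_zero]
    exact Fintype.sum_equiv (Equiv.mulRight ⟨r, hr⟩) _ _ fun s => (D.mul_app _ _ _).symm)
  have L1 : ∀ v, L v ∈ F₁ := fun v r hr => by
    rw [hL, map_sum]
    exact Fintype.sum_equiv (Equiv.mulLeft ⟨r, hr⟩) _ _ fun s => (D.mul_app _ _ _).symm
  have inf : F₀ ⊓ F₁ = ⊥ := (Submodule.eq_bot_iff _).mpr fun v hv => by
    have h1 : L v = 0 := L0 hv.1
    rw [hL, Finset.sum_congr rfl fun r _ => hv.2 r.1 r.2, Finset.sum_const, Finset.card_univ,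
      ← Nat.cast_smul_eq_nsmul k3] at h1
    exact (smul_eq_zero.mp h1).resolve_left hn
  have inv : ∀ g, ∀ v ∈ F₀, D.ρ g v ∈ F₀ := fun g => (Submodule.span_le (p := F₀.comap (D.ρ g))).mpr (by
    rintro _ ⟨r, hr, v, rfl⟩
    refine Submodule.subset_span ⟨_, nR.conj_mem r hr g, D.ρ g v, ?_⟩
    rw [map_sub, D.mul_app, D.mul_app, D.inv_app])
  have he : e ∈ F₀ := Submodule.subset_span ⟨_, nR.conj_mem q hq D.b, e, by
    have := three_smul e
    rw [show D.b * q * D.b⁻¹ = D.cj q from rfl, F.h21]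
    linear_combination (norm := module) this⟩
  refine ⟨F₀, F₁, inf, eq_top_iff.mpr fun v _ => ?_, fun r hr v hv => hv r hr, inv, fun g hg => ?_,
    fun N hN hi => ?_⟩
  · rw [← Submodule.smul_mem_iff _ hn]
    have : (Fintype.card D.R : k3) • v = -∑ r : D.R, (D.ρ r v - v) + L v := by
      rw [hL, Finset.sum_sub_distrib, Finset.sum_const, Finset.card_univ, Nat.cast_smul_eq_nsmul]; abel
    rw [this]
    exact Submodule.add_mem_sup (neg_mem (Submodule.sum_mem _ fun r _ =>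
      Submodule.subset_span ⟨_, r.2, v, rfl⟩)) (L1 v)
  · let C : Subgroup G :=
      { carrier := {g | ∀ v ∈ F₀, D.ρ g v = v}
        one_mem' := fun v _ => D.one_app v
        mul_mem' := fun {a b} ha hb v hv => by rw [D.mul_app, hb v hv, ha v hv]
        inv_mem' := fun {a} ha v hv => by
          conv_lhs => rw [← ha v hv]
          rw [D.inv_app] }
    have nC : C.Normal := ⟨fun n hn g v hv => by rw [D.mul_app, D.mul_app, hn _ (inv _ _ hv), D.app_inv]⟩
    have CR : ∀ c ∈ C, c ∈ D.R → c = 1 := fun c hc hr => F.eq_one hr fun γ => hc _ (inv _ _ he)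
    have k : ∀ r ∈ D.R, r * D.b ∉ C := fun r hr hc => by
      have h1 : Commute r (r * D.b) := commutatorElement_eq_one_iff_commute.mp (CR _
        (Subgroup.commutator_le_right ⊤ C (Subgroup.commutator_mem_commutator trivial hc))
        (Subgroup.commutator_le_left D.R ⊤ (Subgroup.commutator_mem_commutator hr trivial)))
      have h2 : Commute r D.b := by simpa using (Commute.refl r).inv_right.mul_right h1
      have h3 : (r * D.b) ^ 3 = r * r * r := by
        rw [h2.mul_pow, pow_succ D.b, sq, D.b3, mul_one, pow_succ, sq]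
      have h4 := D.eq_one_of_cube hr (CR _ (h3 ▸ C.pow_mem hc 3) (mul_mem (mul_mem hr hr) hr))
      rw [h4, one_mul] at hc
      exact F.ne12.1 (hc e he)
    obtain ⟨r, hr, i, rfl⟩ := D.dec g
    have h3 : D.b ^ 3 = 1 := by rw [pow_succ, sq, D.b3]
    have hg' : r * D.b ^ i ∈ C := hg
    rw [pow_eq_pow_mod i h3] at hg' ⊢
    obtain h | h | h : i % 3 = 0 ∨ i % 3 = 1 ∨ i % 3 = 2 := by omega
    · rw [h, pow_zero, mul_one] at hg' ⊢; exact CR r hg' hr
    · rw [h, pow_one] at hg'; exact absurd hg' (k r hr)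
    · rw [h, sq, ← D.binv] at hg'
      exact absurd (by simpa using C.inv_mem hg') (k _ (nR.conj_mem _ (inv_mem hr) D.b))
  · by_cases hm : e ∈ N
    · exact Or.inr (le_antisymm hN (Submodule.span_le.mpr (by
        rintro _ ⟨r, -, v, rfl⟩; exact F.sub_mem hi hm r v)))
    refine Or.inl (eq_bot_iff.mpr (inf ▸ le_inf hN fun v hv r _ => ?_))
    let C : Subgroup G :=
      { carrier := {g | ∀ v ∈ N, D.ρ g v = v}
        one_mem' := fun v _ => D.one_app v
        mul_mem' := fun {a b} ha hb v hv => by rw [D.mul_app, hb v hv, ha v hv]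
        inv_mem' := fun {a} ha v hv => by
          conv_lhs => rw [← ha v hv]
          rw [D.inv_app] }
    refine D.gen C ⟨fun n hn g v hv => by rw [D.mul_app, D.mul_app, hn _ (hi _ _ hv), D.app_inv]⟩
      (fun v hv => ?_) r v hv
    obtain ⟨x, a1, a2, a3, hx, hx', e0, e1, e2, e3⟩ := F.dec v
    have k : ∀ a : k3, a • e ∈ N → a = 0 := fun a ha => by
      by_contra h0; exact hm ((N.smul_mem_iff h0).mp ha)
    have m1 := hi q v hv
    have m2 := hi (D.cj q) v hv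
    have m3 := hi (D.cj (D.cj q)) v hv
    have z1 := k a1 (e1 ▸ sub_mem (sub_mem (add_mem hv m1) m2) m3)
    have z2 := k a2 (by
      have := hi D.b _ (hi D.b _ (e2 ▸ sub_mem (add_mem (sub_mem hv m1) m2) m3))
      rwa [map_smul, map_smul, D.b3_app] at this)
    have z3 := k a3 (by
      have := hi D.b _ (e3 ▸ add_mem (sub_mem (sub_mem hv m1) m2) m3)
      rwa [map_smul, D.b3_app] at this)
    rw [e0, z1, z2, z3]
    simpa using F.fix x hx hx'

theorem rank_two {β : E →ₗ[k3] E} (h3 : ∀ v, β (β (β v)) = v) {E₀ E₁ : Submodule k3 E} (h : E₀ ⊔ E₁ = ⊤)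
    (h1 : ∀ v ∈ E₁, β v = v) (h0 : ∀ v ∈ E₀, β v ∈ E₀) (hc : Nat.card E₀ = 27) (u1 u2 u3 : E) :
    ∃ a1 a2 a3 : k3, ¬ (a1 = 0 ∧ a2 = 0 ∧ a3 = 0) ∧
      β (a1 • u1 + a2 • u2 + a3 • u3) = a1 • u1 + a2 • u2 + a3 • u3 := by
  by_contra hn
  push Not at hn
  have : Finite E₀ := Nat.finite_of_card_ne_zero (by omega)
  have k : ∀ v, ∃ x ∈ E₀, β v - v = β x - x := fun v => by
    obtain ⟨x, hx, y, hy, rfl⟩ := Submodule.mem_sup.mp (h.ge (Submodule.mem_top (x := v)))
    exact ⟨x, hx, by rw [map_add, h1 y hy]; abel⟩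
  let φ : k3 × k3 × k3 → E₀ := fun a => ⟨β (a.1 • u1 + a.2.1 • u2 + a.2.2 • u3) -
    (a.1 • u1 + a.2.1 • u2 + a.2.2 • u3), by
      obtain ⟨x, hx, e⟩ := k (a.1 • u1 + a.2.1 • u2 + a.2.2 • u3)
      rw [e]; exact sub_mem (h0 x hx) hx⟩
  have hi : Function.Injective φ := fun a a' e => by
    by_contra hne
    refine hn (a.1 - a'.1) (a.2.1 - a'.2.1) (a.2.2 - a'.2.2) (fun e1 e2 e3 => hne ?_) ?_
    · exact Prod.ext (sub_eq_zero.mp e1) (Prod.ext (sub_eq_zero.mp e2) (sub_eq_zero.mp e3))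
    · have := congrArg Subtype.val e
      simp only [φ, map_add, map_smul] at this ⊢
      linear_combination (norm := module) this
  have hs := ((Nat.bijective_iff_injective_and_card φ).mpr ⟨hi, by rw [hc]; simp⟩).2
  have k2 : ∀ x ∈ E₀, ∃ y ∈ E₀, x = β y - y := fun x hx => by
    obtain ⟨a, ha⟩ := hs ⟨x, hx⟩
    obtain ⟨y, hy, e⟩ := k (a.1 • u1 + a.2.1 • u2 + a.2.2 • u3)
    exact ⟨y, hy, (congrArg Subtype.val ha).symm.trans e⟩
  have : Subsingleton E₀ := subsingleton_of_forall_eq 0 fun ⟨x, hx⟩ => Subtype.ext (by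
    obtain ⟨y, hy, rfl⟩ := k2 x hx
    obtain ⟨y', hy', rfl⟩ := k2 y hy
    obtain ⟨y'', -, rfl⟩ := k2 y' hy'
    have := three_smul (β y'' - β (β y''))
    simp only [map_sub, h3, ZeroMemClass.coe_zero]
    linear_combination (norm := module) this)
  have := Nat.card_unique (α := E₀)
  omega

theorem comm_mem_core {S : Type*} [Group S] [Finite S] [Group.IsSolvable S] (P : Sylow 3 S) {b y : S}
    (hb : ∀ g ∈ (P : Subgroup S), g * b = b * g) (h : ⁅y, b⁆ ^ 2 = 1) : ⁅y, b⁆ ∈ pPrimeCore 3 S := by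
  let π := QuotientGroup.mk' (pPrimeCore 3 S)
  have h1 : π b ∈ pCore 3 (S ⧸ pPrimeCore 3 S) :=
    CL.Loc.isPConstrained_iff.mp (CL.Loc.isPConstrained_of_isSolvable inferInstance) fun x hx => by
      obtain ⟨g, hg, rfl⟩ := CL.Grp.pCore_le_sylow (P.mapSurjective (QuotientGroup.mk'_surjective _)) hx
      rw [← map_mul, ← map_mul, hb g hg]
  have h2 : π ⁅y, b⁆ ∈ pCore 3 (S ⧸ pPrimeCore 3 S) := by
    rw [map_commutatorElement]
    exact Subgroup.commutator_le_right ⊤ _ (Subgroup.commutator_mem_commutator trivial h1)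
  obtain ⟨k, hk⟩ := CL.Grp.pCore_isPGroup 3 _ ⟨_, h2⟩
  have h3 := mem_of_pow_mem (H := ⊥) (n := 2) (by rw [← map_pow, h, map_one]; exact one_mem _)
    (congrArg Subtype.val hk) (Nat.Coprime.pow_right k (by norm_num))
  exact (QuotientGroup.eq_one_iff _).mp h3

end CL.Tho3
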