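/-
The `2`-length of a solvable group is at most `e` when its Sylow `2`-subgroups have exponent `2 ^ e`.
-/
import Cfsg.Agent.Fgs.TowerG

set_option autoImplicit false

open Module Polynomial Subgroup Cfsg CL.Odd CL.Grp
open scoped commutatorElement Pointwise

namespace CL.Fgs.HH

universe u

variable {F : Type*} [Field F] {V : Type*} [AddCommGroup V] [Module F V] {G : Type u} [Group G]
  {ρ : G →* End F V} {A B D K L M P S W Y Z : Subgroup G} {μ : G → F} {q j m n : ℕ} {g u w x : G}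

theorem mul_pow_mul_inv_mem (hx : x ∈ N[M]) (hw : w ∈ M) (n : ℕ) : (w * x) ^ n * (x ^ n)⁻¹ ∈ M := by
  induction n with
  | zero => simp
  | succ n ih =>
    rw [show (w * x) ^ (n + 1) * (x ^ (n + 1))⁻¹ = w * (x * ((w * x) ^ n * (x ^ n)⁻¹) * x⁻¹) by
      rw [pow_succ', pow_succ]; group]
    exact mul_mem hw (conj_mem_of_norm hx ih)

theorem pow_two_pow_eq (hj : 1 ≤ j) (g : G) : g ^ 2 ^ j = (g ^ 2) ^ 2 ^ (j - 1) := by
  rw [← pow_mul, ← pow_succ', Nat.sub_add_cancel hj]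

theorem sym_calc {ι : G} (hj : 1 ≤ j) (hu : u ∈ K) (hw : w ∈ K) (h1 : ι ≠ 1) (h2 : ι ^ 2 = 1) (hι : u ^ 2 ^ j = ι)
    (sym : ∀ g ∈ K, g ^ 2 = 1 → g = 1 ∨ g = ι) (hw2 : (w ^ 2) ^ 2 = 1) (hs2 : (⁅w, u⁆ ^ 2) ^ 2 = 1)
    (ha : ((w * u) ^ 2 ^ j) ^ 2 = 1) :
    ⁅w, u⁆ = 1 ∨ (w * u) ^ 2 ^ j = ι ∨ ((w * u) ^ 2 ^ j = 1 ∧ 2 ≤ j ∧ ⁅w, u⁆ ^ 2 = ι) := by
  have hc : ∀ g ∈ K, g * ι = ι * g := fun g hg => mul_inv_eq_iff_eq_mul.1 ((sym _ (mul_mem (mul_mem hg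
    (hι ▸ pow_mem hu _)) (inv_mem hg)) (by rw [conj_pow, h2, mul_one, mul_inv_cancel])).resolve_left
      (mt conj_eq_one_iff'.1 h1))
  have hs := Odd.der_le K (commutator_mem_commutator hw hu)
  have hcm : ∀ g ∈ K, g ^ 2 = 1 → g * u = u * g := fun g hg e => (sym g hg e).elim (fun e => by simp [e])
    fun e => e ▸ (hc u hu).symm
  refine or_iff_not_imp_left.2 fun hs1 => (sym _ (pow_mem (mul_mem hw hu) _) ha).symm.imp_right fun e => ⟨e, ?_, ?_⟩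
  · by_contra hj2
    obtain rfl : j = 1 := by omega
    exact hs1 (commutatorElement_eq_one_iff_mul_comm.2 (mul_right_cancel (b := u)
      ((hcm _ (mul_mem hw hu) e).trans (mul_assoc _ _ _).symm)))
  refine (sym _ (pow_mem hs 2) hs2).resolve_left fun e1 => h1 ?_
  have e2 := (sym _ hs e1).resolve_left hs1
  have e3 := (sym _ (pow_mem hw 2) hw2).resolve_left
    fun e3 => hs1 (commutatorElement_eq_one_iff_mul_comm.2 (hcm w hw e3))
  have e4 : (w * u) ^ 2 = u ^ 2 := by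
    have e5 : w * u = ι * (u * w) := by rw [← e2, commutatorElement_def]; group
    have e6 : u * w = ι * (w * u) := by rw [e5, ← mul_assoc ι, ← sq, h2, one_mul]
    calc (w * u) ^ 2 = w * (u * w) * u := by rw [sq]; group
      _ = (w * ι) * w * u ^ 2 := by rw [e6, sq]; group
      _ = u ^ 2 := by rw [hc w hw, mul_assoc ι, ← sq, e3, ← sq, h2, one_mul]
  rw [← hι, pow_two_pow_eq hj, ← e4, ← pow_two_pow_eq hj, e]

theorem inv_of_fpf (hab : IsMulCommutative L) (hg : g ∈ N[L]) (h2 : g ^ 2 ∈ C[L]) (hf : L ⊓ C1[g] = ⊥) {t : G}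
    (ht : t ∈ L) : g * t * g⁻¹ = t⁻¹ := by
  have h1 := conj_mem_of_norm hg ht
  refine eq_inv_of_mul_eq_one_right (mem_bot.1 (hf.le ⟨mul_mem ht h1, mem_c1.2 ?_⟩))
  calc t * (g * t * g⁻¹) * g = (g * t * g⁻¹) * t * g := by rw [abelian_iff_comm.1 hab _ ht _ h1]
    _ = g * t * g⁻¹ * (t * g ^ 2) * g⁻¹ := by rw [sq]; group
    _ = g * (t * (g * t * g⁻¹)) := by rw [mem_cent.1 h2 t ht, sq]; group

namespace Small

variable [Finite G] (h : Small 2 j W u) (hq : q.Prime) (hq2 : 2 ≠ q) (hW : IsPGroup q W) (hab : IsMulCommutative W)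
include h hq hq2 hW hab

theorem sym {i : ℕ} (hi : g ^ 2 ^ i = 1) (hg : g ∈ N[⁅W, zpowers (u ^ 2 ^ j)⁆])
    (h2 : g ^ 2 ∈ C[⁅W, zpowers (u ^ 2 ^ j)⁆]) (H : ∀ t ∈ ⁅W, zpowers (u ^ 2 ^ j)⁆ ⊓ C1[g], t ≠ 1 →
      ∃ K < ⁅W, zpowers (u ^ 2 ^ j)⁆, t ∈ K ∧ ⁅⁅W, zpowers (u ^ 2 ^ j)⁆, zpowers g⁆ ≤ K) :
    g ∈ C[⁅W, zpowers (u ^ 2 ^ j)⁆] ∨ g * u ^ 2 ^ j ∈ C[⁅W, zpowers (u ^ 2 ^ j)⁆] := by
  have hL := abelian_of_le hab h.le
  by_cases hf : ⁅W, zpowers (u ^ 2 ^ j)⁆ ⊓ C1[g] = ⊥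
  · refine Or.inr (mem_cent.2 fun t ht => (mul_inv_eq_iff_eq_mul.1 ?_).symm)
    have e := inv_of_fpf hL (right_le_norm_comm _ _ (mem_zpowers _)) (by
      rw [show (u ^ 2 ^ j) ^ 2 = 1 from h.pow']; exact one_mem _) (h.fpf Nat.prime_two hq hq2 hW hab) ht
    rw [show g * u ^ 2 ^ j * t * (g * u ^ 2 ^ j)⁻¹ = g * (u ^ 2 ^ j * t * (u ^ 2 ^ j)⁻¹) * g⁻¹ by group, e,
      inv_of_fpf hL hg h2 hf (inv_mem ht), inv_inv]
  obtain ⟨t, ht, h1⟩ := ne_bot_iff.1 hf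
  obtain ⟨K, hK, htK, hle⟩ := H t ht h1
  obtain ⟨c, hc⟩ := exists_pow_of_sq_eq (A := ⊥) hq (hW.to_le h.le) (by rw [relIndex_bot_left, h.card])
  have e := h.card
  rw [mersenne_pow h.two_lt hc] at e
  obtain ⟨k, hk, ek⟩ := (Nat.dvd_prime_pow hq).1 (e ▸ card_dvd_of_le hK.le)
  have a1 : k ≠ 0 := by rintro rfl; exact h1 (mem_bot.1 ((card_eq_one.1 ek).le htK))
  have a2 : k ≠ 2 := by rintro rfl; exact (card_lt_card_of_lt hK).ne (ek.trans e.symm)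
  obtain rfl : k = 1 := by omega
  have a3 := (eq_bot_or_eq_of_prime_card (by rwa [ek, pow_one]) (zpowers_le.2 htK)).resolve_left (by simpa using h1)
  exact Or.inl (zpowers_le.1 (coprime_cent_of_cent_comm (zpowers_le.2 hg) (coprime_zpowers hi
    (coprime_card_of_ne Nat.prime_two hq hq2 (hW.to_le h.le))) (hle.trans (a3.ge.trans
      (by rw [centralizer_zpowers]; exact zpowers_le.2 ht.2)))))

/-- The local analysis of a product `w * u` with `u` exceptional. -/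
theorem loc (hD : IsPGroup 2 D) (hDW : D ≤ N[W]) (hu : u ∈ D) (hw : w ∈ D) (hZ2 : ∀ z ∈ Z, z ^ 2 = 1)
    (hZb : Z ≤ C1[u ^ 2 ^ j]) (hw2 : w ^ 2 ∈ Z) (hs2 : ⁅w, u⁆ ^ 2 ∈ Z) (hwb : ⁅w, u ^ 2 ^ j⁆ ∈ Z)
    (hexp : (w * u) ^ 2 ^ (j + 1) = 1) (ha : (w * u) ^ 2 ^ j ∉ C[W] → Small 2 j W (w * u))
    (sym : ∀ g ∈ D, g ∈ N[⁅W, zpowers (u ^ 2 ^ j)⁆] → g ^ 2 ∈ C[⁅W, zpowers (u ^ 2 ^ j)⁆] →
      g ∈ C[⁅W, zpowers (u ^ 2 ^ j)⁆] ∨ g * u ^ 2 ^ j ∈ C[⁅W, zpowers (u ^ 2 ^ j)⁆]) :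
    ∃ z ∈ Z, (w * u) ^ 2 ^ j * (u ^ 2 ^ j)⁻¹ * z ∈ C[W] := by
  have := Fact.mk hq
  have hj : 1 ≤ j := Nat.pos_of_ne_zero (by rintro rfl; exact absurd h.two_lt (by decide))
  have hb2 : (u ^ 2 ^ j) ^ 2 = 1 := h.pow'
  have hcop : ∀ g ∈ D, ∀ U ≤ W, (Nat.card (zpowers g)).Coprime (Nat.card U) := fun g hg U hU =>
    IsPGroup.coprime_card_of_ne 2 q hq2 _ _ (hD.to_le (zpowers_le.2 hg)) (hW.to_le hU)
  have hfpf := h.fpf Nat.prime_two hq hq2 hW hab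
  have hWe := coprime_cent_prod h.norm' (hcop _ (pow_mem hu _) W le_rfl) (Or.inl inferInstance)
  have hLL := coprime_commGid h.norm' (hcop _ (pow_mem hu _) W le_rfl)
  have hcard := h.card
  have hne := h.ne_bot
  have hLW := h.le
  have huC : u ∈ C[W ⊓ C[zpowers (u ^ 2 ^ j)]] := zpowers_le.1 (comm_eq_bot_iff'.1 (eq_bot_iff.2 (hfpf ▸ le_inf
    ((commutator_mono inf_le_left le_rfl).trans h.comm_le) ((comm_le_left (le_norm_inf (zpowers_le.2 h.norm)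
      (zpowers_le.2 (norm_le_norm_cent _ (mem_norm_zpowers_pow u _))))).trans
        (inf_le_right.trans (centralizer_zpowers _).le)))))
  have hCL : ∀ g ∈ D, g ∈ C1[u ^ 2 ^ j] → g ∈ N[⁅W, zpowers (u ^ 2 ^ j)⁆] := fun g hg e =>
    mem_norm_comm' (hDW hg) (mem_norm_zpowers (mem_c1.1 e))
  have hcj : ∀ g ∈ D, cj g • ⁅W, zpowers (u ^ 2 ^ j)⁆ = ⁅W, zpowers (g * u ^ 2 ^ j * g⁻¹)⁆ := fun g hg => by
    rw [cj_commutator, cj_eq_self (hDW hg), cj_zpowers]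
  have hbD := pow_mem hu (2 ^ j)
  have hbL := hCL _ hbD (mem_c1_self _)
  have huL := hCL _ hu (mem_c1.2 ((Commute.refl u).pow_right _))
  have hbs : u ^ 2 ^ j ∈ Loc.commStab W ⁅W, zpowers (u ^ 2 ^ j)⁆ :=
    zpowers_le.1 (Loc.le_commStab.2 ⟨zpowers_le.2 hbL, (commutator_comm _ _).le⟩)
  generalize ⁅W, zpowers (u ^ 2 ^ j)⁆ = L at *
  have hinv : ∀ g, g * u ^ 2 ^ j ∈ C[L] → L ≤ ⁅W, zpowers g⁆ := fun g e => by
    have hg : g ∈ N[L] := by simpa using mul_mem (cent_le_norm _ e) (inv_mem hbL)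
    rw [← hLL]
    refine (commutator_mono le_rfl (K₂ := zpowers g ⊔ zpowers (g * u ^ 2 ^ j)) (zpowers_le.2 ?_)).trans ?_
    · have e' := mul_mem (mem_sup_left (inv_mem (mem_zpowers g))) (mem_sup_right (mem_zpowers (g * u ^ 2 ^ j)))
      rwa [inv_mul_cancel_left] at e'
    rw [comm_sup_cent_right (zpowers_le.2 e) ((zpowers_le.2 (cent_anti (comm_le_left (zpowers_le.2 hg)) e)).trans
      (cent_le_norm _))]
    exact commutator_mono hLW le_rfl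
  have hst : ∀ g ∈ D, g ∈ Loc.commStab W L → g ∈ C[L] → g ∈ C[W] := fun g hg e1 e2 =>
    zpowers_le.1 (stable_factor_cent (zpowers_le.2 (hDW hg)) (hcop g hg W le_rfl)
      ((commutator_comm _ _).le.trans (Loc.le_commStab.1 (zpowers_le.2 e1)).2) (cent_symm (zpowers_le.2 e2)))
  have hWC : ∀ g ∈ C[L], g ∈ C[W ⊓ C[zpowers (u ^ 2 ^ j)]] → g ∈ C[W] := fun g e1 e2 => by
    rw [← hWe, cent_sup]; exact ⟨e1, e2⟩
  have nn := norm_le_norm_cent L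
  have hι1 : coset C[L] u ^ 2 ^ j ≠ 1 := by
    rw [← coset_pow (nn huL), Ne, coset_eq_one_iff (nn hbL)]
    exact fun e => hne (eq_bot_iff.2 (hfpf ▸ le_inf le_rfl (le_c1_iff.2 e)))
  have hι2 : (coset C[L] u ^ 2 ^ j) ^ 2 = 1 := by rw [← coset_pow (nn huL), ← coset_pow (nn hbL), hb2, coset_one]
  have hι : ∀ g ∈ N[L], coset C[L] g = coset C[L] u ^ 2 ^ j ↔ g * u ^ 2 ^ j ∈ C[L] := fun g hg => by
    rw [← coset_eq_one_iff (nn (mul_mem hg hbL)), coset_mul (nn hg) (nn hbL), coset_pow (nn huL),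
      mul_eq_one_iff_eq_inv, inv_eq_of_mul_eq_one_right ((sq _).symm.trans hι2)]
  have sym' : ∀ g ∈ Odd.quo C[L] (D ⊓ N[L]), g ^ 2 = 1 → g = 1 ∨ g = coset C[L] u ^ 2 ^ j := fun g hg e => by
    obtain ⟨g, hg', rfl⟩ := (mem_quo_of_le (inf_le_right.trans nn)).1 hg
    rw [← coset_pow (nn hg'.2), coset_eq_one_iff (nn (pow_mem hg'.2 2))] at e
    exact (sym g hg'.1 hg'.2 e).imp coset_eq_one (hι g hg'.2).2
  have hw2L := hCL _ (pow_mem hw 2) (hZb hw2)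
  have hz0 : w * u ^ 2 ^ j * w⁻¹ = ⁅w, u ^ 2 ^ j⁆ * u ^ 2 ^ j := by rw [commutatorElement_def]; group
  by_cases hwL : w ∉ N[L]
  · exfalso
    have hD' : w⁻¹ * u ^ 2 ^ j * w⁻¹⁻¹ ∈ D := mul_mem (mul_mem (inv_mem hw) hbD) (inv_mem (inv_mem hw))
    have e1 := (sym _ hD' (hCL _ hD' (by
      rw [show w⁻¹ * u ^ 2 ^ j * w⁻¹⁻¹ = (w ^ 2)⁻¹ * (w * u ^ 2 ^ j * w⁻¹) * w ^ 2 by rw [sq w]; group, hz0]
      exact mul_mem (mul_mem (inv_mem (hZb hw2)) (mul_mem (hZb hwb) (mem_c1_self _))) (hZb hw2)))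
      (by rw [conj_pow, hb2, mul_one, mul_inv_cancel]; exact one_mem _)).resolve_right fun e =>
        hwL (by simpa using inv_mem (mem_norm_of_le_cj ((hinv _ e).trans (hcj _ (inv_mem hw)).ge)))
    have e2 : w⁻¹ * u * w ∈ C[L] := mem_cj.1 (by
      rw [cj_centralizer]
      refine cent_anti (le_inf (cj_le_of_mem_norm hLW (hDW hw)) (cent_symm (zpowers_le.2 ?_))) huC
      rw [← cj_centralizer, mem_cj]
      simpa using e1)
    have e3 : (coset C[L] (w ^ 2) * coset C[L] u) ^ 2 ^ j = 1 := by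
      have hm := mul_mem (nn hw2L) (le_normalizer e2)
      have e4 := coset_pow (mul_mem hm (nn huL)) (2 ^ j)
      rw [coset_mul hm (nn huL), coset_mul (nn hw2L) (le_normalizer e2), coset_eq_one e2, mul_one,
        show w ^ 2 * (w⁻¹ * u * w) * u = (w * u) ^ 2 by rw [sq, sq]; group, ← pow_mul, ← pow_succ', hexp,
        coset_one] at e4
      exact e4.symm
    rcases sym' _ (coset_mem_quo (mem_inf.2 ⟨pow_mem hw 2, hw2L⟩))
      (by rw [← coset_pow (nn hw2L), hZ2 _ hw2, coset_one]) with e | e <;> rw [e] at e3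
    · exact hι1 (by rwa [one_mul] at e3)
    · rw [((Commute.refl _).pow_left _).mul_pow, pow_two_pow_eq hj (_ ^ 2 ^ j), hι2, one_pow, one_mul] at e3
      exact hι1 e3
  rw [not_not] at hwL
  have hsD := Odd.der_le D (commutator_mem_commutator hw hu)
  have hz0D := Odd.der_le D (commutator_mem_commutator hw hbD)
  have hz0L := hCL _ hz0D (hZb hwb)
  have e1 : ⁅w, u ^ 2 ^ j⁆ ∈ C[W] := hst _ hz0D (by
      rw [commutatorElement_def]
      exact mul_mem (Loc.conj_mem_commStab (hDW hw) hwL hbs) (inv_mem hbs)) (by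
    have hm := mul_mem (mul_mem hwL hbL) (inv_mem hwL)
    rw [← coset_eq_one_iff (nn hz0L), commutatorElement_def, coset_mul (nn hm) (nn (inv_mem hbL)), coset_inv (nn hbL),
      coset_pow (nn huL), mul_inv_eq_one]
    refine (sym' _ (coset_mem_quo (mem_inf.2 ⟨mul_mem (mul_mem hw hbD) (inv_mem hw), hm⟩))
      (by rw [← coset_pow (nn hm), conj_pow, hb2, mul_one, mul_inv_cancel, coset_one])).resolve_left fun e => hι1 ?_
    rwa [coset_conj (nn hwL) (nn hbL), conj_eq_one_iff', coset_pow (nn huL)] at e)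
  have hwC : w ∈ N[C[W ⊓ C[zpowers (u ^ 2 ^ j)]]] := norm_le_norm_cent _ (mem_norm_of_le_cj (by
    rw [cj_inf, cj_eq_self (hDW hw), cj_centralizer, cj_zpowers, hz0]
    exact le_inf inf_le_left (cent_symm (zpowers_le.2 (mul_mem (cent_anti inf_le_left e1)
      (zpowers_le.1 (cent_symm inf_le_right)))))))
  have hsC : ⁅w, u⁆ ∈ C[W ⊓ C[zpowers (u ^ 2 ^ j)]] := comm_le_right (zpowers_le.2 hwC)
    (commutator_mem_commutator (mem_zpowers w) huC)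
  have hsL := Odd.der_le _ (commutator_mem_commutator hwL huL)
  have hwu := mul_mem hwL huL
  have nW := hDW.trans (norm_le_norm_cent W)
  rcases sym_calc hj (coset_mem_quo (mem_inf.2 ⟨hu, huL⟩)) (coset_mem_quo (mem_inf.2 ⟨hw, hwL⟩)) hι1 hι2 rfl sym'
    (by rw [← coset_pow (nn hwL), ← coset_pow (nn hw2L), hZ2 _ hw2, coset_one])
    (by rw [← coset_comm (nn hwL) (nn huL), ← coset_pow (nn hsL), ← coset_pow (nn (pow_mem hsL 2)), hZ2 _ hs2, coset_one])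
    (by rw [← coset_mul (nn hwL) (nn huL), ← pow_mul, ← coset_pow (nn hwu), ← pow_succ, hexp, coset_one])
    with e | e | ⟨e, hj2, e'⟩
  · rw [← coset_comm (nn hwL) (nn huL), coset_eq_one_iff (nn hsL)] at e
    have e2 := coset_eq_one (hWC _ e hsC)
    rw [coset_comm (nW hw) (nW hu), commutatorElement_eq_one_iff_commute] at e2
    have hm := pow_mem (mul_mem hw hu) (2 ^ j)
    refine ⟨(w ^ 2 ^ j)⁻¹, inv_mem (pow_two_pow_eq hj w ▸ pow_mem hw2 _), (coset_eq_one_iff (nW (mul_mem (mul_mem hm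
      (inv_mem hbD)) (inv_mem (pow_mem hw _))))).1 ?_⟩
    rw [coset_mul (nW (mul_mem hm (inv_mem hbD))) (nW (inv_mem (pow_mem hw _))), coset_mul (nW hm) (nW (inv_mem hbD)),
      coset_inv (nW hbD), coset_inv (nW (pow_mem hw _)), coset_pow (nW (mul_mem hw hu)), coset_mul (nW hw) (nW hu),
      e2.mul_pow, coset_pow (nW hu), coset_pow (nW hw), mul_inv_cancel_right, mul_inv_cancel]
  · rw [← coset_mul (nn hwL) (nn huL), ← coset_pow (nn hwu), hι _ (pow_mem hwu _)] at e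
    have e2 := eq_of_le_of_card_ge (hinv _ e) (by
      rw [hcard, (ha fun e2 => hne (eq_bot_iff.2 ((hinv _ e).trans (comm_eq_bot_iff'.2 (zpowers_le.2 e2)).le))).card])
    rw [← inv_eq_of_mul_eq_one_right ((sq _).symm.trans hb2)] at e
    refine ⟨1, one_mem _, ?_⟩
    rw [mul_one]
    exact hst _ (mul_mem (pow_mem (mul_mem hw hu) _) (inv_mem hbD)) (mul_mem (zpowers_le.1 (Loc.le_commStab.2
      ⟨zpowers_le.2 (pow_mem hwu _), (commutator_comm _ _).le.trans e2.ge⟩)) (inv_mem hbs)) e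
  · rw [← coset_mul (nn hwL) (nn huL), ← coset_pow (nn hwu), coset_eq_one_iff (nn (pow_mem hwu _))] at e
    rw [← coset_comm (nn hwL) (nn huL), ← coset_pow (nn hsL), hι _ (pow_mem hsL _)] at e'
    refine ⟨_, hs2, hWC _ ?_ (mul_mem (mul_mem ?_ (inv_mem (pow_mem huC _))) (pow_mem hsC _))⟩
    · rw [mul_assoc, inv_eq_of_mul_eq_one_right ((sq _).symm.trans hb2), ← mem_c1.1 (hZb hs2)]
      exact mul_mem e e'
    · have e2 := mul_pow_mul_inv_mem hwC (conj_mem_of_norm hwC huC) (2 ^ j)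
      rwa [inv_mul_cancel_right, pow_two_pow_eq hj w, pow_two_pow_eq (Nat.le_sub_one_of_lt hj2), hZ2 _ hw2, one_pow,
        inv_one, mul_one] at e2

end Small

theorem coset_mem_cent_iff (hg : g ∈ N[A]) (hP : P ≤ N[A]) : coset A g ∈ C[quo A P] ↔ g ∈ Loc.commStab P A := by
  rw [← zpowers_le, ← quo_zpowers hg, quo_le_cent_iff (zpowers_le.2 hg) hP, ← zpowers_le, Loc.le_commStab,
    and_iff_right (zpowers_le.2 hg)]

theorem sq_eq_one_of_special (hsq : ∀ s ∈ Y, s ^ 2 ∈ ⁅Y, Y⁆) (hc : ⁅Y, Y⁆ ≤ C[Y]) : ∀ z ∈ ⁅Y, Y⁆, z ^ 2 = 1 :=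
  fun z hz => by
  induction hz using closure_induction with
  | mem x hx =>
    obtain ⟨a, ha, b, hb, rfl⟩ := hx
    have e := commutatorElement_eq_one_iff_mul_comm.2 (mem_cent.1 (hc (hsq a ha)) b hb).symm
    rwa [sq, commutatorElement_mul_left_eq_conj_mul, mem_cent.1 (hc (commutator_mem_commutator ha hb)) a ha,
      mul_inv_cancel_right, ← sq] at e
  | one => exact one_pow 2
  | mul a b ha hb h1 h2 => rw [Commute.mul_pow (mem_cent.1 (hc hb) a (Odd.der_le Y ha)), h1, h2, one_mul]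
  | inv a _ h => rw [inv_pow, h, inv_one]

theorem CW.exp_aux [Finite G] (h : CW ρ P A μ) (hq : q.Prime) (hq2 : 2 ≠ q) (pP : IsPGroup q P) (pY : IsPGroup 2 Y)
    (hφ : Odd.frattiniOf Y = ⁅Y, Y⁆) (hc : ⁅Y, Y⁆ ≤ C[Y]) (hYP : Y ≤ N[P]) (hYw : Y ≤ wstab A μ) {v : G}
    (huP : u ∈ N[P]) (huw : u ∈ wstab A μ) (huY : u ∈ N[Y]) (hw : v * u⁻¹ ∈ Y)
    (hs : Small 2 j (quo A P) (coset A u)) (hun : u ^ 2 ^ (j + 1) = 1) (hvn : v ^ 2 ^ (j + 1) = 1)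
    (hv : ¬ ⁅P, zpowers (v ^ 2 ^ j)⁆ ≤ A → Small 2 j (quo A P) (coset A v)) (hb : u ^ 2 ^ j ∈ Y ⊔ C[Y]) :
    ∃ z ∈ ⁅Y, Y⁆, v ^ 2 ^ j * (u ^ 2 ^ j)⁻¹ * z ∈ Loc.commStab P A := by
  have := Fact.mk hq
  obtain ⟨w, rfl⟩ : ∃ w, v = w * u := ⟨v * u⁻¹, by group⟩
  rw [mul_inv_cancel_right] at hw
  have pD : IsPGroup 2 (Y ⊔ zpowers u : Subgroup G) :=
    pY.to_sup_of_normal_left' (isPGroup_zpowers_of_pow hun) (zpowers_le.2 huY)
  have hDP : Y ⊔ zpowers u ≤ N[P] := sup_le hYP (zpowers_le.2 huP)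
  have hDw : Y ⊔ zpowers u ≤ wstab A μ := sup_le hYw (zpowers_le.2 huw)
  have hDA : Y ⊔ zpowers u ≤ N[A] := fun a ha => (hDw ha).1
  have hYA := le_sup_left.trans hDA
  have hPn : P ≤ N[A] := fun a ha => (h.le_wstab ha).1
  have hwA := hYA hw
  have hsq : ∀ s ∈ Y, s ^ 2 ∈ ⁅Y, Y⁆ := fun s hs => hφ ▸ pow_mem_Phi Nat.prime_two pY hs
  have hbP : zpowers (u ^ 2 ^ j) ≤ N[P] := zpowers_le.2 (pow_mem huP _)
  have hle : ⁅P, zpowers (u ^ 2 ^ j)⁆ ⊔ A ≤ P := sup_le (comm_le_left hbP) h.le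
  have hAL : A ⊴ ⁅P, zpowers (u ^ 2 ^ j)⁆ ⊔ A := ⟨le_sup_right, hle.trans hPn⟩
  have e : ⁅quo A P, zpowers (coset A u ^ 2 ^ j)⁆ = quo A (⁅P, zpowers (u ^ 2 ^ j)⁆ ⊔ A) := by
    rw [quo_sup_right ((comm_le_left hbP).trans hPn), quo_comm hPn (zpowers_le.2 (pow_mem huw.1 _)),
      quo_zpowers (pow_mem huw.1 _), coset_pow huw.1]
  have hab := (abelian_quo_iff hPn).2 h.der_le
  have hl : ∀ g ∈ wstab A μ, ∀ t ∈ zpowers g, ∀ z ∈ ⁅P, P⁆, μ (t⁻¹ * z * t) = μ z := fun g hg t ht z hz =>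
    (mem_wstab.1 (zpowers_le.2 hg ht)).2 z (h.der_le hz)
  have hZ : ⁅Y, Y⁆ ≤ C[Y ⊔ C[Y]] := le_cent_sup hc ((Odd.der_le Y).trans (le_cent_cent Y))
  obtain ⟨z, hz, hz'⟩ := hs.loc hq hq2 (isPGroup_quo pP A) hab (isPGroup_quo pD A) (quo_le_norm A hDP)
    (coset_mem_quo (mem_sup_right (mem_zpowers u))) (coset_mem_quo (mem_sup_left hw)) (Z := quo A ⁅Y, Y⁆)
    (fun z hz => by
      obtain ⟨z, hz', rfl⟩ := (mem_quo_of_le ((Odd.der_le Y).trans hYA)).1 hz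
      rw [← coset_pow (hYA (Odd.der_le Y hz')), sq_eq_one_of_special hsq hc z hz', coset_one])
    (by rw [← coset_pow huw.1, le_c1_iff]; exact coset_mem_cent (pow_mem huw.1 _) (cent_symm hZ hb))
    (by rw [← coset_pow hwA]; exact coset_mem_quo (hsq w hw))
    (by
      have e1 := comm_le_left (zpowers_le.2 huY) (commutator_mem_commutator hw (mem_zpowers u))
      rw [← coset_comm hwA huw.1, ← coset_pow (hYA e1)]; exact coset_mem_quo (hsq _ e1))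
    (by
      rw [← coset_pow huw.1, ← coset_comm hwA (pow_mem huw.1 _)]
      exact coset_mem_quo ((comm_sup_cent_right le_rfl ((cent_anti (Odd.der_le Y)).trans (cent_le_norm _))).le
        (commutator_mem_commutator hw hb)))
    (by rw [← coset_mul hwA huw.1, ← coset_pow (mul_mem hwA huw.1), hvn, coset_one])
    (by
      rw [← coset_mul hwA huw.1, ← coset_pow (mul_mem hwA huw.1), coset_mem_cent_iff (pow_mem (mul_mem hwA huw.1) _) hPn]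
      exact fun e1 => hv fun e2 => e1 (zpowers_le.1 (Loc.le_commStab.2
        ⟨zpowers_le.2 (pow_mem (mul_mem hwA huw.1) _), (commutator_comm _ _).le.trans e2⟩)))
    fun g hg h1 h2 => by
      obtain ⟨g, hg', rfl⟩ := (mem_quo_of_le hDA).1 hg
      obtain ⟨i, hi⟩ := pD ⟨g, hg'⟩
      replace hi : g ^ 2 ^ i = 1 := congrArg Subtype.val hi
      have hgA := hDA hg'
      refine hs.sym hq hq2 (isPGroup_quo pP A) hab (i := i) (by rw [← coset_pow hgA, hi, coset_one]) h1 h2 ?_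
      rw [e] at h1 ⊢
      have hgL := le_norm_of_quo (zpowers_le.2 hgA) hAL (by rw [quo_zpowers hgA]; exact zpowers_le.2 h1)
      rw [← centralizer_zpowers, ← quo_zpowers hgA, coprime_quotient_cent hgL hAL (zpowers_le.2 hgA)
        (coprime_zpowers hi (coprime_card_of_ne Nat.prime_two hq hq2 (pP.to_le hle))) (Or.inl inferInstance)]
      intro t ht h3
      obtain ⟨t, ht', rfl⟩ := (mem_quo_of_le (inf_le_left.trans hAL.norm)).1 ht
      have htP := hle ht'.1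
      obtain ⟨a, ha, ha'⟩ := h.rad_sub hbP (hl _ (pow_mem huw _)) (coprime_zpowers (j := 1)
        (by rw [← pow_mul, ← pow_add, hun]) (coprime_card_of_ne Nat.prime_two hq hq2 pP)) (Or.inl inferInstance) t ht'.1
        (mt coset_eq_one h3)
      refine ⟨quo A ((⁅P, zpowers (u ^ 2 ^ j)⁆ ⊔ A) ⊓ h.perp htP), (quo_lt_quo_iff ⟨le_inf le_sup_right (h.le_perp htP),
        inf_le_left.trans hAL.norm⟩ hAL).2 (inf_lt_left.2 fun e1 => ha' (e1 ha).2), coset_mem_quo ⟨ht'.1, htP, by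
          rw [commutatorElement_self, wt_one h.ne_bot]⟩, ?_⟩
      rw [← quo_comm hAL.norm (zpowers_le.2 hgA)]
      exact quo_mono A (le_inf (comm_le_left hgL) ((commutator_mono hle le_rfl).trans
        (h.comm_le_perp (zpowers_le.2 (hDP hg')) (hl g (hDw hg')) htP ht'.2)))
  obtain ⟨z, hz1, rfl⟩ := (mem_quo_of_le ((Odd.der_le Y).trans hYA)).1 hz
  have a1 := pow_mem (mul_mem hwA huw.1) (2 ^ j)
  have a2 := inv_mem (pow_mem huw.1 (2 ^ j))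
  have a3 := hYA (Odd.der_le Y hz1)
  rw [← coset_mul hwA huw.1, ← coset_pow (mul_mem hwA huw.1), ← coset_pow huw.1, ← coset_inv (pow_mem huw.1 _),
    ← coset_mul a1 a2, ← coset_mul (mul_mem a1 a2) a3, coset_mem_cent_iff (mul_mem (mul_mem a1 a2) a3) hPn] at hz'
  exact ⟨z, hz1, hz'⟩

theorem CW.exp_local [IsAlgClosed F] [FiniteDimensional F V] [Finite G] (h : CW ρ P A μ) (hq : q.Prime) (hq2 : 2 ≠ q)
    (hchar : (q : F) ≠ 0) (pP : IsPGroup q P) (pY : IsPGroup 2 Y) (hφ : Odd.frattiniOf Y = ⁅Y, Y⁆) (hc : ⁅Y, Y⁆ ≤ C[Y])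
    (hYP : Y ≤ N[P]) (hYw : Y ≤ wstab A μ) (hxP : x ∈ N[P]) (hxY : x ∈ N[Y]) (hw : w ∈ Y)
    (hxn : x ^ 2 ^ (m + 1) = 1) (hvn : (w * x) ^ 2 ^ (m + 1) = 1)
    (h0 : ∑ i ∈ Finset.range (2 ^ (m + 1)), ρ (x ^ i) = 0)
    (h1 : ∑ i ∈ Finset.range (2 ^ (m + 1)), ρ ((w * x) ^ i) = 0) (hb : x ^ 2 ^ m ∈ C[Y]) :
    ∃ z ∈ ⁅Y, Y⁆, (w * x) ^ 2 ^ m * (x ^ 2 ^ m)⁻¹ * z ∈ Loc.commStab P A := by
  have hchar' := natCast_card_ne_zero hq pP hchar
  have hcop := coprime_card_of_ne Nat.prime_two hq hq2 pP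
  have hN := pow_pos Nat.prime_two.pos (m + 1)
  have key : ∀ x ∈ N[P], x ^ 2 ^ (m + 1) = 1 → ∑ i ∈ Finset.range (2 ^ (m + 1)), ρ (x ^ i) = 0 → ∃ k j, k + j = m ∧
      (∀ i, x ^ i ∈ wstab A μ ↔ 2 ^ k ∣ i) ∧ (¬ ⁅P, zpowers ((x ^ 2 ^ k) ^ 2 ^ j)⁆ ≤ A →
        Small 2 j (quo A P) (coset A (x ^ 2 ^ k))) := fun x hx hxn h0 => by
    obtain ⟨k, j, e, hst, g, hg, -, hd, hg0⟩ := h.exists_kill hchar' Nat.prime_two hx hxn (geom_sum_ne_zero' hN)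
      ((natDegree_geom_sum_lt hN).trans_lt (by omega)) fun w _ => by
        rw [aeval_geom_sum]
        exact LinearMap.congr_fun (by simpa only [map_pow] using h0) w
    exact ⟨k, j, e, hst, h.small_quo hchar' Nat.prime_two (pow_mem hx _) ((hst _).2 dvd_rfl)
      (by rw [← pow_mul, ← pow_add, ← add_assoc, e, hxn]) hcop hg hd hg0⟩
  have hvP := mul_mem (hYP hw) hxP
  have hvY := mul_mem (le_normalizer hw) hxY
  obtain ⟨k, j, e, hst, hs⟩ := key x hxP hxn h0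
  obtain ⟨k', j', e', hst', hs'⟩ := key _ hvP hvn h1
  have hm := mul_pow_mul_inv_mem hxY hw
  have hiff : ∀ i, 2 ^ k' ∣ i ↔ 2 ^ k ∣ i := fun i => by
    rw [← hst, ← hst', ← mul_mem_cancel_left (hYw (hm i)) (y := x ^ i), inv_mul_cancel_right]
  obtain rfl : k = k' := le_antisymm ((Nat.pow_dvd_pow_iff_le_right one_lt_two).1 ((hiff _).1 dvd_rfl))
    ((Nat.pow_dvd_pow_iff_le_right one_lt_two).1 ((hiff _).2 dvd_rfl))
  obtain rfl : j = j' := by omega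
  have p1 : ∀ g : G, (g ^ 2 ^ k) ^ 2 ^ j = g ^ 2 ^ m := fun g => by rw [← pow_mul, ← pow_add, e]
  have p2 : ∀ g : G, (g ^ 2 ^ k) ^ 2 ^ (j + 1) = g ^ 2 ^ (m + 1) := fun g => by
    rw [← pow_mul, ← pow_add, ← add_assoc, e]
  have w1 := (hst _).2 dvd_rfl
  have w2 := (hst' _).2 dvd_rfl
  by_cases c1 : ¬ ⁅P, zpowers ((x ^ 2 ^ k) ^ 2 ^ j)⁆ ≤ A
  · simpa only [p1] using h.exp_aux hq hq2 pP pY hφ hc hYP hYw (pow_mem hxP _) w1 (pow_mem hxY _) (hm _) (hs c1)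
      ((p2 x).trans hxn) ((p2 _).trans hvn) hs' (by rw [p1]; exact mem_sup_right hb)
  have st : ∀ g ∈ wstab A μ, ⁅P, zpowers g⁆ ≤ A → g ∈ Loc.commStab P A := fun g hg e =>
    zpowers_le.1 (Loc.le_commStab.2 ⟨zpowers_le.2 hg.1, (commutator_comm _ _).le.trans e⟩)
  by_cases c2 : ¬ ⁅P, zpowers (((w * x) ^ 2 ^ k) ^ 2 ^ j)⁆ ≤ A
  · obtain ⟨z, hz, hz'⟩ := h.exp_aux hq hq2 pP pY hφ hc hYP hYw (pow_mem hvP _) w2 (pow_mem hvY _)
      (by simpa using inv_mem (hm (2 ^ k))) (hs' c2) ((p2 _).trans hvn) ((p2 x).trans hxn) hs (by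
        rw [p1, ← inv_mul_cancel_right ((w * x) ^ 2 ^ m) (x ^ 2 ^ m)]
        exact mul_mem (mem_sup_left (hm _)) (mem_sup_right hb))
    refine ⟨z⁻¹, inv_mem hz, ?_⟩
    rw [mem_cent.1 (hc (inv_mem hz)) _ (hm _)]
    simpa only [p1, mul_inv_rev, inv_inv] using inv_mem hz'
  · exact ⟨1, one_mem _, by simpa only [p1, mul_one] using (mul_mem (st _ (pow_mem w2 _) (not_not.1 c2))
      (inv_mem (st _ (pow_mem w1 _) (not_not.1 c1))))⟩

theorem pLengthLE_of_exp_rep [FiniteDimensional F V] [Finite G] (ρ : G →* End F V) (hs : Group.IsSolvable G)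
    (hO : pCore 2 G = ⊥) (hρ : ∀ g, ρ g = 1 → g = 1) (hchar : ∀ q : ℕ, q.Prime → 2 ≠ q → (q : F) ≠ 0) (T : Sylow 2 G)
    (hexp : ∀ x ∈ (T : Subgroup G), x ^ 2 ^ (n + 1 + 1) = 1)
    (h0 : ∀ x ∈ (T : Subgroup G), ∑ i ∈ Finset.range (2 ^ (n + 1 + 1)), ρ (x ^ i) = 0)
    (ih : ∀ (X : Type u) [Group X] [Finite X], Group.IsSolvable X → ∀ S : Sylow 2 X,
      (∀ x ∈ (S : Subgroup X), x ^ 2 ^ (n + 1) = 1) → PLengthLE 2 (n + 1) X) : PLengthLE 2 (n + 1) G := by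
  by_contra hne
  obtain ⟨Y, B, S, h⟩ := exists_su hs hne
  have key : ∀ (x : G) j, x ^ 2 ^ j = 1 → x ^ 2 ^ (n + 1 + 1) = 1 ∧
      ∑ i ∈ Finset.range (2 ^ (n + 1 + 1)), ρ (x ^ i) = 0 ∧ x ^ 2 ^ (n + 1) ∈ pPrimePCore 2 G := fun x j hj => by
    obtain ⟨g, hg⟩ := exists_conj_le_sylow T (isPGroup_zpowers_of_pow hj)
    have h1 := hg (conj_mem_cj.2 (mem_zpowers x))
    obtain ⟨y, rfl⟩ : ∃ y, x = g⁻¹ * y * g⁻¹⁻¹ := ⟨g * x * g⁻¹, by group⟩
    rw [show g * (g⁻¹ * y * g⁻¹⁻¹) * g⁻¹ = y by group] at h1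
    refine ⟨by rw [conj_pow, hexp y h1, mul_one, mul_inv_cancel], ?_, by
      rw [conj_pow]; exact Normal.conj_mem inferInstance _ (pow_mem_pPrimePCore_two ρ hs hO hρ hchar T hexp h0 y h1) _⟩
    simp only [conj_pow, map_mul, ← Finset.sum_mul, ← Finset.mul_sum]
    rw [h0 y h1, mul_zero, zero_mul]
  have h2 : ∀ w ∈ Y, ∀ x ∈ B, ∀ j, x ^ 2 ^ j = 1 → ∃ i, (w * x) ^ 2 ^ i = 1 := fun w hw x hx j hj =>
    ((h.pY.to_sup_of_normal_left' (isPGroup_zpowers_of_pow hj) (zpowers_le.2 (h.nY hx)))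
      ⟨_, mul_mem (mem_sup_left hw) (mem_sup_right (mem_zpowers x))⟩).imp fun _ e => congrArg Subtype.val e
  have hc : ∀ x ∈ B, ∀ j, x ^ 2 ^ j = 1 → x ^ 2 ^ (n + 1) ∈ C[Y] := fun x hx j hj =>
    h.core _ (pow_mem hx _) (key x j hj).2.2 j (by rw [← pow_mul, mul_comm, pow_mul, hj, one_pow])
  obtain ⟨w, hw, x, hx, hc'⟩ : ∃ w ∈ Y, ∃ x ∈ S, (w * x) ^ 2 ^ (n + 1) * (x ^ 2 ^ (n + 1))⁻¹ ∉ ⁅Y, Y⁆ := by
    by_contra hcon
    push Not at hcon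
    refine h.len (ih _ (sol_quo inferInstance _) (sylow_quo Nat.prime_two h.syl h.norm).toSylow fun y hy => ?_)
    have hn := h.syl.le.trans h.norm
    obtain ⟨_, hg, e⟩ := (mem_quo_of_le hn).1 hy
    obtain ⟨w, hw, x, hx, rfl⟩ := (mem_sup_norm (h.le.trans h.nY)).1 hg
    obtain ⟨j, hj⟩ := h.pS ⟨x, hx⟩
    refine Subtype.ext ?_
    replace e : coset _ (w * x) = y.1 := e
    rw [Subgroup.coe_pow, ← e, ← coset_pow (hn hg), ← inv_mul_cancel_right ((w * x) ^ _) (x ^ 2 ^ (n + 1))]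
    have h3 := hc x (h.le hx) j (congrArg Subtype.val hj)
    exact coset_eq_one (mul_mem (h.der_le (hcon w hw x hx)) ⟨pow_mem (h.le hx) _, zpowers_le.1 (Loc.le_commStab.2
      ⟨zpowers_le.2 (norm_le_norm_der Y (cent_le_norm Y h3)), (comm_eq_bot_iff.2 (zpowers_le.2 h3)).le.trans bot_le⟩)⟩)
  obtain ⟨j, hj⟩ := h.pS ⟨x, hx⟩
  refine h.finish ρ hs hO hρ hchar (s := {c | ∃ w ∈ Y, ∃ x ∈ B, (∃ j, x ^ 2 ^ j = 1) ∧
    (w * x) ^ 2 ^ (n + 1) * (x ^ 2 ^ (n + 1))⁻¹ = c}) (h.closure_eq ?_ ?_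
      ⟨w, hw, x, h.le hx, ⟨j, congrArg Subtype.val hj⟩, rfl⟩ hc') ?_
  · rintro _ ⟨w, hw, x, hx, -, rfl⟩
    exact mul_pow_mul_inv_mem (h.nY hx) hw _
  · rintro b hb _ ⟨w, hw, x, hx, ⟨j, hj⟩, rfl⟩
    refine ⟨_, conj_mem_of_norm (h.nY hb) hw, _, mul_mem (mul_mem hb hx) (inv_mem hb),
      ⟨j, by rw [conj_pow, hj, mul_one, mul_inv_cancel]⟩, ?_⟩
    rw [conj_mul, conj_pow, conj_pow]; group
  rintro q P A μ hq hq2 pP hn hcw - _ ⟨w, hw, x, hx, ⟨j, hj⟩, rfl⟩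
  obtain ⟨i, hi⟩ := h2 w hw x hx j hj
  have hst : ∀ g ∈ Y ⊔ B, ∀ j, g ^ 2 ^ j = 1 → g ^ 2 ^ (n + 1) ∈ wstab A μ := fun g hg j hj => by
    obtain ⟨k, j, e, hu, -⟩ := hcw.geom (natCast_card_ne_zero hq pP (bc_char (hchar q hq hq2))) Nat.prime_two
      (coprime_card_of_ne Nat.prime_two hq hq2 pP) (hn hg) (key g j hj).1 (bc_sum (key g j hj).2.1)
    exact e ▸ pow_mem hu _
  refine ⟨mul_mem (hst _ (mul_mem (mem_sup_left hw) (mem_sup_right hx)) i hi) (inv_mem (hst x (mem_sup_right hx) j hj)),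
    fun hYw => ?_⟩
  obtain ⟨z, hz, hz'⟩ := hcw.exp_local hq hq2 (bc_char (hchar q hq hq2)) pP h.pY h.phi h.cent (le_sup_left.trans hn) hYw
    (hn (mem_sup_right hx)) (h.nY hx) hw (key x j hj).1 (key _ i hi).1 (bc_sum (key x j hj).2.1)
    (bc_sum (key _ i hi).2.1) (hc x hx j hj)
  refine ⟨fun y hy => ?_, fun e => by rwa [mem_bot.1 (e.le hz), mul_one] at hz'⟩
  have e := comm_le_left (Loc.le_normalizer_commStab (le_sup_left.trans hn) fun a ha => (hYw ha).1)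
    (commutator_mem_commutator hz' hy)
  rwa [commutatorElement_mul_left_eq_conj_mul, commutatorElement_eq_one_iff_mul_comm.2
    (mem_cent.1 (h.cent hz) y hy).symm, mul_one, mul_inv_cancel, one_mul] at e

/-- The `2`-length is bounded by the exponent of the Sylow `2`-subgroups. -/
theorem pLengthLE_two_exp (e : ℕ) : ∀ (G : Type u) [Group G] [Finite G], Group.IsSolvable G → ∀ P : Sylow 2 G,
    (∀ x ∈ (P : Subgroup G), x ^ 2 ^ (e + 1) = 1) → PLengthLE 2 (e + 1) G := by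
  induction e with
  | zero => exact pLengthLE_two_gross 0
  | succ e ih =>
    intro G _ _ hG P hP
    obtain ⟨Γ, _, _, f, V, _, hf, hV, h⟩ := exists_red (p := 2) (Loc.isPSolvable_of_isSolvable hG)
    have hs := (QuotientGroup.mk'_surjective V).comp hf
    obtain ⟨φ, -⟩ := Loc.exists_equiv_of_ker_eq (f := (QuotientGroup.mk' V).comp f) hs
      (QuotientGroup.mk'_surjective (pPrimePCore 2 G))
      (by rw [← MonoidHom.comap_ker, QuotientGroup.ker_mk', QuotientGroup.ker_mk', hV])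
    have hP' : ∀ y ∈ (P : Subgroup G).map f, y ^ 2 ^ (e + 1 + 1) = 1 := by
      rintro _ ⟨y, hy, rfl⟩; rw [← map_pow, hP y hy, map_one]
    have hΓ : Group.IsSolvable (Γ ⧸ V) := Group.isSolvable_of_surjective (f := (QuotientGroup.mk' V).comp f) hs
    refine Loc.pLengthLE_succ_iff.2 (Loc.pLengthLE_of_equiv φ (pLengthLE_of_exp_rep h.rep hΓ h.core_eq h.rep_inj
      (fun q hq h2 => zmod_char_ne hq h2.symm) (P.mapSurjective (f := (QuotientGroup.mk' V).comp f) hs)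
      (by rintro _ ⟨y, hy, rfl⟩; rw [← map_pow, hP y hy, map_one]) ?_ ih))
    rintro _ ⟨y, hy, rfl⟩
    simp only [map_pow, MonoidHom.comp_apply, h.rep_mk]
    exact h.geom_eq_zero fun v hv => by
      rw [hP' _ ⟨y, hy, rfl⟩, hP' _ (mul_mem (h.le_sylow (P.mapSurjective hf) hv) ⟨y, hy, rfl⟩)]

end CL.Fgs.HH
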