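/-
Thompson's triple factorization argument: if every 2-local subgroup has Glauberman's factorizations, the maximal
2-local subgroups are strongly embedded.
-/
import Cfsg.Agent.Even.S4FJ
import Cfsg.Agent.Fgs.PrimPair2

set_option autoImplicit false
open Cfsg Subgroup CL.Even CL.Grp CL.Loc

namespace CL.Fgs

universe u

variable {G : Type u} [Group G] [Finite G]

/-- Glauberman's factorizations of `H` with respect to `S` -/
def TriFact (H S : Subgroup G) : Prop :=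
  (∀ h ∈ H, ∃ c ∈ 𝒞(S ⊓ 𝒞(S)), ∃ n ∈ 𝒩(thompsonSubgroupOf 2 S) ⊓ 𝒩(jh S), h = c * n) ∧
    ∀ h ∈ H, ∃ c ∈ 𝒞(omegaOneCenter 2 (jh S)), ∃ n ∈ 𝒩(thompsonSubgroupOf 2 S), h = c * n

omit [Finite G] in
theorem coe_mem_norm_map {H : Subgroup G} {X : Subgroup H} {n : H} (hn : n ∈ 𝒩(X)) :
    (n : G) ∈ 𝒩(X.map H.subtype) := le_normalizer_map H.subtype ⟨n, hn, rfl⟩

omit [Finite G] in
theorem coe_mem_cent_map {H : Subgroup G} {X : Subgroup H} {n : H} (hn : n ∈ 𝒞(X)) :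
    (n : G) ∈ 𝒞(X.map H.subtype) := by
  rw [mem_centralizer_iff]
  rintro _ ⟨x, hx, rfl⟩
  exact congrArg Subtype.val (mem_centralizer_iff.1 hn x hx)

theorem triFact_of_hdt {H S : Subgroup G} (hc : 𝒞(pCore 2 H) ≤ pCore 2 H) (hD : HDT H) (hS : IsSylowIn 2 S H) :
    TriFact H S := by
  have := Fact.mk Nat.prime_two
  have hS' : IsSylowIn 2 (S.subgroupOf H) ⊤ := hS.coe_toSylow ▸ isSylowIn_top hS.toSylow
  have e : (S.subgroupOf H).map H.subtype = S := map_subgroupOf_eq_of_le hS.le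
  have hi := subtype_injective H
  constructor
  · intro h hh
    obtain ⟨c, hc', n, hn, e'⟩ := exists_cent_center_mul hc hD hS' ⟨h, hh⟩
    refine ⟨c, ?_, n, ⟨?_, ?_⟩, congrArg Subtype.val e'⟩
    · refine cent_mono (fun z hz => ?_) (coe_mem_cent_map hc')
      exact ⟨⟨z, hS.le hz.1⟩, ⟨hz.1, (mem_cent_subgroupOf hS.le).2 hz.2⟩, rfl⟩
    · have := coe_mem_norm_map hn.1
      rwa [thompsonSubgroupOf_subgroupOf hS.le] at this
    · have := coe_mem_norm_map hn.2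
      rwa [map_jh hi, e] at this
  · intro h hh
    obtain ⟨c, hc', n, hn, e'⟩ := exists_cent_ozc_jh_mul hc hD hS' ⟨h, hh⟩
    refine ⟨c, ?_, n, ?_, congrArg Subtype.val e'⟩
    · have := coe_mem_cent_map hc'
      have e2 : (omegaOneCenter 2 (jh (S.subgroupOf H))).map H.subtype =
          omegaOneCenter 2 ((jh (S.subgroupOf H)).map H.subtype) :=
        map_omegaOne_center (inf_ker_eq_bot_of_injective _ hi)
      rwa [e2, map_jh hi, e] at this
    · have := coe_mem_norm_map hn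
      rwa [thompsonSubgroupOf_subgroupOf hS.le] at this

/-- the 2-local subgroups containing a Sylow 2-subgroup lie in one 2-local subgroup -/
theorem exists_pLocal_of_triFact (hF : ∀ H S : Subgroup G, IsPLocal 2 H → IsSylowIn 2 S H → TriFact H S)
    {S : Subgroup G} (hS : IsSylowIn 2 S ⊤) (hne : S ≠ ⊥) :
    ∃ M : Subgroup G, IsPLocal 2 M ∧ ∀ H, IsPLocal 2 H → S ≤ H → H ≤ M := by
  have := Fact.mk Nat.prime_two
  have hF' : ∀ H, IsPLocal 2 H → S ≤ H → TriFact H S := fun H h1 h2 => hF H S h1 (hS.of_le h2 le_top)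
  have hJ : IsPLocal 2 𝒩(thompsonSubgroupOf 2 S) := ⟨_, hS.isPGroup.to_le (thompsonSubgroupOf_le S),
    thompsonSubgroupOf_ne_bot_of_isPGroup hS.isPGroup hne, rfl⟩
  have hZ : IsPLocal 2 𝒩(S ⊓ 𝒞(S)) := ⟨_, hS.isPGroup.to_le inf_le_left,
    inf_cent_ne_bot hS.isPGroup hS.isPGroup le_normalizer hne, rfl⟩
  have hW : ncl 𝒩(thompsonSubgroupOf 2 S) (omegaOneCenter 2 S) ≤ omegaOneCenter 2 (jh S) := by
    refine ncl_le_iff.2 fun g hg => ?_
    obtain ⟨c, hc, n, hn, e⟩ := (hF' _ hJ (le_normalizer_thompsonSubgroupOf S)).1 _ (inv_mem hg)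
    have e2 : g = n⁻¹ * c⁻¹ := by rw [← mul_inv_rev, ← e, inv_inv]
    rw [e2, cj_mul, cj_eq_of_mem_cent (cent_mono (le_inf (ozc_le S) (ozc_le_cent S)) (inv_mem hc))]
    refine cj_le_of_le (le_ozc (ozc_elem S) ((le_thompson_of_cent (ozc_le S) (ozc_elem S)
      ((thompsonSubgroupOf_le S).trans (le_cent_ozc S))).trans (thompson_le_jh S))
      ((ozc_le_cent S).trans (cent_mono (jh_le S)))) (norm_le_norm_ozc _ (inv_mem hn.2))
  refine ⟨𝒩(ncl 𝒩(thompsonSubgroupOf 2 S) (omegaOneCenter 2 S)), ⟨_, (ozc_isP _).to_le hW,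
    fun e => ozc_ne_bot hS.isPGroup hne (le_bot_iff.1 (e ▸ le_ncl _ _)), rfl⟩, fun H h1 h2 h hh => ?_⟩
  obtain ⟨c, hc, n, hn, rfl⟩ := (hF' H h1 h2).1 h hh
  obtain ⟨c', hc', n', hn', rfl⟩ := (hF' _ hZ (le_norm_inf le_normalizer (le_norm_cent le_normalizer))).2 c
    (cent_le_norm _ hc)
  exact mul_mem (mul_mem (cent_le_norm _ (cent_mono hW hc')) (le_norm_ncl _ _ hn')) (le_norm_ncl _ _ hn.1)

theorem pLocal_le_of_triFact (hF : ∀ H S : Subgroup G, IsPLocal 2 H → IsSylowIn 2 S H → TriFact H S)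
    {T M : Subgroup G} (hT : IsSylowIn 2 T M) (hM : ∀ H, IsPLocal 2 H → T ≤ H → H ≤ M) (S : Subgroup G) :
    IsPGroup 2 S → S ≠ ⊥ → S ≤ M → ∀ H, IsPLocal 2 H → S ≤ H → H ≤ M := by
  have := Fact.mk Nat.prime_two
  induction S using WellFoundedGT.induction with
  | ind S ih =>
  intro hS hne hSM H hH hSH
  obtain ⟨U, hU, hSU⟩ := exists_isSylowIn_ge hS (le_inf hSH hSM)
  rcases hSU.lt_or_eq with hlt | rfl
  · exact ih U hlt hU.isPGroup (ne_bot_of_gt hlt) (hU.le.trans inf_le_right) H hH (hU.le.trans inf_le_left)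
  obtain ⟨T', hT', hST⟩ := exists_isSylowIn_ge hS hSM
  rcases hST.lt_or_eq with hlt | rfl
  · have h1 := lt_inf_normalizer_of_isPGroup hT'.isPGroup hlt
    have key : ∀ X : Subgroup G, X ≤ S → X ≠ ⊥ → 𝒩(S) ≤ 𝒩(X) → 𝒩(X) ≤ M := fun X h2 h3 h4 =>
      ih _ h1 (hT'.isPGroup.to_le inf_le_left) (ne_bot_of_gt h1) (inf_le_left.trans hT'.le) _
        ⟨X, hS.to_le h2, h3, rfl⟩ (inf_le_right.trans h4)
    have hSyl : IsSylowIn 2 S H := by
      refine isSylowIn_of_maximal hSH hS fun V hV h2 h3 => ?_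
      by_contra hn
      have h4 := lt_inf_normalizer_of_isPGroup hV (lt_of_le_of_ne h2 (Ne.symm hn))
      exact h4.ne' (hU.eq_of_le (hV.to_le inf_le_left) h4.le
        (inf_le_inf h3 (key S le_rfl hne le_rfl)))
    intro h hh
    obtain ⟨c, hc, n, hn, rfl⟩ := (hF H S hH hSyl).1 h hh
    exact mul_mem (key _ inf_le_left (inf_cent_ne_bot hS hS le_normalizer hne)
      (le_norm_inf le_rfl (norm_le_norm_cent S)) (cent_le_norm _ hc))
      (key _ (thompsonSubgroupOf_le S) (thompsonSubgroupOf_ne_bot_of_isPGroup hS hne)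
        (normalizer_le_normalizer_thompsonSubgroupOf S) hn.1)
  · obtain ⟨m, hm, e⟩ := syl_conj hT' hT
    obtain ⟨Q, hQ, hQ1, rfl⟩ := hH
    have := hM (cj m 𝒩(Q)) ⟨cj m Q, isPGroup_cj hQ m, fun h => hQ1 (cj_eq_bot.1 h), cj_norm m Q⟩
      (e ▸ cj_mono m hSH)
    rwa [cj_le_iff, cj_eq (le_normalizer (inv_mem hm))] at this

theorem stronglyEmbedded_of_triFact (hO : pCore 2 G = ⊥)
    (hF : ∀ H S : Subgroup G, IsPLocal 2 H → IsSylowIn 2 S H → TriFact H S) {M : Subgroup G}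
    (hM : IsMaximalPLocal 2 M) : IsStronglyEmbedded M := by
  have := Fact.mk Nat.prime_two
  obtain ⟨h1, h2, h3⟩ := stronglyEmb_of_common_sylow hO (fun M N S hM hN hS hS' => by
    have hne : S ≠ ⊥ := fun e => pLocal_pCoreOf_ne_bot hM.1 (le_bot_iff.1 (e ▸ core_le_syl hS))
    obtain ⟨T, hT, hST⟩ := exists_isSylowIn_ge hS.isPGroup le_top
    have hTne : T ≠ ⊥ := fun e => hne (le_bot_iff.1 (e ▸ hST))
    obtain ⟨K, hK, hK'⟩ := exists_pLocal_of_triFact hF hT hTne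
    have hTK : T ≤ K := le_normalizer.trans (hK' _ ⟨T, hT.isPGroup, hTne, rfl⟩ le_normalizer)
    have key := pLocal_le_of_triFact hF (hT.of_le hTK le_top) hK' S hS.isPGroup hne (hST.trans hTK)
    rw [← hM.2 K hK (key M hM.1 hS.le), hN.2 K hK (key N hN.1 hS'.le)]) hM
  exact ⟨h1, even_iff_two_dvd.2 h2, fun g hg => Nat.odd_iff.2 (by have := h3 g hg; omega)⟩

end CL.Fgs
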