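import Cfsg.Agent.Base
import Cfsg.Agent.Transfer.Tate
import Cfsg.Agent.Transfer.Control
import Cfsg.Agent.Loc.FStar
import Cfsg.Agent.Grp.PGroupFrattini
import Cfsg.Agent.Grp.SylowIn

/-! Groups with a two-generated Sylow subgroup whose Frattini subgroup is core free. -/

set_option autoImplicit false
open Cfsg Subgroup CL.Grp CL.Loc
open scoped commutatorElement Pointwise

namespace CL.TwoGenSyl
variable {G : Type*} [Group G] [Finite G] {p : ℕ} [hp : Fact p.Prime]

/-- Tate's theorem for a subgroup normalised by the Sylow subgroup. -/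
theorem tate_norm (P : Sylow p G) {A : Subgroup G} (hn : (P : Subgroup G) ≤ normalizer (A : Set G))
    (h : A ⊓ (P : Subgroup G) ≤ (frattini P).map (P : Subgroup G).subtype) :
    ¬ p ∣ Nat.card ((pResidual p A).map A.subtype) := by
  set H := normalizer (A : Set G) with hH
  have hAH : A ≤ H := le_normalizer
  haveI : (A.subgroupOf H).Normal := normal_subgroupOf_iff_le_normalizer hAH |>.2 le_rfl
  set P' : Sylow p H := P.subtype hn with hP'
  have hc : (P' : Subgroup H) = (P : Subgroup G).subgroupOf H := rfl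
  have h1 := CL.Transfer.inf_pResidual_eq_bot_of_le_frattini P' (A.subgroupOf H) (by
    rintro x ⟨hx1, hx2⟩
    obtain ⟨y, hy, e⟩ := h ⟨hx1, hx2⟩
    let f : (P : Subgroup G) →* (P' : Subgroup H) :=
      (subgroupOfEquivOfLe hn).symm.toMonoidHom
    refine ⟨f y, map_frattini_le_pGroup P'.2 f ⟨y, hy, rfl⟩, ?_⟩
    exact Subtype.ext e)
  set R := (pResidual p A).map A.subtype with hR
  have hRA : R ≤ A := map_subtype_le _
  have hnR : (P : Subgroup G) ≤ normalizer (R : Set G) := by
    haveI := CL.Transfer.pResidual_characteristic (G := A) p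
    exact hn.trans (normalizer_le_normalizer_map_subtype _)
  have hRP : R ⊓ (P : Subgroup G) = ⊥ := by
    rw [eq_bot_iff]
    rintro _ ⟨⟨x, hx, rfl⟩, hxP⟩
    let g : A →* A.subgroupOf H := (subgroupOfEquivOfLe hAH).symm.toMonoidHom
    have h2 : ((g x : A.subgroupOf H) : H) ∈
        (pResidual p (A.subgroupOf H)).map (A.subgroupOf H).subtype ⊓ (P' : Subgroup H) :=
      ⟨⟨g x, CL.Transfer.map_pResidual_le p g ⟨x, hx, rfl⟩, rfl⟩, hxP⟩
    rw [h1, mem_bot] at h2
    exact mem_bot.2 (congrArg Subtype.val h2)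
  have h3 : IsSylowIn p ((P : Subgroup G) ⊓ R) R :=
    (isSylowIn_of_le P (le_sup_left : (P : Subgroup G) ≤ (P : Subgroup G) ⊔ R)).inf_of_normalized le_sup_right
      (sup_le hnR le_normalizer)
  have h4 := h3.not_dvd
  rwa [inf_comm, hRP, relIndex_bot_left] at h4

theorem exists_gen_aux (hG : IsPGroup p G) (hgen : (frattini G).index = p ^ 2) {B : Subgroup G}
    (hB : ¬ B ≤ frattini G) : ∃ x : G, zpowers x ⊔ B = ⊤ := by
  by_cases h : B ⊔ frattini G = ⊤
  · exact ⟨1, by rw [frattini_nongenerating h, sup_top_eq]⟩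
  obtain ⟨x, hx⟩ : ∃ x, x ∉ B ⊔ frattini G := by
    by_contra! h1
    exact h (eq_top_iff.2 fun x _ => h1 x)
  refine ⟨x, frattini_nongenerating ?_⟩
  have h1 : (B ⊔ frattini G).index ∣ p ^ 2 := hgen ▸ index_dvd_of_le le_sup_right
  have h2 : (B ⊔ frattini G).index < p ^ 2 := by
    rw [← hgen]
    exact index_strictAnti (lt_of_le_of_ne le_sup_right fun e => hB (e ▸ le_sup_left))
  obtain ⟨i, hi, e⟩ := (Nat.dvd_prime_pow hp.out).1 h1
  have h3 : i < 2 := by
    rw [e] at h2
    exact (Nat.pow_lt_pow_iff_right hp.out.one_lt).1 h2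
  have hlt : B ⊔ frattini G < zpowers x ⊔ B ⊔ frattini G := by
    refine lt_of_le_of_ne (sup_le_sup_right le_sup_right _) fun e' => hx ?_
    rw [e']
    exact mem_sup_left (mem_sup_left (mem_zpowers x))
  have h4 := index_strictAnti hlt
  have h5 : (zpowers x ⊔ B ⊔ frattini G).index ∣ p ^ i := e ▸ index_dvd_of_le hlt.le
  obtain ⟨j, hj, e'⟩ := (Nat.dvd_prime_pow hp.out).1 h5
  rw [e, e'] at h4
  have h6 := (Nat.pow_lt_pow_iff_right hp.out.one_lt).1 h4
  have : j = 0 := by omega
  rw [this, pow_zero] at e'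
  exact index_eq_one.1 e'

/-- A subgroup normalised by `P` whose `p`-residual has order divisible by `p` covers `P` up to a
cyclic group. -/
theorem exists_gen (P : Sylow p G) (hgen : (frattini (P : Subgroup G)).index = p ^ 2)
    {A : Subgroup G} (h : ¬ A ⊓ (P : Subgroup G) ≤ (frattini P).map (P : Subgroup G).subtype) :
    ∃ x ∈ (P : Subgroup G), zpowers x ⊔ (A ⊓ (P : Subgroup G)) = P := by
  obtain ⟨x, hx⟩ := exists_gen_aux P.2 hgen (B := A.subgroupOf P) fun h1 =>
    h fun y hy => ⟨⟨y, hy.2⟩, h1 hy.1, rfl⟩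
  refine ⟨x, x.2, ?_⟩
  have := congrArg (Subgroup.map (P : Subgroup G).subtype) hx
  rw [Subgroup.map_sup, MonoidHom.map_zpowers, subgroupOf_map_subtype, ← MonoidHom.range_eq_map,
    range_subtype] at this
  exact this

omit [Finite G] hp in
theorem mem_gen {P B : Subgroup G} {x : G} (hn : P ≤ normalizer (B : Set G))
    (h : zpowers x ⊔ B = P) {y : G} (hy : y ∈ P) : ∃ i : ℤ, ∃ b ∈ B, y = x ^ i * b := by
  have hx : zpowers x ≤ normalizer (B : Set G) := (le_sup_left.trans h.le).trans hn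
  rw [← h, ← SetLike.mem_coe, coe_mul_of_left_le_normalizer_right _ _ hx] at hy
  obtain ⟨_, ⟨i, rfl⟩, b, hb, e⟩ := hy
  exact ⟨i, b, hb, e.symm⟩

omit [Finite G] hp in
theorem comm_le_of_gen {P B : Subgroup G} {x : G} (hn : P ≤ normalizer (B : Set G))
    (h : zpowers x ⊔ B = P) : ⁅P, P⁆ ≤ B := by
  have hxP : x ∈ P := h ▸ mem_sup_left (mem_zpowers x)
  have hBP : B ≤ P := le_sup_right.trans h.le
  rw [commutator_le]
  intro y hy z hz
  obtain ⟨i, b, hb, rfl⟩ := mem_gen hn h hy
  obtain ⟨j, c, hc, rfl⟩ := mem_gen hn h hz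
  have key : ∀ g ∈ P, ∀ b ∈ B, g * b * g⁻¹ ∈ B := fun g hg b hb =>
    (mem_normalizer_iff.1 (hn hg) b).1 hb
  have e : ⁅x ^ i * b, x ^ j * c⁆ =
      (x ^ i * b * (x ^ i)⁻¹) * (x ^ (i + j) * (c * b⁻¹) * (x ^ (i + j))⁻¹) *
        (x ^ j * c⁻¹ * (x ^ j)⁻¹) := by
    rw [commutatorElement_def]
    group
  rw [e]
  exact B.mul_mem (B.mul_mem (key _ (P.zpow_mem hxP _) _ hb)
    (key _ (P.zpow_mem hxP _) _ (B.mul_mem hc (B.inv_mem hb))))
    (key _ (P.zpow_mem hxP _) _ (B.inv_mem hc))

omit hp in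
/-- Norm of an element over a conjugacy class in an abelian normal subgroup. -/
theorem exists_norm {Q N C : Subgroup G} [Q.Normal] [N.Normal] (hQ : ⁅Q, Q⁆ = ⊥) {y : G}
    (hy : y ∈ Q) (hC : ∀ g ∈ C, g * y * g⁻¹ * y⁻¹ ∈ N) :
    ∃ z ∈ Q, z ∈ centralizer (C : Set G) ∧
      z * (y ^ (centralizer ({y} : Set G)).relIndex C)⁻¹ ∈ N := by
  classical
  letI : CommGroup Q := { (inferInstance : Group Q) with
    mul_comm := fun a b => Subtype.ext (CL.Loc.commute_of_commutator_eq_bot hQ a.2 b.2).eq }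
  letI : MulDistribMulAction C Q :=
    MulDistribMulAction.compHom Q ((MulAut.conjNormal : G →* MulAut Q).comp C.subtype)
  have hs : ∀ (g : C) (w : Q), ((g • w : Q) : G) = g * w * (g : G)⁻¹ := fun g w => rfl
  set y' : Q := ⟨y, hy⟩ with hy'
  set Ω : Finset Q := (Set.toFinite (MulAction.orbit C y')).toFinset with hΩ
  have hmem : ∀ w, w ∈ Ω ↔ w ∈ MulAction.orbit C y' := fun w => by simp [hΩ]
  have hcard : Ω.card = (centralizer ({y} : Set G)).relIndex C := by
    have e : MulAction.stabilizer C y' = (centralizer ({y} : Set G)).subgroupOf C := by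
      ext g
      rw [MulAction.mem_stabilizer_iff, mem_subgroupOf, mem_centralizer_singleton_iff,
        Subtype.ext_iff, hs, mul_inv_eq_iff_eq_mul]
    rw [relIndex, ← e, MulAction.index_stabilizer, Set.ncard_eq_toFinset_card _ (Set.toFinite _)]
  refine ⟨(∏ w ∈ Ω, w : Q), (∏ w ∈ Ω, w : Q).2, fun g hg => ?_, ?_⟩
  · have e : (⟨g, hg⟩ : C) • (∏ w ∈ Ω, w : Q) = ∏ w ∈ Ω, w := by
      rw [Finset.smul_prod']
      refine Finset.prod_bij (fun w _ => (⟨g, hg⟩ : C) • w) (fun w hw => ?_)
        (fun a _ b _ h => MulAction.injective _ h) (fun w hw => ?_) fun _ _ => rfl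
      · obtain ⟨k, rfl⟩ := (hmem w).1 hw
        exact (hmem _).2 ⟨_, mul_smul _ _ _⟩
      · obtain ⟨k, rfl⟩ := (hmem w).1 hw
        exact ⟨(⟨g, hg⟩ : C)⁻¹ • k • y', (hmem _).2 ⟨_, mul_smul _ _ _⟩, smul_inv_smul _ _⟩
    have := congrArg Subtype.val e
    rw [hs, mul_inv_eq_iff_eq_mul] at this
    exact this
  · have e : (∏ w ∈ Ω, w : Q) * (y' ^ Ω.card)⁻¹ ∈ N.subgroupOf Q := by
      rw [← Finset.prod_const, ← Finset.prod_inv_distrib, ← Finset.prod_mul_distrib]
      refine prod_mem fun w hw => ?_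
      obtain ⟨k, rfl⟩ := (hmem w).1 hw
      exact hC k k.2
    rw [← hcard]
    exact e

section Main
variable (P : Sylow p G) (hna : ¬ IsMulCommutative (P : Subgroup G))
  (hgen : (frattini (P : Subgroup G)).index = p ^ 2) (hcore : pPrimeCore p G = ⊥)
  (hfrat : ((frattini (P : Subgroup G)).map (P : Subgroup G).subtype).normalCore = ⊥)

include hfrat in
theorem eq_bot_of_le {K : Subgroup G} [K.Normal]
    (h : K ≤ (frattini (P : Subgroup G)).map (P : Subgroup G).subtype) : K = ⊥ :=
  le_bot_iff.1 (hfrat ▸ normal_le_normalCore.2 h)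

include hcore hfrat in
theorem not_le {K : Subgroup G} [K.Normal] (hK : K ≠ ⊥) :
    ¬ K ⊓ (P : Subgroup G) ≤ (frattini P).map (P : Subgroup G).subtype := by
  intro h
  have h1 := tate_norm P (A := K) (by rw [normalizer_eq_top]; exact le_top) h
  haveI := CL.Transfer.pResidual_characteristic (G := K) p
  have h2 : (pResidual p K).map K.subtype = ⊥ :=
    le_bot_iff.1 (hcore ▸ le_pPrimeCore_of_not_dvd h1)
  have h3 : IsPGroup p K := by
    intro g
    obtain ⟨k, hk⟩ := CL.Transfer.exists_pow_mem_pResidual p g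
    have : ((g ^ p ^ k : K) : G) ∈ (pResidual p K).map K.subtype := ⟨_, hk, rfl⟩
    rw [h2, mem_bot] at this
    exact ⟨k, Subtype.ext this⟩
  have h4 : K ≤ P := h3.le_sylow_of_normal P
  exact hK (eq_bot_of_le P hfrat ((le_inf le_rfl h4).trans h))

omit [Finite G] hp in
theorem norm_inf {A : Subgroup G} (hn : (P : Subgroup G) ≤ normalizer (A : Set G)) :
    (P : Subgroup G) ≤ normalizer ((A ⊓ (P : Subgroup G) : Subgroup G) : Set G) := by
  intro g hg
  rw [mem_normalizer_iff]
  intro x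
  rw [mem_inf, mem_inf, ← mem_normalizer_iff.1 (hn hg) x,
    ← mem_normalizer_iff.1 (le_normalizer hg) x]

include hgen hcore hfrat in
theorem comm_le {K : Subgroup G} [K.Normal] (hK : K ≠ ⊥) :
    ⁅(P : Subgroup G), (P : Subgroup G)⁆ ≤ K := by
  obtain ⟨x, -, h⟩ := exists_gen P hgen (not_le P hcore hfrat hK)
  exact (comm_le_of_gen (norm_inf P (by rw [normalizer_eq_top]; exact le_top)) h).trans inf_le_left

/-- The monolith. -/
abbrev mono (P : Sylow p G) : Subgroup G :=
  normalClosure ((⁅(P : Subgroup G), (P : Subgroup G)⁆ : Subgroup G) : Set G)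

omit [Finite G] hp in
include hna in
theorem comm_ne : ⁅(P : Subgroup G), (P : Subgroup G)⁆ ≠ ⊥ := fun h =>
  hna (commutator_self_eq_bot_iff.1 h)

omit [Finite G] hp in
include hna in
theorem mono_ne : mono P ≠ ⊥ := fun h =>
  comm_ne P hna (le_bot_iff.1 (h ▸ le_normalClosure))

include hgen hcore hfrat in
theorem mono_le {K : Subgroup G} [K.Normal] (hK : K ≠ ⊥) : mono P ≤ K :=
  normalClosure_le_normal (comm_le P hgen hcore hfrat hK)

include hcore in
theorem fit_le : fittingSubgroup G ≤ pCore p G := (fittingSubgroup_eq_pCore hcore).le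

include hna hgen hcore hfrat in
theorem layer_le : layer G ≤ mono P := by
  rw [CL.Loc.layer_le_iff]
  intro L hL
  rcases IsComponent.le_or_commutator_eq_bot hL (H := mono P) (Normal.isSubnormal inferInstance) with h | h
  · exact h
  exfalso
  have hC : centralizer (mono P : Set G) ≠ ⊥ := fun e =>
    (IsComponent.ne_bot hL) (le_bot_iff.1 (e ▸ commutator_eq_bot_iff_le_centralizer.1 h))
  have h1 : mono P ≤ centralizer (mono P : Set G) := mono_le P hgen hcore hfrat hC
  have h2 : ⁅mono P, mono P⁆ = ⊥ := commutator_eq_bot_iff_le_centralizer.2 h1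
  have hnil : Group.IsNilpotent (mono P) :=
    isNilpotent_of_commutator_commutator_eq_bot (by rw [h2, commutator_bot_left])
  have h3 : mono P ≤ pCore p G := (le_fittingSubgroup hnil).trans (fit_le hcore)
  have hE : layer G ≠ ⊥ := fun e => (IsComponent.ne_bot hL) (le_bot_iff.1 (e ▸ (IsComponent.le_layer hL)))
  have h4 : mono P ≤ layer G := mono_le P hgen hcore hfrat hE
  have h5 : ⁅layer G, mono P⁆ = ⊥ :=
    le_bot_iff.1 (CL.Loc.commutator_layer_pCore (G := G) p ▸ commutator_mono le_rfl h3)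
  have hP : mono P ≤ P := ((pCore_isPGroup p G).to_le h3).le_sylow_of_normal P
  refine mono_ne P hna (eq_bot_of_le P hfrat fun z hz => ?_)
  have hS := isSylowIn_inf_normal P (layer G)
  have h6 := CL.Transfer.inf_commutator_inf_center_le_of_hall
    (hS.toSylow : Subgroup (layer G)) hS.toSylow.card_coprime_index
    (x := ⟨z, h4 hz⟩) ⟨⟨⟨hP hz, h4 hz⟩, by
      rw [(CL.Loc.layer_isPerfect (G := G)).commutator_eq_top]; trivial⟩,
      mem_center_iff.2 fun g => Subtype.ext (CL.Loc.commute_of_commutator_eq_bot h5 g.2 hz).eq⟩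
  have h7 : z ∈ ⁅(P : Subgroup G) ⊓ layer G, (P : Subgroup G) ⊓ layer G⁆ := by
    rw [← hS.map_toSylow, ← map_commutator]
    exact ⟨_, h6, rfl⟩
  exact ((map_subtype_frattini_le_iff P.2).1 le_rfl).1 (commutator_mono inf_le_left inf_le_left h7)

include hna hgen hcore hfrat in
theorem pCore_le : pCore p G ≤ mono P := by
  by_contra hQ
  set Q := pCore p G with hQd
  set N := mono P with hN
  have hQ1 : Q ≠ ⊥ := fun e => hQ (e ▸ bot_le)
  have hNQ : N ≤ Q := mono_le P hgen hcore hfrat hQ1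
  have hQP : Q ≤ P := (pCore_isPGroup p G).le_sylow_of_normal P
  have hQQ : ⁅Q, Q⁆ = ⊥ := by
    have h1 : (frattini Q).map Q.subtype = ⊥ :=
      eq_bot_of_le P hfrat (map_subtype_frattini_mono P.2 hQP)
    exact le_bot_iff.1 ((map_subtype_frattini_le_iff (pCore_isPGroup p G)).1 h1.le).1
  obtain ⟨x, hx, h⟩ := exists_gen P hgen (not_le P hcore hfrat (mono_ne P hna))
  rw [inf_eq_left.2 (hNQ.trans hQP)] at h
  have hn : (P : Subgroup G) ≤ normalizer (N : Set G) := by rw [normalizer_eq_top]; exact le_top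
  obtain ⟨q, hq, hqN⟩ := SetLike.not_le_iff_exists.1 hQ
  obtain ⟨i, b, hb, rfl⟩ := mem_gen hn h (hQP hq)
  have hy : x ^ i ∈ Q := by
    have := Q.mul_mem hq (Q.inv_mem (hNQ hb))
    rwa [mul_inv_cancel_right] at this
  have hyN : x ^ i ∉ N := fun e => hqN (N.mul_mem e hb)
  set C : Subgroup G := (centralizer (Q.map (QuotientGroup.mk' N) : Set (G ⧸ N))).comap
    (QuotientGroup.mk' N) with hC
  have hmem : ∀ g, g ∈ C ↔ ∀ w ∈ Q, g * w * g⁻¹ * w⁻¹ ∈ N := fun g => by
    rw [hC, mem_comap, mem_centralizer_iff]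
    constructor
    · intro H w hw
      have := H _ ⟨w, hw, rfl⟩
      rw [← QuotientGroup.eq_one_iff, ← QuotientGroup.mk'_apply]
      simp only [map_mul, map_inv]
      rw [← this]
      group
    · rintro H _ ⟨w, hw, rfl⟩
      have := H w hw
      rw [← QuotientGroup.eq_one_iff, ← QuotientGroup.mk'_apply] at this
      simp only [map_mul, map_inv] at this
      rw [mul_inv_eq_one, mul_inv_eq_iff_eq_mul] at this
      exact this.symm
  haveI : (Q.map (QuotientGroup.mk' N)).Normal := Normal.map inferInstance _ (QuotientGroup.mk'_surjective N)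
  haveI : C.Normal := Normal.comap inferInstance _
  have hPC : (P : Subgroup G) ≤ C := fun g hg => (hmem g).2 fun w hw =>
    le_normalClosure (commutator_mem_commutator hg (hQP hw))
  obtain ⟨z, hz, hzC, hzN⟩ := exists_norm (N := N) (C := C) hQQ hy fun g hg => (hmem g).1 hg _ hy
  have hPy : (P : Subgroup G) ≤ centralizer ({x ^ i} : Set G) := by
    rw [← h]
    refine sup_le (zpowers_le.2 ?_) fun n hn => ?_
    · rw [mem_centralizer_singleton_iff]
      exact (Commute.self_zpow x i).eq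
    · rw [mem_centralizer_singleton_iff]
      exact (CL.Loc.commute_of_commutator_eq_bot hQQ (hNQ hn) hy).eq
  have hidx : ¬ p ∣ (centralizer ({x ^ i} : Set G)).relIndex C := fun hd =>
    (isSylowIn_of_le P hPC).not_dvd (hd.trans (relIndex_dvd_of_le_left _ hPy))
  have hz1 : z ≠ 1 := by
    rintro rfl
    rw [one_mul, inv_mem_iff] at hzN
    refine hyN (CL.Transfer.mem_of_pow_mem_of_coprime hzN ?_)
    obtain ⟨k, hk⟩ := (IsPGroup.iff_orderOf.1 P.2) ⟨x ^ i, hQP hy⟩
    rw [← orderOf_coe] at hk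
    change orderOf (x ^ i) = _ at hk
    rw [hk]
    exact (((Nat.Prime.coprime_iff_not_dvd hp.out).2 hidx).symm).pow_right _
  have hCC : centralizer (C : Set G) ≠ ⊥ := fun e => hz1 (mem_bot.1 (e ▸ hzC))
  have h2 : N ≤ centralizer (C : Set G) := mono_le P hgen hcore hfrat hCC
  refine comm_ne P hna (commutator_eq_bot_iff_le_centralizer.2 ?_)
  have h3 : N ≤ centralizer (P : Set G) := h2.trans (centralizer_le hPC)
  conv_lhs => rw [← h]
  refine sup_le (zpowers_le.2 fun g hg => ?_) h3
  obtain ⟨j, c, hc, rfl⟩ := mem_gen hn h hg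
  rw [mul_assoc, ← h3 hc x hx, ← mul_assoc, ← mul_assoc, (Commute.self_zpow x j).eq]

include hna hgen hcore hfrat in
theorem fstar_eq : generalizedFittingSubgroup G = mono P := by
  have h1 : generalizedFittingSubgroup G ≤ mono P :=
    sup_le (layer_le P hna hgen hcore hfrat) ((fit_le hcore).trans (pCore_le P hna hgen hcore hfrat))
  refine le_antisymm h1 (mono_le P hgen hcore hfrat fun e => ?_)
  have h2 := CL.Loc.centralizer_fstar_le (G := G)
  rw [e] at h2
  exact mono_ne P hna (le_bot_iff.1 fun x _ => h2 (by simp [mem_centralizer_iff]))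

include hgen hcore in
theorem comm_le_orb {K : Subgroup G} (hK : IsComponent K) :
    ⁅(P : Subgroup G), (P : Subgroup G)⁆ ≤
      ⨆ x : (P : Subgroup G), K.map (MulAut.conj (x : G)).toMonoidHom := by
  set A := ⨆ x : (P : Subgroup G), K.map (MulAut.conj (x : G)).toMonoidHom with hA
  have hn : (P : Subgroup G) ≤ normalizer (A : Set G) := by
    have key : ∀ g ∈ (P : Subgroup G), ∀ a ∈ A, g * a * g⁻¹ ∈ A := fun g hg => by
      rw [← conj_smul_le_iff, conj_smul_eq_map, hA, Subgroup.map_iSup]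
      refine iSup_le fun x => le_iSup_of_le (⟨g, hg⟩ * x) (le_of_eq ?_)
      rw [← conj_smul_eq_map, ← conj_smul_eq_map, conj_smul_conj_smul, conj_smul_eq_map]
      rfl
    intro g hg
    rw [mem_normalizer_iff]
    refine fun a => ⟨key g hg a, fun h => ?_⟩
    have := key g⁻¹ (inv_mem hg) _ h
    simpa [mul_assoc] using this
  have hKA : K ≤ A := le_iSup_of_le 1 (by
    rw [← conj_smul_eq_map]
    simp)
  have h1 : ¬ A ⊓ (P : Subgroup G) ≤ (frattini P).map (P : Subgroup G).subtype := by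
    intro h
    have h2 := tate_norm P hn h
    have h3 : K ≤ (pResidual p A).map A.subtype :=
      CL.Transfer.le_pResidual_of_le_commutator K A hKA
        ((IsComponent.commutator_self hK).ge.trans (commutator_mono le_rfl hKA))
    have h4 : ¬ p ∣ Nat.card K := fun hd => h2 (hd.trans (card_dvd_of_le h3))
    have h5 := le_pPrimeCore_of_isSubnormal (IsComponent.subnormal hK)
      ((Nat.Prime.coprime_iff_not_dvd hp.out).2 h4).symm
    exact (IsComponent.ne_bot hK) (le_bot_iff.1 (hcore ▸ h5))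
  obtain ⟨x, -, h⟩ := exists_gen P hgen h1
  exact (comm_le_of_gen (norm_inf P hn) h).trans inf_le_left

include hna hgen hcore hfrat in
theorem trans_comp (hnc : ¬ IsMulCommutative (generalizedFittingSubgroup G)) {K L : Subgroup G}
    (hK : IsComponent K) (hL : IsComponent L) :
    ∃ x ∈ (P : Subgroup G), L = K.map (MulAut.conj x).toMonoidHom := by
  by_contra! hne
  have hE : layer G ≠ ⊥ := fun e => (IsComponent.ne_bot hL) (le_bot_iff.1 (e ▸ (IsComponent.le_layer hL)))
  have hEN : layer G = mono P :=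
    le_antisymm (layer_le P hna hgen hcore hfrat) (mono_le P hgen hcore hfrat hE)
  have hC : centralizer (mono P : Set G) = ⊥ := by
    by_contra h
    rw [fstar_eq P hna hgen hcore hfrat] at hnc
    exact hnc (commutator_self_eq_bot_iff.1
      (commutator_eq_bot_iff_le_centralizer.2 (mono_le P hgen hcore hfrat h)))
  refine comm_ne P hna (le_bot_iff.1 ?_)
  rw [← hC, ← hEN, ← commutator_eq_bot_iff_le_centralizer, commutator_comm,
    CL.Loc.commutator_layer_eq_bot_iff]
  intro M hM
  have key : ∀ {J : Subgroup G}, IsComponent J →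
      (∀ x : (P : Subgroup G), M ≠ J.map (MulAut.conj (x : G)).toMonoidHom) →
      ⁅M, ⁅(P : Subgroup G), (P : Subgroup G)⁆⁆ = ⊥ := fun {J} hJ h => by
    rw [commutator_comm, commutator_eq_bot_iff_le_centralizer]
    refine (comm_le_orb P hgen hcore hJ).trans (iSup_le fun x => ?_)
    rw [← commutator_eq_bot_iff_le_centralizer, commutator_comm]
    exact (IsComponent.commutator_eq_bot_of_ne hM) ((IsComponent.conj hJ) _) (h x)
  by_cases h : ∃ x : (P : Subgroup G), M = K.map (MulAut.conj (x : G)).toMonoidHom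
  · obtain ⟨x, rfl⟩ := h
    refine key hL fun y e => hne ((y : G)⁻¹ * x) (mul_mem (inv_mem y.2) x.2) ?_
    rw [← conj_smul_eq_map, ← conj_smul_eq_map] at e
    rw [← conj_smul_eq_map, ← conj_smul_conj_smul, e, conj_smul_conj_smul]
    simp
  · exact key hK fun x e => h ⟨x, e⟩

include hna hgen hcore hfrat in
theorem cyc [(generalizedFittingSubgroup G).Normal] :
    IsCyclic ((P : Subgroup G).map (QuotientGroup.mk' (generalizedFittingSubgroup G))) := by
  obtain ⟨x, hx, h⟩ := exists_gen P hgen (not_le P hcore hfrat (mono_ne P hna))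
  rw [← fstar_eq P hna hgen hcore hfrat] at h
  have e : (generalizedFittingSubgroup G ⊓ (P : Subgroup G)).map
      (QuotientGroup.mk' (generalizedFittingSubgroup G)) = ⊥ := by
    rw [Subgroup.map_eq_bot_iff, QuotientGroup.ker_mk']
    exact inf_le_left
  rw [← h, Subgroup.map_sup, e, sup_bot_eq, MonoidHom.map_zpowers]
  infer_instance

end Main

end CL.TwoGenSyl
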