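/-
Groups whose class sizes have at most two prime divisors, step E: no proper almost simple extension (helper47).
-/
import Cfsg.Agent.Fgs.TwoPrDefs
import Cfsg.Agent.Fgs.ClassBasic
import Cfsg.Agent.Grp.Frob

set_option autoImplicit false
set_option linter.unusedSectionVars false

namespace CL.TwoPr

open Cfsg Subgroup CL.Even CL.Grp
open scoped Pointwise

universe u

variable {T : Type u} [Group T] [Finite T] {p : ℕ}

theorem ceE_card {r k m : ℕ} [Fact r.Prime] (P : Sylow r T) (h : Nat.card T = r ^ k * m) (hm : ¬ r ∣ m) :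
    Nat.card (P : Subgroup T) = r ^ k := by
  have hr : r.Prime := Fact.out
  have hm0 : m ≠ 0 := fun e => hm (e ▸ dvd_zero r)
  rw [P.card_eq_multiplicity, h, Nat.factorization_mul (pow_ne_zero _ hr.ne_zero) hm0, hr.factorization_pow,
    Finsupp.add_apply, Finsupp.single_eq_same, Nat.factorization_eq_zero_of_not_dvd hm, add_zero]

theorem ceE_smul (α : MulAut T) (t : T) (S : Sylow 2 T) : α • (t • S) = α t • (α • S) := by
  have : MulAut.conj (α t) * α = α * MulAut.conj t := by ext x; simp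
  rw [Sylow.smul_def, Sylow.smul_def, ← mul_smul, ← mul_smul, this]

/-- an automorphism of a simple group that fixes every Sylow 2-subgroup is trivial -/
theorem ceE_ker [IsSimpleGroup T] (hn : ∃ (t : T) (S : Sylow 2 T), t • S ≠ S) (α : MulAut T)
    (h : ∀ S : Sylow 2 T, α • S = S) : α = 1 := by
  obtain ⟨t0, S0, h0⟩ := hn
  have hK : (MulAction.toPermHom T (Sylow 2 T)).ker = ⊥ :=
    (IsSimpleGroup.eq_bot_or_eq_top_of_normal _ inferInstance).resolve_right fun e =>
      h0 (congrArg (fun σ : Equiv.Perm (Sylow 2 T) => σ S0) (MonoidHom.mem_ker.1 (e.ge (mem_top t0))))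
  ext t
  have : t⁻¹ * α t ∈ (MulAction.toPermHom T (Sylow 2 T)).ker := MonoidHom.mem_ker.2 (Equiv.ext fun S => by
    have := ceE_smul α t S
    rw [h, h] at this
    simp only [MulAction.toPermHom_apply, MulAction.toPerm_apply, Equiv.Perm.coe_one, id]
    rw [mul_smul, ← this, inv_smul_smul])
  rw [hK, mem_bot, inv_mul_eq_one] at this
  exact this.symm

theorem ceE_R [IsSimpleGroup T] (hn : ∃ (t : T) (S : Sylow 2 T), t • S ≠ S) (A : Subgroup T)
    (hA : IsMulCommutative A) (α : MulAut T) (hα : ∀ a ∈ A, α a = a) (S0 : Sylow 2 T)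
    (h0 : ∃ a ∈ A, a • S0 = α • S0)
    (hall : ∀ S : Sylow 2 T, (∃ a ∈ A, a • S0 = S) ∨ (α • S = S ∧ ∀ a ∈ A, a • S = S)) :
    ∃ t, α = MulAut.conj t := by
  obtain ⟨a, ha, h0⟩ := h0
  refine ⟨a, (inv_mul_eq_one.1 (ceE_ker hn _ fun S => ?_)).symm⟩
  rw [mul_smul, inv_smul_eq_iff, ← Sylow.smul_def]
  rcases hall S with ⟨b, hb, rfl⟩ | ⟨h1, h2⟩
  · have : b * a = a * b := congrArg Subtype.val (hA.is_comm.comm ⟨b, hb⟩ ⟨a, ha⟩)
    rw [ceE_smul, hα b hb, ← h0, ← mul_smul, ← mul_smul, this]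
  · rw [h1, h2 a ha]

/-- the Sylow 2-subgroups are a TI set -/
theorem Tri.ceE_ti (h : Tri T p) (h2 : Ab 2 T) {E S : Sylow 2 T} {e : T} (he : e ∈ (E : Subgroup T)) (e1 : e ≠ 1)
    (hS : e • S = S) : S = E := by
  have hz : zpowers e ≤ (E : Subgroup T) := zpowers_le.2 he
  have h1 : zpowers e ≤ (S : Subgroup T) := (E.isPGroup'.to_le hz).sylow_mem_fixedPoints_iff.1 fun g =>
    (zpowers_le.2 (show e ∈ MulAction.stabilizer T S from hS) g.2 :)
  have key : ∀ P : Sylow 2 T, e ∈ (P : Subgroup T) → centralizer ({e} : Set T) = P := fun P hP =>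
    h.cent_eq P e1 hP fun g hg => congrArg Subtype.val ((h2 P).is_comm.comm ⟨g, hg⟩ ⟨e, hP⟩)
  exact Sylow.ext ((key S (h1 (mem_zpowers e))).symm.trans (key E he))

theorem Tri.ceE_ne (h : Tri T p) : ∃ (t : T) (S : Sylow 2 T), t • S ≠ S := by
  have := h.simple
  have : Fact (Nat.Prime 2) := ⟨Nat.prime_two⟩
  by_contra e
  push Not at e
  obtain ⟨S⟩ : Nonempty (Sylow 2 T) := inferInstance
  have hN : (S : Subgroup T).Normal := normalizer_eq_top_iff.1 (eq_top_iff.2 fun t _ =>
    Sylow.smul_eq_iff_mem_normalizer.1 (e t S))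
  have hd : ∀ r, r ∈ ({2, 3, p} : Finset ℕ) → r ∣ Nat.card T := fun r hr =>
    Nat.dvd_of_mem_primeFactors (h.fac ▸ hr)
  rcases IsSimpleGroup.eq_bot_or_eq_top_of_normal _ hN with e1 | e1
  · exact S.not_dvd_index (by rw [e1, index_bot]; exact hd 2 (by simp))
  · obtain ⟨k, hk⟩ := IsPGroup.iff_card.1 S.isPGroup'
    rw [e1, card_top] at hk
    have := Nat.prime_three.dvd_of_dvd_pow (hk ▸ hd 3 (by simp))
    omega

theorem ceE_card_ne (E : Sylow 2 T) : Nat.card {S : Sylow 2 T | S ≠ E} + 1 = Nat.card (Sylow 2 T) := by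
  classical
  rw [← Nat.card_congr (Equiv.optionSubtypeNe E), Finite.card_option]
  rfl

/-- the number of Sylow 2-subgroups -/
theorem Tri.ceE_num (h : Tri T p) (h2 : Ab 2 T) {q m : ℕ} (hT : Nat.card T = q * m) (hq : q ≠ 0)
    (c2 : ∀ E : Sylow 2 T, Nat.card (E : Subgroup T) = q)
    (hn : ∀ n, n + 1 ∣ m → q ∣ n → n ≠ 0 → n = q) : Nat.card (Sylow 2 T) = q + 1 := by
  have : Fact (Nat.Prime 2) := ⟨Nat.prime_two⟩
  obtain ⟨t, E, hE⟩ := h.ceE_ne
  have h1 := card_dvd_card_of_free_on (A := (E : Subgroup T)) {S : Sylow 2 T | S ≠ E}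
    (fun a S hS e => hS (by
      have e' : (a : T) • S = E := e
      rw [← inv_smul_smul (a : T) S, e']
      exact Sylow.smul_eq_iff_mem_normalizer.2 (le_normalizer (inv_mem a.2))))
    fun a S hS e => by_contra fun a1 => hS (h.ceE_ti h2 a.2 (fun e => a1 (Subtype.ext e)) e)
  have h3 := E.card_dvd_index
  have h4 : (E : Subgroup T).index = m := by
    have := (E : Subgroup T).card_mul_index
    rw [c2, hT] at this
    exact Nat.eq_of_mul_eq_mul_left (Nat.pos_of_ne_zero hq) this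
  rw [← ceE_card_ne E] at h3 ⊢
  have : Nonempty {S : Sylow 2 T | S ≠ E} := ⟨⟨_, hE⟩⟩
  rw [hn _ (h4 ▸ h3) (c2 E ▸ h1) Nat.card_pos.ne']

/-- an automorphism centralizing a Sylow 2-subgroup is inner -/
theorem Tri.ceE_two (h : Tri T p) (h2 : Ab 2 T) {q : ℕ} (E : Sylow 2 T) (c2 : Nat.card (E : Subgroup T) = q)
    (hn : Nat.card (Sylow 2 T) = q + 1) (α : MulAut T) (hα : ∀ a ∈ (E : Subgroup T), α a = a) :
    ∃ t, α = MulAut.conj t := by
  have := h.simple
  have hE : ∀ a ∈ (E : Subgroup T), a • E = E := fun a ha => Sylow.smul_eq_iff_mem_normalizer.2 (le_normalizer ha)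
  have hαE : α • E = E := Sylow.ext ((α • E).is_maximal' E.isPGroup' (by
    rw [Sylow.pointwise_smul_def]
    rintro _ ⟨y, hy, rfl⟩
    exact (hα y hy).symm ▸ hy)).symm
  obtain ⟨S0, hS0⟩ : ∃ S0 : Sylow 2 T, S0 ≠ E := by
    obtain ⟨t, S, hS⟩ := h.ceE_ne
    by_contra e
    push Not at e
    exact hS ((e _).trans (e _).symm)
  let f : ↥(E : Subgroup T) → {S : Sylow 2 T | S ≠ E} := fun a => ⟨a.1 • S0, fun e => hS0 (by
    rw [← inv_smul_smul a.1 S0, e, hE _ (inv_mem a.2)])⟩
  have hf : Function.Bijective f := (Nat.bijective_iff_injective_and_card f).2 ⟨fun a b e => by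
    have e' : a.1 • S0 = b.1 • S0 := congrArg Subtype.val e
    by_contra ab
    exact hS0 (h.ceE_ti h2 (mul_mem (inv_mem b.2) a.2) (fun e => ab (Subtype.ext (inv_mul_eq_one.1 e).symm))
      (by rw [mul_smul, e', inv_smul_smul])), by have := ceE_card_ne E; omega⟩
  have hs : ∀ S : Sylow 2 T, S ≠ E → ∃ a ∈ (E : Subgroup T), a • S0 = S := fun S hS => by
    obtain ⟨a, ha⟩ := hf.2 ⟨S, hS⟩
    exact ⟨a, a.2, congrArg Subtype.val ha⟩
  refine ceE_R h.ceE_ne E (h2 E) α hα S0 (hs _ fun e => hS0 (smul_left_cancel α (e.trans hαE.symm))) fun S => ?_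
  by_cases e : S = E
  · exact Or.inr ⟨e ▸ hαE, e ▸ hE⟩
  · exact Or.inl (hs S e)

/-- an automorphism centralizing an abelian Hall subgroup whose order is the number of Sylow 2-subgroups is inner -/
theorem Tri.ceE_reg (h : Tri T p) {n m : ℕ} (A : Subgroup T) (hA : IsMulCommutative A) (c1 : Nat.card A = n)
    (hn : Nat.card (Sylow 2 T) = n) (hT : Nat.card T = m * n) (hc : n.Coprime m) (α : MulAut T)
    (hα : ∀ a ∈ A, α a = a) : ∃ t, α = MulAut.conj t := by
  have := h.simple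
  have : Fact (Nat.Prime 2) := ⟨Nat.prime_two⟩
  obtain ⟨S0⟩ : Nonempty (Sylow 2 T) := inferInstance
  have h1 : Nat.card (MulAction.stabilizer T S0) = m := by
    have := (MulAction.stabilizer T S0).card_mul_index
    rw [Sylow.stabilizer_eq_normalizer, ← S0.card_eq_index_normalizer, hn, hT, ← Sylow.stabilizer_eq_normalizer] at this
    exact Nat.eq_of_mul_eq_mul_right (hn ▸ Nat.card_pos) this
  let f : A → Sylow 2 T := fun a => (a : T) • S0
  have hf : Function.Bijective f := (Nat.bijective_iff_injective_and_card f).2 ⟨fun a b e => by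
    have e' : (a : T) • S0 = (b : T) • S0 := e
    have h3 : (b : T)⁻¹ * a ∈ MulAction.stabilizer T S0 := by
      rw [MulAction.mem_stabilizer_iff, mul_smul, e', inv_smul_smul]
    have h4 := Nat.eq_one_of_dvd_coprimes hc (c1 ▸ A.orderOf_dvd_natCard (mul_mem (inv_mem b.2) a.2))
      (h1 ▸ Subgroup.orderOf_dvd_natCard _ h3)
    exact Subtype.ext (inv_mul_eq_one.1 (orderOf_eq_one_iff.1 h4)).symm, c1.trans hn.symm⟩
  have hs : ∀ S : Sylow 2 T, ∃ a ∈ A, a • S0 = S := fun S => by
    obtain ⟨a, ha⟩ := hf.2 S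
    exact ⟨a, a.2, ha⟩
  exact ceE_R h.ceE_ne A hA α hα S0 (hs _) fun S => Or.inl (hs S)

/-- the final count -/
theorem ceE_count {G : Type u} [Group G] [Finite G] (T : Subgroup G) {r m : ℕ} [Fact r.Prime] (h : Tri T p)
    (h2 : Ab 2 T) (hr : r = 2 ∨ r = 3 ∨ r = p) {k : ℕ} (hk : 1 < k) (c0 : ∀ P : Sylow r T, Nat.card (P : Subgroup T) = k)
    (hT : Nat.card T = k * m) (hm : ¬ m ≡ 1 [MOD r]) (g : G)
    (hg : ∀ t : T, ∃ P : Sylow r T, ∀ a ∈ (P : Subgroup T), (a : G) * (g * t) = g * t * a) : False := by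
  classical
  have hab : ∀ s, s = 2 ∨ s = 3 ∨ s = p → Ab s T := fun s hs => by
    rcases hs with rfl | rfl | rfl; exacts [h2, h.ab3, h.abp]
  have hc : ∀ (P : Sylow r T) (y : T), (∀ a ∈ (P : Subgroup T), a * y = y * a) → y ∈ (P : Subgroup T) := fun P y hy => by
    have : Nontrivial (P : Subgroup T) := Finite.one_lt_card_iff_nontrivial.1 (c0 P ▸ hk)
    obtain ⟨x, hx⟩ := exists_ne (1 : (P : Subgroup T))
    obtain ⟨j, hj⟩ := P.isPGroup' x
    have hj' : (x : T) ^ r ^ j = 1 := congrArg Subtype.val hj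
    have h3 := P.is_maximal' (h.isPGroup_cent (fun e => hx (Subtype.ext e)) Fact.out hj' ((hab r hr).nu hj')
      fun s hs _ => hab s hs) fun a ha => mem_centralizer_singleton_iff.2
        (congrArg Subtype.val ((hab r hr P).is_comm.comm ⟨a, ha⟩ x))
    exact h3 ▸ mem_centralizer_singleton_iff.2 (hy x x.2).symm
  choose f hf using hg
  have hfib : ∀ P : Sylow r T, Nat.card {t : T // f t = P} ≤ k := fun P => by
    rcases isEmpty_or_nonempty {t : T // f t = P} with e | ⟨⟨t0, h0⟩⟩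
    · simp
    · rw [← c0 P]
      refine Nat.card_le_card_of_injective (fun t => (⟨t0⁻¹ * t.1, hc P _ fun a ha => Subtype.ext ?_⟩ : (P : Subgroup T)))
        fun a b e => Subtype.ext (mul_left_cancel (congrArg Subtype.val e))
      have e1 := hf t0 a (h0.symm ▸ ha)
      have e2 := hf t.1 a (t.2.symm ▸ ha)
      have e3 : ((t0⁻¹ * t.1 : T) : G) = (g * t0)⁻¹ * (g * t.1) := by simp [mul_assoc]
      rw [coe_mul, coe_mul _ (t0⁻¹ * t.1), e3]
      exact (Commute.mul_right (Commute.inv_right e1) e2).eq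
  have : Fintype (Sylow r T) := Fintype.ofFinite _
  have h3 : Nat.card T ≤ Nat.card (Sylow r T) * k := by
    rw [← Nat.card_congr (Equiv.sigmaFiberEquiv f), Nat.card_sigma, Nat.card_eq_fintype_card (α := Sylow r T)]
    exact (Finset.sum_le_card_nsmul _ _ _ fun P _ => hfib P).trans (by simp)
  obtain ⟨P⟩ : Nonempty (Sylow r T) := inferInstance
  have h4 : (P : Subgroup T).index = m := by
    have := (P : Subgroup T).card_mul_index
    rw [c0, hT] at this
    exact Nat.eq_of_mul_eq_mul_left (by omega) this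
  have h5 := Nat.le_of_dvd (Nat.pos_of_ne_zero index_ne_zero_of_finite) P.card_dvd_index
  rw [hT, mul_comm] at h3
  have h6 := Nat.le_of_mul_le_mul_right h3 (by omega)
  exact hm (by rw [show m = Nat.card (Sylow r T) by omega]; exact card_sylow_modEq_one r T)

theorem stepE : StepE.{u} := fun G _ _ T _ hy ⟨p, h, h2, hc⟩ hC => by
  by_contra hT
  obtain ⟨g, hg⟩ : ∃ g, g ∉ T := by
    by_contra e
    push Not at e
    exact hT (eq_top_iff.2 fun g _ => e g)
  have : Fact (Nat.Prime 2) := ⟨Nat.prime_two⟩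
  have : Fact (Nat.Prime 3) := ⟨Nat.prime_three⟩
  have := h.fact
  have hp : p ∣ Nat.card T := Nat.dvd_of_mem_primeFactors (h.fac ▸ by simp)
  -- an element of `gT` centralizes a Sylow subgroup of `T` and does not induce an inner automorphism
  have h1 : ∀ t : T, ∃ r, (r = 2 ∨ r = 3 ∨ r = p) ∧ ¬ r ∣ (centralizer ({g * t} : Set G)).index := fun t => by
    by_contra e
    push Not at e
    have hs : ({2, 3, p} : Finset ℕ) ⊆ (centralizer ({g * t} : Set G)).index.primeFactors := fun r hr => by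
      have hr' : r = 2 ∨ r = 3 ∨ r = p := by simpa using hr
      exact Nat.mem_primeFactors.2 ⟨by rcases hr' with rfl | rfl | rfl <;> exact Fact.out, e r hr',
        index_ne_zero_of_finite⟩
    have := (Finset.card_le_card hs).trans (hy _)
    rcases h.prime with rfl | rfl | rfl | rfl <;> simp at this
  have h3 : ∀ (t : T) (r : ℕ) [Fact r.Prime], ¬ r ∣ (centralizer ({g * t} : Set G)).index →
      ∃ P : Sylow r T, ∀ a ∈ (P : Subgroup T), (a : G) * (g * t) = g * t * a := fun t r _ hr => by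
    obtain ⟨P, hP⟩ := CL.Fgs.exists_sylow_le_of_not_dvd_index (p := r)
      (H := (centralizer ({g * t} : Set G)).subgroupOf T) fun e =>
        hr (e.trans (CL.Fgs.relIndex_dvd_index_of_normal _ T))
    exact ⟨P, fun a ha => mem_centralizer_singleton_iff.1 (hP ha)⟩
  have h4 : ∀ (t : T) (A : Subgroup T), (∀ a ∈ A, (a : G) * (g * t) = g * t * a) →
      (∀ α : MulAut T, (∀ a ∈ A, α a = a) → ∃ s, α = MulAut.conj s) → False := fun t A hA hα => by
    obtain ⟨s, hs⟩ := hα (MulAut.conjNormal (g * t)) fun a ha => Subtype.ext (by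
      rw [MulAut.conjNormal_apply, ← hA a ha, mul_inv_cancel_right])
    have h5 : (s : G)⁻¹ * (g * t) ∈ 𝒞(T) := fun y hy => by
      have := congrArg (fun β : MulAut T => (β ⟨y, hy⟩ : G)) hs
      simp only [MulAut.conjNormal_apply, MulAut.conj_apply, coe_mul, coe_inv] at this
      rw [mul_assoc (s : G)⁻¹, mul_inv_eq_iff_eq_mul.1 this]
      group
    rw [hC, mem_bot, inv_mul_eq_one] at h5
    exact hg ((T.mul_mem_cancel_right t.2).1 (h5 ▸ s.2))
  rcases hc with ⟨hc, -⟩ | ⟨hc, -⟩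
  · obtain rfl : p = 5 := by rw [hc] at hp; rcases h.prime with rfl | rfl | rfl | rfl <;> first | rfl | omega
    have c2 : ∀ E : Sylow 2 T, Nat.card (E : Subgroup T) = 4 := fun E => ceE_card (k := 2) (m := 15) E hc (by norm_num)
    have hn := h.ceE_num h2 (q := 4) (m := 15) hc (by norm_num) c2 fun n h1 h2 h3 => by
      have := Nat.le_of_dvd (by norm_num) h1
      have : n ≤ 14 := by omega
      interval_cases n <;> first | rfl | omega
    refine ceE_count T (r := 3) (m := 20) h h2 (by simp) (k := 3) (by norm_num)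
      (fun P => ceE_card (k := 1) (m := 20) P hc (by norm_num)) hc (by decide) g fun t => ?_
    obtain ⟨r, rfl | rfl | rfl, hr⟩ := h1 t
    · obtain ⟨P, hP⟩ := h3 t 2 hr
      exact (h4 t P hP (h.ceE_two h2 P (c2 P) hn)).elim
    · exact h3 t 3 hr
    · obtain ⟨P, hP⟩ := h3 t 5 hr
      exact (h4 t P hP (h.ceE_reg (m := 12) P (h.abp P) (ceE_card (k := 1) (m := 12) P hc (by norm_num)) hn hc
        (by norm_num))).elim
  · obtain rfl : p = 7 := by rw [hc] at hp; rcases h.prime with rfl | rfl | rfl | rfl <;> first | rfl | omega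
    have c2 : ∀ E : Sylow 2 T, Nat.card (E : Subgroup T) = 8 := fun E => ceE_card (k := 3) (m := 63) E hc (by norm_num)
    have hn := h.ceE_num h2 (q := 8) (m := 63) hc (by norm_num) c2 fun n h1 h2 h3 => by
      have := Nat.le_of_dvd (by norm_num) h1
      obtain ⟨j, rfl⟩ := h2
      have : j ≤ 7 := by omega
      interval_cases j <;> first | rfl | omega
    refine ceE_count T (r := 7) (m := 72) h h2 (by simp) (k := 7) (by norm_num)
      (fun P => ceE_card (k := 1) (m := 72) P hc (by norm_num)) hc (by decide) g fun t => ?_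
    obtain ⟨r, rfl | rfl | rfl, hr⟩ := h1 t
    · obtain ⟨P, hP⟩ := h3 t 2 hr
      exact (h4 t P hP (h.ceE_two h2 P (c2 P) hn)).elim
    · obtain ⟨P, hP⟩ := h3 t 3 hr
      exact (h4 t P hP (h.ceE_reg (m := 56) P (h.ab3 P) (ceE_card (k := 2) (m := 56) P hc (by norm_num)) hn hc
        (by norm_num))).elim
    · exact h3 t 7 hr

end CL.TwoPr
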