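/-
Groups whose class sizes have at most two prime divisors: reduction to the simple case, the central extension splits
(helper90).
-/
import Cfsg.Agent.Fgs.TwoPrDefs
import Cfsg.Agent.Fgs.ClassBasic
import Cfsg.Agent.Loc.FStar
import Cfsg.Agent.Transfer.Control

set_option autoImplicit false
set_option linter.unusedSectionVars false

namespace CL.TwoPr

open Cfsg Subgroup CL.Even CL.Grp

universe u

variable {G : Type u} [Group G] [Finite G]

theorem fg_relIndex_dvd {T : Subgroup G} (hT : T.IsSubnormal) (C : Subgroup G) : C.relIndex T ∣ C.index := by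
  induction hT with
  | top => rw [relIndex_top_right]
  | step H K h _ hn ih =>
    refine dvd_trans ?_ ih
    rw [← relIndex_subgroupOf h]
    exact Fgs.relIndex_dvd_index_of_normal _ _

theorem fg_index_dvd {T : Subgroup G} (hT : T.IsSubnormal) (x : T) :
    (centralizer ({x} : Set T)).index ∣ (centralizer ({(x : G)} : Set G)).index := by
  rw [show centralizer ({x} : Set T) = (centralizer ({(x : G)} : Set G)).subgroupOf T from Subgroup.ext fun y => by
    simp only [mem_centralizer_singleton_iff, mem_subgroupOf, Subtype.ext_iff, coe_mul]]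
  exact fg_relIndex_dvd hT _

theorem Tri.fg_card {p : ℕ} (h : Tri G p) : (Nat.card G).primeFactors.card = 3 := by
  rw [h.fac]; rcases h.prime with rfl | rfl | rfl | rfl <;> rfl

theorem Tri.fg_elt {p s : ℕ} (h : Tri G p) (h2 : Ab 2 G) (hs : s = 2 ∨ s = 3 ∨ s = p) :
    ∃ x : G, orderOf x = s ∧ x ≠ 1 ∧ Nu s x := by
  have h1 : s ∈ (Nat.card G).primeFactors := by simpa [h.fac] using hs
  have := Fact.mk (Nat.prime_of_mem_primeFactors h1)
  obtain ⟨x, hx⟩ := exists_prime_orderOf_dvd_card' s (Nat.dvd_of_mem_primeFactors h1)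
  refine ⟨x, hx, fun e => this.out.one_lt.ne (by rw [← hx, e, orderOf_one]), Ab.nu ?_ (k := 1)
    (by rw [pow_one, ← hx, pow_orderOf_eq_one])⟩
  rcases hs with rfl | rfl | rfl
  exacts [h2, h.ab3, h.abp]

theorem stepF (hS : Simp.{u}) (hE : StepE.{u}) : StepF.{u} := fun G _ _ _ hy hN => by
  have hF : fittingSubgroup G = ⊥ := hN _ inferInstance (by have := fittingSubgroup_isNilpotent G; infer_instance)
  have key : ∀ T : Subgroup G, IsComponent T → IsSimpleGroup T ∧ ¬ IsMulCommutative T ∧ Good T := fun T hT => by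
    have h1 : center T = ⊥ := (map_eq_bot_iff_of_injective _ T.subtype_injective).1 (by
      rw [Loc.map_center_subtype_eq_inf]; exact eq_bot_iff.2 ((Loc.inf_centralizer_le_fitting hT.1).trans hF.le))
    have := Loc.IsQuasisimple.isSimpleGroup_of_center_eq_bot hT.2 h1
    have h2 : ¬ IsMulCommutative T := fun e => Loc.IsQuasisimple.center_ne_top hT.2
      (eq_top_iff.2 fun a _ => mem_center_iff.2 fun b => e.is_comm.comm b a)
    exact ⟨this, h2, hS T h2 fun x => (Finset.card_le_card (Nat.primeFactors_mono (fg_index_dvd hT.1 x)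
      index_ne_zero_of_finite)).trans (hy x)⟩
  obtain ⟨T, hT⟩ : ∃ T : Subgroup G, IsComponent T := by
    by_contra! e
    exact Loc.fstar_ne_bot (G := G) (by rw [Loc.fstar_def, Loc.layer_eq_bot_iff.2 e, hF, sup_idem])
  obtain ⟨h1, h2, h3⟩ := key T hT
  have h4 : Cfsg.layer G = T := le_antisymm (Loc.layer_le_iff.2 fun L hL => le_of_eq (by_contra fun ne => by
    obtain ⟨p, t, a, -⟩ := h3
    obtain ⟨q, t', a', -⟩ := (key L hL).2.2
    obtain ⟨x, x2, x1, hx⟩ := t.fg_elt a (Or.inl rfl)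
    obtain ⟨y, y3, y1, hy'⟩ := t'.fg_elt a' (Or.inr (Or.inl rfl))
    have hc := (Loc.commute_of_commutator_eq_bot (Loc.IsComponent.commutator_eq_bot_of_ne hL hT ne) y.2 x.2).symm
    have k := fun r => nu_mul (r := r) hc.eq (by rw [orderOf_coe, orderOf_coe, x2, y3]; norm_num)
    have := (Finset.card_le_card (s := (Nat.card T).primeFactors) fun r hr => Nat.mem_primeFactors.2
      ⟨Nat.prime_of_mem_primeFactors hr, by_contra fun e => ?_, index_ne_zero_of_finite⟩).trans (hy (x * y))
    · rw [t.fg_card] at this; omega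
    rcases t.cases (Nat.prime_of_mem_primeFactors hr) (Nat.dvd_of_mem_primeFactors hr) with rfl | rfl | rfl
    · exact t'.n23 y y1 (fun d => (k _ e).2 (d.trans (fg_index_dvd hL.1 y))) hy'
    · exact t.n23 x x1 hx fun d => (k _ e).1 (d.trans (fg_index_dvd hT.1 x))
    · exact t.n2p x x1 hx fun d => (k _ e).1 (d.trans (fg_index_dvd hT.1 x)))) (Loc.IsComponent.le_layer hT)
  have : T.Normal := h4 ▸ inferInstance
  have h5 := Loc.centralizer_fstar_le_fitting (G := G)
  rw [Loc.fstar_def, hF, h4, sup_bot_eq] at h5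
  obtain rfl := hE G T hy h3 (eq_bot_iff.2 h5)
  have := (topEquiv (G := G)).symm.isSimpleGroup
  exact hS G (fun e => h2 inferInstance) hy

theorem stepG : StepG.{u} := fun G _ _ R _ hy hR ⟨p, t, a2, _⟩ => by
  have hf := QuotientGroup.mk'_surjective R
  set f := QuotientGroup.mk' R
  have hk : ∀ {x}, f x = 1 ↔ x ∈ R := QuotientGroup.eq_one_iff _
  have := t.simple
  have star : ∀ {x : G} {l s : ℕ}, f x ≠ 1 → (l = 2 ∨ l = 3 ∨ l = p) → Nu l (f x) → s.Prime →
      (s = l ∨ ¬ (s = 2 ∨ s = 3 ∨ s = p)) → Nu s x := fun {x l s} x1 hl hn hs h e => by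
    have h1 : l ∈ (Nat.card (G ⧸ R)).primeFactors := by simpa [t.fac] using hl
    have := (Finset.card_le_card (s := insert s ((Nat.card (G ⧸ R)).primeFactors.erase l)) fun r hr => by
      rcases Finset.mem_insert.1 hr with rfl | hr
      · exact Nat.mem_primeFactors.2 ⟨hs, e, index_ne_zero_of_finite⟩
      obtain ⟨h2, h3⟩ := Finset.mem_erase.1 hr
      exact Nat.mem_primeFactors.2 ⟨Nat.prime_of_mem_primeFactors h3, by_contra fun d => h2 (t.nu_unique x1
        (by simpa [t.fac] using h3) hl (fun d' => d (d'.trans (index_dvd_surj f hf x))) hn),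
        index_ne_zero_of_finite⟩).trans (hy x)
    rw [Finset.card_insert_of_notMem (fun d => h.elim (Finset.mem_erase.1 d).1 fun d' => d'
      (by simpa [t.fac] using (Finset.mem_erase.1 d).2)), Finset.card_erase_of_mem h1, t.fg_card] at this
    omega
  have h1 : fittingSubgroup G ≤ center G := fittingSubgroup_le_of_forall_pCore_le fun s hs => by
    obtain ⟨y, y1, hy⟩ : ∃ y : G ⧸ R, y ≠ 1 ∧ ∀ x, f x = y → Nu s x := by
      by_cases h : s = 2 ∨ s = 3 ∨ s = p
      · obtain ⟨y, -, y1, hy⟩ := t.fg_elt a2 h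
        exact ⟨y, y1, fun x e => star (e ▸ y1) h (e ▸ hy) hs.out (Or.inl rfl)⟩
      · obtain ⟨y, -, y1, hy⟩ := t.fg_elt a2 (Or.inl rfl)
        exact ⟨y, y1, fun x e => star (e ▸ y1) (Or.inl rfl) (e ▸ hy) hs.out (Or.inr h)⟩
    have h2 : ∀ x, f x = y → x ∈ 𝒞(pCore s G) := fun x e =>
      let ⟨P, hP⟩ := nu_iff.1 (hy x e)
      fun g hg => hP g (pCore_le_sylow P hg)
    obtain ⟨x, rfl⟩ := hf y
    have h3 : f.ker ≤ 𝒞(pCore s G) := fun r hr =>
      (mul_mem_cancel_left (h2 x rfl)).1 (h2 _ (by rw [map_mul, show f r = 1 from hr, mul_one]))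
    have h4 := ((show 𝒞(pCore s G).Normal from inferInstance).map f hf).eq_bot_or_eq_top.resolve_left fun e =>
      y1 (mem_bot.1 (e ▸ mem_map_of_mem f (h2 x rfl)))
    have h5 := comap_map_eq_self h3
    rw [h4, comap_top] at h5
    exact fun g hg => mem_center_iff.2 fun b => (h5.le (mem_top b) g hg).symm
  have h2 : R ≤ center G := (le_fittingSubgroup_of_isSolvable_of_le_centralizer hR fun r _ g hg =>
    (mem_center_iff.1 (h1 hg) r).symm).trans h1
  have h3 : ∀ (s : ℕ) [Fact s.Prime] (P : Sylow s G), ∀ x ∈ (P : Subgroup G), ∀ g ∈ (P : Subgroup G),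
      g * x = x * g := fun s hs P x hx g hg => by
    by_cases x1 : f x = 1
    · exact mem_center_iff.1 (h2 (hk.1 x1)) g
    obtain ⟨k, e⟩ := P.isPGroup' ⟨x, hx⟩
    have e1 : f x ^ s ^ k = 1 := by rw [← map_pow, show x ^ s ^ k = 1 from congrArg Subtype.val e, map_one]
    have hab : ∀ s, s = 2 ∨ s = 3 ∨ s = p → Ab s (G ⧸ R) := fun s hs => by
      rcases hs with rfl | rfl | rfl; exacts [a2, t.ab3, t.abp]
    have e2 := t.cases hs.out (by
      obtain ⟨j, -, hj⟩ := (Nat.dvd_prime_pow hs.out).1 (orderOf_dvd_of_pow_eq_one e1)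
      refine dvd_trans ?_ (orderOf_dvd_natCard (f x))
      rw [hj]
      exact dvd_pow_self s fun e => x1 (orderOf_eq_one_iff.1 (by rw [hj, e, pow_zero])))
    have e3 := (hab s e2).nu e1
    obtain ⟨P', hP'⟩ := nu_iff.1 (star x1 e2 e3 hs.out (Or.inl rfl))
    have e4 := (P'.mapSurjective hf).is_maximal' (t.isPGroup_cent x1 hs.out e1 e3 fun s hs _ => hab s hs) (by
      rintro _ ⟨b, hb, rfl⟩
      exact mem_centralizer_singleton_iff.2 (by rw [← map_mul, hP' b hb, map_mul]))
    obtain ⟨b, hb, e5⟩ := e4.le (mem_centralizer_singleton_iff.2 (congrArg Subtype.val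
      ((hab s e2 (P.mapSurjective hf)).is_comm.comm ⟨f g, g, hg, rfl⟩ ⟨f x, x, hx, rfl⟩)))
    have e6 := mem_center_iff.1 (h2 (hk.1 (show f (b⁻¹ * g) = 1 by rw [map_mul, map_inv, e5, inv_mul_cancel]))) x
    rw [← mul_inv_cancel_left b g, mul_assoc, ← e6, ← mul_assoc, hP' b hb, mul_assoc]
  refine ⟨le_antisymm (fun z hz => hk.1 (mem_bot.1 (((inferInstance : (center (G ⧸ R)).Normal).eq_bot_or_eq_top.resolve_right
    fun e => t.nab ⟨⟨fun a b => mem_center_iff.1 (e.ge (mem_top b)) a⟩⟩).le (mem_center_iff.2 fun g => ?_)))) h2, ?_, ?_⟩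
  · obtain ⟨g, rfl⟩ := hf g
    rw [← map_mul, mem_center_iff.1 hz, map_mul]
  · refine eq_bot_iff.2 (le_of_forall_isPGroup_le fun s hs Q h4 h5 => ?_)
    obtain ⟨P, hP⟩ := h5.exists_le_sylow
    refine (le_inf (le_inf hP (h4.trans inf_le_right)) (h4.trans (inf_le_left.trans h2))).trans
      ((Transfer.inf_commutator_inf_center_le_of_hall _ P.card_coprime_index).trans (commutator_le.2 fun a ha b hb => ?_))
    exact mem_bot.2 (commutatorElement_eq_one_iff_mul_comm.2 (h3 s P b hb a ha))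
  · have h4 : _root_.commutator (G ⧸ R) = ⊤ :=
      (inferInstance : (_root_.commutator (G ⧸ R)).Normal).eq_bot_or_eq_top.resolve_left fun e => t.nab
        ⟨⟨fun a b => commutatorElement_eq_one_iff_mul_comm.1
          (mem_bot.1 (e.le (commutator_mem_commutator (mem_top a) (mem_top b))))⟩⟩
    have h5 := comap_map_eq f (_root_.commutator G)
    rw [map_commutator_eq, MonoidHom.range_eq_top.2 hf, ← commutator_def, h4, comap_top, QuotientGroup.ker_mk'] at h5
    rw [sup_comm, h5]

end CL.TwoPr
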