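/-
A `2`-solvable finite group is solvable.
-/
import Cfsg.Agent.Odd.FT
import Cfsg.Agent.Loc.PSolv

set_option autoImplicit false

open Cfsg CL.Grp

namespace CL.Fgs

universe u

theorem isSolvable_of_isPSolvable_two (G : Type u) [Group G] [Finite G] : IsPSolvable 2 G → Group.IsSolvable G := by
  refine induction_on_card (P := fun X _ _ => IsPSolvable 2 X → Group.IsSolvable X) (fun X _ _ ih h => ?_) G
  rcases subsingleton_or_nontrivial X with _ | _
  · infer_instance
  obtain ⟨N, _, h1, -, h2⟩ := (Loc.isPSolvable_iff_below.1 h).exists_normal top_ne_bot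
  have h3 := ih _ (card_quotient_lt h1) (Loc.isPSolvable_quotient h N)
  have h4 : Group.IsSolvable N := h2.elim
    (fun ⟨_, e⟩ => have := (IsPGroup.of_card e).isNilpotent; inferInstance)
    fun e => Odd.feit_thompson (Nat.coprime_two_right.1 e)
  exact Group.isSolvable_of_ker_le_range N.subtype (QuotientGroup.mk' N) (by simp)

end CL.Fgs
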