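/-
Homogeneous finite groups (every isomorphism between subgroups extends to an automorphism): central automorphisms.
-/
import Cfsg.Agent.Odd.BG1b
import Cfsg.Agent.Grp.PGroupBasic
import Cfsg.Agent.S0071

set_option autoImplicit false

namespace CL.UHom

open Subgroup Cfsg CL.Grp
open scoped commutatorElement

/-- every isomorphism between subgroups extends to an automorphism -/
def UH (G : Type*) [Group G] : Prop :=
  ∀ (A B : Subgroup G) (e : A ≃* B), ∃ φ : G ≃* G, ∀ a : A, φ (a : G) = (e a : G)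

variable {G : Type*} [Group G]

theorem UH.conj (h : UH G) {x y : G} (e : orderOf x = orderOf y) : ∃ φ : G ≃* G, φ x = y := by
  have a : ∀ z : G, ∀ w : zpowers z, w ∈ zpowers (⟨z, mem_zpowers z⟩ : zpowers z) := fun z w => by
    obtain ⟨_, i, rfl⟩ := w
    exact ⟨i, rfl⟩
  obtain ⟨φ, hφ⟩ := h _ _ (mulEquivOfOrderOfEq (a x) (a y) (by simpa only [orderOf_mk] using e))
  exact ⟨φ, (hφ ⟨x, mem_zpowers x⟩).trans (by rw [mulEquivOfOrderOfEq_apply_gen])⟩

/-- `c ^ x` for `x : ZMod 2` -/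
def pw (c : G) (x : ZMod 2) : G := if x = 0 then 1 else c

theorem z2 (x : ZMod 2) : x = 0 ∨ x = 1 := by revert x; decide

@[simp] theorem pw_zero (c : G) : pw c 0 = 1 := if_pos rfl

@[simp] theorem pw_one (c : G) : pw c 1 = c := if_neg one_ne_zero

theorem pw_add {c : G} (hc : c * c = 1) (x y : ZMod 2) : pw c (x + y) = pw c x * pw c y := by
  rcases z2 x with rfl | rfl <;> rcases z2 y with rfl | rfl <;> simp [hc, show (1 + 1 : ZMod 2) = 0 from rfl]

theorem pw_mem {c : G} {H : Subgroup G} (hc : c ∈ H) (x : ZMod 2) : pw c x ∈ H := by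
  rcases z2 x with rfl | rfl <;> simp [hc]

theorem pw_sq {c : G} (hc : c * c = 1) (x : ZMod 2) : pw c x * pw c x = 1 := by
  rcases z2 x with rfl | rfl <;> simp [hc]

theorem conj_pw (g c : G) (x : ZMod 2) : g * pw c x * g⁻¹ = pw (g * c * g⁻¹) x := by
  rcases z2 x with rfl | rfl <;> simp

variable [Finite G]

theorem exists_chi {P C : Subgroup G} (hP : IsPGroup 2 P) (hC : ¬ P ≤ C) : ∃ l : G → ZMod 2,
    (∀ x ∈ P, ∀ y ∈ P, l (x * y) = l x + l y) ∧ (∀ x ∈ P, x ∈ C → l x = 0) ∧ ∃ x ∈ P, l x = 1 := by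
  classical
  obtain ⟨M, hM, hle⟩ := (eq_top_or_exists_le_coatom (C.subgroupOf P)).resolve_left (mt subgroupOf_eq_top.1 hC)
  have hi := index_eq_of_isCoatom_pGroup hP hM
  refine ⟨fun x => if h : x ∈ P then (if (⟨x, h⟩ : P) ∈ M then 0 else 1) else 0, fun x hx y hy => ?_,
    fun x hx hc => ?_, ?_⟩
  · have := mul_mem_iff_of_index_two hi (a := ⟨x, hx⟩) (b := ⟨y, hy⟩)
    simp only [hx, hy, mul_mem hx hy, dif_pos]
    change (if (⟨x, hx⟩ * ⟨y, hy⟩ : P) ∈ M then _ else _) = _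
    simp only [this]
    by_cases a : (⟨x, hx⟩ : P) ∈ M <;> by_cases b : (⟨y, hy⟩ : P) ∈ M <;> simp [a, b]
    rfl
  · simp only [hx, dif_pos]
    exact if_pos (hle (mem_subgroupOf.2 hc))
  · obtain ⟨x, -, hx⟩ := SetLike.exists_of_lt hM.lt_top
    exact ⟨x, x.2, by simp [hx]⟩

theorem UH.central (h : UH G) {P : Subgroup G} {f : G → G} (h1 : ∀ x ∈ P, f x ∈ P)
    (h2 : ∀ x ∈ P, ∀ y ∈ P, f (x * y) = f x * f y) (h3 : ∀ x ∈ P, ∀ y ∈ P, f x * y = y * f x)
    (h4 : ∀ x ∈ P, f (f x) = 1) (h5 : ∀ x ∈ P, f x * f x = 1) {g : G} (hg : g ∈ normalizer (P : Set G))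
    (h6 : ∀ x ∈ P, f (g * f x * g⁻¹) = 1) : ∃ k ∈ normalizer (P : Set G),
      ∀ w ∈ P, k * w * k⁻¹ = w * (f w * (g⁻¹ * f (g * w * g⁻¹) * g)) := by
  have a : ∀ x ∈ P, x * f x * f (x * f x) = x := fun x hx => by
    rw [h2 x hx _ (h1 x hx), h4 x hx, mul_one, mul_assoc, h5 x hx, mul_one]
  let e : P ≃* P :=
    { toFun u := ⟨u * f u, mul_mem u.2 (h1 u u.2)⟩
      invFun u := ⟨u * f u, mul_mem u.2 (h1 u u.2)⟩
      left_inv u := Subtype.ext (a u u.2)
      right_inv u := Subtype.ext (a u u.2)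
      map_mul' u v := Subtype.ext (by
        change (u * v : G) * f (u * v) = u * f u * (v * f v)
        rw [h2 _ u.2 _ v.2, mul_assoc (u : G) (f u), ← mul_assoc (f u), h3 _ u.2 _ v.2]; group) }
  obtain ⟨φ, hφ⟩ := h P P e
  have b : ∀ x ∈ P, φ x = x * f x := fun x hx => hφ ⟨x, hx⟩
  have c : ∀ w ∈ P, g⁻¹ * φ g * w * (g⁻¹ * φ g)⁻¹ = w * (f w * (g⁻¹ * f (g * w * g⁻¹) * g)) := fun w hw => by
    have m := mul_mem hw (h1 w hw)
    have e1 : φ g * w * (φ g)⁻¹ = φ (g * (w * f w) * g⁻¹) := by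
      rw [map_mul, map_mul, map_inv, b _ m, a w hw]
    calc _ = g⁻¹ * (φ g * w * (φ g)⁻¹) * g := by group
      _ = _ := by
        rw [e1, b _ (Loc.conj_mem_of_mem_normalizer hg m), ← conj_mul, h2 _ (Loc.conj_mem_of_mem_normalizer hg hw) _
          (Loc.conj_mem_of_mem_normalizer hg (h1 w hw)), h6 w hw]; group
  refine ⟨_, mem_normalizer_fintype fun w hw => ?_, c⟩
  rw [c w hw]
  exact mul_mem hw (mul_mem (h1 w hw) (Loc.inv_conj_mem_of_mem_normalizer hg
    (h1 _ (Loc.conj_mem_of_mem_normalizer hg hw))))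

omit [Finite G] in
theorem mem_of_sq_mem {S H K : Subgroup G} (hS : IsSylowIn 2 S H) (h1 : S ≤ K) (hn : H ≤ normalizer (K : Set G))
    {x : G} (hx : x ∈ H) (h2 : x ^ 2 ∈ K) : x ∈ K := by
  have := normal_subgroupOf_of_le_normalizer hn
  have a : x ^ K.relIndex H ∈ K := mem_subgroupOf.1 (pow_index_mem (K.subgroupOf H) ⟨x, hx⟩)
  have b := hS.not_dvd_relIndex_of_le (le_inf h1 hS.le) inf_le_right
  rw [inf_relIndex_right] at b
  obtain ⟨m, hm⟩ : Odd (K.relIndex H) := Nat.odd_iff.2 (by omega)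
  rwa [hm, pow_succ, pow_mul, mul_mem_cancel_left (pow_mem h2 m)] at a

theorem exists_mul_of_sq {S H K : Subgroup G} (hS : IsSylowIn 2 S H) (hn : H ≤ normalizer (K : Set G))
    (h2 : ∀ x ∈ H, x ^ 2 ∈ K) {x : G} (hx : x ∈ H) : ∃ k ∈ K, ∃ s ∈ S, x = k * s := by
  have := normal_subgroupOf_of_le_normalizer hn
  obtain ⟨n, hn⟩ := IsPGroup.iff_card.1 (show IsPGroup 2 (H ⧸ K.subgroupOf H) from fun y => ⟨1, by
    obtain ⟨y, rfl⟩ := QuotientGroup.mk_surjective y
    rw [pow_one, ← QuotientGroup.mk_pow, QuotientGroup.eq_one_iff]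
    exact h2 y y.2⟩)
  exact hS.exists_mul_eq_of_relIndex_pow hn hx

theorem exists_two_part (x : G) : ∃ m, IsPGroup 2 (zpowers (x ^ (2 * m + 1))) := by
  obtain ⟨k, _, ⟨m, rfl⟩, e⟩ := Nat.exists_eq_two_pow_mul_odd (orderOf_pos x).ne'
  refine ⟨m, ?_⟩
  obtain ⟨j, -, hj⟩ := (Nat.dvd_prime_pow Nat.prime_two).1 (orderOf_dvd_of_pow_eq_one (x := x ^ (2 * m + 1))
    (n := 2 ^ k) (by rw [← pow_mul, mul_comm, ← e, pow_orderOf_eq_one]))
  exact IsPGroup.of_card ((Nat.card_zpowers _).trans hj)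

theorem exists_odd_part (x : G) : ∃ k, Odd (orderOf (x ^ 2 ^ k)) := by
  obtain ⟨k, m, hm, e⟩ := Nat.exists_eq_two_pow_mul_odd (orderOf_pos x).ne'
  exact ⟨k, hm.of_dvd_nat (orderOf_dvd_of_pow_eq_one (by rw [← pow_mul, ← e, pow_orderOf_eq_one]))⟩

omit [Finite G] in
theorem mem_of_odd {x : G} (hx : Odd (orderOf x)) {H : Subgroup G} (k : ℕ) (h : x ^ 2 ^ k ∈ H) : x ∈ H :=
  zpowers_le.2 h (mem_zpowers_pow_iff.2 (Nat.Coprime.pow_left k (Nat.coprime_two_left.2 hx)))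

theorem exists_not_cent (hp : commutator G = ⊤) {p : ℕ} [Fact p.Prime] {z : G} (hz : orderOf z = p) :
    ∃ Q : Subgroup G, IsPGroup p Q ∧ ∃ g ∈ normalizer (Q : Set G), (orderOf g).Coprime p ∧
      g ∉ centralizer (Q : Set G) := by
  by_contra hc
  push Not at hc
  obtain ⟨P⟩ : Nonempty (Sylow p G) := inferInstance
  obtain ⟨N, hN, hc⟩ := (Cfsg.Agent.S0071.result P).2 fun Q hQ g hg h => hc Q (P.2.to_le hQ) g hg h
  have a : IsPGroup p (G ⧸ N) := by
    obtain ⟨k, hk⟩ := IsPGroup.iff_card.1 P.2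
    exact IsPGroup.of_card (hc.symm.index_eq_card.trans hk)
  have : Group.IsNilpotent (G ⧸ N) := a.isNilpotent
  have b : N = ⊤ := by
    by_contra b
    have := QuotientGroup.nontrivial_iff.2 b
    refine (Group.IsSolvable.commutator_lt_top_of_nontrivial (G ⧸ N)).ne ?_
    rw [commutator_def, ← map_top_of_surjective _ (QuotientGroup.mk'_surjective N), ← map_commutator,
      ← commutator_def, hp]
  have c := hc.index_eq_card
  rw [b, card_top] at c
  have d := P.1.index_mul_card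
  have e := P.not_dvd_index
  rw [c, ← hz] at e
  exact e (orderOf_dvd_natCard z)

omit [Finite G] in
theorem UH.mem_center (h : UH G) {z x : G} (hz : z ∈ center G) (e : orderOf z = orderOf x) : x ∈ center G := by
  obtain ⟨φ, rfl⟩ := h.conj e
  refine mem_center_iff.2 fun g => ?_
  obtain ⟨g, rfl⟩ := φ.surjective g
  rw [← map_mul, ← map_mul, mem_center_iff.1 hz g]

theorem UH.center_two (h : UH G) (hp : commutator G = ⊤) : IsPGroup 2 (center G) := by
  refine IsPGroup.iff_card.2 ⟨_, Nat.eq_prime_pow_of_unique_prime_dvd Nat.card_pos.ne' fun {p} hp' hd => ?_⟩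
  by_contra h2
  have : Fact p.Prime := ⟨hp'⟩
  obtain ⟨z, hz⟩ := exists_prime_orderOf_dvd_card' p hd
  rw [← Subgroup.orderOf_coe] at hz
  obtain ⟨Q, hQ, g, hg, h1, h3⟩ := exists_not_cent hp hz
  obtain ⟨k, hk⟩ := IsPGroup.iff_card.1 hQ
  refine h3 (Odd.coprime_odd_faithful_Ohm1' hp' h2 hQ (zpowers_le.2 hg)
    (by rw [Nat.card_zpowers, hk]; exact h1.pow_right k) (fun x _ hx => ?_) (mem_zpowers g))
  by_cases x1 : x = 1
  · exact x1 ▸ one_mem _
  · exact center_le_centralizer _ (h.mem_center z.2 (hz.trans (orderOf_eq_prime hx x1).symm))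

/-- two independent functionals cannot both give inner central automorphisms with all values -/
theorem false_of_inner {P A : Subgroup G} (hA : ∀ x, x ∈ A ↔ x * x = 1) (hc : A ≤ center G) (h4 : 2 < Nat.card A)
    {l m : G → ZMod 2} (hl : ∀ c ∈ A, ∃ u ∈ P, ∀ w ∈ P, u * w * u⁻¹ = w * pw c (l w))
    (hm : ∀ c ∈ A, ∃ u ∈ P, ∀ w ∈ P, u * w * u⁻¹ = w * pw c (m w))
    {w₁ w₂ : G} (h₁ : w₁ ∈ P) (h₂ : w₂ ∈ P) (l1 : l w₁ = 1) (m1 : m w₁ = 0) (l2 : l w₂ = 0) (m2 : m w₂ = 1) :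
    False := by
  have cm : ∀ c ∈ A, ∀ g, c * g = g * c := fun c h g => (mem_center_iff.1 (hc h) g).symm
  have cj : ∀ {d}, d ∈ A → ∀ g x, g * (x * d) * g⁻¹ = g * x * g⁻¹ * d := fun {d} h g x => by
    rw [mul_assoc _ g⁻¹, ← cm d h g⁻¹]; group
  have pm : ∀ b ∈ A, ∀ c ∈ A, ∀ x, pw (b * c) x = pw b x * pw c x := fun b _ c _ x => by
    rcases z2 x with rfl | rfl <;> simp
  let U : Subgroup G :=
    { carrier := {u | u ∈ P ∧ ∃ b ∈ A, ∃ c ∈ A, ∀ w ∈ P, u * w * u⁻¹ = w * (pw b (l w) * pw c (m w))}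
      one_mem' := ⟨one_mem _, 1, one_mem _, 1, one_mem _, fun w _ => by simp [pw]⟩
      mul_mem' := by
        rintro u u' ⟨hu, b, hb, c, hc, e⟩ ⟨hu', b', hb', c', hc', e'⟩
        refine ⟨mul_mem hu hu', _, mul_mem hb hb', _, mul_mem hc hc', fun w hw => ?_⟩
        calc _ = u * (u' * w * u'⁻¹) * u⁻¹ := by group
          _ = _ := by
            rw [e' w hw, cj (mul_mem (pw_mem hb' _) (pw_mem hc' _)), e w hw, pm b hb b' hb',
              pm c hc c' hc', mul_assoc, mul_assoc (pw b _), mul_assoc (pw b _), ← mul_assoc (pw c _),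
              cm _ (pw_mem hc _) (pw b' _), mul_assoc]
      inv_mem' := by
        rintro u ⟨hu, b, hb, c, hc, e⟩
        refine ⟨inv_mem hu, b, hb, c, hc, fun w hw => ?_⟩
        have a := mul_mem (pw_mem hb (l w)) (pw_mem hc (m w))
        have e1 := e w hw
        generalize pw b (l w) * pw c (m w) = d at a e1
        calc _ = u⁻¹ * (w * d * d) * u⁻¹⁻¹ := by rw [mul_assoc w, (hA _).1 a, mul_one]
          _ = u⁻¹ * (u * w * u⁻¹) * u⁻¹⁻¹ * d := by rw [cj a, e1]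
          _ = _ := by group }
  have ex : ∀ c : G, ∃ b ∈ A, b ≠ 1 ∧ b ≠ c := fun c => by
    by_contra hn
    push Not at hn
    have : (A : Set G) ⊆ {1, c} := fun b hb => by by_cases e : b = 1; exacts [Or.inl e, Or.inr (hn b hb e)]
    have := (Set.ncard_le_ncard this).trans (Set.ncard_insert_le _ _)
    rw [Set.ncard_singleton] at this
    exact h4.not_ge this
  have key : ∀ {l m : G → ZMod 2}, (∀ c ∈ A, ∃ u ∈ P, ∀ w ∈ P, u * w * u⁻¹ = w * pw c (l w)) → ∀ u ∈ P, ∀ c ∈ A,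
      (∀ w ∈ P, l w = 0 → u * w * u⁻¹ = w * pw c (m w)) → l u = 0 := fun {l m} hl u hu c hc e => by
    obtain ⟨b', hb', n1, n2⟩ := ex c
    obtain ⟨v, hv, ev⟩ := hl b' hb'
    have v0 : l v = 0 := (z2 _).resolve_right fun e1 => n1 (by simpa [e1] using ev v hv)
    refine (z2 _).resolve_right fun e1 => ?_
    have a := ev u hu
    have a' := e v hv v0
    rw [e1, pw_one, mul_inv_eq_iff_eq_mul, ← cm b' hb', mul_assoc] at a
    rw [mul_inv_eq_iff_eq_mul, ← cm _ (pw_mem hc _), mul_assoc, a, ← mul_assoc, right_eq_mul] at a'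
    rcases z2 (m v) with e2 | e2 <;> rw [e2] at a'
    · exact n1 (by simpa using a')
    · exact n2 (mul_left_cancel ((pw_one c ▸ a' :).trans ((hA c).1 hc).symm))
  have ab : ∀ u ∈ U, ∀ w ∈ U, u * w = w * u := by
    rintro u ⟨hu, b, hb, c, hc, e⟩ w ⟨hw, b', hb', c', hc', e'⟩
    rw [← mul_inv_eq_iff_eq_mul, e w hw, key hl w hw c' hc' (fun x hx e0 => by simpa [e0] using e' x hx),
      key hm w hw b' hb' (fun x hx e0 => by simpa [e0] using e' x hx)]
    simp
  let s : U →* G := MonoidHom.mk' (fun u => (u : G) * u) fun u v => by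
    change (u * v : G) * (u * v) = _
    rw [mul_assoc, ← mul_assoc (v : G), ab v v.2 u u.2]; group
  have a1 : Nat.card s.ker ≤ Nat.card A := Nat.card_le_card_of_injective
    (fun x => ⟨x.1.1, (hA _).2 x.2⟩) fun x y e => Subtype.ext (Subtype.ext (Subtype.mk.inj e))
  have a2 : s.range ≤ P ⊓ centralizer (P : Set G) := by
    rintro _ ⟨⟨u, hu, b, hb, c, hc, e⟩, rfl⟩
    refine mem_inf.2 ⟨mul_mem hu hu, fun w hw => (mul_inv_eq_iff_eq_mul.1 ?_).symm⟩
    have a := mul_mem (pw_mem hb (l w)) (pw_mem hc (m w))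
    calc u * u * w * (u * u)⁻¹ = u * (u * w * u⁻¹) * u⁻¹ := by group
      _ = _ := by rw [e w hw, cj a, e w hw, mul_assoc, (hA _).1 a, mul_one]
  choose! ul hul eul using hl
  choose! um hum eum using hm
  have e3 : ∀ z ∈ P ⊓ centralizer (P : Set G), ∀ b ∈ A, ∀ c ∈ A, ∀ w ∈ P, z * (ul b * um c) * w * (z * (ul b * um c))⁻¹ =
      w * (pw b (l w) * pw c (m w)) := fun z hz b hb c hc w hw => by
    calc _ = z * (ul b * (um c * w * (um c)⁻¹) * (ul b)⁻¹) * z⁻¹ := by group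
      _ = _ := by
        rw [eum c hc w hw, cj (pw_mem hc _), eul b hb w hw, mul_assoc w,
          cj (mul_mem (pw_mem hb _) (pw_mem hc _)), ← hz.2 w hw, mul_inv_cancel_right]
  have a3 : Nat.card ((P ⊓ centralizer (P : Set G) : Subgroup G) × A × A) ≤ Nat.card U :=
    Nat.card_le_card_of_injective (fun x => ⟨x.1 * (ul x.2.1 * um x.2.2), mul_mem x.1.2.1
      (mul_mem (hul _ x.2.1.2) (hum _ x.2.2.2)), _, x.2.1.2, _, x.2.2.2, e3 _ x.1.2 _ x.2.1.2 _ x.2.2.2⟩) (by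
      rintro ⟨z, b, c⟩ ⟨z', b', c'⟩ e
      have e : (z : G) * (ul b * um c) = z' * (ul b' * um c') := congrArg Subtype.val e
      have f := fun w hw => (e3 _ z.2 _ b.2 _ c.2 w hw).symm.trans (e ▸ e3 _ z'.2 _ b'.2 _ c'.2 w hw)
      obtain rfl : b = b' := Subtype.ext (by simpa [l1, m1] using f w₁ h₁)
      obtain rfl : c = c' := Subtype.ext (by simpa [l2, m2] using f w₂ h₂)
      rw [Subtype.ext (mul_right_cancel e)])
  have a4 := s.ker.index_mul_card
  rw [index_ker] at a4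
  rw [Nat.card_prod, Nat.card_prod, ← a4] at a3
  have a5 := a3.trans (Nat.mul_le_mul (card_le_of_le a2) a1)
  have a6 := Nat.le_of_mul_le_mul_left a5 Nat.card_pos
  nlinarith

theorem UH.eq_of_central (h : UH G) (hp : commutator G = ⊤) {z : G} (hz : z ∈ center G) (h2 : orderOf z = 2)
    {x : G} (hx : orderOf x = 2) : x = z := by
  by_contra hne
  have hc : ∀ x : G, x * x = 1 → x ∈ center G := fun x hx => by
    by_cases x1 : x = 1
    · exact x1 ▸ one_mem _
    · exact h.mem_center hz (h2.trans (orderOf_eq_prime ((pow_two x).trans hx) x1).symm)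
  let A : Subgroup G :=
    { carrier := {x | x * x = 1}
      one_mem' := mul_one 1
      mul_mem' := fun {a b} ha hb => by
        change a * b * (a * b) = 1
        rw [mul_assoc, ← mul_assoc b, mem_center_iff.1 (hc a ha) b, mul_assoc, hb, mul_one, ha]
      inv_mem' := fun {a} ha => by
        change a⁻¹ * a⁻¹ = 1
        rw [← mul_inv_rev, ha, inv_one] }
  have hA : ∀ x, x ∈ A ↔ x * x = 1 := fun _ => Iff.rfl
  have sq : ∀ {y : G}, orderOf y = 2 → y ∈ A ∧ 1 ≠ y := fun {y} hy =>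
    ⟨(pow_two y).symm.trans (hy ▸ pow_orderOf_eq_one y), fun e => by rw [← e, orderOf_one] at hy; omega⟩
  have h4 : 2 < Nat.card A := (Set.two_lt_ncard (s := (A : Set G))).2
    ⟨1, one_mem A, x, (sq hx).1, z, (sq h2).1, (sq hx).2, (sq h2).2, hne⟩
  clear_value A
  have hc : A ≤ center G := fun x hx => hc x ((hA x).1 hx)
  have cj : ∀ c ∈ A, ∀ g, g * c * g⁻¹ = c := fun c h g => by rw [mem_center_iff.1 (hc h) g, mul_inv_cancel_right]
  have : A.Normal := ⟨fun c h g => (cj c h g).symm ▸ h⟩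
  have pA : IsPGroup 2 A := fun a => ⟨1, Subtype.ext ((pow_two _).trans ((hA _).1 a.2))⟩
  obtain ⟨Q, hQ⟩ := exists_not_cent hp h2
  obtain ⟨P, -, ⟨hP, g, hg, go, gc⟩, hmax⟩ := Finite.exists_le_maximal (p := fun Q : Subgroup G => IsPGroup 2 Q ∧
    ∃ g ∈ normalizer (Q : Set G), (orderOf g).Coprime 2 ∧ g ∉ centralizer (Q : Set G)) hQ
  have mx : ∀ R : Subgroup G, IsPGroup 2 R → R ≤ normalizer (P : Set G) → ∀ n ∈ normalizer (P : Set G),
      n ∈ normalizer (R : Set G) → (orderOf n).Coprime 2 → n ∉ centralizer (P : Set G) → R ≤ P :=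
    fun R hR h1 n n1 n2 n3 n4 => le_sup_left.trans (hmax ⟨hR.to_sup_of_normal_right' hP h1, n,
      zpowers_le.1 (le_normalizer_sup' (zpowers_le.2 n2) (zpowers_le.2 n1)), n3,
      fun e => n4 (centralizer_le (SetLike.coe_subset_coe.2 le_sup_right) e)⟩ le_sup_right)
  have AP : A ≤ P := mx A pA (hc.trans ((center_le_centralizer _).trans (centralizer_le_normalizer _))) g hg
    (by rw [normalizer_eq_top]; exact mem_top g) go gc
  have inner : ∀ k ∈ normalizer (P : Set G), (∀ w ∈ P, w⁻¹ * (k * w * k⁻¹) ∈ A) →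
      ∃ u ∈ P, ∀ w ∈ P, u * w * u⁻¹ = k * w * k⁻¹ := by
    let R : Subgroup G :=
      { carrier := {k | k ∈ normalizer (P : Set G) ∧ ∀ w ∈ P, w⁻¹ * (k * w * k⁻¹) ∈ A}
        one_mem' := ⟨one_mem _, fun w _ => by simp⟩
        mul_mem' := by
          rintro a b ⟨ha, ea⟩ ⟨hb, eb⟩
          refine ⟨mul_mem ha hb, fun w hw => ?_⟩
          have := mul_mem (eb w hw) (ea _ (Loc.conj_mem_of_mem_normalizer hb hw))
          convert this using 1; group
        inv_mem' := by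
          rintro a ⟨ha, ea⟩
          refine ⟨inv_mem ha, fun w hw => ?_⟩
          have := inv_mem (ea _ (Loc.inv_conj_mem_of_mem_normalizer ha hw))
          convert this using 1; group }
    have nR : normalizer (P : Set G) ≤ normalizer (R : Set G) := fun n hn => mem_normalizer_fintype (by
      rintro k ⟨hk, ek⟩
      refine ⟨mul_mem (mul_mem hn hk) (inv_mem hn), fun w hw => ?_⟩
      have := this.conj_mem _ (ek _ (Loc.inv_conj_mem_of_mem_normalizer hn hw)) n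
      convert this using 1; group)
    obtain ⟨S, hS⟩ := exists_isSylowIn 2 R
    have RN : R ≤ normalizer (P : Set G) := fun k hk => hk.1
    have dec : ∀ k ∈ R, ∃ c ∈ centralizer (P : Set G), ∃ s ∈ S, k = c * s := fun k hk =>
      exists_mul_of_sq hS (RN.trans (le_normalizer_centralizer' le_rfl)) (fun k hk w hw => by
        have a := hk.2 w hw
        refine (mul_inv_eq_iff_eq_mul.1 ?_).symm
        calc _ = k * (w * (w⁻¹ * (k * w * k⁻¹))) * k⁻¹ := by rw [pow_two]; group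
          _ = k * w * k⁻¹ * (w⁻¹ * (k * w * k⁻¹)) := by rw [← conj_mul, cj _ a]
          _ = w * (w⁻¹ * (k * w * k⁻¹) * (w⁻¹ * (k * w * k⁻¹))) := by group
          _ = w := by rw [(hA _).1 a, mul_one]) hk
    obtain ⟨r, hr, hrg⟩ := hS.frattini nR hg
    obtain ⟨c, hc', s, hs, rfl⟩ := dec r hr
    have c1 : s⁻¹ * c * s ∈ centralizer (P : Set G) :=
      Loc.inv_conj_mem_of_mem_normalizer (le_normalizer_centralizer' le_rfl (RN (hS.le hs))) hc'
    have n1 : s⁻¹ * c * s * g ∈ normalizer (S : Set G) := by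
      simpa only [mul_assoc] using mul_mem (inv_mem (le_normalizer hs)) hrg
    generalize s⁻¹ * c * s = d at c1 n1
    have n2 : d * g ∈ normalizer (P : Set G) := mul_mem (centralizer_le_normalizer _ c1) hg
    have pw' : ∀ (j : ℕ), ∀ w ∈ P, (d * g) ^ j * w * ((d * g) ^ j)⁻¹ = g ^ j * w * (g ^ j)⁻¹ := fun j w hw => by
      induction j with
      | zero => simp
      | succ j ih =>
        calc _ = d * (g * ((d * g) ^ j * w * ((d * g) ^ j)⁻¹) * g⁻¹) * d⁻¹ := by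
              rw [pow_succ']; simp only [mul_inv_rev, mul_assoc]
          _ = d * (g ^ (j + 1) * w * (g ^ (j + 1))⁻¹) * d⁻¹ := by rw [ih, pow_succ']; group
          _ = _ := by rw [← c1 _ (Loc.conj_mem_of_mem_normalizer (pow_mem hg _) hw), mul_inv_cancel_right]
    obtain ⟨j, hj⟩ := exists_odd_part (d * g)
    have SP : S ≤ P := mx S hS.isPGroup (hS.le.trans RN) _ (pow_mem n2 _) (pow_mem n1 _)
      (Nat.coprime_two_right.2 hj) fun e => gc (mem_of_odd (Nat.coprime_two_right.1 go) j fun w hw =>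
        (mul_inv_eq_iff_eq_mul.1 ((pw' _ w hw).symm.trans (mul_inv_eq_iff_eq_mul.2 (e w hw).symm))).symm)
    intro k hk ek
    obtain ⟨c, hc, s, hs, rfl⟩ := dec k ⟨hk, ek⟩
    refine ⟨s, SP hs, fun w hw => ?_⟩
    calc _ = c * (s * w * s⁻¹) * c⁻¹ := by
          rw [← hc _ (mul_mem (mul_mem (SP hs) hw) (inv_mem (SP hs))), mul_inv_cancel_right]
      _ = _ := by group
  have gen : ∀ l : G → ZMod 2, (∀ x ∈ P, ∀ y ∈ P, l (x * y) = l x + l y) → (∀ a ∈ A, l a = 0) → ∀ c ∈ A,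
      ∃ u ∈ P, ∀ w ∈ P, u * w * u⁻¹ = w * pw c (l w + l (g * w * g⁻¹)) := fun l l1 l2 c hc' => by
    have c2 := (hA c).1 hc'
    obtain ⟨k, hk, ek⟩ := h.central (P := P) (f := fun w => pw c (l w)) (fun _ _ => AP (pw_mem hc' _))
      (fun x hx y hy => by rw [l1 x hx y hy, pw_add c2]) (fun _ _ y _ => (mem_center_iff.1 (hc (pw_mem hc' _)) y).symm)
      (fun _ _ => by rw [l2 _ (pw_mem hc' _), pw_zero]) (fun _ _ => pw_sq c2 _) hg
      (fun _ _ => by rw [cj _ (pw_mem hc' _), l2 _ (pw_mem hc' _), pw_zero])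
    have ek' : ∀ w ∈ P, k * w * k⁻¹ = w * pw c (l w + l (g * w * g⁻¹)) := fun w hw => by
      have := cj _ (pw_mem hc' (l (g * w * g⁻¹))) g⁻¹
      rw [inv_inv] at this
      rw [ek w hw, pw_add c2, this]
    obtain ⟨u, hu, eu⟩ := inner k hk fun w hw => by rw [ek' w hw, inv_mul_cancel_left]; exact pw_mem hc' _
    exact ⟨u, hu, fun w hw => (eu w hw).trans (ek' w hw)⟩
  obtain ⟨l, l1, l2, x₀, hx₀, l3⟩ := exists_chi (C := centralizer (zpowers g : Set G)) hP
    fun e => gc (zpowers_le.1 (le_centralizer_iff.1 e))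
  have l0 : l 1 = 0 := l2 1 (one_mem _) (one_mem _)
  have li : ∀ w ∈ P, l w⁻¹ = l w := fun w hw => by
    have := l1 w hw _ (inv_mem hw)
    rw [mul_inv_cancel, l0] at this
    revert this; generalize l w = a; generalize l w⁻¹ = b; revert a b; decide
  have cP := fun {n} (hn : n ∈ normalizer (P : Set G)) {w} (hw : w ∈ P) => Loc.conj_mem_of_mem_normalizer hn hw
  have mv : ∀ j, ∃ w ∈ P, l (g ^ 2 ^ j * w * (g ^ 2 ^ j)⁻¹) ≠ l w := fun j => by
    by_contra hn
    push Not at hn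
    let H : Subgroup G :=
      { carrier := {k | k ∈ normalizer (P : Set G) ∧ ∀ w ∈ P, l (k * w * k⁻¹) = l w}
        one_mem' := ⟨one_mem _, fun w _ => by simp⟩
        mul_mem' := by
          rintro a b ⟨ha, ea⟩ ⟨hb, eb⟩
          refine ⟨mul_mem ha hb, fun w hw => ?_⟩
          rw [← eb w hw, ← ea _ (cP hb hw)]; congr 1; group
        inv_mem' := by
          rintro a ⟨ha, ea⟩
          refine ⟨inv_mem ha, fun w hw => ?_⟩
          rw [← ea _ (cP (inv_mem ha) hw)]; congr 1; group }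
    let B : Subgroup G :=
      { carrier := {w | w ∈ P ∧ l w = 0}
        one_mem' := ⟨one_mem _, l0⟩
        mul_mem' := fun {a b} ha hb => ⟨mul_mem ha.1 hb.1, by rw [l1 a ha.1 b hb.1, ha.2, hb.2, add_zero]⟩
        inv_mem' := fun {a} ha => ⟨inv_mem ha.1, (li a ha.1).trans ha.2⟩ }
    have gH : zpowers g ≤ H := zpowers_le.2 (mem_of_odd (Nat.coprime_two_right.1 go) j ⟨pow_mem hg _, hn⟩)
    obtain ⟨k, hk⟩ := IsPGroup.iff_card.1 hP
    have e := Odd.coprime_cent_prod (zpowers_le.2 hg) (by rw [Nat.card_zpowers, hk]; exact go.pow_right k)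
      (Or.inl inferInstance)
    have : P ≤ B := e.ge.trans (sup_le (commutator_le.2 fun w hw a ha => by
      have a1 := cP (gH ha).1 (inv_mem hw)
      rw [show ⁅w, a⁆ = w * (a * w⁻¹ * a⁻¹) by rw [commutatorElement_def]; group]
      refine ⟨mul_mem hw a1, ?_⟩
      rw [l1 w hw _ a1, (gH ha).2 _ (inv_mem hw), li w hw, CharTwo.add_self_eq_zero]) fun w hw => ⟨hw.1, l2 w hw.1 hw.2⟩)
    exact zero_ne_one ((this hx₀).2.symm.trans l3)
  have lA : ∀ a ∈ A, l a = 0 := fun a ha => l2 a (AP ha) (center_le_centralizer _ (hc ha))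
  have g1 := gen l l1 lA
  have l1' : ∀ x ∈ P, ∀ y ∈ P, l (g * (x * y) * g⁻¹) = l (g * x * g⁻¹) + l (g * y * g⁻¹) := fun x hx y hy => by
    rw [← conj_mul, l1 _ (cP hg hx) _ (cP hg hy)]
  have l1'' : ∀ x ∈ P, ∀ y ∈ P, l (g * (g * (x * y) * g⁻¹) * g⁻¹) =
      l (g * (g * x * g⁻¹) * g⁻¹) + l (g * (g * y * g⁻¹) * g⁻¹) := fun x hx y hy => by
    rw [← l1' _ (cP hg hx) _ (cP hg hy), conj_mul]
  have g2 := gen (fun w => l (g * w * g⁻¹)) l1' fun a ha => by rw [cj a ha, lA a ha]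
  obtain ⟨a, ha, ea⟩ := mv 0
  obtain ⟨b, hb, eb⟩ := mv 1
  rw [pow_zero, pow_one] at ea
  rw [show g ^ 2 ^ 1 * b * (g ^ 2 ^ 1)⁻¹ = g * (g * b * g⁻¹) * g⁻¹ by rw [pow_one, pow_two]; group] at eb
  have ha' := Loc.inv_conj_mem_of_mem_normalizer hg ha
  have ea' : g * (g⁻¹ * a * g) * g⁻¹ = a := by group
  have z3 : ∀ a b c : ZMod 2, c ≠ a → (a + b = 1 ∧ b + c = 0) ∨ (a + b = 0 ∧ b + c = 1) := by decide
  have z4 : ∀ a b : ZMod 2, b ≠ a → a + b = 1 := by decide
  rcases z3 _ (l (g * b * g⁻¹)) _ eb with ⟨e1, e2⟩ | ⟨e1, e2⟩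
  · rcases z2 (l (g⁻¹ * a * g) + l a) with e | e
    · exact false_of_inner hA hc h4 g1 g2 hb ha' e1 e2 (by rwa [ea']) (by simpa only [ea'] using z4 _ _ ea)
    · refine false_of_inner hA hc h4 g1 g2 hb (mul_mem ha' hb) e1 e2 ?_ ?_
      · rw [l1 _ ha' _ hb, l1' _ ha' _ hb, ea', add_add_add_comm, e, e1]; rfl
      · rw [l1' _ ha' _ hb, l1'' _ ha' _ hb, ea', add_add_add_comm, z4 _ _ ea, e2]; rfl
  · rcases z2 (l (g * a * g⁻¹) + l (g * (g * a * g⁻¹) * g⁻¹)) with e | e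
    · exact false_of_inner hA hc h4 g1 g2 ha hb (z4 _ _ ea) e e1 e2
    · refine false_of_inner hA hc h4 g1 g2 (mul_mem ha hb) hb ?_ ?_ e1 e2
      · rw [l1 _ ha _ hb, l1' _ ha _ hb, add_add_add_comm, z4 _ _ ea, e1]; rfl
      · rw [l1' _ ha _ hb, l1'' _ ha _ hb, add_add_add_comm, e, e2]; rfl

end CL.UHom
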