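/-
Homogeneous simple groups have 2-rank at most two.
-/
import Cfsg.Agent.Fgs.UHom1
import Cfsg.Agent.C2Low.Basic
import Cfsg.Agent.Cls.SLnBasic

set_option autoImplicit false

namespace CL.UHom

open Subgroup Cfsg CL.Grp Matrix

variable {G : Type*} [Group G] [Finite G]

theorem false_of_full (h : UH G) {n : ℕ} {i₀ i₁ i₂ : Fin n} (h10 : i₁ ≠ i₀) (h20 : i₂ ≠ i₀) (h12 : i₁ ≠ i₂)
    {c : (Fin n → ZMod 2) → G} (add : ∀ v w, c (v + w) = c v * c w) (inj : Function.Injective c) {A : Subgroup G}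
    (hA : ∀ x, x ∈ A ↔ ∃ v, c v = x)
    (full : ∀ i j : Fin n, i ≠ j → ∃ g : G, ∀ v, g * c v * g⁻¹ = c (v + Pi.single i (v j))) : False := by
  have c0 : c 0 = 1 := by simpa using add 0 0
  have vv : ∀ v : Fin n → ZMod 2, v + v = 0 := fun v => funext fun i => CharTwo.add_self_eq_zero (v i)
  have cc : ∀ v, c v * c v = 1 := fun v => by rw [← add, vv, c0]
  have cA : ∀ v, c v ∈ A := fun v => (hA _).2 ⟨v, rfl⟩
  have sqA : ∀ x ∈ A, x * x = 1 := fun x hx => by obtain ⟨v, rfl⟩ := (hA x).1 hx; exact cc v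
  have AC : A ≤ centralizer (A : Set G) := fun x hx y hy => by
    obtain ⟨v, rfl⟩ := (hA x).1 hx
    obtain ⟨w, rfl⟩ := (hA y).1 hy
    rw [← add, ← add, add_comm]
  have pA : IsPGroup 2 A := fun a => ⟨1, Subtype.ext ((pow_two _).trans (sqA _ a.2))⟩
  let V : Subgroup G :=
    { carrier := {x | ∃ v, v i₀ = 0 ∧ c v = x}
      one_mem' := ⟨0, rfl, c0⟩
      mul_mem' := by
        rintro _ _ ⟨v, hv, rfl⟩ ⟨w, hw, rfl⟩
        exact ⟨v + w, by simp [hv, hw], add v w⟩
      inv_mem' := by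
        rintro _ ⟨v, hv, rfl⟩
        exact ⟨v, hv, eq_inv_of_mul_eq_one_left (cc v)⟩ }
  have hV : ∀ x, x ∈ V ↔ ∃ v, v i₀ = 0 ∧ c v = x := fun _ => Iff.rfl
  clear_value V
  have VA : V ≤ A := fun x hx => by obtain ⟨v, -, rfl⟩ := (hV x).1 hx; exact cA v
  have nA : ∀ {g : G} {i j : Fin n}, (∀ v, g * c v * g⁻¹ = c (v + Pi.single i (v j))) → g ∈ normalizer (A : Set G) :=
    fun e => mem_normalizer_fintype fun x hx => by obtain ⟨v, rfl⟩ := (hA x).1 hx; exact e v ▸ cA _
  obtain ⟨K, hK⟩ : ∃ K, K = normalizer (A : Set G) ⊓ centralizer (V : Set G) := ⟨_, rfl⟩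
  have KN : K ≤ normalizer (A : Set G) := hK ▸ inf_le_left
  have KC : K ≤ centralizer (V : Set G) := hK ▸ inf_le_right
  have CK : centralizer (A : Set G) ≤ K := hK ▸ le_inf (centralizer_le_normalizer _) (centralizer_le VA)
  obtain ⟨P, hP⟩ := exists_isSylowIn 2 K
  have nC := KN.trans (le_normalizer_centralizer' le_rfl)
  have hT := hP.inf_of_normalized CK nC
  have AP : A ≤ P := hP.le_of_normalized pA (AC.trans CK) KN
  obtain ⟨g, gP, gA, ga⟩ : ∃ g ∈ normalizer (P : Set G), g ∈ normalizer (A : Set G) ∧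
      g⁻¹ * c (Pi.single i₂ 1) * g = c (Pi.single i₂ 1 + Pi.single i₁ 1) := by
    obtain ⟨g, e⟩ := full i₁ i₂ h12
    have gV : g ∈ normalizer (V : Set G) := mem_normalizer_fintype fun x hx => by
      obtain ⟨v, hv, rfl⟩ := (hV x).1 hx
      exact (hV _).2 ⟨_, by simp [hv, h10.symm], (e v).symm⟩
    obtain ⟨r, hr, m⟩ := hP.frattini (H := normalizer (A : Set G) ⊓ normalizer (V : Set G)) (hK ▸ le_normalizer_inf'
      (le_normalizer_normalizer' inf_le_left) (le_normalizer_centralizer' inf_le_right)) (mem_inf.2 ⟨nA e, gV⟩)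
    refine ⟨_, m, mul_mem (KN hr) (nA e), ?_⟩
    have a := KC hr (c (Pi.single i₂ 1)) ((hV _).2 ⟨_, by simp [h20.symm], rfl⟩)
    have b := e (Pi.single i₂ 1 + Pi.single i₁ 1)
    rw [Pi.add_apply, Pi.single_eq_same, Pi.single_eq_of_ne h12.symm, add_zero, add_assoc, vv, add_zero] at b
    calc _ = g⁻¹ * (r⁻¹ * (c (Pi.single i₂ 1) * r)) * g := by group
      _ = _ := by rw [a, inv_mul_cancel_left, ← b]; group
  have ex : ∀ w ∈ K, ∃ d : Fin n → ZMod 2, d i₀ = 0 ∧ w * c (Pi.single i₀ 1) * w⁻¹ = c (Pi.single i₀ 1 + d) :=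
    fun w hw => by
      obtain ⟨v, hv⟩ := (hA _).1 (Loc.conj_mem_of_mem_normalizer (KN hw) (cA (Pi.single i₀ 1)))
      refine ⟨Pi.single i₀ 1 + v, ?_, by rw [← add_assoc, vv, zero_add, hv]⟩
      rcases z2 (v i₀) with e | e
      · have a := KC hw _ ((hV _).2 ⟨v, e, rfl⟩)
        rw [eq_mul_inv_iff_mul_eq, a, mul_right_inj] at hv
        rw [inj hv, Pi.single_eq_same] at e
        exact absurd e one_ne_zero
      · simp [e]; rfl
  choose! d d0 ed using ex
  have cV : ∀ w ∈ K, ∀ v : Fin n → ZMod 2, v i₀ = 0 → w * c v * w⁻¹ = c v := fun w hw v hv => by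
    rw [← KC hw _ ((hV _).2 ⟨v, hv, rfl⟩), mul_inv_cancel_right]
  have ed1 : ∀ w ∈ K, ∀ v : Fin n → ZMod 2, v i₀ = 1 → w * c v * w⁻¹ = c (v + d w) := fun w hw v hv => by
    have := cV w hw (Pi.single i₀ 1 + v) (by simp [hv]; rfl)
    rw [add, ← conj_mul, ed w hw, ← eq_inv_mul_iff_mul_eq, ← eq_inv_of_mul_eq_one_left (cc _), ← add, ← add] at this
    rw [this, add_add_add_comm, vv, zero_add, add_comm]
  have dadd : ∀ w ∈ K, ∀ w' ∈ K, d (w * w') = d w + d w' := fun w hw w' hw' => by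
    have := ed _ (mul_mem hw hw')
    rw [show w * w' * c (Pi.single i₀ 1) * (w * w')⁻¹ = w * (w' * c (Pi.single i₀ 1) * w'⁻¹) * w⁻¹ by group, ed w' hw',
      ed1 w hw _ (by simp [d0 w' hw']), add_assoc] at this
    rw [← add_left_cancel (inj this), add_comm]
  have dC : ∀ w ∈ centralizer (A : Set G), d w = 0 := fun w hw => by
    have := ed w (CK hw)
    rw [← hw _ (cA _), mul_inv_cancel_right] at this
    exact left_eq_add.1 (inj this)
  have Cd : ∀ w ∈ K, d w = 0 → w ∈ centralizer (A : Set G) := fun w hw e x hx => by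
    obtain ⟨v, rfl⟩ := (hA x).1 hx
    refine (mul_inv_eq_iff_eq_mul.1 ?_).symm
    rcases z2 (v i₀) with e' | e'
    · exact cV w hw v e'
    · rw [ed1 w hw v e', e, add_zero]
  have exw : ∀ j, j ≠ i₀ → ∃ w ∈ P, d w = Pi.single j 1 := fun j hj => by
    obtain ⟨x, e⟩ := full j i₀ hj
    have xK : x ∈ K := hK ▸ mem_inf.2 ⟨nA e, fun y hy => by
      obtain ⟨v, hv, rfl⟩ := (hV y).1 hy
      exact (mul_inv_eq_iff_eq_mul.1 (by simpa [hv] using e v)).symm⟩
    obtain ⟨k, hk, s, hs, rfl⟩ := exists_mul_of_sq hP nC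
      (fun x hx => Cd _ (pow_mem hx 2) (by rw [pow_two, dadd x hx x hx, vv])) xK
    refine ⟨s, hs, ?_⟩
    have := (ed _ xK).symm.trans (e _)
    rw [dadd k (CK hk) s (hP.le hs), dC k hk, zero_add, Pi.single_eq_same] at this
    exact add_left_cancel (inj this)
  generalize hT' : P ⊓ centralizer (A : Set G) = T at hT
  have AT : A ≤ T := hT' ▸ le_inf AP AC
  have gT : zpowers g ≤ normalizer (T : Set G) :=
    hT' ▸ le_normalizer_inf' (zpowers_le.2 gP) (le_normalizer_centralizer' (zpowers_le.2 gA))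
  have aV : c (Pi.single i₂ 1) ∈ V := (hV _).2 ⟨_, by simp [h20.symm], rfl⟩
  have a'V : c (Pi.single i₂ 1 + Pi.single i₁ 1) ∈ V := (hV _).2 ⟨_, by simp [h20.symm, h10.symm], rfl⟩
  have gp : ∀ x, g⁻¹ * pw (c (Pi.single i₂ 1)) x * g = pw (c (Pi.single i₂ 1 + Pi.single i₁ 1)) x := fun x => by
    simpa only [inv_inv, ga] using conj_pw g⁻¹ (c (Pi.single i₂ 1)) x
  have ne1 : ∀ x, c (Pi.single i₂ 1) * pw (c (Pi.single i₂ 1 + Pi.single i₁ 1)) x ≠ 1 := fun x e => by
    rcases z2 x with rfl | rfl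
    · simpa using congrFun (inj ((mul_one _).symm.trans (e.trans c0.symm))) i₂
    · rw [pw_one, ← add, ← add_assoc, vv, zero_add, ← c0] at e
      simpa using congrFun (inj e) i₁
  have sq2 : ∀ {k w F : G}, k ∈ centralizer (A : Set G) → F ∈ A → k * w * k⁻¹ = w * F → w * k ^ 2 = k ^ 2 * w :=
    fun {k w F} hk hF e => by
      refine (mul_inv_eq_iff_eq_mul.1 ?_).symm
      calc _ = k * (k * w * k⁻¹) * k⁻¹ := by rw [pow_two]; group
        _ = w := by rw [e, ← conj_mul, e, ← hk F hF, mul_inv_cancel_right, mul_assoc, sqA F hF, mul_one]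
  have ZA : T ⊓ centralizer (T : Set G) ≤ A := by
    by_contra hn
    generalize hZ : T ⊓ centralizer (T : Set G) = Z at hn
    have AZ : A ≤ Z := hZ ▸ le_inf AT (le_centralizer_iff.1 hT.le)
    have TZ : T ≤ centralizer (Z : Set G) := le_centralizer_iff.1 (hZ ▸ inf_le_right)
    have ZT : Z ≤ T := hZ ▸ inf_le_left
    have gZ : g ∈ normalizer (Z : Set G) := zpowers_le.1 (hZ ▸ le_normalizer_inf' gT (le_normalizer_centralizer' gT))
    obtain ⟨l, l1, l2, w, hw, l3⟩ := exists_chi (hT.isPGroup.to_le ZT) hn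
    have lA : ∀ x ∈ A, l x = 0 := fun x hx => l2 x (AZ hx) hx
    obtain ⟨k, hk, ek⟩ := h.central (P := Z) (f := fun w => pw (c (Pi.single i₂ 1)) (l w))
      (fun _ _ => AZ (pw_mem (cA _) _)) (fun x hx y hy => by rw [l1 x hx y hy, pw_add (cc _)])
      (fun _ _ y hy => hT.le (ZT hy) _ (pw_mem (cA _) _)) (fun _ _ => by rw [lA _ (pw_mem (cA _) _), pw_zero])
      (fun _ _ => pw_sq (cc _) _) gZ
      (fun _ _ => by rw [lA _ (Loc.conj_mem_of_mem_normalizer gA (pw_mem (cA _) _)), pw_zero])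
    simp only [gp] at ek
    have kA : k ∈ centralizer (A : Set G) := fun x hx => (mul_inv_eq_iff_eq_mul.1 (by
      simpa [lA x hx, lA _ (Loc.conj_mem_of_mem_normalizer gA hx)] using ek x (AZ hx))).symm
    have := mem_of_sq_mem (H := centralizer (A : Set G) ⊓ normalizer (Z : Set G))
      (hT.of_le (le_inf hT.le (TZ.trans (centralizer_le_normalizer _))) inf_le_left) TZ
      (le_normalizer_centralizer' inf_le_right) (mem_inf.2 ⟨kA, hk⟩)
      fun x hx => sq2 kA (mul_mem (pw_mem (cA _) _) (pw_mem (cA _) _)) (ek x hx)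
    have e := ek w hw
    rw [← this w hw, mul_inv_cancel_right, left_eq_mul, l3, pw_one] at e
    exact ne1 _ e
  obtain ⟨k, hk, ek⟩ := h.central (P := P) (f := fun w => pw (c (Pi.single i₂ 1)) (d w i₂))
    (fun _ _ => AP (pw_mem (cA _) _)) (fun x hx y hy => by
      rw [dadd x (hP.le hx) y (hP.le hy), Pi.add_apply, pw_add (cc _)])
    (fun _ _ y hy => KC (hP.le hy) _ (pw_mem aV _)) (fun _ _ => by rw [dC _ (AC (pw_mem (cA _) _))]; exact pw_zero _)
    (fun _ _ => pw_sq (cc _) _) gP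
    (fun _ _ => by rw [dC _ (AC (Loc.conj_mem_of_mem_normalizer gA (pw_mem (cA _) _)))]; exact pw_zero _)
  simp only [gp] at ek
  have TP : T ≤ P := hT' ▸ inf_le_left
  have kT : k ∈ centralizer (T : Set G) := fun x hx => (mul_inv_eq_iff_eq_mul.1 (by
    simpa [dC x (hT.le hx), dC _ (hT.le (Loc.conj_mem_of_mem_normalizer (zpowers_le.1 gT) hx))] using ek x (TP hx))).symm
  have k2 : k ^ 2 ∈ centralizer (P : Set G) := fun x hx =>
    sq2 (centralizer_le AT kT) (mul_mem (pw_mem (cA _) _) (pw_mem (cA _) _)) (ek x hx)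
  obtain ⟨m, hm⟩ := exists_two_part k
  have k3 := pow_mem kT (2 * m + 1)
  have k4 : k ^ (2 * m + 1) ∈ T := hT.eq_of_le (U := zpowers (k ^ (2 * m + 1)) ⊔ T)
    (hm.to_sup_of_normal_right' hT.isPGroup ((zpowers_le.2 k3).trans (centralizer_le_normalizer _))) le_sup_right
    (sup_le (zpowers_le.2 (centralizer_le AT k3)) hT.le) ▸ mem_sup_left (mem_zpowers _)
  obtain ⟨u, hu⟩ := (hA _).1 (ZA (mem_inf.2 ⟨k4, k3⟩))
  have eu : ∀ w ∈ P, c u * w * (c u)⁻¹ = k * w * k⁻¹ := fun w hw => by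
    rw [hu, pow_succ', pow_mul, mul_assoc k, ← pow_mem k2 m w hw]; group
  rcases z2 (u i₀) with e | e
  · obtain ⟨w, hw, dw⟩ := exw i₂ h20
    have := (eu w hw).trans (ek w hw)
    rw [KC (hP.le hw) _ ((hV _).2 ⟨u, e, rfl⟩), mul_inv_cancel_right, left_eq_mul, dw, Pi.single_eq_same,
      pw_one] at this
    exact ne1 _ this
  · obtain ⟨w, hw, dw⟩ := exw i₁ h10
    have := (eu w hw).trans (ek w hw)
    have e1 := ed1 w (hP.le hw) u e
    rw [dw, Pi.single_eq_of_ne h12.symm, pw_zero, one_mul, ← KC (hP.le hw) _ (pw_mem a'V _), mul_inv_eq_iff_eq_mul,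
      mul_assoc, mul_inv_eq_iff_eq_mul.1 e1, ← mul_assoc, mul_left_inj, dw] at this
    rcases z2 (d (g * w * g⁻¹) i₂) with e2 | e2 <;> rw [e2] at this
    · rw [pw_zero, one_mul] at this
      simpa using congrFun (inj this) i₁
    · rw [pw_one, ← add] at this
      simpa [h12.symm] using congrFun (inj this) i₂

omit [Finite G] in
theorem exists_coord {A : Subgroup G} [Finite A] (hA : IsElementaryAbelian 2 A) {n : ℕ} (hn : Nat.card A = 2 ^ n) :
    ∃ γ : Multiplicative (Fin n → ZMod 2) →* G, Function.Injective γ ∧ γ.range = A := by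
  have h3 : Module.finrank (ZMod 2) (Loc.EAMod hA) = n :=
    Nat.pow_right_injective le_rfl ((Loc.EAMod.card_eq_pow_finrank hA).symm.trans hn)
  let e : Loc.EAMod hA ≃ₗ[ZMod 2] (Fin n → ZMod 2) := LinearEquiv.ofFinrankEq _ _ (by simp [h3])
  let ι : Multiplicative (Fin n → ZMod 2) →* G := MonoidHom.mk' (fun w => (e.symm w.toAdd).val) fun a b => by
    rw [← Loc.EAMod.val_add, ← map_add]; rfl
  refine ⟨ι, fun a b h => e.symm.injective (Loc.EAMod.val_injective hA h), le_antisymm ?_ fun g hg => ?_⟩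
  · rintro _ ⟨w, rfl⟩; exact Loc.EAMod.val_mem hA _
  · refine ⟨Multiplicative.ofAdd (e (Loc.EAMod.mk hA g hg)), ?_⟩
    change (e.symm (e (Loc.EAMod.mk hA g hg))).val = g
    rw [e.symm_apply_apply, Loc.EAMod.val_mk]

omit [Finite G] in
theorem UH.full (h : UH G) {n : ℕ} (hn : 3 ≤ n) {γ : Multiplicative (Fin n → ZMod 2) →* G}
    (inj : Function.Injective γ) {g : G} (hg : g ∈ normalizer (γ.range : Set G)) (hc : g ∉ centralizer (γ.range : Set G))
    (M : SpecialLinearGroup (Fin n) (ZMod 2)) :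
    ∃ g : G, ∀ v, g * γ (.ofAdd v) * g⁻¹ = γ (.ofAdd (M.1 *ᵥ v)) := by
  let τ := SpecialLinearGroup.toLin' (n := Fin n) (R := ZMod 2)
  have τm : ∀ a b v, τ (a * b) v = τ a (τ b v) := fun a b v => by rw [map_mul]; rfl
  have τi : ∀ a v, τ a (τ a⁻¹ v) = v := fun a v => by rw [← τm, mul_inv_cancel, map_one]; rfl
  let N : Subgroup (SpecialLinearGroup (Fin n) (ZMod 2)) :=
    { carrier := {M | ∃ g : G, ∀ v, g * γ (.ofAdd v) * g⁻¹ = γ (.ofAdd (τ M v))}
      one_mem' := ⟨1, fun v => by simp⟩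
      mul_mem' := by
        rintro a b ⟨x, hx⟩ ⟨y, hy⟩
        exact ⟨x * y, fun v => by rw [τm, ← hx, ← hy]; group⟩
      inv_mem' := by
        rintro a ⟨x, hx⟩
        refine ⟨x⁻¹, fun v => ?_⟩
        have := hx (τ a⁻¹ v)
        rw [τi] at this
        rw [← this]; group }
  have : N.Normal := ⟨by
    rintro a ⟨x, hx⟩ b
    let e := MonoidHom.ofInjective inj
    obtain ⟨φ, hφ⟩ := h _ _ (e.symm.trans ((AddEquiv.toMultiplicative (τ b).toAddEquiv).trans e))
    have hφ' : ∀ v, φ (γ (.ofAdd v)) = γ (.ofAdd (τ b v)) := fun v => by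
      have := hφ (e (.ofAdd v))
      rw [MulEquiv.trans_apply, e.symm_apply_apply] at this
      exact this
    refine ⟨φ x, fun v => ?_⟩
    have := congrArg φ (hx (τ b⁻¹ v))
    rwa [map_mul, map_mul, map_inv φ, hφ', hφ', τi, ← τm, ← τm] at this⟩
  rcases SLn.normal_le_center_or_eq_top (Or.inl (by simpa using hn)) N with e | e
  · exfalso
    have ex : ∀ v : Fin n → ZMod 2, ∃ w, γ (.ofAdd w) = g * γ (.ofAdd v) * g⁻¹ := fun v =>
      Loc.conj_mem_of_mem_normalizer hg ⟨_, rfl⟩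
    choose L hL using ex
    let L' : (Fin n → ZMod 2) →ₗ[ZMod 2] (Fin n → ZMod 2) := AddMonoidHom.toZModLinearMap 2 (AddMonoidHom.mk' L fun v w =>
      Multiplicative.ofAdd.injective (inj (by rw [hL, ofAdd_add, ofAdd_add, map_mul, map_mul, hL, hL, conj_mul])))
    have iL : Function.Injective L' := fun v w e => Multiplicative.ofAdd.injective (inj (by
      have : L v = L w := e
      exact conj_injective ((hL v).symm.trans (this ▸ hL w))))
    have dL : (LinearMap.toMatrix' L').det = 1 := by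
      have := (LinearEquiv.ofInjectiveEndo L' iL).isUnit_det'
      rw [LinearMap.det_toMatrix']
      exact (z2 _).resolve_left this.ne_zero
    have mL : ∀ v, LinearMap.toMatrix' L' *ᵥ v = L v := fun v => by
      rw [← toLin'_apply, toLin'_toMatrix']; rfl
    obtain ⟨r, hr, e'⟩ := Matrix.SpecialLinearGroup.mem_center_iff.1
      (e (x := ⟨_, dL⟩) ⟨g, fun v => by rw [← hL, ← mL]; rfl⟩)
    obtain rfl : r = 1 := (z2 r).resolve_left fun e => by
      rw [e, zero_pow (by simp; omega)] at hr; exact zero_ne_one hr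
    refine hc ?_
    rintro _ ⟨v, rfl⟩
    have := mL v.toAdd
    change _ = LinearMap.toMatrix' L' at e'
    rw [← e', map_one, one_mulVec] at this
    exact (mul_inv_eq_iff_eq_mul.1 ((hL v.toAdd).symm.trans (by rw [← this]; rfl))).symm
  · exact (e ▸ mem_top M : M ∈ N)

theorem UH.rank_le_two [IsSimpleGroup G] (h : UH G) (hG : ¬ IsMulCommutative G) : PRankLE 2 2 G := by
  intro A₀ h1 h2
  by_contra h4
  obtain ⟨A, hle, hA, hmax⟩ := Finite.exists_le_maximal (p := fun A : Subgroup G => IsElementaryAbelian 2 A) ⟨h1, h2⟩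
  have mx : ∀ x ∈ centralizer (A : Set G), x * x = 1 → x ∈ A := fun x hx e =>
    hmax (Loc.ea_sup (Loc.ea_zpowers ((pow_two x).trans e)) hA (zpowers_le.2 hx)) le_sup_right
      (mem_sup_left (mem_zpowers x))
  obtain ⟨n, hn⟩ := Loc.ea_card_eq_pow hA
  have n3 : 3 ≤ n := (Nat.pow_lt_pow_iff_right one_lt_two).1 ((not_le.1 h4).trans_le (hn ▸ card_le_of_le hle))
  have ex : ∃ g ∈ normalizer (A : Set G), g ∉ centralizer (A : Set G) := by
    by_contra hc
    push Not at hc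
    obtain ⟨S, hS⟩ := (Loc.ea_isPGroup hA).exists_le_sylow
    have key : ∀ D : Subgroup G, A ≤ D → D ≤ normalizer (A : Set G) →
        normalizer (D : Set G) ≤ normalizer (A : Set G) := fun D h1 h2 g hg => mem_normalizer_fintype fun x hx =>
      mx _ (hc _ (h2 (Loc.conj_mem_of_mem_normalizer hg (h1 hx))))
        (by rw [conj_mul, ← pow_two, hA.2 x hx, mul_one, mul_inv_cancel])
    have SN : (S : Subgroup G) ≤ normalizer (A : Set G) := by
      by_contra hn
      have := lt_inf_normalizer_of_isPGroup S.2 (inf_lt_left.2 hn)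
      exact this.not_ge (inf_le_inf_left _ (key _ (le_inf hS le_normalizer) inf_le_right))
    obtain ⟨z, hz, z1⟩ := (A.bot_or_exists_ne_one).resolve_left fun e => by
      rw [e, card_bot] at hn; exact (Nat.one_lt_two_pow (by omega)).ne hn
    have cm : ∀ y ∈ A, ∀ s ∈ (S : Subgroup G), s * y = y * s := fun y hy s hs => (hc s (SN hs) y hy).symm
    refine C2Low.not_isolated_of_simple hG z (C2Low.isolated_of_sylow S (Loc.ea_orderOf hA hz z1) (cm z hz) fun g hg => ?_)
    obtain ⟨m, hm, e⟩ := C2Low.exists_normalizer_conj S (g := g) (cm z hz) (cm _ (mx _ (hc _ (SN hg))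
      (by rw [conj_mul, ← pow_two, hA.2 z hz, mul_one, mul_inv_cancel])))
    rw [← e, ← hc m (key _ hS SN hm) z hz, mul_inv_cancel_right]
  obtain ⟨g, hg, gc⟩ := ex
  obtain ⟨γ, inj, rfl⟩ := exists_coord hA hn
  refine false_of_full h (n := n) (i₀ := ⟨0, by omega⟩) (i₁ := ⟨1, by omega⟩) (i₂ := ⟨2, by omega⟩) (by simp) (by simp)
    (by simp) (c := fun v => γ (.ofAdd v)) (fun v w => by rw [ofAdd_add, map_mul])
    (inj.comp Multiplicative.ofAdd.injective) (A := γ.range) (fun x => Iff.rfl) fun i j hij => ?_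
  obtain ⟨x, hx⟩ := h.full n3 inj hg gc (SpecialLinearGroup.transvection hij 1)
  refine ⟨x, fun v => (hx v).trans ?_⟩
  congr 2
  change (1 + single i j 1) *ᵥ v = _
  rw [add_mulVec, one_mulVec, single_mulVec, one_mul]
  rfl

end CL.UHom
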