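/-
Weakly homogeneous simple groups of 2-rank two: the groups `L₃(q)`, `U₃(q)`, `A₇`, `M₁₁` are not homogeneous.
-/
import Cfsg.Agent.Fgs.UHom1
import Cfsg.Agent.Chev.U3Card
import Cfsg.Agent.Spor.M11Classes

set_option autoImplicit false

namespace CL.UHom

open Subgroup Cfsg CL.Grp Matrix
open scoped MatrixGroups

/-- the part of homogeneity which passes to the quotient by a centre of order two -/
structure WH (G : Type*) [Group G] : Prop where
  conj : ∀ x y : G, orderOf x = orderOf y → ∃ φ : G ≃* G, φ x = y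
  ext : ∀ (A : Subgroup G) (e : A ≃* A), Odd (Nat.card A) → ∃ φ : G ≃* G, ∀ a : A, φ (a : G) = (e a : G)

variable {G H : Type*} [Group G] [Group H]

theorem UH.wh (h : UH G) : WH G := ⟨fun _ _ => h.conj, fun A e _ => h A A e⟩

theorem WH.equiv (h : WH G) (e : G ≃* H) : WH H := by
  refine ⟨fun x y hxy => ?_, fun A f hA => ?_⟩
  · obtain ⟨φ, hφ⟩ := h.conj (e.symm x) (e.symm y) (by simpa using hxy)
    exact ⟨e.symm.trans (φ.trans e), by simp [hφ]⟩
  · let d := e.symm.subgroupMap A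
    obtain ⟨φ, hφ⟩ := h.ext _ (d.symm.trans (f.trans d)) (by rwa [← Nat.card_congr d.toEquiv])
    refine ⟨e.symm.trans (φ.trans e), fun a => ?_⟩
    have := hφ (d a)
    rw [MulEquiv.trans_apply, d.symm_apply_apply] at this
    exact (congrArg e this).trans (e.apply_symm_apply _)

theorem WH.inv (h : WH G) {x y s : G} (e : orderOf x = orderOf y) (h1 : s * x = x * s) (h2 : s * s = 1) (h3 : s ≠ 1) :
    ∃ t : G, t * y = y * t ∧ t * t = 1 ∧ t ≠ 1 := by
  obtain ⟨φ, rfl⟩ := h.conj x y e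
  exact ⟨φ s, by rw [← map_mul, h1, map_mul], by rw [← map_mul, h2, map_one], by simpa using h3⟩

theorem not_alt : ¬ WH (alternatingGroup (Fin 7)) := fun h => by
  let x : Equiv.Perm (Fin 7) := Equiv.swap 0 1 * Equiv.swap 1 2
  let y : Equiv.Perm (Fin 7) := x * (Equiv.swap 3 4 * Equiv.swap 4 5)
  let s : Equiv.Perm (Fin 7) := Equiv.swap 3 4 * Equiv.swap 5 6
  have o : ∀ (z : alternatingGroup (Fin 7)), z.1 ^ 3 = 1 → z.1 ≠ 1 → orderOf z = 3 := fun z a b =>
    orderOf_eq_prime (Subtype.ext a) fun e => b (congrArg Subtype.val e)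
  obtain ⟨⟨t, ht⟩, h1, h2, h3⟩ := h.inv (x := ⟨x, Equiv.Perm.mem_alternatingGroup.2 (by decide)⟩)
    (y := ⟨y, Equiv.Perm.mem_alternatingGroup.2 (by decide)⟩) (s := ⟨s, Equiv.Perm.mem_alternatingGroup.2 (by decide)⟩)
    ((o _ (by decide) (by decide)).trans (o _ (by decide) (by decide)).symm) (Subtype.ext (by decide))
    (Subtype.ext (by decide)) (fun e => absurd (congrArg Subtype.val e) (by decide))
  have c : ∀ i, t (y i) = y (t i) := fun i => congrFun (congrArg DFunLike.coe (congrArg Subtype.val h1)) i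
  have c2 : ∀ i, t (t i) = i := fun i => congrFun (congrArg DFunLike.coe (congrArg Subtype.val h2)) i
  have c6 : t 6 = 6 := (by decide : ∀ i, i = y i → i = 6) _ (c 6)
  have e : ⇑t = ![t 0, y (t 0), y (y (t 0)), t 3, y (t 3), y (y (t 3)), 6] := by
    funext i
    fin_cases i
    exacts [rfl, c 0, (c 1).trans (congrArg y (c 0)), rfl, c 3, (c 4).trans (congrArg y (c 3)), c6]
  have k : ∀ a b : Fin 7, (∀ i, ![a, y a, y (y a), b, y b, y (y b), 6] (![a, y a, y (y a), b, y b, y (y b), 6] i) = i) →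
      ∃ τ ∈ [1, Equiv.swap 0 3 * Equiv.swap 1 4 * Equiv.swap 2 5, Equiv.swap 0 4 * Equiv.swap 1 5 * Equiv.swap 2 3,
        Equiv.swap (0 : Fin 7) 5 * Equiv.swap 1 3 * Equiv.swap 2 4],
        (τ = 1 ∨ Equiv.Perm.sign τ ≠ 1) ∧ ![a, y a, y (y a), b, y b, y (y b), 6] = ⇑τ := by decide +kernel
  obtain ⟨τ, -, h4, h5⟩ := k (t 0) (t 3) (by rw [← e]; exact c2)
  obtain rfl : t = τ := DFunLike.coe_injective (e.trans h5)
  exact h4.elim (fun e => h3 (Subtype.ext e)) fun e => e (Equiv.Perm.mem_alternatingGroup.1 ht)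

theorem psl_eq {n : ℕ} {F : Type*} [Field F] {g g' : SL(n, F)}
    (e : (g : ProjectiveSpecialLinearGroup (Fin n) F) = g') : ∃ r : F, r ^ n = 1 ∧ g'.1 = r • g.1 := by
  obtain ⟨r, hr, e'⟩ := Matrix.SpecialLinearGroup.mem_center_iff.1 (QuotientGroup.eq.1 e)
  refine ⟨r, by simpa using hr, ?_⟩
  rw [← mul_inv_cancel_left g g', Matrix.SpecialLinearGroup.coe_mul, ← e', scalar_apply, ← smul_eq_mul_diagonal]

theorem psl_mk_eq {n : ℕ} {F : Type*} [Field F] {g g' : SL(n, F)} {r : F} (e : g'.1 = r • g.1) :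
    (g : ProjectiveSpecialLinearGroup (Fin n) F) = g' := by
  refine QuotientGroup.eq.2 (mem_center_iff.2 fun x => Subtype.ext ?_)
  have : (g⁻¹ * g').1 = r • 1 := by
    rw [Matrix.SpecialLinearGroup.coe_mul, e, Matrix.mul_smul, ← Matrix.SpecialLinearGroup.coe_mul, inv_mul_cancel]; rfl
  rw [Matrix.SpecialLinearGroup.coe_mul x, Matrix.SpecialLinearGroup.coe_mul _ x, this]; simp

theorem exists_char (F : Type*) [Field F] [Fintype F] (h : Odd (Fintype.card F)) :
    ∃ p, p.Prime ∧ CharP F p ∧ 3 ≤ p ∧ (2 : F) ≠ 0 := by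
  obtain ⟨p, hp⟩ := CharP.exists F
  obtain ⟨n, h1, h2⟩ := FiniteField.card F p
  have : p ≠ 2 := by
    rintro rfl
    rw [h2] at h
    exact absurd (Nat.odd_pow_iff n.ne_zero |>.1 h) (by decide)
  exact ⟨p, h1, hp, by have := h1.two_le; omega, fun e => this ((Nat.prime_dvd_prime_iff_eq h1 Nat.prime_two).1
    ((CharP.cast_eq_zero_iff F p 2).1 e))⟩

theorem not_psl3 {F : Type*} [Field F] [Fintype F] (ho : Odd (Fintype.card F)) :
    ¬ WH (ProjectiveSpecialLinearGroup (Fin 3) F) := fun h => by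
  obtain ⟨p, hp, _, p3, h2⟩ := exists_char F ho
  have : Fact p.Prime := ⟨hp⟩
  let x : SL(3, F) := ⟨!![1, 0, 1; 0, 1, 0; 0, 0, 1], by simp [det_fin_three]⟩
  let y : SL(3, F) := ⟨!![1, 1, 0; 0, 1, 1; 0, 0, 1], by simp [det_fin_three]⟩
  let s : SL(3, F) := ⟨!![-1, 0, 0; 0, 1, 0; 0, 0, -1], by simp [det_fin_three]⟩
  have u : ∀ z : SL(3, F), (z.1 - 1) * (z.1 - 1) * (z.1 - 1) = 0 → z ^ p = 1 := fun z hz => Subtype.ext (by
    obtain ⟨k, rfl⟩ := Nat.exists_eq_add_of_le p3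
    rw [Matrix.SpecialLinearGroup.coe_pow, ← add_sub_cancel 1 z.1, add_pow_char_of_commute _ (Commute.one_left _),
      one_pow, pow_add (z.1 - 1), pow_three', hz, zero_mul, add_zero]; rfl)
  have ux : x ^ p = 1 := u x (by ext i j; fin_cases i <;> fin_cases j <;> simp [x, Matrix.mul_apply, Fin.sum_univ_three])
  have uy : y ^ p = 1 := u y (by ext i j; fin_cases i <;> fin_cases j <;> simp [y, Matrix.mul_apply, Fin.sum_univ_three])
  have o : ∀ z : SL(3, F), z ^ p = 1 → (z.1 0 1 ≠ 0 ∨ z.1 0 2 ≠ 0 ∨ z.1 0 0 ≠ z.1 1 1) →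
      (z : ProjectiveSpecialLinearGroup (Fin 3) F) ^ p = 1 ∧ (z : ProjectiveSpecialLinearGroup (Fin 3) F) ≠ 1 :=
    fun z a b => ⟨by rw [← QuotientGroup.mk_pow, a]; rfl, fun e => by
      obtain ⟨r, -, e'⟩ := psl_eq (g := 1) e.symm
      simp [e'] at b⟩
  have n1 : (s : ProjectiveSpecialLinearGroup (Fin 3) F) ≠ 1 := fun e => by
    obtain ⟨r, -, e'⟩ := psl_eq (g := 1) e.symm
    have a := congrFun (congrFun e' 0) 0
    have b := congrFun (congrFun e' 1) 1
    simp [s] at a b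
    exact h2 (by linear_combination b - a)
  obtain ⟨t, h3, h4, h5⟩ := h.inv (x := x) (y := y) (s := s)
    ((orderOf_eq_prime (o x ux (by simp [x])).1 (o x ux (by simp [x])).2).trans
      (orderOf_eq_prime (o y uy (by simp [y])).1 (o y uy (by simp [y])).2).symm)
    (congrArg QuotientGroup.mk (show s * x = x * s from Subtype.ext (by
      change s.1 * x.1 = x.1 * s.1; simp [x, s])))
    (congrArg QuotientGroup.mk (show s * s = 1 from Subtype.ext (by
      change s.1 * s.1 = 1; simp [s, ← Matrix.one_fin_three]))) n1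
  obtain ⟨t, rfl⟩ := QuotientGroup.mk_surjective t
  obtain ⟨r, -, e⟩ := psl_eq (g := y) (g' := t * y * t⁻¹)
    (by rw [QuotientGroup.mk_mul, QuotientGroup.mk_mul, h3]; simp)
  have r1 : r = 1 := by
    have a := congrArg (· ^ p) e
    simp only [smul_pow, ← Matrix.SpecialLinearGroup.coe_pow, conj_pow, uy, mul_one, mul_inv_cancel] at a
    have b := congrFun (congrFun a 0) 0
    simp at b
    exact sub_eq_zero.1 (pow_eq_zero_iff hp.ne_zero |>.1 (by rw [sub_pow_char, ← b, one_pow, sub_self]))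
  rw [r1, one_smul] at e
  have e0 : t * y = y * t := _root_.mul_inv_eq_iff_eq_mul.1 (show t * y * t⁻¹ = y from Subtype.ext e)
  have e1 : t.1 * y.1 = y.1 * t.1 := congrArg Subtype.val e0
  obtain ⟨c, -, e2⟩ := psl_eq (g := 1) (g' := t * t) h4.symm
  have d := t.2
  change t.1 * t.1 = c • 1 at e2
  refine h5 (psl_mk_eq (g := 1) (r := t.1 0 0) ?_).symm
  generalize t.1 = M at e1 e2 d
  have f := fun i j => congrFun (congrFun e1 i) j
  have a00 := f 0 0; have a01 := f 0 1; have a02 := f 0 2; have a10 := f 1 0; have a11 := f 1 1; have a12 := f 1 2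
  have a21 := f 2 1
  have b1 := congrFun (congrFun e2 0) 1
  have b2 := congrFun (congrFun e2 0) 2
  simp [y, Matrix.mul_apply, Fin.sum_univ_three] at a00 a01 a02 a10 a11 a12 a21 b1 b2
  have m21 : M 2 1 = 0 := by linear_combination a00 - a11
  have m11 : M 1 1 = M 0 0 := by linear_combination -a01
  have m22 : M 2 2 = M 0 0 := by linear_combination -a01 - a12
  have m12 : M 1 2 = M 0 1 := by linear_combination -a02
  rw [det_fin_three, a00, a10, m21, m11, m22] at d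
  have m0 : M 0 0 ≠ 0 := fun e => by simp [e] at d
  rw [m21, m11] at b1
  have m01 : M 0 1 = 0 := mul_left_cancel₀ (mul_ne_zero h2 m0) (by linear_combination b1)
  rw [m22, m01] at b2
  have m02 : M 0 2 = 0 := mul_left_cancel₀ (mul_ne_zero h2 m0) (by linear_combination b2)
  ext i j
  fin_cases i <;> fin_cases j <;> simp [*]

theorem not_u3 {F : Type*} [Field F] [Fintype F] {q : ℕ} (hF : Fintype.card F = q ^ 2) (ho : Odd q) :
    ¬ WH (PSU 3 F q) := fun h => by
  obtain ⟨p, hp, _, p3, h2⟩ := exists_char F (hF ▸ ho.pow)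
  have : Fact p.Prime := ⟨hp⟩
  obtain ⟨M⟩ : Nonempty (Chev.U3.Model (PSU 3 F q) F) := ⟨Chev.U3.modelPSU hF⟩
  have := M.finite
  obtain ⟨u, hu, u1⟩ := (center M.Q).bot_or_exists_ne_one.resolve_left fun e => by
    have a := M.toUF.card_center_Q
    have b := M.toUF.two_le_q
    rw [e, card_bot] at a; omega
  have u0 := Chev.U3.UF.Q.mem_center.1 hu
  let v : ℕ → M.Q := fun n => ⟨n, -(n ^ 2 / 2), by
    simp only [map_neg, map_div₀, map_pow, map_natCast, map_ofNat]; field_simp; ring⟩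
  have hv : ∀ n, v 1 ^ n = v n := fun n => by
    induction n with
    | zero => ext <;> simp [v]
    | succ n ih => rw [pow_succ, ih]; ext <;> simp [v]; field_simp; ring
  have o : ∀ w : M.Q, w ^ p = 1 → w ≠ 1 → orderOf (M.T w) = p := fun w a b =>
    orderOf_eq_prime (by rw [← map_pow, a, map_one]) (mt M.T_eq_one.1 b)
  have v1 : (v 1).a ≠ 0 := by simp [v]
  have v2 : v 1 ≠ 1 := fun e => v1 (by rw [e]; rfl)
  obtain ⟨φ, hφ⟩ := h.conj _ _ ((o u (by
    ext <;> simp [Chev.U3.UF.Q.pow_a, Chev.U3.UF.Q.pow_b_of_a u0]) u1).trans (o (v 1) (by rw [hv]; ext <;> simp [v]) v2).symm)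
  have cm : ∀ w, φ (M.T w) * M.T (v 1) = M.T (v 1) * φ (M.T w) := fun w => by
    rw [← hφ, ← map_mul, ← map_mul, ← map_mul, ← map_mul, mem_center_iff.1 hu w]
  have le : M.U.map φ.toMonoidHom ≤ M.U := by
    have hB : M.U.map φ.toMonoidHom ≤ M.B := by
      rintro _ ⟨w, hw, rfl⟩
      obtain ⟨w, rfl⟩ := M.mem_U.1 hw
      refine M.mem_B_of_conj_mem (M.T_mem_U (v 1)) (mt M.T_eq_one.1 v2) ?_
      change φ (M.T w) * _ * (φ (M.T w))⁻¹ ∈ _
      rw [cm, mul_inv_cancel_right]; exact M.T_mem_B _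
    exact le_sup_left.trans ((isSylowIn_of_le (M.sylowU p) M.U_le_B).eq_of_le (((M.isPGroup_U p).map _).to_sup_of_normal_right'
      (M.isPGroup_U p) (M.normalizer_U ▸ hB)) le_sup_right (sup_le hB M.U_le_B)).le
  have eq := eq_of_le_of_card_ge le (card_map_of_injective φ.injective).ge
  refine v1 (Chev.U3.UF.Q.mem_center.1 (mem_center_iff.2 fun w => M.T_inj ?_))
  obtain ⟨_, hw, e⟩ : M.T w ∈ M.U.map φ.toMonoidHom := eq.symm ▸ M.T_mem_U w
  obtain ⟨w', rfl⟩ := M.mem_U.1 hw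
  rw [map_mul, map_mul, ← e]
  exact cm w'

theorem not_u34 {F : Type*} [Field F] [Fintype F] (hF : Fintype.card F = 16) : ¬ WH (PSU 3 F 4) := fun h => by
  have hF' : Fintype.card F = 4 ^ 2 := hF
  have : CharP F 2 := charP_of_card_eq_prime_pow (f := 4) hF
  have : Fact (Nat.Prime 5) := ⟨by norm_num⟩
  have z : center (SU 3 F 4) = ⊥ := by
    have a := (Chev.U3.modelSU hF').center_eq
    have b := (Chev.U3.ufOf hF').card_Z0
    rw [show (Chev.U3.ufOf hF').q = 4 from rfl] at b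
    rwa [show (Chev.U3.modelSU hF').Z0 = ⊥ from eq_bot_of_card_eq _ b, Subgroup.map_bot] at a
  have h' := h.equiv ((QuotientGroup.quotientMulEquivOfEq z).trans QuotientGroup.quotientBot)
  classical
  obtain ⟨a, ha⟩ := exists_prime_orderOf_dvd_card (G := Fˣ) 5 (by rw [Fintype.card_units, hF]; norm_num)
  have a5 : (a : F) ^ 5 = 1 := by rw [← Units.val_pow_eq_pow_val, ← ha, pow_orderOf_eq_one, Units.val_one]
  have a1 : ∀ k, ¬ 5 ∣ k → (a : F) ^ k ≠ 1 := fun k hk e =>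
    hk (ha ▸ orderOf_dvd_of_pow_eq_one (Units.ext (by simpa using e)))
  generalize (a : F) = b at a5 a1
  have dg : ∀ i j k : ℕ, 5 ∣ i + j + k → ∃ x : SU 3 F 4, x.1.1 = diagonal ![b ^ i, b ^ j, b ^ k] ∧ x ^ 5 = 1 := by
    rintro i j k ⟨m, hm⟩
    have e : ∀ i : ℕ, (b ^ i) ^ 5 = 1 := fun i => by rw [← pow_mul, mul_comm, pow_mul, a5, one_pow]
    refine ⟨⟨⟨diagonal ![b ^ i, b ^ j, b ^ k], by
      simp [Fin.prod_univ_three, ← pow_add, hm, pow_mul, a5]⟩, fun u v => ?_⟩, rfl, Subtype.ext (Subtype.ext ?_)⟩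
    · change hermForm 3 F 4 (diagonal _ *ᵥ u) (diagonal _ *ᵥ v) = _
      simp only [hermForm, Fin.sum_univ_three, mulVec_diagonal, cons_val_zero, cons_val_one, cons_val]
      linear_combination (u 0 * v 0 ^ 4) * e i + (u 1 * v 1 ^ 4) * e j + (u 2 * v 2 ^ 4) * e k
    · change diagonal _ ^ 5 = 1
      rw [diagonal_pow, ← diagonal_one]
      congr 1
      funext l
      fin_cases l <;> simp [e]
  obtain ⟨x, ex, x5⟩ := dg 1 1 3 (by norm_num)
  obtain ⟨y, ey, y5⟩ := dg 1 4 0 (by norm_num)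
  have o : ∀ w : SU 3 F 4, w ^ 5 = 1 → w.1.1 0 0 = b ^ 1 → orderOf w = 5 := fun w e1 e2 =>
    orderOf_eq_prime e1 fun e => a1 1 (by norm_num) (by rw [← e2, e]; rfl)
  let s : SU 3 F 4 := ⟨⟨!![0, 1, 0; 1, 0, 0; 0, 0, 1], by simp [det_fin_three, CharTwo.neg_eq]⟩, fun u v => by
    change hermForm 3 F 4 (!![0, 1, 0; 1, 0, 0; 0, 0, 1] *ᵥ u) (!![0, 1, 0; 1, 0, 0; 0, 0, 1] *ᵥ v) = _
    simp [hermForm, Fin.sum_univ_three, mulVec, dotProduct]; ring⟩
  obtain ⟨t, h3, h4, h5⟩ := h'.inv (x := x) (y := y) (s := s) ((o x x5 (by simp [ex])).trans (o y y5 (by simp [ey])).symm)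
    (Subtype.ext (Subtype.ext (by
      change s.1.1 * x.1.1 = x.1.1 * s.1.1
      ext i j; fin_cases i <;> fin_cases j <;> simp [ex, s])))
    (Subtype.ext (Subtype.ext (by change s.1.1 * s.1.1 = 1; simp [s, ← Matrix.one_fin_three])))
    (fun e => by simpa [s] using congrFun (congrFun (congrArg (·.1.1) e) 0) 0)
  have e1 : t.1.1 * y.1.1 = y.1.1 * t.1.1 := congrArg (·.1.1) h3
  have e2 : t.1.1 * t.1.1 = 1 := congrArg (·.1.1) h4
  refine h5 (Subtype.ext (Subtype.ext (show t.1.1 = 1 from ?_)))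
  generalize t.1.1 = M at e1 e2
  have b0 : b ≠ 0 := fun e => by simp [e] at a5
  have ne : ∀ i j, i ≠ j → ![b ^ 1, b ^ 4, b ^ 0] j - ![b ^ 1, b ^ 4, b ^ 0] i ≠ 0 := by
    have n1 := a1 1 (by norm_num); have n4 := a1 4 (by norm_num)
    have n3 : b ^ 4 ≠ b := fun e => a1 3 (by norm_num) (mul_left_cancel₀ b0 (by linear_combination e))
    intro i j
    fin_cases i <;> fin_cases j <;> simp [sub_eq_zero] <;> simp_all [eq_comm]
  have dM : ∀ i j, i ≠ j → M i j = 0 := fun i j hij => by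
    have := congrFun (congrFun e1 i) j
    rw [ey, mul_diagonal, diagonal_mul] at this
    exact (mul_eq_zero.1 (by linear_combination this)).resolve_right (ne i j hij)
  ext i j
  by_cases hij : i = j
  · subst hij
    have := congrFun (congrFun e2 i) i
    rw [Matrix.mul_apply, Finset.sum_eq_single i (fun k _ hk => by rw [dM k i hk, mul_zero]) (by simp), one_apply_eq] at this
    rw [one_apply_eq, ← sub_eq_zero, ← pow_eq_zero_iff two_ne_zero, sub_pow_char, pow_two, this, one_pow, sub_self]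
  · rw [dM i j hij, one_apply_ne hij]

theorem mem_of_pow_mem {p : ℕ} [hp : Fact p.Prime] {S H K : Subgroup G} (hS : IsSylowIn p S H) (h1 : S ≤ K)
    (hn : H ≤ normalizer (K : Set G)) {x : G} (hx : x ∈ H) (h2 : x ^ p ∈ K) : x ∈ K := by
  have := normal_subgroupOf_of_le_normalizer hn
  have a : x ^ K.relIndex H ∈ K := mem_subgroupOf.1 (pow_index_mem (K.subgroupOf H) ⟨x, hx⟩)
  have b := hS.not_dvd_relIndex_of_le (le_inf h1 hS.le) inf_le_right
  rw [inf_relIndex_right] at b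
  have := mul_mem (zpow_mem h2 (p.gcdA (K.relIndex H))) (zpow_mem a (p.gcdB (K.relIndex H)))
  rwa [← zpow_natCast, ← zpow_natCast, ← _root_.zpow_mul, ← _root_.zpow_mul, ← _root_.zpow_add, ← Nat.gcd_eq_gcd_ab,
    (hp.out.coprime_iff_not_dvd.2 b).gcd_eq_one, Nat.cast_one, zpow_one] at this

theorem not_m11 [Finite G] [IsSimpleGroup G] (hG : Nat.card G = 7920) : ¬ WH G := fun h => by
  obtain ⟨P⟩ : Nonempty (Sylow 3 G) := inferInstance
  have c9 := Spor.m11_card_sylow3 hG P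
  have cm : ∀ a ∈ (P : Subgroup G), ∀ b ∈ (P : Subgroup G), a * b = b * a := fun a ha b hb =>
    mem_centralizer_singleton_iff.1 (Spor.m11_sylow3_le_cent hG P hb ha)
  have e3 : ∀ a ∈ (P : Subgroup G), a * a * a = 1 := fun a ha => by
    by_cases e : a = 1
    · simp [e]
    · rw [← pow_three', ← Spor.m11_orderOf_mem_sylow3 hG P ha e, pow_orderOf_eq_one]
  obtain ⟨x, hx, x1⟩ := (P : Subgroup G).bot_or_exists_ne_one.resolve_left fun e => by rw [e, card_bot] at c9; omega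
  obtain ⟨⟨t, ht⟩, t2⟩ := exists_prime_orderOf_dvd_card' (G := centralizer ({x} : Set G)) 2
    (by rw [Spor.m11_cent3 hG (Spor.m11_orderOf_mem_sylow3 hG P hx x1)]; norm_num)
  rw [orderOf_mk] at t2
  have tN := Spor.m11_cent_le_normalizer3 hG P hx x1 ht
  have tt : t * t = 1 := by rw [← pow_two, ← t2, pow_orderOf_eq_one]
  have cP := fun {n} (hn : n ∈ normalizer ((P : Subgroup G) : Set G)) {w} (hw : w ∈ (P : Subgroup G)) =>
    Loc.conj_mem_of_mem_normalizer hn hw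
  obtain ⟨D, hD⟩ : ∃ D : G → G, ∀ w, D w = w * (t * w * t⁻¹)⁻¹ := ⟨_, fun _ => rfl⟩
  have DP : ∀ w ∈ (P : Subgroup G), D w ∈ (P : Subgroup G) := fun w hw => hD w ▸ mul_mem hw (inv_mem (cP tN hw))
  have Dm : ∀ a ∈ (P : Subgroup G), ∀ b ∈ (P : Subgroup G), D (a * b) = D a * D b := fun a ha b hb => by
    rw [hD a, mul_assoc, cm _ (inv_mem (cP tN ha)) _ (DP b hb), hD, hD]; group
  have Dt : ∀ w, D (t * w * t⁻¹) = (D w)⁻¹ := fun w => by
    rw [hD, hD, show t * (t * w * t⁻¹) * t⁻¹ = t * t * w * (t * t)⁻¹ by group, tt]; group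
  have tD : ∀ w ∈ (P : Subgroup G), t * D w * t⁻¹ = (D w)⁻¹ := fun w _ => by rw [← Dt, hD, hD]; group
  obtain ⟨y, hy, y1⟩ : ∃ y ∈ (P : Subgroup G), D y ≠ 1 := by
    by_contra hn
    push Not at hn
    have := card_dvd_of_le (H := P) (K := centralizer {t}) fun w hw => mem_centralizer_singleton_iff.2 (by
      have := hn w hw
      rwa [hD, mul_inv_eq_one, eq_mul_inv_iff_mul_eq] at this)
    rw [c9, Spor.m11_cent2 hG t2] at this
    norm_num at this
  have Dz : ∀ w ∈ (P : Subgroup G), D w ∈ zpowers (D y) := by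
    let I : Subgroup G :=
      { carrier := {w | w ∈ (P : Subgroup G) ∧ t * w * t⁻¹ = w⁻¹}
        one_mem' := ⟨one_mem _, by simp⟩
        mul_mem' := fun {a b} ha hb => ⟨mul_mem ha.1 hb.1, by rw [← conj_mul, ha.2, hb.2, cm a ha.1 b hb.1, _root_.mul_inv_rev]⟩
        inv_mem' := fun {a} ha => ⟨inv_mem ha.1, by rw [← conj_inv, ha.2]⟩ }
    have l1 : zpowers (D y) ≤ I := zpowers_le.2 ⟨DP y hy, tD y hy⟩
    have l2 : I ≤ P := fun w hw => hw.1
    have c3 := (Nat.card_zpowers _).trans (Spor.m11_orderOf_mem_sylow3 hG P (DP y hy) y1)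
    obtain ⟨i, hi, e⟩ := (Nat.dvd_prime_pow Nat.prime_three).1 ((c9.trans (show 9 = 3 ^ 2 from rfl)) ▸ card_dvd_of_le l2)
    have : Nat.card I ≤ 3 := by
      by_contra hn
      have := (eq_of_le_of_card_ge l2 (by interval_cases i <;> omega) ▸ hx : x ∈ I).2
      rw [mem_centralizer_singleton_iff.1 ht, mul_inv_cancel_right, eq_inv_iff_mul_eq_one] at this
      exact x1 (by simpa [this] using e3 x hx)
    exact fun w hw => eq_of_le_of_card_ge l1 (c3 ▸ this) ▸ (⟨DP w hw, tD w hw⟩ : D w ∈ I)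
  obtain ⟨n, hn, en⟩ := Spor.m11_exists_normalizer3_conj hG P (DP y hy) y1 hx x1
  obtain ⟨f, hf⟩ : ∃ f : G → G, ∀ w, f w = n * D w * n⁻¹ := ⟨_, fun _ => rfl⟩
  have fP : ∀ w ∈ (P : Subgroup G), f w ∈ (P : Subgroup G) := fun w hw => hf w ▸ cP hn (DP w hw)
  have fm : ∀ a ∈ (P : Subgroup G), ∀ b ∈ (P : Subgroup G), f (a * b) = f a * f b := fun a ha b hb => by
    rw [hf, hf, hf, Dm a ha b hb, conj_mul]
  have ft : ∀ w ∈ (P : Subgroup G), t * f w * t⁻¹ = f w := fun w hw => by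
    obtain ⟨i, hi⟩ := Dz w hw
    simp only at hi
    rw [hf, ← hi, ← conj_zpow, en, ← conj_zpow, mem_centralizer_singleton_iff.1 ht, mul_inv_cancel_right]
  have ff : ∀ w ∈ (P : Subgroup G), f (f w) = 1 := fun w hw => by rw [hf (f w), hD, ft w hw]; simp
  have f2 : ∀ w ∈ (P : Subgroup G), f (w * f w) = f w := fun w hw => by rw [fm w hw _ (fP w hw), ff w hw, mul_one]
  have f3 : ∀ w ∈ (P : Subgroup G), w * f w * f (w * f w) * f (w * f w * f (w * f w)) = w := fun w hw => by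
    rw [f2 _ (mul_mem hw (fP w hw)), f2 w hw, mul_assoc, mul_assoc, ← mul_assoc (f w), e3 _ (fP w hw), mul_one]
  let ψ : (P : Subgroup G) →* (P : Subgroup G) := MonoidHom.mk' (fun u => ⟨u * f u, mul_mem u.2 (fP u u.2)⟩)
    fun u v => Subtype.ext (by
      change (u * v : G) * f (u * v) = u * f u * (v * f v)
      rw [fm _ u.2 _ v.2, mul_assoc (u : G) (f u), ← mul_assoc (f u), cm _ (fP _ u.2) _ v.2]; group)
  obtain ⟨φ, hφ⟩ := h.ext P (MulEquiv.ofBijective ψ (Finite.injective_iff_bijective.1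
    (Function.LeftInverse.injective (g := fun u => ψ (ψ u)) fun u => Subtype.ext (f3 u u.2)))) (by rw [c9]; decide)
  have b : ∀ x ∈ (P : Subgroup G), φ x = x * f x := fun x hx => hφ ⟨x, hx⟩
  have k : ∀ w ∈ (P : Subgroup G), t⁻¹ * φ t * w * (t⁻¹ * φ t)⁻¹ = w * f w := fun w hw => by
    have m := mul_mem hw (fP w hw)
    have m' := mul_mem m (fP _ m)
    have e1 : φ t * w * (φ t)⁻¹ = φ (t * (w * f w * f (w * f w)) * t⁻¹) := by
      rw [map_mul, map_mul, map_inv, b _ m', f3 w hw]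
    calc _ = t⁻¹ * (φ t * w * (φ t)⁻¹) * t := by group
      _ = w * f w * f (w * f w) * (t⁻¹ * (f (w * f w * f (w * f w)))⁻¹ * t) := by
        rw [e1, b _ (cP tN m'), hf (t * _ * t⁻¹), Dt, hf (w * f w * f (w * f w))]; group
      _ = _ := by rw [f2 _ m, f2 w hw]; nth_rw 3 [← ft w hw]; group
  have kN : t⁻¹ * φ t ∈ normalizer ((P : Subgroup G) : Set G) :=
    mem_normalizer_fintype fun w hw => k w hw ▸ mul_mem hw (fP w hw)
  have := mem_of_pow_mem (isSylowIn_of_le P le_normalizer) (K := centralizer (P : Subgroup G))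
    (fun a ha b hb => cm b hb a ha) (le_normalizer_centralizer' le_rfl) kN fun w hw => by
      generalize t⁻¹ * φ t = r at k
      have m := mul_mem hw (fP w hw)
      refine (mul_inv_eq_iff_eq_mul.1 ?_).symm
      calc _ = r * (r * (r * w * r⁻¹) * r⁻¹) * r⁻¹ := by rw [pow_three]; group
        _ = w := by rw [k w hw, k _ m, k _ (mul_mem m (fP _ m)), f3 w hw]
  have e := k y hy
  rw [← this y hy, mul_inv_cancel_right, left_eq_mul, hf, en] at e
  exact x1 e

end CL.UHom
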