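/-
Vector stabilisers of bounded derived length: the primitive case with a large section `E / U`.
-/
import Cfsg.Agent.Fgs.VcPrim

set_option autoImplicit false
set_option linter.style.haveILetI false

open Subgroup CL.Odd CL.Grp
open scoped commutatorElement

namespace CL.SL.Vc

universe u

namespace Bg

theorem exists_ineq {G V : Type*} [Group G] [Finite G] [Finite V] [MulAction G V] (c : ℕ) (S : Set V)
    (h : c * Nat.card G < S.ncard) : ∃ x : Fin (c + 1) → V, (∀ i, x i ∈ S) ∧ ∀ i j (g : G), g • x i = x j → i = j := by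
  induction c generalizing S with
  | zero =>
    obtain ⟨v, hv⟩ := Set.nonempty_of_ncard_ne_zero (s := S) (by omega)
    exact ⟨fun _ => v, fun _ => hv, fun i j _ _ => Subsingleton.elim (α := Fin 1) i j⟩
  | succ c ih =>
    obtain ⟨v, hv⟩ := Set.nonempty_of_ncard_ne_zero (s := S) (by omega)
    have h1 : (MulAction.orbit G v).ncard ≤ Nat.card G := Finite.card_range_le fun g : G => g • v
    have h2 := Set.ncard_le_ncard_sdiff_add_ncard S (MulAction.orbit G v)
    obtain ⟨x, h3, h4⟩ := ih (S \ MulAction.orbit G v) (by rw [add_mul] at h; omega)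
    refine ⟨Fin.cons v x, fun i => Fin.cases hv (fun i => (h3 i).1) i, fun i j g => ?_⟩
    refine Fin.cases (Fin.cases (fun _ => rfl) (fun j e => ?_) j) (fun i => Fin.cases (fun e => ?_) (fun j e => ?_) j) i
    · exact ((h3 j).2 ⟨g, e⟩).elim
    · exact ((h3 i).2 ⟨g⁻¹, inv_smul_eq_iff.2 (Eq.symm e)⟩).elim
    · rw [h4 i j g e]

theorem num1 {u b d : ℕ} (hb : u + 1 ≤ b) (h : 3 ≤ b ∧ 64 ≤ d ∨ 9 ≤ b ∧ 32 ≤ d) :
    4 * (u ^ 2 * (2 ^ 18) ^ 4) < b ^ d - 1 := by
  have h1 : 2 ^ 75 ≤ b ^ (d - 2) := by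
    rcases h with ⟨h1, h2⟩ | ⟨h1, h2⟩
    · exact le_trans (by norm_num) ((Nat.pow_le_pow_left h1 62).trans (Nat.pow_le_pow_right (by omega) (by omega)))
    · exact le_trans (by norm_num) ((Nat.pow_le_pow_left h1 30).trans (Nat.pow_le_pow_right (by omega) (by omega)))
  have h2 : (u + 1) ^ 2 * 2 ^ 75 ≤ b ^ d := by
    rw [show d = 2 + (d - 2) by omega, pow_add b]
    exact Nat.mul_le_mul (Nat.pow_le_pow_left hb 2) h1
  have h3 : u ^ 2 + 1 ≤ (u + 1) ^ 2 := by nlinarith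
  generalize (u + 1) ^ 2 = a at *
  generalize u ^ 2 = a' at *
  omega

theorem num2 (k : ℕ) : 1280 ^ 4 * (256 + k) ^ 32 < 3 ^ (248 + k) := by
  induction k with
  | zero => norm_num
  | succ k ih =>
    have h1 : (256 + (k + 1)) ^ 32 ≤ 3 * (256 + k) ^ 32 := by
      refine Nat.le_of_mul_le_mul_left (c := 256 ^ 32) ?_ (by norm_num)
      rw [← mul_pow, ← mul_assoc]
      refine (Nat.pow_le_pow_left (show 256 * (256 + (k + 1)) ≤ 257 * (256 + k) by omega) 32).trans ?_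
      rw [mul_pow]
      exact Nat.mul_le_mul_right _ (by norm_num)
    rw [← add_assoc 248, pow_succ 3]
    generalize (256 + (k + 1)) ^ 32 = a at *
    generalize (256 + k) ^ 32 = b at *
    omega

theorem num3 {u d : ℕ} (hu : 2 ≤ u) (hd : 256 ≤ d) : (5 * (u ^ 2 * (4 * d ^ 2) ^ 4)) ^ 4 < (u + 1) ^ d := by
  obtain ⟨k, rfl⟩ := Nat.exists_eq_add_of_le hd
  calc _ = u ^ 8 * (1280 ^ 4 * (256 + k) ^ 32) := by generalize 256 + k = d; ring
    _ < u ^ 8 * 3 ^ (248 + k) := Nat.mul_lt_mul_of_pos_left (num2 k) (by positivity)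
    _ ≤ (u + 1) ^ 8 * (u + 1) ^ (248 + k) :=
      Nat.mul_le_mul (Nat.pow_le_pow_left (by omega) _) (Nat.pow_le_pow_left (by omega) _)
    _ = _ := by rw [← pow_add]; congr 1; omega

theorem count {G V : Type*} [Finite G] [Nonempty G] [Finite V] (A : G → Set V) (h1 : ∀ x, (A x).ncard ^ 4 ≤ Nat.card V ^ 3)
    (h2 : (5 * Nat.card G) ^ 4 < Nat.card V) : 4 * Nat.card G < {v | ∀ x, v ∉ A x}.ncard := by
  have := Fintype.ofFinite G
  obtain ⟨y, hy⟩ := Finite.exists_max fun x => (A x).ncard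
  have h3 : {v | ∀ x, v ∉ A x}ᶜ.ncard ≤ Nat.card G * max (A y).ncard 1 := by
    rw [show {v | ∀ x, v ∉ A x}ᶜ = ⋃ x, A x by ext; simp, Nat.card_eq_fintype_card, ← smul_eq_mul]
    exact (Set.ncard_iUnion_le_of_fintype A).trans
      (Finset.sum_le_card_nsmul _ _ _ fun x _ => (hy x).trans (le_max_left _ _))
  have h4 : max (A y).ncard 1 ^ 4 ≤ Nat.card V ^ 3 := by
    rcases max_choice (A y).ncard 1 with e | e <;> rw [e]
    exacts [h1 y, by rw [one_pow]; exact Nat.one_le_pow _ _ (by omega)]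
  have h5 : 5 * Nat.card G * max (A y).ncard 1 < Nat.card V := by
    refine lt_of_pow_lt_pow_left₀ 4 (Nat.zero_le _) ?_
    rw [mul_pow, pow_succ' (Nat.card V) 3]
    exact Nat.mul_lt_mul_of_lt_of_le h2 h4 (Nat.pow_pos (by omega))
  have h6 := Set.ncard_add_ncard_compl {v | ∀ x, v ∉ A x}
  have h7 := Nat.le_mul_of_pos_right (Nat.card G) (lt_max_of_lt_right one_pos : 0 < max (A y).ncard 1)
  rw [mul_assoc] at h5
  omega

end Bg

open Bg in
theorem bigThm : BigThm.{u} := by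
  intro G V _ _ _ _ _ _ hs p U E h hN hE
  obtain ⟨D, ξ, m⟩ := exists_mx (V := V) E
  obtain ⟨c, hc, e, hn⟩ := shape h m
  have hG := card_G_le h.toGS hs
  have hu : 2 ≤ Nat.card U := by
    obtain ⟨r, hr, hd⟩ := Nat.exists_prime_and_dvd (n := U.relIndex E) (by omega)
    exact hr.two_le.trans (Nat.le_of_dvd Nat.card_pos (prime_dvd_U h.toGS hr hd))
  have hb : Nat.card U + 1 ≤ Nat.card U * c + 1 := by rcases hc with rfl | ⟨rfl, -⟩ <;> omega
  have key : ∀ S : Set V, (∀ v ∈ S, Gd G V 9 v) → 4 * Nat.card G < S.ncard → PP G V 9 5 := fun S h1 h2 =>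
    (exists_ineq 4 S h2).imp fun x hx => ⟨fun i => h1 _ (hx.1 i), hx.2⟩
  rcases lt_or_ge (U.relIndex E) (2 ^ 18) with k | k
  · refine key {0}ᶜ (fun v hv => gd_succ h (hE k) hv) ?_
    rw [Set.ncard_compl, Set.ncard_singleton]
    refine ((Nat.mul_le_mul_left 4 (hG.trans (Nat.mul_le_mul_left _ (Nat.pow_le_pow_left k.le 4)))).trans_lt
      (num1 (d := Nat.card D) hb ?_)).trans_le (Nat.sub_le_sub_right hn 1)
    rw [e] at hN
    rcases hc with rfl | ⟨rfl, -⟩
    · exact .inl ⟨by omega, by by_contra k; nlinarith⟩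
    · exact .inr ⟨by omega, by by_contra k; nlinarith⟩
  · have h4 : U.relIndex E ≤ 4 * Nat.card D ^ 2 := by rcases hc with rfl | ⟨rfl, -⟩ <;> omega
    refine key {v | ∀ x : G, ¬ (x ∈ C[U] ∧ x ≠ 1 ∧ x • v = v)} (fun v hv => Gd.mono (gd_of_bot (k := 1)
      (eq_bot_iff.2 fun g hg => by_contra fun h1 => hv g ⟨dr_one_le h.toGS (dr_mono le_top 1 hg), h1, dr_le _ 1 hg⟩)) (by omega))
      (count (fun x : G => {v | x ∈ C[U] ∧ x ≠ 1 ∧ x • v = v}) (fun x => ?_) ?_)
    · by_cases hx : x ∈ C[U] ∧ x ≠ 1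
      · refine le_trans (Nat.pow_le_pow_left (Set.ncard_le_ncard (t := (fx G V x : Set V)) fun v hv b hb =>
          (zpowers_le (H := MulAction.stabilizer G v)).2 hv.2.2 hb) 4)
          (card_fx_le h (r := 2) (fun q hq _ => hq.two_le) hx.1 hx.2)
      · rw [show {v : V | x ∈ C[U] ∧ x ≠ 1 ∧ x • v = v} = ∅ from Set.eq_empty_of_forall_notMem fun v hv =>
          hx ⟨hv.1, hv.2.1⟩]
        simp
    · refine ((Nat.pow_le_pow_left (Nat.mul_le_mul_left 5 (hG.trans (Nat.mul_le_mul_left _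
        (Nat.pow_le_pow_left h4 4)))) 4).trans_lt (num3 hu ?_)).trans_le ((Nat.pow_le_pow_left hb _).trans hn)
      by_contra k
      nlinarith

end CL.SL.Vc
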