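/-
Vector stabilisers of bounded derived length: solvable groups on few points and colourings for primitive groups.
-/
import Cfsg.Agent.Fgs.VcDefs

set_option autoImplicit false
set_option linter.style.haveILetI false

open Subgroup CL.Odd CL.Grp
open scoped commutatorElement

namespace CL.SL.Vc

universe u

namespace Cl

theorem pid_mono {a b : ℕ} (h : a ≤ b) : pid a ≤ pid b := by
  unfold pid; split_ifs <;> omega

theorem pid_mul {m n : ℕ} (hm : 2 ≤ m) (hn : 1 ≤ n) (h : n * m ≤ 7) : del m + 1 + pid n ≤ pid (n * m) := by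
  have h1 : m ≤ 7 := le_trans (Nat.le_mul_of_pos_left m hn) h
  have h2 : n ≤ 3 := by nlinarith
  interval_cases m <;> interval_cases n <;> first | omega | decide

theorem idx (ha : AffThm.{u}) (hd : DLThm.{u}) (n : ℕ) : ∀ (G : Type u) [Group G] [Finite G], Group.IsSolvable G →
    ∀ L : Subgroup G, L.index = n → n ≤ 7 → dr ⊤ (pid n) ≤ L := by
  induction n using Nat.strong_induction_on with
  | _ n ih =>
  intro G _ _ hs L hL h7
  rcases eq_top_or_exists_le_coatom L with rfl | ⟨M, hM, hLM⟩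
  · exact le_top
  obtain ⟨A, _, _, _, -, hi, hc, h1, -⟩ := ha G hs M hM
  have hm : 2 ≤ M.index := by
    have := M.index_ne_zero_of_finite
    have := mt index_eq_one.1 hM.1
    omega
  have hn : 1 ≤ L.relIndex M := Nat.pos_of_ne_zero (L.subgroupOf M).index_ne_zero_of_finite
  have e : L.relIndex M * M.index = n := hL ▸ relIndex_mul_index hLM
  have h2 : dr ⊤ (del M.index + 1) ≤ M := by
    have := tv_iff.1 (hd G A hs hi (by rw [hc]; nlinarith))
    rw [hc] at this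
    exact (commutator_mono this this).trans (h1.trans M.normalCore_le)
  have h3 : dr M (pid (L.relIndex M)) ≤ L := fun g hg => by
    obtain ⟨x, hx, rfl⟩ := exists_of_mem_dr hg
    exact ih (L.relIndex M) (by nlinarith) M inferInstance (L.subgroupOf M) rfl (by nlinarith) hx
  exact (dr_anti _ (e ▸ pid_mul hm hn (e ▸ h7))).trans ((dr_trans h2 _).trans h3)

end Cl

theorem idxThm (ha : AffThm.{u}) (hd : DLThm.{u}) : IdxThm.{u} := by
  intro G Ω _ _ _ hs H T hT h7 hH g hg ω hω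
  obtain ⟨x, hx, rfl⟩ := exists_of_mem_dr hg
  have h1 : (MulAction.stabilizer H ω).index ≤ T.ncard := by
    rw [MulAction.index_stabilizer]
    exact Set.ncard_le_ncard (by rintro _ ⟨y, rfl⟩; exact hH y y.2 ω hω) hT
  exact Cl.idx ha hd _ H inferInstance _ rfl (h1.trans h7) (dr_anti _ (Cl.pid_mono h1) hx)

namespace Cl

/-- the number of places below `k` with colour `a` -/
def ct {m : ℕ} (l : List (Fin m)) (ρ : Fin m) (k : ℕ) (a : Fin m) : ℕ := Nat.count (fun i => l.getD i ρ = a) k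

/-- the conditions on a table of colourings -/
def Tab {N m : ℕ} (ex : Bool) (r k a0 : ℕ) (l : Fin N → List (Fin m)) (ρ : Fin N → Fin m) : Prop :=
  (∀ j, (l j).length ≤ k) ∧
  (∀ i j, i ≠ j → ∃ a, ((a ≠ ρ i ∨ ex = true) ∧ ct (l i) (ρ i) k a < ct (l j) (ρ j) k a) ∨
    ((a ≠ ρ j ∨ ex = true) ∧ ct (l j) (ρ j) k a < ct (l i) (ρ i) k a)) ∧
  ∀ j, ∀ i < r, (ex = true ∧ k ≤ i) ∨ (((l j).getD i (ρ j) ≠ ρ j ∨ ex = true) ∧
    ct (l j) (ρ j) k ((l j).getD i (ρ j)) ≤ 7 ∧ pid (ct (l j) (ρ j) k ((l j).getD i (ρ j))) ≤ a0)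

instance {N m : ℕ} (ex : Bool) (r k a0 : ℕ) (l : Fin N → List (Fin m)) (ρ : Fin N → Fin m) :
    Decidable (Tab ex r k a0 l ρ) := by unfold Tab; infer_instance

theorem ct_eq {m k n : ℕ} {l : List (Fin m)} {ρ a : Fin m} (hl : l.length ≤ k) (hk : k ≤ n) (h : a ≠ ρ ∨ n = k) :
    ct l ρ n a = ct l ρ k a := by
  rcases h with h | rfl
  · obtain ⟨t, rfl⟩ := Nat.exists_eq_add_of_le hk
    rw [ct, Nat.count_add, (Nat.count_iff_forall_not (n := t)).2 fun i _ => by
      rw [List.getD_eq_default _ _ (by omega)]; exact h.symm]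
    rfl
  · rfl

theorem ncard_eq {Ω : Type*} {n m : ℕ} (e : Ω ≃ Fin n) (l : List (Fin m)) (ρ a : Fin m) :
    {w | l.getD (e w) ρ = a}.ncard = ct l ρ n a := by
  rw [ct, Nat.count_eq_card_filter_range, ← Set.ncard_coe_finset,
    ← Set.ncard_image_of_injective _ (Fin.val_injective.comp e.injective)]
  congr 1
  ext i
  simp only [Set.mem_image, Set.mem_ofPred_eq, Finset.coe_filter, Finset.mem_range, Function.comp]
  exact ⟨fun ⟨w, h, e1⟩ => e1 ▸ ⟨(e w).2, h⟩, fun ⟨h1, h2⟩ => ⟨e.symm ⟨i, h1⟩, by simpa using h2, by simp⟩⟩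

theorem exists_enum {Ω : Type*} [Finite Ω] {r : ℕ} (b : Fin r → Ω) :
    ∃ e : Ω ≃ Fin (Nat.card Ω), ∀ i, (e (b i) : ℕ) < r := by
  classical
  let e := (Equiv.sumCompl (· ∈ Set.range b)).symm.trans
    (((Finite.equivFin _).sumCongr (Finite.equivFin _)).trans finSumFinEquiv)
  refine ⟨e.trans (finCongr (Nat.card_eq_of_equiv_fin e).symm), fun i => ?_⟩
  have h : Nat.card (Set.range b) ≤ r := by simpa using Finite.card_range_le b
  simp only [e, Equiv.trans_apply, Equiv.sumCompl_symm_apply_of_pos (Set.mem_range_self i), Equiv.sumCongr_apply,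
    Sum.map_inl, finSumFinEquiv_apply_left, finCongr_apply, Fin.val_cast, Fin.val_castAdd]
  exact lt_of_lt_of_le (Fin.is_lt _) h

variable {G Ω : Type u} [Group G] [Finite G] [MulAction G Ω]

/-- a base of size at most `r` -/
def Bs (G Ω : Type u) [Group G] [MulAction G Ω] (r : ℕ) : Prop :=
  ∃ b : Fin r → Ω, ∀ g : G, (∀ i, g • b i = b i) → ∀ w : Ω, g • w = w

theorem key [Finite Ω] (hi : IdxThm.{u}) (hs : Group.IsSolvable G) {r : ℕ} (hb : Bs G Ω r) {N m a0 : ℕ} (ex : Bool)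
    (k : ℕ) (l : Fin N → List (Fin m)) (ρ : Fin N → Fin m) (hk : k ≤ Nat.card Ω) (hex : ex = true → Nat.card Ω = k)
    (ht : Tab ex r k a0 l ρ) : Col G Ω m a0 N := by
  obtain ⟨b, hb⟩ := hb
  obtain ⟨e, he⟩ := exists_enum b
  obtain ⟨t1, t2, t3⟩ := ht
  refine ⟨fun j w => (l j).getD (e w) (ρ j), fun j H hH g hg => hb g fun i => ?_, fun i j h hh => by_contra fun hne => ?_⟩
  · obtain ⟨h1, h2, h3⟩ := (t3 j _ (he i)).resolve_left fun ⟨h1, h2⟩ => by have := hex h1; have := (e (b i)).2; omega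
    rw [← ct_eq (t1 j) hk (h1.imp_right hex), ← ncard_eq e] at h2 h3
    exact hi G Ω hs H _ (Set.toFinite _) h2 (fun y hy w hw => (hH y hy w).trans hw) g (dr_anti _ h3 hg) _ rfl
  · have k1 : ∀ a, ct (l i) (ρ i) (Nat.card Ω) a = ct (l j) (ρ j) (Nat.card Ω) a := fun a => by
      rw [← ncard_eq e, ← ncard_eq e]
      exact Nat.card_congr ((MulAction.toPerm h).subtypeEquiv fun w => by
        have : (l j).getD (e (h • w)) (ρ j) = (l i).getD (e w) (ρ i) := hh w
        rw [Set.mem_ofPred_eq, Set.mem_ofPred_eq, MulAction.toPerm_apply, this])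
    have k2 : ∀ j a, ct (l j) (ρ j) k a ≤ ct (l j) (ρ j) (Nat.card Ω) a := fun j a => Nat.count_monotone _ hk
    obtain ⟨a, ⟨h1, h2⟩ | ⟨h1, h2⟩⟩ := t2 i j hne
    · have := ct_eq (t1 i) hk (h1.imp_right hex)
      have := k1 a
      have := k2 j a
      omega
    · have := ct_eq (t1 j) hk (h1.imp_right hex)
      have := k1 a
      have := k2 i a
      omega

theorem bases (ha : AffThm.{u}) (hs : Group.IsSolvable G) {L : Subgroup G} (hL : IsCoatom L) :
    Bs G (G ⧸ L) 4 ∧ (L.index.Prime → Bs G (G ⧸ L) 2) := by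
  obtain ⟨A, _, _, _, τ, hi, hc, -, h1, h2⟩ := ha G hs L hL
  have k : ∀ r, Reg G A r → Bs G (G ⧸ L) (r + 1) := fun r ⟨x, hx⟩ => ⟨Fin.cons ((1 : G) : G ⧸ L) (τ ∘ x), fun g hg => by
    have h3 : g ∈ L := MulAction.stabilizer_quotient L ▸ (show g ∈ MulAction.stabilizer G ((1 : G) : G ⧸ L) from hg 0)
    exact tv_quot.2 h1 g ⟨mem_Kr.2 (hx g fun i => h2 g h3 _ (hg i.succ)), h3⟩⟩
  refine ⟨k 3 (baseThm G A hs fun U hU => ?_).1, fun hp => k 1 ?_⟩
  · rcases hi U hU with rfl | rfl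
    exacts [⟨⊤, fun _ _ _ => trivial, by simp, by simp⟩, ⟨⊥, fun g v hv => by simp [AddSubgroup.mem_bot.1 hv], by simp, by simp⟩]
  · haveI := Fact.mk hp
    haveI : Nontrivial A := Finite.one_lt_card_iff_nontrivial.1 (hc ▸ hp.one_lt)
    obtain ⟨a, h0⟩ := exists_ne (0 : A)
    refine ⟨fun _ => a, fun g hg v => ?_⟩
    obtain ⟨z, rfl⟩ := mem_zmultiples_of_prime_card hc h0 (g' := v)
    exact (map_zsmul (DistribSMul.toAddMonoidHom A g) z a).trans (congrArg (z • ·) (hg 0))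

end Cl

open Cl in
theorem colThm (ha : AffThm.{u}) (hi : IdxThm.{u}) : ColThm.{u} := by
  intro G _ _ hs L hL
  obtain ⟨b4, b2⟩ := bases ha hs hL
  have hm : 2 ≤ L.index := by
    have := L.index_ne_zero_of_finite
    have := mt index_eq_one.1 hL.1
    omega
  have kx : ∀ {N m a0 : ℕ} {k : ℕ} (l : Fin N → List (Fin m)) (ρ : Fin N → Fin m), L.index = k →
      Tab true 4 k a0 l ρ → Col G (G ⧸ L) m a0 N := fun l ρ e => key hi hs b4 true _ l ρ e.ge fun _ => e
  have kl : ∀ {N m a0 : ℕ} {k : ℕ} (l : Fin N → List (Fin m)) (ρ : Fin N → Fin m), k ≤ L.index →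
      Tab false 4 k a0 l ρ → Col G (G ⧸ L) m a0 N := fun l ρ e => key hi hs b4 false _ l ρ e (by simp)
  refine ⟨?_, ?_, ?_, ?_⟩
  · rcases (by omega : L.index = 2 ∨ L.index = 3 ∨ L.index = 4 ∨ L.index = 5 ∨ 6 ≤ L.index) with e | e | e | e | e
    · exact kx ![[0, 1], [0, 2], [0, 3], [0, 4], [1, 2]] 0 e (by decide)
    · exact kx ![[0, 1, 2], [0, 1, 3], [0, 1, 4], [0, 2, 3], [0, 2, 4]] 0 e (by decide)
    · exact kx ![[0, 1, 2, 3], [0, 1, 2, 4], [0, 1, 3, 4], [0, 2, 3, 4], [1, 2, 3, 4]] 0 e (by decide)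
    · exact key hi hs (b2 (e ▸ Nat.prime_five)) false 5 ![[0, 1], [0, 2], [0, 3], [1, 2], [1, 3]] (fun _ => 4) e.ge
        (by simp) (by decide)
    · exact kl ![[1, 2, 3, 4], [0, 2, 3, 4], [0, 1, 3, 4], [0, 1, 2, 4], [0, 1, 2, 3]] id e (by decide)
  · rcases (by omega : L.index = 2 ∨ L.index = 3 ∨ 4 ≤ L.index) with e | e | e
    · exact kx ![[0, 0], [1, 1], [2, 2], [3, 3], [0, 1]] 0 e (by decide)
    · exact kx ![[0, 0, 1], [0, 1, 1], [0, 0, 2], [0, 2, 2], [0, 1, 2]] 0 e (by decide)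
    · exact kl ![[0, 0, 1, 1], [0, 0, 2, 2], [1, 1, 2, 2], [0, 0, 1, 2], [0, 1, 1, 2]] (fun _ => 3) e (by decide)
  · rcases (by omega : L.index = 2 ∨ L.index = 3 ∨ L.index = 4 ∨ 5 ≤ L.index) with e | e | e | e
    · exact kx ![[0, 0], [1, 1], [2, 2], [0, 1], [0, 2]] 0 e (by decide)
    · exact kx ![[0, 0, 0], [1, 1, 1], [2, 2, 2], [0, 0, 1], [0, 1, 1]] 0 e (by decide)
    · exact kx ![[0, 0, 0, 1], [0, 1, 1, 1], [0, 0, 1, 1], [0, 0, 0, 2], [0, 2, 2, 2]] 0 e (by decide)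
    · exact kl ![[0, 1, 1, 1], [0, 0, 0, 1], [0, 0, 1, 1], [0, 0, 1, 1, 1], [0, 0, 0, 1, 1]] (fun _ => 2) e (by decide)
  · rcases (by omega : L.index = 2 ∨ L.index = 3 ∨ (4 ≤ L.index ∧ L.index ≤ 7) ∨ (8 ≤ L.index ∧ L.index ≤ 10) ∨
      L.index = 11 ∨ 12 ≤ L.index) with e | e | ⟨e, e'⟩ | ⟨e, e'⟩ | e | e
    · exact Or.inl (kx (fun j => List.replicate j 0) 1 e (by decide))
    · exact Or.inr (Or.inl (kx (fun j => List.replicate j 0) 1 e (by decide)))
    · refine Or.inr (Or.inr (kx (fun j => List.replicate j 0) 1 rfl ?_))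
      generalize L.index = n at e e'
      interval_cases n <;> decide
    · refine Or.inr (Or.inr (kx (fun j => if j = 4 then List.replicate 7 1 else List.replicate (j + 4) 0)
        ![1, 1, 1, 1, 0] rfl ?_))
      generalize L.index = n at e e'
      interval_cases n <;> decide
    · exact Or.inr (Or.inr (key hi hs (b2 (e ▸ by norm_num)) false 6 (fun j => List.replicate (j + 2) 0) 1
        (by rw [← index_eq_card, e]; norm_num) (by simp) (by decide)))
    · exact Or.inr (Or.inr (kl (fun j => if j = 4 then List.replicate 4 1 else List.replicate (j + 4) 0)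
        ![1, 1, 1, 1, 0] e (by decide)))

end CL.SL.Vc
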