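/-
Vector stabilisers of bounded derived length: small irreducible groups.
-/
import Cfsg.Agent.Fgs.VcImp

set_option autoImplicit false
set_option linter.style.haveILetI false

open Subgroup CL.Odd CL.Grp
open scoped commutatorElement

namespace CL.SL.Vc

universe u

theorem del_mono {a b : ℕ} (h : a ≤ b) : del a ≤ del b := by
  unfold del; split_ifs <;> omega

theorem exists_lo {y : ℕ} (hy : 2 ≤ y) : ∃ a ∈ [2, 3, 4, 9, 64, 4096], a ≤ y ∧ del y = del a := by
  rw [del]
  split_ifs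
  exacts [⟨2, by decide, by omega, rfl⟩, ⟨3, by decide, by omega, rfl⟩, ⟨4, by decide, by omega, rfl⟩,
    ⟨9, by decide, by omega, rfl⟩, ⟨64, by decide, by omega, rfl⟩, ⟨4096, by decide, by omega, rfl⟩]

theorem del_imp {y k n : ℕ} (hy : 2 ≤ y) (hk : 2 ≤ k) (h : y ^ k ≤ n) (hn : n < 2 ^ 18) : del k + 1 + del y ≤ del n := by
  obtain ⟨a, ha, h1, e1⟩ := exists_lo hy
  obtain ⟨b, hb, h2, e2⟩ := exists_lo hk
  have := ((Nat.pow_le_pow_left h1 b).trans (Nat.pow_le_pow_right (by omega) h2)).trans h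
  rw [e1, e2]
  exact ((by decide +kernel : ∀ a ∈ [2, 3, 4, 9, 64, 4096], ∀ b ∈ [2, 3, 4, 9, 64, 4096], a ^ b < 2 ^ 18 →
    del b + 1 + del a ≤ del (a ^ b)) a ha b hb (this.trans_lt hn)).trans (del_mono this)

theorem del_prim {c d u n : ℕ} (hc : c = 1 ∨ c = 4 ∧ Even u) (hu : 0 < u) (hd : 0 < d) (h1 : c * d ^ 2 ≠ 1)
    (hr : ∀ r : ℕ, r.Prime → r ∣ c * d ^ 2 → r ∣ u) (h : (u * c + 1) ^ d ≤ n) (hn : n < 2 ^ 18) :
    c * d ^ 2 < n ∧ max 1 (del (c * d ^ 2)) + 2 ≤ del n := by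
  obtain ⟨r, h2, h3⟩ := Nat.exists_prime_and_dvd h1
  have h4 := h2.two_le.trans (Nat.le_of_dvd hu (hr r h2 h3))
  have key : ∀ a, a ≤ u * c + 1 → c * d ^ 2 < a ^ d ∧ max 1 (del (c * d ^ 2)) + 2 ≤ del (a ^ d) →
      c * d ^ 2 < n ∧ max 1 (del (c * d ^ 2)) + 2 ≤ del n := fun a h1 h2 =>
    have := (Nat.pow_le_pow_left h1 d).trans h
    ⟨h2.1.trans_le this, h2.2.trans (del_mono this)⟩
  have h6 : d < 12 := lt_of_not_ge fun h5 => by
    have := ((Nat.pow_le_pow_left (show 3 ≤ u * c + 1 by rcases hc with rfl | ⟨rfl, -⟩ <;> omega) 12).trans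
      (Nat.pow_le_pow_right (Nat.succ_pos _) h5)).trans h
    omega
  obtain rfl | ⟨rfl, -⟩ := hc
  · by_cases h5 : d = 3
    · subst h5
      exact key 4 (by have := Nat.le_of_dvd hu (hr 3 Nat.prime_three (by decide)); omega) (by decide)
    · exact key 3 (by omega) (by interval_cases d <;> first | decide | omega)
  · exact key 9 (by omega) (by interval_cases d <;> decide)

variable {G : Type u} [Group G] {V : Type*} [AddCommGroup V] [DistribMulAction G V] {U E : Subgroup G}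

theorem tv_bot {H : Subgroup G} (h : H = ⊥) : Tv V H := fun g hg w => by
  rw [h, mem_bot] at hg
  rw [hg, one_smul]

theorem tv_small (h : Nat.card V ≤ 2) [Finite V] (H : Subgroup G) : Tv V H := fun g _ w => by
  by_contra h1
  have h0 : w ≠ 0 := fun e => h1 (by rw [e, smul_zero])
  have := (Set.ncard_le_card {g • w, w, 0}).trans h
  rw [Set.ncard_eq_three.2 ⟨_, _, _, h1, smul_ne g h0, h0, rfl⟩] at this
  omega

theorem dr_one_le_U (h : GS U E) (h1 : U.relIndex E = 1) : dr (⊤ : Subgroup G) 1 ≤ U := fun g hg =>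
  h.self g fun a ha => (mem_centralizer_iff.1 (dr_one_le h hg) a (relIndex_eq_one.1 h1 ha)).symm

theorem aff_le {L : Subgroup G} {A : Type*} [MulAction G A] (h : ⁅Kr G A, Kr G A⁆ ≤ L.normalCore) {k : ℕ}
    (hk : Tv A (dr (⊤ : Subgroup G) k)) : dr (⊤ : Subgroup G) (k + 1) ≤ L.normalCore :=
  (commutator_mono (tv_iff.1 hk) (tv_iff.1 hk)).trans h

theorem dlThm : DLThm.{u} := by
  intro G V _ _ _ _ _ hs hi hn
  induction e : Nat.card V using Nat.strong_induction_on generalizing G V with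
  | _ n ih =>
  subst e
  by_cases h2 : Nat.card V ≤ 2
  · exact tv_small h2 _
  by_cases h3 : Nat.card V = 3
  · exact h3 ▸ tv_prime (h3 ▸ Nat.prime_three)
  haveI : Nontrivial V := Finite.one_lt_card_iff_nontrivial.1 (by omega)
  obtain ⟨G', _, _, _, f, -, hf, hs', ⟨p, U, E, h⟩ | ⟨L, π, Y, I⟩⟩ := irr_cases hs hi <;> refine tv_of_hom hf ?_
  · obtain ⟨D, ξ, m⟩ := exists_mx (V := V) E
    obtain ⟨c, hc, e1, e2⟩ := shape h m
    by_cases h1 : U.relIndex E = 1
    · refine (tv_bot (H := dr ⊤ 2) (eq_bot_iff.2 (commutator_le.2 fun a ha b hb => mem_bot.2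
        (h.comm_U_left (dr_one_le_U h.toGS h1 ha) (h.le (dr_one_le_U h.toGS h1 hb)))))).anti (dr_anti _ ?_)
      exact del_mono (a := 4) (by omega)
    obtain ⟨k1, k2⟩ := del_prim hc Nat.card_pos Nat.card_pos (e1 ▸ h1) (fun r hr hd => prime_dvd_U h.toGS hr (e1 ▸ hd)) e2 hn
    refine (tv_bot (dr_two_bot h.toGS (sec_le h.toGS (le_max_left _ _) fun W _ _ _ l hW e _ _ => ?_))).anti (dr_anti _ k2)
    have : Nat.card W ≤ c * Nat.card D ^ 2 :=
      Nat.le_of_dvd (e1 ▸ Nat.pos_of_ne_zero index_ne_zero_of_finite) ⟨l, by rw [e, e1]⟩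
    exact (ih _ (by omega) G' W hs' hW (by omega) rfl).anti (dr_anti _ ((del_mono this).trans (le_max_right _ _)))
  · obtain ⟨A, _, _, _, τ, hA, e1, e2, -⟩ := affThm G' hs' L I.co
    obtain ⟨k1, k2⟩ := I.card_lt
    letI := subAct I.inv
    haveI := I.nontrivial
    refine (I.tv (aff_le e2 (ih _ (e1 ▸ k2) G' A hs' hA (by omega) rfl))
      (ih _ k1 L Y inferInstance I.irr' (by omega) rfl)).anti (dr_anti _ ?_)
    exact e1 ▸ del_imp Finite.one_lt_card I.two_le I.pow_le hn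

theorem tv_three [Finite G] (hG : Odd (Nat.card G)) (h : Nat.card V = 3) (H : Subgroup G) : Tv V H := fun g _ w => by
  haveI : Finite V := Nat.finite_of_card_ne_zero (by omega)
  by_contra h1
  have h0 : w ≠ 0 := fun e => h1 (by rw [e, smul_zero])
  have h2 : g • g • w ≠ w := fun e => h1 (smul_eq_of_pow_coprime (Nat.coprime_two_right.2 hG) (by rw [sq, mul_smul, e]))
  have := Set.ncard_le_card {g • g • w, g • w, w, 0}
  rw [Set.ncard_insert_of_notMem (by simp [smul_ne g (smul_ne g h0), h1, h2]), Set.ncard_eq_three.2 ⟨_, _, _, h1, smul_ne g h0, h0, rfl⟩] at this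
  omega

theorem abThm : AbThm.{u} := by
  intro G V _ _ _ _ _ hs hG hi hn
  simp only [List.mem_cons, List.not_mem_nil, or_false] at hn
  haveI : Nontrivial V := Finite.one_lt_card_iff_nontrivial.1 (by omega)
  have hV : Odd (Nat.card V) := by rw [Nat.odd_iff]; omega
  obtain ⟨G', _, _, _, f, hd, hf, hs', ⟨p, U, E, h⟩ | ⟨L, π, Y, I⟩⟩ := irr_cases hs hi <;> refine tv_of_hom hf ?_ <;>
    replace hG := hG.of_dvd_nat hd
  · obtain ⟨D, ξ, m⟩ := exists_mx (V := V) E
    obtain ⟨e1, e2⟩ := shape_odd h m hG hV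
    have hU := Nat.odd_iff.1 (hG.of_dvd_nat (card_subgroup_dvd_card U))
    have hD := Nat.odd_iff.1 (hG.of_dvd_nat (card_subgroup_dvd_card D))
    have h1 : U.relIndex E = 1 := by
      by_contra h1
      obtain ⟨r, h2, h3⟩ := Nat.exists_prime_and_dvd h1
      have h4 := h2.two_le.trans (Nat.le_of_dvd Nat.card_pos (prime_dvd_U h.toGS h2 h3))
      have h5 : Nat.card D ≠ 1 := fun e => h1 (by rw [e1, e, one_pow])
      have := ((Nat.pow_le_pow_left (show 7 ≤ _ by omega) 3).trans (Nat.pow_le_pow_right (Nat.succ_pos _)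
        (show 3 ≤ Nat.card D by omega))).trans e2
      omega
    have h2 : Nat.card U ∣ 240 := (card_U_dvd h).trans (by rcases hn with e | e | e | e | e <;> rw [e] <;> norm_num)
    have h3 : (Nat.card U).totient ∣ 8 := by
      exact Nat.totient_dvd_of_dvd (b := 15) ((Nat.Coprime.pow_right 4 (Nat.coprime_two_right.2
        (Nat.odd_iff.2 hU))).dvd_of_dvd_mul_left h2)
    haveI := h.nU
    haveI := h.cyc
    have h4 : ∀ g : G', g ∈ U := fun g => h.self g fun a ha => by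
      have e : MulAut.conjNormal (H := U) g = 1 := orderOf_eq_one_iff.1 (Nat.eq_one_of_dvd_coprimes
        (Nat.Coprime.pow_right 3 (Nat.coprime_two_right.2 hG)) ((orderOf_map_dvd _ g).trans (_root_.orderOf_dvd_natCard g))
        ((_root_.orderOf_dvd_natCard _).trans (IsCyclic.card_mulAut U ▸ h3)))
      exact mul_inv_eq_iff_eq_mul.1 (congrArg (fun φ : MulAut U => (φ ⟨a, relIndex_eq_one.1 h1 ha⟩ : G')) e)
    exact tv_bot (eq_bot_iff.2 (commutator_le.2 fun a _ b _ => mem_bot.2 (h.comm_U_left (h4 a) (h.le (h4 b)))))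
  · obtain ⟨A, _, _, _, τ, hA, e1, e2, -⟩ := affThm G' hs' L I.co
    letI := subAct I.inv
    haveI := I.nontrivial
    have h1 := Nat.odd_iff.1 (hG.of_dvd_nat L.index_dvd_card)
    have h2 := Nat.odd_iff.1 (hV.of_dvd_nat (AddSubgroup.card_addSubgroup_dvd_card Y))
    have h3 := I.two_le
    have h4 : 1 < Nat.card Y := Finite.one_lt_card
    have key : ∀ a b, a ≤ Nat.card Y → b ≤ L.index → a ^ b ≤ Nat.card V := fun a b h1 h2 =>
      ((Nat.pow_le_pow_left h1 b).trans (Nat.pow_le_pow_right (by omega) h2)).trans I.pow_le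
    have := key 5 3; have := key 3 5
    exact I.tv (k := 0) (aff_le e2 (tv_three hG (by omega) _))
      (tv_three (hG.of_dvd_nat (card_subgroup_dvd_card L)) (by omega) _)

end CL.SL.Vc
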