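/-
Vector stabilisers of bounded derived length: the induction.
-/
import Cfsg.Agent.Fgs.VcDl
import Cfsg.Agent.Fgs.VcCol

set_option autoImplicit false
set_option linter.style.haveILetI false

open Subgroup CL.Odd CL.Grp
open scoped commutatorElement

namespace CL.SL.Vc

universe u v

theorem dr_le_E {G : Type u} [Group G] [Finite G] (hs : Group.IsSolvable G) {U E : Subgroup G} (h : GS U E) {n : ℕ}
    (h1 : U.relIndex E ≤ n) (h2 : n < 2 ^ 18) (h3 : 3 ≤ n) : dr (⊤ : Subgroup G) (del n) ≤ E :=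
  sec_le h (del_mono (a := 3) h3) fun W _ _ _ l hW e _ _ => by
    have : Nat.card W ≤ U.relIndex E := Nat.le_of_dvd (Nat.pos_of_ne_zero index_ne_zero_of_finite) ⟨l, e.symm⟩
    exact (dlThm G W hs hW (by omega)).anti (dr_anti _ (del_mono (by omega)))

theorem good_of_irr (hm : MidThm.{u}) (hb : BigThm.{u}) (G V : Type u) [Group G] [Finite G] [AddCommGroup V] [Finite V]
    [Nontrivial V] [DistribMulAction G V] (hs : Group.IsSolvable G) (hi : Irr G V) : Good G V := by
  induction e : Nat.card V using Nat.strong_induction_on generalizing G V with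
  | _ n ih =>
  subst e
  obtain ⟨G', _, _, _, f, -, hf, hs', ⟨p, U, E, h⟩ | ⟨L, π, Y, I⟩⟩ := irr_cases hs hi <;> refine good_of_hom hf ?_
  · by_cases h1 : U.relIndex E ≤ 63
    · have h2 := dr_two_bot h.toGS (dr_le_E hs' h.toGS h1 (by norm_num) (by norm_num))
      obtain ⟨w, hw⟩ := exists_ne (0 : V)
      refine .inr (.inr (.inr ⟨![0, w], fun i => (tv_bot h2).anti (dr_mono le_top _), fun i j g e => ?_⟩))
      fin_cases i <;> fin_cases j
      exacts [rfl, (hw (e.symm.trans (smul_zero g))).elim, (smul_ne g hw e).elim, rfl]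
    by_cases h2 : U.relIndex E ≤ 4095
    · exact .inr (.inr (hm G' V hs' p U E h (by omega) (dr_le_E hs' h.toGS h2 (by norm_num) (by norm_num))))
    · exact .inl (hb G' V hs' p U E h (by omega) fun h3 =>
        dr_le_E (n := 262143) hs' h.toGS (by omega) (by norm_num) (by norm_num))
  · letI := subAct I.inv
    haveI := I.nontrivial
    obtain ⟨c5, c4, c3, c2⟩ := colThm affThm (idxThm affThm dlThm) G' hs' L I.co
    obtain h | h | h | h := ih _ I.card_lt.1 L Y inferInstance I.irr' rfl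
    · exact .inl (I.pp h c5)
    · exact .inl (I.pp h c4)
    · exact .inl (I.pp h c3)
    · obtain c | c | c := c2
      exacts [.inr (.inr (.inl (I.pp h c))), .inr (.inl (I.pp h c)), .inl (I.pp h c)]

theorem odd_of_irr (ho : OddThm.{u}) (G V : Type u) [Group G] [Finite G] [AddCommGroup V] [Finite V] [Nontrivial V]
    [DistribMulAction G V] (hs : Group.IsSolvable G) (hi : Irr G V) (hG : Odd (Nat.card G)) (hV : Odd (Nat.card V)) :
    ∃ v : V, Gd G V 1 v := by
  induction e : Nat.card V using Nat.strong_induction_on generalizing G V with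
  | _ n ih =>
  subst e
  obtain ⟨G', _, _, _, f, hd, hf, hs', ⟨p, U, E, h⟩ | ⟨L, π, Y, I⟩⟩ := irr_cases hs hi <;>
    replace hG := hG.of_dvd_nat hd
  · exact (ho G' V hs' p U E h hG hV).imp fun _ => gd_of_hom hf
  letI := subAct I.inv
  haveI := I.nontrivial
  have hL := hG.of_dvd_nat (card_subgroup_dvd_card L)
  have hY := hV.of_dvd_nat (AddSubgroup.card_addSubgroup_dvd_card Y)
  obtain ⟨w, h0, hw⟩ : ∃ w : Y, w ≠ 0 ∧ Gd L Y 1 w := by
    obtain ⟨w, hw⟩ := ih _ I.card_lt.1 L Y inferInstance I.irr' hL hY rfl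
    by_cases h0 : w = 0
    · obtain ⟨w', hw'⟩ := exists_ne (0 : Y)
      exact ⟨w', hw', Tv.anti hw (dr_mono (fun g _ => by rw [h0]; exact smul_zero g) 1)⟩
    · exact ⟨w, h0, hw⟩
  have key : ∀ l : L, l • w ≠ -w := fun l e => by
    have : l • w = w := smul_eq_of_pow_coprime (Nat.coprime_two_right.2 hL) (by rw [sq, mul_smul, e, smul_neg, e, neg_neg])
    exact h0 (eq_zero_of_odd hY (by rw [e] at this; linear_combination (norm := abel) -this))
  obtain ⟨c, h1, h2⟩ := exists_colour (m := 2) I.co (concl_of_irr primStep _) fun H A _ _ _ _ _ hH hA h =>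
    col_two (hG.of_dvd_nat hH) (hG.of_dvd_nat hA) (h.2 (Or.inl (hG.of_dvd_nat hH)))
  obtain ⟨x, hx, -⟩ := I.pp (a := 0) (n := 1) (k := 1) (m := 2) ⟨![w, -w], fun i => by
      fin_cases i
      exacts [hw, Tv.anti hw (dr_mono (fun g hg => neg_inj.1 ((smul_neg g w).symm.trans hg)) 1)], fun i j l e => by
      fin_cases i <;> fin_cases j
      exacts [rfl, (key l e).elim, (key l (neg_eq_iff_eq_neg.1 ((smul_neg l w).symm.trans e))).elim, rfl]⟩
    ⟨fun _ q => q.liftOn c fun a b hab => by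
      rw [← h1 a _ (QuotientGroup.leftRel_apply.1 hab), mul_inv_cancel_left],
      fun _ H hH => tv_quot.2 fun h hh => h2 h fun g => hH h hh (g : G' ⧸ L), fun _ _ _ _ => Subsingleton.elim _ _⟩
  exact ⟨x 0, gd_of_hom hf (hx 0)⟩

theorem main_of (hm : MidThm.{u}) (hb : BigThm.{u}) (ho : OddThm.{u}) (G : Type v) (V : Type u) [Group G] [Finite G]
    [AddCommGroup V] [Finite V] [DistribMulAction G V] (hs : Group.IsSolvable G) (hcr : CR G V) :
    (∃ v : V, Gd G V 9 v) ∧ (Odd (Nat.card G) → Odd (Nat.card V) → ∃ v : V, Gd G V 1 v) := by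
  obtain ⟨G', _, _, _, f, h1, hf, hs', -⟩ := exists_faith (V := V) hs
  have e : ∀ U : AddSubgroup V, Inv G' V U ↔ Inv G V U := fun U =>
    ⟨fun h a v hv => hf a v ▸ h (f a) v hv, fun h a v hv => by
      obtain ⟨a, rfl⟩ := h1 a
      exact hf a v ▸ h a v hv⟩
  have hcr' : CR G' V := fun U hU => (hcr U ((e U).1 hU)).imp fun W hW => ⟨(e W).2 hW.1, hW.2⟩
  refine ⟨(gd_of_cr hcr' fun Z hZ h0 hi => ?_).imp fun _ => gd_of_hom hf,
    fun hG hV => (gd_of_cr hcr' fun Z hZ h0 hi => ?_).imp fun _ => gd_of_hom hf⟩ <;> letI := subAct hZ <;>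
      haveI := (AddSubgroup.nontrivial_iff_ne_bot Z).2 h0
  · obtain ⟨x, hx, -⟩ | ⟨x, hx, -⟩ | ⟨x, hx, -⟩ | ⟨x, hx, -⟩ := good_of_irr hm hb G' Z hs' hi <;>
      exact ⟨x 0, (hx 0).mono (by norm_num)⟩
  · exact odd_of_irr ho G' Z hs' hi (hG.of_dvd_nat (card_dvd_of_surjective f h1))
      (hV.of_dvd_nat (AddSubgroup.card_addSubgroup_dvd_card Z))

theorem s4070_of (hm : MidThm.{u}) (hb : BigThm.{u}) (ho : OddThm.{u}) {G : Type v} {V : Type u} [Group G] [Finite G]
    [hs : Group.IsSolvable G] {p : ℕ} [hp : Fact p.Prime] [AddCommGroup V] [Module (ZMod p) V] [Finite V]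
    [DistribMulAction G V] [FaithfulSMul G V]
    (hcr : ∀ W : Submodule (ZMod p) V, (∀ (g : G) (w : V), w ∈ W → g • w ∈ W) →
      ∃ W' : Submodule (ZMod p) V, (∀ (g : G) (w : V), w ∈ W' → g • w ∈ W') ∧ IsCompl W W') :
    (∃ v : V, derivedSeries ↥(MulAction.stabilizer G v) 9 = ⊥) ∧
    (Odd (Nat.card G) → p ≠ 2 → ∃ v : V, IsMulCommutative ↥(MulAction.stabilizer G v)) := by
  obtain ⟨h1, h2⟩ := main_of hm hb ho G V hs fun U hU => by
    obtain ⟨W, hW, hc⟩ := hcr (AddSubgroup.toZModSubmodule p U) hU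
    have := (AddSubgroup.toZModSubmodule p).symm.isCompl hc
    rw [OrderIso.symm_apply_apply] at this
    exact ⟨W.toAddSubgroup, hW, this.inf_eq_bot, this.sup_eq_top⟩
  have key : ∀ k (v : V), Gd G V k v → derivedSeries ↥(MulAction.stabilizer G v) k = ⊥ := fun k v hv => by
    rw [← dr_top]
    refine eq_bot_iff.2 fun g hg => mem_bot.2 (Subtype.ext (FaithfulSMul.eq_of_smul_eq_smul (α := V) fun w => ?_))
    exact (hv g (mem_dr_map (K := MulAction.stabilizer G v) (MulAction.stabilizer G v).subtype (fun a _ => a.2) hg)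
      w).trans (one_smul G w).symm
  refine ⟨h1.imp (key 9), fun hG hp2 => (h2 hG ?_).imp fun v hv => ⟨⟨fun a b => comm_iff.1 (mem_bot.1
    ((key 1 v hv).le (commutator_mem_commutator (mem_top a) (mem_top b))))⟩⟩⟩
  rw [Module.natCard_eq_pow_finrank (K := ZMod p), Nat.card_zmod]
  exact (hp.out.odd_of_ne_two hp2).pow

end CL.SL.Vc
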