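/-
Vector stabilisers of bounded derived length: the case of few orbits.
-/
import Cfsg.Agent.Fgs.VcPrim
import Cfsg.Agent.Odd.BG4d

set_option autoImplicit false
set_option linter.style.haveILetI false
set_option linter.unusedSectionVars false

open Subgroup CL.Odd CL.Grp
open scoped commutatorElement Pointwise

namespace CL.SL.Vc

universe u

namespace Mid

variable {G : Type u} [Group G]

/-- one step down a filtration -/
theorem filt {N : Type*} [AddCommGroup N] [DistribMulAction G N] {H : Subgroup G} {A B : AddSubgroup N}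
    (h1 : ∀ g ∈ H, ∀ w : N, g • w - w ∈ A) (h2 : ∀ g ∈ H, ∀ w ∈ A, g • w - w ∈ B)
    (h3 : ∀ g ∈ H, ∀ w ∈ B, g • w ∈ B) : ∀ g ∈ ⁅H, H⁆, ∀ w : N, g • w - w ∈ B := by
  let K : Subgroup G :=
    { carrier := {g | g ∈ H ∧ ∀ w : N, g • w - w ∈ B}
      one_mem' := ⟨H.one_mem, fun w => by simp⟩
      mul_mem' := fun {a b} ha hb => ⟨H.mul_mem ha.1 hb.1, fun w => by
        simpa [mul_smul, smul_sub] using add_mem (h3 a ha.1 _ (hb.2 w)) (ha.2 w)⟩
      inv_mem' := fun {a} ha => ⟨H.inv_mem ha.1, fun w => by simpa using neg_mem (ha.2 (a⁻¹ • w))⟩ }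
  refine fun g hg => ((commutator_le (H₃ := K)).2 (fun a ha b hb => ⟨H.mul_mem (H.mul_mem (H.mul_mem ha hb)
    (H.inv_mem ha)) (H.inv_mem hb), fun w => ?_⟩) hg).2
  obtain ⟨w, rfl⟩ := MulAction.surjective (b * a) w
  dsimp only
  rw [← mul_smul, show ⁅a, b⁆ * (b * a) = a * b by simp [commutatorElement_def, mul_assoc], mul_smul, mul_smul]
  convert sub_mem (h2 a ha _ (h1 b hb w)) (h2 b hb _ (h1 a ha w)) using 1
  simp only [smul_sub]; abel

/-- a system of representatives of some cosets of `C(D)` -/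
structure Pre (E D : Subgroup G) (T : Finset G) : Prop where
  le : ∀ t ∈ T, t ∈ E
  one : 1 ∈ T
  inj : ∀ a ∈ T, ∀ b ∈ T, a⁻¹ * b ∈ C[D] → a = b

/-- no translation permutes the cosets -/
def Rig (E D : Subgroup G) (T : Finset G) : Prop := ∀ g ∈ E, (∀ a ∈ T, ∃ b ∈ T, (g * a)⁻¹ * b ∈ C[D]) → g ∈ C[D]

variable [Finite G] {V : Type*} [AddCommGroup V] [DistribMulAction G V] {p : ℕ} {U E D : Subgroup G} {ξ : V}
  {T : Finset G} {s w y : G}

theorem pre_two [DecidableEq G] (hs : s ∈ E) (hs' : s ∉ C[D]) : Pre E D {1, s} := by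
  refine ⟨by simp [hs], by simp, fun a ha b hb e => ?_⟩
  simp only [Finset.mem_insert, Finset.mem_singleton] at ha hb
  rcases ha with rfl | rfl <;> rcases hb with rfl | rfl <;> simp_all

variable (h : Setup V p U E) (m : Mx E D ξ)
include h m

theorem rig_two [DecidableEq G] (hs : s ∈ E) (h2 : s * s ∉ C[D]) : Rig E D {1, s} := fun g hg H => by
  simp only [Finset.mem_insert, Finset.mem_singleton, forall_eq_or_imp, exists_eq_or_imp, exists_eq_left, forall_eq,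
    mul_one, inv_mem_iff] at H
  refine H.1.elim id fun a => H.2.elim (fun b => (h2 ?_).elim) fun b => ?_
  · simpa [mul_assoc] using mul_mem (h.normal_cent m (E.inv_mem hg) (mem_inf.2 ⟨E.mul_mem (E.inv_mem hg) hs, a⟩)).2 b
  · simpa [mul_assoc] using (h.normal_cent m (E.inv_mem hs)
      (mem_inf.2 ⟨E.mul_mem (E.inv_mem (E.mul_mem hg hs)) hs, b⟩)).2

theorem vec (a : Pre E D T) (r : Rig E D T) :
    ∃ v : V, v ≠ 0 ∧ E ⊓ MulAction.stabilizer G v = D ⊓ centralizer (T : Set G) := by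
  classical
  have inj : ∀ i j : T, (i : G)⁻¹ * j ∈ C[D] → i = j := fun i j e => Subtype.ext (a.inj _ i.2 _ j.2 e)
  refine ⟨∑ i : T, (i : G) • ξ, fun e => ?_, le_antisymm (fun g hg => ?_) fun y hy => ⟨m.le hy.1, ?_⟩⟩
  · obtain ⟨j, -⟩ := h.rep_unique m.le (κ := Empty) (t' := Empty.elim) (η' := Empty.elim)
      (η := fun i : T => (i : G) • ξ) (fun i => a.le _ i.2) (fun i => m.fx.blk _) inj (·.elim) (·.elim) (·.elim)
      (by simpa using e) ⟨1, a.one⟩ (smul_ne _ m.ne)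
    exact j.elim
  · have k := fun i => h.fix_mul m.le (η := fun i : T => (i : G) • ξ) (fun i => a.le _ i.2) (fun i => m.fx.blk _)
      (fun i => m.fx.blk _) inj hg.1 hg.2 i (smul_ne _ m.ne)
    have h1 := r g hg.1 fun t ht => let ⟨j, hj, _⟩ := k ⟨t, ht⟩; ⟨j, j.2, hj⟩
    have h2 : ∀ t ∈ T, g • t • ξ = t • ξ := fun t ht => by
      obtain ⟨j, hj, e⟩ := k ⟨t, ht⟩
      rwa [← inj ⟨t, ht⟩ j (by
        simpa [mul_assoc] using mul_mem (h.normal_cent m (a.le t ht) ⟨hg.1, h1⟩).2 hj)] at e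
    have h3 := m.mem hg.1 (by simpa using h2 1 a.one)
    exact ⟨h3, fun t ht => mem_cent1.1 (h.mem_cent_of_fix m h3 (a.le t ht) m.ne m.fx (h2 t ht))⟩
  · refine MulAction.mem_stabilizer_iff.2 ?_
    rw [Finset.smul_sum]
    exact Finset.sum_congr rfl fun i _ => by rw [← mul_smul, ← hy.2 i i.2, mul_smul, m.fx y hy.1]

theorem ext [DecidableEq G] (a : Pre E D T) (hs : s ∈ T) (hs' : s ∉ C[D]) (hy : y ∈ D ⊓ centralizer (T : Set G))
    (hw : w ∈ E) (hc : ⁅y, w⁆ ≠ 1) : Pre E D (insert w T) ∧ Rig E D (insert w T) := by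
  have e : ∀ t ∈ T, ⁅y, t⁆ = 1 := fun t ht => comm_iff.2 (hy.2 t ht).symm
  have χ := fun {a b} => h.chi_eq m hy.1 (a := a) (b := b)
  have μ := fun {a b} => h.comm_mul_right (m.le hy.1) (b := a) (c := b)
  refine ⟨⟨by simpa [hw] using a.le, by simp [a.one], fun b hb c hc' d => ?_⟩, fun g hg H => ?_⟩
  · rcases Finset.mem_insert.1 hb with e1 | h1 <;> rcases Finset.mem_insert.1 hc' with e2 | h2
    exacts [e1.trans e2.symm, (hc ((χ hw (a.le c h2) (e1 ▸ d)).trans (e c h2))).elim,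
      (hc ((χ (a.le b h1) hw (e2 ▸ d)).symm.trans (e b h1))).elim, a.inj b h1 c h2 d]
  obtain ⟨b, hb, d⟩ := H 1 (by simp [a.one])
  rw [mul_one] at d
  rcases Finset.mem_insert.1 hb with rfl | hb
  · obtain ⟨c, hc', d'⟩ := H s (Finset.mem_insert_of_mem hs)
    rcases Finset.mem_insert.1 hc' with rfl | hc'
    · refine (hs' ?_).elim
      simpa [mul_assoc] using inv_mem (mul_mem d' (inv_mem d))
    · have := χ (mul_mem hg (a.le s hs)) (a.le c hc') d'
      rw [μ hg (a.le s hs), e s hs, e c hc', mul_one, χ hg hw d] at this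
      exact (hc this).elim
  · obtain ⟨c, hc', d'⟩ := H w (Finset.mem_insert_self _ _)
    rcases Finset.mem_insert.1 hc' with rfl | hc'
    · simpa [mul_assoc] using (h.normal_cent m (E.inv_mem hw)
        (mem_inf.2 ⟨E.mul_mem (E.inv_mem (E.mul_mem hg hw)) hw, d'⟩)).2
    · have := χ (mul_mem hg hw) (a.le c hc') d'
      rw [μ hg hw, χ hg (a.le b hb) d, e b hb, e c hc', one_mul] at this
      exact (hc this).elim

theorem partner (hy : y ∈ D) (h1 : y ≠ 1) : ∃ w ∈ E, ⁅y, w⁆ ≠ 1 := by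
  by_contra! c
  exact h1 (eq_one_of_inf (h.disj m) hy (h.mem_U_of_comm (m.le hy) c))

/-- the stabiliser of `ξ` has small derived length if its second derived subgroup centralises `D` -/
theorem flag (hi : IdxThm.{u}) (hs : Group.IsSolvable G) (hZ : dr (MulAction.stabilizer G ξ) 2 ≤ C[D]) :
    Gd G V 6 ξ := by
  set Y := MulAction.stabilizer G ξ
  obtain ⟨N, _, _, _, ν, s⟩ := exists_sec h.toGS
  have hY : Y ≤ N[D] := fun g hg => m.norm h.nE hg
  have hU : dr Y 2 ≤ C[U] := (dr_anti _ one_le_two).trans ((dr_mono le_top 1).trans (dr_one_le h.toGS))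
  have a1 : ∀ g ∈ dr Y 2, ∀ w : N, g • w - w ∈ s.im C[D] := fun g hg w => by
    obtain ⟨a, ha, rfl⟩ := s.surj w
    refine ⟨_, ⟨h.dl_mem g ha, fun y hy => comm_iff.1 ?_⟩, s.dl g h.nE ha⟩
    have e := mem_centralizer_iff.1 (hU hg) _ (h.comm y (m.le hy) a ha)
    rw [dl, h.comm_mul_right (m.le hy) (inv_mem ha) (h.nE.conj_mem a ha g), h.comm_inv_right (m.le hy) ha,
      inv_mul_eq_one, ← mul_inv_cancel_right ⁅y, a⁆ g, e, conjugate_commutatorElement, ← hZ hg y hy,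
      mul_inv_cancel_right]
  have a3 : ∀ g ∈ dr Y 2, ∀ w ∈ s.im D, g • w = w := by
    rintro g hg _ ⟨y, hy, rfl⟩
    rw [s.smul g y hy.1, ← hZ hg y hy.2, mul_inv_cancel_right]
  have a4 : ∀ g ∈ Y, ∀ w ∈ s.im D, g • w ∈ s.im D := by
    rintro g hg _ ⟨y, hy, rfl⟩
    exact ⟨_, ⟨h.nE.conj_mem y hy.1 g, conj_mem_of_norm (hY hg) hy.2⟩, (s.smul g y hy.1).symm⟩
  have a5 : ∀ t ∈ D ⊔ U, ν t ∈ s.im D := fun t ht => by
    obtain ⟨d, hd, u, hu, rfl⟩ := h.mem_sup_iff.1 ht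
    rw [s.mul d (m.le hd) u (h.le hu), (s.zero u (h.le hu)).2 hu, add_zero]
    exact ⟨d, ⟨m.le hd, hd⟩, rfl⟩
  have a2 : ∀ g ∈ dr Y 2, ∀ w ∈ s.im C[D], g • w - w ∈ s.im D := fun g hg w hw => by
    by_cases c : w ∈ s.im D
    · rw [a3 g hg w c, sub_self]; exact zero_mem _
    let cs : N → Set N := fun w => {x | x - w ∈ s.im D}
    have b1 : ∀ g ∈ Y, ∀ w, g • cs w = cs (g • w) := fun g hg w => Set.ext fun x => by
      rw [Set.mem_smul_set_iff_inv_smul_mem]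
      exact ⟨fun e => by simpa [cs, smul_sub] using a4 g hg _ e,
        fun e => by simpa [cs, smul_sub] using a4 _ (inv_mem hg) _ e⟩
    have b2 : (cs '' {w | w ∈ s.im C[D] ∧ w ∉ s.im D}).ncard ≤ 3 := by
      obtain e | ⟨i, hi, j, hj, z, -, -, -, -, -, -, -, cov⟩ := h.quat m
      · obtain ⟨q, hq, rfl⟩ := hw
        exact (c (a5 q (e hq))).elim
      refine (Set.ncard_le_ncard (t := {cs (ν i), cs (ν j), cs (ν (i * j))}) ?_).trans
        ((Set.ncard_insert_le _ _).trans (Nat.succ_le_succ ((Set.ncard_insert_le _ _).trans (by simp))))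
      rintro _ ⟨_, ⟨⟨q, hq, rfl⟩, d⟩, rfl⟩
      obtain ⟨ρ, h1, h2⟩ := cov q hq
      have h3 : ρ ∈ E := by simpa using E.mul_mem hq.1 (E.inv_mem (h.sup_le_cent m h2).1)
      have h4 := a5 _ h2
      rw [s.mul _ (inv_mem h3) q hq.1, s.inv h3] at h4
      have h5 : cs (ν q) = cs (ν ρ) := Set.ext fun x =>
        ⟨fun e => show x - _ ∈ s.im D by convert add_mem (e : x - _ ∈ s.im D) h4 using 1; abel,
          fun e => show x - _ ∈ s.im D by convert sub_mem (e : x - _ ∈ s.im D) h4 using 1; abel⟩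
      simp only [List.mem_cons, List.not_mem_nil, or_false] at h1
      rcases h1 with rfl | rfl | rfl | rfl
      · exact (d (by simpa [s.one] using h4)).elim
      all_goals simp [h5]
    have b3 := hi G (Set N) hs Y _ (Set.toFinite _) (b2.trans (by norm_num)) (by
      rintro g hg _ ⟨_, ⟨⟨q, hq, rfl⟩, d⟩, rfl⟩
      exact ⟨_, ⟨⟨_, conj_mem_of_norm (norm_cent h.nE (hY hg)) hq, (s.smul g q hq.1).symm⟩,
        fun e => d (by simpa using a4 _ (inv_mem hg) _ e)⟩, (b1 g hg _).symm⟩) g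
      (dr_anti _ (by unfold pid; split_ifs <;> omega) hg) _ ⟨w, ⟨hw, c⟩, rfl⟩
    rw [b1 g (dr_le _ _ hg)] at b3
    exact b3.le (by simp [cs])
  have c1 := filt a1 a2 fun g hg w hw => (a3 g hg w hw).symm ▸ hw
  have c2 := filt (B := ⊥) c1 (fun g hg w hw => by rw [a3 g (commutator_le_self _ hg) w hw, sub_self]; exact zero_mem _)
    fun g _ w hw => by rw [AddSubgroup.mem_bot.1 hw, smul_zero]; exact zero_mem _
  have c3 : dr Y 4 ≤ D := fun g hg => m.mem (s.ker_le h.toGS ⟨mem_Kr.2 fun w => sub_eq_zero.1 (c2 g hg w),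
    hU (dr_anti _ (by norm_num) hg)⟩) (dr_le _ _ hg)
  exact (gd_of_bot (k := 5) (eq_bot_iff.2 (commutator_le.2 fun a ha b hb =>
    mem_bot.2 (comm_iff.2 (h.le_cent m (c3 hb) a (c3 ha)))))).mono (by norm_num)

theorem cyc (hs : s ∈ E) (e : D ⊓ C1[s] = ⊥) : IsCyclic D :=
  haveI := h.cyc
  isCyclic_of_injective (MonoidHom.mk' (fun y : D => (⟨_, h.comm y (m.le y.2) s hs⟩ : U)) fun a b =>
    Subtype.ext (h.comm_mul_left (m.le a.2) (m.le b.2) hs)) ((injective_iff_map_eq_one _).2 fun y hy =>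
      Subtype.ext (mem_bot.1 (e.le ⟨y.2, mem_cent1.2 (comm_iff.1 (congrArg Subtype.val hy)).symm⟩)))

theorem chi_iff (hB : ∀ y ∈ D, y ^ 2 = 1) {y' : G} (hy : y ∈ D) (hy' : y' ∈ D) (hs : s ∈ E)
    (e : ⁅y, s⁆ = 1 ↔ ⁅y', s⁆ = 1) : s * (y⁻¹ * y') = y⁻¹ * y' * s := by
  have e2 : ∀ y ∈ D, ⁅y, s⁆ ^ 2 = 1 := fun y hy => by rw [← h.comm_pow_left (m.le hy) hs, hB y hy]; simp
  refine (comm_iff.1 ?_).symm
  rw [h.comm_mul_left (inv_mem (m.le hy)) (m.le hy') hs, h.comm_inv_left (m.le hy) hs, inv_mul_eq_one]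
  by_cases c : ⁅y, s⁆ = 1
  · rw [c, e.1 c]
  exact h.eq_invol (h.comm _ (m.le hy') s hs) (mt e.2 c) (e2 _ hy') (h.comm _ (m.le hy) s hs) c (e2 _ hy)

theorem first [DecidableEq G] (hi : IdxThm.{u}) (hs : Group.IsSolvable G) (h3 : 3 ≤ Nat.card D) :
    ∃ T, Pre E D T ∧ Rig E D T ∧ (∃ s ∈ T, s ∉ C[D]) ∧ (D ⊓ centralizer (T : Set G) = ⊥ → Gd G V 6 ξ) := by
  have hY : MulAction.stabilizer G ξ ≤ N[D] := fun g hg => m.norm h.nE hg
  by_cases c : ∃ r : ℕ, r.Prime ∧ ¬ r ∣ 2 ∧ ∃ x ∈ D, x ^ r ∈ U ∧ x ∉ U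
  · obtain ⟨r, hr, r2, x, hx, h1, h2⟩ := c
    obtain ⟨s, hs1, hs2, hs3⟩ := h.exists_partner hr (m.le hx) h2 h1
    have h4 : s * s ∉ C[D] := fun e => r2 (by
      haveI := Fact.mk hr
      have ho : orderOf ⁅x, s⁆ = r :=
        orderOf_eq_prime (by rw [← h.comm_pow_right (m.le hx) hs1, h.comm_U_right (m.le hx) hs2]) hs3
      rw [← ho, orderOf_dvd_iff_pow_eq_one, ← h.comm_pow_right (m.le hx) hs1, sq]
      exact comm_iff.2 (e x hx))
    have h5 : s ∉ C[D] := fun e => h4 (mul_mem e e)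
    refine ⟨{1, s}, pre_two hs1 h5, rig_two h m hs1 h4, ⟨s, by simp, h5⟩, fun e => flag h m hi hs ((dr_anti _ one_le_two).trans
      (comm_le_cent_of_cyclic (cyc h m hs1 (eq_bot_iff.2 fun y hy => e.le ⟨hy.1, ?_⟩)) hY hY))⟩
    simpa [mem_centralizer_iff] using hy.2
  push Not at c
  have hB : ∀ y ∈ D, y ^ 2 = 1 := fun y hy => eq_one_of_inf (h.disj m) (pow_mem hy 2)
    (h.pow_mem_of_primes m.le le_rfl two_ne_zero c hy)
  obtain ⟨x, hx, x1⟩ := (bot_or_exists_ne_one D).resolve_left fun e => by simp [e] at h3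
  obtain ⟨s, hs1, hs2⟩ := partner h m hx x1
  have h5 : s ∉ C[D] := fun e => hs2 (comm_iff.2 (e x hx))
  obtain ⟨y, hy, y1⟩ := (bot_or_exists_ne_one (D ⊓ centralizer (({1, s} : Finset G) : Set G))).resolve_left fun e => by
    have := Nat.card_le_card_of_injective (fun y : D => ⁅(y : G), s⁆ = 1) fun a b d =>
      Subtype.ext (inv_mul_eq_one.1 (mem_bot.1 (e.le ⟨D.mul_mem (D.inv_mem a.2) b.2, by
        simpa [mem_centralizer_iff] using chi_iff h m hB a.2 b.2 hs1 d.to_iff⟩)))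
    simp only [Nat.card_eq_fintype_card (α := Prop), Fintype.card_prop] at this
    omega
  obtain ⟨t, ht, ht'⟩ := partner h m hy.1 y1
  obtain ⟨a, b⟩ := ext h m (pre_two hs1 h5) (by simp) h5 hy ht ht'
  refine ⟨_, a, b, ⟨s, by simp, h5⟩, fun e => flag h m hi hs fun g hg y hy => ?_⟩
  have h4 := Nat.card_le_card_of_injective (fun y : D => (⁅(y : G), s⁆ = 1, ⁅(y : G), t⁆ = 1)) fun a b d =>
    Subtype.ext (inv_mul_eq_one.1 (mem_bot.1 (e.le ⟨D.mul_mem (D.inv_mem a.2) b.2, by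
      simpa [mem_centralizer_iff] using And.intro (chi_iff h m hB a.2 b.2 ht (congrArg Prod.snd d).to_iff)
        (chi_iff h m hB a.2 b.2 hs1 (congrArg Prod.fst d).to_iff)⟩)))
  simp only [Nat.card_prod, Nat.card_eq_fintype_card (α := Prop), Fintype.card_prop] at h4
  have h6 : ((D : Set G) \ {1}).ncard ≤ 3 := by
    rw [Set.ncard_sdiff_singleton_of_mem D.one_mem, ← Nat.card_coe_set_eq]
    exact Nat.sub_le_iff_le_add.2 h4
  by_cases y1 : y = 1
  · simp [y1]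
  exact (mul_inv_eq_iff_eq_mul.1 (@hi G G _ _ (MulAction.compHom G (MulAut.conj : G →* MulAut G)) hs _ _
    (Set.toFinite _) (h6.trans (by norm_num)) (fun g hg x hx => ⟨conj_mem_of_norm (hY hg) hx.1, fun e => hx.2
      (conj_eq_one_iff.1 (e : g * x * g⁻¹ = 1))⟩) g (dr_anti _ (by unfold pid; split_ifs <;> omega) hg) y ⟨hy, y1⟩)).symm

end Mid

open Mid in
theorem midThm (hi : IdxThm.{u}) : MidThm.{u} := fun G V _ _ _ _ _ _ hs p U E h h16 h6 => by
  classical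
  obtain ⟨D, ξ, m⟩ := exists_mx (V := V) E
  obtain ⟨c, hc, e, -⟩ := shape h m
  have h3 : 3 ≤ Nat.card D := by
    by_contra! d
    have : c * Nat.card D ^ 2 ≤ 4 * 2 ^ 2 := Nat.mul_le_mul (by omega) (Nat.pow_le_pow_left (by omega) 2)
    omega
  obtain ⟨T, a, r, ⟨s, hs1, hs2⟩, fl⟩ := first h m hi hs h3
  obtain ⟨v, v0, hv⟩ := vec h m a r
  have h0 : E ⊓ MulAction.stabilizer G ξ = D := le_antisymm (fun g hg => m.mem hg.1 hg.2) (le_inf m.le m.fx)
  have h1 : D ⊓ centralizer (T : Set G) < D :=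
    lt_of_le_of_ne inf_le_left fun e => hs2 fun y hy => ((e.ge hy).2 s hs1).symm
  have key : ∀ {x y : V}, E ⊓ MulAction.stabilizer G x < E ⊓ MulAction.stabilizer G y → ∀ g : G,
      g • x ≠ y ∧ g • y ≠ x := fun l g => ⟨fun e => l.ne (eq_of_le_of_card_ge l.le (card_stab_eq h.nE e).ge),
        fun e => l.ne (eq_of_le_of_card_ge l.le (card_stab_eq h.nE e).le)⟩
  have k1 := key (x := v) (y := ξ) (by rwa [hv, h0])
  obtain e | ⟨y, hy, y1⟩ := bot_or_exists_ne_one (D ⊓ centralizer (T : Set G))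
  · refine .inr ⟨![ξ, v], fun i => ?_, fun i j g => ?_⟩
    · fin_cases i
      exacts [fl e, gd_of_reg h6 (hv.trans e)]
    · fin_cases i <;> fin_cases j <;> simp [k1 g]
  obtain ⟨w, hw, hw'⟩ := partner h m hy.1 y1
  obtain ⟨a', r'⟩ := ext h m a hs1 hs2 hy hw hw'
  obtain ⟨v', v0', hv'⟩ := vec h m a' r'
  have h2 : D ⊓ centralizer ((insert w T : Finset G) : Set G) < D ⊓ centralizer (T : Set G) :=
    lt_of_le_of_ne (inf_le_inf_left _ (centralizer_le (by simp))) fun e =>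
      hw' (comm_iff.2 ((e.ge hy).2 w (by simp)).symm)
  have k2 := key (x := v') (y := v) (by rwa [hv, hv'])
  have k3 := key (x := v') (y := ξ) (by rw [hv', h0]; exact h2.trans h1)
  refine .inl ⟨![ξ, v, v'], fun i => ?_, fun i j g => ?_⟩
  · fin_cases i
    exacts [gd_succ h h6 m.ne, gd_succ h h6 v0, gd_succ h h6 v0']
  · fin_cases i <;> fin_cases j <;> simp [k1 g, k2 g, k3 g]

end CL.SL.Vc
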