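/-
Vector stabilisers of bounded derived length: the primitive case for groups of odd order.
-/
import Cfsg.Agent.Fgs.VcPrim

set_option autoImplicit false
set_option linter.style.haveILetI false

open Subgroup CL.Odd CL.Grp
open scoped commutatorElement

namespace CL.SL.Vc

universe u

namespace Od

section Arith

variable {n c F w d u : ℕ}

theorem ar_key {b e k : ℕ} (hw : 0 < w) (h1 : w ^ d ≤ n) (h2 : 2 * n ≤ c * F) (h3 : F ^ (b + e) ≤ n ^ b)
    (hk : k * (b + e) ≤ d * e) (h0 : b + e ≠ 0) : 2 * w ^ k ≤ c := by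
  have hn : 0 < n ^ b := Nat.pow_pos ((Nat.pow_pos hw).trans_le h1)
  refine (Nat.pow_le_pow_iff_left h0).1 (Nat.le_of_mul_le_mul_right ?_ hn)
  calc (2 * w ^ k) ^ (b + e) * n ^ b = 2 ^ (b + e) * (w ^ (k * (b + e)) * n ^ b) := by rw [mul_pow, ← pow_mul, mul_assoc]
    _ ≤ 2 ^ (b + e) * (n ^ e * n ^ b) := Nat.mul_le_mul_left _ (Nat.mul_le_mul_right _
        ((Nat.pow_le_pow_right hw hk).trans (by rw [pow_mul]; exact Nat.pow_le_pow_left h1 e)))
    _ = (2 * n) ^ (b + e) := by rw [mul_pow, pow_add n, mul_comm (n ^ b)]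
    _ ≤ c ^ (b + e) * F ^ (b + e) := by rw [← mul_pow]; exact Nat.pow_le_pow_left h2 _
    _ ≤ c ^ (b + e) * n ^ b := Nat.mul_le_mul_left _ h3

theorem ar_end {u0 k A : ℕ} (h0 : u0 ≤ u) (hu : 0 < u) (h : 2 * (2 * u + 1) ^ (k + 1) ≤ u * A) :
    4 * (2 * u0 + 1) ^ k ≤ A := by
  refine Nat.le_of_mul_le_mul_left (le_trans ?_ h) hu
  have : (2 * u0 + 1) ^ k ≤ (2 * u + 1) ^ k := Nat.pow_le_pow_left (by omega) k
  rw [pow_succ]
  generalize (2 * u0 + 1) ^ k = a at *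
  generalize (2 * u + 1) ^ k = b at *
  nlinarith [Nat.mul_le_mul_left u this]

theorem ar_ind (k : ℕ) : (3 * (k + 12) + 2) ^ 6 < 4 * 7 ^ (k + 11) := by
  induction k with
  | zero => norm_num
  | succ k ih =>
    have h1 : (10 * (3 * (k + 1 + 12) + 2)) ^ 6 ≤ (11 * (3 * (k + 12) + 2)) ^ 6 := Nat.pow_le_pow_left (by omega) 6
    rw [mul_pow, mul_pow] at h1
    rw [show k + 1 + 11 = k + 11 + 1 by ring, pow_succ 7]
    omega

theorem ar_div {m : ℕ} (hd : d ∈ [1, 3, 5, 7, 9, 11, 15]) (h : w * m = d ^ 2) (h1 : ¬ w.Prime) (h2 : ¬ m.Prime)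
    (h3 : ¬ 15 ∣ w) : w = 1 ∨ w ∈ [9, 25, 49, 81, 121] := by
  have key : ∀ d ∈ [1, 3, 5, 7, 9, 11, 15], ∀ w ∈ List.range 226, w ∣ d ^ 2 → ¬ w.Prime → ¬ (d ^ 2 / w).Prime →
      ¬ 15 ∣ w → w = 1 ∨ w ∈ [9, 25, 49, 81, 121] := by decide +kernel
  have h4 : 0 < d ^ 2 ∧ d ^ 2 ≤ 225 := by
    simp only [List.mem_cons, List.not_mem_nil, or_false] at hd
    rcases hd with rfl | rfl | rfl | rfl | rfl | rfl | rfl <;> norm_num
  have h5 : w ∣ d ^ 2 := ⟨m, h.symm⟩
  refine key d hd w (List.mem_range.2 (Nat.lt_succ_of_le ((Nat.le_of_dvd h4.1 h5).trans h4.2))) h5 h1 ?_ h3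
  rwa [← h, Nat.mul_div_cancel_left _ (Nat.pos_of_dvd_of_pos h5 h4.1)]

theorem ar_small (hd : d ∈ [3, 5, 7, 9, 11, 15]) (hu : 3 ≤ u) (h1 : (2 * u + 1) ^ d ≤ n) (h2 : 2 * n ≤ c * F)
    (h3 : F ^ 3 ≤ n) (hc : c ≤ u * d ^ 2) : False := by
  have key : ∀ k, (k + 1) * 3 ≤ d * 2 → 4 * 7 ^ k ≤ d ^ 2 := fun k hk =>
    ar_end hu (by omega) ((ar_key (b := 1) (e := 2) (by omega) h1 h2 (by rwa [pow_one]) hk (by omega)).trans hc)
  simp only [List.mem_cons, List.not_mem_nil, or_false] at hd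
  rcases hd with rfl | rfl | rfl | rfl | rfl | rfl
  · exact absurd (key 1 (by norm_num)) (by norm_num)
  · exact absurd (key 2 (by norm_num)) (by norm_num)
  all_goals exact absurd (key 3 (by norm_num)) (by norm_num)

theorem three_le (hd : Odd d) {q : ℕ} (hq : q.Prime) (h : q ∣ d) : 3 ≤ q := by
  have h1 := hq.two_le
  obtain ⟨j, hj⟩ := hd.of_dvd_nat h
  omega

theorem ar_large (hd : Odd d) (hd' : d ∉ [1, 3, 5, 7, 9, 11, 15]) (hu : Odd u) (hp : ∀ q : ℕ, q.Prime → q ∣ d → q ∣ u)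
    (h1 : (2 * u + 1) ^ d ≤ n) (h2 : 2 * n ≤ c * F)
    (h3 : ∀ r : ℕ, (∀ q : ℕ, q.Prime → q ∣ d → r ≤ q) → F ^ (2 * r) ≤ n ^ (r + 1)) (hc : c ≤ u * d ^ 6)
    (h27 : d = 27 → u = 3 → c ≤ 3 * 729 * 33215) : False := by
  have u0 : 0 < u := hu.pos
  have key0 : ∀ s k, (∀ q : ℕ, q.Prime → q ∣ d → s + 1 ≤ q) → k * (s + 2 + s) ≤ d * s → 2 * (2 * u + 1) ^ k ≤ c :=
    fun s k hs hk => ar_key (b := s + 2) (e := s) (by omega) h1 h2
      (by rw [show s + 2 + s = 2 * (s + 1) by ring]; exact h3 _ hs) hk (by omega)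
  have key : ∀ s k v, (∀ q : ℕ, q.Prime → q ∣ d → s + 1 ≤ q) → (k + 1) * (s + 2 + s) ≤ d * s → v ≤ u →
      4 * (2 * v + 1) ^ k ≤ d ^ 6 := fun s k v hs hk hv => ar_end hv u0 ((key0 s _ hs hk).trans hc)
  have k3 := fun k v => key 2 k v fun q => three_le hd
  have kp : ∀ q : ℕ, q.Prime → q ∣ d → q ≤ u := fun q hq h => Nat.le_of_dvd u0 (hp q hq h)
  simp only [List.mem_cons, List.not_mem_nil, or_false, not_or] at hd'
  obtain ⟨q, hq, hqd⟩ := Nat.exists_prime_and_dvd hd'.1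
  have u3 : 3 ≤ u := (three_le hd hq hqd).trans (kp q hq hqd)
  by_cases h36 : 36 ≤ d
  · obtain ⟨k, hk⟩ : ∃ k, d / 3 = k + 12 := ⟨d / 3 - 12, by omega⟩
    have h4 := k3 (k + 11) 3 (by omega) u3
    have h5 : d ^ 6 ≤ (3 * (k + 12) + 2) ^ 6 := Nat.pow_le_pow_left (by omega) 6
    exact absurd (h4.trans h5) (not_le.2 (ar_ind k))
  obtain ⟨j, hj⟩ := hd
  have : d = 13 ∨ d = 17 ∨ d = 19 ∨ d = 21 ∨ d = 23 ∨ d = 25 ∨ d = 27 ∨ d = 29 ∨ d = 31 ∨ d = 33 ∨ d = 35 := by omega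
  clear hj hd' h36 hqd
  rcases this with rfl | rfl | rfl | rfl | rfl | rfl | rfl | rfl | rfl | rfl | rfl
  · exact absurd (key 12 5 13 (fun q hq h => ((Nat.prime_dvd_prime_iff_eq hq (by norm_num)).1 h).ge) (by norm_num)
      (kp 13 (by norm_num) dvd_rfl)) (by norm_num)
  · exact absurd (key 16 7 17 (fun q hq h => ((Nat.prime_dvd_prime_iff_eq hq (by norm_num)).1 h).ge) (by norm_num)
      (kp 17 (by norm_num) dvd_rfl)) (by norm_num)
  · exact absurd (k3 5 19 (by norm_num) (kp 19 (by norm_num) dvd_rfl)) (by norm_num)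
  · have h4 := hp 3 (by norm_num) (by norm_num)
    have h5 := hp 7 (by norm_num) (by norm_num)
    exact absurd (k3 6 21 (by norm_num) (by omega)) (by norm_num)
  · exact absurd (k3 6 23 (by norm_num) (kp 23 (by norm_num) dvd_rfl)) (by norm_num)
  · exact absurd (key 4 9 5 (fun q hq h => ((Nat.prime_dvd_prime_iff_eq hq Nat.prime_five).1
      (hq.dvd_of_dvd_pow (n := 2) h)).ge) (by norm_num) (kp 5 (by norm_num) (by norm_num))) (by norm_num)
  · by_cases h4 : u = 3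
    · have h5 := (key0 2 9 (fun q => three_le (by decide)) (by norm_num)).trans (h27 rfl h4)
      rw [h4] at h5
      exact absurd h5 (by norm_num)
    · have h5 := hp 3 (by norm_num) (by norm_num)
      obtain ⟨i, hi⟩ := hu
      exact absurd (k3 8 9 (by norm_num) (by omega)) (by norm_num)
  · exact absurd (k3 8 29 (by norm_num) (kp 29 (by norm_num) dvd_rfl)) (by norm_num)
  · exact absurd (k3 9 31 (by norm_num) (kp 31 (by norm_num) dvd_rfl)) (by norm_num)
  · exact absurd (k3 10 11 (by norm_num) (kp 11 (by norm_num) (by norm_num))) (by norm_num)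
  · exact absurd (k3 10 7 (by norm_num) (kp 7 (by norm_num) (by norm_num))) (by norm_num)

end Arith

section Count

variable {G V : Type*} [Group G] [Finite G] [AddCommGroup V] [Finite V] [DistribMulAction G V]

/-- double counting of the pairs `(x, v)` with `x • v = v` -/
theorem exists_fx {H : Subgroup G} (hG : Odd (Nat.card G)) (hv : ∀ v : V, H ⊓ MulAction.stabilizer G v ≠ ⊥) :
    ∃ x ∈ H, x ≠ 1 ∧ 2 * Nat.card V ≤ Nat.card H * Nat.card (fx G V x) := by
  classical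
  haveI := Fintype.ofFinite G
  haveI := Fintype.ofFinite V
  have hx : ∀ v : V, ∃ x ∈ H, x ≠ 1 ∧ x • v = v := fun v => by
    obtain ⟨x, h1, h2⟩ := (bot_or_exists_ne_one _).resolve_left (hv v)
    exact ⟨x, h1.1, h2, h1.2⟩
  let t : Finset G := {x | x ∈ H ∧ x ≠ 1}
  have ht : ∀ {x}, x ∈ t ↔ x ∈ H ∧ x ≠ 1 := by simp [t]
  obtain ⟨x, h1, h2⟩ := t.exists_max_image (fun x => Nat.card (fx G V x)) (by
    obtain ⟨x, h1, h2, -⟩ := hx 0
    exact ⟨x, ht.2 ⟨h1, h2⟩⟩)
  refine ⟨x, (ht.1 h1).1, (ht.1 h1).2, ?_⟩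
  have h3 := Finset.card_mul_le_card_mul (s := Finset.univ) (t := t) (fun (v : V) (g : G) => g • v = v) (m := 2)
    (n := Nat.card (fx G V x)) (fun v _ => by
      obtain ⟨g, g1, g2, g3⟩ := hx v
      refine Finset.one_lt_card.2 ⟨g, (Finset.mem_bipartiteAbove _).2 ⟨ht.2 ⟨g1, g2⟩, g3⟩, g⁻¹,
        (Finset.mem_bipartiteAbove _).2 ⟨ht.2 ⟨H.inv_mem g1, inv_ne_one.2 g2⟩, inv_smul_eq_iff.2 g3.symm⟩, fun e => g2 ?_⟩
      have := smul_eq_of_pow_coprime (n := 2) (x := (1 : G)) (g := g) (Nat.coprime_two_right.2 hG) (by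
        rw [sq, smul_eq_mul, mul_one, ← eq_inv_iff_mul_eq_one]; exact e)
      simpa using this) fun g hg => (h2 g hg).trans' (by
      rw [← Nat.card_eq_finsetCard]
      exact Nat.card_le_card_of_injective (fun v => ⟨v.1, fun b hb => (zpowers_le (H := MulAction.stabilizer G _)).2
        ((Finset.mem_bipartiteBelow _).1 v.2).2 hb⟩) fun v w e => Subtype.ext (Subtype.mk.inj e))
  rw [Finset.card_univ, ← Nat.card_eq_fintype_card, mul_comm] at h3
  refine h3.trans (Nat.mul_le_mul_right _ ?_)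
  rw [← Nat.card_eq_finsetCard]
  exact Nat.card_le_card_of_injective (fun x => ⟨x.1, (ht.1 x.2).1⟩) fun v w e => Subtype.ext (Subtype.mk.inj e)

omit [Finite G] in
/-- commuting actions of groups of coprime orders -/
theorem mul_index_le {Γ X : Type*} [Group Γ] [Finite Γ] [Finite X] [MulAction Γ X] [MulAction G X]
    (hc : ∀ (t : Γ) (l : G) (y : X), t • l • y = l • t • y) (hcop : (Nat.card Γ).Coprime (Nat.card G)) (x : X)
    (hx : ∀ t : Γ, t • x = x → t = 1) : Nat.card Γ * (MulAction.stabilizer G x).index ≤ Nat.card X := by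
  rw [MulAction.index_stabilizer, ← Nat.card_coe_set_eq, ← Nat.card_prod]
  refine Nat.card_le_card_of_injective (fun z => z.1 • (z.2 : X)) ?_
  rintro ⟨s, _, g, rfl⟩ ⟨t, _, l, rfl⟩ (e : s • g • x = t • l • x)
  have h1 : (t⁻¹ * s) • x = (g⁻¹ * l) • x := by
    rw [mul_smul, mul_smul, inv_smul_eq_iff, hc, eq_inv_smul_iff, ← hc, e]
  have h2 : ∀ k : ℕ, (t⁻¹ * s) ^ k • x = (g⁻¹ * l) ^ k • x := fun k => by
    induction k with
    | zero => simp
    | succ k ih => rw [pow_succ', mul_smul, ih, hc, h1, ← mul_smul, ← pow_succ]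
  have h3 : t = s := inv_mul_eq_one.1 (hx _ (smul_eq_of_pow_coprime hcop (by rw [h2, pow_card_eq_one', one_smul])))
  subst h3
  exact Prod.ext rfl (Subtype.ext (smul_left_cancel t e))

open Matrix.Module in
/-- modules over the field with three elements: a subgroup of order `16` of `GL(2, 3)` permutes the base pairs -/
theorem index_three (h3 : ∀ v : V, 3 • v = 0) (hG : Odd (Nat.card G)) (h : Reg G V 2) (h16 : 16 ≤ Nat.card V) :
    16 * (Kr G V).index ≤ Nat.card V ^ 2 := by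
  letI : Module (ZMod 3) V := AddCommGroup.zmodModule h3
  haveI : Fact (Nat.Prime 3) := ⟨Nat.prime_three⟩
  obtain ⟨x, hx⟩ := h
  obtain ⟨P, hP⟩ := Sylow.exists_subgroup_card_pow_prime (G := GL (Fin 2) (ZMod 3)) 2 (n := 4) (by
    rw [Matrix.card_GL_field]; simp [Fin.prod_univ_two])
  letI : MulAction P (Fin 2 → V) := MulAction.compHom _ ((Units.coeHom _).comp P.subtype)
  have hd : ∀ (t : P) (y : Fin 2 → V) i, (t • y) i = ∑ j, t.1.1 i j • y j := fun _ _ _ => rfl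
  have hl : ∀ (l : G) (a : ZMod 3) (v : V), l • a • v = a • l • v := fun l a v =>
    ZMod.map_smul (DistribSMul.toAddMonoidHom V l) _ _
  have hc : ∀ (t : P) (l : G) (y : Fin 2 → V), t • l • y = l • t • y := by
    intro t l y
    funext i
    rw [Pi.smul_apply, hd, hd, Finset.smul_sum]
    exact Finset.sum_congr rfl fun j _ => (hl _ _ _).symm
  by_cases hf : ∀ t : P, t • x = x → t = 1
  · have h1 := mul_index_le hc (by rw [hP]; exact (Nat.coprime_two_left.2 hG).pow_left 4) x hf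
    rw [hP, Nat.card_fun, Nat.card_eq_fintype_card (α := Fin 2), Fintype.card_fin] at h1
    exact (Nat.mul_le_mul_left _ (index_antitone fun g hg => mem_Kr.2 (hx g (congrFun hg)))).trans h1
  push Not at hf
  obtain ⟨t, e, h1⟩ := hf
  obtain ⟨i, j, h2⟩ : ∃ i j, (t.1.1 - 1) i j ≠ 0 := by
    by_contra h2
    push Not at h2
    exact h1 (Subtype.ext (Units.ext (sub_eq_zero.1 (Matrix.ext h2))))
  have h4 : ∑ j, (t.1.1 - 1) i j • x j = 0 := by
    have := congrFun e i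
    rw [hd] at this
    simp [sub_smul, Finset.sum_sub_distrib, this, Matrix.one_apply]
  have key : ∀ (a b : ZMod 3) (y z : V), a ≠ 0 → a • y + b • z = 0 → ∀ g : G, g • z = z → g • y = y :=
    fun a b y z ha e g hg => smul_right_injective V ha (by
      dsimp only
      rw [← hl, eq_neg_of_add_eq_zero_left e, smul_neg, hl, hg])
  rw [Fin.sum_univ_two] at h4
  have h5 : Reg G V 1 := by
    fin_cases j
    · exact ⟨fun _ => x 1, fun g hg => hx g (Fin.forall_fin_two.2 ⟨key _ _ _ _ h2 h4 g (hg 0), hg 0⟩)⟩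
    · exact ⟨fun _ => x 0, fun g hg => hx g (Fin.forall_fin_two.2 ⟨hg 0, key _ _ _ _ h2 ((add_comm _ _).trans h4) g (hg 0)⟩)⟩
  rw [sq]
  exact Nat.mul_le_mul h16 (pow_one (Nat.card V) ▸ index_Kr_le h5)

end Count

theorem card_C_three {G : Type u} [Group G] [Finite G] {U E : Subgroup G} (h : GS U E) (hs : Group.IsSolvable G)
    (hG : Odd (Nat.card G)) (hN : U.relIndex E = 27 ^ 2) (hU : Nat.card U = 3) : Nat.card C[U] ≤ 3 * 729 * 33215 := by
  obtain ⟨N, _, _, _, ν, s⟩ := exists_sec h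
  have h1 := index_three (G := G) (V := N) (fun w => by
    obtain ⟨a, ha, rfl⟩ := s.surj w
    rw [← natCast_zsmul, ← s.zpow ha, zpow_natCast]
    exact (s.zero _ (pow_mem ha _)).2 (hU ▸ h.pow_card_mem ha)) hG ((baseThm G N hs (s.cr h)).2 (Or.inl hG))
    (by rw [s.card, hN]; norm_num)
  have h2 := s.relIndex_le h
  rw [s.card, hN] at h1
  rw [card_C h, hU, hN]
  omega

end Od

open Od in
theorem oddThm (ha : AbThm.{u}) : OddThm.{u} := by
  intro G V _ _ _ _ _ _ hs p U E h hG hV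
  obtain ⟨D, ξ, m⟩ := exists_mx (V := V) E
  obtain ⟨hN, hn⟩ := shape_odd h m hG hV
  by_contra hne
  obtain ⟨x, hx, h1, h2⟩ := exists_fx (V := V) (H := dr ⊤ 1) hG fun v e =>
    hne ⟨v, gd_of_bot (eq_bot_iff.2 (e ▸ le_inf (dr_mono le_top 1) (dr_le _ 1)))⟩
  have hd : Odd (Nat.card D) := hG.of_dvd_nat (card_subgroup_dvd_card D)
  have hp : ∀ q : ℕ, q.Prime → q ∣ Nat.card D → q ∣ Nat.card U := fun q hq e =>
    prime_dvd_U h.toGS hq (hN ▸ e.trans (dvd_pow_self _ two_ne_zero))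
  have hr : ∀ {r : ℕ}, (∀ q : ℕ, q.Prime → q ∣ Nat.card D → r ≤ q) → ∀ q : ℕ, q.Prime → q ∣ U.relIndex E → r ≤ q :=
    fun H q hq e => H q hq (hq.dvd_of_dvd_pow (hN ▸ e))
  by_cases hsm : Nat.card D ∈ [1, 3, 5, 7, 9, 11, 15]
  swap
  · have hc := card_le_of_le (dr_one_le h.toGS)
    refine ar_large hd hsm (hG.of_dvd_nat (card_subgroup_dvd_card U)) hp hn h2
      (fun r H => card_fx_le h (hr H) (dr_one_le h.toGS hx) h1) (hc.trans ?_) fun e1 e2 =>
        hc.trans (card_C_three h.toGS hs hG (e1 ▸ hN) e2)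
    have := card_C_le_odd h.toGS hs hG
    rwa [hN, ← pow_mul] at this
  have hE : dr (⊤ : Subgroup G) 1 ≤ E := sec_le h.toGS le_rfl fun W _ _ _ k hi e p1 p2 => by
    obtain ⟨q, j, hq, hj⟩ := card_pow_of_irr hi
    rcases ar_div hsm (e.trans hN) p1 p2 (fun e => by
      rw [hj] at e
      have e3 := (Nat.prime_dvd_prime_iff_eq Nat.prime_three hq).1
        (Nat.prime_three.dvd_of_dvd_pow ((by norm_num : 3 ∣ 15).trans e))
      have e5 := (Nat.prime_dvd_prime_iff_eq Nat.prime_five hq).1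
        (Nat.prime_five.dvd_of_dvd_pow ((by norm_num : 5 ∣ 15).trans e))
      omega) with e1 | e1
    · haveI := (Nat.card_eq_one_iff_unique.1 e1).1
      exact fun _ _ _ => Subsingleton.elim _ _
    · exact ha G W hs hG hi e1
  have hc := card_le_of_le hE
  rw [card_E h.toGS, hN] at hc
  rcases List.mem_cons.1 hsm with e | e
  · rw [e] at hN hn hc
    rw [pow_one] at hn
    rw [card_fx_U h (relIndex_eq_one.1 hN (hE hx)) h1] at h2
    omega
  · have h3 : Nat.card D ≠ 1 := fun e' => by rw [e'] at e; simp at e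
    obtain ⟨q, hq, hqd⟩ := Nat.exists_prime_and_dvd h3
    refine ar_small e ((three_le hd hq hqd).trans (Nat.le_of_dvd Nat.card_pos (hp q hq hqd))) hn h2 ?_ hc
    by_cases h4 : x ∈ U
    · rw [card_fx_U h h4 h1]; exact Nat.card_pos
    · exact card_fx_E h (hr fun q => three_le hd) (hE hx) h4

end CL.SL.Vc
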